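import Cfsg.Statements.S0289
import Cfsg.Agent.Helper7.QuadCount

set_option autoImplicit false
open Cfsg

namespace Cfsg.Agent.S0289

/-- The hyperbolic quadratic form on F^(2m), m at least 1, has q^(2m-1) + q^m - q^(m-1) zeros (that is, (q^m - 1)(q^(m-1) + 1) non-zero isotropic vectors). -/
theorem result {F : Type*} [Field F] [Fintype F] {q : ℕ} (hF : Fintype.card F = q) (m : ℕ) (hm : 1 ≤ m) : Nat.card {v : Fin m ⊕ Fin m → F // Cfsg.quadFormPlus m F v = 0} = q ^ (2 * m - 1) + q ^ m - q ^ (m - 1) := by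
  classical
  let e : {v : Fin m ⊕ Fin m → F // Cfsg.quadFormPlus m F v = 0} ≃
      (Σ x : Fin m → F, {y : Fin m → F // ∑ i, x i * y i = 0}) :=
    { toFun := fun v => ⟨fun i => v.1 (Sum.inl i), ⟨fun i => v.1 (Sum.inr i), v.2⟩⟩
      invFun := fun p => ⟨Sum.elim p.1 p.2.1, p.2.2⟩
      left_inv := by
        intro v
        apply Subtype.ext
        funext i
        cases i <;> rfl
      right_inv := by
        intro p
        rfl }
  rw [Nat.card_congr e, Nat.card_sigma]
  have hterm : ∀ x : Fin m → F, Nat.card {y : Fin m → F // ∑ i, x i * y i = 0} =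
      if x = 0 then q ^ m else q ^ (m - 1) := by
    intro x
    split_ifs with hx
    · subst hx
      have : ∀ y : Fin m → F, ∑ i, (0 : Fin m → F) i * y i = 0 := by intro y; simp
      rw [Nat.card_congr (Equiv.subtypeUnivEquiv this), Nat.card_fun, Nat.card_fin,
        Nat.card_eq_fintype_card, hF]
    · exact Cfsg.Agent.Helper7.card_dot hF x hx 0
  simp_rw [hterm]
  rw [← Finset.add_sum_erase Finset.univ _ (Finset.mem_univ (0 : Fin m → F)), if_pos rfl]
  have h2 : ∑ x ∈ Finset.univ.erase (0 : Fin m → F), (if x = 0 then q ^ m else q ^ (m - 1)) =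
      (q ^ m - 1) * q ^ (m - 1) := by
    rw [Finset.sum_congr rfl (fun x hx => if_neg (Finset.ne_of_mem_erase hx)), Finset.sum_const,
      Finset.card_erase_of_mem (Finset.mem_univ _), Finset.card_univ, smul_eq_mul]
    congr 2
    rw [Fintype.card_fun, Fintype.card_fin, hF]
  rw [h2]
  have hq : 0 < q := by rw [← hF]; exact Fintype.card_pos
  have h3 : q ^ (2 * m - 1) = q ^ m * q ^ (m - 1) := by
    rw [← pow_add]; congr 1; omega
  have h4 : 1 ≤ q ^ m := Nat.one_le_pow _ _ hq
  have h5 : q ^ (m - 1) ≤ q ^ m * q ^ (m - 1) := Nat.le_mul_of_pos_left _ (by omega)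
  rw [h3, Nat.sub_mul, one_mul]
  omega

end Cfsg.Agent.S0289
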