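import Cfsg.Statements.S0290
import Cfsg.Agent.Helper7.QuadCount

set_option autoImplicit false
open Cfsg

namespace Cfsg.Agent.S0290

theorem aux {F : Type*} [Field F] [Fintype F] {q : ℕ} (hF : Fintype.card F = q) (k : ℕ) (a b : F)
    (hab : ∀ z₁ z₂ : F, z₁ ^ 2 + a * z₁ * z₂ + b * z₂ ^ 2 = 0 → z₁ = 0 ∧ z₂ = 0) :
    Nat.card {v : (Fin k ⊕ Fin k) ⊕ Fin 2 → F // Cfsg.quadFormMinus k F a b v = 0} =
      q ^ (2 * k + 1) + q ^ k - q ^ (k + 1) := by
  classical
  let e : {v : (Fin k ⊕ Fin k) ⊕ Fin 2 → F // Cfsg.quadFormMinus k F a b v = 0} ≃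
      (Σ z : Fin 2 → F, Σ x : Fin k → F, {y : Fin k → F //
        (∑ i, x i * y i) + (z 0 ^ 2 + a * z 0 * z 1 + b * z 1 ^ 2) = 0}) :=
    { toFun := fun v => ⟨fun j => v.1 (Sum.inr j), ⟨fun i => v.1 (Sum.inl (Sum.inl i)),
        ⟨fun i => v.1 (Sum.inl (Sum.inr i)), v.2⟩⟩⟩
      invFun := fun p => ⟨Sum.elim (Sum.elim p.2.1 p.2.2.1) p.1, p.2.2.2⟩
      left_inv := by
        intro v
        apply Subtype.ext
        funext i
        rcases i with (i | i) | i <;> rfl
      right_inv := by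
        intro p
        rfl }
  rw [Nat.card_congr e, Nat.card_sigma]
  have hq : 0 < q := by rw [← hF]; exact Fintype.card_pos
  have hinner : ∀ (c : F) (x : Fin k → F),
      Nat.card {y : Fin k → F // (∑ i, x i * y i) + c = 0} =
        if x = 0 then (if c = 0 then q ^ k else 0) else q ^ (k - 1) := by
    intro c x
    split_ifs with hx hc
    · subst hx; subst hc
      have : ∀ y : Fin k → F, (∑ i, (0 : Fin k → F) i * y i) + (0 : F) = 0 := by intro y; simp
      rw [Nat.card_congr (Equiv.subtypeUnivEquiv this), Nat.card_fun, Nat.card_fin,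
        Nat.card_eq_fintype_card, hF]
    · subst hx
      haveI : IsEmpty {y : Fin k → F // (∑ i, (0 : Fin k → F) i * y i) + c = 0} := by
        refine ⟨fun y => ?_⟩
        have h2 := y.2
        simp at h2
        exact hc h2
      exact Nat.card_of_isEmpty
    · rw [← Cfsg.Agent.Helper7.card_dot hF x hx (-c)]
      refine Nat.card_congr (Equiv.subtypeEquivRight (fun y => ?_))
      constructor
      · intro h; exact eq_neg_of_add_eq_zero_left h
      · intro h; rw [h]; ring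
  have hz : ∀ z : Fin 2 → F,
      Nat.card (Σ x : Fin k → F, {y : Fin k → F //
        (∑ i, x i * y i) + (z 0 ^ 2 + a * z 0 * z 1 + b * z 1 ^ 2) = 0}) =
      (if z = 0 then q ^ k else 0) + (q ^ k - 1) * q ^ (k - 1) := by
    intro z
    rw [Nat.card_sigma]
    simp_rw [hinner]
    rw [← Finset.add_sum_erase Finset.univ _ (Finset.mem_univ (0 : Fin k → F)), if_pos rfl]
    have h2 : ∑ x ∈ Finset.univ.erase (0 : Fin k → F),
        (if x = 0 then (if z 0 ^ 2 + a * z 0 * z 1 + b * z 1 ^ 2 = 0 then q ^ k else 0)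
          else q ^ (k - 1)) = (q ^ k - 1) * q ^ (k - 1) := by
      rw [Finset.sum_congr rfl (fun x hx => if_neg (Finset.ne_of_mem_erase hx)), Finset.sum_const,
        Finset.card_erase_of_mem (Finset.mem_univ _), Finset.card_univ, smul_eq_mul]
      congr 2
      rw [Fintype.card_fun, Fintype.card_fin, hF]
    rw [h2]
    congr 1
    have hiff : (z 0 ^ 2 + a * z 0 * z 1 + b * z 1 ^ 2 = 0) ↔ z = 0 := by
      constructor
      · intro h
        obtain ⟨h0, h1⟩ := hab _ _ h
        funext j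
        fin_cases j
        · exact h0
        · exact h1
      · intro h; subst h; simp
    by_cases hz0 : z = 0
    · rw [if_pos hz0, if_pos (hiff.mpr hz0)]
    · rw [if_neg hz0, if_neg (fun h => hz0 (hiff.mp h))]
  simp_rw [hz]
  rw [Finset.sum_add_distrib, Finset.sum_ite_eq' Finset.univ (0 : Fin 2 → F) (fun _ => q ^ k),
    if_pos (Finset.mem_univ _), Finset.sum_const, Finset.card_univ, Fintype.card_fun,
    Fintype.card_fin, hF, smul_eq_mul]
  rcases Nat.eq_zero_or_pos k with hk | hk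
  · subst hk; simp
  · obtain ⟨j, rfl⟩ : ∃ j, k = j + 1 := ⟨k - 1, by omega⟩
    have h1 : q ^ 2 * ((q ^ (j + 1) - 1) * q ^ (j + 1 - 1)) = q ^ (2 * (j + 1) + 1) - q ^ (j + 1 + 1) := by
      rw [Nat.add_sub_cancel, Nat.sub_mul, one_mul, Nat.mul_sub]
      congr 1
      · ring
      · ring
    rw [h1]
    have h2 : q ^ (j + 1 + 1) ≤ q ^ (2 * (j + 1) + 1) := Nat.pow_le_pow_right hq (by omega)
    omega

/-- The minus-type quadratic form on F^(2m), m at least 1, has q^(2m-1) + q^(m-1) - q^m zeros (that is, (q^m + 1)(q^(m-1) - 1) non-zero isotropic vectors). -/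
theorem result {F : Type*} [Field F] [Fintype F] {q : ℕ} (hF : Fintype.card F = q) (m : ℕ) (hm : 1 ≤ m) (a b : F) (hab : ∀ z₁ z₂ : F, z₁ ^ 2 + a * z₁ * z₂ + b * z₂ ^ 2 = 0 → z₁ = 0 ∧ z₂ = 0) : Nat.card {v : (Fin (m - 1) ⊕ Fin (m - 1)) ⊕ Fin 2 → F // Cfsg.quadFormMinus (m - 1) F a b v = 0} = q ^ (2 * m - 1) + q ^ (m - 1) - q ^ m := by
  rw [aux hF (m - 1) a b hab]
  have h1 : 2 * (m - 1) + 1 = 2 * m - 1 := by omega
  have h2 : m - 1 + 1 = m := by omega
  rw [h1, h2]

end Cfsg.Agent.S0290
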