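import Cfsg.Statements.S2616
import Cfsg.Agent.Helper5.QFStd

set_option autoImplicit false
open Cfsg

namespace Cfsg.Agent.S2616

/-- Standard bases of a non-degenerate quadratic space of even dimension 2m over a finite field: either there is a hyperbolic basis e_i, f_i (Q(e_i) = Q(f_i) = 0, B(e_i, f_j) = δ_ij, the e's pairwise orthogonal and the f's pairwise orthogonal, B the polar form), or there is an elliptic basis: hyperbolic pairs e_i, f_i for i < m − 1 together with x, y orthogonal to them with Q(x) = 1, B(x, y) = 1, Q(y) = ζ where t² + t + ζ has no root in the field. -/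
theorem result {F V : Type*} [Field F] [Finite F] [AddCommGroup V] [Module F V] [FiniteDimensional F V] {m : ℕ} (hm : 1 ≤ m) (hV : Module.finrank F V = 2 * m) (Q : QuadraticForm F V) (hQ : (QuadraticMap.polarBilin Q).Nondegenerate) : (∃ b : Module.Basis (Fin m ⊕ Fin m) F V, (∀ i, Q (b (Sum.inl i)) = 0 ∧ Q (b (Sum.inr i)) = 0) ∧ (∀ i j, QuadraticMap.polar ⇑Q (b (Sum.inl i)) (b (Sum.inr j)) = if i = j then 1 else 0) ∧ (∀ i j, QuadraticMap.polar ⇑Q (b (Sum.inl i)) (b (Sum.inl j)) = 0 ∧ QuadraticMap.polar ⇑Q (b (Sum.inr i)) (b (Sum.inr j)) = 0)) ∨ (∃ (b : Module.Basis ((Fin (m - 1) ⊕ Fin (m - 1)) ⊕ Fin 2) F V) (ζ : F), (∀ t : F, t ^ 2 + t + ζ ≠ 0) ∧ (∀ i, Q (b (Sum.inl (Sum.inl i))) = 0 ∧ Q (b (Sum.inl (Sum.inr i))) = 0) ∧ (∀ i j, QuadraticMap.polar ⇑Q (b (Sum.inl (Sum.inl i))) (b (Sum.inl (Sum.inr j))) = if i = j then 1 else 0) ∧ (∀ i j, QuadraticMap.polar ⇑Q (b (Sum.inl (Sum.inl i))) (b (Sum.inl (Sum.inl j))) = 0 ∧ QuadraticMap.polar ⇑Q (b (Sum.inl (Sum.inr i))) (b (Sum.inl (Sum.inr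 j))) = 0) ∧ (∀ i (k : Fin 2), QuadraticMap.polar ⇑Q (b (Sum.inl (Sum.inl i))) (b (Sum.inr k)) = 0 ∧ QuadraticMap.polar ⇑Q (b (Sum.inl (Sum.inr i))) (b (Sum.inr k)) = 0) ∧ Q (b (Sum.inr 0)) = 1 ∧ QuadraticMap.polar ⇑Q (b (Sum.inr 0)) (b (Sum.inr 1)) = 1 ∧ Q (b (Sum.inr 1)) = ζ) := by
  classical
  obtain ⟨e, f, hH⟩ := Cfsg.Agent.Helper5.qf_hyp_exists Q hQ (m - 1) (by rw [hV]; omega)
  by_cases hs : ∃ e₀ : V, e₀ ≠ 0 ∧ Q e₀ = 0 ∧ Cfsg.Agent.Helper5.qfPerp Q (m - 1) e f e₀
  · left
    obtain ⟨e₀, he0, hQe, hp⟩ := hs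
    obtain ⟨f₀, hH'⟩ := Cfsg.Agent.Helper5.qf_ext Q hQ (m - 1) e f hH e₀ he0 hQe hp
    rw [Nat.sub_add_cancel hm] at hH'
    obtain ⟨e', he'⟩ : ∃ e', e' = Function.update e (m - 1) e₀ := ⟨_, rfl⟩
    obtain ⟨f', hf'⟩ : ∃ f', f' = Function.update f (m - 1) f₀ := ⟨_, rfl⟩
    rw [← he', ← hf'] at hH'
    obtain ⟨v, hv⟩ : ∃ v : Fin m ⊕ Fin m → V,
        v = Sum.elim (fun i : Fin m => e' i) (fun i : Fin m => f' i) := ⟨_, rfl⟩
    have hli : LinearIndependent F v := by
      rw [Fintype.linearIndependent_iff]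
      intro g hg
      rw [hv] at hg
      simp only [Fintype.sum_sum_type, Sum.elim_inl, Sum.elim_inr] at hg
      rintro (j | j)
      · have h1 := congrArg (QuadraticMap.polar ⇑Q (f' j)) hg
        rw [(Cfsg.Agent.Helper5.qf_pair Q m e' f' hH' _ _ j).1,
          QuadraticMap.polar_zero_right] at h1
        exact h1
      · have h1 := congrArg (QuadraticMap.polar ⇑Q (e' j)) hg
        rw [(Cfsg.Agent.Helper5.qf_pair Q m e' f' hH' _ _ j).2,
          QuadraticMap.polar_zero_right] at h1
        exact h1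
    haveI : Nonempty (Fin m ⊕ Fin m) := ⟨Sum.inl ⟨0, hm⟩⟩
    obtain ⟨b, hb⟩ : ∃ b : Module.Basis (Fin m ⊕ Fin m) F V, ⇑b = v :=
      ⟨basisOfLinearIndependentOfCardEqFinrank hli
        (by simp only [Fintype.card_sum, Fintype.card_fin, hV]; omega),
        coe_basisOfLinearIndependentOfCardEqFinrank _ _⟩
    refine ⟨b, ?_, ?_, ?_⟩
    · intro i
      rw [hb, hv]
      simp only [Sum.elim_inl, Sum.elim_inr]
      exact ⟨(hH' i i.2).1, (hH' i i.2).2.1⟩
    · intro i j
      rw [hb, hv]
      simp only [Sum.elim_inl, Sum.elim_inr]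
      rw [((hH' i i.2).2.2 j j.2).1]
      simp [Fin.ext_iff]
    · intro i j
      rw [hb, hv]
      simp only [Sum.elim_inl, Sum.elim_inr]
      exact ⟨((hH' i i.2).2.2 j j.2).2.1, ((hH' i i.2).2.2 j j.2).2.2⟩
  · right
    have hani : ∀ u : V, Cfsg.Agent.Helper5.qfPerp Q (m - 1) e f u → Q u = 0 → u = 0 := by
      intro u hu hQu
      by_contra h0
      exact hs ⟨u, h0, hQu, hu⟩
    obtain ⟨u1, hu1, hp1, -⟩ := Cfsg.Agent.Helper5.qf_exists_perp Q (m - 1) e f []
      (by rw [hV]; simp only [List.length_nil]; omega)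
    obtain ⟨w1, hw1⟩ := Cfsg.Agent.Helper5.qf_exists_pair Q hQ u1 hu1
    obtain ⟨u2, hu2, hp2, hx2⟩ := Cfsg.Agent.Helper5.qf_exists_perp Q (m - 1) e f [w1]
      (by rw [hV]; simp only [List.length_cons, List.length_nil]; omega)
    have h12 : QuadraticMap.polar ⇑Q w1 u2 = 0 := hx2 w1 (by simp)
    obtain ⟨s, t, w, hne, heq⟩ := Cfsg.Agent.Helper5.qf_cw3 (Q u1) (Q u2) (-1)
      (QuadraticMap.polar ⇑Q u1 u2) 0 0
    have hperp_st : ∀ a b : F, Cfsg.Agent.Helper5.qfPerp Q (m - 1) e f (a • u1 + b • u2) := by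
      intro a b i hi
      obtain ⟨a1, b1⟩ := hp1 i hi
      obtain ⟨a2, b2⟩ := hp2 i hi
      simp only [QuadraticMap.polar_add_right, QuadraticMap.polar_smul_right, a1, a2, b1, b2,
        smul_zero, add_zero, and_self]
    have hQst : ∀ a b : F, Q (a • u1 + b • u2)
        = Q u1 * a ^ 2 + Q u2 * b ^ 2 + QuadraticMap.polar ⇑Q u1 u2 * a * b := by
      intro a b
      rw [Cfsg.Agent.Helper5.qf_add, Cfsg.Agent.Helper5.qf_smul, Cfsg.Agent.Helper5.qf_smul]
      simp only [QuadraticMap.polar_smul_left, QuadraticMap.polar_smul_right, smul_eq_mul]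
      ring
    have hst0 : ∀ a b : F, a • u1 + b • u2 = 0 → a = 0 ∧ b = 0 := by
      intro a b h0
      have e1 : QuadraticMap.polar ⇑Q w1 (a • u1 + b • u2)
          = a * QuadraticMap.polar ⇑Q w1 u1 := by
        simp only [QuadraticMap.polar_add_right, QuadraticMap.polar_smul_right, h12,
          smul_eq_mul, mul_zero, add_zero]
      rw [h0, QuadraticMap.polar_zero_right] at e1
      have ha : a = 0 := by
        rcases mul_eq_zero.mp e1.symm with h | h
        · exact h
        · exact absurd h hw1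
      rw [ha, zero_smul, zero_add] at h0
      refine ⟨ha, ?_⟩
      rcases smul_eq_zero.mp h0 with h | h
      · exact h
      · exact absurd h hu2
    have hw : w ≠ 0 := by
      intro hw0
      have hz : s • u1 + t • u2 = 0 := by
        apply hani _ (hperp_st s t)
        rw [hQst]
        rw [hw0] at heq
        linear_combination heq
      obtain ⟨hs0, ht0⟩ := hst0 s t hz
      exact hne ⟨hs0, ht0, hw0⟩
    obtain ⟨x, hx⟩ : ∃ x, x = (s / w) • u1 + (t / w) • u2 := ⟨_, rfl⟩
    have hxp : Cfsg.Agent.Helper5.qfPerp Q (m - 1) e f x := by rw [hx]; exact hperp_st _ _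
    have hQx : Q x = 1 := by
      rw [hx, hQst]
      field_simp
      linear_combination heq
    have hx0 : x ≠ 0 := by
      intro h
      rw [h, QuadraticMap.map_zero] at hQx
      exact zero_ne_one hQx
    obtain ⟨z, hzp, hz⟩ := Cfsg.Agent.Helper5.qf_nd Q hQ (m - 1) e f hH x hx0 hxp
    obtain ⟨y, hyp, hxy, hyx⟩ : ∃ y : V, Cfsg.Agent.Helper5.qfPerp Q (m - 1) e f y ∧
        QuadraticMap.polar ⇑Q x y = 1 ∧ ∀ a : F, y ≠ a • x := by
      by_cases hzx : ∃ a : F, z = a • x
      · obtain ⟨a, ha⟩ := hzx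
        obtain ⟨u, hu0, hup, hux⟩ := Cfsg.Agent.Helper5.qf_exists_perp Q (m - 1) e f [x]
          (by rw [hV]; simp only [List.length_cons, List.length_nil]; omega)
        have hxu : QuadraticMap.polar ⇑Q x u = 0 := hux x (by simp)
        have h2a : a * (2 : F) = 1 := by
          have h3 := hz
          rw [ha, QuadraticMap.polar_smul_right, Cfsg.Agent.Helper5.qf_polar_self, hQx,
            smul_eq_mul, mul_one] at h3
          exact h3
        refine ⟨z + u, ?_, ?_, ?_⟩
        · intro i hi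
          obtain ⟨a1, b1⟩ := hzp i hi
          obtain ⟨a2, b2⟩ := hup i hi
          simp only [QuadraticMap.polar_add_right, a1, a2, b1, b2, add_zero, and_self]
        · rw [QuadraticMap.polar_add_right, hz, hxu, add_zero]
        · intro a' h
          have hu' : u = (a' - a) • x := by
            rw [sub_smul, ← h, ha]; abel
          have h4 : (a' - a) * (2 : F) = 0 := by
            have h3 := hxu
            rw [hu', QuadraticMap.polar_smul_right, Cfsg.Agent.Helper5.qf_polar_self, hQx,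
              smul_eq_mul, mul_one] at h3
            exact h3
          have h2ne : (2 : F) ≠ 0 := by
            intro h2
            rw [h2, mul_zero] at h2a
            exact zero_ne_one h2a
          have h5 : a' - a = 0 := by
            rcases mul_eq_zero.mp h4 with h | h
            · exact h
            · exact absurd h h2ne
          rw [h5, zero_smul] at hu'
          exact hu0 hu'
      · exact ⟨z, hzp, hz, fun a h => hzx ⟨a, h⟩⟩
    have hQty : ∀ t' : F, Q (t' • x + y) = t' ^ 2 + t' + Q y := by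
      intro t'
      rw [Cfsg.Agent.Helper5.qf_add, Cfsg.Agent.Helper5.qf_smul, hQx,
        QuadraticMap.polar_smul_left, hxy, smul_eq_mul]
      ring
    have hζ : ∀ t' : F, t' ^ 2 + t' + Q y ≠ 0 := by
      intro t' h
      have h0 : t' • x + y = 0 := by
        apply hani
        · intro i hi
          obtain ⟨a1, b1⟩ := hxp i hi
          obtain ⟨a2, b2⟩ := hyp i hi
          simp only [QuadraticMap.polar_add_right, QuadraticMap.polar_smul_right, a1, a2, b1, b2,
            smul_zero, add_zero, and_self]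
        · rw [hQty]; exact h
      apply hyx (-t')
      rw [neg_smul]
      exact eq_neg_of_add_eq_zero_right h0
    obtain ⟨v, hv⟩ : ∃ v : (Fin (m - 1) ⊕ Fin (m - 1)) ⊕ Fin 2 → V,
        v = Sum.elim (Sum.elim (fun i : Fin (m - 1) => e i) (fun i : Fin (m - 1) => f i))
          ![x, y] := ⟨_, rfl⟩
    have hli : LinearIndependent F v := by
      rw [Fintype.linearIndependent_iff]
      intro g hg
      rw [hv] at hg
      simp only [Fintype.sum_sum_type, Sum.elim_inl, Sum.elim_inr, Fin.sum_univ_two,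
        Matrix.cons_val_zero, Matrix.cons_val_one] at hg
      have ha : ∀ j : Fin (m - 1), g (Sum.inl (Sum.inl j)) = 0 := by
        intro j
        have h1 := congrArg (QuadraticMap.polar ⇑Q (f j)) hg
        rw [QuadraticMap.polar_add_right,
          (Cfsg.Agent.Helper5.qf_pair Q (m - 1) e f hH _ _ j).1, QuadraticMap.polar_add_right,
          QuadraticMap.polar_smul_right, QuadraticMap.polar_smul_right, (hxp j j.2).2,
          (hyp j j.2).2, smul_zero, smul_zero, add_zero, add_zero,
          QuadraticMap.polar_zero_right] at h1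
        exact h1
      have hb : ∀ j : Fin (m - 1), g (Sum.inl (Sum.inr j)) = 0 := by
        intro j
        have h1 := congrArg (QuadraticMap.polar ⇑Q (e j)) hg
        rw [QuadraticMap.polar_add_right,
          (Cfsg.Agent.Helper5.qf_pair Q (m - 1) e f hH _ _ j).2, QuadraticMap.polar_add_right,
          QuadraticMap.polar_smul_right, QuadraticMap.polar_smul_right, (hxp j j.2).1,
          (hyp j j.2).1, smul_zero, smul_zero, add_zero, add_zero,
          QuadraticMap.polar_zero_right] at h1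
        exact h1
      simp only [ha, hb, zero_smul, Finset.sum_const_zero, add_zero, zero_add] at hg
      have hd : g (Sum.inr 1) = 0 := by
        by_contra hd
        apply hyx (-(g (Sum.inr 0)) / g (Sum.inr 1))
        have h1 : g (Sum.inr 1) • y = -(g (Sum.inr 0) • x) := eq_neg_of_add_eq_zero_right hg
        calc y = (g (Sum.inr 1))⁻¹ • (g (Sum.inr 1) • y) := by
              rw [smul_smul, inv_mul_cancel₀ hd, one_smul]
          _ = (-(g (Sum.inr 0)) / g (Sum.inr 1)) • x := by
              rw [h1, ← neg_smul, smul_smul, div_eq_mul_inv, mul_comm]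
      have hc : g (Sum.inr 0) = 0 := by
        rw [hd, zero_smul, add_zero] at hg
        rcases smul_eq_zero.mp hg with h | h
        · exact h
        · exact absurd h hx0
      rintro ((i | i) | i)
      · exact ha i
      · exact hb i
      · fin_cases i
        · exact hc
        · exact hd
    haveI : Nonempty ((Fin (m - 1) ⊕ Fin (m - 1)) ⊕ Fin 2) := ⟨Sum.inr 0⟩
    obtain ⟨b, hb⟩ : ∃ b : Module.Basis ((Fin (m - 1) ⊕ Fin (m - 1)) ⊕ Fin 2) F V, ⇑b = v :=
      ⟨basisOfLinearIndependentOfCardEqFinrank hli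
        (by simp only [Fintype.card_sum, Fintype.card_fin, hV]; omega),
        coe_basisOfLinearIndependentOfCardEqFinrank _ _⟩
    have hk : ∀ k : Fin 2, ![x, y] k = x ∨ ![x, y] k = y := by
      intro k
      fin_cases k
      · left; rfl
      · right; rfl
    refine ⟨b, Q y, hζ, ?_, ?_, ?_, ?_, ?_, ?_, ?_⟩
    · intro i
      rw [hb, hv]
      simp only [Sum.elim_inl, Sum.elim_inr]
      exact ⟨(hH i i.2).1, (hH i i.2).2.1⟩
    · intro i j
      rw [hb, hv]
      simp only [Sum.elim_inl, Sum.elim_inr]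
      rw [((hH i i.2).2.2 j j.2).1]
      simp [Fin.ext_iff]
    · intro i j
      rw [hb, hv]
      simp only [Sum.elim_inl, Sum.elim_inr]
      exact ⟨((hH i i.2).2.2 j j.2).2.1, ((hH i i.2).2.2 j j.2).2.2⟩
    · intro i k
      rw [hb, hv]
      simp only [Sum.elim_inl, Sum.elim_inr]
      rcases hk k with h | h
      · rw [h]; exact ⟨(hxp i i.2).1, (hxp i i.2).2⟩
      · rw [h]; exact ⟨(hyp i i.2).1, (hyp i i.2).2⟩
    · rw [hb, hv]
      simp only [Sum.elim_inr]
      exact hQx
    · rw [hb, hv]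
      simp only [Sum.elim_inr]
      exact hxy
    · rw [hb, hv]
      simp only [Sum.elim_inr]
      rfl

end Cfsg.Agent.S2616
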