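import Cfsg.Statements.S0262
import Mathlib
import Cfsg.Agent.Helper1.LinearCard
import Cfsg.Agent.Helper4.Basic

set_option autoImplicit false
open Cfsg

namespace Cfsg.Agent.S0262

open Matrix in
/-- The diagonal torus. -/
def torus (K : Type*) [Field K] : Kˣ →* SpecialLinearGroup (Fin 2) K where
  toFun a := ⟨!![(a : K), 0; 0, ((a⁻¹ : Kˣ) : K)], by simp [Matrix.det_fin_two]⟩
  map_one' := by
    apply Subtype.ext
    ext i j
    fin_cases i <;> fin_cases j <;> simp
  map_mul' a b := by
    apply Subtype.ext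
    show (!![((a * b : Kˣ) : K), 0; 0, (((a * b)⁻¹ : Kˣ) : K)] : Matrix (Fin 2) (Fin 2) K) =
      !![(a : K), 0; 0, ((a⁻¹ : Kˣ) : K)] * !![(b : K), 0; 0, ((b⁻¹ : Kˣ) : K)]
    ext i j
    fin_cases i <;> fin_cases j <;> simp [Matrix.mul_apply, Fin.sum_univ_two, mul_comm]

open Matrix in
theorem torus_injective (K : Type*) [Field K] : Function.Injective (torus K) := by
  intro a b h
  have := congrArg (fun g : SpecialLinearGroup (Fin 2) K => (g : Matrix (Fin 2) (Fin 2) K) 0 0) h
  exact Units.ext this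

open Matrix in
theorem card_SL2 (K : Type*) [Field K] [Fintype K] :
    Nat.card (SpecialLinearGroup (Fin 2) K) = Fintype.card K * (Fintype.card K ^ 2 - 1) := by
  classical
  have h1 := Cfsg.Agent.Helper1.card_GL_eq_mul_card_SL (F := K) 2 (by norm_num)
  rw [Matrix.card_GL_field, Fin.prod_univ_two] at h1
  simp only [Fin.val_zero, Fin.val_one, pow_zero, pow_one] at h1
  have hq : 2 ≤ Fintype.card K := Fintype.one_lt_card
  obtain ⟨r, hr⟩ : ∃ r, Fintype.card K = r + 2 := ⟨Fintype.card K - 2, by omega⟩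
  rw [hr] at h1 ⊢
  have e1 : (r + 2) ^ 2 - 1 = (r + 1) * (r + 3) := by
    have : (r + 2) ^ 2 = (r + 1) * (r + 3) + 1 := by ring
    omega
  have e2 : (r + 2) ^ 2 - (r + 2) = (r + 2) * (r + 1) := by
    have : (r + 2) ^ 2 = (r + 2) * (r + 1) + (r + 2) := by ring
    omega
  have e3 : r + 2 - 1 = r + 1 := by omega
  rw [e1, e2, e3] at h1
  rw [e1]
  apply Nat.eq_of_mul_eq_mul_left (show 0 < r + 1 by positivity)
  rw [← h1]
  ring

open Matrix in
theorem main {F : Type*} [Field F] [Fintype F] (K : Type*) [Field K] [Fintype K] [Algebra F K]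
    (hK : Fintype.card K = Fintype.card F ^ 2) (r : ℕ) [Fact r.Prime] (hr2 : r ≠ 2)
    (hrq : ¬ r ∣ Fintype.card F) (hdiv : r ∣ Fintype.card F ^ 2 - 1)
    (R : Sylow r (SpecialLinearGroup (Fin 2) F)) :
    IsCyclic (R : Subgroup (SpecialLinearGroup (Fin 2) F)) := by
  classical
  have hr := (Fact.out : r.Prime)
  have hφ : Function.Injective (SpecialLinearGroup.map (n := Fin 2) (algebraMap F K)) := by
    intro a b hab
    apply Subtype.ext
    have h1 := congrArg Subtype.val hab
    ext i j
    have h2 := congrFun (congrFun h1 i) j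
    exact (algebraMap F K).injective (by simpa using h2)
  obtain ⟨s, hs⟩ : ∃ s, Fintype.card F ^ 2 = s + 1 :=
    ⟨Fintype.card F ^ 2 - 1, by have : 0 < Fintype.card F ^ 2 := by positivity
                                omega⟩
  rw [hs] at hK hdiv
  rw [Nat.add_sub_cancel] at hdiv
  have hs1 : ¬ r ∣ s + 1 := by
    rw [← hs]
    exact fun h => hrq (hr.dvd_of_dvd_pow h)
  have hs2 : ¬ r ∣ s + 2 := by
    intro h
    have h2 : r ∣ 2 := (Nat.dvd_add_right hdiv).1 h
    exact hr2 ((Nat.prime_dvd_prime_iff_eq hr Nat.prime_two).1 h2)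
  have hs0 : s ≠ 0 := by
    rintro rfl
    have : 2 ≤ Fintype.card F := Fintype.one_lt_card
    have : 4 ≤ Fintype.card F ^ 2 := by nlinarith
    omega
  let T₀ : Sylow r Kˣ := default
  have h1 : Nat.card ((T₀ : Subgroup Kˣ).map (torus K)) = Nat.card (T₀ : Subgroup Kˣ) :=
    Nat.card_congr (Subgroup.equivMapOfInjective _ _ (torus_injective K)).toEquiv.symm
  have h2 : Nat.card (T₀ : Subgroup Kˣ) = r ^ (Nat.card Kˣ).factorization r :=
    Sylow.card_eq_multiplicity T₀
  have h3 : (Nat.card Kˣ).factorization r =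
      (Nat.card (SpecialLinearGroup (Fin 2) K)).factorization r := by
    rw [Nat.card_units, Nat.card_eq_fintype_card, card_SL2, hK, Nat.add_sub_cancel]
    have e : (s + 1) * ((s + 1) ^ 2 - 1) = s * ((s + 1) * (s + 2)) := by
      have : (s + 1) ^ 2 - 1 = s * (s + 2) := by
        have : (s + 1) ^ 2 = s * (s + 2) + 1 := by ring
        omega
      rw [this]
      ring
    rw [e, Nat.factorization_mul hs0 (by positivity), Finsupp.add_apply,
      Nat.factorization_eq_zero_of_not_dvd
        (fun h => (hr.dvd_mul.1 h).elim hs1 hs2), add_zero]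
  have hcardS : Nat.card ((T₀ : Subgroup Kˣ).map (torus K)) =
      r ^ (Nat.card (SpecialLinearGroup (Fin 2) K)).factorization r := by
    rw [h1, h2, h3]
  have hRφ : IsPGroup r ((R : Subgroup (SpecialLinearGroup (Fin 2) F)).map
      (SpecialLinearGroup.map (n := Fin 2) (algebraMap F K))) := R.isPGroup'.map _
  obtain ⟨h, hh⟩ := Cfsg.Agent.Helper4.exists_conj_mem_sylow (Sylow.ofCard _ hcardS) _ hRφ
  let ψ : (R : Subgroup (SpecialLinearGroup (Fin 2) F)) →* SpecialLinearGroup (Fin 2) K :=
    ((MulAut.conj h⁻¹).toMonoidHom.comp (SpecialLinearGroup.map (n := Fin 2) (algebraMap F K))).comp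
      (R : Subgroup (SpecialLinearGroup (Fin 2) F)).subtype
  have hψinj : Function.Injective ψ := by
    intro a b hab
    apply Subtype.ext
    apply hφ
    exact (MulAut.conj h⁻¹).injective hab
  have hψmem : ∀ x, ψ x ∈ (torus K).range := by
    intro x
    have h4 := hh _ (Subgroup.mem_map_of_mem (SpecialLinearGroup.map (n := Fin 2) (algebraMap F K)) x.2)
    rw [Sylow.coe_ofCard] at h4
    obtain ⟨a, -, ha⟩ := Subgroup.mem_map.1 h4
    refine ⟨a, ?_⟩
    rw [ha]
    simp [ψ]
  haveI : IsCyclic (torus K).range :=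
    isCyclic_of_surjective (torus K).rangeRestrict (torus K).rangeRestrict_surjective
  exact isCyclic_of_injective (ψ.codRestrict (torus K).range hψmem)
    (fun a b hab => hψinj (congrArg Subtype.val hab))

/-- For an odd prime r different from the characteristic, the Sylow r-subgroups of SL_2(q) are cyclic. -/
theorem result {F : Type*} [Field F] [Fintype F] (p : ℕ) [Fact p.Prime] [CharP F p] (r : ℕ) [Fact r.Prime] (hr : r ≠ 2) (hrp : r ≠ p) (R : Sylow r (Matrix.SpecialLinearGroup (Fin 2) F)) : IsCyclic (R : Subgroup (Matrix.SpecialLinearGroup (Fin 2) F)) := by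
  classical
  have hr' := (Fact.out : r.Prime)
  have hp := (Fact.out : p.Prime)
  obtain ⟨f, -, hf⟩ := FiniteField.card F p
  have hrq : ¬ r ∣ Fintype.card F := by
    rw [hf]
    intro h
    exact hrp ((Nat.prime_dvd_prime_iff_eq hr' hp).1 (hr'.dvd_of_dvd_pow h))
  by_cases hdiv : r ∣ Fintype.card F ^ 2 - 1
  · haveI : Fintype (FiniteField.Extension F p 2) := Fintype.ofFinite _
    have hK : Fintype.card (FiniteField.Extension F p 2) = Fintype.card F ^ 2 := by
      rw [Fintype.card_eq_nat_card, FiniteField.natCard_extension, Nat.card_eq_fintype_card]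
    exact main (FiniteField.Extension F p 2) hK r hr hrq hdiv R
  · have h1 : Nat.card (R : Subgroup (Matrix.SpecialLinearGroup (Fin 2) F)) = 1 := by
      have h2 : Nat.card (R : Subgroup (Matrix.SpecialLinearGroup (Fin 2) F)) =
          r ^ (Nat.card (Matrix.SpecialLinearGroup (Fin 2) F)).factorization r :=
        Sylow.card_eq_multiplicity R
      rw [h2, card_SL2, Nat.factorization_eq_zero_of_not_dvd, pow_zero]
      intro h
      exact (hr'.dvd_mul.1 h).elim hrq hdiv
    haveI : Subsingleton (R : Subgroup (Matrix.SpecialLinearGroup (Fin 2) F)) :=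
      (Nat.card_eq_one_iff_unique.1 h1).1
    infer_instance

end Cfsg.Agent.S0262
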