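import Cfsg.Statements.S3012
import Mathlib

set_option autoImplicit false
open Cfsg

namespace Cfsg.Agent.S3012

/-- Let G be a finite group, V a nontrivial elementary abelian 2-subgroup of G satisfying the Sidki pair condition (every odd-order element inverted by an element of V commutes with a nontrivial element of V), and K a normal subgroup of G with V ∩ K = 1. Then the image of V in G/K satisfies the Sidki pair condition in G/K. -/
theorem result {G : Type*} [Group G] [Finite G] (V K : Subgroup G) [K.Normal] (hV : Cfsg.IsElementaryAbelian 2 V) (hV1 : V ≠ ⊥) (hS : Cfsg.IsSidkiPair V) (hVK : V ⊓ K = ⊥) : Cfsg.IsSidkiPair (V.map (QuotientGroup.mk' K)) := by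
  intro hbar vbar hvbar hodd hinv
  obtain ⟨v, hv, rfl⟩ := hvbar
  obtain ⟨h₀, rfl⟩ := QuotientGroup.mk_surjective hbar
  have hv2 : v ^ 2 = 1 := hV.2 v hv
  have hvinv : v⁻¹ = v := by
    rw [inv_eq_iff_mul_eq_one, ← pow_two]; exact hv2
  set y : G := h₀ * v * h₀⁻¹ * v with hy
  have hyinv : v * y * v⁻¹ = y⁻¹ := by
    rw [hy, hvinv]
    have : (h₀ * v * h₀⁻¹ * v)⁻¹ = v⁻¹ * h₀ * v⁻¹ * h₀⁻¹ := by group
    rw [this, hvinv]
    have h1 : v * v = 1 := by rw [← pow_two]; exact hv2
    calc v * (h₀ * v * h₀⁻¹ * v) * v = v * h₀ * v * h₀⁻¹ * (v * v) := by group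
      _ = v * h₀ * v * h₀⁻¹ := by rw [h1, mul_one]
  have hypos : 0 < orderOf y := orderOf_pos y
  obtain ⟨a, m, hm, ham⟩ := Nat.exists_eq_two_pow_mul_odd (ne_of_gt hypos)
  set y' : G := y ^ (2 ^ a) with hy'
  have hy'odd : Odd (orderOf y') := by
    rw [hy', orderOf_pow, ham]
    have : Nat.gcd (2 ^ a * m) (2 ^ a) = 2 ^ a := Nat.gcd_eq_right (Dvd.intro _ rfl)
    rw [this, Nat.mul_div_cancel_left _ (by positivity)]
    exact hm
  have hy'inv : v * y' * v⁻¹ = y'⁻¹ := by
    rw [hy', ← inv_pow, ← hyinv]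
    exact (conj_pow (a := v) (b := y) (i := 2 ^ a)).symm
  obtain ⟨w, hwV, hw1, hwc⟩ := hS y' v hv hy'odd hy'inv
  refine ⟨QuotientGroup.mk' K w, ⟨w, hwV, rfl⟩, ?_, ?_⟩
  · intro hw
    have hwK : w ∈ K := by
      have : (QuotientGroup.mk w : G ⧸ K) = 1 := hw
      exact (QuotientGroup.eq_one_iff w).1 this
    have : w ∈ V ⊓ K := ⟨hwV, hwK⟩
    rw [hVK] at this
    exact hw1 (Subgroup.mem_bot.1 this)
  · -- image of y is hbar^2
    set hb : G ⧸ K := (QuotientGroup.mk h₀ : G ⧸ K) with hhb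
    set vb : G ⧸ K := (QuotientGroup.mk' K v) with hvb
    have hvb2 : vb⁻¹ = vb := by
      rw [hvb, ← map_inv, hvinv]
    have hinv' : vb * hb⁻¹ * vb = hb := by
      have h1 : vb * hb * vb⁻¹ = hb⁻¹ := hinv
      have h2 : vb * hb⁻¹ * vb⁻¹ = hb := by
        calc vb * hb⁻¹ * vb⁻¹ = (vb * hb * vb⁻¹)⁻¹ := by group
          _ = hb := by rw [h1, inv_inv]
      rw [hvb2] at h2
      exact h2
    have himg : (QuotientGroup.mk' K y') = hb ^ (2 ^ (a + 1)) := by
      rw [hy', map_pow, hy]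
      have : (QuotientGroup.mk' K (h₀ * v * h₀⁻¹ * v)) = hb * (vb * hb⁻¹ * vb) := by
        simp only [map_mul, map_inv, hhb, hvb, QuotientGroup.mk'_apply]
        group
      rw [this, hinv', ← pow_two, ← pow_mul, pow_succ, mul_comm]
    have hcomm : Commute (QuotientGroup.mk' K w) (hb ^ (2 ^ (a + 1))) := by
      rw [← himg]
      show (QuotientGroup.mk' K w) * (QuotientGroup.mk' K y') = (QuotientGroup.mk' K y') * (QuotientGroup.mk' K w)
      rw [← map_mul, ← map_mul, hwc]
    have hcop : Nat.Coprime (2 ^ (a + 1)) (orderOf hb) := by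
      apply Nat.Coprime.pow_left
      exact (Nat.coprime_two_left.2 hodd)
    obtain ⟨k, hk⟩ := exists_pow_eq_self_of_coprime hcop
    have := hcomm.pow_right k
    rw [hk] at this
    exact this

end Cfsg.Agent.S3012
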