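import Cfsg.Statements.S3013
import Mathlib

set_option autoImplicit false
open Cfsg

namespace Cfsg.Agent.S3013

theorem comm_of_comm_sq {G : Type*} [Group G] (w x : G) (hx : Odd (orderOf x))
    (h : Commute w (x ^ 2)) : Commute w x := by
  have hcop : Nat.Coprime 2 (orderOf x) := Nat.coprime_two_left.2 hx
  obtain ⟨k, hk⟩ := exists_pow_eq_self_of_coprime hcop
  have := h.pow_right k
  rw [hk] at this
  exact this

/-- Let G be a finite group and V a nontrivial elementary abelian 2-subgroup of G satisfying the Sidki pair condition. Let v ∈ V and let x be an element of odd order inverted by v, and put C = C_G(v) ∩ C_G(x), the centralizer of the dihedral subgroup generated by v and x. Then C ∩ V is nontrivial and satisfies the Sidki pair condition inside C: every odd-order element of C inverted by an element of C ∩ V commutes with a nontrivial element of C ∩ V. -/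
theorem result {G : Type*} [Group G] [Finite G] (V : Subgroup G) (hV : Cfsg.IsElementaryAbelian 2 V) (hV1 : V ≠ ⊥) (hS : Cfsg.IsSidkiPair V) (v x : G) (hv : v ∈ V) (hx : Odd (orderOf x)) (hinv : v * x * v⁻¹ = x⁻¹) (C : Subgroup G) (hC : C = Subgroup.centralizer ({v} : Set G) ⊓ Subgroup.centralizer ({x} : Set G)) : C ⊓ V ≠ ⊥ ∧ Cfsg.IsSidkiPair ((C ⊓ V).subgroupOf C) := by
  have hVcomm : ∀ a ∈ V, ∀ b ∈ V, a * b = b * a := by
    intro a ha b hb
    have h1 : (⟨a, ha⟩ : V) * ⟨b, hb⟩ = ⟨b, hb⟩ * ⟨a, ha⟩ := (isMulCommutative_iff.1 hV.1) _ _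
    exact congrArg Subtype.val h1
  have memC : ∀ g : G, g ∈ C ↔ g * v = v * g ∧ g * x = x * g := by
    intro g
    rw [hC, Subgroup.mem_inf, Subgroup.mem_centralizer_iff, Subgroup.mem_centralizer_iff]
    simp only [Set.mem_singleton_iff, forall_eq]
    constructor
    · rintro ⟨h1, h2⟩; exact ⟨h1.symm, h2.symm⟩
    · rintro ⟨h1, h2⟩; exact ⟨h1.symm, h2.symm⟩
  constructor
  · obtain ⟨w, hwV, hw1, hwc⟩ := hS x v hv hx hinv
    intro hbot
    have : w ∈ C ⊓ V := ⟨(memC w).2 ⟨hVcomm w hwV v hv, hwc⟩, hwV⟩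
    rw [hbot] at this
    exact hw1 (Subgroup.mem_bot.1 this)
  · intro h u hu hodd hinvu
    rw [Subgroup.mem_subgroupOf] at hu
    obtain ⟨huC, huV⟩ := hu
    have hhC : (h : G) ∈ C := h.2
    obtain ⟨hhv, hhx⟩ := (memC _).1 hhC
    obtain ⟨huv, hux⟩ := (memC _).1 huC
    have hodd' : Odd (orderOf (h : G)) := by rw [Subgroup.orderOf_coe]; exact hodd
    have hinvu' : (u : G) * (h : G) * (u : G)⁻¹ = (h : G)⁻¹ := by
      have := congrArg Subtype.val hinvu
      simpa using this
    -- z = x * h has odd order and is inverted by u * v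
    set z : G := x * (h : G) with hz
    have hxh : Commute x (h : G) := hhx.symm
    have hzodd : Odd (orderOf z) := by
      have hdvd : orderOf z ∣ orderOf x * orderOf (h : G) := by
        apply orderOf_dvd_of_pow_eq_one
        rw [hz, hxh.mul_pow, pow_mul, pow_orderOf_eq_one, one_pow, mul_comm (orderOf x), pow_mul,
          pow_orderOf_eq_one, one_pow, mul_one]
      exact Odd.of_dvd_nat (hx.mul hodd') hdvd
    have hvh : v * (h : G) * v⁻¹ = (h : G) := by
      rw [← hhv]; group
    have hux' : (u : G) * x * (u : G)⁻¹ = x := by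
      rw [hux]; group
    have hzinv : ((u : G) * v) * z * ((u : G) * v)⁻¹ = z⁻¹ := by
      have e1 : ((u : G) * v) * z * ((u : G) * v)⁻¹ =
          ((u : G) * (v * x * v⁻¹) * (u : G)⁻¹) * ((u : G) * (v * (h : G) * v⁻¹) * (u : G)⁻¹) := by
        rw [hz]; group
      rw [e1, hinv, hvh, hinvu']
      have e2 : (u : G) * x⁻¹ * (u : G)⁻¹ = x⁻¹ := by
        calc (u : G) * x⁻¹ * (u : G)⁻¹ = ((u : G) * x * (u : G)⁻¹)⁻¹ := by group
          _ = x⁻¹ := by rw [hux']
      rw [e2, hz, mul_inv_rev]
      exact (hxh.inv_left.inv_right).eq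
    obtain ⟨w, hwV, hw1, hwc⟩ := hS z ((u : G) * v) (V.mul_mem huV hv) hzodd hzinv
    have hwz : Commute w z := hwc
    have hwv : Commute w v := hVcomm w hwV v hv
    have hwu : Commute w (u : G) := hVcomm w hwV _ huV
    -- w commutes with v z v⁻¹ = x⁻¹ h, hence with x^2
    have hwx : Commute w x := by
      apply comm_of_comm_sq w x hx
      have e : x ^ 2 = z * (v * z * v⁻¹)⁻¹ := by
        have : v * z * v⁻¹ = (v * x * v⁻¹) * (v * (h : G) * v⁻¹) := by rw [hz]; group
        rw [this, hinv, hvh, hz]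
        have h3 : (x⁻¹ * (h : G))⁻¹ = (h : G)⁻¹ * x := by group
        rw [h3, pow_two]; group
      rw [e]
      exact hwz.mul_right ((hwv.mul_right hwz).mul_right hwv.inv_right).inv_right
    have hwh : Commute w (h : G) := by
      apply comm_of_comm_sq w _ hodd'
      have e : (h : G) ^ 2 = z * ((u : G) * z * (u : G)⁻¹)⁻¹ := by
        have : (u : G) * z * (u : G)⁻¹ = ((u : G) * x * (u : G)⁻¹) * ((u : G) * (h : G) * (u : G)⁻¹) := by
          rw [hz]; group
        rw [this, hux', hinvu', hz]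
        have h3 : (x * (h : G)⁻¹)⁻¹ = (h : G) * x⁻¹ := by group
        rw [h3, pow_two]
        calc (h : G) * (h : G) = (h : G) * (x * x⁻¹) * (h : G) := by group
          _ = ((h : G) * x) * (x⁻¹ * (h : G)) := by group
          _ = (x * (h : G)) * ((h : G) * x⁻¹) := by rw [hxh.eq, (hxh.inv_left).eq]
      rw [e]
      exact hwz.mul_right ((hwu.mul_right hwz).mul_right hwu.inv_right).inv_right
    have hwC : w ∈ C := (memC w).2 ⟨hwv.eq, hwx.eq⟩
    refine ⟨⟨w, hwC⟩, ?_, ?_, ?_⟩
    · rw [Subgroup.mem_subgroupOf]; exact ⟨hwC, hwV⟩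
    · intro h1
      apply hw1
      exact congrArg Subtype.val h1
    · apply Subtype.ext
      exact hwh.eq

end Cfsg.Agent.S3013
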