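import Cfsg.Statements.S4496
import Mathlib
import Cfsg.Agent.Helper7.SelfCentP
import Cfsg.Agent.Helper7.Wielandt

set_option autoImplicit false
open Cfsg

namespace Cfsg.Agent.S4496

open Cfsg.Agent.Helper7

theorem part_a {G : Type*} [Group G] [Finite G] (p : ℕ) [Fact p.Prime] (x : G)
    (hx : orderOf x = p) (hC : Subgroup.centralizer ({x} : Set G) = Subgroup.zpowers x)
    (S : Subgroup G) [hSn : S.Normal] (hxS : x ∈ S) : commutator G ≤ S := by
  have key : ∀ a b : G, (b * a)⁻¹ * (a * b) ∈ S := by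
    intro a b
    obtain ⟨l₁, hl₁, hn₁⟩ := scp_frattini p x hx hC S hxS a
    obtain ⟨l₂, hl₂, hn₂⟩ := scp_frattini p x hx hC S hxS b
    have h1 := scp_normalizer_comm x (l₁ * a) (l₂ * b) hn₁ hn₂
    rw [hC] at h1
    have h2 : (l₂ * b * (l₁ * a))⁻¹ * (l₁ * a * (l₂ * b)) ∈ S := (Subgroup.zpowers_le.2 hxS) h1
    have h3 : (QuotientGroup.mk' S) ((l₂ * b * (l₁ * a))⁻¹ * (l₁ * a * (l₂ * b))) = 1 :=
      (QuotientGroup.eq_one_iff _).2 h2
    have hl1 : (QuotientGroup.mk' S) l₁ = 1 := (QuotientGroup.eq_one_iff _).2 hl₁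
    have hl2 : (QuotientGroup.mk' S) l₂ = 1 := (QuotientGroup.eq_one_iff _).2 hl₂
    have h4 : (QuotientGroup.mk' S) ((b * a)⁻¹ * (a * b)) = 1 := by
      simp only [map_mul, map_inv, hl1, hl2, one_mul] at h3 ⊢
      exact h3
    exact (QuotientGroup.eq_one_iff _).1 h4
  rw [commutator_eq_closure, Subgroup.closure_le]
  rintro _ ⟨a, b, rfl⟩
  rw [commutatorElement_def]
  have := key a⁻¹ b⁻¹
  simpa [mul_assoc] using this

theorem part_b1 {G : Type*} [Group G] [Finite G] (p : ℕ) [Fact p.Prime] (x : G)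
    (hx : orderOf x = p) (S : Subgroup G) [hSn : S.Normal] (hS : ¬ p ∣ Nat.card S) :
    orderOf (QuotientGroup.mk x : G ⧸ S) = p := by
  apply orderOf_eq_prime
  · rw [← QuotientGroup.mk_pow]
    have : x ^ p = 1 := by rw [← hx]; exact pow_orderOf_eq_one x
    rw [this]; rfl
  · intro h
    have hxS : x ∈ S := (QuotientGroup.eq_one_iff x).1 h
    have := Subgroup.orderOf_dvd_natCard S hxS
    rw [hx] at this
    exact hS this

theorem part_b2 {G : Type*} [Group G] [Finite G] (p : ℕ) [Fact p.Prime] (x : G)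
    (hx : orderOf x = p) (hC : Subgroup.centralizer ({x} : Set G) = Subgroup.zpowers x)
    (S : Subgroup G) [hSn : S.Normal] (hS : ¬ p ∣ Nat.card S) :
    Subgroup.centralizer ({(QuotientGroup.mk x : G ⧸ S)} : Set (G ⧸ S))
      = Subgroup.zpowers (QuotientGroup.mk x : G ⧸ S) := by
  apply le_antisymm
  · intro gbar hg
    obtain ⟨g, rfl⟩ := QuotientGroup.mk_surjective gbar
    rw [Subgroup.mem_centralizer_singleton_iff] at hg
    have h1 : x⁻¹ * g * x * g⁻¹ ∈ S := by
      rw [← QuotientGroup.eq_one_iff]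
      have e : ((x⁻¹ * g * x * g⁻¹ : G) : G ⧸ S)
          = (x : G ⧸ S)⁻¹ * ((g : G ⧸ S) * (x : G ⧸ S)) * (g : G ⧸ S)⁻¹ := by
        simp [mul_assoc]
      rw [e, hg]; group
    obtain ⟨s, hs, hs'⟩ := scp_fpf_surj p x hx hC S hS _ h1
    have h2 : s⁻¹ * g ∈ Subgroup.centralizer ({x} : Set G) := by
      rw [Subgroup.mem_centralizer_singleton_iff]
      have h3 : s * x * s⁻¹ = g * x * g⁻¹ := by
        have := congrArg (fun w => x * w) hs'
        simpa [mul_assoc] using this
      calc s⁻¹ * g * x = s⁻¹ * (g * x * g⁻¹) * g := by group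
        _ = s⁻¹ * (s * x * s⁻¹) * g := by rw [h3]
        _ = x * (s⁻¹ * g) := by group
    rw [hC] at h2
    obtain ⟨k, hk⟩ := Subgroup.mem_zpowers_iff.1 h2
    rw [Subgroup.mem_zpowers_iff]
    refine ⟨k, ?_⟩
    have h4 : ((s⁻¹ * g : G) : G ⧸ S) = (g : G ⧸ S) := by
      have hs1 : ((s : G) : G ⧸ S) = 1 := (QuotientGroup.eq_one_iff s).2 hs
      rw [QuotientGroup.mk_mul, QuotientGroup.mk_inv, hs1, inv_one, one_mul]
    rw [← h4, ← hk, QuotientGroup.mk_zpow]
  · intro gbar hg
    obtain ⟨k, hk⟩ := Subgroup.mem_zpowers_iff.1 hg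
    rw [Subgroup.mem_centralizer_singleton_iff, ← hk]
    exact ((Commute.refl _).zpow_left k).eq

theorem part_b3 {G : Type*} [Group G] [Finite G] (p : ℕ) [Fact p.Prime] (x : G)
    (hx : orderOf x = p) (hC : Subgroup.centralizer ({x} : Set G) = Subgroup.zpowers x)
    (S : Subgroup G) [hSn : S.Normal] (hS : ¬ p ∣ Nat.card S) : Nat.card S % p = 1 := by
  have hp : p.Prime := Fact.out
  have hpg : IsPGroup p (Subgroup.zpowers x) :=
    IsPGroup.of_card (n := 1) (by rw [Nat.card_zpowers, hx, pow_one])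
  letI : MulAction (Subgroup.zpowers x) S :=
    MulAction.compHom S ((MulAut.conjNormal (H := S)).comp (Subgroup.zpowers x).subtype)
  have h1 := hpg.card_modEq_card_fixedPoints (α := S)
  have key : ∀ c : S, c ∈ MulAction.fixedPoints (Subgroup.zpowers x) S → c = 1 := by
    intro c hc
    have h3 := hc ⟨x, Subgroup.mem_zpowers x⟩
    have h4 : x * (c : G) * x⁻¹ = c := congrArg Subtype.val h3
    have h5 : (c : G) ∈ Subgroup.centralizer ({x} : Set G) := by
      rw [Subgroup.mem_centralizer_singleton_iff]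
      calc (c : G) * x = (x * (c : G) * x⁻¹) * x := by rw [h4]
        _ = x * c := by group
    rw [hC] at h5
    apply Subtype.ext
    exact scp_inf_coprime p x hx S hS _ h5 c.2
  have h2 : Nat.card (MulAction.fixedPoints (Subgroup.zpowers x) S) = 1 := by
    rw [Nat.card_eq_one_iff_unique]
    constructor
    · constructor
      rintro ⟨a, ha⟩ ⟨b, hb⟩
      apply Subtype.ext
      show a = b
      rw [key a ha, key b hb]
    · refine ⟨⟨1, ?_⟩⟩
      intro g
      apply Subtype.ext
      show (g : G) * ((1 : S) : G) * (g : G)⁻¹ = ((1 : S) : G)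
      simp
  rw [h2] at h1
  have h6 : Nat.card S % p = 1 % p := h1
  rw [h6]
  exact Nat.mod_eq_of_lt hp.one_lt

theorem part_b4 {G : Type*} [Group G] [Finite G] (p : ℕ) [Fact p.Prime] (x : G)
    (hx : orderOf x = p) (hC : Subgroup.centralizer ({x} : Set G) = Subgroup.zpowers x)
    (S : Subgroup G) [hSn : S.Normal] (hS : ¬ p ∣ Nat.card S) :
    Nat.card S ∣ Nat.card {H : Subgroup G // Nat.card H = p} := by
  have hp : p.Prime := Fact.out
  obtain ⟨Q₀, hQ₀⟩ := scp_sylow p x hx hC
  have hcard₀ : Nat.card (Q₀ : Subgroup G) = p := by rw [hQ₀, Nat.card_zpowers, hx]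
  have hfact : p = p ^ (Nat.card G).factorization p := by
    rw [← Sylow.card_eq_multiplicity Q₀]; exact hcard₀.symm
  have hcard : ∀ Q : Sylow p G, Nat.card (Q : Subgroup G) = p := by
    intro Q
    rw [Sylow.card_eq_multiplicity Q, ← hfact]
  -- the equivalence
  have hequiv : Nat.card (Sylow p G) = Nat.card {H : Subgroup G // Nat.card H = p} := by
    apply Nat.card_congr
    exact
      { toFun := fun Q => ⟨(Q : Subgroup G), hcard Q⟩
        invFun := fun H => Sylow.ofCard H.1 (H.2.trans hfact)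
        left_inv := fun Q => Sylow.ext rfl
        right_inv := fun H => Subtype.ext rfl }
  rw [← hequiv]
  apply dvd_card_of_forall_dvd_index_stabilizer (G := S) (X := Sylow p G)
  intro Q
  have hstab : MulAction.stabilizer S Q = ⊥ := by
    rw [eq_bot_iff]
    intro s hs
    rw [MulAction.mem_stabilizer_iff] at hs
    have hsN : (s : G) ∈ Subgroup.normalizer ((Q : Subgroup G) : Set G) :=
      Sylow.smul_eq_iff_mem_normalizer.1 hs
    -- Q = zpowers z
    have hQnt : ∃ z : G, z ∈ (Q : Subgroup G) ∧ z ≠ 1 := by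
      by_contra hcon
      push Not at hcon
      have : (Q : Subgroup G) = ⊥ := by
        rw [eq_bot_iff]; intro z hz; exact hcon z hz
      have h1 := hcard Q
      rw [this, Subgroup.card_bot] at h1
      exact hp.one_lt.ne h1
    obtain ⟨z, hzQ, hz1⟩ := hQnt
    have hzp : orderOf z = p := by
      have h1 := Subgroup.orderOf_dvd_natCard (Q : Subgroup G) hzQ
      rw [hcard Q] at h1
      rcases (Nat.dvd_prime hp).1 h1 with h | h
      · exact absurd (orderOf_eq_one_iff.1 h) hz1
      · exact h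
    have hCz := scp_centralizer p x hx hC z hzp
    have hzQ' : Subgroup.zpowers z = (Q : Subgroup G) := by
      apply Subgroup.eq_of_le_of_card_ge (Subgroup.zpowers_le.2 hzQ)
      rw [hcard Q, Nat.card_zpowers, hzp]
    have h2 : (s : G) * z * (s : G)⁻¹ ∈ Subgroup.zpowers z := by
      rw [hzQ']
      exact (Subgroup.mem_normalizer_iff.1 hsN z).1 hzQ
    have h3 : (s : G) * z * (s : G)⁻¹ * z⁻¹ ∈ S := by
      have h4 : z * (s : G)⁻¹ * z⁻¹ ∈ S := hSn.conj_mem _ (S.inv_mem s.2) z
      have h5 : (s : G) * (z * (s : G)⁻¹ * z⁻¹) ∈ S := S.mul_mem s.2 h4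
      have e : (s : G) * z * (s : G)⁻¹ * z⁻¹ = (s : G) * (z * (s : G)⁻¹ * z⁻¹) := by group
      rw [e]; exact h5
    have h4 : (s : G) * z * (s : G)⁻¹ * z⁻¹ = 1 :=
      scp_inf_coprime p z hzp S hS _
        (Subgroup.mul_mem _ h2 (Subgroup.inv_mem _ (Subgroup.mem_zpowers z))) h3
    have h5 : (s : G) ∈ Subgroup.centralizer ({z} : Set G) := by
      rw [Subgroup.mem_centralizer_singleton_iff]
      have e : (s : G) * z = ((s : G) * z * (s : G)⁻¹ * z⁻¹) * (z * s) := by group
      rw [e, h4, one_mul]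
    rw [hCz] at h5
    have h6 : (s : G) = 1 := scp_inf_coprime p z hzp S hS _ h5 s.2
    rw [Subgroup.mem_bot]
    exact Subtype.ext h6
  rw [hstab, Subgroup.index_bot]

/-- Let the finite group G contain an element x of prime order p with C_G(x) = ⟨x⟩. Then: (a) every normal subgroup of order divisible by p contains the commutator subgroup; (b) every normal subgroup S of order prime to p has order dividing the number of subgroups of order p of G and congruent to 1 modulo p, and in G/S the image of x again has prime order p and commutes only with its own powers. -/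
theorem result {G : Type*} [Group G] [Finite G] (p : ℕ) (hp : p.Prime) (x : G) (hx : orderOf x = p) (hC : Subgroup.centralizer ({x} : Set G) = Subgroup.zpowers x) (S : Subgroup G) [S.Normal] : (p ∣ Nat.card S → commutator G ≤ S) ∧ (¬ p ∣ Nat.card S → Nat.card S ∣ Nat.card {H : Subgroup G // Nat.card H = p} ∧ Nat.card S % p = 1 ∧ orderOf (QuotientGroup.mk x : G ⧸ S) = p ∧ Subgroup.centralizer ({(QuotientGroup.mk x : G ⧸ S)} : Set (G ⧸ S)) = Subgroup.zpowers (QuotientGroup.mk x : G ⧸ S)) := by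
  haveI : Fact p.Prime := ⟨hp⟩
  constructor
  · intro hS
    exact part_a p x hx hC S (scp_mem_of_dvd p x hx hC S hS)
  · intro hS
    exact ⟨part_b4 p x hx hC S hS, part_b3 p x hx hC S hS, part_b1 p x hx S hS,
      part_b2 p x hx hC S hS⟩

end Cfsg.Agent.S4496
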