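import Cfsg.Statements.S0279
import Mathlib
import Cfsg.Agent.Helper4.SLn

set_option autoImplicit false
open Cfsg

namespace Cfsg.Agent.S0279

open Matrix

theorem mem_SU_iff {F : Type*} [Field F] {n q : ℕ} (g : SpecialLinearGroup (Fin n) F) :
    g ∈ Cfsg.SU n F q ↔ ∀ u v : Fin n → F,
      Cfsg.hermForm n F q ((g : Matrix (Fin n) (Fin n) F) *ᵥ u)
        ((g : Matrix (Fin n) (Fin n) F) *ᵥ v) = Cfsg.hermForm n F q u v := Iff.rfl

theorem q_ge_two {F : Type*} [Field F] [Fintype F] {q : ℕ} (hF : Fintype.card F = q ^ 2) :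
    2 ≤ q := by
  have h1 : 1 < Fintype.card F := Fintype.one_lt_card
  rw [hF] at h1
  by_contra h
  have : q = 0 ∨ q = 1 := by omega
  rcases this with rfl | rfl <;> simp at h1

theorem exists_gen {F : Type*} [Field F] [Fintype F] {q : ℕ} (hF : Fintype.card F = q ^ 2) :
    ∃ g : Fˣ, orderOf g = q ^ 2 - 1 := by
  classical
  obtain ⟨g, hg⟩ := IsCyclic.exists_generator (α := Fˣ)
  refine ⟨g, ?_⟩
  rw [orderOf_eq_card_of_forall_mem_zpowers hg, Nat.card_eq_fintype_card, Fintype.card_units, hF]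

theorem sq_sub (q : ℕ) (hq : 2 ≤ q) : q ^ 2 - 1 = (q - 1) * (q + 1) := by
  obtain ⟨r, rfl⟩ : ∃ r, q = r + 2 := ⟨q - 2, by omega⟩
  have h : (r + 2) ^ 2 = (r + 1) * (r + 3) + 1 := by ring
  have e1 : r + 2 - 1 = r + 1 := by omega
  rw [e1, h, Nat.add_sub_cancel]

theorem exists_norm_one {F : Type*} [Field F] [Fintype F] {q : ℕ} (hF : Fintype.card F = q ^ 2) :
    ∃ a : F, a ≠ 0 ∧ a ≠ 1 ∧ a ^ (q + 1) = 1 := by
  have hq := q_ge_two hF
  obtain ⟨g, hg⟩ := exists_gen hF
  refine ⟨((g ^ (q - 1) : Fˣ) : F), Units.ne_zero _, ?_, ?_⟩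
  · intro h
    have h1 : g ^ (q - 1) = 1 := Units.ext h
    have h2 := orderOf_dvd_of_pow_eq_one h1
    rw [hg, sq_sub q hq] at h2
    have h3 := Nat.le_of_dvd (by omega) h2
    have h4 : q + 1 ≤ 1 := Nat.le_of_mul_le_mul_left (by rw [mul_one]; exact h3) (by omega : 0 < q - 1)
    omega
  · rw [← Units.val_pow_eq_pow_val, ← pow_mul, ← sq_sub q hq, ← hg, pow_orderOf_eq_one,
      Units.val_one]

theorem neg_one_pow_q {F : Type*} [Field F] [Fintype F] {q : ℕ} (hF : Fintype.card F = q ^ 2) :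
    (-1 : F) ^ (q + 1) = 1 := by
  rcases Nat.even_or_odd q with he | ho
  · have h2 : ringChar F = 2 := by
      rw [FiniteField.even_card_iff_char_two, hF]
      exact Nat.even_iff.1 (Nat.even_pow.2 ⟨he, by norm_num⟩)
    haveI : CharP F 2 := ringChar.of_eq h2
    rw [CharTwo.neg_eq, one_pow]
  · exact Even.neg_one_pow ho.add_one

theorem mono_mem {F : Type*} [Field F] {q n : ℕ} (M : Matrix (Fin n) (Fin n) F) (hdet : M.det = 1)
    (s : Fin n → F) (σ : Equiv.Perm (Fin n)) (hs : ∀ i, s i ^ (q + 1) = 1)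
    (hM : ∀ (u : Fin n → F) (i : Fin n), (M *ᵥ u) i = s i * u (σ i)) :
    (⟨M, hdet⟩ : SpecialLinearGroup (Fin n) F) ∈ Cfsg.SU n F q := by
  refine (mem_SU_iff _).2 ?_
  intro u v
  show Cfsg.hermForm n F q (M *ᵥ u) (M *ᵥ v) = Cfsg.hermForm n F q u v
  unfold Cfsg.hermForm
  rw [← Equiv.sum_comp σ (fun j => u j * v j ^ q)]
  apply Finset.sum_congr rfl
  intro i _
  rw [hM, hM, mul_pow]
  calc s i * u (σ i) * (s i ^ q * v (σ i) ^ q) = s i ^ (q + 1) * (u (σ i) * v (σ i) ^ q) := by
        ring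
    _ = u (σ i) * v (σ i) ^ q := by rw [hs i, one_mul]

theorem herm_scalar {F : Type*} [Field F] {q n : ℕ} (c : F) (i0 : Fin n) :
    Cfsg.hermForm n F q (Matrix.diagonal (fun _ => c) *ᵥ Pi.single i0 1)
      (Matrix.diagonal (fun _ => c) *ᵥ Pi.single i0 1) = c ^ (q + 1) := by
  unfold Cfsg.hermForm
  rw [Finset.sum_eq_single i0]
  · rw [Matrix.mulVec_diagonal, Pi.single_eq_same, mul_one]; ring
  · intro j _ hj
    rw [Matrix.mulVec_diagonal, Pi.single_eq_of_ne hj, mul_zero, zero_mul]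
  · intro h; exact absurd (Finset.mem_univ _) h

theorem herm_single {F : Type*} [Field F] {q n : ℕ} (i0 : Fin n) :
    Cfsg.hermForm n F q (Pi.single i0 (1 : F)) (Pi.single i0 1) = 1 := by
  unfold Cfsg.hermForm
  rw [Finset.sum_eq_single i0]
  · rw [Pi.single_eq_same, one_pow, mul_one]
  · intro j _ hj
    rw [Pi.single_eq_of_ne hj, zero_mul]
  · intro h; exact absurd (Finset.mem_univ _) h

theorem central_scalar {F : Type*} [Field F] [Fintype F] {q n : ℕ} (hF : Fintype.card F = q ^ 2)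
    (hn : 3 ≤ n) (z : Cfsg.SU n F q) (hz : z ∈ Subgroup.center (Cfsg.SU n F q)) (k l : Fin n)
    (hkl : k ≠ l) :
    (z.1 : Matrix (Fin n) (Fin n) F) k l = 0 ∧
      (z.1 : Matrix (Fin n) (Fin n) F) k k = (z.1 : Matrix (Fin n) (Fin n) F) l l := by
  classical
  rw [Subgroup.mem_center_iff] at hz
  obtain ⟨a, ha0, ha1, ha⟩ := exists_norm_one hF
  obtain ⟨m, hkm, hml⟩ := Cfsg.Agent.Helper4.exists_third hn k l
  constructor
  · obtain ⟨d, hddef⟩ : ∃ d : Fin n → F,
        d = fun i => (if i = k then a else 1) * (if i = m then a⁻¹ else 1) := ⟨_, rfl⟩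
    have hd : ∀ i, d i ^ (q + 1) = 1 := by
      intro i
      rw [hddef]
      show ((if i = k then a else 1) * (if i = m then a⁻¹ else 1)) ^ (q + 1) = 1
      rw [mul_pow]
      have h1 : (if i = k then a else 1) ^ (q + 1) = 1 := by
        split_ifs
        · exact ha
        · exact one_pow _
      have h2 : (if i = m then a⁻¹ else 1) ^ (q + 1) = 1 := by
        split_ifs
        · rw [inv_pow, ha, inv_one]
        · exact one_pow _
      rw [h1, h2, one_mul]
    have hdet : (Matrix.diagonal d).det = 1 := by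
      rw [Matrix.det_diagonal, hddef, Finset.prod_mul_distrib,
        Finset.prod_ite_eq' Finset.univ k (fun _ => a),
        Finset.prod_ite_eq' Finset.univ m (fun _ => a⁻¹)]
      simp [mul_inv_cancel₀ ha0]
    have hmem := mono_mem (q := q) (Matrix.diagonal d) hdet d 1 hd
      (by intro u i; rw [Matrix.mulVec_diagonal]; rfl)
    have h1 := hz ⟨⟨Matrix.diagonal d, hdet⟩, hmem⟩
    have h1' : Matrix.diagonal d * (z.1 : Matrix (Fin n) (Fin n) F) =
        (z.1 : Matrix (Fin n) (Fin n) F) * Matrix.diagonal d :=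
      congrArg (fun x : Cfsg.SU n F q =>
        ((x.1 : SpecialLinearGroup (Fin n) F) : Matrix (Fin n) (Fin n) F)) h1
    have h2 := congrFun (congrFun h1' k) l
    rw [Matrix.diagonal_mul, Matrix.mul_diagonal] at h2
    have hdk : d k = a := by rw [hddef]; simp [hkm]
    have hdl : d l = 1 := by rw [hddef]; simp [hkl.symm, hml.symm]
    rw [hdk, hdl, mul_one] at h2
    have h3 : (a - 1) * (z.1 : Matrix (Fin n) (Fin n) F) k l = 0 := by linear_combination h2
    exact (mul_eq_zero.1 h3).resolve_left (sub_ne_zero.2 ha1)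
  · have hdet : (Matrix.diagonal (fun i : Fin n => if i = l then (-1 : F) else 1) *
        Matrix.swap F k l).det = 1 := by
      rw [Matrix.det_mul, Matrix.det_diagonal,
        Finset.prod_ite_eq' Finset.univ l (fun _ => (-1 : F))]
      unfold Matrix.swap
      rw [Matrix.det_permutation, Equiv.Perm.sign_swap hkl]
      simp
    have hmem := mono_mem (q := q) _ hdet (fun i : Fin n => if i = l then (-1 : F) else 1)
      (Equiv.swap k l)
      (by
        intro i
        show (if i = l then (-1 : F) else 1) ^ (q + 1) = 1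
        split_ifs
        · exact neg_one_pow_q hF
        · exact one_pow _)
      (by
        intro u i
        rw [← Matrix.mulVec_mulVec, Matrix.mulVec_diagonal, Matrix.swap_mulVec]; rfl)
    have h1 := hz ⟨⟨_, hdet⟩, hmem⟩
    have h1' : (Matrix.diagonal (fun i : Fin n => if i = l then (-1 : F) else 1) *
        Matrix.swap F k l) * (z.1 : Matrix (Fin n) (Fin n) F) =
        (z.1 : Matrix (Fin n) (Fin n) F) *
          (Matrix.diagonal (fun i : Fin n => if i = l then (-1 : F) else 1) *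
            Matrix.swap F k l) :=
      congrArg (fun x : Cfsg.SU n F q =>
        ((x.1 : SpecialLinearGroup (Fin n) F) : Matrix (Fin n) (Fin n) F)) h1
    have h2 := congrFun (congrFun h1' k) l
    rw [Matrix.mul_assoc, Matrix.diagonal_mul, Matrix.swap_mul_apply_left, ← Matrix.mul_assoc,
      Matrix.mul_swap_apply_right, Matrix.mul_diagonal] at h2
    simp [hkl] at h2
    exact h2.symm


/-- The centre of SU_n(q), n at least 3, has order gcd(n, q+1). -/
theorem result {F : Type*} [Field F] [Fintype F] {q : ℕ} (hF : Fintype.card F = q ^ 2) (n : ℕ) (hn : 3 ≤ n) : Nat.card (Subgroup.center (Cfsg.SU n F q)) = Nat.gcd n (q + 1) := by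
  classical
  have hq := q_ge_two hF
  have hn0 : 0 < n := by omega
  obtain ⟨i0, -⟩ : ∃ i0 : Fin n, i0 = ⟨0, hn0⟩ := ⟨_, rfl⟩
  have key : ∀ z : Cfsg.SU n F q, z ∈ Subgroup.center (Cfsg.SU n F q) →
      (z.1 : Matrix (Fin n) (Fin n) F) =
        Matrix.diagonal (fun _ => (z.1 : Matrix (Fin n) (Fin n) F) i0 i0) := by
    intro z hz
    ext i j
    by_cases hij : i = j
    · subst hij
      rw [Matrix.diagonal_apply_eq]
      by_cases hi : i = i0
      · rw [hi]
      · exact (central_scalar hF hn z hz i i0 hi).2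
    · rw [Matrix.diagonal_apply_ne _ hij]
      exact (central_scalar hF hn z hz i j hij).1
  have hcard : Nat.card (Subgroup.center (Cfsg.SU n F q)) =
      Set.ncard {c : F | c ^ n = 1 ∧ c ^ (q + 1) = 1} := by
    show Set.ncard ((Subgroup.center (Cfsg.SU n F q) : Set (Cfsg.SU n F q))) = _
    refine Set.ncard_congr (fun z _ => (z.1 : Matrix (Fin n) (Fin n) F) i0 i0) ?_ ?_ ?_
    · intro z hz
      have hk := key z hz
      show (z.1 : Matrix (Fin n) (Fin n) F) i0 i0 ^ n = 1 ∧
        (z.1 : Matrix (Fin n) (Fin n) F) i0 i0 ^ (q + 1) = 1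
      obtain ⟨c, hc⟩ : ∃ c, c = (z.1 : Matrix (Fin n) (Fin n) F) i0 i0 := ⟨_, rfl⟩
      rw [← hc] at hk ⊢
      constructor
      · have hdet := z.1.2
        rw [hk, Matrix.det_diagonal, Finset.prod_const, Finset.card_univ, Fintype.card_fin] at hdet
        exact hdet
      · have hpres := (mem_SU_iff (q := q) z.1).1 z.2 (Pi.single i0 1) (Pi.single i0 1)
        rw [hk, herm_scalar, herm_single] at hpres
        exact hpres
    · intro z z' hz hz' heq
      have heq' : (z.1 : Matrix (Fin n) (Fin n) F) i0 i0 = (z'.1 : Matrix (Fin n) (Fin n) F) i0 i0 :=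
        heq
      apply Subtype.ext
      apply Subtype.ext
      calc (z.1 : Matrix (Fin n) (Fin n) F)
          = Matrix.diagonal (fun _ => (z.1 : Matrix (Fin n) (Fin n) F) i0 i0) := key z hz
        _ = Matrix.diagonal (fun _ => (z'.1 : Matrix (Fin n) (Fin n) F) i0 i0) := by rw [heq']
        _ = (z'.1 : Matrix (Fin n) (Fin n) F) := (key z' hz').symm
    · intro c hc
      have hc' : c ^ n = 1 ∧ c ^ (q + 1) = 1 := hc
      have hdet : (Matrix.diagonal (fun _ : Fin n => c)).det = 1 := by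
        rw [Matrix.det_diagonal, Finset.prod_const, Finset.card_univ, Fintype.card_fin]
        exact hc'.1
      have hmem := mono_mem (q := q) (Matrix.diagonal (fun _ : Fin n => c)) hdet (fun _ => c) 1
        (fun _ => hc'.2) (by intro u i; rw [Matrix.mulVec_diagonal]; rfl)
      refine ⟨⟨⟨_, hdet⟩, hmem⟩, ?_, ?_⟩
      · rw [SetLike.mem_coe, Subgroup.mem_center_iff]
        intro g
        apply Subtype.ext
        apply Subtype.ext
        show (g.1 : Matrix (Fin n) (Fin n) F) * Matrix.diagonal (fun _ => c) =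
          Matrix.diagonal (fun _ => c) * (g.1 : Matrix (Fin n) (Fin n) F)
        ext i j
        rw [Matrix.mul_diagonal, Matrix.diagonal_mul, mul_comm]
      · exact Matrix.diagonal_apply_eq _ _
  rw [hcard]
  obtain ⟨g, hg⟩ := exists_gen hF
  have hd0 : 0 < Nat.gcd n (q + 1) := Nat.gcd_pos_of_pos_right _ (by omega)
  have hdvd : Nat.gcd n (q + 1) ∣ q ^ 2 - 1 := by
    rw [sq_sub q hq]; exact Dvd.dvd.mul_left (Nat.gcd_dvd_right _ _) _
  have hpos : 0 < q ^ 2 - 1 := by
    have : 4 ≤ q ^ 2 := by nlinarith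
    omega
  have hprim : IsPrimitiveRoot ((g : F) ^ ((q ^ 2 - 1) / Nat.gcd n (q + 1)))
      (Nat.gcd n (q + 1)) := by
    have h1 : IsPrimitiveRoot (g : F) (q ^ 2 - 1) := by
      rw [IsPrimitiveRoot.coe_units_iff, ← hg]; exact IsPrimitiveRoot.orderOf g
    exact h1.pow hpos (Nat.div_mul_cancel hdvd).symm
  have hset : {c : F | c ^ n = 1 ∧ c ^ (q + 1) = 1} =
      ((Polynomial.nthRootsFinset (Nat.gcd n (q + 1)) (1 : F) : Finset F) : Set F) := by
    ext c
    rw [Finset.mem_coe, Polynomial.mem_nthRootsFinset hd0, pow_gcd_eq_one]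
    rfl
  rw [hset, Set.ncard_coe_finset, hprim.card_nthRootsFinset]

end Cfsg.Agent.S0279
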