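import Cfsg.Statements.S0783
import Mathlib
import Cfsg.Agent.S0279

set_option autoImplicit false
open Cfsg

namespace Cfsg.Agent.S0783

open Matrix

theorem mem_GU_iff {F : Type*} [Field F] {n q : ℕ} (g : GL (Fin n) F) :
    g ∈ Cfsg.GU n F q ↔ ∀ u v : Fin n → F,
      Cfsg.hermForm n F q ((g : Matrix (Fin n) (Fin n) F) *ᵥ u)
        ((g : Matrix (Fin n) (Fin n) F) *ᵥ v) = Cfsg.hermForm n F q u v := Iff.rfl

theorem mono_memG {F : Type*} [Field F] {q n : ℕ} (g : GL (Fin n) F)
    (s : Fin n → F) (σ : Equiv.Perm (Fin n)) (hs : ∀ i, s i ^ (q + 1) = 1)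
    (hM : ∀ (u : Fin n → F) (i : Fin n),
      ((g : Matrix (Fin n) (Fin n) F) *ᵥ u) i = s i * u (σ i)) :
    g ∈ Cfsg.GU n F q := by
  refine (mem_GU_iff _).2 ?_
  intro u v
  unfold Cfsg.hermForm
  rw [← Equiv.sum_comp σ (fun j => u j * v j ^ q)]
  apply Finset.sum_congr rfl
  intro i _
  rw [hM, hM, mul_pow]
  calc s i * u (σ i) * (s i ^ q * v (σ i) ^ q) = s i ^ (q + 1) * (u (σ i) * v (σ i) ^ q) := by
        ring
    _ = u (σ i) * v (σ i) ^ q := by rw [hs i, one_mul]

theorem herm_single_ne {F : Type*} [Field F] {q n : ℕ} (hq : q ≠ 0) (a b : Fin n) (hab : a ≠ b) :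
    Cfsg.hermForm n F q (Pi.single a (1 : F)) (Pi.single b 1) = 0 := by
  unfold Cfsg.hermForm
  apply Finset.sum_eq_zero
  intro k _
  by_cases hk : k = a
  · rw [hk, Pi.single_eq_of_ne hab, zero_pow hq, mul_zero]
  · rw [Pi.single_eq_of_ne hk, zero_mul]

theorem cyc_hom {C : Type*} [Group C] [Finite C] (hC : IsCyclic C) (n N : ℕ)
    (hN : Nat.card C = N) :
    ∃ χ : C →* Multiplicative (ZMod (Nat.gcd n N)), Function.Surjective χ ∧
      ∀ x : C, χ x = 1 ↔ ∃ y : C, x = y ^ n := by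
  subst hN
  haveI : NeZero (Nat.card C) := ⟨Nat.card_pos.ne'⟩
  obtain ⟨e, -⟩ : ∃ e : Multiplicative (ZMod (Nat.card C)) ≃* C, e = e :=
    ⟨zmodCyclicMulEquiv hC, rfl⟩
  have hd : Nat.gcd n (Nat.card C) ∣ Nat.card C := Nat.gcd_dvd_right _ _
  obtain ⟨c, -⟩ : ∃ c : ZMod (Nat.card C) →+* ZMod (Nat.gcd n (Nat.card C)), c = c :=
    ⟨ZMod.castHom hd _, rfl⟩
  have hcn : c (n : ZMod (Nat.card C)) = 0 := by
    rw [map_natCast, ZMod.natCast_eq_zero_iff]
    exact Nat.gcd_dvd_left _ _
  have hker : ∀ t : ZMod (Nat.card C), c t = 0 ↔ ∃ m : ZMod (Nat.card C), t = n * m := by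
    intro t
    constructor
    · intro ht
      have h1 : ((t.val : ℕ) : ZMod (Nat.gcd n (Nat.card C))) = 0 := by
        rw [← map_natCast c, ZMod.natCast_zmod_val]; exact ht
      rw [ZMod.natCast_eq_zero_iff] at h1
      obtain ⟨s, hs⟩ := h1
      have hb := congrArg (Int.cast : ℤ → ZMod (Nat.card C)) (Nat.gcd_eq_gcd_ab n (Nat.card C))
      push_cast at hb
      rw [ZMod.natCast_self, zero_mul, add_zero] at hb
      refine ⟨(Nat.gcdA n (Nat.card C) : ZMod (Nat.card C)) * (s : ZMod (Nat.card C)), ?_⟩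
      rw [← ZMod.natCast_zmod_val t, hs, Nat.cast_mul, hb]
      ring
    · rintro ⟨m, rfl⟩
      rw [map_mul, hcn, zero_mul]
  refine ⟨(AddMonoidHom.toMultiplicative c.toAddMonoidHom).comp e.symm.toMonoidHom, ?_, ?_⟩
  · intro z
    obtain ⟨w, hw⟩ := ZMod.ringHom_surjective c (Multiplicative.toAdd z)
    refine ⟨e (Multiplicative.ofAdd w), ?_⟩
    show Multiplicative.ofAdd (c (Multiplicative.toAdd (e.symm (e (Multiplicative.ofAdd w))))) = z
    rw [e.symm_apply_apply]
    exact congrArg Multiplicative.ofAdd hw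
  · intro x
    show Multiplicative.ofAdd (c (Multiplicative.toAdd (e.symm x))) = 1 ↔ _
    rw [ofAdd_eq_one, hker]
    constructor
    · rintro ⟨m, hm⟩
      refine ⟨e (Multiplicative.ofAdd m), ?_⟩
      rw [← map_pow, ← ofAdd_nsmul, nsmul_eq_mul, ← hm]
      exact (e.apply_symm_apply x).symm
    · rintro ⟨y, rfl⟩
      refine ⟨Multiplicative.toAdd (e.symm y), ?_⟩
      rw [map_pow, toAdd_pow, nsmul_eq_mul]

theorem det_pow_eq_one {F : Type*} [Field F] [Fintype F] {q n : ℕ} (hF : Fintype.card F = q ^ 2)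
    (g : GL (Fin n) F) (hg : g ∈ Cfsg.GU n F q) :
    (Matrix.GeneralLinearGroup.det g) ^ (q + 1) = 1 := by
  classical
  have hq2 := Cfsg.Agent.S0279.q_ge_two hF
  obtain ⟨p, hp⟩ := CharP.exists F
  haveI := hp
  haveI : Fact p.Prime := ⟨CharP.char_is_prime F p⟩
  haveI : ExpChar F p := ExpChar.prime Fact.out
  obtain ⟨m, -, hm⟩ := FiniteField.card F p
  have hdvd : q ∣ p ^ (m : ℕ) := by
    rw [← hm, hF]; exact Dvd.intro_left q (by ring)
  obtain ⟨j, -, hj⟩ := (Nat.dvd_prime_pow (Fact.out : p.Prime)).1 hdvd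
  have hmat : (g : Matrix (Fin n) (Fin n) F)ᵀ *
      ((g : Matrix (Fin n) (Fin n) F).map (fun x => x ^ q)) = 1 := by
    ext a b
    have h := (mem_GU_iff g).1 hg (Pi.single a 1) (Pi.single b 1)
    rw [Matrix.mulVec_single_one, Matrix.mulVec_single_one] at h
    rw [Matrix.mul_apply]
    have h' : ∑ k, (g : Matrix (Fin n) (Fin n) F) k a * (g : Matrix (Fin n) (Fin n) F) k b ^ q =
        Cfsg.hermForm n F q (Pi.single a 1) (Pi.single b 1) := h
    calc ∑ k, (g : Matrix (Fin n) (Fin n) F)ᵀ a k *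
          ((g : Matrix (Fin n) (Fin n) F).map (fun x => x ^ q)) k b
        = ∑ k, (g : Matrix (Fin n) (Fin n) F) k a * (g : Matrix (Fin n) (Fin n) F) k b ^ q := rfl
      _ = Cfsg.hermForm n F q (Pi.single a 1) (Pi.single b 1) := h'
      _ = (1 : Matrix (Fin n) (Fin n) F) a b := by
        by_cases hab : a = b
        · rw [hab, Cfsg.Agent.S0279.herm_single, Matrix.one_apply_eq]
        · rw [herm_single_ne (by omega) a b hab, Matrix.one_apply_ne hab]
  have e1 : ((g : Matrix (Fin n) (Fin n) F).map (fun x => x ^ q)).det =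
      (g : Matrix (Fin n) (Fin n) F).det ^ q := by
    have h := RingHom.map_det (iterateFrobenius F p j) (g : Matrix (Fin n) (Fin n) F)
    rw [iterateFrobenius_def, ← hj] at h
    rw [h]
    congr 1
    ext a b
    rw [RingHom.mapMatrix_apply, Matrix.map_apply, Matrix.map_apply, iterateFrobenius_def, ← hj]
  have e2 : (g : Matrix (Fin n) (Fin n) F).det ^ (q + 1) = 1 := by
    have h := congrArg Matrix.det hmat
    rw [Matrix.det_mul, Matrix.det_transpose, e1, Matrix.det_one] at h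
    rw [pow_succ', h]
  apply Units.ext
  rw [Units.val_pow_eq_pow_val, Matrix.GeneralLinearGroup.val_det_apply, e2]
  rfl

noncomputable def diagG {F : Type*} [Field F] {n : ℕ} (d : Fin n → F) (hd : ∀ i, d i ≠ 0) :
    GL (Fin n) F :=
  Matrix.GeneralLinearGroup.mkOfDetNeZero (Matrix.diagonal d)
    (by rw [Matrix.det_diagonal]; exact Finset.prod_ne_zero_iff.2 (fun i _ => hd i))

theorem diagG_val {F : Type*} [Field F] {n : ℕ} (d : Fin n → F) (hd : ∀ i, d i ≠ 0) :
    ((diagG d hd : GL (Fin n) F) : Matrix (Fin n) (Fin n) F) = Matrix.diagonal d := rfl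

theorem diagG_mem {F : Type*} [Field F] {n q : ℕ} (d : Fin n → F) (hd : ∀ i, d i ≠ 0)
    (hd1 : ∀ i, d i ^ (q + 1) = 1) : diagG d hd ∈ Cfsg.GU n F q :=
  mono_memG _ d 1 hd1 (by intro u i; rw [diagG_val, Matrix.mulVec_diagonal]; rfl)

noncomputable def swapG {F : Type*} [Field F] {n : ℕ} (k l : Fin n) (hkl : k ≠ l) :
    GL (Fin n) F :=
  Matrix.GeneralLinearGroup.mkOfDetNeZero (Matrix.swap F k l)
    (by unfold Matrix.swap; rw [Matrix.det_permutation, Equiv.Perm.sign_swap hkl]; simp)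

theorem swapG_val {F : Type*} [Field F] {n : ℕ} (k l : Fin n) (hkl : k ≠ l) :
    ((swapG (F := F) k l hkl : GL (Fin n) F) : Matrix (Fin n) (Fin n) F) = Matrix.swap F k l := rfl

theorem swapG_mem {F : Type*} [Field F] {n q : ℕ} (k l : Fin n) (hkl : k ≠ l) :
    swapG (F := F) k l hkl ∈ Cfsg.GU n F q :=
  mono_memG _ (fun _ => 1) (Equiv.swap k l) (fun _ => one_pow _)
    (by intro u i; rw [swapG_val, Matrix.swap_mulVec, one_mul]; rfl)

theorem central_scalarG {F : Type*} [Field F] [Fintype F] {q n : ℕ} (hF : Fintype.card F = q ^ 2)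
    (z : Cfsg.GU n F q) (hz : z ∈ Subgroup.center (Cfsg.GU n F q)) (k l : Fin n)
    (hkl : k ≠ l) :
    ((z.1 : GL (Fin n) F) : Matrix (Fin n) (Fin n) F) k l = 0 ∧
      ((z.1 : GL (Fin n) F) : Matrix (Fin n) (Fin n) F) k k =
        ((z.1 : GL (Fin n) F) : Matrix (Fin n) (Fin n) F) l l := by
  classical
  rw [Subgroup.mem_center_iff] at hz
  obtain ⟨a, ha0, ha1, ha⟩ := Cfsg.Agent.S0279.exists_norm_one hF
  constructor
  · obtain ⟨d, hddef⟩ : ∃ d : Fin n → F, d = fun i => if i = k then a else 1 := ⟨_, rfl⟩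
    have hd0 : ∀ i, d i ≠ 0 := by
      intro i
      rw [hddef]
      show (if i = k then a else 1) ≠ 0
      split_ifs
      · exact ha0
      · exact one_ne_zero
    have hd1 : ∀ i, d i ^ (q + 1) = 1 := by
      intro i
      rw [hddef]
      show (if i = k then a else 1) ^ (q + 1) = 1
      split_ifs
      · exact ha
      · exact one_pow _
    have h1 := hz ⟨diagG d hd0, diagG_mem d hd0 hd1⟩
    have h1' : Matrix.diagonal d * ((z.1 : GL (Fin n) F) : Matrix (Fin n) (Fin n) F) =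
        ((z.1 : GL (Fin n) F) : Matrix (Fin n) (Fin n) F) * Matrix.diagonal d :=
      congrArg (fun x : Cfsg.GU n F q =>
        ((x.1 : GL (Fin n) F) : Matrix (Fin n) (Fin n) F)) h1
    have h2 := congrFun (congrFun h1' k) l
    rw [Matrix.diagonal_mul, Matrix.mul_diagonal] at h2
    have hdk : d k = a := by rw [hddef]; simp
    have hdl : d l = 1 := by rw [hddef]; simp [hkl.symm]
    rw [hdk, hdl, mul_one] at h2
    have h3 : (a - 1) * ((z.1 : GL (Fin n) F) : Matrix (Fin n) (Fin n) F) k l = 0 := by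
      linear_combination h2
    exact (mul_eq_zero.1 h3).resolve_left (sub_ne_zero.2 ha1)
  · have h1 := hz ⟨swapG k l hkl, swapG_mem k l hkl⟩
    have h1' : Matrix.swap F k l * ((z.1 : GL (Fin n) F) : Matrix (Fin n) (Fin n) F) =
        ((z.1 : GL (Fin n) F) : Matrix (Fin n) (Fin n) F) * Matrix.swap F k l :=
      congrArg (fun x : Cfsg.GU n F q =>
        ((x.1 : GL (Fin n) F) : Matrix (Fin n) (Fin n) F)) h1
    have h2 := congrFun (congrFun h1' k) l
    rw [Matrix.swap_mul_apply_left, Matrix.mul_swap_apply_right] at h2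
    exact h2.symm


/-- PGU_n(q)/PSU_n(q) is cyclic of order (n, q+1): for n ≥ 2 and |F| = q² there is a surjective homomorphism from GU_n(q) onto the cyclic group of order gcd(n, q + 1) whose kernel is generated by the determinant-one elements together with the centre. -/
theorem result {F : Type*} [Field F] [Fintype F] {q : ℕ} (hF : Fintype.card F = q ^ 2) (n : ℕ) (hn : 2 ≤ n) : ∃ φ : ↥(Cfsg.GU n F q) →* Multiplicative (ZMod (Nat.gcd n (q + 1))), Function.Surjective φ ∧ φ.ker = (Matrix.GeneralLinearGroup.det : Matrix.GeneralLinearGroup (Fin n) F →* Fˣ).ker.subgroupOf (Cfsg.GU n F q) ⊔ Subgroup.center ↥(Cfsg.GU n F q) := by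
  classical
  have hq := Cfsg.Agent.S0279.q_ge_two hF
  obtain ⟨γ, hγ⟩ := Cfsg.Agent.S0279.exists_gen hF
  haveI : NeZero (q + 1) := ⟨by omega⟩
  have hpos : 0 < q ^ 2 - 1 := by
    have : 4 ≤ q ^ 2 := by nlinarith
    omega
  have hprim : IsPrimitiveRoot ((γ : F) ^ (q - 1)) (q + 1) := by
    have h1 : IsPrimitiveRoot (γ : F) (q ^ 2 - 1) := by
      rw [IsPrimitiveRoot.coe_units_iff, ← hγ]; exact IsPrimitiveRoot.orderOf γ
    exact h1.pow hpos (Cfsg.Agent.S0279.sq_sub q hq)
  have hcardM : Nat.card (rootsOfUnity (q + 1) F) = q + 1 := hprim.card_rootsOfUnity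
  obtain ⟨χ, hχs, hχk⟩ := cyc_hom (C := rootsOfUnity (q + 1) F)
    (rootsOfUnity.isCyclic F (q + 1)) n (q + 1) hcardM
  obtain ⟨δ, hδ⟩ : ∃ δ : Cfsg.GU n F q →* rootsOfUnity (q + 1) F,
      ∀ g : Cfsg.GU n F q, ((δ g : rootsOfUnity (q + 1) F) : Fˣ) =
        Matrix.GeneralLinearGroup.det (g : Matrix.GeneralLinearGroup (Fin n) F) :=
    ⟨(Matrix.GeneralLinearGroup.det.comp (Cfsg.GU n F q).subtype).codRestrict
      (rootsOfUnity (q + 1) F)
      (fun g => (mem_rootsOfUnity _ _).2 (det_pow_eq_one hF g.1 g.2)), fun g => rfl⟩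
  have hn0 : 0 < n := by omega
  obtain ⟨i0, -⟩ : ∃ i0 : Fin n, i0 = ⟨0, hn0⟩ := ⟨_, rfl⟩
  have hdetdiag : ∀ (c : Fˣ),
      Matrix.GeneralLinearGroup.det (diagG (fun _ : Fin n => (c : F)) (fun _ => c.ne_zero)) =
        c ^ n := by
    intro c
    apply Units.ext
    rw [Matrix.GeneralLinearGroup.val_det_apply, diagG_val, Matrix.det_diagonal,
      Finset.prod_const, Finset.card_univ, Fintype.card_fin, Units.val_pow_eq_pow_val]
  refine ⟨χ.comp δ, ?_, ?_⟩
  · intro z
    obtain ⟨a, ha⟩ := hχs z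
    have ha1 : ((a : Fˣ) : F) ^ (q + 1) = 1 := by
      have h := (mem_rootsOfUnity _ _).1 a.2
      rw [← Units.val_pow_eq_pow_val, h]; rfl
    obtain ⟨d, hddef⟩ : ∃ d : Fin n → F, d = fun i => if i = i0 then ((a : Fˣ) : F) else 1 :=
      ⟨_, rfl⟩
    have hd0 : ∀ i, d i ≠ 0 := by
      intro i
      rw [hddef]
      show (if i = i0 then ((a : Fˣ) : F) else 1) ≠ 0
      split_ifs
      · exact Units.ne_zero _
      · exact one_ne_zero
    have hd1 : ∀ i, d i ^ (q + 1) = 1 := by
      intro i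
      rw [hddef]
      show (if i = i0 then ((a : Fˣ) : F) else 1) ^ (q + 1) = 1
      split_ifs
      · exact ha1
      · exact one_pow _
    refine ⟨⟨diagG d hd0, diagG_mem d hd0 hd1⟩, ?_⟩
    show χ (δ ⟨diagG d hd0, diagG_mem d hd0 hd1⟩) = z
    rw [← ha]
    congr 1
    apply Subtype.ext
    rw [hδ]
    apply Units.ext
    rw [Matrix.GeneralLinearGroup.val_det_apply]
    show (Matrix.diagonal d).det = _
    rw [Matrix.det_diagonal, hddef, Finset.prod_ite_eq' Finset.univ i0 (fun _ => ((a : Fˣ) : F))]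
    simp
  · apply le_antisymm
    · intro g hg
      rw [MonoidHom.mem_ker] at hg
      obtain ⟨y, hy⟩ := (hχk (δ g)).1 hg
      have hy1 : (((y : Fˣ) : F)) ^ (q + 1) = 1 := by
        have h := (mem_rootsOfUnity _ _).1 y.2
        rw [← Units.val_pow_eq_pow_val, h]; rfl
      obtain ⟨Y, hYdef⟩ : ∃ Y : GL (Fin n) F,
          Y = diagG (fun _ : Fin n => ((y : Fˣ) : F)) (fun _ => Units.ne_zero _) := ⟨_, rfl⟩
      have hYmem : Y ∈ Cfsg.GU n F q := by
        rw [hYdef]; exact diagG_mem _ _ (fun _ => hy1)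
      have hYc : (⟨Y, hYmem⟩ : Cfsg.GU n F q) ∈ Subgroup.center (Cfsg.GU n F q) := by
        rw [Subgroup.mem_center_iff]
        intro h
        apply Subtype.ext
        apply Units.ext
        show ((h.1 : GL (Fin n) F) : Matrix (Fin n) (Fin n) F) * (Y : Matrix (Fin n) (Fin n) F) =
          (Y : Matrix (Fin n) (Fin n) F) * ((h.1 : GL (Fin n) F) : Matrix (Fin n) (Fin n) F)
        rw [hYdef, diagG_val]
        ext i j
        rw [Matrix.mul_diagonal, Matrix.diagonal_mul, mul_comm]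
      have hdet : Matrix.GeneralLinearGroup.det (g : GL (Fin n) F) =
          Matrix.GeneralLinearGroup.det Y := by
        rw [hYdef, hdetdiag, ← hδ, hy]; rfl
      have hker : g * (⟨Y, hYmem⟩ : Cfsg.GU n F q)⁻¹ ∈
          (Matrix.GeneralLinearGroup.det : GL (Fin n) F →* Fˣ).ker.subgroupOf (Cfsg.GU n F q) := by
        rw [Subgroup.mem_subgroupOf, MonoidHom.mem_ker]
        show Matrix.GeneralLinearGroup.det ((g : GL (Fin n) F) * Y⁻¹) = 1
        rw [map_mul, map_inv, hdet, mul_inv_cancel]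
      have hg' : g = g * (⟨Y, hYmem⟩ : Cfsg.GU n F q)⁻¹ * ⟨Y, hYmem⟩ :=
        (inv_mul_cancel_right g _).symm
      rw [hg']
      exact Subgroup.mul_mem_sup hker hYc
    · apply sup_le
      · intro g hg
        rw [Subgroup.mem_subgroupOf, MonoidHom.mem_ker] at hg
        rw [MonoidHom.mem_ker]
        show χ (δ g) = 1
        rw [hχk]
        refine ⟨1, ?_⟩
        rw [one_pow]
        apply Subtype.ext
        rw [hδ, hg]; rfl
      · intro g hg
        rw [MonoidHom.mem_ker]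
        show χ (δ g) = 1
        rw [hχk]
        have hk : ((g.1 : GL (Fin n) F) : Matrix (Fin n) (Fin n) F) =
            Matrix.diagonal (fun _ => ((g.1 : GL (Fin n) F) : Matrix (Fin n) (Fin n) F) i0 i0) := by
          ext i j
          by_cases hij : i = j
          · subst hij
            rw [Matrix.diagonal_apply_eq]
            by_cases hi : i = i0
            · rw [hi]
            · exact (central_scalarG hF g hg i i0 hi).2
          · rw [Matrix.diagonal_apply_ne _ hij]
            exact (central_scalarG hF g hg i j hij).1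
        obtain ⟨c, hc⟩ : ∃ c, c = ((g.1 : GL (Fin n) F) : Matrix (Fin n) (Fin n) F) i0 i0 :=
          ⟨_, rfl⟩
        rw [← hc] at hk
        have hc1 : c ^ (q + 1) = 1 := by
          have hpres := (mem_GU_iff (q := q) g.1).1 g.2 (Pi.single i0 1) (Pi.single i0 1)
          rw [hk, Cfsg.Agent.S0279.herm_scalar, Cfsg.Agent.S0279.herm_single] at hpres
          exact hpres
        have hc0 : c ≠ 0 := by
          rintro rfl
          rw [zero_pow (by omega)] at hc1
          exact zero_ne_one hc1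
        have hmemc : Units.mk0 c hc0 ∈ rootsOfUnity (q + 1) F := by
          rw [mem_rootsOfUnity]
          apply Units.ext
          rw [Units.val_pow_eq_pow_val]
          exact hc1
        refine ⟨⟨Units.mk0 c hc0, hmemc⟩, ?_⟩
        apply Subtype.ext
        rw [hδ]
        apply Units.ext
        rw [Matrix.GeneralLinearGroup.val_det_apply, hk, Matrix.det_diagonal, Finset.prod_const,
          Finset.card_univ, Fintype.card_fin]
        rfl

end Cfsg.Agent.S0783
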