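import Cfsg.Statements.S0281
import Mathlib
import Cfsg.Agent.S0783

set_option autoImplicit false
open Cfsg

namespace Cfsg.Agent.S0281

open Matrix

theorem exists_sigma {F : Type*} [Field F] [Fintype F] {q : ℕ} (hF : Fintype.card F = q ^ 2) :
    ∃ σ : F →+* F, (∀ x, σ x = x ^ q) ∧ ∀ x, σ (σ x) = x := by
  classical
  obtain ⟨p, hp⟩ := CharP.exists F
  haveI := hp
  haveI : Fact p.Prime := ⟨CharP.char_is_prime F p⟩
  haveI : ExpChar F p := ExpChar.prime Fact.out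
  obtain ⟨m, -, hm⟩ := FiniteField.card F p
  have hdvd : q ∣ p ^ (m : ℕ) := by
    rw [← hm, hF]; exact Dvd.intro_left q (by ring)
  obtain ⟨j, -, hj⟩ := (Nat.dvd_prime_pow (Fact.out : p.Prime)).1 hdvd
  refine ⟨iterateFrobenius F p j, fun x => by rw [iterateFrobenius_def, ← hj], fun x => ?_⟩
  rw [iterateFrobenius_def, iterateFrobenius_def, ← hj, ← pow_mul, ← pow_two, ← hF,
    FiniteField.pow_card]

theorem gen_sigma_ne {F : Type*} [Field F] [Fintype F] {q : ℕ} (hF : Fintype.card F = q ^ 2) :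
    ∃ x : F, x ^ q ≠ x := by
  have hq := Cfsg.Agent.S0279.q_ge_two hF
  obtain ⟨γ, hγ⟩ := Cfsg.Agent.S0279.exists_gen hF
  refine ⟨(γ : F), ?_⟩
  intro h
  have h1 : γ ^ (q - 1) = 1 := by
    apply Units.ext
    rw [Units.val_pow_eq_pow_val, Units.val_one]
    have h2 : (γ : F) ^ (q - 1) * (γ : F) = 1 * (γ : F) := by
      rw [← pow_succ, Nat.sub_add_cancel (by omega), h, one_mul]
    exact mul_right_cancel₀ (Units.ne_zero γ) h2
  have h2 := orderOf_dvd_of_pow_eq_one h1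
  rw [hγ, Cfsg.Agent.S0279.sq_sub q hq] at h2
  have h3 := Nat.le_of_dvd (by omega) h2
  have h4 : q + 1 ≤ 1 :=
    Nat.le_of_mul_le_mul_left (by rw [mul_one]; exact h3) (by omega : 0 < q - 1)
  omega

theorem exists_theta {F : Type*} [Field F] [Fintype F] {q : ℕ} (hF : Fintype.card F = q ^ 2)
    (σ : F →+* F) (hσ : ∀ x, σ x = x ^ q) (hσσ : ∀ x, σ (σ x) = x) :
    ∃ θ : F, θ ≠ 0 ∧ σ θ = -θ := by
  obtain ⟨x, hx⟩ := gen_sigma_ne hF
  refine ⟨x - σ x, ?_, ?_⟩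
  · rw [hσ]; exact sub_ne_zero.2 (Ne.symm hx)
  · rw [map_sub, hσσ]; ring

theorem exists_rho {F : Type*} [Field F] [Fintype F] {q : ℕ} (hF : Fintype.card F = q ^ 2) :
    ∃ ρ : F, ρ ^ (q + 1) = -1 := by
  have hq := Cfsg.Agent.S0279.q_ge_two hF
  rcases Nat.even_or_odd q with he | ho
  · have h2 : ringChar F = 2 := by
      rw [FiniteField.even_card_iff_char_two, hF]
      exact Nat.even_iff.1 (Nat.even_pow.2 ⟨he, by norm_num⟩)
    haveI : CharP F 2 := ringChar.of_eq h2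
    exact ⟨1, by rw [one_pow, CharTwo.neg_eq]⟩
  · obtain ⟨γ, hγ⟩ := Cfsg.Agent.S0279.exists_gen hF
    obtain ⟨k, hk⟩ := ho
    have hsq := Cfsg.Agent.S0279.sq_sub q hq
    have hk1 : q - 1 = 2 * k := by omega
    have hkpos : 0 < k := by omega
    refine ⟨((γ ^ k : Fˣ) : F), ?_⟩
    have hE2 : (γ ^ (k * (q + 1))) ^ 2 = 1 := by
      rw [← pow_mul, show k * (q + 1) * 2 = (q - 1) * (q + 1) by rw [hk1]; ring, ← hsq, ← hγ,
        pow_orderOf_eq_one]
    have hE1 : γ ^ (k * (q + 1)) ≠ 1 := by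
      intro h
      have h2 := orderOf_dvd_of_pow_eq_one h
      rw [hγ, hsq, hk1] at h2
      have hpos : 0 < k * (q + 1) := Nat.mul_pos hkpos (by omega)
      have h3 := Nat.le_of_dvd hpos h2
      nlinarith
    have hE2' : ((γ ^ (k * (q + 1)) : Fˣ) : F) ^ 2 = 1 := by
      rw [← Units.val_pow_eq_pow_val, hE2, Units.val_one]
    have hE1' : ((γ ^ (k * (q + 1)) : Fˣ) : F) ≠ 1 := by
      intro h; exact hE1 (Units.ext h)
    have hm1 : ((γ ^ (k * (q + 1)) : Fˣ) : F) = -1 := by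
      have h0 : (((γ ^ (k * (q + 1)) : Fˣ) : F) - 1) * (((γ ^ (k * (q + 1)) : Fˣ) : F) + 1) = 0 := by
        linear_combination hE2'
      rcases mul_eq_zero.1 h0 with h | h
      · exact absurd (sub_eq_zero.1 h) hE1'
      · linear_combination h
    rw [← Units.val_pow_eq_pow_val, ← pow_mul, hm1]

theorem card_fixed {F : Type*} [Field F] [Fintype F] {q : ℕ} (hF : Fintype.card F = q ^ 2) :
    Set.ncard {x : F | x ^ q = x} = q := by
  classical
  have hq := Cfsg.Agent.S0279.q_ge_two hF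
  obtain ⟨γ, hγ⟩ := Cfsg.Agent.S0279.exists_gen hF
  have hpos : 0 < q ^ 2 - 1 := by
    have : 4 ≤ q ^ 2 := by nlinarith
    omega
  have hprim : IsPrimitiveRoot ((γ : F) ^ (q + 1)) (q - 1) := by
    have h1 : IsPrimitiveRoot (γ : F) (q ^ 2 - 1) := by
      rw [IsPrimitiveRoot.coe_units_iff, ← hγ]; exact IsPrimitiveRoot.orderOf γ
    exact h1.pow hpos (by rw [Cfsg.Agent.S0279.sq_sub q hq, mul_comm])
  have hset : {x : F | x ^ q = x} =
      insert 0 ((Polynomial.nthRootsFinset (q - 1) (1 : F) : Finset F) : Set F) := by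
    ext x
    rw [Set.mem_insert_iff, Finset.mem_coe, Polynomial.mem_nthRootsFinset (by omega)]
    show x ^ q = x ↔ _
    constructor
    · intro h
      by_cases hx : x = 0
      · exact Or.inl hx
      · right
        have h2 : x ^ (q - 1) * x = 1 * x := by
          rw [← pow_succ, Nat.sub_add_cancel (by omega), h, one_mul]
        exact mul_right_cancel₀ hx h2
    · rintro (rfl | h)
      · exact zero_pow (by omega)
      · calc x ^ q = x ^ (q - 1) * x := by rw [← pow_succ, Nat.sub_add_cancel (by omega)]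
          _ = x := by rw [h, one_mul]
  rw [hset, Set.ncard_insert_of_notMem, Set.ncard_coe_finset, hprim.card_nthRootsFinset]
  · omega
  · rw [Finset.mem_coe, Polynomial.mem_nthRootsFinset (by omega), zero_pow (by omega)]
    exact zero_ne_one

theorem exists_iota {F : Type*} [Field F] [Fintype F] {K : Type*} [Field K] [Fintype K] {q : ℕ}
    (hF : Fintype.card F = q ^ 2) (hK : Fintype.card K = q) (σ : F →+* F)
    (hσ : ∀ x, σ x = x ^ q) :
    ∃ ι : K →+* F, ∀ x : F, σ x = x ↔ ∃ k : K, ι k = x := by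
  classical
  obtain ⟨F0, hF0⟩ : ∃ F0 : Subfield F, ∀ x, x ∈ F0 ↔ σ x = x :=
    ⟨RingHom.eqLocusField σ (RingHom.id F), fun x => Iff.rfl⟩
  have hcard0 : Nat.card F0 = q := by
    rw [← card_fixed hF]
    show Set.ncard (F0 : Set F) = _
    congr 1
    ext x
    show x ∈ F0 ↔ x ^ q = x
    rw [hF0, hσ]
  haveI : Fintype F0 := Fintype.ofFinite F0
  have e : K ≃+* F0 :=
    FiniteField.ringEquivOfCardEq (by rw [hK, ← hcard0, Nat.card_eq_fintype_card])
  refine ⟨F0.subtype.comp e.toRingHom, fun x => ⟨fun hx => ?_, ?_⟩⟩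
  · refine ⟨e.symm ⟨x, (hF0 x).2 hx⟩, ?_⟩
    show ((e (e.symm ⟨x, (hF0 x).2 hx⟩) : F0) : F) = x
    rw [e.apply_symm_apply]
  · rintro ⟨k, rfl⟩
    exact (hF0 _).1 (e k).2

theorem symp2 {F : Type*} [Field F] (T : Matrix (Fin 2) (Fin 2) F) (h : T.det = 1) :
    Tᵀ * !![0, 1; -1, 0] * T = !![0, 1; -1, 0] := by
  rw [Matrix.det_fin_two] at h
  ext i j
  fin_cases i <;> fin_cases j <;> simp only [Matrix.mul_apply, Fin.sum_univ_two] <;> simp <;>
    first | ring1 | linear_combination h | linear_combination (-1 : F) * h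

theorem tmul {F : Type*} [Field F] (σ : F →+* F) (a b c d : F) :
    (!![a, b; c, d] : Matrix (Fin 2) (Fin 2) F)ᵀ * σ.mapMatrix !![a, b; c, d] =
      !![a * σ a + c * σ c, a * σ b + c * σ d; b * σ a + d * σ c, b * σ b + d * σ d] := by
  ext i j
  fin_cases i <;> fin_cases j <;> simp [Matrix.mul_apply, Fin.sum_univ_two]

theorem smulJ {F : Type*} [Field F] (μ : F) :
    μ • (!![0, 1; -1, 0] : Matrix (Fin 2) (Fin 2) F) = !![0, μ; -μ, 0] := by
  ext i j
  fin_cases i <;> fin_cases j <;> simp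

theorem exists_P {F : Type*} [Field F] [Fintype F] {q : ℕ} (hF : Fintype.card F = q ^ 2)
    (σ : F →+* F) (hσ : ∀ x, σ x = x ^ q) (hσσ : ∀ x, σ (σ x) = x) :
    ∃ (P Pi : Matrix (Fin 2) (Fin 2) F) (μ : F), μ ≠ 0 ∧ P * Pi = 1 ∧ Pi * P = 1 ∧
      Pᵀ * σ.mapMatrix P = μ • !![0, 1; -1, 0] := by
  obtain ⟨ρ, hρ⟩ := exists_rho hF
  obtain ⟨ζ, hζ0, hζ1, hζ⟩ := Cfsg.Agent.S0279.exists_norm_one hF
  obtain ⟨θ, hθ0, hθ⟩ := exists_theta hF σ hσ hσσ
  have r1 : ρ * σ ρ = -1 := by rw [hσ, ← pow_succ']; exact hρ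
  have z1 : ζ * σ ζ = 1 := by rw [hσ, ← pow_succ']; exact hζ
  have hρ0 : ρ ≠ 0 := by
    rintro rfl
    rw [zero_mul] at r1
    exact (neg_ne_zero.2 one_ne_zero) r1.symm
  have h1ζ : 1 - ζ ≠ 0 := sub_ne_zero.2 (Ne.symm hζ1)
  obtain ⟨lam, hlam⟩ : ∃ lam : F, lam = -θ / (1 - ζ) := ⟨_, rfl⟩
  have l1 : lam * (1 - ζ) = -θ := by rw [hlam]; field_simp
  have hlam0 : lam ≠ 0 := by
    rintro rfl
    rw [zero_mul] at l1
    exact hθ0 (neg_eq_zero.1 l1.symm)
  have l2 : σ lam * (1 - σ ζ) = θ := by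
    have h := congrArg σ l1
    rw [map_mul, map_sub, map_one, map_neg, hθ, neg_neg] at h
    exact h
  have hdet : (!![1, lam; ρ, lam * ρ * ζ] : Matrix (Fin 2) (Fin 2) F).det ≠ 0 := by
    rw [Matrix.det_fin_two_of]
    have : (1 : F) * (lam * ρ * ζ) - lam * ρ = lam * ρ * (ζ - 1) := by ring
    rw [this]
    exact mul_ne_zero (mul_ne_zero hlam0 hρ0) (sub_ne_zero.2 hζ1)
  refine ⟨!![1, lam; ρ, lam * ρ * ζ], (!![1, lam; ρ, lam * ρ * ζ])⁻¹, θ, hθ0,
    Matrix.mul_nonsing_inv _ (isUnit_iff_ne_zero.2 hdet),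
    Matrix.nonsing_inv_mul _ (isUnit_iff_ne_zero.2 hdet), ?_⟩
  rw [tmul, smulJ]
  ext i j
  fin_cases i <;> fin_cases j
  · show (1 : F) * σ 1 + ρ * σ ρ = 0
    rw [map_one]; linear_combination r1
  · show (1 : F) * σ lam + ρ * σ (lam * ρ * ζ) = θ
    rw [map_mul, map_mul]; linear_combination l2 + (σ lam * σ ζ) * r1
  · show lam * σ 1 + lam * ρ * ζ * σ ρ = -θ
    rw [map_one]; linear_combination l1 + (lam * ζ) * r1
  · show lam * σ lam + lam * ρ * ζ * σ (lam * ρ * ζ) = 0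
    rw [map_mul, map_mul]
    linear_combination (lam * σ lam * ζ * σ ζ) * r1 - (lam * σ lam) * z1

theorem lemA {F : Type*} [Field F] (σ : F →+* F) (P Pi : Matrix (Fin 2) (Fin 2) F) (μ : F)
    (hPPi : P * Pi = 1)
    (hP : Pᵀ * σ.mapMatrix P = μ • !![0, 1; -1, 0])
    (T : Matrix (Fin 2) (Fin 2) F) (hT : σ.mapMatrix T = T) (hdet : T.det = 1) :
    (P * T * Pi).det = 1 ∧ (P * T * Pi)ᵀ * σ.mapMatrix (P * T * Pi) = 1 := by
  constructor
  · rw [Matrix.det_mul, Matrix.det_mul, hdet, mul_one, ← Matrix.det_mul, hPPi, Matrix.det_one]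
  · have h1 : (P * T * Pi)ᵀ * σ.mapMatrix (P * T * Pi) =
        Piᵀ * (Tᵀ * (Pᵀ * σ.mapMatrix P) * T) * σ.mapMatrix Pi := by
      rw [Matrix.transpose_mul, Matrix.transpose_mul, map_mul, map_mul, hT]
      simp only [Matrix.mul_assoc]
    have h2 : Tᵀ * (μ • !![0, 1; -1, 0]) * T = μ • !![0, 1; -1, 0] := by
      rw [Matrix.mul_smul, Matrix.smul_mul, symp2 T hdet]
    have h3 : Piᵀ * (Pᵀ * σ.mapMatrix P) * σ.mapMatrix Pi = 1 := by
      have h : Piᵀ * (Pᵀ * σ.mapMatrix P) * σ.mapMatrix Pi =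
          (P * Pi)ᵀ * σ.mapMatrix (P * Pi) := by
        rw [Matrix.transpose_mul, map_mul]
        simp only [Matrix.mul_assoc]
      rw [h, hPPi, Matrix.transpose_one, map_one, Matrix.mul_one]
    rw [h1, hP, h2, ← hP, h3]

theorem lemB {F : Type*} [Field F] (σ : F →+* F) (P Pi : Matrix (Fin 2) (Fin 2) F) (μ : F)
    (hμ : μ ≠ 0) (hPPi : P * Pi = 1) (hPiP : Pi * P = 1)
    (hP : Pᵀ * σ.mapMatrix P = μ • !![0, 1; -1, 0])
    (g : Matrix (Fin 2) (Fin 2) F) (hdet : g.det = 1) (hg : gᵀ * σ.mapMatrix g = 1) :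
    (Pi * g * P).det = 1 ∧ σ.mapMatrix (Pi * g * P) = Pi * g * P := by
  have hdT : (Pi * g * P).det = 1 := by
    rw [Matrix.det_mul, Matrix.det_mul, hdet, mul_one, mul_comm, ← Matrix.det_mul, hPPi,
      Matrix.det_one]
  refine ⟨hdT, ?_⟩
  obtain ⟨T, hTdef⟩ : ∃ T, T = Pi * g * P := ⟨_, rfl⟩
  rw [← hTdef] at hdT ⊢
  have hPT : P * T = g * P := by
    rw [hTdef, ← Matrix.mul_assoc, ← Matrix.mul_assoc, hPPi, Matrix.one_mul]
  have h1 : Tᵀ * (Pᵀ * σ.mapMatrix P) * σ.mapMatrix T = Pᵀ * σ.mapMatrix P := by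
    have h : Tᵀ * (Pᵀ * σ.mapMatrix P) * σ.mapMatrix T = (P * T)ᵀ * σ.mapMatrix (P * T) := by
      rw [Matrix.transpose_mul, map_mul]; simp only [Matrix.mul_assoc]
    rw [h, hPT, Matrix.transpose_mul, map_mul]
    have h' : Pᵀ * gᵀ * (σ.mapMatrix g * σ.mapMatrix P) =
        Pᵀ * (gᵀ * σ.mapMatrix g) * σ.mapMatrix P := by
      simp only [Matrix.mul_assoc]
    rw [h', hg, Matrix.mul_one]
  rw [hP, Matrix.mul_smul, Matrix.smul_mul] at h1
  have h2 : Tᵀ * !![0, 1; -1, 0] * σ.mapMatrix T = !![0, 1; -1, 0] :=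
    smul_right_injective _ hμ h1
  have h3 := symp2 T hdT
  have hu : IsUnit (Tᵀ * !![0, 1; -1, 0] : Matrix (Fin 2) (Fin 2) F).det := by
    rw [Matrix.det_mul, Matrix.det_transpose, hdT, Matrix.det_fin_two_of]
    norm_num
  have h4 : (Tᵀ * !![0, 1; -1, 0]) * σ.mapMatrix T = (Tᵀ * !![0, 1; -1, 0]) * T := by
    rw [h2, h3]
  calc σ.mapMatrix T = (Tᵀ * !![0, 1; -1, 0])⁻¹ * ((Tᵀ * !![0, 1; -1, 0]) * σ.mapMatrix T) :=
        (Matrix.nonsing_inv_mul_cancel_left _ _ hu).symm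
    _ = (Tᵀ * !![0, 1; -1, 0])⁻¹ * ((Tᵀ * !![0, 1; -1, 0]) * T) := by rw [h4]
    _ = T := Matrix.nonsing_inv_mul_cancel_left _ _ hu

theorem mem_SU2_iff {F : Type*} [Field F] {q : ℕ} (σ : F →+* F) (hσ : ∀ x, σ x = x ^ q)
    (hq : q ≠ 0) (s : SpecialLinearGroup (Fin 2) F) :
    s ∈ Cfsg.SU 2 F q ↔
      (s : Matrix (Fin 2) (Fin 2) F)ᵀ * σ.mapMatrix (s : Matrix (Fin 2) (Fin 2) F) = 1 := by
  constructor
  · intro hs
    ext a b
    have h := (Cfsg.Agent.S0279.mem_SU_iff s).1 hs (Pi.single a 1) (Pi.single b 1)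
    rw [Matrix.mulVec_single_one, Matrix.mulVec_single_one] at h
    rw [Matrix.mul_apply]
    have h' : ∑ k, (s : Matrix (Fin 2) (Fin 2) F) k a * (s : Matrix (Fin 2) (Fin 2) F) k b ^ q =
        Cfsg.hermForm 2 F q (Pi.single a 1) (Pi.single b 1) := h
    calc ∑ k, (s : Matrix (Fin 2) (Fin 2) F)ᵀ a k *
          (σ.mapMatrix (s : Matrix (Fin 2) (Fin 2) F)) k b
        = ∑ k, (s : Matrix (Fin 2) (Fin 2) F) k a * (s : Matrix (Fin 2) (Fin 2) F) k b ^ q := by
          apply Finset.sum_congr rfl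
          intro k _
          rw [Matrix.transpose_apply, RingHom.mapMatrix_apply, Matrix.map_apply, hσ]
      _ = Cfsg.hermForm 2 F q (Pi.single a 1) (Pi.single b 1) := h'
      _ = (1 : Matrix (Fin 2) (Fin 2) F) a b := by
        by_cases hab : a = b
        · rw [hab, Cfsg.Agent.S0279.herm_single, Matrix.one_apply_eq]
        · rw [Cfsg.Agent.S0783.herm_single_ne hq a b hab, Matrix.one_apply_ne hab]
  · intro hm
    refine (Cfsg.Agent.S0279.mem_SU_iff s).2 ?_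
    intro u v
    have e00 : (s : Matrix (Fin 2) (Fin 2) F) 0 0 * σ ((s : Matrix (Fin 2) (Fin 2) F) 0 0) +
        (s : Matrix (Fin 2) (Fin 2) F) 1 0 * σ ((s : Matrix (Fin 2) (Fin 2) F) 1 0) = 1 := by
      have h := congrFun (congrFun hm 0) 0
      rw [Matrix.mul_apply, Fin.sum_univ_two, Matrix.one_apply_eq] at h
      exact h
    have e01 : (s : Matrix (Fin 2) (Fin 2) F) 0 0 * σ ((s : Matrix (Fin 2) (Fin 2) F) 0 1) +
        (s : Matrix (Fin 2) (Fin 2) F) 1 0 * σ ((s : Matrix (Fin 2) (Fin 2) F) 1 1) = 0 := by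
      have h := congrFun (congrFun hm 0) 1
      rw [Matrix.mul_apply, Fin.sum_univ_two, Matrix.one_apply_ne (by decide)] at h
      exact h
    have e10 : (s : Matrix (Fin 2) (Fin 2) F) 0 1 * σ ((s : Matrix (Fin 2) (Fin 2) F) 0 0) +
        (s : Matrix (Fin 2) (Fin 2) F) 1 1 * σ ((s : Matrix (Fin 2) (Fin 2) F) 1 0) = 0 := by
      have h := congrFun (congrFun hm 1) 0
      rw [Matrix.mul_apply, Fin.sum_univ_two, Matrix.one_apply_ne (by decide)] at h
      exact h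
    have e11 : (s : Matrix (Fin 2) (Fin 2) F) 0 1 * σ ((s : Matrix (Fin 2) (Fin 2) F) 0 1) +
        (s : Matrix (Fin 2) (Fin 2) F) 1 1 * σ ((s : Matrix (Fin 2) (Fin 2) F) 1 1) = 1 := by
      have h := congrFun (congrFun hm 1) 1
      rw [Matrix.mul_apply, Fin.sum_univ_two, Matrix.one_apply_eq] at h
      exact h
    unfold Cfsg.hermForm
    simp only [Fin.sum_univ_two, Matrix.mulVec, dotProduct]
    simp only [← hσ]
    simp only [map_add, map_mul]
    linear_combination (u 0 * σ (v 0)) * e00 + (u 0 * σ (v 1)) * e01 + (u 1 * σ (v 0)) * e10 +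
      (u 1 * σ (v 1)) * e11


/-- SU_2(q) is isomorphic to SL_2(q). -/
theorem result {F K : Type*} [Field F] [Fintype F] [Field K] [Fintype K] {q : ℕ} (hF : Fintype.card F = q ^ 2) (hK : Fintype.card K = q) : Nonempty (Cfsg.SU 2 F q ≃* Matrix.SpecialLinearGroup (Fin 2) K) := by
  classical
  have hq := Cfsg.Agent.S0279.q_ge_two hF
  obtain ⟨σ, hσ, hσσ⟩ := exists_sigma hF
  obtain ⟨ι, hι⟩ := exists_iota hF hK σ hσ
  obtain ⟨P, Pi, μ, hμ, hPPi, hPiP, hP⟩ := exists_P hF σ hσ hσσ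
  have hιfix : ∀ M : Matrix (Fin 2) (Fin 2) K, σ.mapMatrix (ι.mapMatrix M) = ι.mapMatrix M := by
    intro M
    ext i j
    rw [RingHom.mapMatrix_apply, Matrix.map_apply, RingHom.mapMatrix_apply, Matrix.map_apply]
    exact (hι _).2 ⟨_, rfl⟩
  have hA : ∀ S : Matrix.SpecialLinearGroup (Fin 2) K, ∃ s : Cfsg.SU 2 F q,
      ((s.1 : Matrix.SpecialLinearGroup (Fin 2) F) : Matrix (Fin 2) (Fin 2) F) =
        P * ι.mapMatrix (S : Matrix (Fin 2) (Fin 2) K) * Pi := by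
    intro S
    have hdT : (ι.mapMatrix (S : Matrix (Fin 2) (Fin 2) K)).det = 1 := by
      rw [← RingHom.map_det, S.2, map_one]
    obtain ⟨h1, h2⟩ := lemA σ P Pi μ hPPi hP _ (hιfix _) hdT
    exact ⟨⟨⟨_, h1⟩, (mem_SU2_iff σ hσ (by omega) _).2 h2⟩, rfl⟩
  choose f hf using hA
  have hmul : ∀ a b, f (a * b) = f a * f b := by
    intro a b
    apply Subtype.ext
    apply Subtype.ext
    show (((f (a * b)).1 : Matrix.SpecialLinearGroup (Fin 2) F) : Matrix (Fin 2) (Fin 2) F) =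
      (((f a).1 : Matrix.SpecialLinearGroup (Fin 2) F) : Matrix (Fin 2) (Fin 2) F) *
        (((f b).1 : Matrix.SpecialLinearGroup (Fin 2) F) : Matrix (Fin 2) (Fin 2) F)
    rw [hf, hf, hf]
    have e : ((a * b : Matrix.SpecialLinearGroup (Fin 2) K) : Matrix (Fin 2) (Fin 2) K) =
        (a : Matrix (Fin 2) (Fin 2) K) * (b : Matrix (Fin 2) (Fin 2) K) := rfl
    rw [e, map_mul]
    have e2 : P * ι.mapMatrix (a : Matrix (Fin 2) (Fin 2) K) * Pi *
        (P * ι.mapMatrix (b : Matrix (Fin 2) (Fin 2) K) * Pi) =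
        P * ι.mapMatrix (a : Matrix (Fin 2) (Fin 2) K) * (Pi * P) *
          ι.mapMatrix (b : Matrix (Fin 2) (Fin 2) K) * Pi := by
      simp only [Matrix.mul_assoc]
    rw [e2, hPiP, Matrix.mul_one]
    simp only [Matrix.mul_assoc]
  have hinj : Function.Injective f := by
    intro a b hab
    have h1 : P * ι.mapMatrix (a : Matrix (Fin 2) (Fin 2) K) * Pi =
        P * ι.mapMatrix (b : Matrix (Fin 2) (Fin 2) K) * Pi := by
      rw [← hf, ← hf, hab]
    have e3 : ∀ X : Matrix (Fin 2) (Fin 2) F, Pi * (P * X * Pi) * P = X := by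
      intro X
      have : Pi * (P * X * Pi) * P = (Pi * P) * X * (Pi * P) := by simp only [Matrix.mul_assoc]
      rw [this, hPiP, Matrix.one_mul, Matrix.mul_one]
    have h2 : ι.mapMatrix (a : Matrix (Fin 2) (Fin 2) K) =
        ι.mapMatrix (b : Matrix (Fin 2) (Fin 2) K) := by
      rw [← e3 (ι.mapMatrix (a : Matrix (Fin 2) (Fin 2) K)), h1, e3]
    apply Subtype.ext
    ext i j
    have h4 := congrFun (congrFun h2 i) j
    rw [RingHom.mapMatrix_apply, Matrix.map_apply, RingHom.mapMatrix_apply, Matrix.map_apply] at h4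
    exact ι.injective h4
  have hsurj : Function.Surjective f := by
    intro s
    have hg := (mem_SU2_iff σ hσ (by omega) s.1).1 s.2
    obtain ⟨hdT, hTfix⟩ := lemB σ P Pi μ hμ hPPi hPiP hP _ s.1.2 hg
    have hent : ∀ i j, ∃ k : K, ι k =
        (Pi * ((s.1 : Matrix.SpecialLinearGroup (Fin 2) F) : Matrix (Fin 2) (Fin 2) F) * P) i j := by
      intro i j
      apply (hι _).1
      have h := congrFun (congrFun hTfix i) j
      rw [RingHom.mapMatrix_apply, Matrix.map_apply] at h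
      exact h
    choose S0 hS0 using hent
    have hmap : ι.mapMatrix (Matrix.of S0) =
        Pi * ((s.1 : Matrix.SpecialLinearGroup (Fin 2) F) : Matrix (Fin 2) (Fin 2) F) * P := by
      ext i j
      rw [RingHom.mapMatrix_apply, Matrix.map_apply]
      exact hS0 i j
    have hdS : (Matrix.of S0).det = 1 := by
      apply ι.injective
      rw [RingHom.map_det, hmap, hdT, map_one]
    obtain ⟨S, hSdef⟩ : ∃ S : Matrix.SpecialLinearGroup (Fin 2) K,
        (S : Matrix (Fin 2) (Fin 2) K) = Matrix.of S0 := ⟨⟨Matrix.of S0, hdS⟩, rfl⟩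
    refine ⟨S, ?_⟩
    apply Subtype.ext
    apply Subtype.ext
    rw [hf, hSdef, hmap]
    have h5 : P * (Pi * ((s.1 : Matrix.SpecialLinearGroup (Fin 2) F) : Matrix (Fin 2) (Fin 2) F) * P) *
        Pi = (P * Pi) * ((s.1 : Matrix.SpecialLinearGroup (Fin 2) F) : Matrix (Fin 2) (Fin 2) F) *
          (P * Pi) := by
      simp only [Matrix.mul_assoc]
    rw [h5, hPPi, Matrix.one_mul, Matrix.mul_one]
  exact ⟨(MulEquiv.ofBijective (MonoidHom.mk' f hmul) ⟨hinj, hsurj⟩).symm⟩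

end Cfsg.Agent.S0281
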