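import Cfsg.Statements.S0065
import Mathlib

set_option autoImplicit false
open Cfsg

namespace Cfsg.Agent.S0065

open scoped commutatorElement

/-- A nontrivial normal subgroup of a nilpotent group intersects the centre nontrivially. -/
theorem result {G : Type*} [Group G] [Finite G] [Group.IsNilpotent G]
    (N : Subgroup G) [N.Normal] (hN : N ≠ ⊥) : N ⊓ Subgroup.center G ≠ ⊥ := by
  classical
  obtain ⟨n, hn⟩ := Group.IsNilpotent.nilpotent' (G := G)
  have hex : ∃ n, N ⊓ Subgroup.upperCentralSeries G n ≠ ⊥ := ⟨n, by rw [hn, inf_top_eq]; exact hN⟩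
  have hfind := Nat.find_spec hex
  have hmin := fun m => Nat.find_min hex (m := m)
  generalize Nat.find hex = k at hfind hmin
  rcases k with _ | j
  · exfalso; apply hfind; rw [Subgroup.upperCentralSeries_zero, inf_bot_eq]
  · have hbot : N ⊓ Subgroup.upperCentralSeries G j = ⊥ := by
      by_contra hcon
      exact hmin j (by omega) hcon
    have hx : ∃ x ∈ N ⊓ Subgroup.upperCentralSeries G (j+1), x ≠ 1 := by
      by_contra hcon
      push Not at hcon
      exact hfind ((Subgroup.eq_bot_iff_forall _).mpr hcon)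
    obtain ⟨x, hx, hx1⟩ := hx
    have hxc : x ∈ Subgroup.center G := by
      rw [Subgroup.mem_center_iff]
      intro g
      have h1 : ⁅x, g⁆ ∈ Subgroup.upperCentralSeries G j := (Subgroup.mem_upperCentralSeries_succ_iff).mp hx.2 g
      have h2 : ⁅x, g⁆ ∈ N := by
        rw [commutatorElement_def]
        have : x * g * x⁻¹ * g⁻¹ = x * (g * x⁻¹ * g⁻¹) := by group
        rw [this]; exact N.mul_mem hx.1 (‹N.Normal›.conj_mem _ (N.inv_mem hx.1) g)
      have h3 : ⁅x, g⁆ ∈ N ⊓ Subgroup.upperCentralSeries G j := ⟨h2, h1⟩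
      rw [hbot, Subgroup.mem_bot, commutatorElement_def] at h3
      have h4 : x * g = g * x := by
        have := congrArg (· * (g * x)) h3; simpa [mul_assoc] using this
      exact h4.symm
    intro hbot2
    have h5 : x ∈ N ⊓ Subgroup.center G := ⟨hx.1, hxc⟩
    rw [hbot2, Subgroup.mem_bot] at h5
    exact hx1 h5


end Cfsg.Agent.S0065
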