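import Cfsg.Statements.S0015
import Mathlib
import Cfsg.Agent.S0065

set_option autoImplicit false
open Cfsg

namespace Cfsg.Agent.S0015

/-- In a finite nilpotent group, an abelian normal subgroup that is maximal among abelian normal subgroups equals its own centralizer. -/
theorem result {G : Type*} [Group G] [Finite G] [Group.IsNilpotent G]
    (N : Subgroup G) [N.Normal] [IsMulCommutative N]
    (hmax : ∀ M : Subgroup G, M.Normal → IsMulCommutative M → N ≤ M → M = N) :
    Subgroup.centralizer (N : Set G) = N := by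
  classical
  set C := Subgroup.centralizer (N : Set G) with hC
  have hNC : N ≤ C := by
    intro n hn
    rw [hC, Subgroup.mem_centralizer_iff]
    intro m hm
    have := mul_comm' (⟨m, hm⟩ : N) ⟨n, hn⟩
    exact congrArg Subtype.val this
  by_contra hne
  have hCN : ¬ C ≤ N := fun h => hne (le_antisymm h hNC)
  have hmapne : C.map (QuotientGroup.mk' N) ≠ ⊥ := by
    intro h
    apply hCN
    intro c hc
    have : (QuotientGroup.mk' N) c ∈ C.map (QuotientGroup.mk' N) := Subgroup.mem_map_of_mem _ hc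
    rw [h, Subgroup.mem_bot] at this
    exact (QuotientGroup.eq_one_iff c).mp this
  haveI hCn : C.Normal := by rw [hC]; infer_instance
  haveI : (C.map (QuotientGroup.mk' N)).Normal := Subgroup.Normal.map hCn _ (QuotientGroup.mk'_surjective N)
  have h65 := Cfsg.Agent.S0065.result (C.map (QuotientGroup.mk' N)) hmapne
  obtain ⟨y, hy, hy1⟩ : ∃ y ∈ C.map (QuotientGroup.mk' N) ⊓ Subgroup.center (G ⧸ N), y ≠ 1 := by
    by_contra hcon
    push Not at hcon
    exact h65 ((Subgroup.eq_bot_iff_forall _).mpr hcon)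
  obtain ⟨x, hxC, rfl⟩ := Subgroup.mem_map.mp hy.1
  have hxN : x ∉ N := fun h => hy1 ((QuotientGroup.eq_one_iff x).mpr h)
  set M : Subgroup G := (Subgroup.zpowers ((QuotientGroup.mk' N) x)).comap (QuotientGroup.mk' N) with hM
  have hZn : (Subgroup.zpowers ((QuotientGroup.mk' N) x)).Normal := by
    constructor
    intro z hz g
    have hzc : z ∈ Subgroup.center (G ⧸ N) := by
      obtain ⟨k, rfl⟩ := Subgroup.mem_zpowers_iff.mp hz
      exact Subgroup.zpow_mem _ hy.2 k
    rw [Subgroup.mem_center_iff] at hzc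
    rw [hzc g, mul_inv_cancel_right]
    exact hz
  have hMn : M.Normal := hZn.comap _
  have hNM : N ≤ M := by
    intro n hn
    rw [hM, Subgroup.mem_comap]
    have : (QuotientGroup.mk' N) n = 1 := (QuotientGroup.eq_one_iff n).mpr hn
    rw [this]
    exact Subgroup.one_mem _
  have hMform : ∀ m ∈ M, ∃ n ∈ N, ∃ k : ℤ, m = n * x ^ k := by
    intro m hm
    rw [hM, Subgroup.mem_comap] at hm
    obtain ⟨k, hk⟩ := Subgroup.mem_zpowers_iff.mp hm
    refine ⟨m * (x ^ k)⁻¹, ?_, k, by group⟩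
    rw [← QuotientGroup.eq_one_iff]
    have h1 : ((m * (x ^ k)⁻¹ : G) : G ⧸ N) = (QuotientGroup.mk' N) m * ((QuotientGroup.mk' N) x ^ k)⁻¹ := by
      simp
    rw [h1, hk, mul_inv_cancel]
  have hxcomm : ∀ n ∈ N, n * x = x * n := by
    intro n hn
    exact (Subgroup.mem_centralizer_iff.mp hxC) n hn
  have hMc : IsMulCommutative M := by
    refine ⟨⟨fun a b => Subtype.ext ?_⟩⟩
    obtain ⟨n1, hn1, k1, h1⟩ := hMform a a.2
    obtain ⟨n2, hn2, k2, h2⟩ := hMform b b.2
    have hnn : n1 * n2 = n2 * n1 := congrArg Subtype.val (mul_comm' (⟨n1, hn1⟩ : N) ⟨n2, hn2⟩)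
    have c1 : n1 * x ^ k2 = x ^ k2 * n1 := (Commute.zpow_right (hxcomm n1 hn1) k2)
    have c2 : n2 * x ^ k1 = x ^ k1 * n2 := (Commute.zpow_right (hxcomm n2 hn2) k1)
    have c3 : x ^ k1 * x ^ k2 = x ^ k2 * x ^ k1 := by rw [← zpow_add, ← zpow_add, add_comm]
    show (a : G) * b = b * a
    rw [h1, h2]
    calc n1 * x ^ k1 * (n2 * x ^ k2) = n1 * (x ^ k1 * n2) * x ^ k2 := by simp only [mul_assoc]
      _ = n1 * (n2 * x ^ k1) * x ^ k2 := by rw [c2]
      _ = (n1 * n2) * (x ^ k1 * x ^ k2) := by simp only [mul_assoc]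
      _ = (n2 * n1) * (x ^ k2 * x ^ k1) := by rw [hnn, c3]
      _ = n2 * (n1 * x ^ k2) * x ^ k1 := by simp only [mul_assoc]
      _ = n2 * (x ^ k2 * n1) * x ^ k1 := by rw [c1]
      _ = n2 * x ^ k2 * (n1 * x ^ k1) := by simp only [mul_assoc]
  have hMN := hmax M hMn hMc hNM
  apply hxN
  rw [← hMN, hM, Subgroup.mem_comap]
  exact Subgroup.mem_zpowers _


end Cfsg.Agent.S0015
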