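import Cfsg.Statements.S0031
import Mathlib
import Cfsg.Agent.Lead.SylowBasic

set_option autoImplicit false
open Cfsg

namespace Cfsg.Agent.S0031

/-- A fixed-point-free automorphism of a finite group maps some Sylow p-subgroup to itself. -/
theorem result {G : Type*} [Group G] [Finite G] (φ : G ≃* G)
    (hφ : MonoidHom.FixedPointFree (φ : G →* G)) (p : ℕ) [Fact p.Prime] :
    ∃ P : Sylow p G, (P : Subgroup G).map (φ : G →* G) = P := by
  classical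
  obtain ⟨P₀⟩ : Nonempty (Sylow p G) := inferInstance
  have hcoe : (((φ : MulAut G) • P₀ : Sylow p G) : Subgroup G) = (P₀ : Subgroup G).map (φ : G →* G) := by
    rw [Sylow.pointwise_smul_def, Subgroup.pointwise_smul_def]
    rfl
  obtain ⟨g, hg⟩ := MulAction.exists_smul_eq G P₀ ((φ : MulAut G) • P₀)
  obtain ⟨y, hy⟩ := MonoidHom.FixedPointFree.commutatorMap_surjective hφ g⁻¹
  rw [MonoidHom.commutatorMap_apply] at hy
  have hy' : y / φ y = g⁻¹ := hy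
  have hxg : φ y⁻¹ * g = y⁻¹ := by
    have h0 : g = φ y * y⁻¹ := by
      rw [← inv_inv g, ← hy', div_eq_mul_inv, mul_inv_rev, inv_inv]
    rw [h0, map_inv]; group
  have key : ∀ u : G, u ∈ (P₀ : Subgroup G) ↔ g⁻¹ * φ u * g ∈ (P₀ : Subgroup G) := by
    intro u
    rw [← Cfsg.Agent.Lead.mem_conj_smul_iff, ← Sylow.coe_subgroup_smul, hg, hcoe]
    exact (Subgroup.mem_map_iff_mem (f := (φ : G →* G)) φ.injective).symm
  refine ⟨y⁻¹ • P₀, ?_⟩
  ext z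
  rw [Sylow.coe_subgroup_smul, Subgroup.mem_map]
  constructor
  · rintro ⟨w, hw, rfl⟩
    rw [Cfsg.Agent.Lead.mem_conj_smul_iff] at hw ⊢
    rw [key] at hw
    have e : g⁻¹ * φ ((y⁻¹)⁻¹ * w * y⁻¹) * g = (y⁻¹)⁻¹ * (φ : G →* G) w * y⁻¹ := by
      have h1 : (φ y⁻¹ * g)⁻¹ * φ w * (φ y⁻¹ * g) = (y⁻¹)⁻¹ * φ w * y⁻¹ := by rw [hxg]
      rw [show ((φ : G →* G) w) = φ w from rfl, ← h1]
      simp [mul_assoc]
    rw [← e]; exact hw
  · intro hz
    refine ⟨φ.symm z, ?_, by simp⟩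
    rw [Cfsg.Agent.Lead.mem_conj_smul_iff] at hz ⊢
    rw [key]
    have e : g⁻¹ * φ ((y⁻¹)⁻¹ * φ.symm z * y⁻¹) * g = (y⁻¹)⁻¹ * z * y⁻¹ := by
      have h1 : (φ y⁻¹ * g)⁻¹ * z * (φ y⁻¹ * g) = (y⁻¹)⁻¹ * z * y⁻¹ := by rw [hxg]
      rw [← h1]
      simp [mul_assoc]
    rw [e]; exact hz


end Cfsg.Agent.S0031
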