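import Cfsg.Statements.S0032
import Mathlib

set_option autoImplicit false
open Cfsg

namespace Cfsg.Agent.S0032

/-- If an automorphism of a finite group fixes only the identity and maps a normal subgroup N into itself, then the only cosets of N it fixes are those in N: a fixed coset xN forces x ∈ N. -/
theorem result {G : Type*} [Group G] [Finite G] (φ : G ≃* G)
    (hφ : MonoidHom.FixedPointFree (φ : G →* G)) (N : Subgroup G) [N.Normal] (hN : ∀ n ∈ N, φ n ∈ N)
    (x : G) (hx : (φ x)⁻¹ * x ∈ N) : x ∈ N := by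
  classical
  let f : N → N := fun n => ⟨(φ n)⁻¹ * n, N.mul_mem (N.inv_mem (hN n n.2)) n.2⟩
  have hfinj : Function.Injective f := by
    intro a b hab
    have h1 : (φ a)⁻¹ * (a : G) = (φ b)⁻¹ * (b : G) := congrArg Subtype.val hab
    have h2 : φ ((b : G) * (a : G)⁻¹) = (b : G) * (a : G)⁻¹ := by
      rw [map_mul, map_inv]
      have h3 : (a : G) = φ a * ((φ b)⁻¹ * b) := by rw [← h1]; group
      calc φ b * (φ a)⁻¹ = φ b * (φ a)⁻¹ * (a * (a : G)⁻¹) := by group
        _ = φ b * (φ a)⁻¹ * (φ a * ((φ b)⁻¹ * b) * (a : G)⁻¹) := by rw [← h3]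
        _ = b * (a : G)⁻¹ := by group
    have h4 := hφ _ h2
    have h5 : (b : G) = a := by
      have := congrArg (· * (a : G)) h4
      simpa using this
    exact Subtype.ext h5.symm
  have hfsurj : Function.Surjective f := Finite.injective_iff_surjective.mp hfinj
  obtain ⟨n, hn⟩ := hfsurj ⟨(φ x)⁻¹ * x, hx⟩
  have h1 : (φ n)⁻¹ * (n : G) = (φ x)⁻¹ * x := congrArg Subtype.val hn
  have h2 : φ (x * (n : G)⁻¹) = x * (n : G)⁻¹ := by
    rw [map_mul, map_inv]
    have h3 : (n : G) = φ n * ((φ x)⁻¹ * x) := by rw [← h1]; group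
    calc φ x * (φ n)⁻¹ = φ x * (φ n)⁻¹ * (n * (n : G)⁻¹) := by group
      _ = φ x * (φ n)⁻¹ * (φ n * ((φ x)⁻¹ * x) * (n : G)⁻¹) := by rw [← h3]
      _ = x * (n : G)⁻¹ := by group
  have h4 := hφ _ h2
  have h5 : x = n := by
    have := congrArg (· * (n : G)) h4
    simpa using this
  rw [h5]; exact n.2


end Cfsg.Agent.S0032
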