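import Cfsg.Statements.S0071
import Mathlib
import Cfsg.Agent.Helper6.FrobNPC
import Cfsg.Agent.Lead.SylowBasic
-- import your own Cfsg.Agent.* helpers here

set_option autoImplicit false
open Cfsg

namespace Cfsg.Agent.S0071

open Cfsg.Agent.Helper6 in
theorem aux_compl {G : Type*} [Group G] [Finite G] {p : ℕ} [Fact p.Prime] (P : Sylow p G)
    (h : Cfsg.HasNormalPComplement p G) :
    ∃ N : Subgroup G, N.Normal ∧ N.IsComplement' (P : Subgroup G) := by
  obtain ⟨P', N, hN, hc⟩ := h
  refine ⟨N, hN, ?_⟩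
  have h1 : Nat.card N * Nat.card (P' : Subgroup G) = Nat.card G := hc.card_mul_card
  have h2 : Nat.card (P' : Subgroup G) = Nat.card (P : Subgroup G) := by
    rw [Sylow.card_eq_multiplicity, Sylow.card_eq_multiplicity]
  rw [h2] at h1
  apply Subgroup.isComplement'_of_coprime h1
  have h3 := (P : Subgroup G).card_mul_index
  have hpos : 0 < Nat.card (P : Subgroup G) := Nat.card_pos
  have h4 : (P : Subgroup G).index = Nat.card N := by
    have : Nat.card (P : Subgroup G) * (P : Subgroup G).index
        = Nat.card (P : Subgroup G) * Nat.card N := by rw [h3, ← h1, mul_comm]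
    exact Nat.eq_of_mul_eq_mul_left hpos this
  have h5 : ¬ p ∣ Nat.card N := by rw [← h4]; exact P.not_dvd_index
  obtain ⟨k, hk⟩ := IsPGroup.iff_card.mp P.2
  rw [hk]
  exact Nat.Coprime.pow_right k (((Nat.Prime.coprime_iff_not_dvd Fact.out).mpr h5).symm)

/-- The Frobenius normal p-complement Theorem states that a Sylow p-subgroup has a normal complement exactly when, for each of its subgroups Q, every element of the normalizer of Q of order prime to p centralizes Q. -/
theorem result {G : Type*} [Group G] [Finite G] {p : ℕ} [Fact p.Prime] (P : Sylow p G) : (∃ N : Subgroup G, N.Normal ∧ N.IsComplement' (P : Subgroup G)) ↔ ∀ Q : Subgroup G, Q ≤ (P : Subgroup G) → ∀ g ∈ Subgroup.normalizer (Q : Set G), Nat.Coprime (orderOf g) p → g ∈ Subgroup.centralizer (Q : Set G) := by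
  constructor
  · rintro ⟨N, hN, hc⟩
    have h1 : Cfsg.HasNormalPComplement p G := ⟨P, N, hN, hc⟩
    have h2 := Cfsg.Agent.Helper6.frobCond_of_hasNormalPComplement h1
    intro Q hQ g hg hcop
    exact h2 Q (P.isPGroup'.to_le hQ) g hg hcop
  · intro h
    apply aux_compl P
    apply Cfsg.Agent.Helper6.hasNormalPComplement_of_frobCond
    intro X hX g hg hcop
    obtain ⟨c, hc⟩ := Cfsg.Agent.Lead.exists_conj_mem_sylow P hX
    have hQ : X.map (MulAut.conj c).toMonoidHom ≤ (P : Subgroup G) := by
      rintro _ ⟨x, hx, rfl⟩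
      have e : (MulAut.conj c).toMonoidHom x = c * x * c⁻¹ := by simp [MulAut.conj_apply]
      rw [e]; exact hc x hx
    have hn : c * g * c⁻¹ ∈ Subgroup.normalizer ((X.map (MulAut.conj c).toMonoidHom : Subgroup G) : Set G) := by
      rw [Subgroup.mem_normalizer_iff]
      intro y
      have key : ∀ z : G, z ∈ X.map (MulAut.conj c).toMonoidHom ↔ c⁻¹ * z * c ∈ X := by
        intro z
        constructor
        · rintro ⟨x, hx, rfl⟩
          have e : c⁻¹ * (MulAut.conj c).toMonoidHom x * c = x := by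
            simp [MulAut.conj_apply, mul_assoc]
          rw [e]; exact hx
        · intro hz
          refine ⟨c⁻¹ * z * c, hz, ?_⟩
          simp [MulAut.conj_apply, mul_assoc]
      rw [key, key]
      have h3 := Subgroup.mem_normalizer_iff.mp hg (c⁻¹ * y * c)
      have e : c⁻¹ * (c * g * c⁻¹ * y * (c * g * c⁻¹)⁻¹) * c = g * (c⁻¹ * y * c) * g⁻¹ := by group
      rw [e]; exact h3
    have ho : Nat.Coprime (orderOf (c * g * c⁻¹)) p := by
      rw [Cfsg.Agent.Lead.orderOf_conj_eq]; exact hcop
    have h4 := h _ hQ _ hn ho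
    rw [Subgroup.mem_centralizer_iff] at h4 ⊢
    intro x hx
    have h5 := h4 (c * x * c⁻¹) ⟨x, hx, by simp [MulAut.conj_apply]⟩
    have e1 : x * g = c⁻¹ * (c * x * c⁻¹ * (c * g * c⁻¹)) * c := by group
    have e2 : g * x = c⁻¹ * (c * g * c⁻¹ * (c * x * c⁻¹)) * c := by group
    rw [e1, e2, h5]

end Cfsg.Agent.S0071
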