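import Cfsg.Statements.S0112
import Mathlib

set_option autoImplicit false
open Cfsg

namespace Cfsg.Agent.S0112

universe u

theorem aux {p : ℕ} [Fact p.Prime] : ∀ (n : ℕ) (X : Type u) [Group X] [Finite X],
    Nat.card X = p ^ n → ∀ A : Subgroup X, Nat.card A = p ^ 2 →
    Subgroup.centralizer (A : Set X) = A → Group.nilpotencyClass X = n - 1 := by
  intro n
  induction n with
  | zero =>
    intro X _ _ hX A hA hC
    exfalso
    have h1 := Subgroup.card_subgroup_dvd_card A
    rw [hX, hA, pow_zero] at h1
    have hp := (Fact.out : p.Prime).one_lt
    have h2 := Nat.le_of_dvd one_pos h1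
    nlinarith
  | succ n ih =>
    intro X _ _ hX A hA hC
    have hp : p.Prime := Fact.out
    have hPG : IsPGroup p X := IsPGroup.of_card hX
    haveI : Group.IsNilpotent X := hPG.isNilpotent
    haveI : Nontrivial X := by
      apply Finite.one_lt_card_iff_nontrivial.mp
      rw [hX]; exact Nat.one_lt_pow (by omega) hp.one_lt
    have hZA : Subgroup.center X ≤ A := by
      rw [← hC]; exact Subgroup.center_le_centralizer _
    by_cases hAtop : A = ⊤
    · have h2 : p ^ (n + 1) = p ^ 2 := by rw [← hX, ← hA, hAtop, Subgroup.card_top]
      have hn : n + 1 = 2 := Nat.pow_right_injective hp.two_le h2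
      have hcen : Subgroup.center X = ⊤ := by
        rw [← Subgroup.centralizer_univ, ← Subgroup.coe_top, ← hAtop, hC]
      have hle : Group.nilpotencyClass X ≤ 1 := by
        rw [← Subgroup.upperCentralSeries_eq_top_iff_nilpotencyClass_le, upperCentralSeries_one]
        exact hcen
      have hne : Group.nilpotencyClass X ≠ 0 := by
        intro h0
        rw [Group.nilpotencyClass_zero_iff_subsingleton] at h0
        exact false_of_nontrivial_of_subsingleton X
      omega
    · have hn2 : 2 ≤ n := by
        by_contra hcon
        apply hAtop
        apply Subgroup.eq_top_of_le_card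
        rw [hX, hA]
        exact Nat.pow_le_pow_right hp.pos (by omega)
      have hZneA : Subgroup.center X ≠ A := by
        intro h
        apply hAtop
        have h1 : Subgroup.centralizer (A : Set X) = ⊤ := by
          rw [Subgroup.centralizer_eq_top_iff_subset, ← h]
        rw [hC] at h1; exact h1
      have hZcard : Nat.card (Subgroup.center X) = p := by
        have hdvd : Nat.card (Subgroup.center X) ∣ p ^ 2 := hA ▸ Subgroup.card_dvd_of_le hZA
        obtain ⟨k, hk, hkc⟩ := (Nat.dvd_prime_pow hp).mp hdvd
        have hk0 : k ≠ 0 := by
          rintro rfl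
          have hZbot : Subgroup.center X = ⊥ := Subgroup.eq_bot_of_card_eq _ (by simpa using hkc)
          have hnt := hPG.center_nontrivial
          exact (Subgroup.nontrivial_iff_ne_bot _).mp hnt hZbot
        have hk2 : k ≠ 2 := by
          rintro rfl
          apply hZneA
          exact Subgroup.eq_of_le_of_card_ge hZA (by rw [hkc, hA])
        have hk1 : k = 1 := by omega
        rw [hkc, hk1, pow_one]
      obtain ⟨a, haA, haZ⟩ : ∃ a, a ∈ A ∧ a ∉ Subgroup.center X := by
        by_contra hcon; push_neg at hcon
        exact hZneA (le_antisymm hZA hcon)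
      have hsupA : Subgroup.center X ⊔ Subgroup.zpowers a ≤ A :=
        sup_le hZA (by rwa [Subgroup.zpowers_le])
      have hAeq : Subgroup.center X ⊔ Subgroup.zpowers a = A := by
        apply Subgroup.eq_of_le_of_card_ge hsupA
        have hdvd : Nat.card (Subgroup.center X ⊔ Subgroup.zpowers a : Subgroup X) ∣ p ^ 2 :=
          hA ▸ Subgroup.card_dvd_of_le hsupA
        obtain ⟨k, hk, hkc⟩ := (Nat.dvd_prime_pow hp).mp hdvd
        have hk2 : k = 2 := by
          by_contra hcon
          have hk1 : k ≤ 1 := by omega
          have hle : Nat.card (Subgroup.center X ⊔ Subgroup.zpowers a : Subgroup X)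
              ≤ Nat.card (Subgroup.center X) := by
            rw [hkc, hZcard]
            calc p ^ k ≤ p ^ 1 := Nat.pow_le_pow_right hp.pos hk1
              _ = p := pow_one p
          have heq : Subgroup.center X = Subgroup.center X ⊔ Subgroup.zpowers a :=
            Subgroup.eq_of_le_of_card_ge le_sup_left hle
          apply haZ
          rw [heq]
          exact Subgroup.mem_sup_right (Subgroup.mem_zpowers a)
        rw [hA, hkc, hk2]
      have hCa : ∀ g : X, g * a = a * g → g ∈ A := by
        intro g hg
        rw [← hC, Subgroup.mem_centralizer_iff]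
        intro y hy
        rw [SetLike.mem_coe, ← hAeq] at hy
        have hle : Subgroup.center X ⊔ Subgroup.zpowers a ≤ Subgroup.centralizer {g} := by
          apply sup_le
          · intro z hz
            rw [Subgroup.mem_centralizer_iff]
            intro h hh
            exact Subgroup.mem_center_iff.mp hz h
          · rw [Subgroup.zpowers_le, Subgroup.mem_centralizer_iff]
            intro h hh
            rw [Set.mem_singleton_iff] at hh
            subst hh
            exact hg
        have h3 := hle hy
        rw [Subgroup.mem_centralizer_iff] at h3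
        exact (h3 g rfl).symm
      have hπs : Function.Surjective (QuotientGroup.mk' (Subgroup.center X)) :=
        QuotientGroup.mk'_surjective _
      have hQcard : Nat.card (X ⧸ Subgroup.center X) = p ^ n := by
        have h1 := Subgroup.card_eq_card_quotient_mul_card_subgroup (Subgroup.center X)
        rw [hX, hZcard, pow_succ] at h1
        exact (Nat.eq_of_mul_eq_mul_right hp.pos h1).symm
      have hNmem : ∀ x : X, x ∈ (Subgroup.centralizer
          ((A.map (QuotientGroup.mk' (Subgroup.center X)) : Subgroup (X ⧸ Subgroup.center X)) :
            Set (X ⧸ Subgroup.center X))).comap (QuotientGroup.mk' (Subgroup.center X)) ↔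
          ∀ y ∈ A, (x * y)⁻¹ * (y * x) ∈ Subgroup.center X := by
        intro x
        rw [Subgroup.mem_comap, Subgroup.mem_centralizer_iff]
        constructor
        · intro h y hy
          have h1 := h _ (Subgroup.mem_map_of_mem (QuotientGroup.mk' (Subgroup.center X)) hy)
          have h2 : QuotientGroup.mk' (Subgroup.center X) (x * y)
              = QuotientGroup.mk' (Subgroup.center X) (y * x) := by
            rw [map_mul, map_mul]; exact h1.symm
          exact QuotientGroup.eq.mp h2
        · rintro h _ ⟨y, hy, rfl⟩
          have h1 : QuotientGroup.mk' (Subgroup.center X) (x * y)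
              = QuotientGroup.mk' (Subgroup.center X) (y * x) := QuotientGroup.eq.mpr (h y hy)
          rw [← map_mul, ← map_mul]
          exact h1.symm
      generalize hAbar : (A.map (QuotientGroup.mk' (Subgroup.center X)) :
        Subgroup (X ⧸ Subgroup.center X)) = Abar at hNmem
      generalize hB : Subgroup.centralizer (Abar : Set (X ⧸ Subgroup.center X)) = B at hNmem
      generalize hN : B.comap (QuotientGroup.mk' (Subgroup.center X)) = N at hNmem
      have hAN : A ≤ N := by
        intro x hx
        rw [hNmem]
        intro y hy
        have hxy : y * x = x * y := by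
          have hxC : x ∈ Subgroup.centralizer (A : Set X) := by rw [hC]; exact hx
          exact Subgroup.mem_centralizer_iff.mp hxC y hy
        rw [hxy, inv_mul_cancel]; exact Subgroup.one_mem _
      have hAbarB : Abar ≤ B := by
        rw [← hAbar]
        rintro _ ⟨y, hy, rfl⟩
        have h1 : y ∈ N := hAN hy
        rw [← hN, Subgroup.mem_comap] at h1
        exact h1
      have hφmem : ∀ x : N, a⁻¹ * (x : X)⁻¹ * a * x ∈ Subgroup.center X := by
        intro x
        have h1 := (hNmem x).mp x.2 a haA
        have e : ((x : X) * a)⁻¹ * (a * x) = a⁻¹ * (x : X)⁻¹ * a * x := by group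
        rwa [e] at h1
      let φ : N →* Subgroup.center X :=
        MonoidHom.mk' (fun x => ⟨a⁻¹ * (x : X)⁻¹ * a * x, hφmem x⟩) (by
          intro x y
          apply Subtype.ext
          show a⁻¹ * ((x * y : N) : X)⁻¹ * a * ((x * y : N) : X)
            = (a⁻¹ * (x : X)⁻¹ * a * x) * (a⁻¹ * (y : X)⁻¹ * a * y)
          rw [Subgroup.coe_mul]
          have hc := Subgroup.mem_center_iff.mp (hφmem x) (y : X)
          calc a⁻¹ * ((x : X) * y)⁻¹ * a * ((x : X) * y)
              = a⁻¹ * (y : X)⁻¹ * a * ((a⁻¹ * (x : X)⁻¹ * a * x) * y) := by group
            _ = a⁻¹ * (y : X)⁻¹ * a * ((y : X) * (a⁻¹ * (x : X)⁻¹ * a * x)) := by rw [← hc]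
            _ = (a⁻¹ * (y : X)⁻¹ * a * y) * (a⁻¹ * (x : X)⁻¹ * a * x) := by group
            _ = _ := Subgroup.mem_center_iff.mp (hφmem x) _)
      have hφ : ∀ x : N, ((φ x : Subgroup.center X) : X) = a⁻¹ * (x : X)⁻¹ * a * x := fun x => rfl
      have hker : φ.ker.map N.subtype ≤ A := by
        rintro _ ⟨x, hx, rfl⟩
        apply hCa
        have h1 : φ x = 1 := hx
        have h2 : a⁻¹ * (x : X)⁻¹ * a * x = 1 := by rw [← hφ, h1]; rfl
        show (x : X) * a = a * x
        calc (x : X) * a = a * (x : X) * (a⁻¹ * (x : X)⁻¹ * a * x)⁻¹ := by group
          _ = a * x := by rw [h2, inv_one, mul_one]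
      have hNle : Nat.card N ≤ p ^ 3 := by
        have h1 : Nat.card N = Nat.card φ.ker * Nat.card φ.range := by
          rw [← Subgroup.index_ker]; exact (Subgroup.card_mul_index φ.ker).symm
        have h2' : Nat.card (φ.ker.map N.subtype) = Nat.card φ.ker :=
          Subgroup.card_map_of_injective (Subgroup.subtype_injective N)
        have h2 : Nat.card φ.ker ≤ p ^ 2 := by
          rw [← h2', ← hA]
          exact Subgroup.card_le_of_le hker
        have h3 : Nat.card φ.range ≤ p := by
          rw [← hZcard]; exact Subgroup.card_le_card_group _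
        calc Nat.card N = _ := h1
          _ ≤ p ^ 2 * p := Nat.mul_le_mul h2 h3
          _ = p ^ 3 := by ring
      have hNcardB : Nat.card N = Nat.card B * p := by
        have hi : N.index = B.index := by
          rw [← hN]; exact Subgroup.index_comap_of_surjective B hπs
        have e1 := Subgroup.card_mul_index N
        have e2 := Subgroup.card_mul_index B
        rw [hi, hX] at e1
        rw [hQcard] at e2
        have hidx : 0 < B.index := Nat.pos_of_ne_zero Subgroup.index_ne_zero_of_finite
        apply Nat.eq_of_mul_eq_mul_right hidx
        rw [e1, mul_assoc, mul_comm p, ← mul_assoc, e2, pow_succ]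
      have hBcard : Nat.card B = p ^ 2 := by
        have hNdvd : Nat.card N ∣ p ^ (n + 1) := hX ▸ Subgroup.card_subgroup_dvd_card N
        obtain ⟨k, hk, hkc⟩ := (Nat.dvd_prime_pow hp).mp hNdvd
        have hk2 : 2 ≤ k := by
          have h1 : p ^ 2 ≤ p ^ k := by rw [← hA, ← hkc]; exact Subgroup.card_le_of_le hAN
          exact (Nat.pow_le_pow_iff_right hp.one_lt).mp h1
        have hk3 : k ≤ 3 := by
          have h1 : p ^ k ≤ p ^ 3 := hkc ▸ hNle
          exact (Nat.pow_le_pow_iff_right hp.one_lt).mp h1
        rcases (by omega : k = 2 ∨ k = 3) with rfl | rfl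
        · exfalso
          have hBp : Nat.card B = p := by
            have h1 : Nat.card B * p = p * p := by rw [← hNcardB, hkc]; ring
            exact Nat.eq_of_mul_eq_mul_right hp.pos h1
          haveI : Nontrivial (X ⧸ Subgroup.center X) := by
            apply Finite.one_lt_card_iff_nontrivial.mp
            rw [hQcard]; exact Nat.one_lt_pow (by omega) hp.one_lt
          have hQP : IsPGroup p (X ⧸ Subgroup.center X) := IsPGroup.of_card hQcard
          have hcn := hQP.center_nontrivial
          have hcB : Subgroup.center (X ⧸ Subgroup.center X) ≤ B := by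
            rw [← hB]; exact Subgroup.center_le_centralizer _
          have hcB' : Subgroup.center (X ⧸ Subgroup.center X) = B := by
            apply Subgroup.eq_of_le_of_card_ge hcB
            rw [hBp]
            have h1 : Nat.card (Subgroup.center (X ⧸ Subgroup.center X)) ∣ p :=
              hBp ▸ Subgroup.card_dvd_of_le hcB
            rcases (Nat.dvd_prime hp).mp h1 with h | h
            · exfalso
              have h5 := Finite.one_lt_card_iff_nontrivial.mpr hcn
              omega
            · exact h.ge
          have hBtop : B = ⊤ := by
            rw [← hB, Subgroup.centralizer_eq_top_iff_subset]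
            intro x hx
            rw [SetLike.mem_coe, hcB']
            exact hAbarB hx
          have h6 : p ^ n = p ^ 1 := by
            rw [pow_one, ← hQcard, ← hBp, hBtop, Subgroup.card_top]
          have h7 : n = 1 := Nat.pow_right_injective hp.two_le h6
          omega
        · have h1 : Nat.card B * p = p ^ 2 * p := by rw [← hNcardB, hkc]; ring
          exact Nat.eq_of_mul_eq_mul_right hp.pos h1
      have hBC : Subgroup.centralizer (B : Set (X ⧸ Subgroup.center X)) = B := by
        apply le_antisymm
        · rw [← hB]
          apply Subgroup.centralizer_le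
          rw [hB]
          exact hAbarB
        · have hcomm := IsPGroup.commutative_of_card_eq_prime_sq hBcard
          intro x hx
          rw [Subgroup.mem_centralizer_iff]
          intro y hy
          have h := hcomm ⟨y, hy⟩ ⟨x, hx⟩
          exact congrArg Subtype.val h
      have hcl := ih (X ⧸ Subgroup.center X) hQcard B hBcard hBC
      rw [Group.nilpotencyClass_eq_quotient_center_plus_one, hcl]
      omega

/-- A p-group with a self-centralizing subgroup of order p^2 is of maximal class. -/
theorem result {X : Type*} [Group X] [Finite X] {p : ℕ} [Fact p.Prime] (n : ℕ) (hX : Nat.card X = p ^ n) (A : Subgroup X) (hA : Nat.card A = p ^ 2) (hC : Subgroup.centralizer (A : Set X) = A) : Group.nilpotencyClass X = n - 1 := by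
  exact aux n X hX A hA hC


end Cfsg.Agent.S0112
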