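import Cfsg.Statements.S1947
import Mathlib
import Cfsg.Agent.Helper6.Coprime
-- import your own Cfsg.Agent.* helpers here

set_option autoImplicit false
open Cfsg

namespace Cfsg.Agent.S1947

open scoped commutatorElement

/-- Let G be a finite group and p a prime. If every element of G of order dividing p (dividing 4 when p = 2) lies in some fixed term Z_n(G) of the upper central series, then G has a normal p-complement. -/
theorem result {G : Type*} [Group G] [Finite G] {p : ℕ} [Fact p.Prime] (n : ℕ)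
    (h : ∀ a : G, (a ^ p = 1 ∨ (p = 2 ∧ a ^ 4 = 1)) → a ∈ Subgroup.upperCentralSeries G n) : Cfsg.HasNormalPComplement p G := by
  apply Cfsg.Agent.Helper6.hasNormalPComplement_of_frobCond
  intro X hX g hg hcop
  have hgX : ∀ x ∈ X, g * x * g⁻¹ ∈ X := fun x hx => (Subgroup.mem_normalizer_iff.mp hg x).mp hx
  have key : ∀ i : ℕ, ∀ a ∈ X, a ∈ Subgroup.upperCentralSeries G i → g * a * g⁻¹ = a := by
    intro i
    induction i with
    | zero =>
      intro a _ ha
      rw [Subgroup.upperCentralSeries_zero, Subgroup.mem_bot] at ha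
      rw [ha]; group
    | succ i ih =>
      intro a haX ha
      have hainv : a⁻¹ ∈ Subgroup.upperCentralSeries G (i + 1) := inv_mem ha
      rw [Subgroup.mem_upperCentralSeries_succ_iff] at hainv
      have hc := hainv g
      have hcX : a⁻¹ * (g * a * g⁻¹) ∈ X := X.mul_mem (X.inv_mem haX) (hgX a haX)
      have e : ⁅a⁻¹, g⁆ = a⁻¹ * (g * a * g⁻¹) := by rw [commutatorElement_def]; group
      rw [e] at hc
      have hfix := ih _ hcX hc
      have hgc : g * (a⁻¹ * (g * a * g⁻¹)) = (a⁻¹ * (g * a * g⁻¹)) * g := by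
        calc g * (a⁻¹ * (g * a * g⁻¹)) = (g * (a⁻¹ * (g * a * g⁻¹)) * g⁻¹) * g := by group
          _ = (a⁻¹ * (g * a * g⁻¹)) * g := by rw [hfix]
      obtain ⟨k, hk⟩ := hX ⟨_, hcX⟩
      have hk' : (a⁻¹ * (g * a * g⁻¹)) ^ p ^ k = 1 := by simpa using congrArg Subtype.val hk
      have hyc : g * a * g⁻¹ = a * (a⁻¹ * (g * a * g⁻¹)) := by group
      have h1 := Cfsg.Agent.Helper6.eq_one_of_conj_eq_mul hyc hgc hk' hcop
      rw [hyc, h1, mul_one]
  exact Cfsg.Agent.Helper6.centralizes_of_centralizes_omega g hcop _ X rfl hX hg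
    (fun a ha hord => key n a ha (h a hord))

end Cfsg.Agent.S1947
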