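import Cfsg.Statements.S0132
import Mathlib
import Cfsg.Agent.Helper6.Coprime
import Cfsg.Agent.S1947
import Cfsg.Agent.Lead.Fitting
import Cfsg.Agent.Helper7.SylowLemmas
-- import your own Cfsg.Agent.* helpers here

set_option autoImplicit false
open Cfsg

namespace Cfsg.Agent.S0132


theorem mem_of_pow_mem_of_coprime {G : Type*} [Group G] {H : Subgroup G} {x : G} {a b : ℕ}
    (ha : x ^ a ∈ H) (hb : x ^ b ∈ H) (hab : a.Coprime b) : x ∈ H := by
  have h1 : (x ^ a) ^ (Nat.gcdA a b) * (x ^ b) ^ (Nat.gcdB a b) ∈ H :=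
    H.mul_mem (H.zpow_mem ha _) (H.zpow_mem hb _)
  have h2 : (x ^ a) ^ (Nat.gcdA a b) * (x ^ b) ^ (Nat.gcdB a b) = x := by
    rw [← zpow_natCast, ← zpow_natCast, ← zpow_mul, ← zpow_mul, ← zpow_add,
      ← Nat.gcd_eq_gcd_ab, hab.gcd_eq_one]
    simp
  rwa [h2] at h1

/-- A minimal non-p-nilpotent finite group is a minimal non-nilpotent group with a normal Sylow p-subgroup. -/
theorem result {G : Type*} [Group G] [Finite G] {p : ℕ} [Fact p.Prime] (h1 : ¬ Cfsg.HasNormalPComplement p G) (h2 : ∀ H : Subgroup G, H ≠ ⊤ → Cfsg.HasNormalPComplement p H) : (∀ H : Subgroup G, H ≠ ⊤ → Group.IsNilpotent H) ∧ ¬ Group.IsNilpotent G ∧ ∀ P : Sylow p G, (P : Subgroup G).Normal := by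
  classical
  have hpp : p.Prime := Fact.out
  have hnF : ¬ Cfsg.Agent.Helper6.FrobCond p G :=
    fun hF => h1 (Cfsg.Agent.Helper6.hasNormalPComplement_of_frobCond hF)
  unfold Cfsg.Agent.Helper6.FrobCond at hnF
  push Not at hnF
  obtain ⟨X, hX, g, hg, hcop, hgc⟩ := hnF
  have htop : X ⊔ Subgroup.zpowers g = ⊤ := by
    by_contra hne
    have hF := Cfsg.Agent.Helper6.frobCond_of_hasNormalPComplement (h2 _ hne)
    exact hgc (Cfsg.Agent.Helper6.mem_centralizer_of_frobCond_subgroup _ hF X hX le_sup_left g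
      (Subgroup.mem_sup_right (Subgroup.mem_zpowers g)) hg hcop)
  have hXn : X.Normal := by
    have h0 : Subgroup.normalizer (X : Set G) = ⊤ := by
      rw [eq_top_iff, ← htop]
      exact sup_le Subgroup.le_normalizer (by rw [Subgroup.zpowers_le]; exact hg)
    exact Subgroup.normalizer_eq_top_iff.mp h0
  have hidx : (X.index).Coprime p := by
    have h3 := Cfsg.Agent.Lead.card_sup_dvd_of_normal X (Subgroup.zpowers g)
    rw [htop, Subgroup.card_top, Nat.card_zpowers] at h3
    have h4 := X.card_mul_index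
    have h5 : X.index ∣ orderOf g := by
      rw [← h4] at h3
      exact Nat.dvd_of_mul_dvd_mul_left Nat.card_pos h3
    exact Nat.Coprime.coprime_dvd_left h5 hcop
  have hpel : ∀ (y : G) (k : ℕ), y ^ p ^ k = 1 → y ∈ X := by
    intro y k hy
    have h3 : (QuotientGroup.mk y : G ⧸ X) ^ p ^ k = 1 := by
      rw [← QuotientGroup.mk_pow, hy]; rfl
    have h4 : (QuotientGroup.mk y : G ⧸ X) ^ X.index = 1 := by
      rw [Subgroup.index_eq_card]; exact pow_card_eq_one'
    have h5 : (QuotientGroup.mk y : G ⧸ X) ∈ (⊥ : Subgroup (G ⧸ X)) :=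
      mem_of_pow_mem_of_coprime (by rw [h3]; exact Subgroup.one_mem _)
        (by rw [h4]; exact Subgroup.one_mem _) (Nat.Coprime.pow_left k hidx.symm)
    rw [Subgroup.mem_bot] at h5
    exact (QuotientGroup.eq_one_iff y).mp h5
  have hXpow : ∀ x ∈ X, ∃ k : ℕ, x ^ p ^ k = 1 := by
    intro x hx
    obtain ⟨k, hk⟩ := hX ⟨x, hx⟩
    exact ⟨k, by simpa using congrArg Subtype.val hk⟩
  have hsyl : ∀ P : Sylow p G, (P : Subgroup G) = X := by
    intro P
    have hPX : (P : Subgroup G) ≤ X := by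
      intro y hy
      obtain ⟨k, hk⟩ := P.2 ⟨y, hy⟩
      exact hpel y k (by simpa using congrArg Subtype.val hk)
    exact (P.3 hX hPX).symm
  have hcyc : ∀ y : G ⧸ X, y ∈ Subgroup.zpowers (QuotientGroup.mk' X g) := by
    intro y
    have h3 : (X ⊔ Subgroup.zpowers g).map (QuotientGroup.mk' X) = ⊤ := by
      rw [htop]; exact Subgroup.map_top_of_surjective _ (QuotientGroup.mk'_surjective X)
    rw [Subgroup.map_sup, QuotientGroup.map_mk'_self, bot_sup_eq, MonoidHom.map_zpowers] at h3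
    rw [h3]; trivial
  have hcomm : ∀ a b : G, a * b * a⁻¹ * b⁻¹ ∈ X := by
    intro a b
    obtain ⟨i, hi⟩ := hcyc (QuotientGroup.mk' X a)
    obtain ⟨j, hj⟩ := hcyc (QuotientGroup.mk' X b)
    rw [← QuotientGroup.eq_one_iff]
    have h3 : (QuotientGroup.mk (a * b * a⁻¹ * b⁻¹) : G ⧸ X)
        = QuotientGroup.mk' X a * QuotientGroup.mk' X b * (QuotientGroup.mk' X a)⁻¹ *
          (QuotientGroup.mk' X b)⁻¹ := rfl
    rw [h3, ← hi, ← hj]
    have h4 : Commute (QuotientGroup.mk' X g ^ i) (QuotientGroup.mk' X g ^ j) :=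
      (Commute.refl _).zpow_zpow i j
    rw [h4.eq, mul_inv_cancel_right, mul_inv_cancel]
  refine ⟨?_, ?_, ?_⟩
  · intro H hH
    obtain ⟨K, hK⟩ := Cfsg.Agent.Helper6.exists_isNPC_of_hasNormalPComplement (h2 H hH)
    obtain ⟨hKn, hKc, hKpow⟩ := id hK
    have := hKn
    have hone : ∀ c : ↥H, c ∈ K → (c : G) ∈ X → c = 1 := by
      intro c hcK hcX
      have h3 := (hK.mem_iff c).mp hcK
      obtain ⟨e, he⟩ := hXpow _ hcX
      have he' : c ^ p ^ e = 1 := Subtype.ext (by simpa using he)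
      exact Cfsg.Agent.Helper6.eq_one_of_pow_of_coprime he' h3
    have hKcen : K ≤ Subgroup.center ↥H := by
      intro k hk
      rw [Subgroup.mem_center_iff]
      intro h
      have hiK : ∀ k' : ↥H, k' ∈ K → k' ∈ Subgroup.centralizer ({k} : Set ↥H) := by
        intro k' hk'
        rw [Subgroup.mem_centralizer_iff]
        intro z hz
        rw [Set.mem_singleton_iff] at hz
        subst hz
        have h3 : k' * z * k'⁻¹ * z⁻¹ = 1 :=
          hone _ (K.mul_mem (K.mul_mem (K.mul_mem hk' hk) (K.inv_mem hk')) (K.inv_mem hk))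
            (hcomm _ _)
        calc z * k' = (k' * z * k'⁻¹ * z⁻¹)⁻¹ * (k' * z) := by group
          _ = k' * z := by rw [h3, inv_one, one_mul]
      have hiX : ∀ x' : ↥H, (x' : G) ∈ X → x' ∈ Subgroup.centralizer ({k} : Set ↥H) := by
        intro x' hx'
        rw [Subgroup.mem_centralizer_iff]
        intro z hz
        rw [Set.mem_singleton_iff] at hz
        subst hz
        have h3 : x' * z * x'⁻¹ * z⁻¹ = 1 := by
          apply hone
          · have e : x' * z * x'⁻¹ * z⁻¹ = z⁻¹⁻¹ * (z⁻¹ * (x' * z * x'⁻¹ * z⁻¹) * z⁻¹⁻¹) * z⁻¹ := by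
              group
            have h4 : x' * z * x'⁻¹ ∈ K := hKn.conj_mem z hk x'
            exact K.mul_mem h4 (K.inv_mem hk)
          · have h4 : ((z : G) * (x' : G)⁻¹ * (z : G)⁻¹) ∈ X := hXn.conj_mem _ (X.inv_mem hx') _
            have e : ((x' * z * x'⁻¹ * z⁻¹ : ↥H) : G) = (x' : G) * ((z : G) * (x' : G)⁻¹ * (z : G)⁻¹) := by
              simp only [Subgroup.coe_mul, Subgroup.coe_inv]; group
            rw [e]; exact X.mul_mem hx' h4
        calc z * x' = (x' * z * x'⁻¹ * z⁻¹)⁻¹ * (x' * z) := by group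
          _ = x' * z := by rw [h3, inv_one, one_mul]
      obtain ⟨j, hj⟩ := hKpow h
      have hpos : orderOf h ≠ 0 := (orderOf_pos h).ne'
      obtain ⟨e, m, hm, hem⟩ := Nat.exists_eq_pow_mul_and_not_dvd hpos p hpp.ne_one
      have hmX : ((h ^ m : ↥H) : G) ∈ X := by
        apply hpel _ e
        have h3 : (h ^ m) ^ p ^ e = 1 := by
          rw [← pow_mul, mul_comm, ← hem]; exact pow_orderOf_eq_one h
        simpa using congrArg Subtype.val h3
      have hcopjm : (p ^ j).Coprime m :=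
        Nat.Coprime.pow_left j ((Nat.Prime.coprime_iff_not_dvd hpp).mpr hm)
      have hmem := mem_of_pow_mem_of_coprime (hiK _ hj) (hiX _ hmX) hcopjm
      exact ((Subgroup.mem_centralizer_iff.mp hmem) k rfl).symm
    have hQ : IsPGroup p (↥H ⧸ K) := by
      intro x
      obtain ⟨y, rfl⟩ := QuotientGroup.mk_surjective x
      obtain ⟨k, hk⟩ := hKpow y
      exact ⟨k, by rw [← QuotientGroup.mk_pow]; exact (QuotientGroup.eq_one_iff _).mpr hk⟩
    have hnilQ : Group.IsNilpotent (↥H ⧸ K) := hQ.isNilpotent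
    exact Subgroup.isNilpotent_of_ker_le_center (QuotientGroup.mk' K)
      (by rw [QuotientGroup.ker_mk']; exact hKcen)
  · intro hnil
    obtain ⟨n, hn⟩ := Group.IsNilpotent.nilpotent G
    exact h1 (Cfsg.Agent.S1947.result n (fun a _ => by rw [hn]; exact Subgroup.mem_top a))
  · intro P
    rw [hsyl P]; exact hXn

end Cfsg.Agent.S0132
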