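import Cfsg.Statements.S0278
import Mathlib
import Cfsg.Agent.Helper7.UnitCard

set_option autoImplicit false
open Cfsg

namespace Cfsg.Agent.S0278

/-- Order of SU_n(q): (q + 1) |SU_n(q)| = |GU_n(q)| = q^(n(n-1)/2) * prod_{i=1}^{n} (q^i - (-1)^i), n at least 1. -/
theorem result {F : Type*} [Field F] [Fintype F] {q : ℕ} (hF : Fintype.card F = q ^ 2) (n : ℕ) (hn : 1 ≤ n) : (q + 1) * Nat.card (Cfsg.SU n F q) = q ^ (n * (n - 1) / 2) * ∏ i ∈ Finset.range n, (if Even i then q ^ (i + 1) + 1 else q ^ (i + 1) - 1) := by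
  classical
  rw [← Cfsg.Agent.Helper7.UnitCard.card_GU hF n]
  have hq := Cfsg.Agent.S0279.q_ge_two hF
  obtain ⟨γ, hγ⟩ := Cfsg.Agent.S0279.exists_gen hF
  haveI : NeZero (q + 1) := ⟨by omega⟩
  have hpos : 0 < q ^ 2 - 1 := by
    have : 4 ≤ q ^ 2 := by nlinarith
    omega
  have hprim : IsPrimitiveRoot ((γ : F) ^ (q - 1)) (q + 1) := by
    have h1 : IsPrimitiveRoot (γ : F) (q ^ 2 - 1) := by
      rw [IsPrimitiveRoot.coe_units_iff, ← hγ]; exact IsPrimitiveRoot.orderOf γ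
    exact h1.pow hpos (Cfsg.Agent.S0279.sq_sub q hq)
  have hcardM : Nat.card (rootsOfUnity (q + 1) F) = q + 1 := hprim.card_rootsOfUnity
  obtain ⟨δ, hδ⟩ : ∃ δ : Cfsg.GU n F q →* rootsOfUnity (q + 1) F,
      ∀ g : Cfsg.GU n F q, ((δ g : rootsOfUnity (q + 1) F) : Fˣ) =
        Matrix.GeneralLinearGroup.det (g : Matrix.GeneralLinearGroup (Fin n) F) :=
    ⟨(Matrix.GeneralLinearGroup.det.comp (Cfsg.GU n F q).subtype).codRestrict
      (rootsOfUnity (q + 1) F)
      (fun g => (mem_rootsOfUnity _ _).2 (Cfsg.Agent.S0783.det_pow_eq_one hF g.1 g.2)), fun g => rfl⟩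
  have hn0 : 0 < n := by omega
  obtain ⟨i0, -⟩ : ∃ i0 : Fin n, i0 = ⟨0, hn0⟩ := ⟨_, rfl⟩
  have hsurj : Function.Surjective δ := by
    intro a
    have ha1 : ((a : Fˣ) : F) ^ (q + 1) = 1 := by
      have h := (mem_rootsOfUnity _ _).1 a.2
      rw [← Units.val_pow_eq_pow_val, h]; rfl
    obtain ⟨d, hddef⟩ : ∃ d : Fin n → F, d = fun i => if i = i0 then ((a : Fˣ) : F) else 1 :=
      ⟨_, rfl⟩
    have hd0 : ∀ i, d i ≠ 0 := by
      intro i
      rw [hddef]
      show (if i = i0 then ((a : Fˣ) : F) else 1) ≠ 0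
      split_ifs
      · exact Units.ne_zero _
      · exact one_ne_zero
    have hd1 : ∀ i, d i ^ (q + 1) = 1 := by
      intro i
      rw [hddef]
      show (if i = i0 then ((a : Fˣ) : F) else 1) ^ (q + 1) = 1
      split_ifs
      · exact ha1
      · exact one_pow _
    refine ⟨⟨Cfsg.Agent.S0783.diagG d hd0, Cfsg.Agent.S0783.diagG_mem d hd0 hd1⟩, ?_⟩
    apply Subtype.ext
    rw [hδ]
    apply Units.ext
    rw [Matrix.GeneralLinearGroup.val_det_apply]
    show (Matrix.diagonal d).det = _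
    rw [Matrix.det_diagonal, hddef, Finset.prod_ite_eq' Finset.univ i0 (fun _ => ((a : Fˣ) : F))]
    simp
  have h1 : Nat.card (Cfsg.GU n F q) = Nat.card δ.ker * Nat.card (rootsOfUnity (q + 1) F) := by
    rw [← Subgroup.card_mul_index δ.ker, Subgroup.index_ker, MonoidHom.range_eq_top.mpr hsurj,
      Subgroup.card_top]
  have hdet : ∀ x : δ.ker, (((x.1 : Cfsg.GU n F q) : GL (Fin n) F) : Matrix (Fin n) (Fin n) F).det = 1 := by
    intro x
    have h2 : δ x.1 = 1 := x.2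
    have h3 := hδ x.1
    rw [h2] at h3
    have h4 := congrArg (fun u : Fˣ => (u : F)) h3
    simp only [Matrix.GeneralLinearGroup.val_det_apply] at h4
    exact h4.symm
  have h2 : Nat.card δ.ker = Nat.card (Cfsg.SU n F q) := by
    refine Nat.card_congr
      { toFun := fun x => ⟨⟨(((x.1 : Cfsg.GU n F q) : GL (Fin n) F) : Matrix (Fin n) (Fin n) F), hdet x⟩,
          (Cfsg.Agent.S0279.mem_SU_iff _).mpr (fun u v => (Cfsg.Agent.S0783.mem_GU_iff _).mp x.1.2 u v)⟩
        invFun := fun s => ⟨⟨Matrix.SpecialLinearGroup.toGL s.1,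
          (Cfsg.Agent.S0783.mem_GU_iff _).mpr (fun u v => (Cfsg.Agent.S0279.mem_SU_iff s.1).mp s.2 u v)⟩, ?_⟩
        left_inv := ?_
        right_inv := ?_ }
    · rw [MonoidHom.mem_ker]
      apply Subtype.ext
      rw [hδ]
      apply Units.ext
      rw [Matrix.GeneralLinearGroup.val_det_apply]
      exact s.1.2
    · intro x
      apply Subtype.ext
      apply Subtype.ext
      apply Units.ext
      rfl
    · intro s
      apply Subtype.ext
      apply Subtype.ext
      rfl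
  rw [h1, h2, hcardM, mul_comm]

end Cfsg.Agent.S0278
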