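import Cfsg.Statements.S0284
import Cfsg.Agent.Helper7.HermCount

set_option autoImplicit false
open Cfsg

namespace Cfsg.Agent.S0284

/-- The standard Hermitian form on F^n, |F| = q^2, has exactly q^(n-1) (q^n - (-1)^n) vectors of norm 1. -/
theorem result {F : Type*} [Field F] [Fintype F] {q : ℕ} (hF : Fintype.card F = q ^ 2) (n : ℕ) : Nat.card {v : Fin n → F // Cfsg.hermForm n F q v v = 1} = (if Even n then q ^ (n - 1) * (q ^ n - 1) else q ^ (n - 1) * (q ^ n + 1)) := by
  have hq := Cfsg.Agent.Helper7.herm_two_le hF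
  have hb := (Cfsg.Agent.Helper7.herm_int hF n).2
  apply Nat.eq_of_mul_eq_mul_right (show 0 < q by omega)
  apply Int.natCast_inj.mp
  rw [Nat.cast_mul, hb]
  have h1 : 1 ≤ q ^ n := Nat.one_le_pow _ _ (by omega)
  split_ifs with he
  · rw [he.neg_one_pow]
    rcases Nat.eq_zero_or_pos n with h0 | hpos
    · subst h0; simp
    · obtain ⟨j, rfl⟩ : ∃ j, n = j + 1 := ⟨n - 1, by omega⟩
      simp only [Nat.add_sub_cancel]
      push_cast [Nat.cast_sub h1]
      ring
  · have ho : Odd n := Nat.not_even_iff_odd.mp he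
    rw [ho.neg_one_pow]
    obtain ⟨j, rfl⟩ : ∃ j, n = j + 1 := ⟨n - 1, by have := ho.pos; omega⟩
    simp only [Nat.add_sub_cancel]
    push_cast
    ring

end Cfsg.Agent.S0284
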