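import Cfsg.Statements.S0436

set_option autoImplicit false
open Cfsg

namespace Cfsg.Agent.S0436

theorem inv_self_of_mem {G : Type*} [Group G] {E : Set G} (hE : Cfsg.IsThreeTranspositionSet E)
    {d : G} (hd : d ∈ E) : d * d = 1 := by
  rw [← pow_two, ← hE.1 d hd, pow_orderOf_eq_one]

theorem commute_of_sq {G : Type*} [Group G] {x y : G} (hx : x * x = 1) (hy : y * y = 1)
    (h : (x * y) ^ 2 = 1) : Commute x y := by
  unfold Commute SemiconjBy
  have h1 : x * y = (x * y)⁻¹ := by
    apply eq_inv_of_mul_eq_one_left; rw [← pow_two]; exact h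
  rw [h1, mul_inv_rev, inv_eq_of_mul_eq_one_left hx, inv_eq_of_mul_eq_one_left hy]

theorem braid_of_cube {G : Type*} [Group G] {x y : G} (hx : x * x = 1) (hy : y * y = 1)
    (h : (x * y) ^ 3 = 1) : x * y * x = y * x * y := by
  have h1 : x * y * x = (y * x * y)⁻¹ := by
    apply eq_inv_of_mul_eq_one_left
    have : x * y * x * (y * x * y) = (x * y) ^ 3 := by
      simp only [pow_succ, pow_zero, one_mul, mul_assoc]
    rw [this, h]
  rw [h1, mul_inv_rev, mul_inv_rev, inv_eq_of_mul_eq_one_left hx, inv_eq_of_mul_eq_one_left hy,
    mul_assoc]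

/-- If `e` centralises `a * b` for distinct commuting 3-transpositions `a`, `b`, it centralises `a`. -/
theorem commute_left {G : Type*} [Group G] {E : Set G} (hE : Cfsg.IsThreeTranspositionSet E)
    {a b e : G} (ha : a ∈ E) (hb : b ∈ E) (he : e ∈ E) (hab : a ≠ b) (hcomm : Commute a b)
    (h : Commute e (a * b)) : Commute e a := by
  have ha2 := inv_self_of_mem hE ha
  have hb2 := inv_self_of_mem hE hb
  have he2 := inv_self_of_mem hE he
  by_contra hna
  have h3 : (e * a) ^ 3 = 1 := by
    rcases hE.2 e he a ha with h2 | h3
    · exact absurd (commute_of_sq he2 ha2 h2) hna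
    · exact h3
  have hbr := braid_of_cube he2 ha2 h3
  have hz : e * (a * b) = (a * b) * e := h
  have key : e * b * e = a * e * b := by
    calc e * b * e = e * (a * (a * b)) * e := by rw [← mul_assoc a a b, ha2, one_mul]
      _ = e * a * ((a * b) * e) := by simp only [mul_assoc]
      _ = e * a * (e * (a * b)) := by rw [hz]
      _ = (e * a * e) * (a * b) := by simp only [mul_assoc]
      _ = (a * e * a) * (a * b) := by rw [hbr]
      _ = a * e * ((a * a) * b) := by simp only [mul_assoc]
      _ = a * e * b := by rw [ha2, one_mul]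
  have hsq : (e * b) ^ 2 = a * e := by
    calc (e * b) ^ 2 = (e * b * e) * b := by rw [pow_two]; simp only [mul_assoc]
      _ = a * e * (b * b) := by rw [key]; simp only [mul_assoc]
      _ = a * e := by rw [hb2, mul_one]
  rcases hE.2 e he b hb with h2 | h3'
  · rw [hsq] at h2
    have : e = a := by
      have := eq_inv_of_mul_eq_one_right h2
      rw [this, inv_eq_of_mul_eq_one_left ha2]
    exact hna (this ▸ Commute.refl a)
  · have : (e * b) ^ 3 = a * b := by
      calc (e * b) ^ 3 = (e * b) ^ 2 * (e * b) := by rw [pow_succ]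
        _ = a * e * (e * b) := by rw [hsq]
        _ = a * ((e * e) * b) := by simp only [mul_assoc]
        _ = a * b := by rw [he2, one_mul]
    rw [this] at h3'
    have : b = a := by
      have := eq_inv_of_mul_eq_one_right h3'
      rw [this, inv_eq_of_mul_eq_one_left ha2]
    exact hab this.symm

/-- For distinct commuting members a, b of a set of 3-transpositions E, a member e of E centralises the product a * b if and only if it centralises both a and b. -/
theorem result {G : Type*} [Group G] {E : Set G} (hE : Cfsg.IsThreeTranspositionSet E) {a b e : G} (ha : a ∈ E) (hb : b ∈ E) (he : e ∈ E) (hab : a ≠ b) (hcomm : Commute a b) : Commute e (a * b) ↔ (Commute e a ∧ Commute e b) := by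
  constructor
  · intro h
    have h1 := commute_left hE ha hb he hab hcomm h
    refine ⟨h1, ?_⟩
    have h2 : Commute e (b * a) := by rw [← hcomm.eq]; exact h
    exact commute_left hE hb ha he (Ne.symm hab) hcomm.symm h2
  · rintro ⟨h1, h2⟩
    exact h1.mul_right h2


end Cfsg.Agent.S0436
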