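import Cfsg.Statements.S0437
import Cfsg.Agent.S0436

set_option autoImplicit false
open Cfsg

namespace Cfsg.Agent.S0437

open Cfsg.Agent.S0436 in
/-- If `e` centralises `a * b * c` for distinct pairwise commuting 3-transpositions, it centralises `a`. -/
theorem commute_first {G : Type*} [Group G] {E : Set G} (hE : Cfsg.IsThreeTranspositionSet E)
    {a b c e : G} (ha : a ∈ E) (hb : b ∈ E) (hc : c ∈ E) (he : e ∈ E) (hab : a ≠ b) (hac : a ≠ c)
    (h₁ : Commute a b) (h₂ : Commute a c) (h₃ : Commute b c)
    (h : Commute e (a * b * c)) : Commute e a := by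
  have ha2 := inv_self_of_mem hE ha
  have hb2 := inv_self_of_mem hE hb
  have hc2 := inv_self_of_mem hE hc
  have he2 := inv_self_of_mem hE he
  have hab' : a * b = b * a := h₁
  have hac' : a * c = c * a := h₂
  have hbc' : b * c = c * b := h₃
  by_contra hna
  by_cases hcb : Commute e b
  · have h1 : Commute e (a * b * c * b) := h.mul_right hcb
    have h2 : a * b * c * b = a * c := by
      calc a * b * c * b = a * (b * c) * b := by simp only [mul_assoc]
        _ = a * (c * b) * b := by rw [hbc']
        _ = a * c * (b * b) := by simp only [mul_assoc]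
        _ = a * c := by rw [hb2, mul_one]
    rw [h2] at h1
    exact hna (commute_left hE ha hc he hac h₂ h1)
  by_cases hcc : Commute e c
  · have h1 : Commute e (a * b * c * c) := h.mul_right hcc
    have h2 : a * b * c * c = a * b := by rw [mul_assoc, hc2, mul_one]
    rw [h2] at h1
    exact hna (commute_left hE ha hb he hab h₁ h1)
  have cube : ∀ x ∈ E, ¬ Commute e x → e * x * e = x * e * x := by
    intro x hx hnx
    have hx2 := inv_self_of_mem hE hx
    rcases hE.2 e he x hx with h2 | h3
    · exact absurd (commute_of_sq he2 hx2 h2) hnx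
    · exact braid_of_cube he2 hx2 h3
  have hA := cube a ha hna
  have hB := cube b hb hcb
  have hC := cube c hc hcc
  have hz : e * (a * b * c) * e = a * b * c := by
    have : e * (a * b * c) = (a * b * c) * e := h
    rw [this, mul_assoc, he2, mul_one]
  have hz2 : (a * e * a) * (b * e * b) * (c * e * c) = a * b * c := by
    rw [← hA, ← hB, ← hC]
    calc e * a * e * (e * b * e) * (e * c * e)
        = e * a * (e * e) * b * (e * e) * c * e := by simp only [mul_assoc]
      _ = e * (a * b * c) * e := by rw [he2]; simp only [mul_assoc, mul_one]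
      _ = a * b * c := hz
  -- e * (a*b) * e * (b*c) * e = b
  have hkey : e * (a * b) * e * (b * c) * e = b := by
    have h4 : a * (e * (a * b) * e * (b * c) * e * c) = a * (b * c) := by
      calc a * (e * (a * b) * e * (b * c) * e * c)
          = (a * e * a) * (b * e * b) * (c * e * c) := by simp only [mul_assoc]
        _ = a * b * c := hz2
        _ = a * (b * c) := by rw [mul_assoc]
    have h5 := mul_left_cancel h4
    have h6 : e * (a * b) * e * (b * c) * e * c = b * c := h5
    exact mul_right_cancel h6
  -- squaring
  have hsq : e * (a * b) * e * (b * c) * e * (e * (a * b) * e * (b * c) * e) = 1 := by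
    rw [hkey, hb2]
  have hvu : (b * c) * (a * b) = a * c := by
    calc (b * c) * (a * b) = (c * b) * (a * b) := by rw [hbc']
      _ = c * (b * a) * b := by simp only [mul_assoc]
      _ = c * (a * b) * b := by rw [hab']
      _ = c * a * (b * b) := by simp only [mul_assoc]
      _ = a * c := by rw [hb2, mul_one, hac']
  have hsq2 : (e * (a * b)) * (e * (a * c) * e) * ((b * c) * e) = 1 := by
    calc (e * (a * b)) * (e * (a * c) * e) * ((b * c) * e)
        = e * (a * b) * e * (a * c) * e * (b * c) * e := by simp only [mul_assoc]
      _ = e * (a * b) * e * ((b * c) * (a * b)) * e * (b * c) * e := by rw [hvu]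
      _ = e * (a * b) * e * (b * c) * (e * e) * (a * b) * e * (b * c) * e := by
          rw [he2]; simp only [mul_assoc, mul_one]
      _ = e * (a * b) * e * (b * c) * e * (e * (a * b) * e * (b * c) * e) := by
          simp only [mul_assoc]
      _ = 1 := hsq
  have hconj : e * (a * c) * e = a * c := by
    have h7 : e * (a * c) * e = (e * (a * b))⁻¹ * ((b * c) * e)⁻¹ := by
      have h8 : (e * (a * b)) * (e * (a * c) * e) = ((b * c) * e)⁻¹ :=
        eq_inv_of_mul_eq_one_left hsq2
      rw [← h8, inv_mul_cancel_left]
    rw [h7, mul_inv_rev, mul_inv_rev, mul_inv_rev, mul_inv_rev,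
      inv_eq_of_mul_eq_one_left ha2, inv_eq_of_mul_eq_one_left hb2, inv_eq_of_mul_eq_one_left hc2,
      inv_eq_of_mul_eq_one_left he2]
    calc b * a * e * (e * (c * b)) = b * a * (e * e) * (c * b) := by simp only [mul_assoc]
      _ = b * a * (c * b) := by rw [he2, mul_one]
      _ = (a * b) * (b * c) := by rw [← hab', ← hbc']
      _ = a * (b * b) * c := by simp only [mul_assoc]
      _ = a * c := by rw [hb2, mul_one]
  have hcomm : Commute e (a * c) := by
    unfold Commute SemiconjBy
    calc e * (a * c) = e * (a * c) * (e * e) := by rw [he2, mul_one]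
      _ = (e * (a * c) * e) * e := by simp only [mul_assoc]
      _ = a * c * e := by rw [hconj]
  exact hna (commute_left hE ha hc he hac h₂ hcomm)

/-- For three distinct, pairwise commuting members a, b, c of a set of 3-transpositions E, a member e of E centralises a * b * c if and only if it centralises each of a, b and c. -/
theorem result {G : Type*} [Group G] {E : Set G} (hE : Cfsg.IsThreeTranspositionSet E) {a b c e : G} (ha : a ∈ E) (hb : b ∈ E) (hc : c ∈ E) (he : e ∈ E) (hab : a ≠ b) (hac : a ≠ c) (hbc : b ≠ c) (h₁ : Commute a b) (h₂ : Commute a c) (h₃ : Commute b c) : Commute e (a * b * c) ↔ (Commute e a ∧ Commute e b ∧ Commute e c) := by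
  constructor
  · intro h
    refine ⟨commute_first hE ha hb hc he hab hac h₁ h₂ h₃ h, ?_, ?_⟩
    · have h' : Commute e (b * a * c) := by rw [← h₁.eq]; exact h
      exact commute_first hE hb ha hc he (Ne.symm hab) hbc h₁.symm h₃ h₂ h'
    · have h' : Commute e (c * a * b) := by
        have : c * a * b = a * b * c := by
          rw [← h₂.eq, mul_assoc, ← h₃.eq, ← mul_assoc]
        rw [this]; exact h
      exact commute_first hE hc ha hb he (Ne.symm hac) (Ne.symm hbc) h₂.symm h₃.symm h₁ h'
  · rintro ⟨h1, h2, h3⟩
    exact (h1.mul_right h2).mul_right h3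


end Cfsg.Agent.S0437
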