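import Cfsg.Statements.S0438
import Mathlib

set_option autoImplicit false
open Cfsg

namespace Cfsg.Agent.S0438

/-- Let E be a set of 3-transpositions closed under conjugation, and x an involutory automorphism of the group mapping E to itself. If some a in E fails to commute with its image x a, then x fixes an element of E. -/
theorem result {G : Type*} [Group G] {E : Set G} (hE : Cfsg.IsThreeTranspositionSet E) (hconj : ∀ g : G, ∀ d ∈ E, g * d * g⁻¹ ∈ E) (x : G ≃* G) (hx : ∀ g : G, x (x g) = g) (hxE : ∀ d ∈ E, x d ∈ E) {a : G} (ha : a ∈ E) (h : ¬ Commute a (x a)) : ∃ d ∈ E, x d = d := by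
  obtain ⟨ho, h3⟩ := hE
  have ha2 : a * a = 1 := by rw [← pow_two, ← ho a ha]; exact pow_orderOf_eq_one a
  have hb := hxE a ha
  have hb2 : x a * x a = 1 := by rw [← pow_two, ← ho _ hb]; exact pow_orderOf_eq_one _
  have hainv : a⁻¹ = a := inv_eq_of_mul_eq_one_left ha2
  have hbinv : (x a)⁻¹ = x a := inv_eq_of_mul_eq_one_left hb2
  have h3' : (a * x a) ^ 3 = 1 := by
    rcases h3 a ha (x a) hb with h' | h'
    · exfalso
      apply h
      have h4 : a * x a * (a * x a) = 1 := by rw [← pow_two]; exact h'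
      have h5 : (a * x a)⁻¹ = a * x a := inv_eq_of_mul_eq_one_left h4
      show a * x a = x a * a
      rw [← h5, mul_inv_rev, hainv, hbinv]
    · exact h'
  refine ⟨a * x a * a⁻¹, hconj a (x a) hb, ?_⟩
  rw [map_mul, map_mul, map_inv, hx a, hbinv, hainv]
  have h6 : a * x a * a * (x a * a * x a) = 1 := by
    rw [← h3', pow_succ, pow_two]
    simp only [mul_assoc]
  have h7 : (a * x a * a)⁻¹ = x a * a * x a := inv_eq_of_mul_eq_one_right h6
  rw [← h7, mul_inv_rev, mul_inv_rev, hainv, hbinv, mul_assoc]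

end Cfsg.Agent.S0438
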