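import Cfsg.Statements.S0444
import Cfsg.Agent.S0436
import Cfsg.Agent.Helper1.Dihedral

set_option autoImplicit false
open Cfsg
open Cfsg.Agent.S0436 Cfsg.Agent.Helper1

namespace Cfsg.Agent.S0444

/-- Two members of a set of 3-transpositions which do not commute generate a subgroup isomorphic to the symmetric group on three letters. -/
theorem result {G : Type*} [Group G] {E : Set G} (hE : Cfsg.IsThreeTranspositionSet E) {d e : G} (hd : d ∈ E) (he : e ∈ E) (h : ¬ Commute d e) : Nonempty (Subgroup.closure ({d, e} : Set G) ≃* Equiv.Perm (Fin 3)) := by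
  have hd2 := inv_self_of_mem hE hd
  have he2 := inv_self_of_mem hE he
  have h3 : (d * e) ^ 3 = 1 := by
    rcases hE.2 d hd e he with h2 | h3
    · exact absurd (commute_of_sq hd2 he2 h2) h
    · exact h3
  have hρ1 : d * e ≠ 1 := by
    intro h1
    have : d = e := by
      have := eq_inv_of_mul_eq_one_left h1
      rw [this, inv_eq_of_mul_eq_one_left he2]
    exact h (this ▸ Commute.refl d)
  have hord : orderOf (d * e) = 3 := by
    haveI : Fact (Nat.Prime 3) := ⟨Nat.prime_three⟩
    exact orderOf_eq_prime h3 hρ1
  have hconj : d * (d * e) * d = (d * e)⁻¹ := by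
    rw [mul_inv_rev, inv_eq_of_mul_eq_one_left hd2, inv_eq_of_mul_eq_one_left he2,
      ← mul_assoc, hd2, one_mul]
  have hnot : d ∉ Subgroup.zpowers (d * e) := by
    rintro ⟨k, hk⟩
    have hc : Commute d (d * e) := by
      have : Commute ((d * e) ^ k) (d * e) := (Commute.refl (d * e)).zpow_left k
      rwa [show (d * e) ^ k = d from hk] at this
    apply h
    have h5 : d * (d * e) = d * e * d := hc
    rw [← mul_assoc, hd2, one_mul] at h5
    unfold Commute SemiconjBy
    calc d * e = d * (d * e * d) := by rw [← h5]
      _ = (d * d) * e * d := by simp only [mul_assoc]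
      _ = e * d := by rw [hd2, one_mul]
  obtain ⟨e1⟩ := nonempty_dihedral_mulEquiv_closure 3 (d * e) d hd2 hconj hord hnot
  obtain ⟨e2⟩ := nonempty_dihedral_three_mulEquiv_perm
  have hdm : d ∈ Subgroup.closure ({d * e, d} : Set G) := Subgroup.subset_closure (by simp)
  have hdem : d * e ∈ Subgroup.closure ({d * e, d} : Set G) := Subgroup.subset_closure (by simp)
  have hem : e ∈ Subgroup.closure ({d * e, d} : Set G) := by
    have h6 : d * (d * e) = e := by rw [← mul_assoc, hd2, one_mul]
    have h7 : d * (d * e) ∈ Subgroup.closure ({d * e, d} : Set G) := mul_mem hdm hdem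
    rw [h6] at h7
    exact h7
  have hcl : Subgroup.closure ({d, e} : Set G) = Subgroup.closure ({d * e, d} : Set G) := by
    apply le_antisymm
    · rw [Subgroup.closure_le]
      intro x hx
      rcases hx with hx | hx
      · rw [hx]; exact hdm
      · rw [Set.mem_singleton_iff] at hx
        rw [hx]; exact hem
    · rw [Subgroup.closure_le]
      intro x hx
      rcases hx with hx | hx
      · rw [hx]
        exact mul_mem (Subgroup.subset_closure (by simp)) (Subgroup.subset_closure (by simp))
      · rw [Set.mem_singleton_iff] at hx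
        rw [hx]
        exact Subgroup.subset_closure (by simp)
  exact ⟨(MulEquiv.subgroupCongr hcl).trans (e1.symm.trans e2)⟩


end Cfsg.Agent.S0444
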