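import Cfsg.Statements.S0499
import Mathlib
import Cfsg.Agent.Helper6.FrobNPC
import Cfsg.Agent.S4262
-- import your own Cfsg.Agent.* helpers here

set_option autoImplicit false
open Cfsg

namespace Cfsg.Agent.S0499

/-- A non-abelian finite simple group of even order has order divisible by 12, 16 or 56. -/
theorem result {G : Type*} [Group G] [Finite G] [IsSimpleGroup G]
    (hG : ¬ IsMulCommutative G) (h2 : Even (Nat.card G)) :
    12 ∣ Nat.card G ∨ 16 ∣ Nat.card G ∨ 56 ∣ Nat.card G := by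
  have key : ∀ k ∈ Finset.range 4, ∀ j ∈ Finset.range k, ∀ q ∈ Finset.range 8,
      (q = 3 ∨ q = 5 ∨ q = 7) → q ∣ 2 ^ k - 2 ^ j →
      (q = 3 ∧ 2 ≤ k) ∨ (q = 7 ∧ k = 3) := by decide
  classical
  by_contra hcon
  push Not at hcon
  obtain ⟨h12, h16, h56⟩ := hcon
  have hdvd2 : 2 ∣ Nat.card G := even_iff_two_dvd.1 h2
  haveI : Fact (Nat.Prime 2) := ⟨Nat.prime_two⟩
  have hnpc : ¬ Cfsg.HasNormalPComplement 2 G := by
    rintro ⟨P, N, hNn, hc⟩
    rcases hNn.eq_bot_or_eq_top with hN | hN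
    · rw [hN, Subgroup.isComplement'_bot_left] at hc
      have hcard : Nat.card G = 2 ^ (Nat.card G).factorization 2 := by
        rw [← Sylow.card_eq_multiplicity P, hc, Subgroup.card_top]
      have hPG : IsPGroup 2 G := IsPGroup.of_card hcard
      haveI : Nontrivial G := IsSimpleGroup.toNontrivial
      haveI := hPG.center_nontrivial
      have hcen : Subgroup.center G = ⊤ := by
        rcases (inferInstance : (Subgroup.center G).Normal).eq_bot_or_eq_top with h | h
        · exfalso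
          exact (Subgroup.nontrivial_iff_ne_bot _).1 inferInstance h
        · exact h
      apply hG
      refine ⟨⟨fun a b => ?_⟩⟩
      have hb : b ∈ Subgroup.center G := by rw [hcen]; trivial
      exact (Subgroup.mem_center_iff.1 hb) a
    · rw [hN, Subgroup.isComplement'_top_left] at hc
      exact P.ne_bot_of_dvd_card hdvd2 hc
  have hF : ¬ Cfsg.Agent.Helper6.FrobCond 2 G :=
    fun hF => hnpc (Cfsg.Agent.Helper6.hasNormalPComplement_of_frobCond hF)
  unfold Cfsg.Agent.Helper6.FrobCond at hF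
  push Not at hF
  obtain ⟨X, hX, g, hgN, hgo, hgC⟩ := hF
  obtain ⟨n, hn, hpp⟩ := Cfsg.Agent.S4262.pp_power (Subgroup.centralizer (X : Set G))
    (orderOf g) g rfl hgC
  obtain ⟨q, i, hq, hi, hqi⟩ := (isPrimePow_nat_iff _).1 hpp
  obtain ⟨h, hh⟩ : ∃ h : G, h = g ^ n := ⟨_, rfl⟩
  rw [← hh] at hn hqi
  have hhN : h ∈ Subgroup.normalizer (X : Set G) := by rw [hh]; exact Subgroup.pow_mem _ hgN n
  have hq2 : q ≠ 2 := by
    rintro rfl
    have h1 : orderOf h ∣ orderOf g := by rw [hh]; exact orderOf_pow_dvd n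
    have h2i : 2 ∣ orderOf h := by rw [← hqi]; exact dvd_pow_self 2 hi.ne'
    have h3 := Nat.Coprime.eq_one_of_dvd hgo.symm (h2i.trans h1)
    omega
  have hqG : q ∣ Nat.card G := by
    have h1 : q ∣ orderOf h := by rw [← hqi]; exact dvd_pow_self q hi.ne'
    exact h1.trans (orderOf_dvd_natCard h)
  have hhq : h ^ q ^ i = 1 := by rw [hqi]; exact pow_orderOf_eq_one h
  haveI : Fact q.Prime := ⟨hq⟩
  haveI : Fintype ↥X := Fintype.ofFinite _
  have hconj : ∀ x : ↥X, h * (x : G) * h⁻¹ ∈ X :=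
    fun x => (Subgroup.mem_normalizer_iff.1 hhN x).1 x.2
  let f : Function.End ↥X := fun x => ⟨h * (x : G) * h⁻¹, hconj x⟩
  have hfpow : ∀ (m : ℕ) (x : ↥X), (((f ^ m) x : ↥X) : G) = h ^ m * (x : G) * (h ^ m)⁻¹ := by
    intro m
    induction m with
    | zero =>
      intro x
      simp only [pow_zero, one_mul, inv_one, mul_one]
      rfl
    | succ m ih =>
      intro x
      rw [pow_succ]
      show (((f ^ m) (f x) : ↥X) : G) = _
      rw [ih (f x)]
      show h ^ m * (h * (x : G) * h⁻¹) * (h ^ m)⁻¹ = _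
      rw [pow_succ]; group
  have hf : f ^ q ^ i = 1 := by
    funext x
    apply Subtype.ext
    rw [hfpow, hhq]
    simp only [one_mul, inv_one, mul_one]
    rfl
  have hmod := Equiv.Perm.card_fixedPoints_modEq (f := f) (p := q) (n := i) hf
  obtain ⟨F, hFdef⟩ : ∃ F : Subgroup ↥X,
      F = (Subgroup.centralizer ({h} : Set G)).subgroupOf X := ⟨_, rfl⟩
  have hset : Function.fixedPoints f = (F : Set ↥X) := by
    ext x
    rw [Function.mem_fixedPoints, Function.IsFixedPt, SetLike.mem_coe, hFdef,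
      Subgroup.mem_subgroupOf, Subgroup.mem_centralizer_singleton_iff]
    constructor
    · intro hx
      have e : h * (x : G) * h⁻¹ = (x : G) := congrArg Subtype.val hx
      rw [mul_inv_eq_iff_eq_mul] at e; exact e.symm
    · intro hx
      apply Subtype.ext
      show h * (x : G) * h⁻¹ = (x : G)
      rw [mul_inv_eq_iff_eq_mul]; exact hx.symm
  have hcardfix : Fintype.card ↥(Function.fixedPoints f) = Nat.card ↥F := by
    rw [← Nat.card_eq_fintype_card, hset]
    rfl
  have hXcard : Fintype.card ↥X = Nat.card ↥X := (Nat.card_eq_fintype_card).symm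
  rw [hcardfix, hXcard] at hmod
  obtain ⟨k, hk⟩ := IsPGroup.iff_card.1 hX
  have hXG : Nat.card ↥X ∣ Nat.card G := Subgroup.card_subgroup_dvd_card X
  rw [hk] at hXG
  have hk3 : k ≤ 3 := by
    by_contra hk4
    apply h16
    have h1 : (2:ℕ) ^ 4 ∣ 2 ^ k := pow_dvd_pow 2 (by omega)
    exact h1.trans hXG
  have hFX : Nat.card ↥F ∣ Nat.card ↥X := Subgroup.card_subgroup_dvd_card F
  rw [hk] at hFX hmod
  obtain ⟨j, hjk, hj⟩ := (Nat.dvd_prime_pow Nat.prime_two).1 hFX
  rw [hj] at hmod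
  have hjlt : j < k := by
    rcases Nat.lt_or_ge j k with h' | h'
    · exact h'
    · exfalso
      have hjk' : j = k := le_antisymm hjk h'
      have hFtop : F = ⊤ := by
        apply (Subgroup.card_eq_iff_eq_top F).1
        rw [hj, hk, hjk']
      apply hn
      rw [Subgroup.mem_centralizer_iff]
      intro x hx
      have h1 : (⟨x, hx⟩ : ↥X) ∈ F := by rw [hFtop]; trivial
      rw [hFdef, Subgroup.mem_subgroupOf, Subgroup.mem_centralizer_singleton_iff] at h1
      exact h1
  have hdiv : q ∣ 2 ^ k - 2 ^ j :=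
    (Nat.modEq_iff_dvd' (Nat.pow_le_pow_right (by norm_num) hjk)).1 hmod.symm
  have hq7 : q ≤ 7 := by
    have hpos : 0 < 2 ^ k - 2 ^ j := Nat.sub_pos_of_lt (Nat.pow_lt_pow_right (by norm_num) hjlt)
    have h1 := Nat.le_of_dvd hpos hdiv
    have h2 : 2 ^ k ≤ 2 ^ 3 := Nat.pow_le_pow_right (by norm_num) hk3
    have h3 : 1 ≤ 2 ^ j := Nat.one_le_two_pow
    omega
  have hq357 : q = 3 ∨ q = 5 ∨ q = 7 := by
    have h2le := hq.two_le
    interval_cases q
    all_goals first | (exact absurd rfl hq2) | (left; rfl) | (right; left; rfl) | (right; right; rfl) | (exfalso; norm_num at hq)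
  rcases key k (Finset.mem_range.2 (by omega)) j (Finset.mem_range.2 hjlt) q
      (Finset.mem_range.2 (by omega)) hq357 hdiv with ⟨rfl, hk2⟩ | ⟨rfl, rfl⟩
  · apply h12
    have h4 : (4:ℕ) ∣ Nat.card G := (pow_dvd_pow 2 hk2 : (2:ℕ) ^ 2 ∣ 2 ^ k).trans hXG
    exact Nat.Coprime.mul_dvd_of_dvd_of_dvd (by norm_num : Nat.Coprime 4 3) h4 hqG
  · apply h56
    have h8 : (8:ℕ) ∣ Nat.card G := hXG
    exact Nat.Coprime.mul_dvd_of_dvd_of_dvd (by norm_num : Nat.Coprime 8 7) h8 hqG

end Cfsg.Agent.S0499
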