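import Cfsg.Statements.S0631
import Cfsg.Agent.Helper4.PCon
import Cfsg.Agent.Helper4.StrClosed
import Cfsg.Agent.Helper3.Local3

set_option autoImplicit false
open Cfsg

namespace Cfsg.Agent.S0631

/-- In a p-constrained group the normalizer and the centralizer of any p-subgroup are again p-constrained. -/
theorem result {G : Type*} [Group G] [Finite G] {p : ℕ} [Fact p.Prime] (hG : Cfsg.IsPConstrained p G) (P : Subgroup G) (hP : IsPGroup p P) : Cfsg.IsPConstrained p ↥(Subgroup.normalizer (P : Set G)) ∧ Cfsg.IsPConstrained p ↥(Subgroup.centralizer (P : Set G)) := by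
  have hL := (Cfsg.Agent.Helper3.pConstrained_iff p).mp hG
  have hN := (Cfsg.Agent.Helper3.pLayer_normalizer_eq_bot p hL P hP).1
  have hNc : Cfsg.IsPConstrained p ↥(Subgroup.normalizer (P : Set G)) :=
    (Cfsg.Agent.Helper3.pConstrained_iff p).mpr hN
  refine ⟨hNc, ?_⟩
  have hCN : Subgroup.centralizer (P : Set G) ≤ Subgroup.normalizer (P : Set G) :=
    Cfsg.Agent.Helper4.centralizer_le_normalizer' P
  have hX : ((Subgroup.centralizer (P : Set G)).subgroupOf (Subgroup.normalizer (P : Set G))).Normal :=
    (Subgroup.normal_subgroupOf_iff_le_normalizer hCN).mpr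
      (Cfsg.Agent.Helper4.normalizer_le_normalizer_centralizer P)
  have h1 := Cfsg.Agent.Helper4.isPConstrained_of_normal p _ hX hNc
  exact Cfsg.Agent.Helper4.isPConstrained_of_mulEquiv p (Subgroup.subgroupOfEquivOfLe hCN) h1

end Cfsg.Agent.S0631
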