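import Cfsg.Statements.S0749
import Mathlib

set_option autoImplicit false
open Cfsg

namespace Cfsg.Agent.S0749

section WittAlt

variable {F V : Type*} [Field F] [AddCommGroup V] [Module F V]

/-- symplectic transvection -/
def tv (B : LinearMap.BilinForm F V) (c : F) (w : V) : V →ₗ[F] V where
  toFun v := v + (c * B v w) • w
  map_add' u v := by
    rw [map_add, LinearMap.add_apply]
    module
  map_smul' a v := by
    rw [map_smul, LinearMap.smul_apply, RingHom.id_apply, smul_eq_mul]
    module

lemma tv_apply (B : LinearMap.BilinForm F V) (c : F) (w v : V) :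
    tv B c w v = v + (c * B v w) • w := rfl

lemma tv_isom (B : LinearMap.BilinForm F V) (hA : B.IsAlt) (c : F) (w u v : V) :
    B (tv B c w u) (tv B c w v) = B u v := by
  rw [tv_apply, tv_apply]
  simp only [map_add, LinearMap.add_apply, map_smul, LinearMap.smul_apply, smul_eq_mul]
  have h1 : B w w = 0 := hA w
  have h2 : B w v = - B v w := (hA.neg_eq v w).symm
  rw [h1, h2]
  ring

lemma tv_comp (B : LinearMap.BilinForm F V) (hA : B.IsAlt) (c : F) (w : V) :
    (tv B c w).comp (tv B (-c) w) = LinearMap.id := by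
  ext v
  simp only [LinearMap.comp_apply, tv_apply, LinearMap.id_apply, map_add, LinearMap.add_apply,
    map_smul, LinearMap.smul_apply, smul_eq_mul]
  have h1 : B w w = 0 := hA w
  rw [h1]
  module

/-- transvection as a linear equivalence -/
def tvEquiv (B : LinearMap.BilinForm F V) (hA : B.IsAlt) (c : F) (w : V) : V ≃ₗ[F] V :=
  LinearEquiv.ofLinear (tv B c w) (tv B (-c) w) (tv_comp B hA c w) (by
    have := tv_comp B hA (-c) w
    rwa [neg_neg] at this)

lemma move_aux (B : LinearMap.BilinForm F V) (hA : B.IsAlt) (X' : Submodule F V) (x y : V)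
    (hxy : ∀ x' ∈ X', B (x - y) x' = 0) (hne : B x y ≠ 0) :
    ∃ h : V ≃ₗ[F] V, (∀ u v, B (h u) (h v) = B u v) ∧ (∀ x' ∈ X', h x' = x') ∧ h x = y := by
  refine ⟨tvEquiv B hA (B x y)⁻¹ (x - y), fun u v => tv_isom B hA _ _ u v, ?_, ?_⟩
  · intro x' hx'
    show tv B _ _ x' = x'
    rw [tv_apply]
    have h0 : B x' (x - y) = 0 := by rw [← hA.neg_eq (x - y) x', hxy x' hx', neg_zero]
    rw [h0, mul_zero, zero_smul, add_zero]
  · show tv B _ _ x = y
    rw [tv_apply]
    have h0 : B x (x - y) = - B x y := by rw [map_sub, hA x, zero_sub]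
    rw [h0]
    have h1 : (B x y)⁻¹ * -(B x y) = -1 := by field_simp
    rw [h1]
    module

lemma exists_move [FiniteDimensional F V] (B : LinearMap.BilinForm F V) (hB : B.Nondegenerate)
    (hA : B.IsAlt) (X' : Submodule F V) (x y : V) (hx : x ∉ X') (hy : y ∉ X')
    (hxy : ∀ x' ∈ X', B (x - y) x' = 0) :
    ∃ h : V ≃ₗ[F] V, (∀ u v, B (h u) (h v) = B u v) ∧ (∀ x' ∈ X', h x' = x') ∧ h x = y := by
  by_cases hne : B x y = 0
  · have hperp : ∀ z : V, z ∉ X' → ∃ u ∈ B.orthogonal X', B z u ≠ 0 := by
      intro z hz
      by_contra hcon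
      push_neg at hcon
      apply hz
      rw [← LinearMap.BilinForm.orthogonal_orthogonal hB hA.isRefl X',
        LinearMap.BilinForm.mem_orthogonal_iff]
      intro u hu
      rw [← hA.neg_eq z u, hcon u hu, neg_zero]
    obtain ⟨u1, hu1, hxu1⟩ := hperp x hx
    obtain ⟨u2, hu2, hyu2⟩ := hperp y hy
    obtain ⟨u, hu, hxu, hyu⟩ : ∃ u ∈ B.orthogonal X', B x u ≠ 0 ∧ B y u ≠ 0 := by
      by_cases h1 : B y u1 = 0
      · by_cases h2 : B x u2 = 0
        · refine ⟨u1 + u2, Submodule.add_mem _ hu1 hu2, ?_, ?_⟩
          · rw [map_add, h2, add_zero]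
            exact hxu1
          · rw [map_add, h1, zero_add]
            exact hyu2
        · exact ⟨u2, hu2, h2, hyu2⟩
      · exact ⟨u1, hu1, hxu1, h1⟩
    have hu' : ∀ x' ∈ X', B u x' = 0 := by
      intro x' hx'
      have h0 := (LinearMap.BilinForm.mem_orthogonal_iff.mp hu) x' hx'
      rw [← hA.neg_eq x' u, h0, neg_zero]
    obtain ⟨h1, h1i, h1f, h1x⟩ := move_aux B hA X' x (x + u) (by
      intro x' hx'
      rw [show x - (x + u) = -u by abel, map_neg, LinearMap.neg_apply, hu' x' hx', neg_zero]) (by
      rw [map_add, hA x, zero_add]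
      exact hxu)
    obtain ⟨h2, h2i, h2f, h2x⟩ := move_aux B hA X' (x + u) y (by
      intro x' hx'
      rw [show x + u - y = (x - y) + u by abel, map_add, LinearMap.add_apply, hxy x' hx',
        hu' x' hx', add_zero]) (by
      rw [map_add, LinearMap.add_apply, hne, zero_add]
      intro h0
      apply hyu
      rw [← hA.neg_eq u y, h0, neg_zero])
    refine ⟨h1.trans h2, fun a b => ?_, fun x' hx' => ?_, ?_⟩
    · simp only [LinearEquiv.trans_apply]
      rw [h2i, h1i]
    · rw [LinearEquiv.trans_apply, h1f x' hx', h2f x' hx']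
    · rw [LinearEquiv.trans_apply, h1x, h2x]
  · exact move_aux B hA X' x y hxy hne

end WittAlt

/-- Witt's Lemma for alternating forms. If B is a non-degenerate alternating bilinear form on a finite-dimensional vector space V (over any field) and φ is a linear equivalence between subspaces X and Y of V preserving B, then φ extends to a B-preserving linear automorphism of V. -/
theorem result {F V : Type*} [Field F] [AddCommGroup V] [Module F V] [FiniteDimensional F V] (B : LinearMap.BilinForm F V) (hB : B.Nondegenerate) (hA : B.IsAlt) (X Y : Submodule F V) (φ : X ≃ₗ[F] Y) (hφ : ∀ x x' : X, B (φ x : V) (φ x' : V) = B (x : V) (x' : V)) : ∃ g : V ≃ₗ[F] V, (∀ u v : V, B (g u) (g v) = B u v) ∧ ∀ x : X, g (x : V) = (φ x : V) := by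
  classical
  obtain ⟨n, hn⟩ : ∃ n, n = Module.finrank F X := ⟨_, rfl⟩
  let b := Module.finBasis F X
  have hv : LinearIndependent F (fun i => (b i : V)) :=
    b.linearIndependent.map' X.subtype (Submodule.ker_subtype X)
  have hw : LinearIndependent F (fun i => (φ (b i) : V)) :=
    b.linearIndependent.map' (Y.subtype.comp φ.toLinearMap) (by
      rw [LinearMap.ker_comp, Submodule.ker_subtype, Submodule.comap_bot]
      exact φ.ker)
  have key : ∀ k ≤ Module.finrank F X, ∃ g : V ≃ₗ[F] V, (∀ u v, B (g u) (g v) = B u v) ∧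
      ∀ i : Fin (Module.finrank F X), i.val < k → g (b i : V) = (φ (b i) : V) := by
    intro k
    induction k with
    | zero =>
      intro _
      exact ⟨LinearEquiv.refl F V, fun u v => rfl, fun i hi => absurd hi (Nat.not_lt_zero _)⟩
    | succ k ih =>
      intro hk
      obtain ⟨g', hg', hg'b⟩ := ih (by omega)
      have hk' : k < Module.finrank F X := by omega
      obtain ⟨X', hX'⟩ : ∃ X' : Submodule F V, X' = Submodule.span F
          ((fun i : Fin (Module.finrank F X) => (b i : V)) '' {i | i.val < k}) := ⟨_, rfl⟩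
      obtain ⟨x, hxdef⟩ : ∃ x : V, x = (b ⟨k, hk'⟩ : V) := ⟨_, rfl⟩
      obtain ⟨y, hydef⟩ : ∃ y : V, y = g'.symm (φ (b ⟨k, hk'⟩) : V) := ⟨_, rfl⟩
      have hx : x ∉ X' := by
        rw [hX', hxdef]
        exact hv.notMem_span_image (s := {i | i.val < k}) (x := ⟨k, hk'⟩) (by simp)
      have hy : y ∉ X' := by
        intro hyX
        have h1 : ∀ z ∈ X', (g' z) ∈ Submodule.span F
            ((fun i : Fin (Module.finrank F X) => (φ (b i) : V)) '' {i | i.val < k}) := by
          intro z hz
          rw [hX'] at hz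
          refine Submodule.span_induction (p := fun z _ => g' z ∈ Submodule.span F
            ((fun i : Fin (Module.finrank F X) => (φ (b i) : V)) '' {i | i.val < k}))
            ?_ ?_ ?_ ?_ hz
          · rintro _ ⟨i, hi, rfl⟩
            show g' (b i : V) ∈ _
            rw [hg'b i hi]
            exact Submodule.subset_span ⟨i, hi, rfl⟩
          · rw [map_zero]
            exact Submodule.zero_mem _
          · intro a c _ _ ha hc
            rw [map_add]
            exact Submodule.add_mem _ ha hc
          · intro c a _ ha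
            rw [map_smul]
            exact Submodule.smul_mem _ c ha
        have h2 := h1 y hyX
        rw [hydef, g'.apply_symm_apply] at h2
        exact hw.notMem_span_image (s := {i | i.val < k}) (x := ⟨k, hk'⟩) (by simp) h2
      have hxy : ∀ x' ∈ X', B (x - y) x' = 0 := by
        intro x' hx'
        rw [hX'] at hx'
        refine Submodule.span_induction (p := fun z _ => B (x - y) z = 0) ?_ ?_ ?_ ?_ hx'
        · rintro _ ⟨i, hi, rfl⟩
          show B (x - y) (b i : V) = 0
          rw [map_sub, LinearMap.sub_apply, sub_eq_zero, ← hg' y (b i : V), hg'b i hi, hydef,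
            g'.apply_symm_apply, hφ, hxdef]
        · exact map_zero _
        · intro a c _ _ ha hc
          rw [map_add, ha, hc, add_zero]
        · intro c a _ ha
          rw [map_smul, ha, smul_zero]
      obtain ⟨h, hi, hf, hxh⟩ := exists_move B hB hA X' x y hx hy hxy
      refine ⟨h.trans g', ?_, ?_⟩
      · intro u v
        simp only [LinearEquiv.trans_apply]
        rw [hg', hi]
      · intro i hik
        rw [LinearEquiv.trans_apply]
        by_cases hlt : i.val < k
        · rw [hf _ (by rw [hX']; exact Submodule.subset_span ⟨i, hlt, rfl⟩), hg'b i hlt]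
        · have hik' : i = ⟨k, hk'⟩ := Fin.ext (by simp only; omega)
          rw [hik', ← hxdef, hxh, hydef, g'.apply_symm_apply]
  obtain ⟨g, hg, hgb⟩ := key (Module.finrank F X) le_rfl
  refine ⟨g, hg, ?_⟩
  have hext : (g.toLinearMap.comp X.subtype) = (Y.subtype.comp φ.toLinearMap) :=
    b.ext (fun i => hgb i i.2)
  intro x
  exact LinearMap.congr_fun hext x

end Cfsg.Agent.S0749
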