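import Cfsg.Statements.S0751
import Mathlib

set_option autoImplicit false
open Cfsg

namespace Cfsg.Agent.S0751

section WittHerm

variable {F V : Type*} [Field F] [AddCommGroup V] [Module F V] {σ : F →+* F}

/-- quasi-reflection -/
def qr (B : V →ₛₗ[σ] V →ₗ[F] F) (α : F) (w : V) : V →ₗ[F] V where
  toFun v := v + (α * B w v) • w
  map_add' u v := by
    rw [map_add]
    module
  map_smul' a v := by
    rw [map_smul, RingHom.id_apply, smul_eq_mul]
    module

lemma qr_apply (B : V →ₛₗ[σ] V →ₗ[F] F) (α : F) (w v : V) :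
    qr B α w v = v + (α * B w v) • w := rfl

lemma qr_isom (B : V →ₛₗ[σ] V →ₗ[F] F) (hS : B.IsSymm) (α : F) (w : V)
    (hα : α + σ α + α * σ α * B w w = 0) (u v : V) :
    B (qr B α w u) (qr B α w v) = B u v := by
  rw [qr_apply, qr_apply]
  simp only [map_add, LinearMap.add_apply, map_smulₛₗ, map_smul, LinearMap.smul_apply,
    smul_eq_mul, map_mul]
  rw [hS.eq w u]
  linear_combination (B u w * B w v) * hα

lemma qr_qr (B : V →ₛₗ[σ] V →ₗ[F] F) (α β : F) (w v : V) :
    qr B β w (qr B α w v) = v + ((α + β + β * α * B w w) * B w v) • w := by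
  simp only [qr_apply, map_add, map_smul, smul_eq_mul]
  module

/-- quasi-reflection as a linear equivalence -/
def qrEquiv (B : V →ₛₗ[σ] V →ₗ[F] F) (α : F) (w : V)
    (hα : α + σ α + α * σ α * B w w = 0) : V ≃ₗ[F] V :=
  LinearEquiv.ofLinear (qr B α w) (qr B (σ α) w)
    (by
      ext v
      rw [LinearMap.comp_apply, qr_qr, LinearMap.id_apply]
      have h0 : σ α + α + α * σ α * B w w = 0 := by linear_combination hα
      rw [h0, zero_mul, zero_smul, add_zero])
    (by
      ext v
      rw [LinearMap.comp_apply, qr_qr, LinearMap.id_apply]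
      have h0 : α + σ α + σ α * α * B w w = 0 := by linear_combination hα
      rw [h0, zero_mul, zero_smul, add_zero])

lemma hmove_aux (B : V →ₛₗ[σ] V →ₗ[F] F) (hS : B.IsSymm) (X' : Submodule F V) (x y : V)
    (hQ : B x x = B y y) (hxy : ∀ x' ∈ X', B (x - y) x' = 0) (hβ : B (x - y) x ≠ 0) :
    ∃ h : V ≃ₗ[F] V, (∀ u v, B (h u) (h v) = B u v) ∧ (∀ x' ∈ X', h x' = x') ∧ h x = y := by
  obtain ⟨β, hβdef⟩ : ∃ β, β = B (x - y) x := ⟨_, rfl⟩
  rw [← hβdef] at hβ
  have hσβ : σ β = B x x - B x y := by rw [hβdef, hS.eq, map_sub]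
  have hσβ0 : σ β ≠ 0 := fun h0 => hβ ((map_eq_zero σ).mp h0)
  have hww : B (x - y) (x - y) = β + σ β := by
    rw [hσβ, hβdef]
    have e : B (x - y) y = B x y - B y y := by rw [map_sub, LinearMap.sub_apply]
    rw [map_sub (B (x - y)) x y, e, hQ]
    ring
  have hα : (-β⁻¹) + σ (-β⁻¹) + (-β⁻¹) * σ (-β⁻¹) * B (x - y) (x - y) = 0 := by
    rw [hww, map_neg, map_inv₀]
    field_simp
    ring
  refine ⟨qrEquiv B (-β⁻¹) (x - y) hα, fun u v => qr_isom B hS _ _ hα u v, ?_, ?_⟩
  · intro x' hx'
    show qr B _ _ x' = x'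
    rw [qr_apply, hxy x' hx', mul_zero, zero_smul, add_zero]
  · show qr B _ _ x = y
    rw [qr_apply, ← hβdef]
    have h1 : -β⁻¹ * β = -1 := by field_simp
    rw [h1]
    module

lemma riesz [Finite F] [FiniteDimensional F V] (B : V →ₛₗ[σ] V →ₗ[F] F) (hB : B.Nondegenerate)
    (f : Module.Dual F V) : ∃ u, ∀ v, B u v = f v := by
  have hinj : Function.Injective (fun u : V => (B u : Module.Dual F V)) := by
    intro u u' h
    have h' : B u = B u' := h
    have h0 : u - u' = 0 := hB.1 (u - u') (fun v => by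
      rw [map_sub, LinearMap.sub_apply, h', sub_self])
    exact sub_eq_zero.mp h0
  haveI : Finite V := Module.finite_of_finite F
  haveI : Finite (Module.Dual F V) := Module.finite_of_finite F
  have hcard : Nat.card (Module.Dual F V) ≤ Nat.card V := by
    rw [Module.natCard_eq_pow_finrank (K := F) (V := Module.Dual F V),
      Module.natCard_eq_pow_finrank (K := F) (V := V), Subspace.dual_finrank_eq]
  obtain ⟨u, hu⟩ := (hinj.bijective_of_nat_card_le hcard).2 f
  exact ⟨u, fun v => by rw [← hu]⟩

lemma exists_perp [Finite F] [FiniteDimensional F V] (B : V →ₛₗ[σ] V →ₗ[F] F)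
    (hB : B.Nondegenerate) (X' : Submodule F V) (x : V) (hx : x ∉ X') :
    ∃ u, (∀ x' ∈ X', B u x' = 0) ∧ B u x ≠ 0 := by
  obtain ⟨f, hfx, hf⟩ := Submodule.exists_dual_map_eq_bot_of_notMem hx inferInstance
  obtain ⟨u, hu⟩ := riesz B hB f
  refine ⟨u, fun x' hx' => ?_, by rw [hu]; exact hfx⟩
  rw [hu]
  have h0 : f x' ∈ X'.map f := Submodule.mem_map_of_mem hx'
  rw [hf] at h0
  exact (Submodule.mem_bot F).mp h0

lemma hexists_move [Finite F] [FiniteDimensional F V] (B : V →ₛₗ[σ] V →ₗ[F] F)
    (hσ : σ ≠ RingHom.id F) (hσ2 : ∀ a : F, σ (σ a) = a) (hS : B.IsSymm) (hB : B.Nondegenerate)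
    (X' : Submodule F V) (x y : V) (hx : x ∉ X') (hy : y ∉ X') (hQ : B x x = B y y)
    (hxy : ∀ x' ∈ X', B (x - y) x' = 0) :
    ∃ h : V ≃ₗ[F] V, (∀ u v, B (h u) (h v) = B u v) ∧ (∀ x' ∈ X', h x' = x') ∧ h x = y := by
  by_cases hβ : B (x - y) x = 0
  · obtain ⟨t, ht⟩ : ∃ t, σ t ≠ t := by
      by_contra hcon
      push_neg at hcon
      exact hσ (RingHom.ext hcon)
    obtain ⟨u1, hu1, hxu1⟩ := exists_perp B hB X' x hx
    obtain ⟨u2, hu2, hyu2⟩ := exists_perp B hB X' y hy
    obtain ⟨u0, hu0, hxu0, hyu0⟩ : ∃ u0, (∀ x' ∈ X', B u0 x' = 0) ∧ B u0 x ≠ 0 ∧ B u0 y ≠ 0 := by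
      by_cases h1 : B u1 y = 0
      · by_cases h2 : B u2 x = 0
        · refine ⟨u1 + u2, fun x' hx' => by
            rw [map_add, LinearMap.add_apply, hu1 x' hx', hu2 x' hx', add_zero], ?_, ?_⟩
          · rw [map_add, LinearMap.add_apply, h2, add_zero]
            exact hxu1
          · rw [map_add, LinearMap.add_apply, h1, zero_add]
            exact hyu2
        · exact ⟨u2, hu2, h2, hyu2⟩
      · exact ⟨u1, hu1, hxu1, h1⟩
    obtain ⟨c, hc0, hcN⟩ : ∃ c : F, c ≠ 0 ∧
        c * σ (B u0 x) + σ c * B u0 x + c * σ c * B u0 u0 = 0 := by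
      have hp : B u0 x ≠ 0 := hxu0
      have hσp : σ (B u0 x) ≠ 0 := fun h0 => hp ((map_eq_zero σ).mp h0)
      have hr : σ (B u0 u0) = B u0 u0 := hS.eq u0 u0
      have ht0 : t ≠ 0 := by
        rintro rfl
        exact ht (map_zero σ)
      have hσt0 : σ t ≠ 0 := fun h0 => ht0 ((map_eq_zero σ).mp h0)
      by_cases hr0 : B u0 u0 = 0
      · refine ⟨(t - σ t) / σ (B u0 x), div_ne_zero (sub_ne_zero.mpr (Ne.symm ht)) hσp, ?_⟩
        rw [hr0, mul_zero, add_zero]
        simp only [map_div₀, map_sub, hσ2]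
        field_simp
        ring
      · refine ⟨(t / σ t - 1) * B u0 x / B u0 u0, ?_, ?_⟩
        · refine div_ne_zero (mul_ne_zero ?_ hp) hr0
          intro h0
          apply ht
          have h3 : t / σ t = 1 := sub_eq_zero.mp h0
          rw [div_eq_one_iff_eq hσt0] at h3
          exact h3.symm
        · simp only [map_div₀, map_mul, map_sub, map_one, hσ2, hr]
          field_simp
          ring
    obtain ⟨u, hudef⟩ : ∃ u, u = c • u0 := ⟨_, rfl⟩
    have hσc : σ c ≠ 0 := fun h0 => hc0 ((map_eq_zero σ).mp h0)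
    have hu : ∀ x' ∈ X', B u x' = 0 := by
      intro x' hx'
      rw [hudef, map_smulₛₗ, LinearMap.smul_apply, hu0 x' hx', smul_zero]
    have hux : B u x = σ c * B u0 x := by
      rw [hudef, map_smulₛₗ, LinearMap.smul_apply, smul_eq_mul]
    have huy : B u y = σ c * B u0 y := by
      rw [hudef, map_smulₛₗ, LinearMap.smul_apply, smul_eq_mul]
    have hxu : B x u = c * σ (B u0 x) := by
      rw [← hS.eq u x, hux, map_mul, hσ2]
    have huu : B u u = c * σ c * B u0 u0 := by
      rw [hudef]
      simp only [map_smulₛₗ, map_smul, LinearMap.smul_apply, smul_eq_mul, RingHom.id_apply]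
      ring
    have hN1 : B x u + B u x + B u u = 0 := by
      rw [hxu, hux, huu]
      linear_combination hcN
    have hzz : B (x + u) (x + u) = B x x := by
      simp only [map_add, LinearMap.add_apply]
      linear_combination hN1
    obtain ⟨h1, h1i, h1f, h1x⟩ := hmove_aux B hS X' x (x + u) hzz.symm (by
      intro x' hx'
      rw [show x - (x + u) = -u by abel, map_neg, LinearMap.neg_apply, hu x' hx', neg_zero]) (by
      rw [show x - (x + u) = -u by abel, map_neg, LinearMap.neg_apply, hux]
      exact neg_ne_zero.mpr (mul_ne_zero hσc hxu0))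
    obtain ⟨h2, h2i, h2f, h2x⟩ := hmove_aux B hS X' (x + u) y (hzz.trans hQ) (by
      intro x' hx'
      rw [show x + u - y = (x - y) + u by abel, map_add, LinearMap.add_apply, hxy x' hx',
        hu x' hx', add_zero]) (by
      have hyu : B y u = σ (B u y) := (hS.eq u y).symm
      have e : B (x + u - y) (x + u) = - B y u := by
        have e1 : B (x + u - y) (x + u) = B (x - y) x + (B x u - B y u) + B u x + B u u := by
          simp only [map_add, map_sub, LinearMap.add_apply, LinearMap.sub_apply]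
          ring
        rw [e1, hβ]
        linear_combination hN1
      rw [e, hyu, huy]
      exact neg_ne_zero.mpr (fun h0 => (mul_ne_zero hσc hyu0) ((map_eq_zero σ).mp h0)))
    refine ⟨h1.trans h2, fun a b => ?_, fun x' hx' => ?_, ?_⟩
    · simp only [LinearEquiv.trans_apply]
      rw [h2i, h1i]
    · rw [LinearEquiv.trans_apply, h1f x' hx', h2f x' hx']
    · rw [LinearEquiv.trans_apply, h1x, h2x]
  · exact hmove_aux B hS X' x y hQ hxy hβ

end WittHerm

/-- Witt's Lemma for Hermitian forms. Let σ be a non-identity involutive automorphism of a finite field F and B a non-degenerate σ-sesquilinear form on a finite-dimensional F-space V which is conjugate-symmetric (σ (B x y) = B y x). Then every linear equivalence between subspaces X, Y of V preserving B extends to a B-preserving linear automorphism of V. -/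
theorem result {F V : Type*} [Field F] [Finite F] [AddCommGroup V] [Module F V] [FiniteDimensional F V] (σ : F →+* F) (hσ : σ ≠ RingHom.id F) (hσ2 : ∀ a : F, σ (σ a) = a) (B : V →ₛₗ[σ] V →ₗ[F] F) (hS : B.IsSymm) (hB : B.Nondegenerate) (X Y : Submodule F V) (φ : X ≃ₗ[F] Y) (hφ : ∀ x x' : X, B (φ x : V) (φ x' : V) = B (x : V) (x' : V)) : ∃ g : V ≃ₗ[F] V, (∀ u v : V, B (g u) (g v) = B u v) ∧ ∀ x : X, g (x : V) = (φ x : V) := by
  classical
  obtain ⟨n, hn⟩ : ∃ n, n = Module.finrank F X := ⟨_, rfl⟩
  let b := Module.finBasis F X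
  have hv : LinearIndependent F (fun i => (b i : V)) :=
    b.linearIndependent.map' X.subtype (Submodule.ker_subtype X)
  have hw : LinearIndependent F (fun i => (φ (b i) : V)) :=
    b.linearIndependent.map' (Y.subtype.comp φ.toLinearMap) (by
      rw [LinearMap.ker_comp, Submodule.ker_subtype, Submodule.comap_bot]
      exact φ.ker)
  have key : ∀ k ≤ Module.finrank F X, ∃ g : V ≃ₗ[F] V, (∀ u v, B (g u) (g v) = B u v) ∧
      ∀ i : Fin (Module.finrank F X), i.val < k → g (b i : V) = (φ (b i) : V) := by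
    intro k
    induction k with
    | zero =>
      intro _
      exact ⟨LinearEquiv.refl F V, fun u v => rfl, fun i hi => absurd hi (Nat.not_lt_zero _)⟩
    | succ k ih =>
      intro hk
      obtain ⟨g', hg', hg'b⟩ := ih (by omega)
      have hk' : k < Module.finrank F X := by omega
      obtain ⟨X', hX'⟩ : ∃ X' : Submodule F V, X' = Submodule.span F
          ((fun i : Fin (Module.finrank F X) => (b i : V)) '' {i | i.val < k}) := ⟨_, rfl⟩
      obtain ⟨x, hxdef⟩ : ∃ x : V, x = (b ⟨k, hk'⟩ : V) := ⟨_, rfl⟩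
      obtain ⟨y, hydef⟩ : ∃ y : V, y = g'.symm (φ (b ⟨k, hk'⟩) : V) := ⟨_, rfl⟩
      have hx : x ∉ X' := by
        rw [hX', hxdef]
        exact hv.notMem_span_image (s := {i | i.val < k}) (x := ⟨k, hk'⟩) (by simp)
      have hy : y ∉ X' := by
        intro hyX
        have h1 : ∀ z ∈ X', (g' z) ∈ Submodule.span F
            ((fun i : Fin (Module.finrank F X) => (φ (b i) : V)) '' {i | i.val < k}) := by
          intro z hz
          rw [hX'] at hz
          refine Submodule.span_induction (p := fun z _ => g' z ∈ Submodule.span F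
            ((fun i : Fin (Module.finrank F X) => (φ (b i) : V)) '' {i | i.val < k}))
            ?_ ?_ ?_ ?_ hz
          · rintro _ ⟨i, hi, rfl⟩
            show g' (b i : V) ∈ _
            rw [hg'b i hi]
            exact Submodule.subset_span ⟨i, hi, rfl⟩
          · rw [map_zero]
            exact Submodule.zero_mem _
          · intro a c _ _ ha hc
            rw [map_add]
            exact Submodule.add_mem _ ha hc
          · intro c a _ ha
            rw [map_smul]
            exact Submodule.smul_mem _ c ha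
        have h2 := h1 y hyX
        rw [hydef, g'.apply_symm_apply] at h2
        exact hw.notMem_span_image (s := {i | i.val < k}) (x := ⟨k, hk'⟩) (by simp) h2
      have hxy : ∀ x' ∈ X', B (x - y) x' = 0 := by
        intro x' hx'
        rw [hX'] at hx'
        refine Submodule.span_induction (p := fun z _ => B (x - y) z = 0) ?_ ?_ ?_ ?_ hx'
        · rintro _ ⟨i, hi, rfl⟩
          show B (x - y) (b i : V) = 0
          rw [map_sub, LinearMap.sub_apply, sub_eq_zero, ← hg' y (b i : V), hg'b i hi, hydef,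
            g'.apply_symm_apply, hφ, hxdef]
        · exact map_zero _
        · intro a c _ _ ha hc
          rw [map_add, ha, hc, add_zero]
        · intro c a _ ha
          rw [map_smul, ha, smul_zero]
      have hQ : B x x = B y y := by
        rw [← hg' y y, hydef, g'.apply_symm_apply, hφ, hxdef]
      obtain ⟨h, hi, hf, hxh⟩ := hexists_move B hσ hσ2 hS hB X' x y hx hy hQ hxy
      refine ⟨h.trans g', ?_, ?_⟩
      · intro u v
        simp only [LinearEquiv.trans_apply]
        rw [hg', hi]
      · intro i hik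
        rw [LinearEquiv.trans_apply]
        by_cases hlt : i.val < k
        · rw [hf _ (by rw [hX']; exact Submodule.subset_span ⟨i, hlt, rfl⟩), hg'b i hlt]
        · have hik' : i = ⟨k, hk'⟩ := Fin.ext (by simp only; omega)
          rw [hik', ← hxdef, hxh, hydef, g'.apply_symm_apply]
  obtain ⟨g, hg, hgb⟩ := key (Module.finrank F X) le_rfl
  refine ⟨g, hg, ?_⟩
  have hext : (g.toLinearMap.comp X.subtype) = (Y.subtype.comp φ.toLinearMap) :=
    b.ext (fun i => hgb i i.2)
  intro x
  exact LinearMap.congr_fun hext x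

end Cfsg.Agent.S0751
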