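import Cfsg.Statements.S0772
import Mathlib

set_option autoImplicit false
open Cfsg

namespace Cfsg.Agent.S0772

open Matrix in
theorem mem_stab_of_maps {F : Type*} [Field F] [Finite F] {n : ℕ} (S : Set (Fin n → F))
    (g : Matrix.GeneralLinearGroup (Fin n) F)
    (h : ∀ v ∈ S, (g : Matrix (Fin n) (Fin n) F) *ᵥ v ∈ S) :
    g ∈ Cfsg.stabilizing (Cfsg.glToMat (Fin n) F) S := by
  have hinj : Function.Injective (fun v : Fin n → F => (g : Matrix (Fin n) (Fin n) F) *ᵥ v) := by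
    intro a b hab
    have := congrArg (fun x => ((g⁻¹ : Matrix.GeneralLinearGroup (Fin n) F) : Matrix (Fin n) (Fin n) F) *ᵥ x) hab
    simpa [Matrix.mulVec_mulVec] using this
  intro v
  refine ⟨h v, fun hv => ?_⟩
  let f : S → S := fun w => ⟨(g : Matrix (Fin n) (Fin n) F) *ᵥ w.1, h w.1 w.2⟩
  have hf : Function.Injective f := fun a b hab => Subtype.ext (hinj (congrArg Subtype.val hab))
  obtain ⟨w, hw⟩ := (Finite.injective_iff_surjective.mp hf) ⟨_, hv⟩
  have : w.1 = v := hinj (congrArg Subtype.val hw)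
  exact this ▸ w.2

open Matrix Classical in
/-- Rank-one perturbation of the identity, as an element of `GL` (junk value `1` if singular). -/
noncomputable def rk {F : Type*} [Field F] {n : ℕ} (u ψ : Fin n → F) :
    Matrix.GeneralLinearGroup (Fin n) F :=
  if h : 1 + ψ ⬝ᵥ u ≠ 0 then
    Matrix.GeneralLinearGroup.mkOfDetNeZero (1 + Matrix.vecMulVec u ψ) (by
      rw [Matrix.vecMulVec_eq (ι := Unit), Matrix.det_one_add_replicateCol_mul_replicateRow]; exact h)
  else 1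

open Matrix in
theorem rk_coe {F : Type*} [Field F] {n : ℕ} (u ψ : Fin n → F) (h : 1 + ψ ⬝ᵥ u ≠ 0) :
    ((rk u ψ : Matrix.GeneralLinearGroup (Fin n) F) : Matrix (Fin n) (Fin n) F) =
      1 + Matrix.vecMulVec u ψ := by
  rw [rk, dif_pos h]; rfl

open Matrix in
theorem rk_mulVec {F : Type*} [Field F] {n : ℕ} (u ψ : Fin n → F) (h : 1 + ψ ⬝ᵥ u ≠ 0)
    (w : Fin n → F) :
    ((rk u ψ : Matrix.GeneralLinearGroup (Fin n) F) : Matrix (Fin n) (Fin n) F) *ᵥ w =
      w + (ψ ⬝ᵥ w) • u := by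
  rw [rk_coe u ψ h, Matrix.add_mulVec, Matrix.one_mulVec, Matrix.vecMulVec_mulVec]
  simp

open Matrix in

/-- Maximal parabolics are maximal: over a finite field, for 0 < k < n the stabiliser in GL_n of the span of the first k coordinate vectors is a maximal proper subgroup. -/
theorem result {F : Type*} [Field F] [Finite F] (n k : ℕ) (hk0 : 0 < k) (hkn : k < n) : IsCoatom (Cfsg.stabilizing (Cfsg.glToMat (Fin n) F) {v : Fin n → F | ∀ i : Fin n, k ≤ (i : ℕ) → v i = 0}) := by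
  classical
  set S : Set (Fin n → F) := {v : Fin n → F | ∀ i : Fin n, k ≤ (i : ℕ) → v i = 0} with hS
  have hSadd : ∀ a b : Fin n → F, a ∈ S → b ∈ S → a + b ∈ S := by
    intro a b ha hb i hi
    simp [ha i hi, hb i hi]
  have hSsmul : ∀ (c : F) (a : Fin n → F), a ∈ S → c • a ∈ S := by
    intro c a ha i hi
    simp [ha i hi]
  have hrkP : ∀ (u ψ : Fin n → F), 1 + ψ ⬝ᵥ u ≠ 0 → (u ∈ S ∨ ∀ w ∈ S, ψ ⬝ᵥ w = 0) →
      rk u ψ ∈ Cfsg.stabilizing (Cfsg.glToMat (Fin n) F) S := by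
    intro u ψ h hu
    apply mem_stab_of_maps
    intro w hw
    rw [rk_mulVec u ψ h]
    rcases hu with hu | hu
    · exact hSadd _ _ hw (hSsmul _ _ hu)
    · rw [hu w hw, zero_smul, add_zero]; exact hw
  refine ⟨?_, fun H hPH => ?_⟩
  · intro htop
    have hk0' : (⟨k, hkn⟩ : Fin n) ≠ ⟨0, by omega⟩ := by
      intro h; rw [Fin.ext_iff] at h; simp at h; omega
    have h1 : (1 : F) + (Pi.single (⟨0, by omega⟩ : Fin n) (1 : F) : Fin n → F) ⬝ᵥ
        (Pi.single (⟨k, hkn⟩ : Fin n) (1 : F) : Fin n → F) ≠ 0 := by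
      rw [single_dotProduct, Pi.single_apply, if_neg (Ne.symm hk0')]
      simp
    have hmem : rk (Pi.single (⟨k, hkn⟩ : Fin n) (1 : F)) (Pi.single (⟨0, by omega⟩ : Fin n) (1 : F))
        ∈ Cfsg.stabilizing (Cfsg.glToMat (Fin n) F) S := htop ▸ Subgroup.mem_top _
    have h2 := (hmem (Pi.single (⟨0, by omega⟩ : Fin n) (1 : F))).mp (by
      intro i hi
      rw [Pi.single_apply, if_neg]
      intro hi0; rw [hi0] at hi; simp at hi; omega)
    have h3 := h2 ⟨k, hkn⟩ le_rfl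
    rw [show (Cfsg.glToMat (Fin n) F) (rk (Pi.single (⟨k, hkn⟩ : Fin n) (1 : F)) (Pi.single (⟨0, by omega⟩ : Fin n) (1 : F))) = ((rk (Pi.single (⟨k, hkn⟩ : Fin n) (1 : F)) (Pi.single (⟨0, by omega⟩ : Fin n) (1 : F)) : Matrix.GeneralLinearGroup (Fin n) F) : Matrix (Fin n) (Fin n) F) from rfl, rk_mulVec _ _ h1] at h3
    simp [Pi.single_apply, hk0'] at h3
  · obtain ⟨hle, g, hgH, hgP⟩ := SetLike.lt_iff_le_and_exists.mp hPH
    obtain ⟨v, hvS, hgv⟩ : ∃ v ∈ S, (g : Matrix (Fin n) (Fin n) F) *ᵥ v ∉ S := by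
      by_contra hcon
      push Not at hcon
      exact hgP (mem_stab_of_maps S g hcon)
    have hmove : ∀ (h' : Matrix.GeneralLinearGroup (Fin n) F), h' ∈ H → ∀ u : Fin n → F,
        (∀ ψ : Fin n → F, ψ ⬝ᵥ u = 0 → rk u ψ ∈ H) →
        (∀ ψ : Fin n → F, ψ ⬝ᵥ ((h' : Matrix (Fin n) (Fin n) F) *ᵥ u) = 0 →
          rk ((h' : Matrix (Fin n) (Fin n) F) *ᵥ u) ψ ∈ H) := by
      intro h' hh' u hu ψ hψ
      have h0 : (ψ ᵥ* (h' : Matrix (Fin n) (Fin n) F)) ⬝ᵥ u = 0 := by
        rw [← Matrix.dotProduct_mulVec]; exact hψ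
      have hmem := hu _ h0
      have heq : rk ((h' : Matrix (Fin n) (Fin n) F) *ᵥ u) ψ =
          h' * rk u (ψ ᵥ* (h' : Matrix (Fin n) (Fin n) F)) * h'⁻¹ := by
        rw [eq_mul_inv_iff_mul_eq]
        apply Units.ext
        rw [Units.val_mul, Units.val_mul, rk_coe _ _ (by rw [hψ]; simp),
          rk_coe _ _ (by rw [h0]; simp),
          add_mul, mul_add, one_mul, mul_one, Matrix.vecMulVec_mul, Matrix.mul_vecMulVec]
      rw [heq]
      exact H.mul_mem (H.mul_mem hh' hmem) (H.inv_mem hh')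
    have hS_U : ∀ u ∈ S, ∀ ψ : Fin n → F, ψ ⬝ᵥ u = 0 → rk u ψ ∈ H := by
      intro u hu ψ hψ
      exact hle (hrkP u ψ (by rw [hψ]; simp) (Or.inl hu))
    have hgvU : ∀ ψ : Fin n → F, ψ ⬝ᵥ ((g : Matrix (Fin n) (Fin n) F) *ᵥ v) = 0 →
        rk ((g : Matrix (Fin n) (Fin n) F) *ᵥ v) ψ ∈ H :=
      hmove g hgH v (hS_U v hvS)
    have htrans : ∀ (u w : Fin n → F) (i : Fin n), k ≤ (i : ℕ) → u i ≠ 0 → w i ≠ 0 →
        (∀ ψ : Fin n → F, ψ ⬝ᵥ u = 0 → rk u ψ ∈ H) →
        (∀ ψ : Fin n → F, ψ ⬝ᵥ w = 0 → rk w ψ ∈ H) := by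
      intro u w i hi hui hwi hu
      have hd : ∀ x : Fin n → F,
          ((u i)⁻¹ • (Pi.single i (1 : F) : Fin n → F)) ⬝ᵥ x = (u i)⁻¹ * x i := by
        intro x; rw [smul_dotProduct, single_dotProduct]; simp
      have h1 : (1 : F) + ((u i)⁻¹ • (Pi.single i (1 : F) : Fin n → F)) ⬝ᵥ (w - u) ≠ 0 := by
        rw [hd]
        have : (1 : F) + (u i)⁻¹ * (w - u) i = (u i)⁻¹ * w i := by
          simp only [Pi.sub_apply]; field_simp; ring
        rw [this]
        exact mul_ne_zero (inv_ne_zero hui) hwi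
      have hp : rk (w - u) ((u i)⁻¹ • (Pi.single i (1 : F) : Fin n → F)) ∈ H :=
        hle (hrkP _ _ h1 (Or.inr (fun x hx => by rw [hd, hx i hi, mul_zero])))
      have hw : ((rk (w - u) ((u i)⁻¹ • (Pi.single i (1 : F) : Fin n → F)) :
          Matrix.GeneralLinearGroup (Fin n) F) : Matrix (Fin n) (Fin n) F) *ᵥ u = w := by
        rw [rk_mulVec _ _ h1, hd, inv_mul_cancel₀ hui, one_smul]; abel
      have := hmove _ hp u hu
      rwa [hw] at this
    have hall : ∀ w : Fin n → F, ∀ ψ : Fin n → F, ψ ⬝ᵥ w = 0 → rk w ψ ∈ H := by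
      intro w
      by_cases hwS : w ∈ S
      · exact hS_U w hwS
      · obtain ⟨j, hj, hwj⟩ : ∃ j : Fin n, k ≤ (j : ℕ) ∧ w j ≠ 0 := by
          by_contra hcon; push Not at hcon; exact hwS hcon
        obtain ⟨i, hi, hui⟩ : ∃ i : Fin n, k ≤ (i : ℕ) ∧
            ((g : Matrix (Fin n) (Fin n) F) *ᵥ v) i ≠ 0 := by
          by_contra hcon; push Not at hcon; exact hgv hcon
        by_cases hwi : w i = 0
        · have hij : j ≠ i := fun h => hwj (h ▸ hwi)
          have h1 := htrans _ (w + Pi.single i 1) i hi hui (by simp [hwi]) hgvU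
          exact htrans _ w j hj (by simp [Pi.single_apply, hij, hwj]) hwj h1
        · exact htrans _ w i hi hui hwi hgvU
    have htr : ∀ t : Matrix.TransvectionStruct (Fin n) F, ∃ h ∈ H,
        ((h : Matrix.GeneralLinearGroup (Fin n) F) : Matrix (Fin n) (Fin n) F) = t.toMatrix := by
      intro t
      have h0 : (Pi.single t.j (1 : F) : Fin n → F) ⬝ᵥ (Pi.single t.i t.c : Fin n → F) = 0 := by
        rw [single_dotProduct, Pi.single_apply, if_neg (Ne.symm t.hij), mul_zero]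
      refine ⟨_, hall (Pi.single t.i t.c) (Pi.single t.j 1) h0, ?_⟩
      rw [rk_coe _ _ (by rw [h0]; simp)]
      ext a b
      simp only [Matrix.TransvectionStruct.toMatrix, Matrix.transvection, Matrix.add_apply,
        Matrix.vecMulVec_apply, Matrix.single_apply, Pi.single_apply]
      by_cases ha : a = t.i <;> by_cases hb : b = t.j <;> simp [ha, hb, eq_comm]
    have hL : ∀ L : List (Matrix.TransvectionStruct (Fin n) F), ∃ h ∈ H,
        ((h : Matrix.GeneralLinearGroup (Fin n) F) : Matrix (Fin n) (Fin n) F) =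
          (L.map Matrix.TransvectionStruct.toMatrix).prod := by
      intro L
      induction L with
      | nil => exact ⟨1, H.one_mem, by simp⟩
      | cons t L ih =>
        obtain ⟨h, hh, he⟩ := ih
        obtain ⟨h', hh', he'⟩ := htr t
        exact ⟨h' * h, H.mul_mem hh' hh, by simp [he, he']⟩
    rw [eq_top_iff]
    intro M _
    obtain ⟨L, L', D, hM⟩ :=
      Matrix.Pivot.exists_list_transvec_mul_diagonal_mul_list_transvec (M : Matrix (Fin n) (Fin n) F)
    have hdet : (M : Matrix (Fin n) (Fin n) F).det = ∏ i, D i := by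
      rw [hM]; simp [Matrix.det_mul]
    have hdet0 : (M : Matrix (Fin n) (Fin n) F).det ≠ 0 := (Matrix.isUnits_det_units M).ne_zero
    have hD : (Matrix.diagonal D).det ≠ 0 := by rw [Matrix.det_diagonal, ← hdet]; exact hdet0
    have hDP : Matrix.GeneralLinearGroup.mkOfDetNeZero (Matrix.diagonal D) hD ∈ H := by
      apply hle
      apply mem_stab_of_maps
      intro w hw i hi
      show (Matrix.diagonal D *ᵥ w) i = 0
      rw [Matrix.mulVec_diagonal, hw i hi, mul_zero]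
    obtain ⟨a, ha, hae⟩ := hL L
    obtain ⟨b, hb, hbe⟩ := hL L'
    have hMe : M = a * Matrix.GeneralLinearGroup.mkOfDetNeZero (Matrix.diagonal D) hD * b := by
      apply Units.ext
      rw [Units.val_mul, Units.val_mul, hae, hbe, hM]; rfl
    rw [hMe]
    exact H.mul_mem (H.mul_mem ha hDP) hb

end Cfsg.Agent.S0772
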