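import Cfsg.Statements.S0775
import Mathlib
import Cfsg.Agent.S0749
import Cfsg.Agent.Helper5.SpEmbed
import Cfsg.Agent.Helper7.SympCard
import Cfsg.Agent.Helper7.SympTrans
import Cfsg.Agent.Helper7.OrthChain

set_option autoImplicit false
open Cfsg

namespace Cfsg.Agent.S0775

open Matrix Cfsg.Agent.Helper7.SympTrans

section helpers

variable {F : Type*} [Field F] (m : ℕ)

/-- The standard alternating form as a bilinear form. -/
noncomputable def BJ : LinearMap.BilinForm F (Fin m ⊕ Fin m → F) :=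
  Matrix.toBilin' (Matrix.J (Fin m) F)

lemma BJ_apply (u v : Fin m ⊕ Fin m → F) : BJ m u v = Cfsg.sympForm m F u v := by
  unfold BJ Cfsg.sympForm
  rw [Matrix.toBilin'_apply']

lemma BJ_alt : (BJ (F := F) m).IsAlt := fun v => by rw [BJ_apply]; exact form_self m v

lemma BJ_nondeg : (BJ (F := F) m).Nondegenerate := by
  constructor
  · intro x hx
    by_contra hne
    obtain ⟨y, hy⟩ := form_nondeg m x hne
    exact hy (by rw [← BJ_apply]; exact hx y)
  · intro y hy
    by_contra hne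
    obtain ⟨x, hx⟩ := form_nondeg m y hne
    apply hx
    rw [form_swap, ← BJ_apply, hy x, neg_zero]

lemma span_isotropic {k : ℕ} (t : Fin k → (Fin m ⊕ Fin m → F))
    (h0 : ∀ i j, Cfsg.sympForm m F (t i) (t j) = 0) :
    ∀ x ∈ Submodule.span F (Set.range t), ∀ x' ∈ Submodule.span F (Set.range t),
      BJ m x x' = 0 := by
  intro x hx x' hx'
  refine Submodule.span_induction (p := fun x _ => BJ m x x' = 0) ?_ ?_ ?_ ?_ hx
  · rintro _ ⟨i, rfl⟩
    refine Submodule.span_induction (p := fun x' _ => BJ m (t i) x' = 0) ?_ ?_ ?_ ?_ hx'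
    · rintro _ ⟨j, rfl⟩; rw [BJ_apply]; exact h0 i j
    · simp
    · intro a b _ _ ha hb; rw [map_add, ha, hb, add_zero]
    · intro c a _ ha; rw [map_smul, ha, smul_zero]
  · simp
  · intro a b _ _ ha hb; rw [map_add, LinearMap.add_apply, ha, hb, add_zero]
  · intro c a _ ha; rw [map_smul, LinearMap.smul_apply, ha, smul_zero]

lemma exists_symp_move {k : ℕ} (t t' : Fin k → (Fin m ⊕ Fin m → F))
    (ht : LinearIndependent F t) (ht' : LinearIndependent F t')
    (h0 : ∀ i j, Cfsg.sympForm m F (t i) (t j) = 0)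
    (h0' : ∀ i j, Cfsg.sympForm m F (t' i) (t' j) = 0) :
    ∃ A : Matrix.symplecticGroup (Fin m) F,
      ∀ i, (A : Matrix (Fin m ⊕ Fin m) (Fin m ⊕ Fin m) F) *ᵥ t i = t' i := by
  classical
  let X := Submodule.span F (Set.range t)
  let Y := Submodule.span F (Set.range t')
  let bX : Module.Basis (Fin k) F X := Module.Basis.span ht
  let bY : Module.Basis (Fin k) F Y := Module.Basis.span ht'
  let φ : X ≃ₗ[F] Y := bX.equiv bY (Equiv.refl _)
  obtain ⟨g, hg, hgφ⟩ := Cfsg.Agent.S0749.result (BJ m) (BJ_nondeg m) (BJ_alt m) X Y φ (by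
    intro x x'
    rw [span_isotropic m t h0 x.1 x.2 x'.1 x'.2,
      span_isotropic m t' h0' _ (φ x).2 _ (φ x').2])
  have hmv : ∀ v, LinearMap.toMatrix' g.toLinearMap *ᵥ v = g v := by
    intro v
    rw [← Matrix.toLin'_apply, Matrix.toLin'_toMatrix']; rfl
  have hmem : LinearMap.toMatrix' g.toLinearMap ∈ Matrix.symplecticGroup (Fin m) F := by
    apply Cfsg.Agent.Helper5.symp_mem_of_form
    intro u v
    rw [hmv, hmv, ← BJ_apply, ← BJ_apply, hg]
  refine ⟨⟨LinearMap.toMatrix' g.toLinearMap, hmem⟩, fun i => ?_⟩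
  show LinearMap.toMatrix' g.toLinearMap *ᵥ t i = t' i
  rw [hmv]
  have h1 := hgφ (bX i)
  have h2 : ((bX i : X) : Fin m ⊕ Fin m → F) = t i := by
    rw [Module.Basis.span_apply]
  have h3 : ((φ (bX i) : Y) : Fin m ⊕ Fin m → F) = t' i := by
    rw [Module.Basis.equiv_apply, Equiv.refl_apply, Module.Basis.span_apply]
  rw [h2, h3] at h1
  exact h1

lemma symp_mulVec_injective (A : Matrix.symplecticGroup (Fin m) F) :
    Function.Injective (fun v : Fin m ⊕ Fin m → F =>
      (A : Matrix (Fin m ⊕ Fin m) (Fin m ⊕ Fin m) F) *ᵥ v) := by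
  intro x y h
  have h' : (A : Matrix (Fin m ⊕ Fin m) (Fin m ⊕ Fin m) F) *ᵥ x =
      (A : Matrix (Fin m ⊕ Fin m) (Fin m ⊕ Fin m) F) *ᵥ y := h
  have h1 := Cfsg.Agent.Helper7.SympCard.inv_mulVec_of m A x _ rfl
  have h2 := Cfsg.Agent.Helper7.SympCard.inv_mulVec_of m A y _ rfl
  calc x = _ := h1.symm
    _ = _ := by rw [h']
    _ = y := h2

lemma mem_stab_of_maps [Finite F] (S : Set (Fin m ⊕ Fin m → F))
    (A : Matrix.symplecticGroup (Fin m) F)
    (h : ∀ v ∈ S, (A : Matrix (Fin m ⊕ Fin m) (Fin m ⊕ Fin m) F) *ᵥ v ∈ S) :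
    A ∈ Cfsg.stabilizing (Cfsg.spToMat m F) S := by
  have hinj := symp_mulVec_injective m A
  intro v
  refine ⟨h v, fun hv => ?_⟩
  let f : S → S := fun w =>
    ⟨(A : Matrix (Fin m ⊕ Fin m) (Fin m ⊕ Fin m) F) *ᵥ w.1, h w.1 w.2⟩
  have hf : Function.Injective f := fun a b hab => Subtype.ext (hinj (congrArg Subtype.val hab))
  obtain ⟨w, hw⟩ := (Finite.injective_iff_surjective.mp hf) ⟨_, hv⟩
  have : w.1 = v := hinj (congrArg Subtype.val hw)
  exact this ▸ w.2

lemma maps_span {k : ℕ} (A : Matrix.symplecticGroup (Fin m) F)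
    (t : Fin k → (Fin m ⊕ Fin m → F)) (W' : Submodule F (Fin m ⊕ Fin m → F))
    (h : ∀ i, (A : Matrix (Fin m ⊕ Fin m) (Fin m ⊕ Fin m) F) *ᵥ t i ∈ W') :
    ∀ v ∈ Submodule.span F (Set.range t),
      (A : Matrix (Fin m ⊕ Fin m) (Fin m ⊕ Fin m) F) *ᵥ v ∈ W' := by
  intro v hv
  refine Submodule.span_induction
    (p := fun v _ => (A : Matrix (Fin m ⊕ Fin m) (Fin m ⊕ Fin m) F) *ᵥ v ∈ W') ?_ ?_ ?_ ?_ hv
  · rintro _ ⟨i, rfl⟩; exact h i
  · rw [Matrix.mulVec_zero]; exact W'.zero_mem
  · intro a b _ _ ha hb; rw [Matrix.mulVec_add]; exact W'.add_mem ha hb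
  · intro c a _ ha; rw [Matrix.mulVec_smul]; exact W'.smul_mem c ha

/-- Pointwise stabiliser of a tuple. -/
def FixT {k : ℕ} (t : Fin k → (Fin m ⊕ Fin m → F)) :
    Subgroup (Matrix.symplecticGroup (Fin m) F) where
  carrier := {A | ∀ i, (A : Matrix (Fin m ⊕ Fin m) (Fin m ⊕ Fin m) F) *ᵥ t i = t i}
  mul_mem' := by
    intro A B hA hB i
    show ((A : Matrix (Fin m ⊕ Fin m) (Fin m ⊕ Fin m) F) *
      (B : Matrix (Fin m ⊕ Fin m) (Fin m ⊕ Fin m) F)) *ᵥ t i = t i
    rw [← Matrix.mulVec_mulVec, hB i, hA i]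
  one_mem' := by
    intro i
    show (1 : Matrix (Fin m ⊕ Fin m) (Fin m ⊕ Fin m) F) *ᵥ t i = t i
    rw [Matrix.one_mulVec]
  inv_mem' := by
    intro A hA i
    exact Cfsg.Agent.Helper7.SympCard.inv_mulVec_of m A _ _ (hA i)

lemma fix_iff {k : ℕ} (t : Fin k → (Fin m ⊕ Fin m → F))
    (g g' : Matrix.symplecticGroup (Fin m) F) :
    (∀ i, (g : Matrix (Fin m ⊕ Fin m) (Fin m ⊕ Fin m) F) *ᵥ t i =
      (g' : Matrix (Fin m ⊕ Fin m) (Fin m ⊕ Fin m) F) *ᵥ t i) ↔ g⁻¹ * g' ∈ FixT m t := by
  constructor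
  · intro h i
    show (((g⁻¹ : Matrix.symplecticGroup (Fin m) F) : Matrix (Fin m ⊕ Fin m) (Fin m ⊕ Fin m) F) *
      (g' : Matrix (Fin m ⊕ Fin m) (Fin m ⊕ Fin m) F)) *ᵥ t i = t i
    rw [← Matrix.mulVec_mulVec, ← h i]
    exact Cfsg.Agent.Helper7.SympCard.inv_mulVec_of m g _ _ rfl
  · intro h i
    have h1 : ((g⁻¹ : Matrix.symplecticGroup (Fin m) F) : Matrix (Fin m ⊕ Fin m) (Fin m ⊕ Fin m) F) *ᵥ
        ((g' : Matrix (Fin m ⊕ Fin m) (Fin m ⊕ Fin m) F) *ᵥ t i) = t i := by
      rw [Matrix.mulVec_mulVec]; exact h i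
    have h2 := Cfsg.Agent.Helper7.SympCard.inv_mulVec_of m g (t i) _ rfl
    exact (symp_mulVec_injective m (g⁻¹)) (h2.trans h1.symm)

lemma card_fiber_const {X Y : Type*} [Finite X] [Finite Y] (π : X → Y) (c : ℕ)
    (h : ∀ y, Nat.card {x // π x = y} = c) : Nat.card X = Nat.card Y * c := by
  haveI := Fintype.ofFinite Y
  rw [Nat.card_congr (Equiv.sigmaFiberEquiv π).symm, Nat.card_sigma]
  simp [h, Nat.card_eq_fintype_card]

/-- Totally isotropic linearly independent tuples. -/
def Tk (k : ℕ) : Set (Fin k → (Fin m ⊕ Fin m → F)) :=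
  {t | LinearIndependent F t ∧ ∀ i j, Cfsg.sympForm m F (t i) (t j) = 0}

lemma card_ext [Fintype F] {k : ℕ} (hk : k < m) (t : Fin k → (Fin m ⊕ Fin m → F))
    (ht : t ∈ Tk m k) :
    Nat.card {v : Fin m ⊕ Fin m → F // v ∉ Submodule.span F (Set.range t) ∧
      ∀ i, Cfsg.sympForm m F (t i) v = 0} =
      Fintype.card F ^ (2 * m - k) - Fintype.card F ^ k := by
  classical
  set U := Submodule.span F (Set.range t) with hU
  set O := (BJ (F := F) m).orthogonal U with hO
  have hUO : U ≤ O := by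
    intro x hx
    rw [hO, LinearMap.BilinForm.mem_orthogonal_iff]
    intro n hn
    exact span_isotropic m t ht.2 n hn x hx
  have hfU : Module.finrank F U = k := by
    rw [hU, finrank_span_eq_card ht.1, Fintype.card_fin]
  have hfO : Module.finrank F O = 2 * m - k := by
    rw [hO, LinearMap.BilinForm.finrank_orthogonal (BJ_nondeg m), hfU]
    simp [Module.finrank_pi]
    omega
  have hset : {v : Fin m ⊕ Fin m → F | v ∉ U ∧ ∀ i, Cfsg.sympForm m F (t i) v = 0} =
      (O : Set (Fin m ⊕ Fin m → F)) \ (U : Set (Fin m ⊕ Fin m → F)) := by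
    ext v
    simp only [Set.mem_setOf_eq, Set.mem_diff, SetLike.mem_coe]
    rw [and_comm]
    apply and_congr_left'
    rw [hO, LinearMap.BilinForm.mem_orthogonal_iff]
    constructor
    · intro h n hn
      refine Submodule.span_induction (p := fun n _ => BJ m n v = 0) ?_ ?_ ?_ ?_ hn
      · rintro _ ⟨i, rfl⟩; rw [BJ_apply]; exact h i
      · simp
      · intro a b _ _ ha hb; rw [map_add, LinearMap.add_apply, ha, hb, add_zero]
      · intro c a _ ha; rw [map_smul, LinearMap.smul_apply, ha, smul_zero]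
    · intro h i; rw [← BJ_apply]; exact h _ (Submodule.subset_span ⟨i, rfl⟩)
  have e1 : Nat.card {v : Fin m ⊕ Fin m → F // v ∉ U ∧ ∀ i, Cfsg.sympForm m F (t i) v = 0} =
      Set.ncard {v : Fin m ⊕ Fin m → F | v ∉ U ∧ ∀ i, Cfsg.sympForm m F (t i) v = 0} := rfl
  rw [e1, hset, Set.ncard_sdiff (by exact hUO)]
  have e2 : Set.ncard (O : Set (Fin m ⊕ Fin m → F)) = Nat.card O := rfl
  have e3 : Set.ncard (U : Set (Fin m ⊕ Fin m → F)) = Nat.card U := rfl
  rw [e2, e3, Module.natCard_eq_pow_finrank (K := F) (V := O),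
    Module.natCard_eq_pow_finrank (K := F) (V := U), hfO, hfU, Nat.card_eq_fintype_card]

lemma card_Tk [Fintype F] (k : ℕ) (hk : k ≤ m) :
    Nat.card (Tk (F := F) m k) =
      ∏ i ∈ Finset.range k, (Fintype.card F ^ (2 * m - i) - Fintype.card F ^ i) := by
  classical
  induction k with
  | zero =>
    rw [Finset.prod_range_zero, Nat.card_eq_one_iff_unique]
    exact ⟨⟨fun a b => Subtype.ext (funext fun i => i.elim0)⟩,
      ⟨⟨fun i => i.elim0, linearIndependent_empty_type, fun i => i.elim0⟩⟩⟩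
  | succ k ih =>
    rw [Finset.prod_range_succ, ← ih (by omega)]
    let π : Tk (F := F) m (k + 1) → Tk (F := F) m k := fun x =>
      ⟨fun i => x.1 i.succ, x.2.1.comp Fin.succ (Fin.succ_injective k),
        fun i j => x.2.2 i.succ j.succ⟩
    apply card_fiber_const π
    intro y
    rw [← card_ext m (by omega) y.1 y.2]
    apply Nat.card_congr
    refine
      { toFun := fun x => ⟨x.1.1 0, ?_, ?_⟩
        invFun := fun v => ⟨⟨Fin.cons v.1 y.1, ?_, ?_⟩, ?_⟩
        left_inv := ?_
        right_inv := ?_ }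
    · have hx := x.1.2.1
      have htail : (fun i : Fin k => x.1.1 i.succ) = y.1 := congrArg Subtype.val x.2
      rw [← Fin.cons_self_tail x.1.1, linearIndependent_finCons] at hx
      have := hx.2
      rw [show Fin.tail x.1.1 = y.1 from htail] at this
      exact this
    · intro i
      have htail : (fun i : Fin k => x.1.1 i.succ) = y.1 := congrArg Subtype.val x.2
      rw [← htail]
      exact x.1.2.2 i.succ 0
    · exact linearIndependent_finCons.mpr ⟨y.2.1, v.2.1⟩
    · intro i j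
      refine Fin.cases ?_ (fun i => ?_) i <;> refine Fin.cases ?_ (fun j => ?_) j
      · simp only [Fin.cons_zero]; exact form_self m _
      · simp only [Fin.cons_zero, Fin.cons_succ]
        rw [form_swap, v.2.2 j, neg_zero]
      · simp only [Fin.cons_zero, Fin.cons_succ]; exact v.2.2 i
      · simp only [Fin.cons_succ]; exact y.2.2 i j
    · exact Subtype.ext (funext fun i =>
        Fin.cons_succ (α := fun _ => Fin m ⊕ Fin m → F) v.1 y.1 i)
    · intro x
      have htail : (fun i : Fin k => x.1.1 i.succ) = y.1 := congrArg Subtype.val x.2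
      apply Subtype.ext
      apply Subtype.ext
      show Fin.cons (x.1.1 0) y.1 = x.1.1
      rw [← htail]
      exact Fin.cons_self_tail x.1.1
    · intro v
      apply Subtype.ext
      simp

lemma arith (q m : ℕ) : ∀ k d : ℕ, d + k = m →
    q ^ (m ^ 2) * ∏ i ∈ Finset.range m, (q ^ (2 * (i + 1)) - 1) =
      q ^ (k * (k + 1) / 2 + 2 * k * d) *
        (q ^ (d ^ 2) * ∏ i ∈ Finset.range d, (q ^ (2 * (i + 1)) - 1)) *
        ∏ i ∈ Finset.range k, (q ^ (2 * m - i) - q ^ i) := by
  intro k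
  induction k with
  | zero => intro d hd; simp at hd; subst hd; simp
  | succ k ih =>
    intro d hd
    rw [ih (d + 1) (by omega), Finset.prod_range_succ, Finset.prod_range_succ]
    have h1 : q ^ (2 * m - k) - q ^ k = q ^ k * (q ^ (2 * (d + 1)) - 1) := by
      rw [Nat.mul_sub, mul_one, ← pow_add]; congr 2; omega
    have h2 : (k + 1) * (k + 1 + 1) / 2 = k * (k + 1) / 2 + (k + 1) := by
      have : (k + 1) * (k + 1 + 1) = k * (k + 1) + (k + 1) * 2 := by ring
      rw [this, Nat.add_mul_div_right _ _ (by norm_num)]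
    rw [h1, h2]
    generalize k * (k + 1) / 2 = T
    generalize ∏ i ∈ Finset.range k, (q ^ (2 * m - i) - q ^ i) = P
    generalize ∏ i ∈ Finset.range d, (q ^ (2 * (i + 1)) - 1) = S
    generalize q ^ (2 * (d + 1)) - 1 = X
    ring

end helpers

/-- Maximal parabolics of the symplectic group: if W is a k-dimensional subspace of F^(2m) on which the symplectic form vanishes identically, its stabiliser in Sp_2m(q) has order q^(k(k+1)/2 + 2k(m−k)) · |Sp_(2m−2k)(q)| · |GL_k(q)|. -/
theorem result {F : Type*} [Field F] [Fintype F] {q : ℕ} (hF : Fintype.card F = q) (m k : ℕ) (hk : k ≤ m) (W : Submodule F (Fin m ⊕ Fin m → F)) (hWk : Module.finrank F W = k) (hW : ∀ u ∈ W, ∀ v ∈ W, Cfsg.sympForm m F u v = 0) : Nat.card ↥(Cfsg.stabilizing (Cfsg.spToMat m F) (W : Set (Fin m ⊕ Fin m → F))) = q ^ (k * (k + 1) / 2 + 2 * k * (m - k)) * (q ^ ((m - k) ^ 2) * ∏ i ∈ Finset.range (m - k), (q ^ (2 * (i + 1)) - 1)) * ∏ i : Fin k, (q ^ k - q ^ (i : ℕ)) := by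
  classical
  subst hF
  let b := (Module.finBasis F W).reindex (finCongr hWk)
  let t0 : Fin k → (Fin m ⊕ Fin m → F) := fun i => (b i : Fin m ⊕ Fin m → F)
  have ht0 : LinearIndependent F t0 :=
    b.linearIndependent.map' W.subtype (Submodule.ker_subtype W)
  have hspan : Submodule.span F (Set.range t0) = W := by
    have h1 := b.span_eq
    have h2 : Submodule.span F (Set.range t0) =
        (Submodule.span F (Set.range b)).map W.subtype := by
      rw [Submodule.map_span, ← Set.range_comp]; rfl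
    rw [h2, h1, Submodule.map_top, Submodule.range_subtype]
  have ht0T : t0 ∈ Tk (F := F) m k := ⟨ht0, fun i j => hW _ (b i).2 _ (b j).2⟩
  -- orbit counting in the whole group
  have hA : Nat.card (Matrix.symplecticGroup (Fin m) F) =
      Nat.card (Tk (F := F) m k) * Nat.card (FixT m t0) := by
    refine Cfsg.Agent.Helper7.OrthChain.card_of_fibration (FixT m t0)
      (fun A => (⟨fun i => (A : Matrix (Fin m ⊕ Fin m) (Fin m ⊕ Fin m) F) *ᵥ t0 i,
        ?_, ?_⟩ : Tk (F := F) m k)) ?_ ?_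
    · have := ht0.map' (Matrix.toLin' (A : Matrix (Fin m ⊕ Fin m) (Fin m ⊕ Fin m) F))
        (LinearMap.ker_eq_bot.mpr (by
          intro x y hxy
          rw [Matrix.toLin'_apply, Matrix.toLin'_apply] at hxy
          exact symp_mulVec_injective m A hxy))
      exact this
    · intro i j
      rw [form_invariant m _ A.2]; exact ht0T.2 i j
    · rintro ⟨t', ht'⟩
      obtain ⟨A, hA⟩ := exists_symp_move m t0 t' ht0 ht'.1 ht0T.2 ht'.2
      exact ⟨A, Subtype.ext (funext hA)⟩
    · intro g g'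
      rw [← fix_iff]
      constructor
      · intro h i; exact congrFun (congrArg Subtype.val h) i
      · intro h; exact Subtype.ext (funext h)
  -- orbit counting in the stabiliser
  have hfixle : FixT m t0 ≤ Cfsg.stabilizing (Cfsg.spToMat m F) (W : Set (Fin m ⊕ Fin m → F)) := by
    intro A hA
    apply mem_stab_of_maps
    intro v hv
    have hv' : v ∈ Submodule.span F (Set.range t0) := by rw [hspan]; exact hv
    exact maps_span m A t0 W (fun i => by rw [hA i]; exact (b i).2) v hv'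
  have hB : Nat.card ↥(Cfsg.stabilizing (Cfsg.spToMat m F) (W : Set (Fin m ⊕ Fin m → F))) =
      Nat.card {s : Fin k → W // LinearIndependent F s} * Nat.card (FixT m t0) := by
    rw [← Nat.card_congr (Subgroup.subgroupOfEquivOfLe hfixle).toEquiv]
    refine Cfsg.Agent.Helper7.OrthChain.card_of_fibration
      ((FixT m t0).subgroupOf (Cfsg.stabilizing (Cfsg.spToMat m F) (W : Set (Fin m ⊕ Fin m → F))))
      (fun A => (⟨fun i => ⟨(A.1 : Matrix (Fin m ⊕ Fin m) (Fin m ⊕ Fin m) F) *ᵥ t0 i,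
        (A.2 (t0 i)).mp (b i).2⟩, ?_⟩ : {s : Fin k → W // LinearIndependent F s})) ?_ ?_
    · apply LinearIndependent.of_comp W.subtype
      have := ht0.map' (Matrix.toLin' (A.1 : Matrix (Fin m ⊕ Fin m) (Fin m ⊕ Fin m) F))
        (LinearMap.ker_eq_bot.mpr (by
          intro x y hxy
          rw [Matrix.toLin'_apply, Matrix.toLin'_apply] at hxy
          exact symp_mulVec_injective m A.1 hxy))
      exact this
    · rintro ⟨s, hs⟩
      have hs' : LinearIndependent F (fun i => (s i : Fin m ⊕ Fin m → F)) :=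
        hs.map' W.subtype (Submodule.ker_subtype W)
      obtain ⟨A, hA⟩ := exists_symp_move m t0 (fun i => (s i : Fin m ⊕ Fin m → F)) ht0 hs'
        ht0T.2 (fun i j => hW _ (s i).2 _ (s j).2)
      have hAstab : A ∈ Cfsg.stabilizing (Cfsg.spToMat m F) (W : Set (Fin m ⊕ Fin m → F)) := by
        apply mem_stab_of_maps
        intro v hv
        have hv' : v ∈ Submodule.span F (Set.range t0) := by rw [hspan]; exact hv
        exact maps_span m A t0 W (fun i => by rw [hA i]; exact (s i).2) v hv'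
      exact ⟨⟨A, hAstab⟩, Subtype.ext (funext fun i => Subtype.ext (hA i))⟩
    · intro g g'
      rw [Subgroup.mem_subgroupOf]
      show _ ↔ (g.1)⁻¹ * g'.1 ∈ FixT m t0
      rw [← fix_iff]
      constructor
      · intro h i; exact congrArg Subtype.val (congrFun (congrArg Subtype.val h) i)
      · intro h; exact Subtype.ext (funext fun i => Subtype.ext (h i))
  have hT := card_Tk (F := F) m k hk
  have hG := Cfsg.Agent.Helper7.SympCard.card_symplectic (F := F) m
  have hL : Nat.card {s : Fin k → W // LinearIndependent F s} =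
      ∏ i : Fin k, (Fintype.card F ^ k - Fintype.card F ^ (i : ℕ)) := by
    have := card_linearIndependent (K := F) (V := W) (k := k) (le_of_eq hWk.symm)
    rw [hWk] at this; exact this
  have hTpos : 0 < Nat.card (Tk (F := F) m k) := by
    haveI : Nonempty (Tk (F := F) m k) := ⟨⟨t0, ht0T⟩⟩
    exact Nat.card_pos
  have key : Nat.card ↥(Cfsg.stabilizing (Cfsg.spToMat m F) (W : Set (Fin m ⊕ Fin m → F))) *
      Nat.card (Tk (F := F) m k) =
      (Fintype.card F ^ (k * (k + 1) / 2 + 2 * k * (m - k)) *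
        (Fintype.card F ^ ((m - k) ^ 2) *
          ∏ i ∈ Finset.range (m - k), (Fintype.card F ^ (2 * (i + 1)) - 1)) *
        ∏ i : Fin k, (Fintype.card F ^ k - Fintype.card F ^ (i : ℕ))) *
      Nat.card (Tk (F := F) m k) := by
    have h1 : Nat.card ↥(Cfsg.stabilizing (Cfsg.spToMat m F) (W : Set (Fin m ⊕ Fin m → F))) *
        Nat.card (Tk (F := F) m k) =
        Nat.card {s : Fin k → W // LinearIndependent F s} *
          Nat.card (Matrix.symplecticGroup (Fin m) F) := by
      rw [hB, hA]; ring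
    rw [h1, hG, hL, arith (Fintype.card F) m k (m - k) (by omega), hT]
    ring
  exact Nat.eq_of_mul_eq_mul_right hTpos key

end Cfsg.Agent.S0775
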