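import Cfsg.Statements.S0837
import Mathlib
import Cfsg.Agent.Helper8.Hermitian
import Cfsg.Agent.Helper9.UPair3

set_option autoImplicit false
open Cfsg

namespace Cfsg.Agent.S0837

open Matrix

variable {F : Type*} [Field F]

theorem hf_add_left (n q : ℕ) (x y z : Fin n → F) :
    Cfsg.hermForm n F q (x + y) z = Cfsg.hermForm n F q x z + Cfsg.hermForm n F q y z := by
  unfold Cfsg.hermForm
  rw [← Finset.sum_add_distrib]
  exact Finset.sum_congr rfl (fun i _ => by rw [Pi.add_apply, add_mul])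

theorem hf_smul_left (n q : ℕ) (c : F) (x z : Fin n → F) :
    Cfsg.hermForm n F q (c • x) z = c * Cfsg.hermForm n F q x z := by
  unfold Cfsg.hermForm
  rw [Finset.mul_sum]
  exact Finset.sum_congr rfl (fun i _ => by rw [Pi.smul_apply, smul_eq_mul, mul_assoc])

theorem hf_zero_left (n q : ℕ) (z : Fin n → F) : Cfsg.hermForm n F q 0 z = 0 := by
  unfold Cfsg.hermForm
  exact Finset.sum_eq_zero (fun i _ => by rw [Pi.zero_apply, zero_mul])

theorem hf_zero_right {q : ℕ} (hq : q ≠ 0) (n : ℕ) (z : Fin n → F) :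
    Cfsg.hermForm n F q z 0 = 0 := by
  unfold Cfsg.hermForm
  exact Finset.sum_eq_zero (fun i _ => by rw [Pi.zero_apply, zero_pow hq, mul_zero])

theorem hf_add_right (n q : ℕ) (τ : F ≃+* F) (hτ : ∀ x, τ x = x ^ q) (x y z : Fin n → F) :
    Cfsg.hermForm n F q x (y + z) = Cfsg.hermForm n F q x y + Cfsg.hermForm n F q x z := by
  unfold Cfsg.hermForm
  rw [← Finset.sum_add_distrib]
  exact Finset.sum_congr rfl (fun i _ => by
    rw [Pi.add_apply, ← hτ, ← hτ, ← hτ, map_add, mul_add])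

theorem hf_smul_right (n q : ℕ) (τ : F ≃+* F) (hτ : ∀ x, τ x = x ^ q) (c : F)
    (x y : Fin n → F) :
    Cfsg.hermForm n F q x (c • y) = τ c * Cfsg.hermForm n F q x y := by
  unfold Cfsg.hermForm
  rw [Finset.mul_sum]
  exact Finset.sum_congr rfl (fun i _ => by
    rw [Pi.smul_apply, smul_eq_mul, mul_pow, hτ]; ring)

theorem hf_conj (n q : ℕ) (τ : F ≃+* F) (hτ : ∀ x, τ x = x ^ q) (hτ2 : ∀ x, τ (τ x) = x)
    (x y : Fin n → F) : τ (Cfsg.hermForm n F q x y) = Cfsg.hermForm n F q y x := by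
  unfold Cfsg.hermForm
  rw [map_sum]
  exact Finset.sum_congr rfl (fun i _ => by rw [map_mul, ← hτ, hτ2, ← hτ, mul_comm])

theorem hf_nondeg {q : ℕ} (hq : q ≠ 0) (n : ℕ) (z : Fin n → F) (hz : z ≠ 0) :
    ∃ x, Cfsg.hermForm n F q z x ≠ 0 := by
  classical
  obtain ⟨i, hi⟩ : ∃ i, z i ≠ 0 := by
    by_contra hcon
    push_neg at hcon
    exact hz (funext hcon)
  refine ⟨Pi.single i 1, ?_⟩
  unfold Cfsg.hermForm
  rw [Finset.sum_eq_single i]
  · rw [Pi.single_eq_same, one_pow, mul_one]; exact hi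
  · intro j _ hji
    rw [Pi.single_eq_of_ne hji, zero_pow hq, mul_zero]
  · intro h; exact absurd (Finset.mem_univ i) h

/-- `hermForm` as a linear map in its first argument -/
def hfL (n q : ℕ) (y : Fin n → F) : (Fin n → F) →ₗ[F] F where
  toFun x := Cfsg.hermForm n F q x y
  map_add' x x' := hf_add_left n q x x' y
  map_smul' c x := by rw [hf_smul_left]; rfl

theorem hfL_apply (n q : ℕ) (y x : Fin n → F) : hfL n q y x = Cfsg.hermForm n F q x y := rfl

theorem coe_expand {n d : ℕ} (U : Submodule F (Fin n → F)) (b : Module.Basis (Fin d) F U)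
    (v : U) : (v : Fin n → F) = ∑ j, (b.equivFun v) j • ((b j : U) : Fin n → F) := by
  conv_lhs => rw [← b.sum_equivFun v]
  simp only [Submodule.coe_sum, Submodule.coe_smul]

theorem stepA {n d q : ℕ} (U : Submodule F (Fin n → F)) (b : Module.Basis (Fin d) F U)
    (hb : ∀ i j, Cfsg.hermForm n F q (b i).1 (b j).1 = if i = j then 1 else 0) (v : U)
    (i : Fin d) : Cfsg.hermForm n F q v.1 (b i).1 = b.equivFun v i := by
  classical
  rw [coe_expand U b v, ← hfL_apply, map_sum]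
  simp only [map_smul, hfL_apply, hf_smul_left, hb, smul_eq_mul, mul_ite, mul_one, mul_zero,
    Finset.sum_ite_eq', Finset.mem_univ, if_true]

theorem stepB {n d q : ℕ} (τ : F ≃+* F) (hτ : ∀ x, τ x = x ^ q) (hτ2 : ∀ x, τ (τ x) = x)
    (U : Submodule F (Fin n → F)) (b : Module.Basis (Fin d) F U)
    (hb : ∀ i j, Cfsg.hermForm n F q (b i).1 (b j).1 = if i = j then 1 else 0) (u v : U) :
    Cfsg.hermForm d F q (b.equivFun u) (b.equivFun v) = Cfsg.hermForm n F q u.1 v.1 := by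
  classical
  have h1 : ∀ i, Cfsg.hermForm n F q (b i).1 v.1 = (b.equivFun v i) ^ q := by
    intro i
    rw [← hf_conj n q τ hτ hτ2, stepA U b hb, hτ]
  conv_rhs => rw [coe_expand U b u, ← hfL_apply, map_sum]
  simp only [map_smul, hfL_apply, hf_smul_left, h1, smul_eq_mul]
  rfl

theorem onb [Fintype F] {n q d : ℕ} (τ : F ≃+* F) (hτ : ∀ x, τ x = x ^ q)
    (hτ2 : ∀ x, τ (τ x) = x) (hne : τ ≠ RingEquiv.refl F) (U : Submodule F (Fin n → F))
    (hd : Module.finrank F U = d)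
    (hU : ∀ u ∈ U, (∀ v ∈ U, Cfsg.hermForm n F q u v = 0) → u = 0) :
    ∃ b : Module.Basis (Fin d) F U,
      ∀ i j, Cfsg.hermForm n F q (b i).1 (b j).1 = if i = j then 1 else 0 := by
  classical
  subst hd
  obtain ⟨B, hBapp⟩ : ∃ B : ↥U →ₛₗ[(τ : F →+* F)] ↥U →ₗ[F] F,
      ∀ u v, B u v = Cfsg.hermForm n F q v.1 u.1 :=
    ⟨LinearMap.mk₂'ₛₗ (τ : F →+* F) (RingHom.id F)
      (fun u v => Cfsg.hermForm n F q v.1 u.1)
      (fun u u' v => hf_add_right n q τ hτ v.1 u.1 u'.1)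
      (fun c u v => by
        show Cfsg.hermForm n F q v.1 (c • u.1) = τ c • Cfsg.hermForm n F q v.1 u.1
        rw [hf_smul_right n q τ hτ, smul_eq_mul])
      (fun u v v' => hf_add_left n q v.1 v'.1 u.1)
      (fun c u v => by
        show Cfsg.hermForm n F q (c • v.1) u.1 = c • Cfsg.hermForm n F q v.1 u.1
        rw [hf_smul_left, smul_eq_mul]), fun u v => rfl⟩
  have hS : B.IsSymm := ⟨fun x y => by
    rw [hBapp, hBapp]
    exact hf_conj n q τ hτ hτ2 y.1 x.1⟩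
  have hB : B.Nondegenerate := by
    constructor
    · intro x hx
      apply Subtype.ext
      apply hU x.1 x.2
      intro v hv
      have h1 : Cfsg.hermForm n F q v x.1 = 0 := by
        have h0 := hx ⟨v, hv⟩
        rw [hBapp] at h0
        exact h0
      rw [← hf_conj n q τ hτ hτ2, h1, map_zero]
    · intro y hy
      apply Subtype.ext
      apply hU y.1 y.2
      intro v hv
      have h0 := hy ⟨v, hv⟩
      rw [hBapp] at h0
      exact h0
  have hσ : (τ : F →+* F) ≠ RingHom.id F := by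
    intro h
    apply hne
    ext x
    exact RingHom.congr_fun h x
  obtain ⟨b, hb⟩ := Cfsg.Agent.Helper8.Hermitian.main (τ : F →+* F) hσ hτ2 B hS hB
  refine ⟨b, fun i j => ?_⟩
  have h1 := hb j i
  rw [hBapp] at h1
  rw [h1]
  by_cases hij : i = j
  · subst hij; simp
  · rw [if_neg hij, if_neg (fun h => hij h.symm)]

theorem coordsH [Fintype F] {q : ℕ} (hF : Fintype.card F = q ^ 2) (n k : ℕ)
    (W : Submodule F (Fin n → F)) (hWk : Module.finrank F W = k)
    (hW : ∀ u ∈ W, (∀ v ∈ W, Cfsg.hermForm n F q u v = 0) → u = 0) :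
    ∃ E : (Fin n → F) ≃ₗ[F] ((Fin k → F) × (Fin (n - k) → F)),
      (∀ u v, Cfsg.hermForm n F q u v = Cfsg.hermForm k F q (E u).1 (E v).1 +
        Cfsg.hermForm (n - k) F q (E u).2 (E v).2) ∧
      (∀ v, v ∈ W ↔ (E v).2 = 0) := by
  classical
  obtain ⟨τ, hτ, hτ2, hne⟩ := Cfsg.Agent.Helper9.exists_frob9 hF
  have hq : q ≠ 0 := by
    rintro rfl
    have h0 : Fintype.card F = 0 := by rw [hF]; rfl
    exact Fintype.card_ne_zero h0
  obtain ⟨W', hW'mem⟩ : ∃ W' : Submodule F (Fin n → F),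
      ∀ v, v ∈ W' ↔ ∀ w ∈ W, Cfsg.hermForm n F q v w = 0 :=
    ⟨{ carrier := {v | ∀ w ∈ W, Cfsg.hermForm n F q v w = 0}
       add_mem' := fun {a b} ha hb w hw => by rw [hf_add_left, ha w hw, hb w hw, add_zero]
       zero_mem' := fun w _ => hf_zero_left n q w
       smul_mem' := fun c a ha w hw => by rw [hf_smul_left, ha w hw, mul_zero] },
      fun v => Iff.rfl⟩
  obtain ⟨b, hb⟩ := onb τ hτ hτ2 hne W hWk hW
  have hperp : ∀ x : Fin n → F, (∀ j, Cfsg.hermForm n F q x (b j).1 = 0) →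
      ∀ w : W, Cfsg.hermForm n F q x w.1 = 0 := by
    intro x hx w
    have h0 : ∀ j, Cfsg.hermForm n F q (b j).1 x = 0 := by
      intro j; rw [← hf_conj n q τ hτ hτ2, hx j, map_zero]
    rw [← hf_conj n q τ hτ hτ2, coe_expand W b w, ← hfL_apply, map_sum]
    simp only [map_smul, hfL_apply, hf_smul_left, smul_eq_mul, h0, mul_zero,
      Finset.sum_const_zero, map_zero]
  have hC : IsCompl W W' := by
    constructor
    · rw [Submodule.disjoint_def]
      intro x hx hx'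
      exact hW x hx (fun v hv => (hW'mem x).1 hx' v hv)
    · rw [codisjoint_iff, eq_top_iff]
      intro v _
      have hp : (∑ i, Cfsg.hermForm n F q v (b i).1 • (b i).1) ∈ W :=
        Submodule.sum_mem _ (fun i _ => Submodule.smul_mem _ _ (b i).2)
      have hv' : v - ∑ i, Cfsg.hermForm n F q v (b i).1 • (b i).1 ∈ W' := by
        rw [hW'mem]
        intro w hw
        refine hperp _ ?_ ⟨w, hw⟩
        intro j
        rw [← hfL_apply, map_sub, map_sum]
        simp only [map_smul, hfL_apply, hf_smul_left, hb, smul_eq_mul, mul_ite, mul_one,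
          mul_zero, Finset.sum_ite_eq', Finset.mem_univ, if_true, sub_self]
      have hsum : v = (∑ i, Cfsg.hermForm n F q v (b i).1 • (b i).1) +
          (v - ∑ i, Cfsg.hermForm n F q v (b i).1 • (b i).1) := by abel
      rw [hsum]
      exact Submodule.add_mem_sup hp hv'
  have hW'k : Module.finrank F W' = n - k := by
    have h1 := Submodule.finrank_add_eq_of_isCompl hC
    rw [hWk, Module.finrank_fin_fun] at h1
    omega
  have hcross : ∀ w ∈ W, ∀ w' ∈ W', Cfsg.hermForm n F q w w' = 0 := by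
    intro w hw w' hw'
    rw [← hf_conj n q τ hτ hτ2, (hW'mem w').1 hw' w hw, map_zero]
  have hW' : ∀ u ∈ W', (∀ v ∈ W', Cfsg.hermForm n F q u v = 0) → u = 0 := by
    intro u hu huv
    by_contra hne0
    obtain ⟨x, hx⟩ := hf_nondeg hq n u hne0
    apply hx
    have hx' : x ∈ W ⊔ W' := by rw [hC.sup_eq_top]; exact Submodule.mem_top
    obtain ⟨y, hy, z, hz, rfl⟩ := Submodule.mem_sup.1 hx'
    rw [hf_add_right n q τ hτ, (hW'mem u).1 hu y hy, huv z hz, add_zero]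
  obtain ⟨b', hb'⟩ := onb τ hτ hτ2 hne W' hW'k hW'
  have key : ∀ a c : ↥W × ↥W',
      Cfsg.hermForm n F q (Submodule.prodEquivOfIsCompl W W' hC a)
        (Submodule.prodEquivOfIsCompl W W' hC c) =
      Cfsg.hermForm k F q (b.equivFun a.1) (b.equivFun c.1) +
        Cfsg.hermForm (n - k) F q (b'.equivFun a.2) (b'.equivFun c.2) := by
    intro a c
    rw [stepB τ hτ hτ2 W b hb, stepB τ hτ hτ2 W' b' hb', Submodule.coe_prodEquivOfIsCompl',
      Submodule.coe_prodEquivOfIsCompl', hf_add_left, hf_add_right n q τ hτ,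
      hf_add_right n q τ hτ, hcross a.1.1 a.1.2 c.2.1 c.2.2,
      (hW'mem a.2.1).1 a.2.2 c.1.1 c.1.2, add_zero, zero_add]
  refine ⟨(Submodule.prodEquivOfIsCompl W W' hC).symm.trans
    (b.equivFun.prodCongr b'.equivFun), ?_, ?_⟩
  · intro u v
    have h1 := key ((Submodule.prodEquivOfIsCompl W W' hC).symm u)
      ((Submodule.prodEquivOfIsCompl W W' hC).symm v)
    rw [LinearEquiv.apply_symm_apply, LinearEquiv.apply_symm_apply] at h1
    exact h1
  · intro v
    show v ∈ W ↔ b'.equivFun ((Submodule.prodEquivOfIsCompl W W' hC).symm v).2 = 0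
    rw [LinearEquiv.map_eq_zero_iff, Submodule.prodEquivOfIsCompl_symm_apply_snd_eq_zero]

theorem mat_ext {n : Type*} [Fintype n] [DecidableEq n] (M N : Matrix n n F)
    (h : ∀ v, M *ᵥ v = N *ᵥ v) : M = N :=
  Matrix.toLin'.injective (LinearMap.ext h)

theorem mv_zero {n : Type*} [Fintype n] [DecidableEq n] (Y Z : Matrix n n F) (h : Z * Y = 1)
    (u : n → F) : Y *ᵥ u = 0 ↔ u = 0 := by
  constructor
  · intro hu
    have h1 := congrArg (fun x => Z *ᵥ x) hu
    simp only [Matrix.mulVec_mulVec, h, Matrix.one_mulVec, Matrix.mulVec_zero] at h1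
    exact h1
  · intro hu; rw [hu, Matrix.mulVec_zero]

/-- the matrix of the block map -/
noncomputable def PsiM {n k l : ℕ}
    (E : (Fin n → F) ≃ₗ[F] ((Fin k → F) × (Fin l → F)))
    (A : Matrix (Fin k) (Fin k) F) (B : Matrix (Fin l) (Fin l) F) :
    Matrix (Fin n) (Fin n) F :=
  LinearMap.toMatrix' (E.symm.toLinearMap ∘ₗ
    ((Matrix.toLin' A).prodMap (Matrix.toLin' B)) ∘ₗ E.toLinearMap)

theorem PsiM_mulVec {n k l : ℕ}
    (E : (Fin n → F) ≃ₗ[F] ((Fin k → F) × (Fin l → F)))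
    (A : Matrix (Fin k) (Fin k) F) (B : Matrix (Fin l) (Fin l) F) (v : Fin n → F) :
    PsiM E A B *ᵥ v = E.symm (A *ᵥ (E v).1, B *ᵥ (E v).2) := by
  unfold PsiM
  rw [LinearMap.toMatrix'_mulVec]
  rfl

theorem PsiM_one {n k l : ℕ}
    (E : (Fin n → F) ≃ₗ[F] ((Fin k → F) × (Fin l → F))) :
    PsiM E 1 1 = 1 := by
  apply mat_ext; intro v
  rw [PsiM_mulVec, Matrix.one_mulVec, Matrix.one_mulVec, Matrix.one_mulVec]
  exact E.symm_apply_apply v

theorem PsiM_mul {n k l : ℕ}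
    (E : (Fin n → F) ≃ₗ[F] ((Fin k → F) × (Fin l → F)))
    (A A' : Matrix (Fin k) (Fin k) F) (B B' : Matrix (Fin l) (Fin l) F) :
    PsiM E (A * A') (B * B') = PsiM E A B * PsiM E A' B' := by
  apply mat_ext; intro v
  rw [← Matrix.mulVec_mulVec, PsiM_mulVec, PsiM_mulVec, PsiM_mulVec,
    LinearEquiv.apply_symm_apply, ← Matrix.mulVec_mulVec, ← Matrix.mulVec_mulVec]

theorem PsiM_inj {n k l : ℕ}
    (E : (Fin n → F) ≃ₗ[F] ((Fin k → F) × (Fin l → F)))
    (A A' : Matrix (Fin k) (Fin k) F) (B B' : Matrix (Fin l) (Fin l) F)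
    (h : PsiM E A B = PsiM E A' B') : A = A' ∧ B = B' := by
  have key : ∀ x : (Fin k → F) × (Fin l → F),
      (A *ᵥ x.1, B *ᵥ x.2) = (A' *ᵥ x.1, B' *ᵥ x.2) := by
    intro x
    have h1 := congrArg (fun M => M *ᵥ (E.symm x)) h
    simp only [PsiM_mulVec, LinearEquiv.apply_symm_apply] at h1
    exact E.symm.injective h1
  constructor
  · apply mat_ext; intro v
    exact congrArg Prod.fst (key (v, 0))
  · apply mat_ext; intro v
    exact congrArg Prod.snd (key (0, v))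

/-- the block map as a monoid hom of matrices -/
noncomputable def PsiH {n k l : ℕ}
    (E : (Fin n → F) ≃ₗ[F] ((Fin k → F) × (Fin l → F))) :
    Matrix (Fin k) (Fin k) F × Matrix (Fin l) (Fin l) F →* Matrix (Fin n) (Fin n) F where
  toFun p := PsiM E p.1 p.2
  map_one' := PsiM_one E
  map_mul' p p' := PsiM_mul E p.1 p'.1 p.2 p'.2

/-- the block map on general linear groups -/
noncomputable def PsiG {n k l : ℕ}
    (E : (Fin n → F) ≃ₗ[F] ((Fin k → F) × (Fin l → F))) :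
    Matrix.GeneralLinearGroup (Fin k) F × Matrix.GeneralLinearGroup (Fin l) F →*
      Matrix.GeneralLinearGroup (Fin n) F :=
  (Units.map (PsiH E)).comp (MulEquiv.prodUnits (M := Matrix (Fin k) (Fin k) F)
    (N := Matrix (Fin l) (Fin l) F)).symm.toMonoidHom

theorem PsiG_val {n k l : ℕ}
    (E : (Fin n → F) ≃ₗ[F] ((Fin k → F) × (Fin l → F)))
    (p : Matrix.GeneralLinearGroup (Fin k) F × Matrix.GeneralLinearGroup (Fin l) F) :
    (PsiG E p).1 = PsiM E p.1.1 p.2.1 := rfl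

theorem PsiG_mem {n k l q : ℕ}
    (E : (Fin n → F) ≃ₗ[F] ((Fin k → F) × (Fin l → F)))
    (hE : ∀ u v, Cfsg.hermForm n F q u v = Cfsg.hermForm k F q (E u).1 (E v).1 +
        Cfsg.hermForm l F q (E u).2 (E v).2)
    (p : ↥(Cfsg.GU k F q) × ↥(Cfsg.GU l F q)) :
    PsiG E (p.1.1, p.2.1) ∈ Cfsg.GU n F q := by
  intro u v
  show Cfsg.hermForm n F q (PsiM E p.1.1.1 p.2.1.1 *ᵥ u) (PsiM E p.1.1.1 p.2.1.1 *ᵥ v) =
    Cfsg.hermForm n F q u v
  rw [PsiM_mulVec, PsiM_mulVec, hE, LinearEquiv.apply_symm_apply, LinearEquiv.apply_symm_apply,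
    hE u v]
  have h1 : Cfsg.hermForm k F q (p.1.1.1 *ᵥ (E u).1) (p.1.1.1 *ᵥ (E v).1) =
      Cfsg.hermForm k F q (E u).1 (E v).1 := p.1.2 (E u).1 (E v).1
  have h2 : Cfsg.hermForm l F q (p.2.1.1 *ᵥ (E u).2) (p.2.1.1 *ᵥ (E v).2) =
      Cfsg.hermForm l F q (E u).2 (E v).2 := p.2.2 (E u).2 (E v).2
  exact congrArg₂ (· + ·) h1 h2

/-- the block embedding of unitary groups -/
noncomputable def PsiU {n k l q : ℕ}
    (E : (Fin n → F) ≃ₗ[F] ((Fin k → F) × (Fin l → F)))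
    (hE : ∀ u v, Cfsg.hermForm n F q u v = Cfsg.hermForm k F q (E u).1 (E v).1 +
        Cfsg.hermForm l F q (E u).2 (E v).2) :
    ↥(Cfsg.GU k F q) × ↥(Cfsg.GU l F q) →* ↥(Cfsg.GU n F q) where
  toFun p := ⟨PsiG E (p.1.1, p.2.1), PsiG_mem E hE p⟩
  map_one' := Subtype.ext (map_one (PsiG E))
  map_mul' p p' := Subtype.ext (map_mul (PsiG E) (p.1.1, p.2.1) (p'.1.1, p'.2.1))

theorem PsiU_val {n k l q : ℕ}
    (E : (Fin n → F) ≃ₗ[F] ((Fin k → F) × (Fin l → F)))
    (hE : ∀ u v, Cfsg.hermForm n F q u v = Cfsg.hermForm k F q (E u).1 (E v).1 +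
        Cfsg.hermForm l F q (E u).2 (E v).2)
    (p : ↥(Cfsg.GU k F q) × ↥(Cfsg.GU l F q)) :
    (PsiU E hE p).1.1 = PsiM E p.1.1.1 p.2.1.1 := rfl

theorem PsiU_range {n k l q : ℕ} (hq : q ≠ 0)
    (E : (Fin n → F) ≃ₗ[F] ((Fin k → F) × (Fin l → F)))
    (hE1 : ∀ u v, Cfsg.hermForm n F q u v = Cfsg.hermForm k F q (E u).1 (E v).1 +
        Cfsg.hermForm l F q (E u).2 (E v).2)
    (W : Submodule F (Fin n → F)) (hE2 : ∀ v, v ∈ W ↔ (E v).2 = 0) :
    (PsiU E hE1).range =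
      (Cfsg.stabilizing (Cfsg.glToMat (Fin n) F) (W : Set (Fin n → F))).subgroupOf
        (Cfsg.GU n F q) := by
  classical
  ext g
  rw [Subgroup.mem_subgroupOf]
  constructor
  · rintro ⟨p, rfl⟩
    intro v
    show v ∈ W ↔ (PsiM E p.1.1.1 p.2.1.1) *ᵥ v ∈ W
    have hinv : (p.2.1⁻¹).1 * p.2.1.1 = 1 := by
      rw [← Units.val_mul, inv_mul_cancel]; rfl
    rw [hE2, hE2, PsiM_mulVec, LinearEquiv.apply_symm_apply]
    show (E v).2 = 0 ↔ p.2.1.1 *ᵥ (E v).2 = 0
    exact (mv_zero p.2.1.1 (p.2.1⁻¹).1 hinv ((E v).2)).symm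
  · intro hg
    have hg' : ∀ v : Fin n → F, v ∈ W ↔ g.1.1 *ᵥ v ∈ W := hg
    have hgU : ∀ u v, Cfsg.hermForm n F q (g.1.1 *ᵥ u) (g.1.1 *ᵥ v) =
        Cfsg.hermForm n F q u v := g.2
    have hginv' : g.1.1 * (g.1⁻¹).1 = 1 := by
      rw [← Units.val_mul, mul_inv_cancel]; rfl
    have F1 : ∀ x, (E (g.1.1 *ᵥ E.symm (x, 0))).2 = 0 := by
      intro x
      rw [← hE2, ← hg', hE2, LinearEquiv.apply_symm_apply]
    have F2 : ∀ y, (E (g.1.1 *ᵥ E.symm (0, y))).1 = 0 := by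
      intro y
      by_contra hne
      obtain ⟨x, hx⟩ := hf_nondeg hq k _ hne
      have hw1 : E.symm (x, 0) ∈ W := by rw [hE2, LinearEquiv.apply_symm_apply]
      have hw0 : (g.1⁻¹).1 *ᵥ E.symm (x, 0) ∈ W := by
        rw [hg', Matrix.mulVec_mulVec, hginv', Matrix.one_mulVec]; exact hw1
      have e1 := hgU (E.symm (0, y)) ((g.1⁻¹).1 *ᵥ E.symm (x, 0))
      rw [Matrix.mulVec_mulVec, hginv', Matrix.one_mulVec] at e1
      rw [hE1, hE1, LinearEquiv.apply_symm_apply, LinearEquiv.apply_symm_apply,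
        (hE2 _).1 hw0] at e1
      simp only [hf_zero_left, hf_zero_right hq, add_zero] at e1
      exact hx e1
    obtain ⟨A₀, hA₀⟩ : ∃ A₀ : Matrix (Fin k) (Fin k) F,
        ∀ x, A₀ *ᵥ x = (E (g.1.1 *ᵥ E.symm (x, 0))).1 :=
      ⟨LinearMap.toMatrix' ((LinearMap.fst F _ _) ∘ₗ E.toLinearMap ∘ₗ Matrix.toLin' g.1.1 ∘ₗ
        E.symm.toLinearMap ∘ₗ (LinearMap.inl F _ _)), fun x => by
          rw [LinearMap.toMatrix'_mulVec]; rfl⟩
    obtain ⟨B₀, hB₀⟩ : ∃ B₀ : Matrix (Fin l) (Fin l) F,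
        ∀ y, B₀ *ᵥ y = (E (g.1.1 *ᵥ E.symm (0, y))).2 :=
      ⟨LinearMap.toMatrix' ((LinearMap.snd F _ _) ∘ₗ E.toLinearMap ∘ₗ Matrix.toLin' g.1.1 ∘ₗ
        E.symm.toLinearMap ∘ₗ (LinearMap.inr F _ _)), fun y => by
          rw [LinearMap.toMatrix'_mulVec]; rfl⟩
    have hA : ∀ x x', Cfsg.hermForm k F q (A₀ *ᵥ x) (A₀ *ᵥ x') = Cfsg.hermForm k F q x x' := by
      intro x x'
      rw [hA₀, hA₀]
      have e1 := hgU (E.symm (x, 0)) (E.symm (x', 0))
      rw [hE1, hE1, LinearEquiv.apply_symm_apply, LinearEquiv.apply_symm_apply, F1 x, F1 x'] at e1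
      simp only [hf_zero_left, add_zero] at e1
      exact e1
    have hB : ∀ y y', Cfsg.hermForm l F q (B₀ *ᵥ y) (B₀ *ᵥ y') = Cfsg.hermForm l F q y y' := by
      intro y y'
      rw [hB₀, hB₀]
      have e1 := hgU (E.symm (0, y)) (E.symm (0, y'))
      rw [hE1, hE1, LinearEquiv.apply_symm_apply, LinearEquiv.apply_symm_apply, F2 y, F2 y'] at e1
      simp only [hf_zero_left, zero_add] at e1
      exact e1
    have hAu : IsUnit A₀ := by
      apply Matrix.mulVec_injective_iff_isUnit.1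
      intro x y hxy
      by_contra hne
      have hne' : x - y ≠ 0 := sub_ne_zero.2 hne
      obtain ⟨z, hz⟩ := hf_nondeg hq k _ hne'
      apply hz
      rw [← hA, Matrix.mulVec_sub, show A₀ *ᵥ x = A₀ *ᵥ y from hxy, sub_self, hf_zero_left]
    have hBu : IsUnit B₀ := by
      apply Matrix.mulVec_injective_iff_isUnit.1
      intro x y hxy
      by_contra hne
      have hne' : x - y ≠ 0 := sub_ne_zero.2 hne
      obtain ⟨z, hz⟩ := hf_nondeg hq l _ hne'
      apply hz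
      rw [← hB, Matrix.mulVec_sub, show B₀ *ᵥ x = B₀ *ᵥ y from hxy, sub_self, hf_zero_left]
    have memA : hAu.unit ∈ Cfsg.GU k F q := by
      intro u v
      show Cfsg.hermForm k F q (hAu.unit.1 *ᵥ u) (hAu.unit.1 *ᵥ v) = Cfsg.hermForm k F q u v
      rw [IsUnit.unit_spec]; exact hA u v
    have memB : hBu.unit ∈ Cfsg.GU l F q := by
      intro u v
      show Cfsg.hermForm l F q (hBu.unit.1 *ᵥ u) (hBu.unit.1 *ᵥ v) = Cfsg.hermForm l F q u v
      rw [IsUnit.unit_spec]; exact hB u v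
    have hadd : ∀ (x : Fin k → F) (y : Fin l → F),
        E (g.1.1 *ᵥ E.symm (x, y)) =
          E (g.1.1 *ᵥ E.symm (x, 0)) + E (g.1.1 *ᵥ E.symm (0, y)) := by
      intro x y
      have h1 : ((x, y) : (Fin k → F) × (Fin l → F)) = (x, 0) + (0, y) :=
        Prod.ext (by simp) (by simp)
      conv_lhs => rw [h1]
      rw [map_add, Matrix.mulVec_add, map_add]
    have hfin : PsiM E A₀ B₀ = g.1.1 := by
      apply mat_ext; intro v
      rw [PsiM_mulVec, hA₀, hB₀]
      apply E.injective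
      rw [LinearEquiv.apply_symm_apply]
      have h3 : E (g.1.1 *ᵥ v) =
          E (g.1.1 *ᵥ E.symm ((E v).1, 0)) + E (g.1.1 *ᵥ E.symm (0, (E v).2)) := by
        have h2 := hadd (E v).1 (E v).2
        have h4 : E.symm ((E v).1, (E v).2) = v := E.symm_apply_apply v
        rw [h4] at h2; exact h2
      rw [h3]
      apply Prod.ext
      · show (E (g.1.1 *ᵥ E.symm ((E v).1, 0))).1 =
          (E (g.1.1 *ᵥ E.symm ((E v).1, 0))).1 + (E (g.1.1 *ᵥ E.symm (0, (E v).2))).1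
        rw [F2, add_zero]
      · show (E (g.1.1 *ᵥ E.symm (0, (E v).2))).2 =
          (E (g.1.1 *ᵥ E.symm ((E v).1, 0))).2 + (E (g.1.1 *ᵥ E.symm (0, (E v).2))).2
        rw [F1, zero_add]
    refine ⟨(⟨hAu.unit, memA⟩, ⟨hBu.unit, memB⟩), ?_⟩
    apply Subtype.ext
    apply Units.ext
    rw [PsiU_val]
    show PsiM E hAu.unit.1 hBu.unit.1 = g.1.1
    rw [IsUnit.unit_spec, IsUnit.unit_spec]
    exact hfin

/-- If W ≤ F^n (|F| = q²) is a k-dimensional subspace on which the Hermitian form Σ x_i y_i^q is non-degenerate, then the stabiliser of W in GU_n(q) is isomorphic to GU_k(q) × GU_(n−k)(q). -/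
theorem result {F : Type*} [Field F] [Fintype F] {q : ℕ} (hF : Fintype.card F = q ^ 2) (n k : ℕ) (hk : k ≤ n) (W : Submodule F (Fin n → F)) (hWk : Module.finrank F W = k) (hW : ∀ u ∈ W, (∀ v ∈ W, Cfsg.hermForm n F q u v = 0) → u = 0) : Nonempty (↥((Cfsg.stabilizing (Cfsg.glToMat (Fin n) F) (W : Set (Fin n → F))).subgroupOf (Cfsg.GU n F q)) ≃* ↥(Cfsg.GU k F q) × ↥(Cfsg.GU (n - k) F q)) := by
  classical
  have hq : q ≠ 0 := by
    rintro rfl
    have h0 : Fintype.card F = 0 := by rw [hF]; rfl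
    exact Fintype.card_ne_zero h0
  obtain ⟨E, hE1, hE2⟩ := coordsH hF n k W hWk hW
  have hinj : Function.Injective (PsiU (q := q) E hE1) := by
    intro p p' h
    have h1 : PsiM E p.1.1.1 p.2.1.1 = PsiM E p'.1.1.1 p'.2.1.1 :=
      congrArg (fun g : ↥(Cfsg.GU n F q) => g.1.1) h
    obtain ⟨ha, hb⟩ := PsiM_inj E _ _ _ _ h1
    exact Prod.ext (Subtype.ext (Units.ext ha)) (Subtype.ext (Units.ext hb))
  have hrange := PsiU_range hq E hE1 W hE2
  exact ⟨((MonoidHom.ofInjective hinj).trans (MulEquiv.subgroupCongr hrange)).symm⟩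

end Cfsg.Agent.S0837
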