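import Cfsg.Statements.S0829
import Mathlib
import Cfsg.Agent.S0837
import Cfsg.Agent.Helper7.HermCount

set_option autoImplicit false
open Cfsg

namespace Cfsg.Agent.S0829

open Matrix

variable {F : Type*} [Field F] [Fintype F]

theorem card_sub {Q n : ℕ} (hF : Fintype.card F = Q) (W : Submodule F (Fin n → F)) (d : ℕ)
    (hd : Module.finrank F W = d) : Nat.card W = Q ^ d := by
  rw [Module.natCard_eq_pow_finrank (K := F) (V := ↥W), Nat.card_eq_fintype_card, hF, hd]

theorem ncard_sub {Q n : ℕ} (hF : Fintype.card F = Q) (W : Submodule F (Fin n → F))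
    (d : ℕ) (hd : Module.finrank F W = d) : (W : Set (Fin n → F)).ncard = Q ^ d := by
  rw [← Nat.card_coe_set_eq]; exact card_sub hF W d hd

theorem card_diff {Q n : ℕ} (hF : Fintype.card F = Q) (W P : Submodule F (Fin n → F))
    (hPW : P ≤ W) (d e : ℕ) (hd : Module.finrank F W = d) (he : Module.finrank F P = e) :
    Nat.card {w : Fin n → F // w ∈ W ∧ w ∉ P} = Q ^ d - Q ^ e := by
  show Nat.card ↥((W : Set (Fin n → F)) \ (P : Set (Fin n → F))) = _
  have hsub : (P : Set (Fin n → F)) ⊆ (W : Set (Fin n → F)) := hPW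
  rw [Nat.card_coe_set_eq, Set.ncard_sdiff hsub (Set.toFinite _), ncard_sub hF W d hd,
    ncard_sub hF P e he]

omit [Fintype F] in
theorem fr_pair {n : ℕ} (v w : Fin n → F) (hv : v ≠ 0) (hw : w ∉ Submodule.span F {v}) :
    Module.finrank F (Submodule.span F ({v, w} : Set (Fin n → F))) = 2 := by
  have hw0 : w ≠ 0 := fun h => hw (h ▸ Submodule.zero_mem _)
  have hinf : Submodule.span F {v} ⊓ Submodule.span F {w} = ⊥ := by
    rw [eq_bot_iff]
    intro x hx
    obtain ⟨hx1, hx2⟩ := Submodule.mem_inf.1 hx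
    obtain ⟨a, rfl⟩ := Submodule.mem_span_singleton.1 hx2
    rw [Submodule.mem_bot]
    by_cases ha : a = 0
    · rw [ha, zero_smul]
    · exfalso; apply hw
      have h1 := Submodule.smul_mem _ a⁻¹ hx1
      rwa [smul_smul, inv_mul_cancel₀ ha, one_smul] at h1
  have h1 := Submodule.finrank_sup_add_finrank_inf_eq (Submodule.span F {v})
    (Submodule.span F {w})
  rw [hinf, finrank_bot, finrank_span_singleton hv, finrank_span_singleton hw0, add_zero] at h1
  rw [Submodule.span_insert]; exact h1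

omit [Fintype F] in
theorem span_pair_eq {n : ℕ} (W : Submodule F (Fin n → F)) (hW : Module.finrank F W = 2)
    (v w : Fin n → F) (hv : v ≠ 0) (hvW : v ∈ W) (hwW : w ∈ W)
    (hw : w ∉ Submodule.span F {v}) :
    Submodule.span F ({v, w} : Set (Fin n → F)) = W := by
  apply Submodule.eq_of_le_of_finrank_eq
  · rw [Submodule.span_le]
    intro x hx
    rcases hx with rfl | hx
    · exact hvW
    · rw [Set.mem_singleton_iff] at hx; rw [hx]; exact hwW
  · rw [fr_pair v w hv hw, hW]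

omit [Fintype F] in
theorem ti_pair {n q : ℕ} (τ : F ≃+* F) (hτ : ∀ x, τ x = x ^ q) (hτ2 : ∀ x, τ (τ x) = x)
    (v w : Fin n → F) (hvv : Cfsg.hermForm n F q v v = 0) (hww : Cfsg.hermForm n F q w w = 0)
    (hwv : Cfsg.hermForm n F q w v = 0) :
    ∀ x ∈ Submodule.span F ({v, w} : Set (Fin n → F)),
      ∀ y ∈ Submodule.span F ({v, w} : Set (Fin n → F)),
        Cfsg.hermForm n F q x y = 0 := by
  intro x hx y hy
  obtain ⟨a, b, rfl⟩ := Submodule.mem_span_pair.1 hx
  obtain ⟨c, d, rfl⟩ := Submodule.mem_span_pair.1 hy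
  have hvw : Cfsg.hermForm n F q v w = 0 := by
    rw [← Cfsg.Agent.S0837.hf_conj n q τ hτ hτ2 w v, hwv, map_zero]
  simp only [Cfsg.Agent.S0837.hf_add_left, Cfsg.Agent.S0837.hf_add_right n q τ hτ,
    Cfsg.Agent.S0837.hf_smul_left, Cfsg.Agent.S0837.hf_smul_right n q τ hτ,
    hvv, hww, hvw, hwv, mul_zero, add_zero]

theorem fib_le {q : ℕ} (hq : 2 ≤ q) (c e : F) :
    Nat.card {t : F // t ^ q + c * t = e} ≤ q := by
  classical
  have hdeg2 : (Polynomial.C c * Polynomial.X - Polynomial.C e : Polynomial F).natDegree <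
      (Polynomial.X ^ q : Polynomial F).natDegree := by
    rw [Polynomial.natDegree_X_pow]
    have h1 : (Polynomial.C c * Polynomial.X - Polynomial.C e : Polynomial F).natDegree ≤ 1 := by
      refine (Polynomial.natDegree_sub_le _ _).trans ?_
      rw [Polynomial.natDegree_C, max_eq_left (Nat.zero_le _)]
      exact (Polynomial.natDegree_C_mul_le _ _).trans Polynomial.natDegree_X_le
    omega
  have hdeg : (Polynomial.X ^ q + (Polynomial.C c * Polynomial.X - Polynomial.C e) :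
      Polynomial F).natDegree = q := by
    rw [Polynomial.natDegree_add_eq_left_of_natDegree_lt hdeg2, Polynomial.natDegree_X_pow]
  have hp0 : (Polynomial.X ^ q + (Polynomial.C c * Polynomial.X - Polynomial.C e) :
      Polynomial F) ≠ 0 := by
    intro h
    rw [h, Polynomial.natDegree_zero] at hdeg
    omega
  rw [Nat.card_eq_fintype_card, Fintype.card_subtype]
  have hsub : (Finset.univ.filter (fun t : F => t ^ q + c * t = e)).val ⊆
      (Polynomial.X ^ q + (Polynomial.C c * Polynomial.X - Polynomial.C e) :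
      Polynomial F).roots := by
    intro t ht
    rw [Finset.mem_val, Finset.mem_filter] at ht
    rw [Polynomial.mem_roots hp0, Polynomial.IsRoot.def]
    simp only [Polynomial.eval_add, Polynomial.eval_sub, Polynomial.eval_mul,
      Polynomial.eval_pow, Polynomial.eval_X, Polynomial.eval_C]
    rw [← add_sub_assoc, ht.2, sub_self]
  have h2 := Polynomial.card_le_degree_of_subset_roots hsub
  rw [hdeg] at h2
  exact h2

theorem tr_fib {q : ℕ} (hF : Fintype.card F = q ^ 2) (τ : F ≃+* F) (hτ : ∀ x, τ x = x ^ q)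
    (hτ2 : ∀ x, τ (τ x) = x) (e : F) (he : τ e = e) :
    Nat.card {t : F // t ^ q + t = e} = q := by
  classical
  have hq := Cfsg.Agent.Helper7.herm_two_le hF
  have hle : ∀ e : F, Nat.card {t : F // t ^ q + t = e} ≤ q := by
    intro e
    have h1 := fib_le hq (1 : F) e
    have h2 : Nat.card {t : F // t ^ q + t = e} = Nat.card {t : F // t ^ q + 1 * t = e} :=
      Nat.card_congr (Equiv.subtypeEquivRight (fun t => by rw [one_mul]))
    rw [h2]; exact h1
  have hfixle : (Finset.univ.filter (fun e : F => τ e = e)).card ≤ q := by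
    have h1 := fib_le hq (-1 : F) 0
    rw [Nat.card_eq_fintype_card, Fintype.card_subtype] at h1
    have h2 : Finset.univ.filter (fun e : F => τ e = e) =
        Finset.univ.filter (fun t : F => t ^ q + (-1) * t = 0) := by
      apply Finset.filter_congr
      intro t _
      rw [hτ, neg_one_mul, ← sub_eq_add_neg, sub_eq_zero]
    rw [h2]; exact h1
  have htot : q ^ 2 = ∑ e : F, Nat.card {t : F // t ^ q + t = e} := by
    rw [← hF, ← Nat.card_eq_fintype_card,
      ← Nat.card_congr (Equiv.sigmaFiberEquiv (fun t : F => t ^ q + t)), Nat.card_sigma]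
  have hzero : ∀ e : F, ¬ τ e = e → Nat.card {t : F // t ^ q + t = e} = 0 := by
    intro e he
    haveI : IsEmpty {t : F // t ^ q + t = e} := by
      refine ⟨fun t => he ?_⟩
      rw [← t.2, map_add, ← hτ, hτ2, add_comm]
    exact Nat.card_of_isEmpty
  rw [← Finset.sum_filter_add_sum_filter_not Finset.univ (fun e : F => τ e = e)] at htot
  rw [Finset.sum_eq_zero (s := Finset.univ.filter (fun e : F => ¬ τ e = e))
    (fun e he => hzero e (Finset.mem_filter.mp he).2), add_zero] at htot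
  by_contra hne
  have hlt : Nat.card {t : F // t ^ q + t = e} < q := lt_of_le_of_ne (hle e) hne
  have h3 : ∑ x ∈ Finset.univ.filter (fun e : F => τ e = e),
      Nat.card {t : F // t ^ q + t = x} <
      ∑ _x ∈ Finset.univ.filter (fun e : F => τ e = e), q :=
    Finset.sum_lt_sum (fun x _ => hle x)
      ⟨e, Finset.mem_filter.mpr ⟨Finset.mem_univ _, he⟩, hlt⟩
  rw [← htot, Finset.sum_const, smul_eq_mul] at h3
  have h4 : (Finset.univ.filter (fun e : F => τ e = e)).card * q ≤ q * q :=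
    Nat.mul_le_mul_right q hfixle
  nlinarith

omit [Fintype F] in
theorem hf_trans {n q : ℕ} (τ : F ≃+* F) (hτ : ∀ x, τ x = x ^ q) (hτ2 : ∀ x, τ (τ x) = x)
    (v : Fin n → F) (hvv : Cfsg.hermForm n F q v v = 0) (w : Fin n → F) (t : F) :
    Cfsg.hermForm n F q (w + t • v) v = Cfsg.hermForm n F q w v ∧
    Cfsg.hermForm n F q (w + t • v) (w + t • v) =
      Cfsg.hermForm n F q w w +
        (τ t * Cfsg.hermForm n F q w v + t * τ (Cfsg.hermForm n F q w v)) := by
  constructor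
  · rw [Cfsg.Agent.S0837.hf_add_left, Cfsg.Agent.S0837.hf_smul_left, hvv, mul_zero, add_zero]
  · rw [Cfsg.Agent.S0837.hf_conj n q τ hτ hτ2 w v, Cfsg.Agent.S0837.hf_add_left,
      Cfsg.Agent.S0837.hf_add_right n q τ hτ w,
      Cfsg.Agent.S0837.hf_add_right n q τ hτ (t • v),
      Cfsg.Agent.S0837.hf_smul_right n q τ hτ t w v,
      Cfsg.Agent.S0837.hf_smul_right n q τ hτ t (t • v) v,
      Cfsg.Agent.S0837.hf_smul_left, Cfsg.Agent.S0837.hf_smul_left, hvv]
    ring

theorem main_count {n q : ℕ} (hF : Fintype.card F = q ^ 2) (v : Fin n → F) (hv : v ≠ 0)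
    (hvv : Cfsg.hermForm n F q v v = 0) :
    q ^ 3 * Nat.card {w : Fin n → F // Cfsg.hermForm n F q w w = 0} =
      q ^ 3 * Nat.card {w : Fin n → F // Cfsg.hermForm n F q w v = 0 ∧
        Cfsg.hermForm n F q w w = 0} + (q ^ 2 - 1) * q ^ (2 * n) := by
  classical
  have hq := Cfsg.Agent.Helper7.herm_two_le hF
  have hq0 : q ≠ 0 := by omega
  obtain ⟨τ, hτ, hτ2, -⟩ := Cfsg.Agent.Helper9.exists_frob9 hF
  obtain ⟨x, hx⟩ := Cfsg.Agent.S0837.hf_nondeg hq0 n v hv
  have hxv : Cfsg.hermForm n F q x v ≠ 0 := by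
    rw [← Cfsg.Agent.S0837.hf_conj n q τ hτ hτ2 v x]
    exact (map_ne_zero τ).2 hx
  obtain ⟨w₀, hw₀⟩ : ∃ w₀ : Fin n → F, Cfsg.hermForm n F q w₀ v = 1 :=
    ⟨(Cfsg.hermForm n F q x v)⁻¹ • x, by
      rw [Cfsg.Agent.S0837.hf_smul_left, inv_mul_cancel₀ hxv]⟩
  have h1 : Nat.card {w : Fin n → F // Cfsg.hermForm n F q w w = 0} =
      Nat.card {w : Fin n → F // Cfsg.hermForm n F q w v = 0 ∧ Cfsg.hermForm n F q w w = 0} +
      (q ^ 2 - 1) * Nat.card {w : Fin n → F // Cfsg.hermForm n F q w v = 1 ∧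
        Cfsg.hermForm n F q w w = 0} := by
    let e : {w : Fin n → F // Cfsg.hermForm n F q w w = 0} ≃
        (Σ c : F, {w : Fin n → F // Cfsg.hermForm n F q w v = c ∧
          Cfsg.hermForm n F q w w = 0}) :=
      { toFun := fun w => ⟨Cfsg.hermForm n F q w.1 v, ⟨w.1, rfl, w.2⟩⟩
        invFun := fun p => ⟨p.2.1, p.2.2.2⟩
        left_inv := fun _ => rfl
        right_inv := by
          rintro ⟨c, w, rfl, hw⟩
          rfl }
    rw [Nat.card_congr e, Nat.card_sigma]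
    have hterm : ∀ c : F, Nat.card {w : Fin n → F // Cfsg.hermForm n F q w v = c ∧
          Cfsg.hermForm n F q w w = 0} =
        if c = 0 then Nat.card {w : Fin n → F // Cfsg.hermForm n F q w v = 0 ∧
          Cfsg.hermForm n F q w w = 0}
        else Nat.card {w : Fin n → F // Cfsg.hermForm n F q w v = 1 ∧
          Cfsg.hermForm n F q w w = 0} := by
      intro c
      split_ifs with hc
      · rw [hc]
      · symm
        refine Nat.card_congr ⟨fun w => ⟨c • w.1, ?_, ?_⟩, fun w => ⟨c⁻¹ • w.1, ?_, ?_⟩,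
          fun w => ?_, fun w => ?_⟩
        · rw [Cfsg.Agent.S0837.hf_smul_left, w.2.1, mul_one]
        · rw [Cfsg.Agent.S0837.hf_smul_left, Cfsg.Agent.S0837.hf_smul_right n q τ hτ, w.2.2,
            mul_zero, mul_zero]
        · rw [Cfsg.Agent.S0837.hf_smul_left, w.2.1, inv_mul_cancel₀ hc]
        · rw [Cfsg.Agent.S0837.hf_smul_left, Cfsg.Agent.S0837.hf_smul_right n q τ hτ, w.2.2,
            mul_zero, mul_zero]
        · apply Subtype.ext
          show c⁻¹ • (c • w.1) = w.1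
          rw [smul_smul, inv_mul_cancel₀ hc, one_smul]
        · apply Subtype.ext
          show c • (c⁻¹ • w.1) = w.1
          rw [smul_smul, mul_inv_cancel₀ hc, one_smul]
    rw [Finset.sum_congr rfl (fun c _ => hterm c)]
    rw [← Finset.add_sum_erase Finset.univ _ (Finset.mem_univ (0 : F)), if_pos rfl]
    congr 1
    rw [Finset.sum_congr rfl (fun x hx => if_neg (Finset.ne_of_mem_erase hx)), Finset.sum_const,
      Finset.card_erase_of_mem (Finset.mem_univ _), Finset.card_univ, smul_eq_mul, hF]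
  have h2 : q ^ (2 * n) = q ^ 2 * Nat.card {w : Fin n → F // Cfsg.hermForm n F q w v = 1} := by
    have hV : Nat.card (Fin n → F) = q ^ (2 * n) := by
      rw [Nat.card_fun, Nat.card_fin, Nat.card_eq_fintype_card, hF, pow_mul]
    rw [← hV, ← Nat.card_congr (Equiv.sigmaFiberEquiv
      (fun w : Fin n → F => Cfsg.hermForm n F q w v)), Nat.card_sigma]
    have hterm : ∀ c : F, Nat.card {w : Fin n → F // Cfsg.hermForm n F q w v = c} =
        Nat.card {w : Fin n → F // Cfsg.hermForm n F q w v = 1} := by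
      intro c
      refine Nat.card_congr ⟨fun w => ⟨w.1 + (1 - c) • w₀, ?_⟩,
        fun w => ⟨w.1 + (c - 1) • w₀, ?_⟩, fun w => ?_, fun w => ?_⟩
      · rw [Cfsg.Agent.S0837.hf_add_left, Cfsg.Agent.S0837.hf_smul_left, w.2, hw₀]; ring
      · rw [Cfsg.Agent.S0837.hf_add_left, Cfsg.Agent.S0837.hf_smul_left, w.2, hw₀]; ring
      · apply Subtype.ext
        show w.1 + (1 - c) • w₀ + (c - 1) • w₀ = w.1
        rw [add_assoc, ← add_smul, show (1 - c) + (c - 1) = (0 : F) by ring, zero_smul,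
          add_zero]
      · apply Subtype.ext
        show w.1 + (c - 1) • w₀ + (1 - c) • w₀ = w.1
        rw [add_assoc, ← add_smul, show (c - 1) + (1 - c) = (0 : F) by ring, zero_smul,
          add_zero]
    rw [Finset.sum_congr rfl (fun c _ => hterm c), Finset.sum_const, Finset.card_univ,
      smul_eq_mul, hF]
  have h3 : Nat.card {w : Fin n → F // Cfsg.hermForm n F q w v = 1 ∧
      Cfsg.hermForm n F q w w = 0} * q ^ 2 =
      Nat.card {w : Fin n → F // Cfsg.hermForm n F q w v = 1} * q := by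
    let e : ({w : Fin n → F // Cfsg.hermForm n F q w v = 1 ∧
        Cfsg.hermForm n F q w w = 0} × F) ≃
        {x : {w : Fin n → F // Cfsg.hermForm n F q w v = 1} × F //
          x.2 ^ q + x.2 = Cfsg.hermForm n F q x.1.1 x.1.1} :=
      { toFun := fun p => ⟨(⟨p.1.1 + p.2 • v, by
            rw [(hf_trans τ hτ hτ2 v hvv p.1.1 p.2).1, p.1.2.1]⟩, p.2), by
            show p.2 ^ q + p.2 = Cfsg.hermForm n F q (p.1.1 + p.2 • v) (p.1.1 + p.2 • v)
            rw [(hf_trans τ hτ hτ2 v hvv p.1.1 p.2).2, p.1.2.2, p.1.2.1, map_one, mul_one,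
              mul_one, zero_add, hτ]⟩
        invFun := fun s => (⟨s.1.1.1 + (-s.1.2) • v, by
            rw [(hf_trans τ hτ hτ2 v hvv s.1.1.1 (-s.1.2)).1, s.1.1.2], by
            rw [(hf_trans τ hτ hτ2 v hvv s.1.1.1 (-s.1.2)).2, s.1.1.2, map_one, mul_one,
              mul_one, ← s.2, map_neg, hτ]
            ring⟩, s.1.2)
        left_inv := by
          rintro ⟨⟨w, hw1, hw2⟩, t⟩
          apply Prod.ext
          · apply Subtype.ext
            show w + t • v + (-t) • v = w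
            rw [add_assoc, ← add_smul, add_neg_cancel, zero_smul, add_zero]
          · rfl
        right_inv := by
          rintro ⟨⟨⟨w, hw1⟩, t⟩, ht⟩
          apply Subtype.ext
          apply Prod.ext
          · apply Subtype.ext
            show w + (-t) • v + t • v = w
            rw [add_assoc, ← add_smul, neg_add_cancel, zero_smul, add_zero]
          · rfl }
    have hc1 := Nat.card_congr e
    rw [Nat.card_prod, Nat.card_eq_fintype_card (α := F), hF] at hc1
    have hc2 : Nat.card {x : {w : Fin n → F // Cfsg.hermForm n F q w v = 1} × F //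
          x.2 ^ q + x.2 = Cfsg.hermForm n F q x.1.1 x.1.1} =
        Nat.card (Σ w : {w : Fin n → F // Cfsg.hermForm n F q w v = 1},
          {t : F // t ^ q + t = Cfsg.hermForm n F q w.1 w.1}) :=
      Nat.card_congr (Equiv.subtypeProdEquivSigmaSubtype
        (fun (w : {w : Fin n → F // Cfsg.hermForm n F q w v = 1}) (t : F) =>
          t ^ q + t = Cfsg.hermForm n F q w.1 w.1))
    rw [hc1, hc2, Nat.card_sigma]
    rw [Finset.sum_congr rfl (fun w _ => tr_fib hF τ hτ hτ2 (Cfsg.hermForm n F q w.1 w.1)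
      (Cfsg.Agent.S0837.hf_conj n q τ hτ hτ2 w.1 w.1)), Finset.sum_const, Finset.card_univ,
      smul_eq_mul, Nat.card_eq_fintype_card]
  obtain ⟨B, hB⟩ : ∃ B : ℕ, B = Nat.card {w : Fin n → F // Cfsg.hermForm n F q w v = 1 ∧
      Cfsg.hermForm n F q w w = 0} := ⟨_, rfl⟩
  obtain ⟨S, hS⟩ : ∃ S : ℕ, S = Nat.card {w : Fin n → F // Cfsg.hermForm n F q w v = 1} :=
    ⟨_, rfl⟩
  rw [← hB] at h1 h3
  rw [← hS] at h2 h3
  have h4 : q ^ 3 * B = q ^ (2 * n) := by
    rw [h2]
    calc q ^ 3 * B = q * (B * q ^ 2) := by ring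
      _ = q * (S * q) := by rw [h3]
      _ = q ^ 2 * S := by ring
  rw [h1, mul_add, mul_left_comm (q ^ 3) (q ^ 2 - 1) B, h4]

theorem lines_through {n q : ℕ} (hF : Fintype.card F = q ^ 2) (v : Fin n → F) (hv : v ≠ 0)
    (hvv : Cfsg.hermForm n F q v v = 0) :
    Nat.card {W : Submodule F (Fin n → F) // Module.finrank F W = 2 ∧ v ∈ W ∧
      ∀ u ∈ W, ∀ w ∈ W, Cfsg.hermForm n F q u w = 0} * ((q ^ 2) ^ 2 - (q ^ 2) ^ 1) +
        (q ^ 2) ^ 1 =
    Nat.card {w : Fin n → F // Cfsg.hermForm n F q w v = 0 ∧ Cfsg.hermForm n F q w w = 0} := by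
  classical
  obtain ⟨τ, hτ, hτ2, -⟩ := Cfsg.Agent.Helper9.exists_frob9 hF
  haveI : Finite (Submodule F (Fin n → F)) :=
    Finite.of_injective (fun W => (W : Set (Fin n → F))) SetLike.coe_injective
  haveI : Fintype {W : Submodule F (Fin n → F) // Module.finrank F W = 2 ∧ v ∈ W ∧
      ∀ u ∈ W, ∀ w ∈ W, Cfsg.hermForm n F q u w = 0} := Fintype.ofFinite _
  have hspan1 : Module.finrank F (Submodule.span F {v}) = 1 := finrank_span_singleton hv
  have hsub : ((Submodule.span F {v} : Submodule F (Fin n → F)) : Set (Fin n → F)) ⊆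
      {w : Fin n → F | Cfsg.hermForm n F q w v = 0 ∧ Cfsg.hermForm n F q w w = 0} := by
    intro w hw
    obtain ⟨a, rfl⟩ := Submodule.mem_span_singleton.1 hw
    constructor
    · rw [Cfsg.Agent.S0837.hf_smul_left, hvv, mul_zero]
    · rw [Cfsg.Agent.S0837.hf_smul_left, Cfsg.Agent.S0837.hf_smul_right n q τ hτ, hvv,
        mul_zero, mul_zero]
  have hS : Nat.card {w : Fin n → F // (Cfsg.hermForm n F q w v = 0 ∧
      Cfsg.hermForm n F q w w = 0) ∧ w ∉ Submodule.span F {v}} + (q ^ 2) ^ 1 =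
      Nat.card {w : Fin n → F // Cfsg.hermForm n F q w v = 0 ∧
        Cfsg.hermForm n F q w w = 0} := by
    show Nat.card ↥({w : Fin n → F | Cfsg.hermForm n F q w v = 0 ∧
      Cfsg.hermForm n F q w w = 0} \
      ((Submodule.span F {v} : Submodule F (Fin n → F)) : Set (Fin n → F))) + _ =
      Nat.card ↥{w : Fin n → F | Cfsg.hermForm n F q w v = 0 ∧ Cfsg.hermForm n F q w w = 0}
    rw [Nat.card_coe_set_eq, Nat.card_coe_set_eq,
      ← ncard_sub hF (Submodule.span F {v}) 1 hspan1]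
    exact Set.ncard_sdiff_add_ncard_of_subset hsub (Set.toFinite _)
  let g : (Σ W : {W : Submodule F (Fin n → F) // Module.finrank F W = 2 ∧ v ∈ W ∧
      ∀ u ∈ W, ∀ w ∈ W, Cfsg.hermForm n F q u w = 0},
        {w : Fin n → F // w ∈ W.1 ∧ w ∉ Submodule.span F {v}}) →
      {w : Fin n → F // (Cfsg.hermForm n F q w v = 0 ∧ Cfsg.hermForm n F q w w = 0) ∧
        w ∉ Submodule.span F {v}} :=
    fun x => ⟨x.2.1, ⟨x.1.2.2.2 x.2.1 x.2.2.1 v x.1.2.2.1,
      x.1.2.2.2 x.2.1 x.2.2.1 x.2.1 x.2.2.1⟩, x.2.2.2⟩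
  have hg : Function.Bijective g := by
    constructor
    · rintro ⟨⟨W, hW2, hvW, hWti⟩, ⟨w, hwW, hw⟩⟩ ⟨⟨W', hW2', hvW', hWti'⟩, ⟨w', hwW', hw'⟩⟩ h
      have hww : w = w' := congrArg Subtype.val h
      subst hww
      have e1 := span_pair_eq W hW2 v w hv hvW hwW hw
      have e2 := span_pair_eq W' hW2' v w hv hvW' hwW' hw
      have hWW : W = W' := e1.symm.trans e2
      subst hWW
      rfl
    · rintro ⟨w, ⟨hwv, hww⟩, hw⟩
      refine ⟨⟨⟨Submodule.span F ({v, w} : Set (Fin n → F)), fr_pair v w hv hw,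
        Submodule.subset_span (Set.mem_insert _ _), ti_pair τ hτ hτ2 v w hvv hww hwv⟩,
        ⟨w, Submodule.subset_span (Set.mem_insert_of_mem _ rfl), hw⟩⟩, rfl⟩
  have hcard := Nat.card_congr (Equiv.ofBijective g hg)
  rw [Nat.card_sigma] at hcard
  have hfib : ∀ W : {W : Submodule F (Fin n → F) // Module.finrank F W = 2 ∧ v ∈ W ∧
      ∀ u ∈ W, ∀ w ∈ W, Cfsg.hermForm n F q u w = 0},
      Nat.card {w : Fin n → F // w ∈ W.1 ∧ w ∉ Submodule.span F {v}} =
        (q ^ 2) ^ 2 - (q ^ 2) ^ 1 := by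
    intro W
    apply card_diff hF _ _ _ 2 1 W.2.1 hspan1
    rw [Submodule.span_le, Set.singleton_subset_iff]
    exact W.2.2.1
  simp only [hfib, Finset.sum_const, Finset.card_univ, smul_eq_mul] at hcard
  rw [← Nat.card_eq_fintype_card] at hcard
  rw [hcard]
  exact hS

theorem lines_total {n q : ℕ} (hF : Fintype.card F = q ^ 2) (Lc : ℕ)
    (hL : ∀ v : Fin n → F, v ≠ 0 → Cfsg.hermForm n F q v v = 0 →
      Nat.card {W : Submodule F (Fin n → F) // Module.finrank F W = 2 ∧ v ∈ W ∧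
        ∀ u ∈ W, ∀ w ∈ W, Cfsg.hermForm n F q u w = 0} = Lc) :
    Nat.card {v : Fin n → F // Cfsg.hermForm n F q v v = 0 ∧ v ≠ 0} * Lc =
    Nat.card {W : Submodule F (Fin n → F) // Module.finrank F W = 2 ∧
      ∀ u ∈ W, ∀ v ∈ W, Cfsg.hermForm n F q u v = 0} * ((q ^ 2) ^ 2 - (q ^ 2) ^ 0) := by
  classical
  haveI : Finite (Submodule F (Fin n → F)) :=
    Finite.of_injective (fun W => (W : Set (Fin n → F))) SetLike.coe_injective
  haveI : Fintype {W : Submodule F (Fin n → F) // Module.finrank F W = 2 ∧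
      ∀ u ∈ W, ∀ v ∈ W, Cfsg.hermForm n F q u v = 0} := Fintype.ofFinite _
  let Φ : (Σ v : {v : Fin n → F // Cfsg.hermForm n F q v v = 0 ∧ v ≠ 0},
      {W : Submodule F (Fin n → F) // Module.finrank F W = 2 ∧ v.1 ∈ W ∧
        ∀ u ∈ W, ∀ w ∈ W, Cfsg.hermForm n F q u w = 0}) ≃
      (Σ W : {W : Submodule F (Fin n → F) // Module.finrank F W = 2 ∧
        ∀ u ∈ W, ∀ v ∈ W, Cfsg.hermForm n F q u v = 0},
        {v : Fin n → F // v ∈ W.1 ∧ v ∉ (⊥ : Submodule F (Fin n → F))}) :=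
    { toFun := fun x => ⟨⟨x.2.1, x.2.2.1, x.2.2.2.2⟩,
        ⟨x.1.1, x.2.2.2.1, fun h => x.1.2.2 ((Submodule.mem_bot F).1 h)⟩⟩
      invFun := fun y => ⟨⟨y.2.1, y.1.2.2 y.2.1 y.2.2.1 y.2.1 y.2.2.1,
          fun h => y.2.2.2 ((Submodule.mem_bot F).2 h)⟩,
        ⟨y.1.1, y.1.2.1, y.2.2.1, y.1.2.2⟩⟩
      left_inv := fun _ => rfl
      right_inv := fun _ => rfl }
  have hcard := Nat.card_congr Φ
  rw [Nat.card_sigma, Nat.card_sigma] at hcard
  have hfib1 : ∀ v : {v : Fin n → F // Cfsg.hermForm n F q v v = 0 ∧ v ≠ 0},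
      Nat.card {W : Submodule F (Fin n → F) // Module.finrank F W = 2 ∧ v.1 ∈ W ∧
        ∀ u ∈ W, ∀ w ∈ W, Cfsg.hermForm n F q u w = 0} = Lc :=
    fun v => hL v.1 v.2.2 v.2.1
  have hfib2 : ∀ W : {W : Submodule F (Fin n → F) // Module.finrank F W = 2 ∧
      ∀ u ∈ W, ∀ v ∈ W, Cfsg.hermForm n F q u v = 0},
      Nat.card {v : Fin n → F // v ∈ W.1 ∧
        v ∉ (⊥ : Submodule F (Fin n → F))} = (q ^ 2) ^ 2 - (q ^ 2) ^ 0 := by
    intro W
    exact card_diff hF _ _ bot_le 2 0 W.2.1 (finrank_bot F _)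
  simp only [hfib1, hfib2, Finset.sum_const, Finset.card_univ, smul_eq_mul] at hcard
  rw [← Nat.card_eq_fintype_card, ← Nat.card_eq_fintype_card] at hcard
  exact hcard

theorem iso_card {n q : ℕ} :
    Nat.card {v : Fin n → F // Cfsg.hermForm n F q v v = 0 ∧ v ≠ 0} + 1 =
    Nat.card {v : Fin n → F // Cfsg.hermForm n F q v v = 0} := by
  classical
  show Nat.card ↥({v : Fin n → F | Cfsg.hermForm n F q v v = 0} \
      ({0} : Set (Fin n → F))) + 1 =
    Nat.card ↥{v : Fin n → F | Cfsg.hermForm n F q v v = 0}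
  have hsub : ({0} : Set (Fin n → F)) ⊆ {v : Fin n → F | Cfsg.hermForm n F q v v = 0} := by
    intro w hw
    rw [Set.mem_singleton_iff] at hw
    rw [hw]
    exact Cfsg.Agent.S0837.hf_zero_left n q 0
  have h := Set.ncard_sdiff_add_ncard_of_subset hsub (Set.toFinite _)
  rw [Set.ncard_singleton] at h
  rw [Nat.card_coe_set_eq, Nat.card_coe_set_eq]
  exact h

/-- The unitary quadrangle of PSU_4(q): with |F| = q², the number of 2-dimensional subspaces of F^4 on which the Hermitian form Σ x_i y_i^q vanishes is (q + 1)(q³ + 1). -/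
theorem result {F : Type*} [Field F] [Fintype F] {q : ℕ} (hF : Fintype.card F = q ^ 2) : Nat.card {W : Submodule F (Fin 4 → F) // Module.finrank F W = 2 ∧ ∀ u ∈ W, ∀ v ∈ W, Cfsg.hermForm 4 F q u v = 0} = (q + 1) * (q ^ 3 + 1) := by
  classical
  have hq := Cfsg.Agent.Helper7.herm_two_le hF
  have hqz : (2 : ℤ) ≤ (q : ℤ) := by exact_mod_cast hq
  have hq0 : (q : ℤ) ≠ 0 := by omega
  have h4 : (4 : ℤ) ≤ (q : ℤ) ^ 2 := by
    have := pow_le_pow_left₀ (by norm_num : (0 : ℤ) ≤ 2) hqz 2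
    norm_num at this
    exact this
  have h16 : (16 : ℤ) ≤ (q : ℤ) ^ 4 := by
    have := pow_le_pow_left₀ (by norm_num : (0 : ℤ) ≤ 2) hqz 4
    norm_num at this
    exact this
  have hle1 : 1 ≤ q ^ 2 := Nat.one_le_pow _ _ (by omega)
  have hle2 : (q ^ 2) ^ 1 ≤ (q ^ 2) ^ 2 := Nat.pow_le_pow_right (by omega) (by omega)
  have hle3 : (q ^ 2) ^ 0 ≤ (q ^ 2) ^ 2 := Nat.pow_le_pow_right (by omega) (by omega)
  obtain ⟨I, hIdef⟩ : ∃ I : ℕ, I = Nat.card {v : Fin 4 → F // Cfsg.hermForm 4 F q v v = 0} :=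
    ⟨_, rfl⟩
  have hI0 := (Cfsg.Agent.Helper7.herm_int (F := F) hF 4).1
  rw [← hIdef] at hI0
  have hI : (I : ℤ) = (q : ℤ) ^ 7 + (q : ℤ) ^ 4 - (q : ℤ) ^ 3 := by
    apply mul_right_cancel₀ hq0
    rw [hI0]; ring
  have hL : ∀ v : Fin 4 → F, v ≠ 0 → Cfsg.hermForm 4 F q v v = 0 →
      Nat.card {W : Submodule F (Fin 4 → F) // Module.finrank F W = 2 ∧ v ∈ W ∧
        ∀ u ∈ W, ∀ w ∈ W, Cfsg.hermForm 4 F q u w = 0} = q + 1 := by
    intro v hv hvv
    have h1 := main_count hF v hv hvv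
    have h2 := lines_through hF v hv hvv
    rw [← hIdef] at h1
    obtain ⟨A, hA⟩ : ∃ A : ℕ, A = Nat.card {w : Fin 4 → F // Cfsg.hermForm 4 F q w v = 0 ∧
      Cfsg.hermForm 4 F q w w = 0} := ⟨_, rfl⟩
    rw [← hA] at h1 h2
    obtain ⟨L, hLdef⟩ : ∃ L : ℕ, L = Nat.card {W : Submodule F (Fin 4 → F) //
      Module.finrank F W = 2 ∧ v ∈ W ∧
        ∀ u ∈ W, ∀ w ∈ W, Cfsg.hermForm 4 F q u w = 0} := ⟨_, rfl⟩
    rw [← hLdef] at h2 ⊢
    have h1z := h1
    zify [hle1] at h1z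
    have h2z := h2
    zify [hle2] at h2z
    have hAz : (A : ℤ) = (q : ℤ) ^ 5 + (q : ℤ) ^ 4 - (q : ℤ) ^ 3 := by
      have hq3 : (q : ℤ) ^ 3 ≠ 0 := pow_ne_zero _ hq0
      apply mul_left_cancel₀ hq3
      linear_combination (q : ℤ) ^ 3 * hI - h1z
    have hLz : (L : ℤ) = (q : ℤ) + 1 := by
      have hne : ((q : ℤ) ^ 4 - (q : ℤ) ^ 2) ≠ 0 := by
        have e : (q : ℤ) ^ 4 - (q : ℤ) ^ 2 = (q : ℤ) ^ 2 * ((q : ℤ) ^ 2 - 1) := by ring
        rw [e]
        exact mul_ne_zero (pow_ne_zero _ hq0) (ne_of_gt (by linarith))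
      apply mul_right_cancel₀ hne
      linear_combination h2z + hAz
    exact_mod_cast hLz
  have hT := lines_total hF (q + 1) hL
  have hc := iso_card (F := F) (n := 4) (q := q)
  rw [← hIdef] at hc
  obtain ⟨M, hM⟩ : ∃ M : ℕ, M = Nat.card {v : Fin 4 → F // Cfsg.hermForm 4 F q v v = 0 ∧
    v ≠ 0} := ⟨_, rfl⟩
  rw [← hM] at hT hc
  obtain ⟨N, hN⟩ : ∃ N : ℕ, N = Nat.card {W : Submodule F (Fin 4 → F) //
    Module.finrank F W = 2 ∧ ∀ u ∈ W, ∀ v ∈ W, Cfsg.hermForm 4 F q u v = 0} := ⟨_, rfl⟩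
  rw [← hN] at hT ⊢
  have hTz := hT
  zify [hle3] at hTz
  have hcz : (M : ℤ) + 1 = (I : ℤ) := by exact_mod_cast hc
  have hne : ((q : ℤ) ^ 4 - 1) ≠ 0 := ne_of_gt (by linarith)
  have hNz : (N : ℤ) = ((q : ℤ) + 1) * ((q : ℤ) ^ 3 + 1) := by
    apply mul_right_cancel₀ hne
    linear_combination ((q : ℤ) + 1) * hcz + ((q : ℤ) + 1) * hI - hTz
  exact_mod_cast hNz

end Cfsg.Agent.S0829
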