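import Cfsg.Statements.S0782
import Mathlib
import Cfsg.Agent.S0751
import Cfsg.Agent.Helper7.UnitCard
import Cfsg.Agent.S0783
import Cfsg.Agent.S0279
import Cfsg.Agent.S0285
import Cfsg.Agent.S0829
import Cfsg.Agent.Helper9.UPair3
import Cfsg.Agent.S0278
import Cfsg.Agent.S0775
import Cfsg.Agent.Helper7.OrthChain
import Cfsg.Agent.S0772

set_option autoImplicit false
open Cfsg

namespace Cfsg.Agent.S0782

open Matrix Cfsg.Agent.Helper7.UnitCard

section partA

variable {F : Type*} [Field F] {q : ℕ} (n : ℕ) (σ : F →+* F) (hσ : ∀ x, σ x = x ^ q)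

/-- The Hermitian form as a sesquilinear map (semilinear in the first variable). -/
noncomputable def BH : (Fin n → F) →ₛₗ[σ] (Fin n → F) →ₗ[F] F :=
  LinearMap.mk₂'ₛₗ σ (RingHom.id F) (fun u v => Cfsg.hermForm n F q v u)
    (fun u u' v => h_add_right n σ hσ v u u')
    (fun c u v => by rw [h_smul_right n σ hσ]; rfl)
    (fun u v v' => h_add_left n σ hσ v v' u)
    (fun c u v => by rw [h_smul_left n σ hσ]; rfl)

lemma BH_apply (u v : Fin n → F) : BH n σ hσ u v = Cfsg.hermForm n F q v u := rfl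

lemma BH_symm (hσσ : ∀ x, σ (σ x) = x) : (BH n σ hσ).IsSymm :=
  ⟨fun x y => by rw [BH_apply, BH_apply]; exact h_conj n σ hσ hσσ y x⟩

lemma BH_nondeg : (BH n σ hσ).Nondegenerate := by
  constructor
  · intro x hx
    funext i
    have := hx (Pi.single i 1)
    rw [BH_apply, h_single_left n σ hσ] at this
    exact (map_eq_zero σ).mp this
  · intro y hy
    funext i
    have := hy (Pi.single i 1)
    rw [BH_apply, h_single_right n σ hσ] at this
    exact this

include hσ in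
lemma hz_right (u : Fin n → F) : Cfsg.hermForm n F q u 0 = 0 := by
  rw [h_eq n σ hσ]
  simp

include hσ in
lemma span_iso {k : ℕ} (t : Fin k → (Fin n → F))
    (h0 : ∀ i j, Cfsg.hermForm n F q (t i) (t j) = 0) :
    ∀ x ∈ Submodule.span F (Set.range t), ∀ x' ∈ Submodule.span F (Set.range t),
      Cfsg.hermForm n F q x x' = 0 := by
  intro x hx x' hx'
  refine Submodule.span_induction (p := fun x _ => Cfsg.hermForm n F q x x' = 0) ?_ ?_ ?_ ?_ hx
  · rintro _ ⟨i, rfl⟩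
    refine Submodule.span_induction
      (p := fun x' _ => Cfsg.hermForm n F q (t i) x' = 0) ?_ ?_ ?_ ?_ hx'
    · rintro _ ⟨j, rfl⟩; exact h0 i j
    · exact hz_right n σ hσ _
    · intro a b _ _ ha hb; rw [h_add_right n σ hσ, ha, hb, add_zero]
    · intro c a _ ha; rw [h_smul_right n σ hσ, ha, mul_zero]
  · exact h_zero_left n σ hσ x'
  · intro a b _ _ ha hb; rw [h_add_left n σ hσ, ha, hb, add_zero]
  · intro c a _ ha; rw [h_smul_left n σ hσ, ha, mul_zero]

include hσ in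
lemma exists_gu_move [Finite F] (hσσ : ∀ x, σ (σ x) = x) (hσne : σ ≠ RingHom.id F) {k : ℕ}
    (t t' : Fin k → (Fin n → F))
    (ht : LinearIndependent F t) (ht' : LinearIndependent F t')
    (h0 : ∀ i j, Cfsg.hermForm n F q (t i) (t j) = 0)
    (h0' : ∀ i j, Cfsg.hermForm n F q (t' i) (t' j) = 0) :
    ∃ A : Matrix.GeneralLinearGroup (Fin n) F, A ∈ Cfsg.GU n F q ∧
      ∀ i, (A : Matrix (Fin n) (Fin n) F) *ᵥ t i = t' i := by
  classical
  let X := Submodule.span F (Set.range t)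
  let Y := Submodule.span F (Set.range t')
  let bX : Module.Basis (Fin k) F X := Module.Basis.span ht
  let bY : Module.Basis (Fin k) F Y := Module.Basis.span ht'
  let φ : X ≃ₗ[F] Y := bX.equiv bY (Equiv.refl _)
  obtain ⟨g, hg, hgφ⟩ := Cfsg.Agent.S0751.result σ hσne hσσ (BH n σ hσ)
    (BH_symm n σ hσ hσσ) (BH_nondeg n σ hσ) X Y φ (by
    intro x x'
    rw [BH_apply, BH_apply, span_iso n σ hσ t h0 x'.1 x'.2 x.1 x.2,
      span_iso n σ hσ t' h0' _ (φ x').2 _ (φ x).2])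
  have hmv : ∀ v, LinearMap.toMatrix' g.toLinearMap *ᵥ v = g v := by
    intro v
    rw [← Matrix.toLin'_apply, Matrix.toLin'_toMatrix']; rfl
  have hdet : (LinearMap.toMatrix' g.toLinearMap).det ≠ 0 := by
    rw [LinearMap.det_toMatrix']
    exact (LinearEquiv.isUnit_det' g).ne_zero
  refine ⟨Matrix.GeneralLinearGroup.mkOfDetNeZero _ hdet, ?_, fun i => ?_⟩
  · rw [Cfsg.Agent.S0783.mem_GU_iff]
    intro u v
    show Cfsg.hermForm n F q (LinearMap.toMatrix' g.toLinearMap *ᵥ u)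
      (LinearMap.toMatrix' g.toLinearMap *ᵥ v) = _
    rw [hmv, hmv]
    exact hg v u
  · show LinearMap.toMatrix' g.toLinearMap *ᵥ t i = t' i
    rw [hmv]
    have h1 := hgφ (bX i)
    have h2 : ((bX i : X) : Fin n → F) = t i := by
      rw [Module.Basis.span_apply]
    have h3 : ((φ (bX i) : Y) : Fin n → F) = t' i := by
      rw [Module.Basis.equiv_apply, Equiv.refl_apply, Module.Basis.span_apply]
    rw [h2, h3] at h1
    exact h1

end partA

section partC

variable {F : Type*} [Field F] [Fintype F] {q : ℕ} (n : ℕ)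

/-- Dot-product bilinear form. -/
noncomputable def dotB : LinearMap.BilinForm F (Fin n → F) :=
  Matrix.toBilin' (1 : Matrix (Fin n) (Fin n) F)

omit [Fintype F] in
lemma dotB_apply (u v : Fin n → F) : dotB n u v = u ⬝ᵥ v := by
  unfold dotB; rw [Matrix.toBilin'_apply', Matrix.one_mulVec]

omit [Fintype F] in
lemma dotB_nondeg : (dotB (F := F) n).Nondegenerate := by
  constructor
  · intro x hx
    funext i
    have := hx (Pi.single i 1)
    rw [dotB_apply, dotProduct_single_one] at this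
    exact this
  · intro y hy
    funext i
    have := hy (Pi.single i 1)
    rw [dotB_apply, single_one_dotProduct] at this
    exact this

lemma card_perp {k : ℕ} (hF : Fintype.card F = q ^ 2) (σ : F →+* F) (hσ : ∀ x, σ x = x ^ q)
    (hσσ : ∀ x, σ (σ x) = x) (t : Fin k → (Fin n → F)) (ht : LinearIndependent F t) :
    Nat.card {v : Fin n → F // ∀ j, Cfsg.hermForm n F q v (t j) = 0} = (q ^ 2) ^ (n - k) := by
  classical
  obtain ⟨s, hs⟩ : ∃ s : Fin k → (Fin n → F), s = fun j a => σ (t j a) := ⟨_, rfl⟩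
  have hsLI : LinearIndependent F s := by
    rw [Fintype.linearIndependent_iff]
    intro g hg j
    have h1 : ∑ i, σ (g i) • t i = 0 := by
      funext a
      have h2 := congrFun hg a
      simp only [Finset.sum_apply, Pi.smul_apply, smul_eq_mul, Pi.zero_apply, hs] at h2 ⊢
      have h3 := congrArg σ h2
      rw [map_sum, map_zero] at h3
      rw [← h3]
      exact Finset.sum_congr rfl (fun i _ => by rw [map_mul, hσσ])
    have h4 := Fintype.linearIndependent_iff.mp ht (fun i => σ (g i)) h1 j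
    exact (map_eq_zero σ).mp h4
  obtain ⟨U, hU⟩ : ∃ U : Submodule F (Fin n → F), U = Submodule.span F (Set.range s) := ⟨_, rfl⟩
  have hfU : Module.finrank F U = k := by rw [hU, finrank_span_eq_card hsLI, Fintype.card_fin]
  have hfO : Module.finrank F ((dotB (F := F) n).orthogonal U) = n - k := by
    rw [LinearMap.BilinForm.finrank_orthogonal (dotB_nondeg n), hfU]; simp
  have hset : {v : Fin n → F | ∀ j, Cfsg.hermForm n F q v (t j) = 0} =
      ((dotB (F := F) n).orthogonal U : Set (Fin n → F)) := by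
    ext v
    simp only [Set.mem_ofPred_eq, SetLike.mem_coe, LinearMap.BilinForm.mem_orthogonal_iff]
    have key : ∀ j, Cfsg.hermForm n F q v (t j) = dotB n (s j) v := by
      intro j
      rw [dotB_apply, h_eq n σ hσ, dotProduct, hs]
      exact Finset.sum_congr rfl (fun a _ => mul_comm _ _)
    constructor
    · intro h u hu
      rw [hU] at hu
      refine Submodule.span_induction (p := fun u _ => dotB n u v = 0) ?_ ?_ ?_ ?_ hu
      · rintro _ ⟨j, rfl⟩; rw [← key]; exact h j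
      · simp
      · intro a b _ _ ha hb; rw [map_add, LinearMap.add_apply, ha, hb, add_zero]
      · intro c a _ ha; rw [map_smul, LinearMap.smul_apply, ha, smul_zero]
    · intro h j
      rw [key]
      exact h _ (by rw [hU]; exact Submodule.subset_span ⟨j, rfl⟩)
  have e1 : Nat.card {v : Fin n → F // ∀ j, Cfsg.hermForm n F q v (t j) = 0} =
      Nat.card ↥({v : Fin n → F | ∀ j, Cfsg.hermForm n F q v (t j) = 0}) := rfl
  rw [e1, hset]
  have e2 : Nat.card ↥(((dotB (F := F) n).orthogonal U : Submodule F (Fin n → F)) :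
      Set (Fin n → F)) = Nat.card ↥((dotB (F := F) n).orthogonal U) := rfl
  rw [e2, Module.natCard_eq_pow_finrank (K := F) (V := ↥((dotB (F := F) n).orthogonal U)), hfO,
    Nat.card_eq_fintype_card, hF]

lemma iso_translate (hF : Fintype.card F = q ^ 2) (τ : F ≃+* F) (hτ : ∀ x, τ x = x ^ q)
    (hτ2 : ∀ x, τ (τ x) = x) (t : Fin n → F) (htt : Cfsg.hermForm n F q t t = 0)
    (D : Set (Fin n → F)) (hD : ∀ v ∈ D, ∀ s : F, v + s • t ∈ D)
    (hDt : ∀ v ∈ D, Cfsg.hermForm n F q v t ≠ 0) :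
    q * Nat.card {u : Fin n → F // u ∈ D ∧ Cfsg.hermForm n F q u u = 0} = Nat.card D := by
  classical
  have hq := Cfsg.Agent.Helper7.herm_two_le hF
  let e : ({u : Fin n → F // u ∈ D ∧ Cfsg.hermForm n F q u u = 0} × F) ≃
      {x : D × F // Cfsg.hermForm n F q (x.1.1 + x.2 • t) (x.1.1 + x.2 • t) = 0} :=
    { toFun := fun p => ⟨(⟨p.1.1 + (-p.2) • t, hD _ p.1.2.1 _⟩, p.2), by
        show Cfsg.hermForm n F q (p.1.1 + (-p.2) • t + p.2 • t)
          (p.1.1 + (-p.2) • t + p.2 • t) = 0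
        rw [add_assoc, ← add_smul, neg_add_cancel, zero_smul, add_zero]
        exact p.1.2.2⟩
      invFun := fun x => (⟨x.1.1.1 + x.1.2 • t, hD _ x.1.1.2 _, x.2⟩, x.1.2)
      left_inv := by
        rintro ⟨⟨u, hu1, hu2⟩, s⟩
        apply Prod.ext
        · apply Subtype.ext
          show u + (-s) • t + s • t = u
          rw [add_assoc, ← add_smul, neg_add_cancel, zero_smul, add_zero]
        · rfl
      right_inv := by
        rintro ⟨⟨⟨v, hv⟩, s⟩, hx⟩
        apply Subtype.ext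
        apply Prod.ext
        · apply Subtype.ext
          show v + s • t + (-s) • t = v
          rw [add_assoc, ← add_smul, add_neg_cancel, zero_smul, add_zero]
        · rfl }
  have hc1 := Nat.card_congr e
  rw [Nat.card_prod, Nat.card_eq_fintype_card (α := F), hF] at hc1
  have hc2 : Nat.card {x : D × F //
      Cfsg.hermForm n F q (x.1.1 + x.2 • t) (x.1.1 + x.2 • t) = 0} =
      Nat.card (Σ v : D, {s : F // Cfsg.hermForm n F q (v.1 + s • t) (v.1 + s • t) = 0}) :=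
    Nat.card_congr (Equiv.subtypeProdEquivSigmaSubtype
      (fun (v : D) (s : F) => Cfsg.hermForm n F q (v.1 + s • t) (v.1 + s • t) = 0))
  have hfib : ∀ v : D,
      Nat.card {s : F // Cfsg.hermForm n F q (v.1 + s • t) (v.1 + s • t) = 0} = q := by
    intro v
    have ha := hDt v.1 v.2
    have hτa : τ (Cfsg.hermForm n F q v.1 t) ≠ 0 := (map_ne_zero τ).mpr ha
    refine (Nat.card_congr ?_).trans
      (Cfsg.Agent.S0829.tr_fib hF τ hτ hτ2 (-(Cfsg.hermForm n F q v.1 v.1)) (by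
        rw [map_neg, Cfsg.Agent.S0837.hf_conj n q τ hτ hτ2]))
    refine
      { toFun := fun s => ⟨s.1 * τ (Cfsg.hermForm n F q v.1 t), ?_⟩
        invFun := fun z => ⟨z.1 * (τ (Cfsg.hermForm n F q v.1 t))⁻¹, ?_⟩
        left_inv := fun s => Subtype.ext (by
          show s.1 * τ (Cfsg.hermForm n F q v.1 t) * (τ (Cfsg.hermForm n F q v.1 t))⁻¹ = s.1
          rw [mul_assoc, mul_inv_cancel₀ hτa, mul_one])
        right_inv := fun z => Subtype.ext (by
          show z.1 * (τ (Cfsg.hermForm n F q v.1 t))⁻¹ * τ (Cfsg.hermForm n F q v.1 t) = z.1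
          rw [mul_assoc, inv_mul_cancel₀ hτa, mul_one]) }
    · have h1 := s.2
      rw [(Cfsg.Agent.S0829.hf_trans τ hτ hτ2 t htt v.1 s.1).2] at h1
      rw [← hτ, map_mul, hτ2]
      linear_combination h1
    · rw [(Cfsg.Agent.S0829.hf_trans τ hτ hτ2 t htt v.1 _).2]
      have h1 := z.2
      rw [← hτ] at h1
      rw [map_mul, map_inv₀, hτ2]
      have e1 : τ z.1 * (Cfsg.hermForm n F q v.1 t)⁻¹ * Cfsg.hermForm n F q v.1 t = τ z.1 := by
        rw [mul_assoc, inv_mul_cancel₀ ha, mul_one]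
      have e2 : z.1 * (τ (Cfsg.hermForm n F q v.1 t))⁻¹ * τ (Cfsg.hermForm n F q v.1 t) = z.1 := by
        rw [mul_assoc, inv_mul_cancel₀ hτa, mul_one]
      rw [e1, e2]
      linear_combination h1
  rw [hc2, Nat.card_sigma, Finset.sum_congr rfl (fun v _ => hfib v), Finset.sum_const,
    Finset.card_univ, smul_eq_mul, ← Nat.card_eq_fintype_card] at hc1
  have hq0 : 0 < q := by omega
  apply Nat.eq_of_mul_eq_mul_right hq0
  rw [← hc1]; ring

omit [Fintype F] in
lemma card_split {α : Type*} [Finite α] (p r : α → Prop) :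
    Nat.card {a // p a} = Nat.card {a // p a ∧ r a} + Nat.card {a // p a ∧ ¬ r a} := by
  classical
  haveI := Fintype.ofFinite α
  simp only [Nat.card_eq_fintype_card, Fintype.card_subtype]
  rw [← Finset.card_filter_add_card_filter_not (s := Finset.univ.filter p) r,
    Finset.filter_filter, Finset.filter_filter]

end partC

section partD

variable {F : Type*} [Field F] [Fintype F] {q : ℕ} (n : ℕ)

/-- The unitary factor `q^(j+1) - (-1)^(j+1)`. -/
def Xf (q j : ℕ) : ℕ := if Even j then q ^ (j + 1) + 1 else q ^ (j + 1) - 1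

lemma Xf_cast (q j : ℕ) (hq : 1 ≤ q) : ((Xf q j : ℕ) : ℤ) = (q : ℤ) ^ (j + 1) + (-1) ^ j := by
  unfold Xf
  split_ifs with h
  · rw [h.neg_one_pow]; push_cast; ring
  · have ho : Odd j := Nat.not_even_iff_odd.mp h
    rw [ho.neg_one_pow]
    have h1 : 1 ≤ q ^ (j + 1) := Nat.one_le_pow _ _ hq
    push_cast [Nat.cast_sub h1]; ring

lemma card_PI (hF : Fintype.card F = q ^ 2) (hn : 1 ≤ n) (τ : F ≃+* F) (hτ : ∀ x, τ x = x ^ q)
    (hτ2 : ∀ x, τ (τ x) = x) :
    ∀ (k : ℕ) (t : Fin k → (Fin n → F)), 2 * k ≤ n → LinearIndependent F t →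
      (∀ i j, Cfsg.hermForm n F q (t i) (t j) = 0) →
      ((Nat.card {v : Fin n → F // (∀ j, Cfsg.hermForm n F q v (t j) = 0) ∧
        Cfsg.hermForm n F q v v = 0} : ℕ) : ℤ) =
        (q : ℤ) ^ (2 * n - 2 * k - 1) + (-1) ^ n * ((q : ℤ) ^ n - (q : ℤ) ^ (n - 1)) := by
  classical
  have hq := Cfsg.Agent.Helper7.herm_two_le hF
  intro k
  induction k with
  | zero =>
    intro t _ _ _
    have e0 : Nat.card {v : Fin n → F // (∀ j : Fin 0, Cfsg.hermForm n F q v (t j) = 0) ∧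
        Cfsg.hermForm n F q v v = 0} = Nat.card {v : Fin n → F // Cfsg.hermForm n F q v v = 0} :=
      Nat.card_congr (Equiv.subtypeEquivRight
        (fun v => ⟨fun h => h.2, fun h => ⟨fun j => j.elim0, h⟩⟩))
    rw [e0, Cfsg.Agent.S0285.result hF n]
    obtain ⟨e, rfl⟩ : ∃ e, n = e + 1 := ⟨n - 1, by omega⟩
    have h1 : 1 ≤ q ^ e := Nat.one_le_pow _ _ (by omega)
    have h2 : 1 ≤ q ^ (e + 1) := Nat.one_le_pow _ _ (by omega)
    have e1 : 2 * (e + 1) - 2 * 0 - 1 = 2 * e + 1 := by omega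
    have e2 : e + 1 - 1 = e := by omega
    rw [e1, e2]
    split_ifs with hev
    · rw [hev.neg_one_pow]; push_cast [Nat.cast_sub h2]; ring
    · have ho : Odd (e + 1) := Nat.not_even_iff_odd.mp hev
      rw [ho.neg_one_pow]; push_cast [Nat.cast_sub h1]; ring
  | succ k ih =>
    intro t' hk ht' h0'
    have htail : LinearIndependent F (Fin.tail t') := ht'.comp Fin.succ (Fin.succ_injective k)
    have h0tail : ∀ i j, Cfsg.hermForm n F q (Fin.tail t' i) (Fin.tail t' j) = 0 :=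
      fun i j => h0' i.succ j.succ
    have IH := ih (Fin.tail t') (by omega) htail h0tail
    obtain ⟨u, hu⟩ : ∃ u, u = t' 0 := ⟨_, rfl⟩
    have huu : Cfsg.hermForm n F q u u = 0 := by rw [hu]; exact h0' 0 0
    have hut : ∀ j, Cfsg.hermForm n F q u (Fin.tail t' j) = 0 := by
      intro j; rw [hu]; exact h0' 0 j.succ
    obtain ⟨D, hDdef⟩ : ∃ D : Set (Fin n → F), D = {v | (∀ j, Cfsg.hermForm n F q v
        (Fin.tail t' j) = 0) ∧ ¬ Cfsg.hermForm n F q v u = 0} := ⟨_, rfl⟩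
    have hDtr : ∀ v ∈ D, ∀ s : F, v + s • u ∈ D := by
      intro v hv s
      rw [hDdef] at hv ⊢
      refine ⟨fun j => ?_, ?_⟩
      · rw [Cfsg.Agent.S0837.hf_add_left, Cfsg.Agent.S0837.hf_smul_left, hv.1 j, hut j,
          mul_zero, add_zero]
      · rw [Cfsg.Agent.S0837.hf_add_left, Cfsg.Agent.S0837.hf_smul_left, huu, mul_zero, add_zero]
        exact hv.2
    have hI := iso_translate n hF τ hτ hτ2 u huu D hDtr (fun v hv => by
      rw [hDdef] at hv; exact hv.2)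
    have hP := card_perp n hF (τ : F →+* F) hτ hτ2 (Fin.tail t') htail
    have hP' := card_perp n hF (τ : F →+* F) hτ hτ2 t' ht'
    have hsplitP := card_split
      (fun v : Fin n → F => ∀ j, Cfsg.hermForm n F q v (Fin.tail t' j) = 0)
      (fun v => Cfsg.hermForm n F q v u = 0)
    have eP' : Nat.card {v : Fin n → F // (∀ j, Cfsg.hermForm n F q v (Fin.tail t' j) = 0) ∧
        Cfsg.hermForm n F q v u = 0} =
        Nat.card {v : Fin n → F // ∀ j, Cfsg.hermForm n F q v (t' j) = 0} :=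
      Nat.card_congr (Equiv.subtypeEquivRight (fun v => by
        rw [Fin.forall_fin_succ, hu]; exact and_comm))
    have eD : Nat.card {v : Fin n → F // (∀ j, Cfsg.hermForm n F q v (Fin.tail t' j) = 0) ∧
        ¬ Cfsg.hermForm n F q v u = 0} = Nat.card D := by rw [hDdef]; rfl
    rw [eP', eD, hP, hP'] at hsplitP
    have hsplitA := card_split
      (fun v : Fin n → F => (∀ j, Cfsg.hermForm n F q v (Fin.tail t' j) = 0) ∧
        Cfsg.hermForm n F q v v = 0)
      (fun v => Cfsg.hermForm n F q v u = 0)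
    have eA' : Nat.card {v : Fin n → F // ((∀ j, Cfsg.hermForm n F q v (Fin.tail t' j) = 0) ∧
        Cfsg.hermForm n F q v v = 0) ∧ Cfsg.hermForm n F q v u = 0} =
        Nat.card {v : Fin n → F // (∀ j, Cfsg.hermForm n F q v (t' j) = 0) ∧
          Cfsg.hermForm n F q v v = 0} :=
      Nat.card_congr (Equiv.subtypeEquivRight (fun v => by
        rw [Fin.forall_fin_succ, hu]
        constructor
        · rintro ⟨⟨h1, h2⟩, h3⟩; exact ⟨⟨h3, h1⟩, h2⟩
        · rintro ⟨⟨h3, h1⟩, h2⟩; exact ⟨⟨h1, h2⟩, h3⟩))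
    have eI : Nat.card {v : Fin n → F // ((∀ j, Cfsg.hermForm n F q v (Fin.tail t' j) = 0) ∧
        Cfsg.hermForm n F q v v = 0) ∧ ¬ Cfsg.hermForm n F q v u = 0} =
        Nat.card {v : Fin n → F // v ∈ D ∧ Cfsg.hermForm n F q v v = 0} :=
      Nat.card_congr (Equiv.subtypeEquivRight (fun v => by
        rw [hDdef]
        constructor
        · rintro ⟨⟨h1, h2⟩, h3⟩; exact ⟨⟨h1, h3⟩, h2⟩
        · rintro ⟨⟨h1, h3⟩, h2⟩; exact ⟨⟨h1, h2⟩, h3⟩))
    rw [eA', eI] at hsplitA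
    obtain ⟨m, hm⟩ : ∃ m, n = m + k + 2 := ⟨n - k - 2, by omega⟩
    have e1 : 2 * n - 2 * k - 1 = 2 * m + 3 := by omega
    have e2 : 2 * n - 2 * (k + 1) - 1 = 2 * m + 1 := by omega
    have e3 : n - k = m + 2 := by omega
    have e4 : n - (k + 1) = m + 1 := by omega
    rw [e1] at IH
    rw [e2]
    rw [e3, e4] at hsplitP
    have hqz : (q : ℤ) ≠ 0 := by exact_mod_cast (by omega : q ≠ 0)
    have h1 : (q : ℤ) * (Nat.card {v : Fin n → F // v ∈ D ∧ Cfsg.hermForm n F q v v = 0} : ℤ) =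
        (Nat.card D : ℤ) := by exact_mod_cast hI
    have h2 : ((q : ℤ) ^ 2) ^ (m + 2) = ((q : ℤ) ^ 2) ^ (m + 1) + (Nat.card D : ℤ) := by
      exact_mod_cast hsplitP
    have h3 : ((Nat.card {v : Fin n → F // (∀ j, Cfsg.hermForm n F q v (Fin.tail t' j) = 0) ∧
        Cfsg.hermForm n F q v v = 0} : ℕ) : ℤ) =
        (Nat.card {v : Fin n → F // (∀ j, Cfsg.hermForm n F q v (t' j) = 0) ∧
          Cfsg.hermForm n F q v v = 0} : ℤ) +
        (Nat.card {v : Fin n → F // v ∈ D ∧ Cfsg.hermForm n F q v v = 0} : ℤ) := by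
      exact_mod_cast hsplitA
    apply mul_left_cancel₀ hqz
    linear_combination (q : ℤ) * IH - (q : ℤ) * h3 - h1 + h2

lemma card_ext (hF : Fintype.card F = q ^ 2) (hn : 1 ≤ n) (τ : F ≃+* F)
    (hτ : ∀ x, τ x = x ^ q) (hτ2 : ∀ x, τ (τ x) = x) {k : ℕ} (hk : 2 * k + 2 ≤ n)
    (t : Fin k → (Fin n → F)) (ht : LinearIndependent F t)
    (h0 : ∀ i j, Cfsg.hermForm n F q (t i) (t j) = 0) :
    Nat.card {v : Fin n → F // v ∉ Submodule.span F (Set.range t) ∧
      (∀ j, Cfsg.hermForm n F q v (t j) = 0) ∧ Cfsg.hermForm n F q v v = 0} =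
      q ^ (2 * k) * Xf q (n - 2 * k - 1) * Xf q (n - 2 * k - 2) := by
  classical
  have hq := Cfsg.Agent.Helper7.herm_two_le hF
  have hA := card_PI n hF hn τ hτ hτ2 k t (by omega) ht h0
  have hs := card_split
    (fun v : Fin n → F => (∀ j, Cfsg.hermForm n F q v (t j) = 0) ∧ Cfsg.hermForm n F q v v = 0)
    (fun v => v ∈ Submodule.span F (Set.range t))
  have e1 : Nat.card {v : Fin n → F // ((∀ j, Cfsg.hermForm n F q v (t j) = 0) ∧
      Cfsg.hermForm n F q v v = 0) ∧ v ∈ Submodule.span F (Set.range t)} = (q ^ 2) ^ k := by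
    rw [Nat.card_congr (Equiv.subtypeEquivRight (fun v =>
      (show (((∀ j, Cfsg.hermForm n F q v (t j) = 0) ∧ Cfsg.hermForm n F q v v = 0) ∧
        v ∈ Submodule.span F (Set.range t)) ↔ v ∈ Submodule.span F (Set.range t) from
        ⟨fun h => h.2, fun h => ⟨⟨fun j => span_iso n (τ : F →+* F) hτ t h0 v h (t j)
          (Submodule.subset_span ⟨j, rfl⟩), span_iso n (τ : F →+* F) hτ t h0 v h v h⟩, h⟩⟩)))]
    show Nat.card ↥(Submodule.span F (Set.range t)) = _
    rw [Module.natCard_eq_pow_finrank (K := F) (V := ↥(Submodule.span F (Set.range t))),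
      finrank_span_eq_card ht, Fintype.card_fin, Nat.card_eq_fintype_card, hF]
  have e2 : Nat.card {v : Fin n → F // ((∀ j, Cfsg.hermForm n F q v (t j) = 0) ∧
      Cfsg.hermForm n F q v v = 0) ∧ ¬ v ∈ Submodule.span F (Set.range t)} =
      Nat.card {v : Fin n → F // v ∉ Submodule.span F (Set.range t) ∧
        (∀ j, Cfsg.hermForm n F q v (t j) = 0) ∧ Cfsg.hermForm n F q v v = 0} :=
    Nat.card_congr (Equiv.subtypeEquivRight (fun v => and_comm))
  rw [e1, e2] at hs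
  obtain ⟨e, he⟩ : ∃ e, n = e + 2 + 2 * k := ⟨n - 2 - 2 * k, by omega⟩
  have x1 : n - 2 * k - 1 = e + 1 := by omega
  have x2 : n - 2 * k - 2 = e := by omega
  have x3 : 2 * n - 2 * k - 1 = 2 * e + 2 * k + 3 := by omega
  have x4 : n - 1 = e + 1 + 2 * k := by omega
  rw [x1, x2]
  rw [x3, x4] at hA
  have hp1 : (q : ℤ) ^ n = (q : ℤ) ^ (e + 2 + 2 * k) := by rw [he]
  have hsgn : (-1 : ℤ) ^ n = (-1) ^ e := by
    rw [he, pow_add, pow_add, pow_mul]; norm_num
  rw [hp1, hsgn] at hA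
  have hs2 : ((-1 : ℤ) ^ e) * ((-1 : ℤ) ^ e) = 1 := by
    rw [← mul_pow]; norm_num
  have hs' : ((Nat.card {v : Fin n → F // (∀ j, Cfsg.hermForm n F q v (t j) = 0) ∧
      Cfsg.hermForm n F q v v = 0} : ℕ) : ℤ) = ((q : ℤ) ^ 2) ^ k +
      (Nat.card {v : Fin n → F // v ∉ Submodule.span F (Set.range t) ∧
        (∀ j, Cfsg.hermForm n F q v (t j) = 0) ∧ Cfsg.hermForm n F q v v = 0} : ℤ) := by
    exact_mod_cast hs
  have hc : ((Nat.card {v : Fin n → F // v ∉ Submodule.span F (Set.range t) ∧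
      (∀ j, Cfsg.hermForm n F q v (t j) = 0) ∧ Cfsg.hermForm n F q v v = 0} : ℕ) : ℤ) =
      ((q ^ (2 * k) * Xf q (e + 1) * Xf q e : ℕ) : ℤ) := by
    rw [Nat.cast_mul, Nat.cast_mul, Xf_cast q (e + 1) (by omega), Xf_cast q e (by omega)]
    push_cast
    linear_combination hA - hs' + (q : ℤ) ^ (2 * k) * hs2
  exact_mod_cast hc

/-- Totally isotropic linearly independent tuples. -/
def Tk (q k : ℕ) : Set (Fin k → (Fin n → F)) :=
  {t | LinearIndependent F t ∧ ∀ i j, Cfsg.hermForm n F q (t i) (t j) = 0}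

lemma card_Tk (hF : Fintype.card F = q ^ 2) (hn : 1 ≤ n) (τ : F ≃+* F)
    (hτ : ∀ x, τ x = x ^ q) (hτ2 : ∀ x, τ (τ x) = x) (k : ℕ) (hk : 2 * k ≤ n) :
    Nat.card (Tk (F := F) n q k) =
      ∏ i ∈ Finset.range k, (q ^ (2 * i) * Xf q (n - 2 * i - 1) * Xf q (n - 2 * i - 2)) := by
  classical
  induction k with
  | zero =>
    rw [Finset.prod_range_zero, Nat.card_eq_one_iff_unique]
    exact ⟨⟨fun a b => Subtype.ext (funext fun i => i.elim0)⟩,
      ⟨⟨fun i => i.elim0, linearIndependent_empty_type, fun i => i.elim0⟩⟩⟩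
  | succ k ih =>
    rw [Finset.prod_range_succ, ← ih (by omega)]
    let π : Tk (F := F) n q (k + 1) → Tk (F := F) n q k := fun x =>
      ⟨fun i => x.1 i.succ, x.2.1.comp Fin.succ (Fin.succ_injective k),
        fun i j => x.2.2 i.succ j.succ⟩
    apply Cfsg.Agent.S0775.card_fiber_const π
    intro y
    rw [← card_ext n hF hn τ hτ hτ2 (by omega) y.1 y.2.1 y.2.2]
    apply Nat.card_congr
    refine
      { toFun := fun x => ⟨x.1.1 0, ?_, ?_, ?_⟩
        invFun := fun v => ⟨⟨Fin.cons v.1 y.1, ?_, ?_⟩, ?_⟩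
        left_inv := ?_
        right_inv := ?_ }
    · have hx := x.1.2.1
      have htail : (fun i : Fin k => x.1.1 i.succ) = y.1 := congrArg Subtype.val x.2
      rw [← Fin.cons_self_tail x.1.1, linearIndependent_finCons] at hx
      have := hx.2
      rw [show Fin.tail x.1.1 = y.1 from htail] at this
      exact this
    · intro j
      have htail : (fun i : Fin k => x.1.1 i.succ) = y.1 := congrArg Subtype.val x.2
      rw [← htail]
      exact x.1.2.2 0 j.succ
    · exact x.1.2.2 0 0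
    · exact linearIndependent_finCons.mpr ⟨y.2.1, v.2.1⟩
    · intro i j
      refine Fin.cases ?_ (fun i => ?_) i <;> refine Fin.cases ?_ (fun j => ?_) j
      · simp only [Fin.cons_zero]; exact v.2.2.2
      · simp only [Fin.cons_zero, Fin.cons_succ]; exact v.2.2.1 j
      · simp only [Fin.cons_zero, Fin.cons_succ]
        rw [← Cfsg.Agent.S0837.hf_conj n q τ hτ hτ2, v.2.2.1 i, map_zero]
      · simp only [Fin.cons_succ]; exact y.2.2 i j
    · exact Subtype.ext (funext fun i =>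
        Fin.cons_succ (α := fun _ => Fin n → F) v.1 y.1 i)
    · intro x
      have htail : (fun i : Fin k => x.1.1 i.succ) = y.1 := congrArg Subtype.val x.2
      apply Subtype.ext
      apply Subtype.ext
      show Fin.cons (x.1.1 0) y.1 = x.1.1
      rw [← htail]
      exact Fin.cons_self_tail x.1.1
    · intro v
      apply Subtype.ext
      simp

end partD

section partE

variable {F : Type*} [Field F] {q : ℕ} (n : ℕ)

lemma gl_mulVec_injective (g : GL (Fin n) F) :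
    Function.Injective (fun v : Fin n → F => (g : Matrix (Fin n) (Fin n) F) *ᵥ v) := by
  intro x y h
  have h' : (g : Matrix (Fin n) (Fin n) F) *ᵥ x = (g : Matrix (Fin n) (Fin n) F) *ᵥ y := h
  have h1 := gl_inv_mulVec n g x _ rfl
  have h2 := gl_inv_mulVec n g y _ rfl
  calc x = _ := h1.symm
    _ = _ := by rw [h']
    _ = y := h2

/-- Pointwise stabiliser of a tuple in `GU`. -/
def FixG (q : ℕ) {k : ℕ} (t : Fin k → (Fin n → F)) : Subgroup ↥(Cfsg.GU n F q) where
  carrier := {g | ∀ i, ((g : GL (Fin n) F) : Matrix (Fin n) (Fin n) F) *ᵥ t i = t i}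
  mul_mem' := by
    intro A B hA hB i
    show (((A : GL (Fin n) F) : Matrix (Fin n) (Fin n) F) *
      ((B : GL (Fin n) F) : Matrix (Fin n) (Fin n) F)) *ᵥ t i = t i
    rw [← Matrix.mulVec_mulVec, hB i, hA i]
  one_mem' := by
    intro i
    show (1 : Matrix (Fin n) (Fin n) F) *ᵥ t i = t i
    rw [Matrix.one_mulVec]
  inv_mem' := by
    intro A hA i
    exact gl_inv_mulVec n (A : GL (Fin n) F) _ _ (hA i)

lemma fixG_iff {k : ℕ} (t : Fin k → (Fin n → F)) (g g' : ↥(Cfsg.GU n F q)) :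
    (∀ i, ((g : GL (Fin n) F) : Matrix (Fin n) (Fin n) F) *ᵥ t i =
      ((g' : GL (Fin n) F) : Matrix (Fin n) (Fin n) F) *ᵥ t i) ↔ g⁻¹ * g' ∈ FixG n q t := by
  constructor
  · intro h i
    show ((((g : GL (Fin n) F)⁻¹ : GL (Fin n) F) : Matrix (Fin n) (Fin n) F) *
      ((g' : GL (Fin n) F) : Matrix (Fin n) (Fin n) F)) *ᵥ t i = t i
    rw [← Matrix.mulVec_mulVec, ← h i]
    exact gl_inv_mulVec n (g : GL (Fin n) F) _ _ rfl
  · intro h i
    have h1 : (((g : GL (Fin n) F)⁻¹ : GL (Fin n) F) : Matrix (Fin n) (Fin n) F) *ᵥ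
        (((g' : GL (Fin n) F) : Matrix (Fin n) (Fin n) F) *ᵥ t i) = t i := by
      rw [Matrix.mulVec_mulVec]; exact h i
    have h2 := gl_inv_mulVec n (g : GL (Fin n) F) (t i) _ rfl
    exact gl_mulVec_injective n ((g : GL (Fin n) F)⁻¹) (h2.trans h1.symm)

lemma maps_span' {k : ℕ} (A : GL (Fin n) F) (t : Fin k → (Fin n → F))
    (W' : Submodule F (Fin n → F))
    (h : ∀ i, (A : Matrix (Fin n) (Fin n) F) *ᵥ t i ∈ W') :
    ∀ v ∈ Submodule.span F (Set.range t), (A : Matrix (Fin n) (Fin n) F) *ᵥ v ∈ W' := by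
  intro v hv
  refine Submodule.span_induction
    (p := fun v _ => (A : Matrix (Fin n) (Fin n) F) *ᵥ v ∈ W') ?_ ?_ ?_ ?_ hv
  · rintro _ ⟨i, rfl⟩; exact h i
  · rw [Matrix.mulVec_zero]; exact W'.zero_mem
  · intro a b _ _ ha hb; rw [Matrix.mulVec_add]; exact W'.add_mem ha hb
  · intro c a _ ha; rw [Matrix.mulVec_smul]; exact W'.smul_mem c ha

lemma li_mulVec {k : ℕ} (A : GL (Fin n) F) (t : Fin k → (Fin n → F))
    (ht : LinearIndependent F t) :
    LinearIndependent F (fun i => (A : Matrix (Fin n) (Fin n) F) *ᵥ t i) := by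
  have := ht.map' (Matrix.toLin' (A : Matrix (Fin n) (Fin n) F))
    (LinearMap.ker_eq_bot.mpr (by
      intro x y hxy
      rw [Matrix.toLin'_apply, Matrix.toLin'_apply] at hxy
      exact gl_mulVec_injective n A hxy))
  exact this

lemma card_GU_orbit [Fintype F] (σ : F →+* F) (hσ : ∀ x, σ x = x ^ q)
    (hσσ : ∀ x, σ (σ x) = x) (hσne : σ ≠ RingHom.id F) {k : ℕ}
    (t0 : Fin k → (Fin n → F)) (ht0 : t0 ∈ Tk (F := F) n q k) :
    Nat.card ↥(Cfsg.GU n F q) = Nat.card (Tk (F := F) n q k) * Nat.card (FixG n q t0) := by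
  refine Cfsg.Agent.Helper7.OrthChain.card_of_fibration (FixG n q t0)
    (fun A => (⟨fun i => ((A : GL (Fin n) F) : Matrix (Fin n) (Fin n) F) *ᵥ t0 i,
      ?_, ?_⟩ : Tk (F := F) n q k)) ?_ ?_
  · exact li_mulVec n (A : GL (Fin n) F) t0 ht0.1
  · intro i j
    exact ((Cfsg.Agent.S0783.mem_GU_iff _).mp A.2 _ _).trans (ht0.2 i j)
  · rintro ⟨t', ht'⟩
    obtain ⟨A, hA, hAt⟩ := exists_gu_move n σ hσ hσσ hσne t0 t' ht0.1 ht'.1 ht0.2 ht'.2
    exact ⟨⟨A, hA⟩, Subtype.ext (funext hAt)⟩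
  · intro g g'
    rw [← fixG_iff]
    constructor
    · intro h i; exact congrFun (congrArg Subtype.val h) i
    · intro h; exact Subtype.ext (funext h)

lemma card_stab_orbit [Fintype F] (σ : F →+* F) (hσ : ∀ x, σ x = x ^ q)
    (hσσ : ∀ x, σ (σ x) = x) (hσne : σ ≠ RingHom.id F) {k : ℕ}
    (W : Submodule F (Fin n → F))
    (hW : ∀ u ∈ W, ∀ v ∈ W, Cfsg.hermForm n F q u v = 0)
    (t0 : Fin k → (Fin n → F)) (ht0 : LinearIndependent F t0)
    (hspan : Submodule.span F (Set.range t0) = W) :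
    Nat.card ↥((Cfsg.stabilizing (Cfsg.glToMat (Fin n) F)
      (W : Set (Fin n → F))).subgroupOf (Cfsg.GU n F q)) =
      Nat.card {s : Fin k → W // LinearIndependent F s} * Nat.card (FixG n q t0) := by
  classical
  have ht0W : ∀ i, t0 i ∈ W := fun i => hspan ▸ Submodule.subset_span ⟨i, rfl⟩
  have hfixle : FixG n q t0 ≤ (Cfsg.stabilizing (Cfsg.glToMat (Fin n) F)
      (W : Set (Fin n → F))).subgroupOf (Cfsg.GU n F q) := by
    intro A hA
    rw [Subgroup.mem_subgroupOf]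
    apply Cfsg.Agent.S0772.mem_stab_of_maps
    intro v hv
    have hv' : v ∈ Submodule.span F (Set.range t0) := by rw [hspan]; exact hv
    exact maps_span' n (A : GL (Fin n) F) t0 W (fun i => by rw [hA i]; exact ht0W i) v hv'
  rw [← Nat.card_congr (Subgroup.subgroupOfEquivOfLe hfixle).toEquiv]
  refine Cfsg.Agent.Helper7.OrthChain.card_of_fibration
    ((FixG n q t0).subgroupOf ((Cfsg.stabilizing (Cfsg.glToMat (Fin n) F)
      (W : Set (Fin n → F))).subgroupOf (Cfsg.GU n F q)))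
    (fun A => (⟨fun i => ⟨((A.1 : GL (Fin n) F) : Matrix (Fin n) (Fin n) F) *ᵥ t0 i,
      ((Subgroup.mem_subgroupOf.mp A.2) (t0 i)).mp (ht0W i)⟩, ?_⟩ :
      {s : Fin k → W // LinearIndependent F s})) ?_ ?_
  · apply LinearIndependent.of_comp W.subtype
    exact li_mulVec n (A.1 : GL (Fin n) F) t0 ht0
  · rintro ⟨s, hs⟩
    have hs' : LinearIndependent F (fun i => (s i : Fin n → F)) :=
      hs.map' W.subtype (Submodule.ker_subtype W)
    obtain ⟨A, hA, hAt⟩ := exists_gu_move n σ hσ hσσ hσne t0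
      (fun i => (s i : Fin n → F)) ht0 hs'
      (fun i j => hW _ (ht0W i) _ (ht0W j)) (fun i j => hW _ (s i).2 _ (s j).2)
    have hAstab : A ∈ Cfsg.stabilizing (Cfsg.glToMat (Fin n) F) (W : Set (Fin n → F)) := by
      apply Cfsg.Agent.S0772.mem_stab_of_maps
      intro v hv
      have hv' : v ∈ Submodule.span F (Set.range t0) := by rw [hspan]; exact hv
      exact maps_span' n A t0 W (fun i => by rw [hAt i]; exact (s i).2) v hv'
    exact ⟨⟨⟨A, hA⟩, Subgroup.mem_subgroupOf.mpr hAstab⟩,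
      Subtype.ext (funext fun i => Subtype.ext (hAt i))⟩
  · intro g g'
    refine Iff.trans ?_ (fixG_iff n t0 g.1 g'.1)
    constructor
    · intro h i; exact congrArg Subtype.val (congrFun (congrArg Subtype.val h) i)
    · intro h; exact Subtype.ext (funext fun i => Subtype.ext (h i))

end partE

section partF

variable {F : Type*} [Field F] {q : ℕ} (n : ℕ)

lemma exists_c (τ : F ≃+* F) (hτ2 : ∀ x, τ (τ x) = x) (hτne : τ ≠ RingEquiv.refl F) (a : F)
    (ha : a * τ a = 1) : ∃ c : F, c ≠ 0 ∧ a * τ c = c := by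
  by_cases h : 1 + a = 0
  · obtain ⟨b, hb⟩ : ∃ b, τ b ≠ b := by
      by_contra hcon; push Not at hcon; exact hτne (RingEquiv.ext hcon)
    have ha' : a = -1 := by linear_combination h
    refine ⟨b - τ b, fun h0 => hb (sub_eq_zero.mp h0).symm, ?_⟩
    rw [ha', map_sub, hτ2]; ring
  · refine ⟨1 + a, h, ?_⟩
    rw [map_add, map_one, mul_add, mul_one, ha]; ring

lemma det_rk (u ψ : Fin n → F) (h : 1 + ψ ⬝ᵥ u ≠ 0) :
    ((Cfsg.Agent.S0772.rk u ψ : GL (Fin n) F) : Matrix (Fin n) (Fin n) F).det = 1 + ψ ⬝ᵥ u := by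
  rw [Cfsg.Agent.S0772.rk_coe u ψ h, Matrix.vecMulVec_eq (ι := Unit),
    Matrix.det_one_add_replicateCol_mul_replicateRow]

lemma exists_rot [Fintype F] (hF : Fintype.card F = q ^ 2) (τ : F ≃+* F)
    (hτ : ∀ x, τ x = x ^ q) (hτ2 : ∀ x, τ (τ x) = x) (hτne : τ ≠ RingEquiv.refl F)
    (W : Submodule F (Fin n → F)) (hW : ∀ u ∈ W, ∀ v ∈ W, Cfsg.hermForm n F q u v = 0)
    (w : Fin n → F) (hwW : w ∈ W) (hw0 : w ≠ 0) (a : F) (ha : a * τ a = 1) :
    ∃ g : GL (Fin n) F, g ∈ Cfsg.GU n F q ∧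
      (∀ x ∈ W, (g : Matrix (Fin n) (Fin n) F) *ᵥ x ∈ W) ∧
      (g : Matrix (Fin n) (Fin n) F).det = a := by
  classical
  have hq := Cfsg.Agent.Helper7.herm_two_le hF
  have hq0 : q ≠ 0 := by omega
  have hww : Cfsg.hermForm n F q w w = 0 := hW w hwW w hwW
  obtain ⟨x, hx⟩ := Cfsg.Agent.S0837.hf_nondeg hq0 n w hw0
  obtain ⟨u, hu⟩ : ∃ u, Cfsg.hermForm n F q w u = 1 :=
    ⟨τ ((Cfsg.hermForm n F q w x)⁻¹) • x, by
      rw [Cfsg.Agent.S0837.hf_smul_right n q τ hτ, hτ2, inv_mul_cancel₀ hx]⟩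
  have huw : Cfsg.hermForm n F q u w = 1 := by
    rw [← Cfsg.Agent.S0837.hf_conj n q τ hτ hτ2 w u, hu, map_one]
  have hfix : τ (-(Cfsg.hermForm n F q u u)) = -(Cfsg.hermForm n F q u u) := by
    rw [map_neg, Cfsg.Agent.S0837.hf_conj n q τ hτ hτ2]
  obtain ⟨s, hs⟩ : ∃ s : F, s ^ q + s = -(Cfsg.hermForm n F q u u) := by
    have hcard := Cfsg.Agent.S0829.tr_fib hF τ hτ hτ2 _ hfix
    have hne : Nonempty {t : F // t ^ q + t = -(Cfsg.hermForm n F q u u)} :=
      (Nat.card_pos_iff.mp (by rw [hcard]; omega)).1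
    obtain ⟨⟨s, hs⟩⟩ := hne
    exact ⟨s, hs⟩
  obtain ⟨v', hv'def⟩ : ∃ v', v' = u + s • w := ⟨_, rfl⟩
  have hwv : Cfsg.hermForm n F q w v' = 1 := by
    rw [hv'def, Cfsg.Agent.S0837.hf_add_right n q τ hτ,
      Cfsg.Agent.S0837.hf_smul_right n q τ hτ, hww, mul_zero, add_zero, hu]
  have hvw : Cfsg.hermForm n F q v' w = 1 := by
    rw [← Cfsg.Agent.S0837.hf_conj n q τ hτ hτ2 w v', hwv, map_one]
  have hvv : Cfsg.hermForm n F q v' v' = 0 := by
    rw [hv'def, (Cfsg.Agent.S0829.hf_trans τ hτ hτ2 w hww u s).2, huw, map_one, mul_one,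
      mul_one, hτ]
    linear_combination hs
  obtain ⟨c, hc0, hc⟩ := exists_c τ hτ2 hτne a ha
  have hτc0 : τ c ≠ 0 := (map_ne_zero τ).mpr hc0
  obtain ⟨d, hd⟩ : ∃ d, d = (τ c)⁻¹ := ⟨_, rfl⟩
  have hd0 : d ≠ 0 := by rw [hd]; exact inv_ne_zero hτc0
  have hd1 : d * τ c = 1 := by rw [hd, inv_mul_cancel₀ hτc0]
  have hd2 : c * τ d = 1 := by rw [hd, map_inv₀, hτ2, mul_inv_cancel₀ hc0]
  obtain ⟨ψ1, hψ1def⟩ : ∃ ψ1 : Fin n → F, ψ1 = fun i => τ (v' i) := ⟨_, rfl⟩
  obtain ⟨ψ2, hψ2def⟩ : ∃ ψ2 : Fin n → F, ψ2 = fun i => τ (w i) := ⟨_, rfl⟩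
  have hψ1 : ∀ x : Fin n → F, ψ1 ⬝ᵥ x = Cfsg.hermForm n F q x v' := by
    intro x
    unfold Cfsg.hermForm
    rw [hψ1def, dotProduct]
    exact Finset.sum_congr rfl (fun i _ => by rw [hτ, mul_comm])
  have hψ2 : ∀ x : Fin n → F, ψ2 ⬝ᵥ x = Cfsg.hermForm n F q x w := by
    intro x
    unfold Cfsg.hermForm
    rw [hψ2def, dotProduct]
    exact Finset.sum_congr rfl (fun i _ => by rw [hτ, mul_comm])
  have e1 : 1 + ψ1 ⬝ᵥ ((c - 1) • w) = c := by
    rw [hψ1, Cfsg.Agent.S0837.hf_smul_left, hwv]; ring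
  have e2 : 1 + ψ2 ⬝ᵥ ((d - 1) • v') = d := by
    rw [hψ2, Cfsg.Agent.S0837.hf_smul_left, hvw]; ring
  have h1ne : 1 + ψ1 ⬝ᵥ ((c - 1) • w) ≠ 0 := by rw [e1]; exact hc0
  have h2ne : 1 + ψ2 ⬝ᵥ ((d - 1) • v') ≠ 0 := by rw [e2]; exact hd0
  have hmv : ∀ x : Fin n → F,
      ((Cfsg.Agent.S0772.rk ((c - 1) • w) ψ1 * Cfsg.Agent.S0772.rk ((d - 1) • v') ψ2 :
        GL (Fin n) F) : Matrix (Fin n) (Fin n) F) *ᵥ x =
      x + ((c - 1) * Cfsg.hermForm n F q x v') • w +
        ((d - 1) * Cfsg.hermForm n F q x w) • v' := by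
    intro x
    rw [Units.val_mul, ← Matrix.mulVec_mulVec, Cfsg.Agent.S0772.rk_mulVec _ _ h2ne,
      Cfsg.Agent.S0772.rk_mulVec _ _ h1ne, hψ2, hψ1, Cfsg.Agent.S0837.hf_add_left,
      Cfsg.Agent.S0837.hf_smul_left, Cfsg.Agent.S0837.hf_smul_left, hvv, mul_zero, mul_zero,
      add_zero]
    module
  refine ⟨Cfsg.Agent.S0772.rk ((c - 1) • w) ψ1 * Cfsg.Agent.S0772.rk ((d - 1) • v') ψ2,
    ?_, ?_, ?_⟩
  · rw [Cfsg.Agent.S0783.mem_GU_iff]
    intro x y
    rw [hmv, hmv]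
    have hwy : Cfsg.hermForm n F q w y = τ (Cfsg.hermForm n F q y w) :=
      (Cfsg.Agent.S0837.hf_conj n q τ hτ hτ2 y w).symm
    have hvy : Cfsg.hermForm n F q v' y = τ (Cfsg.hermForm n F q y v') :=
      (Cfsg.Agent.S0837.hf_conj n q τ hτ hτ2 y v').symm
    simp only [Cfsg.Agent.S0837.hf_add_left, Cfsg.Agent.S0837.hf_add_right n q τ hτ,
      Cfsg.Agent.S0837.hf_smul_left, Cfsg.Agent.S0837.hf_smul_right n q τ hτ, hww, hwv, hvw,
      hvv, hwy, hvy, map_mul, map_sub, map_one]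
    linear_combination
      (Cfsg.hermForm n F q x w * τ (Cfsg.hermForm n F q y v')) * hd1 +
      (Cfsg.hermForm n F q x v' * τ (Cfsg.hermForm n F q y w)) * hd2
  · intro x hx
    rw [hmv, hW x hx w hwW, mul_zero, zero_smul, add_zero]
    exact W.add_mem hx (W.smul_mem _ hwW)
  · have hcd : c * d = a := by
      rw [hd]
      calc c * (τ c)⁻¹ = a * τ c * (τ c)⁻¹ := by rw [hc]
        _ = a := by rw [mul_assoc, mul_inv_cancel₀ hτc0, mul_one]
    rw [Units.val_mul, Matrix.det_mul, det_rk n _ _ h1ne, det_rk n _ _ h2ne, e1, e2]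
    exact hcd

lemma exists_det [Fintype F] (hF : Fintype.card F = q ^ 2) (hn : 1 ≤ n) (τ : F ≃+* F)
    (hτ : ∀ x, τ x = x ^ q) (hτ2 : ∀ x, τ (τ x) = x) (hτne : τ ≠ RingEquiv.refl F)
    (W : Submodule F (Fin n → F)) (hW : ∀ u ∈ W, ∀ v ∈ W, Cfsg.hermForm n F q u v = 0)
    (a : F) (ha : a * τ a = 1) :
    ∃ g : GL (Fin n) F, g ∈ Cfsg.GU n F q ∧
      (∀ x ∈ W, (g : Matrix (Fin n) (Fin n) F) *ᵥ x ∈ W) ∧
      (g : Matrix (Fin n) (Fin n) F).det = a := by
  classical
  by_cases hbot : W = ⊥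
  · subst hbot
    have hn0 : 0 < n := hn
    obtain ⟨d, hddef⟩ : ∃ d : Fin n → F, d = fun i => if i = ⟨0, hn0⟩ then a else 1 := ⟨_, rfl⟩
    have ha0 : a ≠ 0 := by
      intro h0; rw [h0, zero_mul] at ha; exact zero_ne_one ha
    have ha1 : a ^ (q + 1) = 1 := by rw [pow_succ, ← hτ, mul_comm]; exact ha
    have hd0 : ∀ i, d i ≠ 0 := by
      intro i
      rw [hddef]
      show (if i = ⟨0, hn0⟩ then a else 1) ≠ 0
      split_ifs
      · exact ha0
      · exact one_ne_zero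
    have hd1 : ∀ i, d i ^ (q + 1) = 1 := by
      intro i
      rw [hddef]
      show (if i = ⟨0, hn0⟩ then a else 1) ^ (q + 1) = 1
      split_ifs
      · exact ha1
      · exact one_pow _
    refine ⟨Cfsg.Agent.S0783.diagG d hd0, Cfsg.Agent.S0783.diagG_mem d hd0 hd1, ?_, ?_⟩
    · intro x hx
      rw [Submodule.mem_bot] at hx ⊢
      rw [hx, Matrix.mulVec_zero]
    · show (Matrix.diagonal d).det = a
      rw [Matrix.det_diagonal, hddef]
      show ∏ i : Fin n, (if i = (⟨0, hn0⟩ : Fin n) then a else 1) = a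
      rw [Finset.prod_ite_eq' Finset.univ (⟨0, hn0⟩ : Fin n) (fun _ => a)]
      simp
  · obtain ⟨w, hwW, hw0⟩ := (Submodule.ne_bot_iff W).mp hbot
    exact exists_rot n hF τ hτ hτ2 hτne W hW w hwW hw0 a ha

end partF

section partG

variable {F : Type*} [Field F] {q : ℕ} (n : ℕ)

lemma card_stab_su [Fintype F] (hF : Fintype.card F = q ^ 2) (hn : 1 ≤ n) (τ : F ≃+* F)
    (hτ : ∀ x, τ x = x ^ q) (hτ2 : ∀ x, τ (τ x) = x) (hτne : τ ≠ RingEquiv.refl F)
    (W : Submodule F (Fin n → F)) (hW : ∀ u ∈ W, ∀ v ∈ W, Cfsg.hermForm n F q u v = 0) :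
    (q + 1) * Nat.card ↥((Cfsg.stabilizing (Cfsg.slToMat n F)
      (W : Set (Fin n → F))).subgroupOf (Cfsg.SU n F q)) =
      Nat.card ↥((Cfsg.stabilizing (Cfsg.glToMat (Fin n) F)
        (W : Set (Fin n → F))).subgroupOf (Cfsg.GU n F q)) := by
  classical
  have hq := Cfsg.Agent.S0279.q_ge_two hF
  obtain ⟨γ, hγ⟩ := Cfsg.Agent.S0279.exists_gen hF
  haveI : NeZero (q + 1) := ⟨by omega⟩
  have hpos : 0 < q ^ 2 - 1 := by
    have : 4 ≤ q ^ 2 := by nlinarith
    omega
  have hprim : IsPrimitiveRoot ((γ : F) ^ (q - 1)) (q + 1) := by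
    have h1 : IsPrimitiveRoot (γ : F) (q ^ 2 - 1) := by
      rw [IsPrimitiveRoot.coe_units_iff, ← hγ]; exact IsPrimitiveRoot.orderOf γ
    exact h1.pow hpos (Cfsg.Agent.S0279.sq_sub q hq)
  have hcardM : Nat.card (rootsOfUnity (q + 1) F) = q + 1 := hprim.card_rootsOfUnity
  obtain ⟨P, hPdef⟩ : ∃ P : Subgroup ↥(Cfsg.GU n F q),
      P = (Cfsg.stabilizing (Cfsg.glToMat (Fin n) F)
        (W : Set (Fin n → F))).subgroupOf (Cfsg.GU n F q) := ⟨_, rfl⟩
  rw [← hPdef]
  obtain ⟨δ, hδ⟩ : ∃ δ : P →* rootsOfUnity (q + 1) F,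
      ∀ g : P, ((δ g : rootsOfUnity (q + 1) F) : Fˣ) =
        Matrix.GeneralLinearGroup.det
          (((g : ↥(Cfsg.GU n F q)) : Matrix.GeneralLinearGroup (Fin n) F)) :=
    ⟨(Matrix.GeneralLinearGroup.det.comp ((Cfsg.GU n F q).subtype.comp P.subtype)).codRestrict
      (rootsOfUnity (q + 1) F)
      (fun g => (mem_rootsOfUnity _ _).2 (Cfsg.Agent.S0783.det_pow_eq_one hF g.1.1 g.1.2)),
      fun g => rfl⟩
  have hsurj : Function.Surjective δ := by
    intro a
    have ha1 : ((a : Fˣ) : F) ^ (q + 1) = 1 := by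
      have h := (mem_rootsOfUnity _ _).1 a.2
      rw [← Units.val_pow_eq_pow_val, h]; rfl
    have ha : ((a : Fˣ) : F) * τ ((a : Fˣ) : F) = 1 := by
      rw [hτ, ← pow_succ']; exact ha1
    obtain ⟨g, hgU, hgW, hgdet⟩ := exists_det n hF hn τ hτ hτ2 hτne W hW _ ha
    have hgP : (⟨g, hgU⟩ : ↥(Cfsg.GU n F q)) ∈ P := by
      rw [hPdef, Subgroup.mem_subgroupOf]
      exact Cfsg.Agent.S0772.mem_stab_of_maps _ g hgW
    refine ⟨⟨⟨g, hgU⟩, hgP⟩, ?_⟩
    apply Subtype.ext
    rw [hδ]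
    apply Units.ext
    rw [Matrix.GeneralLinearGroup.val_det_apply]
    exact hgdet
  have h1 : Nat.card P = Nat.card δ.ker * Nat.card (rootsOfUnity (q + 1) F) := by
    rw [← Subgroup.card_mul_index δ.ker, Subgroup.index_ker, MonoidHom.range_eq_top.mpr hsurj,
      Subgroup.card_top]
  have hdet : ∀ x : δ.ker,
      ((((x.1 : P) : ↥(Cfsg.GU n F q)) : GL (Fin n) F) : Matrix (Fin n) (Fin n) F).det = 1 := by
    intro x
    have h2 : δ x.1 = 1 := x.2
    have h3 := hδ x.1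
    rw [h2] at h3
    have h4 := congrArg (fun u : Fˣ => (u : F)) h3
    simp only [Matrix.GeneralLinearGroup.val_det_apply] at h4
    exact h4.symm
  have hstab : ∀ x : P, ∀ v : Fin n → F, v ∈ (W : Set (Fin n → F)) ↔
      (((x : ↥(Cfsg.GU n F q)) : GL (Fin n) F) : Matrix (Fin n) (Fin n) F) *ᵥ v ∈
        (W : Set (Fin n → F)) := by
    intro x v
    have hx : (x : ↥(Cfsg.GU n F q)) ∈ (Cfsg.stabilizing (Cfsg.glToMat (Fin n) F)
        (W : Set (Fin n → F))).subgroupOf (Cfsg.GU n F q) := by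
      rw [← hPdef]; exact x.2
    exact (Subgroup.mem_subgroupOf.mp hx) v
  have h2 : Nat.card δ.ker = Nat.card ↥((Cfsg.stabilizing (Cfsg.slToMat n F)
      (W : Set (Fin n → F))).subgroupOf (Cfsg.SU n F q)) := by
    refine Nat.card_congr
      { toFun := fun x => ⟨⟨⟨((((x.1 : P) : ↥(Cfsg.GU n F q)) : GL (Fin n) F) :
            Matrix (Fin n) (Fin n) F), hdet x⟩,
          (Cfsg.Agent.S0279.mem_SU_iff _).mpr
            (fun u v => (Cfsg.Agent.S0783.mem_GU_iff _).mp x.1.1.2 u v)⟩,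
          Subgroup.mem_subgroupOf.mpr (fun v => hstab x.1 v)⟩
        invFun := fun s => ⟨⟨⟨Matrix.SpecialLinearGroup.toGL s.1.1,
          (Cfsg.Agent.S0783.mem_GU_iff _).mpr
            (fun u v => (Cfsg.Agent.S0279.mem_SU_iff s.1.1).mp s.1.2 u v)⟩, ?_⟩, ?_⟩
        left_inv := ?_
        right_inv := ?_ }
    · rw [hPdef, Subgroup.mem_subgroupOf]
      exact fun v => (Subgroup.mem_subgroupOf.mp s.2) v
    · rw [MonoidHom.mem_ker]
      apply Subtype.ext
      rw [hδ]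
      apply Units.ext
      rw [Matrix.GeneralLinearGroup.val_det_apply]
      exact s.1.1.2
    · intro x
      apply Subtype.ext
      apply Subtype.ext
      apply Subtype.ext
      apply Units.ext
      rfl
    · intro s
      apply Subtype.ext
      apply Subtype.ext
      apply Subtype.ext
      rfl
  rw [h1, h2, hcardM, mul_comm]

lemma tri_succ2 (d : ℕ) : (d + 2) * (d + 1) / 2 = d * (d - 1) / 2 + (2 * d + 1) := by
  rcases d with _ | d
  · norm_num
  · have h1 : (d + 1 + 2) * (d + 1 + 1) = (d + 1) * d + (2 * (d + 1) + 1) * 2 := by ring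
    rw [h1, Nat.add_mul_div_right _ _ (by norm_num : 0 < 2)]
    rfl

lemma arithU (q n : ℕ) : ∀ k d : ℕ, d + 2 * k = n →
    q ^ (n * (n - 1) / 2) * ∏ i ∈ Finset.range n, Xf q i =
      q ^ (k * (2 * d + k) + d * (d - 1) / 2) * (∏ i ∈ Finset.range d, Xf q i) *
        ∏ i ∈ Finset.range k, (q ^ (2 * i) * Xf q (n - 2 * i - 1) * Xf q (n - 2 * i - 2)) := by
  intro k
  induction k with
  | zero =>
    intro d hd
    have hdn : d = n := by omega
    subst hdn
    simp
  | succ k ih =>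
    intro d hd
    have h := ih (d + 2) (by omega)
    rw [h, Finset.prod_range_succ (fun i => q ^ (2 * i) * Xf q (n - 2 * i - 1) * Xf q (n - 2 * i - 2)) k,
      Finset.prod_range_succ (fun i => Xf q i) (d + 1), Finset.prod_range_succ (fun i => Xf q i) d]
    have e1 : n - 2 * k - 1 = d + 1 := by omega
    have e2 : n - 2 * k - 2 = d := by omega
    rw [e1, e2]
    have e3 : k * (2 * (d + 2) + k) + (d + 2) * (d + 2 - 1) / 2 =
        ((k + 1) * (2 * d + (k + 1)) + d * (d - 1) / 2) + 2 * k := by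
      rw [show d + 2 - 1 = d + 1 from rfl, tri_succ2]
      ring
    rw [e3, pow_add]
    ring

end partG

/-- Maximal parabolics of SU_n(q): if W is a k-dimensional subspace of F^n (n ≥ 1, |F| = q²) on which the Hermitian form vanishes, then (q + 1) times the order of its stabiliser in SU_n(q) equals q^(k(2n−3k)) · |GL_k(q²)| · |GU_(n−2k)(q)|, where |GU_m(q)| = q^(m(m−1)/2) Π_(i=1..m) (q^i − (−1)^i). -/
theorem result {F : Type*} [Field F] [Fintype F] {q : ℕ} (hF : Fintype.card F = q ^ 2) (n k : ℕ) (hn : 1 ≤ n) (hk : 2 * k ≤ n) (W : Submodule F (Fin n → F)) (hWk : Module.finrank F W = k) (hW : ∀ u ∈ W, ∀ v ∈ W, Cfsg.hermForm n F q u v = 0) : (q + 1) * Nat.card ↥((Cfsg.stabilizing (Cfsg.slToMat n F) (W : Set (Fin n → F))).subgroupOf (Cfsg.SU n F q)) = q ^ (k * (2 * n - 3 * k)) * (∏ i : Fin k, ((q ^ 2) ^ k - (q ^ 2) ^ (i : ℕ))) * (q ^ ((n - 2 * k) * ((n - 2 * k) - 1) / 2) * ∏ i ∈ Finset.range (n - 2 * k), (if Even i then q ^ (i + 1)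 + 1 else q ^ (i + 1) - 1)) := by
  classical
  obtain ⟨τ, hτ, hτ2, hτne⟩ := Cfsg.Agent.Helper9.exists_frob9 hF
  have hσne : (τ : F →+* F) ≠ RingHom.id F := by
    intro h
    apply hτne
    ext x
    have := congrArg (fun f : F →+* F => f x) h
    exact this
  let b := (Module.finBasis F W).reindex (finCongr hWk)
  let t0 : Fin k → (Fin n → F) := fun i => (b i : Fin n → F)
  have ht0 : LinearIndependent F t0 :=
    b.linearIndependent.map' W.subtype (Submodule.ker_subtype W)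
  have hspan : Submodule.span F (Set.range t0) = W := by
    have h1 := b.span_eq
    have h2 : Submodule.span F (Set.range t0) =
        (Submodule.span F (Set.range b)).map W.subtype := by
      rw [Submodule.map_span, ← Set.range_comp]; rfl
    rw [h2, h1, Submodule.map_top, Submodule.range_subtype]
  have ht0T : t0 ∈ Tk (F := F) n q k := ⟨ht0, fun i j => hW _ (b i).2 _ (b j).2⟩
  have hS := card_stab_su n hF hn τ hτ hτ2 hτne W hW
  have hB := card_stab_orbit n (τ : F →+* F) hτ hτ2 hσne W hW t0 ht0 hspan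
  have hA := card_GU_orbit n (τ : F →+* F) hτ hτ2 hσne t0 ht0T
  have hG : Nat.card ↥(Cfsg.GU n F q) =
      q ^ (n * (n - 1) / 2) * ∏ i ∈ Finset.range n, Xf q i :=
    Cfsg.Agent.Helper7.UnitCard.card_GU hF n
  have hT := card_Tk n hF hn τ hτ hτ2 k hk
  have hL : Nat.card {s : Fin k → W // LinearIndependent F s} =
      ∏ i : Fin k, ((q ^ 2) ^ k - (q ^ 2) ^ (i : ℕ)) := by
    have := card_linearIndependent (K := F) (V := W) (k := k) (le_of_eq hWk.symm)
    rw [hWk, hF] at this; exact this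
  have hTpos : 0 < Nat.card (Tk (F := F) n q k) := by
    haveI : Nonempty (Tk (F := F) n q k) := ⟨⟨t0, ht0T⟩⟩
    exact Nat.card_pos
  rw [hS, hB]
  apply Nat.eq_of_mul_eq_mul_right hTpos
  have h1 : Nat.card {s : Fin k → W // LinearIndependent F s} * Nat.card (FixG n q t0) *
      Nat.card (Tk (F := F) n q k) =
      Nat.card {s : Fin k → W // LinearIndependent F s} * Nat.card ↥(Cfsg.GU n F q) := by
    rw [hA]; ring
  rw [h1, hG, hL, arithU q n k (n - 2 * k) (by omega), hT]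
  have e : k * (2 * n - 3 * k) = k * (2 * (n - 2 * k) + k) := by
    congr 1; omega
  rw [e, pow_add]
  show _ = _ * _ * (_ * ∏ i ∈ Finset.range (n - 2 * k), Xf q i) * _
  ring

end Cfsg.Agent.S0782
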