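import Cfsg.Statements.S2644
import Mathlib
import Cfsg.Agent.S0782
import Cfsg.Agent.S2579
import Cfsg.Agent.Helper7.HermCount
import Cfsg.Agent.S0837

set_option autoImplicit false
open Cfsg

namespace Cfsg.Agent.S2644

open Matrix

section su_transv

variable {F : Type*} [Field F] {q : ℕ} (n : ℕ)

/-- Structure of a unitary transvection: `x ↦ x + c * H(x,u) • u` with `u` isotropic, `c` of trace zero. -/
lemma transv_form [Fintype F] (hF : Fintype.card F = q ^ 2) (τ : F ≃+* F)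
    (hτ : ∀ x, τ x = x ^ q) (hτ2 : ∀ x, τ (τ x) = x) (M : Matrix (Fin n) (Fin n) F)
    (hM : ∀ x y, Cfsg.hermForm n F q (M *ᵥ x) (M *ᵥ y) = Cfsg.hermForm n F q x y)
    (ht : Cfsg.IsTransvection M) :
    ∃ (u : Fin n → F) (c : F), u ≠ 0 ∧ Cfsg.hermForm n F q u u = 0 ∧ c ≠ 0 ∧ τ c = -c ∧
      ∀ x, M *ᵥ x = x + (c * Cfsg.hermForm n F q x u) • u := by
  classical
  have hq := Cfsg.Agent.Helper7.herm_two_le hF
  have hq0 : q ≠ 0 := by omega
  obtain ⟨u, φ, hu, hφ, hN⟩ := Cfsg.Agent.S2579.exists_outer (M - 1) ht.1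
  have hM1 : M = 1 + Matrix.vecMulVec u φ := by rw [← hN]; abel
  have hMx : ∀ x, M *ᵥ x = x + (φ ⬝ᵥ x) • u := by
    intro x
    rw [hM1, Matrix.add_mulVec, Matrix.one_mulVec, Matrix.vecMulVec_mulVec, op_smul_eq_smul]
  obtain ⟨j, hj⟩ : ∃ j, φ j ≠ 0 := by
    by_contra hcon; push Not at hcon; exact hφ (funext hcon)
  have hφj : φ ⬝ᵥ (Pi.single j 1) = φ j := by simp
  have hφu : φ ⬝ᵥ u = 0 := by
    have h2 : ((M - 1) * (M - 1)) *ᵥ (Pi.single j (1 : F)) =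
        (0 : Matrix (Fin n) (Fin n) F) *ᵥ (Pi.single j (1 : F)) := by rw [ht.2]
    rw [hN, ← Matrix.mulVec_mulVec, Matrix.vecMulVec_mulVec, Matrix.vecMulVec_mulVec,
      op_smul_eq_smul, op_smul_eq_smul, hφj, dotProduct_smul, smul_eq_mul,
      Matrix.zero_mulVec] at h2
    rcases smul_eq_zero.mp h2 with h3 | h3
    · rcases mul_eq_zero.mp h3 with h4 | h4
      · exact absurd h4 hj
      · exact h4
    · exact absurd h3 hu
  have hE : ∀ x y, (φ ⬝ᵥ x) * Cfsg.hermForm n F q u y + τ (φ ⬝ᵥ y) * Cfsg.hermForm n F q x u +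
      (φ ⬝ᵥ x) * τ (φ ⬝ᵥ y) * Cfsg.hermForm n F q u u = 0 := by
    intro x y
    have h := hM x y
    rw [hMx, hMx] at h
    simp only [Cfsg.Agent.S0837.hf_add_left, Cfsg.Agent.S0837.hf_add_right n q τ hτ,
      Cfsg.Agent.S0837.hf_smul_left, Cfsg.Agent.S0837.hf_smul_right n q τ hτ] at h
    linear_combination h
  have huu : Cfsg.hermForm n F q u u = 0 := by
    have h := hE (Pi.single j 1) u
    rw [hφu, map_zero, hφj] at h
    have h2 : φ j * Cfsg.hermForm n F q u u = 0 := by linear_combination h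
    rcases mul_eq_zero.mp h2 with h3 | h3
    · exact absurd h3 hj
    · exact h3
  obtain ⟨y0, hy0⟩ := Cfsg.Agent.S0837.hf_nondeg hq0 n u hu
  have hy0' : Cfsg.hermForm n F q y0 u ≠ 0 := by
    intro h0
    apply hy0
    rw [← Cfsg.Agent.S0837.hf_conj n q τ hτ hτ2 y0 u, h0, map_zero]
  obtain ⟨c, hcdef⟩ : ∃ c, c = -τ (φ ⬝ᵥ y0) / Cfsg.hermForm n F q u y0 := ⟨_, rfl⟩
  have hφc : ∀ x, φ ⬝ᵥ x = c * Cfsg.hermForm n F q x u := by
    intro x
    have h := hE x y0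
    rw [huu, mul_zero, add_zero] at h
    rw [hcdef]
    field_simp
    linear_combination h
  have hc0 : c ≠ 0 := by
    intro h0
    have := hφc (Pi.single j 1)
    rw [hφj, h0, zero_mul] at this
    exact hj this
  have hcτ : τ c = -c := by
    have h := hE y0 y0
    rw [huu, mul_zero, add_zero, hφc y0, map_mul,
      Cfsg.Agent.S0837.hf_conj n q τ hτ hτ2 y0 u] at h
    have h2 : (c + τ c) * (Cfsg.hermForm n F q y0 u * Cfsg.hermForm n F q u y0) = 0 := by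
      linear_combination h
    rcases mul_eq_zero.mp h2 with h3 | h3
    · linear_combination h3
    · exact absurd h3 (mul_ne_zero hy0' hy0)
  refine ⟨u, c, hu, huu, hc0, hcτ, fun x => ?_⟩
  rw [hMx, hφc]

/-- A standard isotropic vector with vanishing third coordinate. -/
lemma exists_w0 [Fintype F] (hF : Fintype.card F = q ^ 2) (hn : 3 ≤ n) (τ : F ≃+* F)
    (hτ : ∀ x, τ x = x ^ q) :
    ∃ w0 : Fin n → F, w0 ≠ 0 ∧ Cfsg.hermForm n F q w0 w0 = 0 ∧ w0 ⟨2, by omega⟩ = 0 := by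
  classical
  have hq := Cfsg.Agent.Helper7.herm_two_le hF
  have hq0 : q ≠ 0 := by omega
  obtain ⟨ε, hε0, hε⟩ := (Cfsg.Agent.Helper7.normSet_facts hF).1 (-1)
    (Cfsg.Agent.Helper7.neg_one_mem_normSet hF)
  have h01 : (⟨0, by omega⟩ : Fin n) ≠ ⟨1, by omega⟩ := by
    intro h; rw [Fin.ext_iff] at h; simp at h
  have h02 : (⟨2, by omega⟩ : Fin n) ≠ ⟨0, by omega⟩ := by
    intro h; rw [Fin.ext_iff] at h; simp at h
  have h12 : (⟨2, by omega⟩ : Fin n) ≠ ⟨1, by omega⟩ := by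
    intro h; rw [Fin.ext_iff] at h; simp at h
  refine ⟨Pi.single (⟨0, by omega⟩ : Fin n) (1 : F) + ε • Pi.single (⟨1, by omega⟩ : Fin n) (1 : F),
    ?_, ?_, ?_⟩
  · intro h
    have h1 := congrFun h ⟨0, by omega⟩
    rw [Pi.add_apply, Pi.smul_apply, Pi.single_eq_same, Pi.single_eq_of_ne h01, smul_zero,
      add_zero, Pi.zero_apply] at h1
    exact one_ne_zero h1
  · rw [Cfsg.Agent.S0837.hf_add_left, Cfsg.Agent.S0837.hf_add_right n q τ hτ,
      Cfsg.Agent.S0837.hf_add_right n q τ hτ, Cfsg.Agent.S0837.hf_smul_left,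
      Cfsg.Agent.S0837.hf_smul_left, Cfsg.Agent.S0837.hf_smul_right n q τ hτ,
      Cfsg.Agent.S0837.hf_smul_right n q τ hτ, Cfsg.Agent.S0279.herm_single,
      Cfsg.Agent.S0279.herm_single, Cfsg.Agent.S0783.herm_single_ne hq0 _ _ h01,
      Cfsg.Agent.S0783.herm_single_ne hq0 _ _ (Ne.symm h01), hτ]
    linear_combination hε
  · rw [Pi.add_apply, Pi.smul_apply, Pi.single_eq_of_ne h02, Pi.single_eq_of_ne h12, smul_zero,
      add_zero]

lemma exists_su_move [Fintype F] (hF : Fintype.card F = q ^ 2) (hn : 3 ≤ n) (τ : F ≃+* F)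
    (hτ : ∀ x, τ x = x ^ q) (hτ2 : ∀ x, τ (τ x) = x) (hτne : τ ≠ RingEquiv.refl F)
    (w0 : Fin n → F) (hw0 : w0 ≠ 0) (hw00 : Cfsg.hermForm n F q w0 w0 = 0)
    (hw2 : w0 ⟨2, by omega⟩ = 0)
    (u : Fin n → F) (hu : u ≠ 0) (huu : Cfsg.hermForm n F q u u = 0) :
    ∃ g : GL (Fin n) F, g ∈ Cfsg.GU n F q ∧ (g : Matrix (Fin n) (Fin n) F).det = 1 ∧
      (g : Matrix (Fin n) (Fin n) F) *ᵥ u = w0 := by
  classical
  have hσne : (τ : F →+* F) ≠ RingHom.id F := by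
    intro h
    apply hτne
    ext x
    have := congrArg (fun f : F →+* F => f x) h
    exact this
  obtain ⟨g0, hg0, hg0u⟩ := Cfsg.Agent.S0782.exists_gu_move n (τ : F →+* F) hτ hτ2 hσne
    (fun _ : Fin 1 => u) (fun _ => w0)
    ((linearIndependent_unique_iff (R := F)).mpr hu)
    ((linearIndependent_unique_iff (R := F)).mpr hw0)
    (fun _ _ => huu) (fun _ _ => hw00)
  have hgu := hg0u 0
  obtain ⟨a, hadef⟩ : ∃ a : F, a = (g0 : Matrix (Fin n) (Fin n) F).det := ⟨_, rfl⟩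
  have ha1 : a ^ (q + 1) = 1 := by
    have h := congrArg (fun u : Fˣ => (u : F)) (Cfsg.Agent.S0783.det_pow_eq_one hF g0 hg0)
    simp only [Units.val_pow_eq_pow_val, Matrix.GeneralLinearGroup.val_det_apply,
      Units.val_one] at h
    rw [hadef]; exact h
  have ha0 : a ≠ 0 := by
    intro h0; rw [h0, zero_pow (by omega)] at ha1; exact zero_ne_one ha1
  obtain ⟨d, hddef⟩ : ∃ d : Fin n → F,
      d = fun i => if i = (⟨2, by omega⟩ : Fin n) then a⁻¹ else 1 := ⟨_, rfl⟩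
  have hd0 : ∀ i, d i ≠ 0 := by
    intro i
    rw [hddef]
    show (if i = (⟨2, by omega⟩ : Fin n) then a⁻¹ else 1) ≠ 0
    split_ifs
    · exact inv_ne_zero ha0
    · exact one_ne_zero
  have hd1 : ∀ i, d i ^ (q + 1) = 1 := by
    intro i
    rw [hddef]
    show (if i = (⟨2, by omega⟩ : Fin n) then a⁻¹ else 1) ^ (q + 1) = 1
    split_ifs
    · rw [inv_pow, ha1, inv_one]
    · exact one_pow _
  refine ⟨Cfsg.Agent.S0783.diagG d hd0 * g0,
    Subgroup.mul_mem _ (Cfsg.Agent.S0783.diagG_mem d hd0 hd1) hg0, ?_, ?_⟩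
  · rw [Units.val_mul, Matrix.det_mul, Cfsg.Agent.S0783.diagG_val, Matrix.det_diagonal, ← hadef,
      hddef]
    show (∏ i : Fin n, (if i = (⟨2, by omega⟩ : Fin n) then a⁻¹ else 1)) * a = 1
    rw [Finset.prod_ite_eq' Finset.univ (⟨2, by omega⟩ : Fin n) (fun _ => a⁻¹)]
    simp [ha0]
  · rw [Units.val_mul, ← Matrix.mulVec_mulVec, hgu, Cfsg.Agent.S0783.diagG_val]
    ext i
    rw [Matrix.mulVec_diagonal, hddef]
    show (if i = (⟨2, by omega⟩ : Fin n) then a⁻¹ else 1) * w0 i = w0 i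
    split_ifs with hi
    · rw [hi, hw2, mul_zero]
    · rw [one_mul]

lemma exists_su_move' [Fintype F] (hF : Fintype.card F = q ^ 2) (hn : 3 ≤ n) (τ : F ≃+* F)
    (hτ : ∀ x, τ x = x ^ q) (hτ2 : ∀ x, τ (τ x) = x) (hτne : τ ≠ RingEquiv.refl F)
    (u : Fin n → F) (hu : u ≠ 0) (huu : Cfsg.hermForm n F q u u = 0)
    (u' : Fin n → F) (hu' : u' ≠ 0) (huu' : Cfsg.hermForm n F q u' u' = 0) :
    ∃ g : GL (Fin n) F, g ∈ Cfsg.GU n F q ∧ (g : Matrix (Fin n) (Fin n) F).det = 1 ∧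
      (g : Matrix (Fin n) (Fin n) F) *ᵥ u = u' := by
  classical
  obtain ⟨w0, hw0, hw00, hw2⟩ := exists_w0 (q := q) n hF hn τ hτ
  obtain ⟨g1, hg1, hd1, hm1⟩ := exists_su_move n hF hn τ hτ hτ2 hτne w0 hw0 hw00 hw2 u hu huu
  obtain ⟨g2, hg2, hd2, hm2⟩ := exists_su_move n hF hn τ hτ hτ2 hτne w0 hw0 hw00 hw2 u' hu' huu'
  refine ⟨g2⁻¹ * g1, Subgroup.mul_mem _ (Subgroup.inv_mem _ hg2) hg1, ?_, ?_⟩
  · have h : ((g2⁻¹ : GL (Fin n) F) : Matrix (Fin n) (Fin n) F).det *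
        (g2 : Matrix (Fin n) (Fin n) F).det = 1 := by
      rw [← Matrix.det_mul, ← Units.val_mul, inv_mul_cancel, Units.val_one, Matrix.det_one]
    rw [hd2, mul_one] at h
    rw [Units.val_mul, Matrix.det_mul, h, hd1, mul_one]
  · rw [Units.val_mul, ← Matrix.mulVec_mulVec, hm1, ← hm2, Matrix.mulVec_mulVec, ← Units.val_mul,
      inv_mul_cancel, Units.val_one, Matrix.one_mulVec]

end su_transv

/-- In the special unitary group SU_n(q) with n ≥ 3 (isometries of Σ u_i v_i^q of determinant one over the field with q² elements), any two transvections (elements t with t − 1 of rank one and square zero) are conjugate. -/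
theorem result {K : Type*} [Field K] [Fintype K] {q n : ℕ} (hK : Fintype.card K = q ^ 2) (hn : 3 ≤ n) (s t : ↥(Cfsg.SU n K q)) (hs : Cfsg.IsTransvection (((s : GL (Fin n) K) : Matrix (Fin n) (Fin n) K))) (ht : Cfsg.IsTransvection (((t : GL (Fin n) K) : Matrix (Fin n) (Fin n) K))) : IsConj s t := by
  classical
  obtain ⟨τ, hτ, hτ2, hτne⟩ := Cfsg.Agent.Helper9.exists_frob9 hK
  have hsU := (Cfsg.Agent.S0279.mem_SU_iff s.1).mp s.2
  have htU := (Cfsg.Agent.S0279.mem_SU_iff t.1).mp t.2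
  obtain ⟨us, cs, hus, huss, hcs0, hcsτ, hsx⟩ := transv_form n hK τ hτ hτ2 _ hsU hs
  obtain ⟨ut, ct, hut, hutt, hct0, hctτ, htx⟩ := transv_form n hK τ hτ hτ2 _ htU ht
  have hq := Cfsg.Agent.Helper7.herm_two_le hK
  have hr0 : ct / cs ≠ 0 := div_ne_zero hct0 hcs0
  have hr : ct / cs ∈ Cfsg.Agent.Helper7.normSet K q := by
    refine ⟨hr0, ?_⟩
    have h1 : (ct / cs) ^ q = ct / cs := by
      rw [← hτ, map_div₀, hctτ, hcsτ, neg_div_neg_eq]
    have h2 : (ct / cs) ^ (q - 1) * (ct / cs) = 1 * (ct / cs) := by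
      rw [← pow_succ, Nat.sub_add_cancel (by omega), one_mul]; exact h1
    exact mul_right_cancel₀ hr0 h2
  obtain ⟨ν, hν0, hν⟩ := (Cfsg.Agent.Helper7.normSet_facts hK).1 _ hr
  obtain ⟨g, hgU, hgdet, hgu⟩ := exists_su_move' n hK hn τ hτ hτ2 hτne us hus huss (ν • ut)
    (smul_ne_zero hν0 hut)
    (by rw [Cfsg.Agent.S0837.hf_smul_left, Cfsg.Agent.S0837.hf_smul_right n q τ hτ, hutt,
      mul_zero, mul_zero])
  have hGmem : (⟨(g : Matrix (Fin n) (Fin n) K), hgdet⟩ : Matrix.SpecialLinearGroup (Fin n) K) ∈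
      Cfsg.SU n K q :=
    (Cfsg.Agent.S0279.mem_SU_iff _).mpr (fun u v => (Cfsg.Agent.S0783.mem_GU_iff g).mp hgU u v)
  have hsx' : ∀ x, (s.1 : Matrix (Fin n) (Fin n) K) *ᵥ x =
      x + (cs * Cfsg.hermForm n K q x us) • us := hsx
  have htx' : ∀ x, (t.1 : Matrix (Fin n) (Fin n) K) *ᵥ x =
      x + (ct * Cfsg.hermForm n K q x ut) • ut := htx
  rw [isConj_iff]
  refine ⟨⟨⟨(g : Matrix (Fin n) (Fin n) K), hgdet⟩, hGmem⟩, ?_⟩
  rw [mul_inv_eq_iff_eq_mul]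
  apply Subtype.ext
  apply Subtype.ext
  show (g : Matrix (Fin n) (Fin n) K) * (s.1 : Matrix (Fin n) (Fin n) K) =
    (t.1 : Matrix (Fin n) (Fin n) K) * (g : Matrix (Fin n) (Fin n) K)
  apply Cfsg.Agent.S0837.mat_ext
  intro x
  rw [← Matrix.mulVec_mulVec, ← Matrix.mulVec_mulVec, hsx', htx', Matrix.mulVec_add,
    Matrix.mulVec_smul, hgu]
  have h1 : Cfsg.hermForm n K q x us =
      τ ν * Cfsg.hermForm n K q ((g : Matrix (Fin n) (Fin n) K) *ᵥ x) ut := by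
    rw [← (Cfsg.Agent.S0783.mem_GU_iff g).mp hgU x us, hgu,
      Cfsg.Agent.S0837.hf_smul_right n q τ hτ]
  have h2 : cs * (ν * τ ν) = ct := by
    rw [hτ, hν]; field_simp
  rw [h1, smul_smul]
  congr 2
  linear_combination (Cfsg.hermForm n K q ((g : Matrix (Fin n) (Fin n) K) *ᵥ x) ut) * h2

end Cfsg.Agent.S2644
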