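import Cfsg.Statements.S0781
import Mathlib
import Cfsg.Agent.S2644

set_option autoImplicit false
open Cfsg

namespace Cfsg.Agent.S0781

open Matrix

section heis

variable {F : Type*} [Field F] (n q : ℕ)

lemma conj_dot (v x : Fin n → F) : (fun j => v j ^ q) ⬝ᵥ x = Cfsg.hermForm n F q x v := by
  unfold Cfsg.hermForm
  rw [dotProduct]
  exact Finset.sum_congr rfl (fun i _ => mul_comm _ _)

lemma ut_mulVec (v : Fin n → F) (c : F) (x : Fin n → F) :
    Cfsg.unitaryTransvection n q v c *ᵥ x = x + (c * Cfsg.hermForm n F q x v) • v := by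
  unfold Cfsg.unitaryTransvection
  rw [Matrix.add_mulVec, Matrix.one_mulVec, Matrix.smul_mulVec, Matrix.vecMulVec_mulVec,
    op_smul_eq_smul, conj_dot, smul_smul]

/-- The Heisenberg-type element `x ↦ x + H(x,v) (w + a v) - H(x,w) v` of `GL`. -/
noncomputable def rho (v w : Fin n → F) (a : F) : GL (Fin n) F :=
  Cfsg.Agent.S0772.rk (w + a • v) (fun j => v j ^ q) *
    Cfsg.Agent.S0772.rk ((-1 : F) • v) (fun j => w j ^ q)

lemma rho_ne1 (v w : Fin n → F) (a : F) (hvv : Cfsg.hermForm n F q v v = 0)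
    (hwv : Cfsg.hermForm n F q w v = 0) :
    (1 : F) + (fun j => v j ^ q) ⬝ᵥ (w + a • v) = 1 := by
  rw [conj_dot, Cfsg.Agent.S0837.hf_add_left, Cfsg.Agent.S0837.hf_smul_left, hwv, hvv, mul_zero,
    add_zero, add_zero]

lemma rho_ne2 (v w : Fin n → F) (hvw : Cfsg.hermForm n F q v w = 0) :
    (1 : F) + (fun j => w j ^ q) ⬝ᵥ ((-1 : F) • v) = 1 := by
  rw [conj_dot, Cfsg.Agent.S0837.hf_smul_left, hvw, mul_zero, add_zero]

lemma rho_mulVec (v w : Fin n → F) (a : F) (hvv : Cfsg.hermForm n F q v v = 0)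
    (hwv : Cfsg.hermForm n F q w v = 0) (hvw : Cfsg.hermForm n F q v w = 0) (x : Fin n → F) :
    ((rho n q v w a : GL (Fin n) F) : Matrix (Fin n) (Fin n) F) *ᵥ x =
      x + Cfsg.hermForm n F q x v • (w + a • v) + (-(Cfsg.hermForm n F q x w)) • v := by
  have h1 : (1 : F) + (fun j => v j ^ q) ⬝ᵥ (w + a • v) ≠ 0 := by
    rw [rho_ne1 n q v w a hvv hwv]; exact one_ne_zero
  have h2 : (1 : F) + (fun j => w j ^ q) ⬝ᵥ ((-1 : F) • v) ≠ 0 := by
    rw [rho_ne2 n q v w hvw]; exact one_ne_zero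
  unfold rho
  rw [Units.val_mul, ← Matrix.mulVec_mulVec, Cfsg.Agent.S0772.rk_mulVec _ _ h2,
    Cfsg.Agent.S0772.rk_mulVec _ _ h1, conj_dot, conj_dot, Cfsg.Agent.S0837.hf_add_left,
    Cfsg.Agent.S0837.hf_smul_left, Cfsg.Agent.S0837.hf_smul_left, hvv, mul_zero, mul_zero,
    add_zero]
  module

lemma rho_det (v w : Fin n → F) (a : F) (hvv : Cfsg.hermForm n F q v v = 0)
    (hwv : Cfsg.hermForm n F q w v = 0) (hvw : Cfsg.hermForm n F q v w = 0) :
    ((rho n q v w a : GL (Fin n) F) : Matrix (Fin n) (Fin n) F).det = 1 := by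
  have h1 : (1 : F) + (fun j => v j ^ q) ⬝ᵥ (w + a • v) ≠ 0 := by
    rw [rho_ne1 n q v w a hvv hwv]; exact one_ne_zero
  have h2 : (1 : F) + (fun j => w j ^ q) ⬝ᵥ ((-1 : F) • v) ≠ 0 := by
    rw [rho_ne2 n q v w hvw]; exact one_ne_zero
  unfold rho
  rw [Units.val_mul, Matrix.det_mul, Cfsg.Agent.S0782.det_rk n _ _ h1,
    Cfsg.Agent.S0782.det_rk n _ _ h2, rho_ne1 n q v w a hvv hwv, rho_ne2 n q v w hvw, mul_one]

lemma rho_mem (τ : F ≃+* F) (hτ : ∀ x, τ x = x ^ q) (hτ2 : ∀ x, τ (τ x) = x)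
    (v w : Fin n → F) (a : F) (hvv : Cfsg.hermForm n F q v v = 0)
    (hwv : Cfsg.hermForm n F q w v = 0) (hvw : Cfsg.hermForm n F q v w = 0)
    (ha : a + τ a + Cfsg.hermForm n F q w w = 0) :
    rho n q v w a ∈ Cfsg.GU n F q := by
  rw [Cfsg.Agent.S0783.mem_GU_iff]
  intro x y
  rw [rho_mulVec n q v w a hvv hwv hvw, rho_mulVec n q v w a hvv hwv hvw]
  have hwy : Cfsg.hermForm n F q w y = τ (Cfsg.hermForm n F q y w) :=
    (Cfsg.Agent.S0837.hf_conj n q τ hτ hτ2 y w).symm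
  have hvy : Cfsg.hermForm n F q v y = τ (Cfsg.hermForm n F q y v) :=
    (Cfsg.Agent.S0837.hf_conj n q τ hτ hτ2 y v).symm
  simp only [Cfsg.Agent.S0837.hf_add_left, Cfsg.Agent.S0837.hf_add_right n q τ hτ,
    Cfsg.Agent.S0837.hf_smul_left, Cfsg.Agent.S0837.hf_smul_right n q τ hτ, hvv, hwv, hvw,
    hwy, hvy, map_mul, map_neg, map_add]
  linear_combination
    (Cfsg.hermForm n F q x v * τ (Cfsg.hermForm n F q y v)) * ha

end heis

/-- In SU_n(q) with n ≥ 4, or n = 3 and q > 2, every element whose matrix is a unitary transvection x ↦ x + c h(x, v) v (v isotropic) is a commutator ⁅B, C⁆ of two elements of SU_n(q). -/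
theorem result {F : Type*} [Field F] [Fintype F] {q : ℕ} (hF : Fintype.card F = q ^ 2) (n : ℕ) (hn : 4 ≤ n ∨ (n = 3 ∧ 3 ≤ q)) (A : ↥(Cfsg.SU n F q)) (v : Fin n → F) (c : F) (hv0 : Cfsg.hermForm n F q v v = 0) (hA : ((A : Matrix.SpecialLinearGroup (Fin n) F) : Matrix (Fin n) (Fin n) F) = Cfsg.unitaryTransvection n q v c) : A ∈ commutatorSet ↥(Cfsg.SU n F q) := by
  classical
  have hn3 : 3 ≤ n := by
    rcases hn with h | ⟨h, -⟩ <;> omega
  obtain ⟨τ, hτ, hτ2, hτne⟩ := Cfsg.Agent.Helper9.exists_frob9 hF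
  have hq := Cfsg.Agent.Helper7.herm_two_le hF
  have hq0 : q ≠ 0 := by omega
  have hAx : ∀ x, (A.1 : Matrix (Fin n) (Fin n) F) *ᵥ x =
      x + (c * Cfsg.hermForm n F q x v) • v := by
    intro x; rw [hA, ut_mulVec]
  by_cases hv : v = 0
  · have hA1 : A = 1 := by
      apply Subtype.ext
      apply Subtype.ext
      apply Cfsg.Agent.S0837.mat_ext
      intro x
      rw [hAx, hv, smul_zero, add_zero]
      show x = (1 : Matrix (Fin n) (Fin n) F) *ᵥ x
      rw [Matrix.one_mulVec]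
    rw [hA1]
    exact ⟨1, 1, by simp⟩
  · have hAU := (Cfsg.Agent.S0279.mem_SU_iff A.1).mp A.2
    obtain ⟨y0, hy0⟩ := Cfsg.Agent.S0837.hf_nondeg hq0 n v hv
    have hy0' : Cfsg.hermForm n F q y0 v ≠ 0 := by
      intro h0
      apply hy0
      rw [← Cfsg.Agent.S0837.hf_conj n q τ hτ hτ2 y0 v, h0, map_zero]
    have hcτ : τ c = -c := by
      have h := hAU y0 y0
      rw [hAx] at h
      simp only [Cfsg.Agent.S0837.hf_add_left, Cfsg.Agent.S0837.hf_add_right n q τ hτ,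
        Cfsg.Agent.S0837.hf_smul_left, Cfsg.Agent.S0837.hf_smul_right n q τ hτ, hv0, map_mul,
        Cfsg.Agent.S0837.hf_conj n q τ hτ hτ2] at h
      have h2 : (c + τ c) * (Cfsg.hermForm n F q y0 v * Cfsg.hermForm n F q v y0) = 0 := by
        linear_combination h
      rcases mul_eq_zero.mp h2 with h3 | h3
      · linear_combination h3
      · exact absurd h3 (mul_ne_zero hy0' hy0)
    -- a non-isotropic vector orthogonal to v
    obtain ⟨w0, hw0, hw00, hw2⟩ := Cfsg.Agent.S2644.exists_w0 (q := q) n hF hn3 τ hτ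
    obtain ⟨g, hgU, hgdet, hgv⟩ := Cfsg.Agent.S2644.exists_su_move n hF hn3 τ hτ hτ2 hτne
      w0 hw0 hw00 hw2 v hv hv0
    obtain ⟨w1, hw1def⟩ : ∃ w1, w1 = ((g⁻¹ : GL (Fin n) F) : Matrix (Fin n) (Fin n) F) *ᵥ
        (Pi.single (⟨2, by omega⟩ : Fin n) (1 : F)) := ⟨_, rfl⟩
    have hgw1 : (g : Matrix (Fin n) (Fin n) F) *ᵥ w1 =
        Pi.single (⟨2, by omega⟩ : Fin n) (1 : F) := by
      rw [hw1def, Matrix.mulVec_mulVec, ← Units.val_mul, mul_inv_cancel, Units.val_one,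
        Matrix.one_mulVec]
    have hw1v : Cfsg.hermForm n F q w1 v = 0 := by
      rw [← (Cfsg.Agent.S0783.mem_GU_iff g).mp hgU w1 v, hgw1, hgv]
      unfold Cfsg.hermForm
      apply Finset.sum_eq_zero
      intro i _
      by_cases hi : i = (⟨2, by omega⟩ : Fin n)
      · rw [hi, hw2, zero_pow hq0, mul_zero]
      · rw [Pi.single_eq_of_ne hi, zero_mul]
    have hw1w1 : Cfsg.hermForm n F q w1 w1 = 1 := by
      rw [← (Cfsg.Agent.S0783.mem_GU_iff g).mp hgU w1 w1, hgw1]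
      exact Cfsg.Agent.S0279.herm_single _
    have hvw1 : Cfsg.hermForm n F q v w1 = 0 := by
      rw [← Cfsg.Agent.S0837.hf_conj n q τ hτ hτ2 w1 v, hw1v, map_zero]
    -- an element h with h - τ h = c
    obtain ⟨θ, hθ⟩ : ∃ θ, τ θ ≠ θ := by
      by_contra hcon; push Not at hcon; exact hτne (RingEquiv.ext hcon)
    have hδ0 : θ - τ θ ≠ 0 := sub_ne_zero.mpr (Ne.symm hθ)
    obtain ⟨h, hhdef⟩ : ∃ h, h = c / (θ - τ θ) * θ := ⟨_, rfl⟩
    have hh : h - τ h = c := by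
      rw [hhdef, map_mul, map_div₀, hcτ, map_sub, hτ2]
      have hδ0' : τ θ - θ ≠ 0 := sub_ne_zero.mpr hθ
      field_simp
      ring
    obtain ⟨w2, hw2def⟩ : ∃ w2, w2 = τ h • w1 := ⟨_, rfl⟩
    have hw2v : Cfsg.hermForm n F q w2 v = 0 := by
      rw [hw2def, Cfsg.Agent.S0837.hf_smul_left, hw1v, mul_zero]
    have hvw2 : Cfsg.hermForm n F q v w2 = 0 := by
      rw [hw2def, Cfsg.Agent.S0837.hf_smul_right n q τ hτ, hvw1, mul_zero]
    have hw1w2 : Cfsg.hermForm n F q w1 w2 = h := by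
      rw [hw2def, Cfsg.Agent.S0837.hf_smul_right n q τ hτ, hτ2, hw1w1, mul_one]
    have hw2w1 : Cfsg.hermForm n F q w2 w1 = τ h := by
      rw [hw2def, Cfsg.Agent.S0837.hf_smul_left, hw1w1, mul_one]
    have hw2w2 : Cfsg.hermForm n F q w2 w2 = τ h * h := by
      rw [hw2def, Cfsg.Agent.S0837.hf_smul_left, Cfsg.Agent.S0837.hf_smul_right n q τ hτ, hτ2,
        hw1w1, mul_one]
    have htr : ∀ e : F, τ e = e → ∃ s : F, s + τ s + e = 0 := by
      intro e he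
      have hcard := Cfsg.Agent.S0829.tr_fib hF τ hτ hτ2 (-e) (by rw [map_neg, he])
      have hne : Nonempty {t : F // t ^ q + t = -e} :=
        (Nat.card_pos_iff.mp (by rw [hcard]; omega)).1
      obtain ⟨⟨s, hs⟩⟩ := hne
      exact ⟨s, by rw [hτ]; linear_combination hs⟩
    obtain ⟨a1, ha1⟩ := htr 1 (map_one τ)
    obtain ⟨a2, ha2⟩ := htr (τ h * h) (by rw [map_mul, hτ2, mul_comm])
    have hR1U : rho n q v w1 a1 ∈ Cfsg.GU n F q :=
      rho_mem n q τ hτ hτ2 v w1 a1 hv0 hw1v hvw1 (by rw [hw1w1]; exact ha1)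
    have hR2U : rho n q v w2 a2 ∈ Cfsg.GU n F q :=
      rho_mem n q τ hτ hτ2 v w2 a2 hv0 hw2v hvw2 (by rw [hw2w2]; exact ha2)
    have hR1 := rho_mulVec n q v w1 a1 hv0 hw1v hvw1
    have hR2 := rho_mulVec n q v w2 a2 hv0 hw2v hvw2
    have hS1 : (⟨((rho n q v w1 a1 : GL (Fin n) F) : Matrix (Fin n) (Fin n) F),
        rho_det n q v w1 a1 hv0 hw1v hvw1⟩ : Matrix.SpecialLinearGroup (Fin n) F) ∈
        Cfsg.SU n F q :=
      (Cfsg.Agent.S0279.mem_SU_iff _).mpr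
        (fun x y => (Cfsg.Agent.S0783.mem_GU_iff _).mp hR1U x y)
    have hS2 : (⟨((rho n q v w2 a2 : GL (Fin n) F) : Matrix (Fin n) (Fin n) F),
        rho_det n q v w2 a2 hv0 hw2v hvw2⟩ : Matrix.SpecialLinearGroup (Fin n) F) ∈
        Cfsg.SU n F q :=
      (Cfsg.Agent.S0279.mem_SU_iff _).mpr
        (fun x y => (Cfsg.Agent.S0783.mem_GU_iff _).mp hR2U x y)
    refine ⟨⟨_, hS1⟩, ⟨_, hS2⟩, ?_⟩
    rw [commutatorElement_def, mul_inv_eq_iff_eq_mul, mul_inv_eq_iff_eq_mul]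
    apply Subtype.ext
    apply Subtype.ext
    show ((rho n q v w1 a1 : GL (Fin n) F) : Matrix (Fin n) (Fin n) F) *
        ((rho n q v w2 a2 : GL (Fin n) F) : Matrix (Fin n) (Fin n) F) =
      (A.1 : Matrix (Fin n) (Fin n) F) *
        ((rho n q v w2 a2 : GL (Fin n) F) : Matrix (Fin n) (Fin n) F) *
        ((rho n q v w1 a1 : GL (Fin n) F) : Matrix (Fin n) (Fin n) F)
    apply Cfsg.Agent.S0837.mat_ext
    intro x
    simp only [← Matrix.mulVec_mulVec]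
    rw [← hh] at hAx
    simp only [hR1, hR2, hAx, Cfsg.Agent.S0837.hf_add_left, Cfsg.Agent.S0837.hf_smul_left, hv0,
      hw1v, hw2v, hvw1, hvw2, hw1w2, hw2w1]
    module

end Cfsg.Agent.S0781
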