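import Cfsg.Statements.S1313
import Cfsg.Agent.Helper3.Layer

set_option autoImplicit false
open Cfsg

namespace Cfsg.Agent.S1313

/-- For a finite group H, |H| ≤ |F*(H)|!. -/
theorem result {H : Type*} [Group H] [Finite H] : Nat.card H ≤ Nat.factorial (Nat.card ↥(Cfsg.generalizedFittingSubgroup H)) := by
  classical
  let φ : H →* MulAut ↥(Cfsg.generalizedFittingSubgroup H) := MulAut.conjNormal
  have hker : φ.ker ≤ Cfsg.generalizedFittingSubgroup H := by
    intro g hg
    apply Cfsg.Agent.Helper3.centralizer_fstar_le H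
    rw [Subgroup.mem_centralizer_iff]
    intro h hh
    have h1 : φ g ⟨h, hh⟩ = ⟨h, hh⟩ := by rw [MonoidHom.mem_ker.mp hg]; rfl
    have h2 : g * h * g⁻¹ = h := by
      have := congrArg Subtype.val h1
      simpa [φ, MulAut.conjNormal_apply] using this
    calc h * g = (g * h * g⁻¹) * g := by rw [h2]
      _ = g * h := by group
  have h1 : Nat.card φ.ker ≤ Nat.card ↥(Cfsg.generalizedFittingSubgroup H) :=
    Subgroup.card_le_of_le hker
  have h2 : Nat.card φ.range ≤
      Nat.factorial (Nat.card ↥(Cfsg.generalizedFittingSubgroup H) - 1) := by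
    refine le_trans (Subgroup.card_le_card_group _) ?_
    let ψ : MulAut ↥(Cfsg.generalizedFittingSubgroup H) →
        Equiv.Perm {x : ↥(Cfsg.generalizedFittingSubgroup H) // x ≠ 1} := fun e =>
      e.toEquiv.subtypeEquiv (fun a => by simp)
    have hψ : Function.Injective ψ := by
      intro e e' hee
      ext x
      by_cases hx : x = 1
      · subst hx; simp
      · have := congrArg (fun f => ((f ⟨x, hx⟩ : {x : ↥(Cfsg.generalizedFittingSubgroup H) // x ≠ 1}) :
          ↥(Cfsg.generalizedFittingSubgroup H))) hee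
        simpa [ψ] using this
    have h3 := Nat.card_le_card_of_injective ψ hψ
    rw [Nat.card_perm] at h3
    refine le_trans h3 (Nat.factorial_le ?_)
    have : Nat.card {x : ↥(Cfsg.generalizedFittingSubgroup H) // x ≠ 1} <
        Nat.card ↥(Cfsg.generalizedFittingSubgroup H) :=
      Finite.card_subtype_lt (x := 1) (by simp)
    omega
  have h3 : Nat.card H = Nat.card φ.ker * Nat.card φ.range := by
    rw [← Subgroup.index_ker, Subgroup.card_mul_index]
  rw [h3]
  have hpos : 0 < Nat.card ↥(Cfsg.generalizedFittingSubgroup H) := Nat.card_pos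
  calc Nat.card φ.ker * Nat.card φ.range ≤ Nat.card ↥(Cfsg.generalizedFittingSubgroup H) *
        (Nat.card ↥(Cfsg.generalizedFittingSubgroup H) - 1).factorial := Nat.mul_le_mul h1 h2
    _ = (Nat.card ↥(Cfsg.generalizedFittingSubgroup H)).factorial :=
        Nat.mul_factorial_pred hpos.ne'

end Cfsg.Agent.S1313
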