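import Cfsg.Statements.S1894
import Cfsg.Agent.Helper4.PGroup

set_option autoImplicit false
open Cfsg

namespace Cfsg.Agent.S1894

/-- Let P be a finite p-group, A a normal subgroup of P and B an abelian subgroup of A that is normal in P. Then some subgroup C of A containing B is normal in P and is self-centralizing and normal in A (C ∈ SCN(A)). -/
theorem result {P : Type*} [Group P] [Finite P] {p : ℕ} [Fact p.Prime] (hP : IsPGroup p P)
    (A : Subgroup P) [A.Normal] (B : Subgroup P) [B.Normal] (hBA : B ≤ A) (hB : IsMulCommutative B) :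
    ∃ C : Subgroup P, C.Normal ∧ B ≤ C ∧ Cfsg.IsSCN A C := by
  classical
  obtain ⟨C, hBC, hCmax⟩ := Finite.exists_le_maximal
    (p := fun C : Subgroup P => C.Normal ∧ B ≤ C ∧ C ≤ A ∧ IsMulCommutative C) (a := B)
    ⟨inferInstance, le_rfl, hBA, hB⟩
  obtain ⟨hCn, -, hCA, hCab⟩ := hCmax.prop
  have _instC : C.Normal := hCn
  have hCcen : C ≤ Subgroup.centralizer (C : Set P) :=
    Subgroup.le_centralizer_iff_isMulCommutative.mpr hCab
  refine ⟨C, hCn, hBC, hCA, ?_, ?_⟩
  · rw [Subgroup.normalizer_eq_top]; exact le_top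
  · apply le_antisymm _ (le_inf hCA hCcen)
    by_contra hne
    have hDn : (A ⊓ Subgroup.centralizer (C : Set P)).Normal := inferInstance
    have hD'n : ((A ⊓ Subgroup.centralizer (C : Set P)).map (QuotientGroup.mk' C)).Normal :=
      hDn.map _ (QuotientGroup.mk'_surjective C)
    have hD'ne : (A ⊓ Subgroup.centralizer (C : Set P)).map (QuotientGroup.mk' C) ≠ ⊥ := by
      intro h
      rw [Subgroup.map_eq_bot_iff, QuotientGroup.ker_mk'] at h
      exact hne h
    obtain ⟨x', hx'D, hx'1, hx'cen⟩ :=
      Helper4.exists_ne_one_mem_center_of_normal (hP.to_quotient C) _ hD'ne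
    obtain ⟨x, hxD, rfl⟩ := Subgroup.mem_map.mp hx'D
    have hxC : x ∉ C := by
      intro h
      exact hx'1 ((QuotientGroup.eq_one_iff x).mpr h)
    have hxA : x ∈ A := (Subgroup.mem_inf.mp hxD).1
    have hxcen : x ∈ Subgroup.centralizer (C : Set P) := (Subgroup.mem_inf.mp hxD).2
    -- the abelian subgroup generated by C and x
    have hEab : IsMulCommutative (Subgroup.closure ((C : Set P) ∪ {x})) := by
      apply Subgroup.isMulCommutative_closure
      rintro a (ha | ha) b (hb | hb)
      · exact (hCcen hb a ha)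
      · rw [Set.mem_singleton_iff] at hb; subst hb
        exact (hxcen a ha)
      · rw [Set.mem_singleton_iff] at ha; subst ha
        exact (hxcen b hb).symm
      · rw [Set.mem_singleton_iff] at ha hb; rw [ha, hb]
    have hEA : Subgroup.closure ((C : Set P) ∪ {x}) ≤ A := by
      rw [Subgroup.closure_le]
      rintro a (ha | ha)
      · exact hCA ha
      · rw [Set.mem_singleton_iff] at ha; subst ha; exact hxA
    -- the normal subgroup C' = preimage of ⟨x'⟩
    have hZn : (Subgroup.zpowers (QuotientGroup.mk' C x)).Normal := by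
      constructor
      intro n hn g
      have hncen : n ∈ Subgroup.center (P ⧸ C) :=
        (Subgroup.zpowers_le.mpr hx'cen) hn
      have : g * n * g⁻¹ = n := by
        rw [Subgroup.mem_center_iff] at hncen
        rw [hncen g]; group
      rw [this]; exact hn
    have hC'n : ((Subgroup.zpowers (QuotientGroup.mk' C x)).comap (QuotientGroup.mk' C)).Normal :=
      hZn.comap _
    have hC'E : (Subgroup.zpowers (QuotientGroup.mk' C x)).comap (QuotientGroup.mk' C) ≤
        Subgroup.closure ((C : Set P) ∪ {x}) := by
      intro y hy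
      rw [Subgroup.mem_comap, Subgroup.mem_zpowers_iff] at hy
      obtain ⟨k, hk⟩ := hy
      rw [← map_zpow] at hk
      have h2 : (x ^ k)⁻¹ * y ∈ C := by
        have := QuotientGroup.eq.mp hk
        exact this
      have h3 : y = x ^ k * ((x ^ k)⁻¹ * y) := by group
      rw [h3]
      have hxE : x ∈ Subgroup.closure ((C : Set P) ∪ {x}) :=
        Subgroup.subset_closure (Set.mem_union_right _ (Set.mem_singleton x))
      have hcE : (x ^ k)⁻¹ * y ∈ Subgroup.closure ((C : Set P) ∪ {x}) :=
        Subgroup.subset_closure (Set.mem_union_left _ h2)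
      exact Subgroup.mul_mem _ (Subgroup.zpow_mem _ hxE k) hcE
    have hCC' : C ≤ (Subgroup.zpowers (QuotientGroup.mk' C x)).comap (QuotientGroup.mk' C) := by
      intro c hc
      rw [Subgroup.mem_comap]
      have : QuotientGroup.mk' C c = 1 := (QuotientGroup.eq_one_iff c).mpr hc
      rw [this]; exact Subgroup.one_mem _
    have hxC' : x ∈ (Subgroup.zpowers (QuotientGroup.mk' C x)).comap (QuotientGroup.mk' C) :=
      Subgroup.mem_comap.mpr (Subgroup.mem_zpowers _)
    have hC'ab : IsMulCommutative
        ((Subgroup.zpowers (QuotientGroup.mk' C x)).comap (QuotientGroup.mk' C)) := by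
      apply Subgroup.le_centralizer_iff_isMulCommutative.mp
      exact hC'E.trans ((Subgroup.le_centralizer_iff_isMulCommutative.mpr hEab).trans
        (Subgroup.centralizer_le hC'E))
    have := hCmax.le_of_ge ⟨hC'n, hBC.trans hCC', hC'E.trans hEA, hC'ab⟩ hCC'
    exact hxC (this hxC')


end Cfsg.Agent.S1894
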