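import Cfsg.Statements.S1466
import Mathlib
import Cfsg.Agent.S1894

set_option autoImplicit false
open Cfsg

namespace Cfsg.Agent.S1466

/-- Let p be a prime and R a nontrivial finite p-group. Then for every i > 0, Z(R) ≤ C_R(L_i(R)) ≤ L_i(R); likewise Z(R) ≤ C_R(L_*(R)) ≤ L_*(R) and Z(R) ≤ C_R(L(R)) ≤ L(R); and L(R) ≠ 1, L_*(R) ≠ 1. -/
theorem result {R : Type*} [Group R] [Finite R] (p : ℕ) [Fact p.Prime] (hR : IsPGroup p R) [Nontrivial R] :
    (∀ i : ℕ, 0 < i → Subgroup.center R ≤ Subgroup.centralizer ((Cfsg.puigSeq R i : Subgroup R) : Set R) ∧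
        Subgroup.centralizer ((Cfsg.puigSeq R i : Subgroup R) : Set R) ≤ Cfsg.puigSeq R i) ∧
      (Subgroup.center R ≤ Subgroup.centralizer ((Cfsg.puigLower R : Subgroup R) : Set R) ∧ Subgroup.centralizer ((Cfsg.puigLower R : Subgroup R) : Set R) ≤ Cfsg.puigLower R) ∧
      (Subgroup.center R ≤ Subgroup.centralizer ((Cfsg.puigSubgroup R : Subgroup R) : Set R) ∧ Subgroup.centralizer ((Cfsg.puigSubgroup R : Subgroup R) : Set R) ≤ Cfsg.puigSubgroup R) ∧
      Cfsg.puigSubgroup R ≠ ⊥ ∧ Cfsg.puigLower R ≠ ⊥ := by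
  classical
  haveI hbn : (⊥ : Subgroup R).Normal := inferInstance
  haveI htn : (⊤ : Subgroup R).Normal := inferInstance
  have hbc : IsMulCommutative (⊥ : Subgroup R) := by
    refine ⟨⟨fun a b => ?_⟩⟩
    have ha : a = 1 := Subsingleton.elim _ _
    have hb : b = 1 := Subsingleton.elim _ _
    rw [ha, hb]
  obtain ⟨C, hCn, -, hCle, hCN, hCC⟩ :=
    Cfsg.Agent.S1894.result hR (⊤ : Subgroup R) (⊥ : Subgroup R) bot_le hbc
  haveI := hCn
  have hcentC : Subgroup.centralizer (C : Set R) = C := by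
    have h := hCC
    rwa [top_inf_eq] at h
  have hCab : IsMulCommutative C :=
    Subgroup.le_centralizer_iff_isMulCommutative.mp (le_of_eq hcentC.symm)
  have hstep : ∀ X : Subgroup R, C ≤ Cfsg.puigStep X := by
    intro X
    apply le_sSup
    refine ⟨hCab, ?_⟩
    rw [Subgroup.normalizer_eq_top (H := C)]
    exact le_top
  have hseq : ∀ i, 0 < i → C ≤ Cfsg.puigSeq R i := by
    intro i hi
    obtain ⟨j, rfl⟩ := Nat.exists_eq_succ_of_ne_zero hi.ne'
    exact hstep _
  have hkey : ∀ L : Subgroup R, C ≤ L →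
      Subgroup.center R ≤ Subgroup.centralizer (L : Set R) ∧
        Subgroup.centralizer (L : Set R) ≤ L := by
    intro L hL
    refine ⟨Subgroup.center_le_centralizer _, ?_⟩
    calc Subgroup.centralizer (L : Set R) ≤ Subgroup.centralizer (C : Set R) :=
          Subgroup.centralizer_le (SetLike.coe_subset_coe.mpr hL)
      _ = C := hcentC
      _ ≤ L := hL
  have hCne : C ≠ ⊥ := by
    intro h
    rw [h] at hcentC
    obtain ⟨x, hx⟩ := exists_ne (1 : R)
    have hxc : x ∈ Subgroup.centralizer (((⊥ : Subgroup R) : Subgroup R) : Set R) := by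
      rw [Subgroup.mem_centralizer_iff]
      intro h hh
      rw [SetLike.mem_coe, Subgroup.mem_bot] at hh
      rw [hh, one_mul, mul_one]
    rw [hcentC, Subgroup.mem_bot] at hxc
    exact hx hxc
  have hlow : C ≤ Cfsg.puigLower R := by
    have h2 := hseq (2 * 1) (by norm_num)
    exact le_trans h2 (le_iSup (fun n => Cfsg.puigSeq R (2 * n)) 1)
  have hsub : C ≤ Cfsg.puigSubgroup R := by
    show C ≤ ⨅ n : ℕ, Cfsg.puigSeq R (2 * n + 1)
    apply le_iInf
    intro n
    exact hseq _ (by omega)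
  refine ⟨fun i hi => hkey _ (hseq i hi), hkey _ hlow, hkey _ hsub, ?_, ?_⟩
  · intro h
    rw [h] at hsub
    exact hCne (le_bot_iff.mp hsub)
  · intro h
    rw [h] at hlow
    exact hCne (le_bot_iff.mp hlow)

end Cfsg.Agent.S1466
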