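import Cfsg.Statements.S1892
import Cfsg.Agent.Helper4.HH123
import Cfsg.Agent.Helper5.CharP
import Cfsg.Agent.Helper5.Stability

set_option autoImplicit false
open Cfsg

namespace Cfsg.Agent.S1892

/-- The subgroup of elements normalizing `C` and acting trivially on the cosets `yC`, `y ∈ P`. -/
def s1892T {S : Type*} [Group S] (P C : Subgroup S) : Subgroup S where
  carrier := {t | ((∀ c ∈ C, t * c * t⁻¹ ∈ C) ∧ ∀ y ∈ P, y⁻¹ * (t * y * t⁻¹) ∈ C) ∧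
    ((∀ c ∈ C, t⁻¹ * c * t⁻¹⁻¹ ∈ C) ∧ ∀ y ∈ P, y⁻¹ * (t⁻¹ * y * t⁻¹⁻¹) ∈ C)}
  one_mem' := by
    refine ⟨⟨fun c hc => by simpa using hc, fun y _ => by simp⟩,
      ⟨fun c hc => by simpa using hc, fun y _ => by simp⟩⟩
  mul_mem' := by
    rintro t s ⟨⟨ht1, ht2⟩, ⟨ht3, ht4⟩⟩ ⟨⟨hs1, hs2⟩, ⟨hs3, hs4⟩⟩
    refine ⟨⟨?_, ?_⟩, ⟨?_, ?_⟩⟩
    · intro c hc
      have h1 := ht1 _ (hs1 c hc)
      have h2 : t * s * c * (t * s)⁻¹ = t * (s * c * s⁻¹) * t⁻¹ := by group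
      rw [h2]; exact h1
    · intro y hy
      have h1 := ht2 y hy
      have h2 := ht1 _ (hs2 y hy)
      have h3 : y⁻¹ * (t * s * y * (t * s)⁻¹) = (y⁻¹ * (t * y * t⁻¹)) * (t * (y⁻¹ * (s * y * s⁻¹)) * t⁻¹) := by
        group
      rw [h3]; exact C.mul_mem h1 h2
    · intro c hc
      have h1 := hs3 _ (ht3 c hc)
      have h2 : (t * s)⁻¹ * c * (t * s)⁻¹⁻¹ = s⁻¹ * (t⁻¹ * c * t⁻¹⁻¹) * s⁻¹⁻¹ := by group
      rw [h2]; exact h1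
    · intro y hy
      have h1 := hs4 y hy
      have h2 := hs3 _ (ht4 y hy)
      have h3 : y⁻¹ * ((t * s)⁻¹ * y * (t * s)⁻¹⁻¹) =
          (y⁻¹ * (s⁻¹ * y * s⁻¹⁻¹)) * (s⁻¹ * (y⁻¹ * (t⁻¹ * y * t⁻¹⁻¹)) * s⁻¹⁻¹) := by
        group
      rw [h3]; exact C.mul_mem h1 h2
  inv_mem' := by
    rintro t ⟨h1, h2⟩
    refine ⟨h2, ?_⟩
    rw [inv_inv]
    exact h1

theorem s1892_conj {S : Type*} [Group S] (P C Q : Subgroup S) (hPn : P.Normal)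
    (hCQ : ∀ q ∈ Q, ∀ c ∈ C, q * c = c * q) (t : S)
    (ht : (∀ c ∈ C, t * c * t⁻¹ ∈ C) ∧ ∀ y ∈ P, y⁻¹ * (t * y * t⁻¹) ∈ C) (q : S) (hq : q ∈ Q) :
    (∀ c ∈ C, (q * t * q⁻¹) * c * (q * t * q⁻¹)⁻¹ ∈ C) ∧
      ∀ y ∈ P, y⁻¹ * ((q * t * q⁻¹) * y * (q * t * q⁻¹)⁻¹) ∈ C := by
  have hconj : ∀ c ∈ C, q * c * q⁻¹ = c := by
    intro c hc
    rw [hCQ q hq c hc]; group
  have hconj' : ∀ c ∈ C, q⁻¹ * c * q = c := by
    intro c hc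
    have h1 : q⁻¹ * c * q = q⁻¹ * (c * q) := by group
    rw [h1, ← hCQ q hq c hc]; group
  constructor
  · intro c hc
    have h1 := ht.1 c hc
    have h2 : (q * t * q⁻¹) * c * (q * t * q⁻¹)⁻¹ = q * (t * (q⁻¹ * c * q) * t⁻¹) * q⁻¹ := by group
    rw [h2, hconj' c hc, hconj _ h1]
    exact h1
  · intro y hy
    have hy' : q⁻¹ * y * q⁻¹⁻¹ ∈ P := hPn.conj_mem y hy q⁻¹
    have h1 := ht.2 _ hy'
    have h2 : y⁻¹ * ((q * t * q⁻¹) * y * (q * t * q⁻¹)⁻¹) =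
        q * ((q⁻¹ * y * q⁻¹⁻¹)⁻¹ * (t * (q⁻¹ * y * q⁻¹⁻¹) * t⁻¹)) * q⁻¹ := by group
    rw [h2, hconj _ h1]
    exact h1

open scoped commutatorElement in
/-- Let S be a finite p-solvable group with no nontrivial normal subgroup of order prime to p, A a p-subgroup of S, and Q a nontrivial A-invariant subgroup of order prime to p with [A, Q] = Q. Then the commutator [O_p(S), A, Q] is nontrivial. -/
theorem result {S : Type*} [Group S] [Finite S] {p : ℕ} [Fact p.Prime]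
    (hS : Cfsg.IsPSolvable p S) (hred : Cfsg.pPrimeCore p S = ⊥)
    (A Q : Subgroup S) (hA : IsPGroup p A) (hQ : ¬ p ∣ Nat.card Q) (hQ1 : Q ≠ ⊥)
    (hinv : ∀ a ∈ A, ∀ x ∈ Q, a * x * a⁻¹ ∈ Q) (hAQ : ⁅A, Q⁆ = Q) :
    ⁅⁅Cfsg.pCore p S, A⁆, Q⁆ ≠ ⊥ := by
  intro hbot
  have hpp : p.Prime := Fact.out
  have hPn : (Cfsg.pCore p S).Normal := Cfsg.Agent.Helper5.pCore_normal p S
  have hPp : IsPGroup p (Cfsg.pCore p S) := Cfsg.Agent.Helper5.pCore_isPGroup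
  have hQcop : (Nat.card Q).Coprime p := ((Nat.Prime.coprime_iff_not_dvd hpp).mpr hQ).symm
  have hCQ : ∀ q ∈ Q, ∀ c ∈ Cfsg.pCore p S ⊓ Subgroup.centralizer (Q : Set S), q * c = c * q :=
    fun q hq c hc => Subgroup.mem_centralizer_iff.mp (Subgroup.mem_inf.mp hc).2 q hq
  -- (1)
  have hPA : ∀ x ∈ Cfsg.pCore p S, ∀ a ∈ A,
      x * a * x⁻¹ * a⁻¹ ∈ Cfsg.pCore p S ⊓ Subgroup.centralizer (Q : Set S) := by
    intro x hx a ha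
    refine Subgroup.mem_inf.mpr ⟨?_, ?_⟩
    · have h1 : x * a * x⁻¹ * a⁻¹ = x * (a * x⁻¹ * a⁻¹) := by group
      rw [h1]
      exact Subgroup.mul_mem _ hx (hPn.conj_mem _ (Subgroup.inv_mem _ hx) a)
    · rw [Subgroup.mem_centralizer_iff]
      intro q hq
      have h1 : ⁅⁅x, a⁆, q⁆ ∈ ⁅⁅Cfsg.pCore p S, A⁆, Q⁆ :=
        Subgroup.commutator_mem_commutator (Subgroup.commutator_mem_commutator hx ha) hq
      rw [hbot, Subgroup.mem_bot, commutatorElement_eq_one_iff_mul_comm] at h1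
      rw [commutatorElement_def] at h1
      exact h1.symm
  -- A normalizes C
  have hAC : ∀ a ∈ A, ∀ c ∈ Cfsg.pCore p S ⊓ Subgroup.centralizer (Q : Set S),
      a * c * a⁻¹ ∈ Cfsg.pCore p S ⊓ Subgroup.centralizer (Q : Set S) := by
    intro a ha c hc
    obtain ⟨hcP, hcQ⟩ := Subgroup.mem_inf.mp hc
    refine Subgroup.mem_inf.mpr ⟨hPn.conj_mem c hcP a, ?_⟩
    rw [Subgroup.mem_centralizer_iff]
    intro q hq
    have h1 : a⁻¹ * q * a⁻¹⁻¹ ∈ Q := hinv a⁻¹ (A.inv_mem ha) q hq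
    have h2 := Subgroup.mem_centralizer_iff.mp hcQ _ h1
    have h3 : q * (a * c * a⁻¹) = a * ((a⁻¹ * q * a⁻¹⁻¹) * c) * a⁻¹ := by group
    rw [h3, h2]; group
  have hApr : ∀ a ∈ A, (∀ c ∈ Cfsg.pCore p S ⊓ Subgroup.centralizer (Q : Set S),
      a * c * a⁻¹ ∈ Cfsg.pCore p S ⊓ Subgroup.centralizer (Q : Set S)) ∧
      ∀ y ∈ Cfsg.pCore p S, y⁻¹ * (a * y * a⁻¹) ∈ Cfsg.pCore p S ⊓ Subgroup.centralizer (Q : Set S) := by
    intro a ha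
    refine ⟨hAC a ha, ?_⟩
    intro y hy
    have h1 := hPA y⁻¹ (Subgroup.inv_mem _ hy) a ha
    have h2 : y⁻¹ * a * y⁻¹⁻¹ * a⁻¹ = y⁻¹ * (a * y * a⁻¹) := by group
    rwa [h2] at h1
  have hAT : A ≤ s1892T (Cfsg.pCore p S) (Cfsg.pCore p S ⊓ Subgroup.centralizer (Q : Set S)) :=
    fun a ha => ⟨hApr a ha, hApr a⁻¹ (A.inv_mem ha)⟩
  have hAQT : ⁅A, Q⁆ ≤ s1892T (Cfsg.pCore p S) (Cfsg.pCore p S ⊓ Subgroup.centralizer (Q : Set S)) := by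
    rw [Subgroup.commutator_le]
    intro a ha q hq
    have h1 : ⁅a, q⁆ = a * (q * a⁻¹ * q⁻¹) := by rw [commutatorElement_def]; group
    rw [h1]
    refine Subgroup.mul_mem _ (hAT ha) ?_
    have h2 := s1892_conj (Cfsg.pCore p S) _ Q hPn hCQ a⁻¹ (hApr a⁻¹ (A.inv_mem ha)) q hq
    have h3 := s1892_conj (Cfsg.pCore p S) _ Q hPn hCQ a⁻¹⁻¹ (by rw [inv_inv]; exact hApr a ha) q hq
    refine ⟨h2, ?_⟩
    have h4 : (q * a⁻¹ * q⁻¹)⁻¹ = q * a⁻¹⁻¹ * q⁻¹ := by group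
    rw [h4]
    exact h3
  have hQT : Q ≤ s1892T (Cfsg.pCore p S) (Cfsg.pCore p S ⊓ Subgroup.centralizer (Q : Set S)) := by
    intro q hq
    apply hAQT
    rw [hAQ]; exact hq
  -- Q centralizes P
  have hQP : ∀ q ∈ Q, ∀ x ∈ Cfsg.pCore p S, q * x = x * q := by
    intro q hq
    have hqm : q ^ Nat.card Q = 1 := by
      have h0 := congrArg Subtype.val (pow_card_eq_one' (G := ↥Q) (x := ⟨q, hq⟩))
      rwa [Subgroup.coe_pow] at h0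
    apply Cfsg.Agent.Helper5.stab_two q (Nat.card Q) hqm
      (Cfsg.pCore p S ⊓ Subgroup.centralizer (Q : Set S)) (Cfsg.pCore p S) (hCQ q hq)
    · intro x hx
      have h1 := (hQT hq).1.2 x⁻¹ (Subgroup.inv_mem _ hx)
      have h2 := Subgroup.inv_mem _ h1
      have h3 : (x⁻¹⁻¹ * (q * x⁻¹ * q⁻¹))⁻¹ = q * x * q⁻¹ * x⁻¹ := by group
      rwa [h3] at h2
    · intro a ha ham
      exact Cfsg.Agent.Helper5.eq_one_of_pow_coprime _ hPp _ hQcop a (Subgroup.mem_inf.mp ha).1 ham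
  have hhh := Cfsg.Agent.Helper4.hh123 hS hred
  apply hQ1
  rw [eq_bot_iff]
  intro q hq
  have h1 : q ∈ Cfsg.pCore p S :=
    hhh (Subgroup.mem_centralizer_iff.mpr (fun x hx => (hQP q hq x hx).symm))
  have hqm : q ^ Nat.card Q = 1 := by
    have h0 := congrArg Subtype.val (pow_card_eq_one' (G := ↥Q) (x := ⟨q, hq⟩))
    rwa [Subgroup.coe_pow] at h0
  exact Subgroup.mem_bot.mpr (Cfsg.Agent.Helper5.eq_one_of_pow_coprime _ hPp _ hQcop q h1 hqm)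

end Cfsg.Agent.S1892
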