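import Cfsg.Statements.S1898
-- import your own Cfsg.Agent.* helpers here

set_option autoImplicit false
open Cfsg

namespace Cfsg.Agent.S1898

/-- Let X be a finite 2-group whose derived subgroup is elementary abelian and central. Then the subgroup generated by the elements of order dividing 4 has exponent dividing 4, and every automorphism of X fixing each element of order dividing 4 has 2-power order. -/
theorem result {X : Type*} [Group X] [Finite X] (hX : IsPGroup 2 X)
    (hel : Cfsg.IsElementaryAbelian 2 (commutator X)) (hcen : commutator X ≤ Subgroup.center X) :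
    (∀ x ∈ Subgroup.closure {g : X | g ^ 4 = 1}, x ^ 4 = 1) ∧
      ∀ φ : MulAut X, (∀ g : X, g ^ 4 = 1 → φ g = g) → ∃ k : ℕ, φ ^ (2 ^ k) = 1 := by
  have hmemc : ∀ x y : X, y * x * y⁻¹ * x⁻¹ ∈ commutator X := by
    intro x y
    rw [commutator_def]
    exact Subgroup.commutator_mem_commutator (Subgroup.mem_top y) (Subgroup.mem_top x)
  have hz : ∀ x y : X, ∃ z : X, (∀ g : X, g * z = z * g) ∧ z ^ 2 = 1 ∧ y * x = z * (x * y) := by
    intro x y
    refine ⟨y * x * y⁻¹ * x⁻¹, ?_, ?_, by group⟩
    · exact Subgroup.mem_center_iff.mp (hcen (hmemc x y))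
    · exact hel.2 _ (hmemc x y)
  have hsq : ∀ x y : X, y ^ 2 * x = x * y ^ 2 := by
    intro x y
    obtain ⟨z, hzc, hz2, hyx⟩ := hz x y
    calc y ^ 2 * x = y * (y * x) := by rw [pow_two, mul_assoc]
      _ = y * (z * (x * y)) := by rw [hyx]
      _ = z * (y * x) * y := by rw [← mul_assoc y z, hzc y]; group
      _ = z * (z * (x * y)) * y := by rw [hyx]
      _ = z ^ 2 * (x * y ^ 2) := by rw [pow_two, pow_two]; group
      _ = x * y ^ 2 := by rw [hz2, one_mul]
  have hpow4 : ∀ x y : X, (x * y) ^ 4 = x ^ 4 * y ^ 4 := by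
    intro x y
    obtain ⟨z, hzc, hz2, hyx⟩ := hz x y
    have h1 : (x * y) ^ 2 = z * x ^ 2 * y ^ 2 := by
      calc (x * y) ^ 2 = x * (y * x) * y := by rw [pow_two]; group
        _ = x * (z * (x * y)) * y := by rw [hyx]
        _ = z * x ^ 2 * y ^ 2 := by rw [← mul_assoc x z, hzc x, pow_two, pow_two]; group
    have hc1 : Commute (z * x ^ 2) (y ^ 2) := (hsq (z * x ^ 2) y).symm
    have hc2 : Commute z (x ^ 2) := (hzc (x ^ 2)).symm
    have e4 : (4 : ℕ) = 2 * 2 := rfl
    rw [e4, pow_mul, h1, hc1.mul_pow, hc2.mul_pow, hz2, one_mul, ← pow_mul, ← pow_mul]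
  constructor
  · intro x hx
    induction hx using Subgroup.closure_induction with
    | mem x hx => exact hx
    | one => exact one_pow 4
    | mul x y _ _ hx hy => rw [hpow4, hx, hy, one_mul]
    | inv x _ hx => rw [inv_pow, hx, inv_one]
  · intro φ hφ
    have key : ∀ i : ℕ, ∀ x : X, x ^ (4 ^ (i + 1)) = 1 → (φ ^ (4 ^ i)) x = x := by
      intro i
      induction i with
      | zero =>
        intro x hx
        rw [pow_zero, pow_one]
        apply hφ
        simpa using hx
      | succ i ih =>
        intro x hx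
        have h1 : (x ^ 4) ^ (4 ^ (i + 1)) = 1 := by
          rw [← pow_mul, ← pow_succ']
          exact hx
        have h2 : ((φ ^ (4 ^ i)) x) ^ 4 = x ^ 4 := by
          rw [← map_pow]
          exact ih _ h1
        obtain ⟨c, hcdef⟩ : ∃ c : X, c = x⁻¹ * (φ ^ (4 ^ i)) x := ⟨_, rfl⟩
        have hc4 : c ^ 4 = 1 := by
          rw [hcdef, hpow4, h2, inv_pow, inv_mul_cancel]
        have hc : (φ ^ (4 ^ i)) c = c := by
          apply ih
          rw [pow_succ', pow_mul, hc4, one_pow]
        have hψx : (φ ^ (4 ^ i)) x = x * c := by rw [hcdef]; group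
        have hk : ∀ k : ℕ, ((φ ^ (4 ^ i)) ^ k) x = x * c ^ k := by
          intro k
          induction k with
          | zero => simp
          | succ k ihk =>
            rw [pow_succ', MulAut.mul_apply, ihk, map_mul, map_pow, hc, hψx, pow_succ', mul_assoc]
        have e : φ ^ (4 ^ (i + 1)) = (φ ^ (4 ^ i)) ^ 4 := by
          rw [← pow_mul, ← pow_succ]
        rw [e, hk 4, hc4, mul_one]
    obtain ⟨m, hm⟩ := IsPGroup.iff_card.mp hX
    refine ⟨2 * m, ?_⟩
    have e : (2 : ℕ) ^ (2 * m) = 4 ^ m := by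
      rw [pow_mul]
      norm_num
    rw [e]
    apply MulEquiv.ext
    intro x
    apply key m x
    have h1 : x ^ (2 ^ m) = 1 := by
      rw [← hm]
      exact pow_card_eq_one'
    have e2 : (4 : ℕ) ^ (m + 1) = 2 ^ m * (2 ^ m * 4) := by
      have : (4 : ℕ) ^ m = 2 ^ m * 2 ^ m := by
        rw [← mul_pow]
        norm_num
      rw [pow_succ, this, mul_assoc]
    rw [e2, pow_mul, h1, one_pow]


end Cfsg.Agent.S1898
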