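import Cfsg.Statements.S1899
-- import your own Cfsg.Agent.* helpers here

set_option autoImplicit false
open Cfsg

namespace Cfsg.Agent.S1899

/-- Let a dihedral group of order 2n, n odd and n > 1, act on a finite abelian 2-group A through automorphisms d and t with d^n = 1, t² = 1 and t d t⁻¹ = d⁻¹, and suppose that d fixes only the identity. Then A is the internal direct product of C_A(t) and its image under d. -/
theorem result {A : Type*} [CommGroup A] [Finite A] (hA : IsPGroup 2 A)
    {n : ℕ} (hn : Odd n) (hn1 : 1 < n) (d t : MulAut A) (hd : d ^ n = 1) (ht : t ^ 2 = 1) (hdt : t * d * t⁻¹ = d⁻¹)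
    (hfix : ∀ a : A, d a = a → a = 1) :
    (MulEquiv.toMonoidHom t).eqLocus (MonoidHom.id A) ⊓ ((MulEquiv.toMonoidHom t).eqLocus (MonoidHom.id A)).map d.toMonoidHom = ⊥ ∧
      (MulEquiv.toMonoidHom t).eqLocus (MonoidHom.id A) ⊔ ((MulEquiv.toMonoidHom t).eqLocus (MonoidHom.id A)).map d.toMonoidHom = ⊤ := by
  obtain ⟨j, hj⟩ := hn
  have htd : t * d = d⁻¹ * t := by rw [← hdt]; group
  have htt : t * t = 1 := by rw [← pow_two]; exact ht
  have htinv : t⁻¹ = t := inv_eq_of_mul_eq_one_right htt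
  have hmemC : ∀ a : A, a ∈ (MulEquiv.toMonoidHom t).eqLocus (MonoidHom.id A) ↔ t a = a := fun a => Iff.rfl
  -- d = (d^2)^(j+1)
  have hdpow : d = (d ^ 2) ^ (j + 1) := by
    rw [← pow_mul]
    have : 2 * (j + 1) = n + 1 := by omega
    rw [this, pow_succ, hd, one_mul]
  -- elements fixed by d^2 are fixed by d
  have hfix2 : ∀ c : A, (d ^ 2) c = c → c = 1 := by
    intro c hc
    apply hfix
    have h1 : ∀ k : ℕ, ((d ^ 2) ^ k) c = c := by
      intro k
      induction k with
      | zero => rfl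
      | succ k ih =>
        rw [pow_succ, MulAut.mul_apply, hc, ih]
    rw [hdpow]
    exact h1 (j + 1)
  have hinter : (MulEquiv.toMonoidHom t).eqLocus (MonoidHom.id A) ⊓
      ((MulEquiv.toMonoidHom t).eqLocus (MonoidHom.id A)).map d.toMonoidHom = ⊥ := by
    rw [eq_bot_iff]
    rintro a ⟨ha1, ha2⟩
    rw [Subgroup.mem_bot]
    obtain ⟨c, hc, rfl⟩ := ha2
    have hc' : t c = c := hc
    have ha1' : t (d c) = d c := ha1
    have h1 : t (d c) = d⁻¹ c := by
      have : (t * d) c = (d⁻¹ * t) c := by rw [htd]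
      rw [MulAut.mul_apply, MulAut.mul_apply, hc'] at this
      exact this
    have h2 : d⁻¹ c = d c := by rw [← h1, ha1']
    have h3 : (d ^ 2) c = c := by
      rw [pow_two, MulAut.mul_apply, ← h2]
      exact d.apply_symm_apply c
    have h4 := hfix2 c h3
    show d c = 1
    rw [h4]
    exact map_one d
  refine ⟨hinter, ?_⟩
  -- the second involution t' = t * d
  have ht'2 : (t * d) * (t * d) = 1 := by
    rw [htd]
    have : d⁻¹ * t * (d⁻¹ * t) = d⁻¹ * (t * d⁻¹) * t := by group
    rw [this]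
    have h5 : t * d⁻¹ = d * t := by
      have : t * d⁻¹ = d * (d⁻¹ * t) * d⁻¹ := by group
      rw [this, ← htd]
      group
    rw [h5]
    have : d⁻¹ * (d * t) * t = t * t := by group
    rw [this, htt]
  -- conjugating element g = d^j with g * t * g⁻¹ = t * d
  have hconj : d ^ j * t * (d ^ j)⁻¹ = t * d := by
    have h6 : ∀ k : ℕ, d ^ k * t = t * (d⁻¹) ^ k := by
      intro k
      induction k with
      | zero => simp
      | succ k ih =>
        have h7 : d * t = t * d⁻¹ := by
          have : d * t = t * (t⁻¹ * d * t) := by group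
          rw [this]
          congr 1
          have h8 : t⁻¹ * d * t = t * d * t⁻¹ := by rw [htinv]
          rw [h8, hdt]
        rw [pow_succ, mul_assoc, h7, ← mul_assoc, ih, pow_succ, mul_assoc]
    rw [h6 j]
    have h9 : t * d⁻¹ ^ j * (d ^ j)⁻¹ = t * (d ^ (2 * j))⁻¹ := by
      rw [mul_assoc, inv_pow, ← mul_inv_rev, ← pow_add, two_mul]
    rw [h9]
    congr 1
    have h10 : d ^ (2 * j) * d = 1 := by rw [← pow_succ, ← hj, hd]
    exact inv_eq_of_mul_eq_one_right h10
  -- cardinality bound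
  have hcard1 : Nat.card ((MulEquiv.toMonoidHom (t * d)).eqLocus (MonoidHom.id A)) ≤
      Nat.card ((MulEquiv.toMonoidHom t).eqLocus (MonoidHom.id A)) := by
    apply Nat.card_le_card_of_injective
      (fun c : (MulEquiv.toMonoidHom (t * d)).eqLocus (MonoidHom.id A) =>
        (⟨(d ^ j)⁻¹ c.1, by
          show t ((d ^ j)⁻¹ c.1) = (d ^ j)⁻¹ c.1
          have hc : (d ^ j * t * (d ^ j)⁻¹) c.1 = c.1 := by
            rw [hconj]
            exact c.2
          rw [MulAut.mul_apply, MulAut.mul_apply] at hc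
          apply (d ^ j).injective
          rw [hc]
          exact ((d ^ j).apply_symm_apply c.1).symm⟩ : (MulEquiv.toMonoidHom t).eqLocus (MonoidHom.id A)))
    intro c1 c2 h
    have h' := congrArg Subtype.val h
    exact Subtype.ext ((d ^ j)⁻¹.injective h')
  have hcard2 : Nat.card A ≤ Nat.card ((MulEquiv.toMonoidHom t).eqLocus (MonoidHom.id A)) *
      Nat.card ((MulEquiv.toMonoidHom (t * d)).eqLocus (MonoidHom.id A)) := by
    rw [← Nat.card_prod]
    apply Nat.card_le_card_of_injective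
      (fun a : A =>
        ((⟨a * t a, by
          show t (a * t a) = a * t a
          rw [map_mul, ← MulAut.mul_apply, htt, MulAut.one_apply, mul_comm]⟩ :
            (MulEquiv.toMonoidHom t).eqLocus (MonoidHom.id A)),
         (⟨a * (t * d) a, by
          show (t * d) (a * (t * d) a) = a * (t * d) a
          rw [map_mul, ← MulAut.mul_apply, ht'2, MulAut.one_apply, mul_comm]⟩ :
            (MulEquiv.toMonoidHom (t * d)).eqLocus (MonoidHom.id A))))
    intro a b hab
    have h1 : a * t a = b * t b := congrArg (fun x => (x.1 : A)) hab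
    have h2 : a * (t * d) a = b * (t * d) b := congrArg (fun x => (x.2 : A)) hab
    -- c = a * b⁻¹
    have h3 : t (a * b⁻¹) = (a * b⁻¹)⁻¹ := by
      rw [map_mul, map_inv, eq_inv_iff_mul_eq_one]
      calc t a * (t b)⁻¹ * (a * b⁻¹) = (a * t a) * (b * t b)⁻¹ := by
            rw [mul_inv_rev]
            ac_rfl
        _ = 1 := by rw [h1, mul_inv_cancel]
    have h4 : (t * d) (a * b⁻¹) = (a * b⁻¹)⁻¹ := by
      rw [map_mul, map_inv, eq_inv_iff_mul_eq_one]
      calc (t * d) a * ((t * d) b)⁻¹ * (a * b⁻¹) = (a * (t * d) a) * (b * (t * d) b)⁻¹ := by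
            rw [mul_inv_rev]
            ac_rfl
        _ = 1 := by rw [h2, mul_inv_cancel]
    have h5 : d (a * b⁻¹) = a * b⁻¹ := by
      rw [MulAut.mul_apply, ← h3] at h4
      exact t.injective h4
    have h6 := hfix _ h5
    exact mul_inv_eq_one.mp h6
  have hcard3 : Nat.card A ≤ Nat.card (((MulEquiv.toMonoidHom t).eqLocus (MonoidHom.id A)) ×
      ((MulEquiv.toMonoidHom t).eqLocus (MonoidHom.id A))) := by
    rw [Nat.card_prod]
    exact hcard2.trans (Nat.mul_le_mul_left _ hcard1)
  have hinj : Function.Injective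
      (fun x : ((MulEquiv.toMonoidHom t).eqLocus (MonoidHom.id A)) ×
        ((MulEquiv.toMonoidHom t).eqLocus (MonoidHom.id A)) => (x.1 : A) * d (x.2 : A)) := by
    rintro ⟨x1, y1⟩ ⟨x2, y2⟩ h
    have h' : (x1 : A) * d (y1 : A) = (x2 : A) * d (y2 : A) := h
    have h1 : (x2 : A)⁻¹ * (x1 : A) = d ((y2 : A) * (y1 : A)⁻¹) := by
      rw [map_mul, map_inv, eq_mul_inv_iff_mul_eq, mul_assoc, h', inv_mul_cancel_left]
    have h2 : (x2 : A)⁻¹ * (x1 : A) ∈ (MulEquiv.toMonoidHom t).eqLocus (MonoidHom.id A) ⊓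
        ((MulEquiv.toMonoidHom t).eqLocus (MonoidHom.id A)).map d.toMonoidHom := by
      refine ⟨Subgroup.mul_mem _ (Subgroup.inv_mem _ x2.2) x1.2, ?_⟩
      rw [h1]
      exact ⟨_, Subgroup.mul_mem _ y2.2 (Subgroup.inv_mem _ y1.2), rfl⟩
    rw [hinter, Subgroup.mem_bot] at h2
    have hx : (x1 : A) = x2 := by
      rw [inv_mul_eq_one] at h2
      exact h2.symm
    have hy : (y1 : A) = y2 := by
      rw [h2] at h1
      have h3 : d ((y2 : A) * (y1 : A)⁻¹) = d 1 := by rw [← h1, map_one]
      have h4 := d.injective h3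
      rw [mul_inv_eq_one] at h4
      exact h4.symm
    exact Prod.ext (Subtype.ext hx) (Subtype.ext hy)
  have hbij := hinj.bijective_of_nat_card_le hcard3
  rw [eq_top_iff]
  intro a _
  obtain ⟨⟨x, y⟩, hxy⟩ := hbij.2 a
  have hxy' : (x : A) * d (y : A) = a := hxy
  rw [← hxy']
  exact Subgroup.mul_mem_sup x.2 ⟨_, y.2, rfl⟩


end Cfsg.Agent.S1899
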