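import Cfsg.Statements.S1905
import Cfsg.Agent.Helper4.Invol
import Cfsg.Agent.Helper4.RelSylow

set_option autoImplicit false
open Cfsg

namespace Cfsg.Agent.S1905

/-- Let M be a subgroup of even order of a finite group S such that M contains the centralizer in S of each of its involutions and the normal core of M in S has odd order. Then all involutions of S are conjugate. If moreover N_S(X) ≤ M for a Sylow 2-subgroup X of M and I is an involution in the centre of X, then all involutions of M are conjugate in M and M = M₀ C_M(I) for some subgroup M₀ of M of odd order. -/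
theorem result {S : Type*} [Group S] [Finite S] (M : Subgroup S) (hM : Even (Nat.card M))
    (hC : ∀ i ∈ M, orderOf i = 2 → Subgroup.centralizer ({i} : Set S) ≤ M) (hcore : Odd (Nat.card M.normalCore)) :
    (∀ x y : S, orderOf x = 2 → orderOf y = 2 → IsConj x y) ∧
      ∀ (X : Sylow 2 M) (I : M), I ∈ (Subgroup.center ↥(X : Subgroup ↥M)).map (X : Subgroup ↥M).subtype → orderOf I = 2 →
        Subgroup.normalizer (((X : Subgroup M).map M.subtype : Subgroup S) : Set S) ≤ M →
        (∀ x y : M, orderOf x = 2 → orderOf y = 2 → IsConj x y) ∧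
          ∃ M₀ : Subgroup M, Odd (Nat.card M₀) ∧
            ∀ m : M, ∃ a ∈ M₀, ∃ c ∈ Subgroup.centralizer ({I} : Set M), m = a * c := by
  obtain ⟨t0', ht0'⟩ := exists_prime_orderOf_dvd_card' 2 hM.two_dvd
  have ht0M : (t0' : S) ∈ M := t0'.2
  have ht0 : orderOf (t0' : S) = 2 := by rw [Subgroup.orderOf_coe]; exact ht0'
  generalize (t0' : S) = t0 at ht0M ht0
  have hEven : ∀ t ∈ M, orderOf t = 2 → ∀ u : S, orderOf u = 2 → Even (orderOf (t * u)) → u ∈ M := by
    intro t htM ht u hu hev
    obtain ⟨z, hz2, hzt, hzu⟩ := Helper4.invol_commute_of_even ht hu hev (orderOf_pos _)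
    have hzM : z ∈ M := hC t htM ht (Subgroup.mem_centralizer_singleton_iff.mpr hzt)
    exact hC z hzM hz2 (Subgroup.mem_centralizer_singleton_iff.mpr hzu.symm)
  have hJ : ∃ J : S, orderOf J = 2 ∧ J ∉ M := by
    by_contra hcon
    push Not at hcon
    have hcoremem : t0 ∈ M.normalCore := fun b => hcon _ (by rw [Helper4.orderOf_conj_eq]; exact ht0)
    have h2 : 2 ∣ Nat.card M.normalCore := by
      have := orderOf_dvd_natCard (⟨t0, hcoremem⟩ : M.normalCore)
      rwa [Subgroup.orderOf_mk, ht0] at this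
    exact (Nat.not_even_iff_odd.mpr hcore) (even_iff_two_dvd.mpr h2)
  have hF1 : ∀ x y : S, orderOf x = 2 → orderOf y = 2 → IsConj x y := by
    intro x y hx hy
    by_contra hxy
    obtain ⟨J, hJ2, hJM⟩ := hJ
    have hP2 : ∀ t ∈ M, orderOf t = 2 → ∀ u : S, orderOf u = 2 → ¬ IsConj t u → u ∈ M :=
      fun t htM ht u hu hnc => hEven t htM ht u hu (Helper4.thompson_even_order ht hu hnc)
    have hex : ∃ x' ∈ M, orderOf x' = 2 ∧ ¬ IsConj t0 x' := by
      by_cases h1 : IsConj t0 x
      · by_cases h2 : IsConj t0 y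
        · exact absurd (h1.symm.trans h2) hxy
        · exact ⟨y, hP2 t0 ht0M ht0 y hy h2, hy, h2⟩
      · exact ⟨x, hP2 t0 ht0M ht0 x hx h1, hx, h1⟩
    obtain ⟨x', hx'M, hx'2, hx'⟩ := hex
    apply hJM
    by_cases h1 : IsConj t0 J
    · have h2 : ¬ IsConj x' J := fun h => hx' (h1.trans h.symm)
      exact hP2 x' hx'M hx'2 J hJ2 h2
    · exact hP2 t0 ht0M ht0 J hJ2 h1
  refine ⟨hF1, ?_⟩
  intro X I _ hI2 hN
  have hX'p : IsPGroup 2 ((X : Subgroup M).map M.subtype) := X.isPGroup'.map M.subtype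
  have hX'idx : ¬ 2 ∣ ((X : Subgroup M).map M.subtype).relIndex M := by
    rw [Subgroup.relIndex]
    have : ((X : Subgroup M).map M.subtype).subgroupOf M = X :=
      Subgroup.comap_map_eq_self_of_injective M.subtype_injective _
    rw [this]
    exact X.not_dvd_index
  have hF2 : ∀ u ∈ M, orderOf u = 2 → ∀ g : S, g * u * g⁻¹ ∈ M → g ∈ M := by
    intro u huM hu g hv
    have hvp : IsPGroup 2 (Subgroup.zpowers (g * u * g⁻¹)) := by
      apply IsPGroup.of_card (n := 1)
      rw [Nat.card_zpowers, Helper4.orderOf_conj_eq, hu, pow_one]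
    obtain ⟨c, hcM, hc⟩ := Helper4.exists_conj_le_of_relIndex M _ (Subgroup.zpowers (g * u * g⁻¹))
      hX'p hX'idx hvp (by rw [Subgroup.zpowers_le]; exact hv)
    have hcv := hc _ (Subgroup.mem_zpowers _)
    suffices h : c * g ∈ M by
      have e : g = c⁻¹ * (c * g) := by group
      rw [e]
      exact M.mul_mem (M.inv_mem hcM) h
    have hg'u : (c * g) * u * (c * g)⁻¹ ∈ (X : Subgroup M).map M.subtype := by
      have e : (c * g) * u * (c * g)⁻¹ = c * (g * u * g⁻¹) * c⁻¹ := by group
      rw [e]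
      exact hcv
    clear hcv hc hvp hv
    generalize c * g = g' at hg'u ⊢
    have hTp : IsPGroup 2 (((X : Subgroup M).map M.subtype).comap (MulAut.conj g').toMonoidHom) :=
      hX'p.comap_of_injective _ (MulAut.conj g').injective
    have hmemT : ∀ x : S, x ∈ ((X : Subgroup M).map M.subtype).comap (MulAut.conj g').toMonoidHom ↔
        g' * x * g'⁻¹ ∈ (X : Subgroup M).map M.subtype := fun x => Iff.rfl
    have huT : u ∈ ((X : Subgroup M).map M.subtype).comap (MulAut.conj g').toMonoidHom := hg'u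
    have hTM : ((X : Subgroup M).map M.subtype).comap (MulAut.conj g').toMonoidHom ≤ M := by
      generalize ((X : Subgroup M).map M.subtype).comap (MulAut.conj g').toMonoidHom = T at hTp huT
      have hTnt : Nontrivial T := ⟨⟨⟨u, huT⟩, 1, fun h => by
        have h1 : u = 1 := congrArg Subtype.val h
        rw [h1, orderOf_one] at hu
        omega⟩⟩
      have hcnt : Nontrivial (Subgroup.center T) := hTp.center_nontrivial
      have hcp : IsPGroup 2 (Subgroup.center T) := hTp.to_subgroup _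
      have h2 : 2 ∣ Nat.card (Subgroup.center T) := by
        rcases hcp.card_eq_or_dvd with h | h
        · exfalso
          have := (Finite.one_lt_card_iff_nontrivial (α := Subgroup.center T)).mpr hcnt
          omega
        · exact h
      obtain ⟨z, hz⟩ := exists_prime_orderOf_dvd_card' 2 h2
      have hzS : orderOf ((z : T) : S) = 2 := by
        rw [Subgroup.orderOf_coe, Subgroup.orderOf_coe]
        exact hz
      have hzc : ∀ x ∈ T, x * ((z : T) : S) = ((z : T) : S) * x := by
        intro x hx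
        have := Subgroup.mem_center_iff.mp z.2 ⟨x, hx⟩
        exact congrArg Subtype.val this
      have hzM : ((z : T) : S) ∈ M :=
        hC u huM hu (Subgroup.mem_centralizer_singleton_iff.mpr (hzc u huT).symm)
      intro x hx
      exact hC _ hzM hzS (Subgroup.mem_centralizer_singleton_iff.mpr (hzc x hx))
    obtain ⟨c', hc'M, hc'⟩ := Helper4.exists_conj_le_of_relIndex M ((X : Subgroup M).map M.subtype) _
      hX'p hX'idx hTp hTM
    have hn : c' * g'⁻¹ ∈ Subgroup.normalizer (((X : Subgroup M).map M.subtype : Subgroup S) : Set S) := by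
      apply Subgroup.mem_normalizer_fintype
      intro x hx
      have hxT : g'⁻¹ * x * g' ∈ ((X : Subgroup M).map M.subtype).comap (MulAut.conj g').toMonoidHom := by
        rw [hmemT]
        have e : g' * (g'⁻¹ * x * g') * g'⁻¹ = x := by group
        rw [e]
        exact hx
      have h3 := hc' _ hxT
      have e : c' * g'⁻¹ * x * (c' * g'⁻¹)⁻¹ = c' * (g'⁻¹ * x * g') * c'⁻¹ := by group
      rw [e]
      exact h3
    have hnM := hN hn
    have e : g' = (c' * g'⁻¹)⁻¹ * c' := by group
    rw [e]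
    exact M.mul_mem (M.inv_mem hnM) hc'M
  obtain ⟨J, hJ2, hJM⟩ := hJ
  have hJinv := Helper4.inv_eq_self_of_orderOf_two hJ2
  constructor
  · intro x y hx hy
    have hx' : orderOf (x : S) = 2 := by rw [Subgroup.orderOf_coe]; exact hx
    have hy' : orderOf (y : S) = 2 := by rw [Subgroup.orderOf_coe]; exact hy
    obtain ⟨g, hg⟩ := isConj_iff.mp (hF1 x y hx' hy')
    have hgM : g ∈ M := hF2 x x.2 hx' g (by rw [hg]; exact y.2)
    exact isConj_iff.mpr ⟨⟨g, hgM⟩, Subtype.ext hg⟩
  · refine ⟨(M.comap (MulAut.conj J).toMonoidHom).subgroupOf M, ?_, ?_⟩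
    · rw [← Nat.not_even_iff_odd]
      intro hev
      obtain ⟨a, ha⟩ := exists_prime_orderOf_dvd_card' 2 hev.two_dvd
      have ha2 : orderOf ((a : M) : S) = 2 := by
        rw [Subgroup.orderOf_coe, Subgroup.orderOf_coe]
        exact ha
      have haM : J * ((a : M) : S) * J⁻¹ ∈ M := a.2
      exact hJM (hF2 _ (a : M).2 ha2 J haM)
    · intro m
      have ht : orderOf (I : S) = 2 := by rw [Subgroup.orderOf_coe]; exact hI2
      have ht'M : (m : S) * I * (m : S)⁻¹ ∈ M := M.mul_mem (M.mul_mem m.2 I.2) (M.inv_mem m.2)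
      have ht' : orderOf ((m : S) * I * (m : S)⁻¹) = 2 := by rw [Helper4.orderOf_conj_eq]; exact ht
      generalize hdef' : (m : S) * I * (m : S)⁻¹ = t' at ht'M ht'
      have ht'' : orderOf (J * t' * J⁻¹) = 2 := by rw [Helper4.orderOf_conj_eq]; exact ht'
      have ht''M : J * t' * J⁻¹ ∉ M := fun h => hJM (hF2 t' ht'M ht' J h)
      have hodd : Odd (orderOf ((I : S) * (J * t' * J⁻¹))) := by
        rw [← Nat.not_even_iff_odd]
        intro hev
        exact ht''M (hEven _ I.2 ht _ ht'' hev)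
      obtain ⟨g, hgg, hg⟩ := Helper4.invol_conj_of_odd ht ht'' hodd
      have hginv : g⁻¹ = g := inv_eq_of_mul_eq_one_right hgg
      have ha1 : (J⁻¹ * g) * I * (J⁻¹ * g)⁻¹ = t' := by
        calc (J⁻¹ * g) * I * (J⁻¹ * g)⁻¹ = J⁻¹ * (g * I * g⁻¹) * J := by group
          _ = J⁻¹ * (J * t' * J⁻¹) * J := by rw [hg]
          _ = t' := by group
      have haM : J⁻¹ * g ∈ M := hF2 _ I.2 ht _ (by rw [ha1]; exact ht'M)
      have ha2 : (J * (J⁻¹ * g) * J⁻¹) * t' * (J * (J⁻¹ * g) * J⁻¹)⁻¹ = I := by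
        have e1 : (J * (J⁻¹ * g) * J⁻¹) * t' * (J * (J⁻¹ * g) * J⁻¹)⁻¹ = g * (J⁻¹ * t' * J) * g⁻¹ := by
          group
        have e2 : J⁻¹ * t' * J = J * t' * J⁻¹ := by rw [hJinv]
        rw [e1, e2, ← hg, hginv]
        calc g * (g * (I : S) * g) * g = (g * g) * I * (g * g) := by group
          _ = I := by rw [hgg, one_mul, mul_one]
      have haM2 : J * (J⁻¹ * g) * J⁻¹ ∈ M := hF2 _ ht'M ht' _ (by rw [ha2]; exact I.2)
      refine ⟨⟨J⁻¹ * g, haM⟩, haM2, ⟨J⁻¹ * g, haM⟩⁻¹ * m, ?_, by group⟩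
      rw [Subgroup.mem_centralizer_singleton_iff]
      apply Subtype.ext
      show (J⁻¹ * g)⁻¹ * (m : S) * I = I * ((J⁻¹ * g)⁻¹ * m)
      have h5 : (J⁻¹ * g) * I * (J⁻¹ * g)⁻¹ = (m : S) * I * (m : S)⁻¹ := by rw [ha1, hdef']
      generalize (J⁻¹ * g) = a at h5
      calc a⁻¹ * (m : S) * I = a⁻¹ * ((m : S) * I * (m : S)⁻¹) * m := by group
        _ = a⁻¹ * (a * I * a⁻¹) * m := by rw [h5]
        _ = I * (a⁻¹ * m) := by group


end Cfsg.Agent.S1905
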