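import Cfsg.Statements.S1907
import Cfsg.Agent.Helper4.PPrimeP
import Cfsg.Agent.Helper4.Cores
import Cfsg.Agent.Helper4.Thompson
import Cfsg.Agent.Helper3.PConstrained

set_option autoImplicit false
open Cfsg

namespace Cfsg.Agent.S1907

/-- Let P be a Sylow p-subgroup of a finite group G, H = P ∩ O_{p',p}(G), N = N_G(H) and D = O_{p'}(G). (a) If y is an element of p-power order of N and d ∈ D with d⁻¹ y d ∈ N, then d = d₁ d₂ with d₁ ∈ C_D(y) and d₂ ∈ C_D(H). (b) Two elements of P that are conjugate in G are conjugate in N. -/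
theorem result {G : Type*} [Group G] [Finite G] {p : ℕ} [Fact p.Prime] (P : Sylow p G) :
    (∀ y ∈ Subgroup.normalizer (((P : Subgroup G) ⊓ Cfsg.pPrimePCore p G : Subgroup G) : Set G), (∃ k : ℕ, orderOf y = p ^ k) →
      ∀ d ∈ Cfsg.pPrimeCore p G, d⁻¹ * y * d ∈ Subgroup.normalizer (((P : Subgroup G) ⊓ Cfsg.pPrimePCore p G : Subgroup G) : Set G) →
        ∃ d₁ ∈ Cfsg.pPrimeCore p G ⊓ Subgroup.centralizer ({y} : Set G),
          ∃ d₂ ∈ Cfsg.pPrimeCore p G ⊓ Subgroup.centralizer (((P : Subgroup G) ⊓ Cfsg.pPrimePCore p G : Subgroup G) : Set G), d = d₁ * d₂) ∧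
    ∀ x y : G, x ∈ (P : Subgroup G) → y ∈ (P : Subgroup G) → IsConj x y →
      ∃ n ∈ Subgroup.normalizer (((P : Subgroup G) ⊓ Cfsg.pPrimePCore p G : Subgroup G) : Set G), n * x * n⁻¹ = y := by
  have hpp : p.Prime := Fact.out
  have hDn : (Cfsg.pPrimeCore p G).Normal := Helper4.pPrimeCore_normal p G
  have hLn : (Cfsg.pPrimePCore p G).Normal := by
    have := Helper4.pCore_normal p (G ⧸ Cfsg.pPrimeCore p G)
    exact Subgroup.Normal.comap inferInstance _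
  have hDc : (Nat.card (Cfsg.pPrimeCore p G)).Coprime p := Helper3.pPrimeCore_coprime p G
  have hHp : IsPGroup p ((P : Subgroup G) ⊓ Cfsg.pPrimePCore p G : Subgroup G) := P.2.to_le inf_le_left
  -- H ∩ D = 1
  have hHD : ∀ x : G, x ∈ ((P : Subgroup G) ⊓ Cfsg.pPrimePCore p G : Subgroup G) →
      x ∈ Cfsg.pPrimeCore p G → x = 1 := by
    intro x hxH hxD
    obtain ⟨k, hk⟩ := hHp ⟨x, hxH⟩
    have h1 : x ^ p ^ k = 1 := by
      have := congrArg Subtype.val hk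
      simpa using this
    have h2 : orderOf x ∣ p ^ k := orderOf_dvd_of_pow_eq_one h1
    have h3 : orderOf x ∣ Nat.card (Cfsg.pPrimeCore p G) := Subgroup.orderOf_dvd_natCard _ hxD
    have h4 : orderOf x = 1 :=
      Nat.eq_one_of_dvd_coprimes (Nat.Coprime.pow_right k hDc) h3 h2
    exact orderOf_eq_one_iff.mp h4
  -- N ∩ D centralizes H
  have hND : ∀ n : G, n ∈ Subgroup.normalizer (((P : Subgroup G) ⊓ Cfsg.pPrimePCore p G : Subgroup G) : Set G) →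
      n ∈ Cfsg.pPrimeCore p G →
      n ∈ Subgroup.centralizer (((P : Subgroup G) ⊓ Cfsg.pPrimePCore p G : Subgroup G) : Set G) := by
    intro n hnN hnD
    rw [Subgroup.mem_centralizer_iff]
    intro h hh
    have h1 : n * h * n⁻¹ ∈ ((P : Subgroup G) ⊓ Cfsg.pPrimePCore p G : Subgroup G) :=
      (Subgroup.mem_normalizer_iff.mp hnN h).mp hh
    have h2 : n * h * n⁻¹ * h⁻¹ ∈ ((P : Subgroup G) ⊓ Cfsg.pPrimePCore p G : Subgroup G) :=
      Subgroup.mul_mem _ h1 (Subgroup.inv_mem _ hh)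
    have h3 : n * h * n⁻¹ * h⁻¹ ∈ Cfsg.pPrimeCore p G := by
      have e : n * h * n⁻¹ * h⁻¹ = n * (h * n⁻¹ * h⁻¹) := by group
      rw [e]
      exact Subgroup.mul_mem _ hnD (hDn.conj_mem _ (Subgroup.inv_mem _ hnD) h)
    have h4 := hHD _ h2 h3
    calc h * n = (n * h * n⁻¹ * h⁻¹)⁻¹ * (n * h) := by group
      _ = n * h := by rw [h4, inv_one, one_mul]
  -- part (a)
  have partA : ∀ y ∈ Subgroup.normalizer (((P : Subgroup G) ⊓ Cfsg.pPrimePCore p G : Subgroup G) : Set G), (∃ k : ℕ, orderOf y = p ^ k) →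
      ∀ d ∈ Cfsg.pPrimeCore p G, d⁻¹ * y * d ∈ Subgroup.normalizer (((P : Subgroup G) ⊓ Cfsg.pPrimePCore p G : Subgroup G) : Set G) →
        ∃ d₁ ∈ Cfsg.pPrimeCore p G ⊓ Subgroup.centralizer ({y} : Set G),
          ∃ d₂ ∈ Cfsg.pPrimeCore p G ⊓ Subgroup.centralizer (((P : Subgroup G) ⊓ Cfsg.pPrimePCore p G : Subgroup G) : Set G), d = d₁ * d₂ := by
    intro y hyN hy d hd hy'N
    -- work in the group N
    set N : Subgroup G := Subgroup.normalizer (((P : Subgroup G) ⊓ Cfsg.pPrimePCore p G : Subgroup G) : Set G) with hN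
    have : ((Cfsg.pPrimeCore p G).subgroupOf N).Normal := Subgroup.normal_subgroupOf
    have hcop : (Nat.card ((Cfsg.pPrimeCore p G).subgroupOf N)).Coprime p := by
      have h1 : Nat.card ((Cfsg.pPrimeCore p G).subgroupOf N) ∣ Nat.card (Cfsg.pPrimeCore p G) :=
        Subgroup.card_comap_dvd_of_injective (Cfsg.pPrimeCore p G) N.subtype (Subgroup.subtype_injective N)
      exact Nat.Coprime.coprime_dvd_left h1 hDc
    obtain ⟨k, hk⟩ := hy
    have ho1 : orderOf (⟨y, hyN⟩ : N) = p ^ k := by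
      rw [← hk]; exact Subgroup.orderOf_mk _ _
    have ho2 : orderOf (⟨d⁻¹ * y * d, hy'N⟩ : N) = p ^ k := by
      rw [Subgroup.orderOf_mk, ← hk]
      have e : d⁻¹ * y * d = d⁻¹ * y * d⁻¹⁻¹ := by group
      rw [e]
      exact Helper4.orderOf_conj_eq d⁻¹ y
    have hmem : (⟨y, hyN⟩ : N)⁻¹ * ⟨d⁻¹ * y * d, hy'N⟩ ∈ (Cfsg.pPrimeCore p G).subgroupOf N := by
      rw [Subgroup.mem_subgroupOf]
      show y⁻¹ * (d⁻¹ * y * d) ∈ Cfsg.pPrimeCore p G
      have e : y⁻¹ * (d⁻¹ * y * d) = (y⁻¹ * d⁻¹ * y⁻¹⁻¹) * d := by group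
      rw [e]
      exact Subgroup.mul_mem _ (hDn.conj_mem _ (Subgroup.inv_mem _ hd) _) hd
    obtain ⟨c, hc, hcy⟩ := Helper4.exists_conj_eq_of_mul_mem_normal_coprime
      ((Cfsg.pPrimeCore p G).subgroupOf N) hcop (⟨y, hyN⟩ : N) ⟨d⁻¹ * y * d, hy'N⟩ ⟨k, ho1⟩ ⟨k, ho2⟩ hmem
    have hcD : (c : G) ∈ Cfsg.pPrimeCore p G := Subgroup.mem_subgroupOf.mp hc
    have hcy' : (c : G) * (d⁻¹ * y * d) * (c : G)⁻¹ = y := by
      have := congrArg Subtype.val hcy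
      simpa using this
    refine ⟨d * (c : G)⁻¹, Subgroup.mem_inf.mpr ⟨Subgroup.mul_mem _ hd (Subgroup.inv_mem _ hcD), ?_⟩, (c : G),
      Subgroup.mem_inf.mpr ⟨hcD, hND _ c.2 hcD⟩, by group⟩
    rw [Subgroup.mem_centralizer_singleton_iff]
    calc d * (c : G)⁻¹ * y = d * (c : G)⁻¹ * ((c : G) * (d⁻¹ * y * d) * (c : G)⁻¹) := by rw [hcy']
      _ = y * (d * (c : G)⁻¹) := by group
  refine ⟨partA, ?_⟩
  -- part (b)
  intro x y hx hy hxy
  obtain ⟨g, hg⟩ := isConj_iff.mp hxy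
  -- P ≤ N
  have hPN : (P : Subgroup G) ≤ Subgroup.normalizer (((P : Subgroup G) ⊓ Cfsg.pPrimePCore p G : Subgroup G) : Set G) := by
    intro u hu
    apply Subgroup.mem_normalizer_fintype
    intro n hn
    exact ⟨Subgroup.mul_mem _ (Subgroup.mul_mem _ hu hn.1) (Subgroup.inv_mem _ hu), hLn.conj_mem n hn.2 u⟩
  have hHN : ((P : Subgroup G) ⊓ Cfsg.pPrimePCore p G : Subgroup G) ≤ Subgroup.normalizer (((P : Subgroup G) ⊓ Cfsg.pPrimePCore p G : Subgroup G) : Set G) :=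
    inf_le_left.trans hPN
  -- L ≤ H ⊔ D
  have hLHD : Cfsg.pPrimePCore p G ≤ ((P : Subgroup G) ⊓ Cfsg.pPrimePCore p G : Subgroup G) ⊔ Cfsg.pPrimeCore p G := by
    have hHp' : IsPGroup p (((P : Subgroup G) ⊓ Cfsg.pPrimePCore p G : Subgroup G).subgroupOf (Cfsg.pPrimePCore p G)) :=
      hHp.comap_of_injective _ (Subgroup.subtype_injective _)
    have h1 := Helper3.pPrimePCore_le_sylow_sup p (hHp'.toSylow (Helper4.sylow_inf_normal_not_dvd P (Cfsg.pPrimePCore p G)))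
    have h1' : Cfsg.pPrimePCore p G ≤ (((P : Subgroup G) ⊓ Cfsg.pPrimePCore p G : Subgroup G).subgroupOf (Cfsg.pPrimePCore p G)).map (Cfsg.pPrimePCore p G).subtype ⊔ Cfsg.pPrimeCore p G := h1
    rw [Subgroup.subgroupOf_map_subtype] at h1'
    refine h1'.trans (sup_le_sup_right inf_le_left _)
  -- Frattini
  obtain ⟨l, hl, hlg⟩ := Helper4.frattini_inf_normal P (Cfsg.pPrimePCore p G) g
  have hl' := hLHD (Subgroup.inv_mem _ hl)
  obtain ⟨h, hh, d, hd, hhd⟩ := Subgroup.mem_sup_of_normal_right.mp hl'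
  -- g = l⁻¹ (l g) = h d (l g);  set n0 = l g ∈ N; d' = n0⁻¹... 
  -- y = g x g⁻¹ = h d n0 x n0⁻¹ d⁻¹ h⁻¹
  set n0 : G := l * g with hn0
  have hg' : g = h * d * n0 := by
    rw [hn0, hhd]; group
  -- write d * n0 = n0 * d' with d' ∈ D
  have hd' : n0⁻¹ * d * n0 ∈ Cfsg.pPrimeCore p G := by
    have := hDn.conj_mem d hd n0⁻¹
    simpa using this
  have hg'' : g = (h * n0) * (n0⁻¹ * d * n0) := by rw [hg']; group
  set n1 : G := h * n0 with hn1
  set d1 : G := n0⁻¹ * d * n0 with hd1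
  have hn1N : n1 ∈ Subgroup.normalizer (((P : Subgroup G) ⊓ Cfsg.pPrimePCore p G : Subgroup G) : Set G) :=
    Subgroup.mul_mem _ (hHN hh) hlg
  -- d1 x d1⁻¹ = n1⁻¹ y n1 ∈ N
  have hxN := hPN hx
  have hyN := hPN hy
  have e1 : d1 * x * d1⁻¹ = n1⁻¹ * y * n1 := by
    rw [← hg, hg'']; group
  have h2 : d1⁻¹⁻¹ * x * d1⁻¹ ∈ Subgroup.normalizer (((P : Subgroup G) ⊓ Cfsg.pPrimePCore p G : Subgroup G) : Set G) := by
    rw [inv_inv, e1]
    exact Subgroup.mul_mem _ (Subgroup.mul_mem _ (Subgroup.inv_mem _ hn1N) hyN) hn1N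
  have hxp : ∃ k : ℕ, orderOf x = p ^ k := by
    obtain ⟨k, hk⟩ := P.2 ⟨x, hx⟩
    have h1 : x ^ p ^ k = 1 := by
      have := congrArg Subtype.val hk
      simpa using this
    exact (Nat.dvd_prime_pow hpp).mp (orderOf_dvd_of_pow_eq_one h1) |>.imp fun j hj => hj.2
  obtain ⟨d₁, hd₁, d₂, hd₂, hdd⟩ := partA x hxN hxp d1⁻¹ (Subgroup.inv_mem _ hd') h2
  have hd₁c : d₁ * x = x * d₁ := Subgroup.mem_centralizer_singleton_iff.mp (Subgroup.mem_inf.mp hd₁).2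
  have hd₂N : d₂ ∈ Subgroup.normalizer (((P : Subgroup G) ⊓ Cfsg.pPrimePCore p G : Subgroup G) : Set G) :=
    (Subgroup.centralizer_le_normalizer _) (Subgroup.mem_inf.mp hd₂).2
  refine ⟨n1 * d₂⁻¹, Subgroup.mul_mem _ hn1N (Subgroup.inv_mem _ hd₂N), ?_⟩
  have hd1eq : d1 = d₂⁻¹ * d₁⁻¹ := by
    have : d1 = (d1⁻¹)⁻¹ := by group
    rw [this, hdd]; group
  have hd₁c' : d₁⁻¹ * x * d₁ = x := by
    calc d₁⁻¹ * x * d₁ = d₁⁻¹ * (x * d₁) := by group
      _ = d₁⁻¹ * (d₁ * x) := by rw [hd₁c]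
      _ = x := by group
  calc n1 * d₂⁻¹ * x * (n1 * d₂⁻¹)⁻¹ = n1 * (d₂⁻¹ * (d₁⁻¹ * x * d₁) * d₂) * n1⁻¹ := by rw [hd₁c']; group
    _ = n1 * (d1 * x * d1⁻¹) * n1⁻¹ := by rw [hd1eq]; group
    _ = y := by rw [e1]; group

end Cfsg.Agent.S1907
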