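import Cfsg.Statements.S1939
import Cfsg.Agent.Helper4.Basic

set_option autoImplicit false
open Cfsg

namespace Cfsg.Agent.S1939

/-- Let S be a Sylow p-subgroup of the finite group G and a an element of S that is the only G-conjugate of a lying in S. Then every power of a has the same property: for every n, the only G-conjugate of a^n lying in S is a^n. -/
theorem result {G : Type*} [Group G] [Finite G] {p : ℕ} [Fact p.Prime] (S : Sylow p G) (a : G)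
    (haS : a ∈ (S : Subgroup G)) (hwc : ∀ g : G, g * a * g⁻¹ ∈ (S : Subgroup G) → g * a * g⁻¹ = a) (n : ℕ) :
    ∀ g : G, g * a ^ n * g⁻¹ ∈ (S : Subgroup G) → g * a ^ n * g⁻¹ = a ^ n := by
  intro g hg
  -- a is central in S
  have hcen : ∀ s ∈ (S : Subgroup G), s * a = a * s := by
    intro s hs
    have h1 : s * a * s⁻¹ ∈ (S : Subgroup G) :=
      Subgroup.mul_mem _ (Subgroup.mul_mem _ hs haS) (Subgroup.inv_mem _ hs)
    have h2 := hwc s h1
    calc s * a = s * a * s⁻¹ * s := by group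
      _ = a * s := by rw [h2]
  set c := g * a ^ n * g⁻¹ with hc
  set H : Subgroup G := Subgroup.centralizer {c} with hH
  -- g S g⁻¹ ≤ H
  have hgS : ((g • S : Sylow p G) : Subgroup G) ≤ H := by
    intro x hx
    rw [Cfsg.Agent.Helper4.mem_smul_sylow_iff] at hx
    rw [hH, Subgroup.mem_centralizer_singleton_iff]
    have h1 := hcen _ hx
    have h2 : (g⁻¹ * x * g) * a ^ n = a ^ n * (g⁻¹ * x * g) := by
      have : Commute (g⁻¹ * x * g) a := h1
      exact (this.pow_right n)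
    calc x * c = g * ((g⁻¹ * x * g) * a ^ n) * g⁻¹ := by rw [hc]; group
      _ = g * (a ^ n * (g⁻¹ * x * g)) * g⁻¹ := by rw [h2]
      _ = c * x := by rw [hc]; group
  -- a ∈ H
  have haH : a ∈ H := by
    rw [hH, Subgroup.mem_centralizer_singleton_iff]
    exact (hcen c hg).symm
  have hQ : IsPGroup p (Subgroup.zpowers a) := by
    have : Subgroup.zpowers a ≤ (S : Subgroup G) := by
      rw [Subgroup.zpowers_le]; exact haS
    exact S.2.to_le this
  obtain ⟨h, hhH, hh⟩ := Cfsg.Agent.Helper4.exists_conj_mem_of_le (g • S) H hgS (Subgroup.zpowers a) hQ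
    (by rw [Subgroup.zpowers_le]; exact haH)
  have h3 := hh a (Subgroup.mem_zpowers a)
  rw [Cfsg.Agent.Helper4.mem_smul_sylow_iff] at h3
  have h4 : (g⁻¹ * h⁻¹) * a * (g⁻¹ * h⁻¹)⁻¹ ∈ (S : Subgroup G) := by
    have : (g⁻¹ * h⁻¹) * a * (g⁻¹ * h⁻¹)⁻¹ = g⁻¹ * (h⁻¹ * a * h) * g := by group
    rw [this]; exact h3
  have h5 := hwc _ h4
  have h6 : Commute (g⁻¹ * h⁻¹) a := by
    show (g⁻¹ * h⁻¹) * a = a * (g⁻¹ * h⁻¹)
    calc (g⁻¹ * h⁻¹) * a = (g⁻¹ * h⁻¹) * a * (g⁻¹ * h⁻¹)⁻¹ * (g⁻¹ * h⁻¹) := by group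
      _ = a * (g⁻¹ * h⁻¹) := by rw [h5]
  have h7 : (g⁻¹ * h⁻¹) * a ^ n = a ^ n * (g⁻¹ * h⁻¹) := h6.pow_right n
  have h8 : h * c = c * h := by
    rw [hH, Subgroup.mem_centralizer_singleton_iff] at hhH
    exact hhH
  -- c = h c h⁻¹ = h g a^n g⁻¹ h⁻¹ = a^n
  calc c = h * c * h⁻¹ := by rw [h8]; group
    _ = (g⁻¹ * h⁻¹)⁻¹ * a ^ n * (g⁻¹ * h⁻¹) := by rw [hc]; group
    _ = (g⁻¹ * h⁻¹)⁻¹ * (a ^ n * (g⁻¹ * h⁻¹)) := by group
    _ = (g⁻¹ * h⁻¹)⁻¹ * ((g⁻¹ * h⁻¹) * a ^ n) := by rw [h7]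
    _ = a ^ n := by group

end Cfsg.Agent.S1939
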