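import Cfsg.Statements.S1940
-- import your own Cfsg.Agent.* helpers here

set_option autoImplicit false
open Cfsg

namespace Cfsg.Agent.S1940

/-- Let the finite group L act by automorphisms on the finite abelian group M, and let N be an L-invariant subgroup of M such that M/N is a p-group on which L acts trivially (every l • m lies in the coset mN). If every element of M is a product of an element of N and an element fixed by a Sylow p-subgroup T of L, then every element of M is a product of an element of N and an element fixed by all of L. -/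
theorem result {L : Type*} [Group L] [Finite L] {M : Type*} [CommGroup M] [Finite M] [MulDistribMulAction L M]
    {p : ℕ} [Fact p.Prime] (N : Subgroup M) (hN : ∀ (l : L) (m : M), m ∈ N → l • m ∈ N)
    (hquot : IsPGroup p (M ⧸ N)) (htriv : ∀ (l : L) (m : M), (l • m) * m⁻¹ ∈ N) (T : Sylow p L)
    (hT : ∀ m : M, ∃ n ∈ N, ∃ c : M, (∀ t ∈ (T : Subgroup L), t • c = c) ∧ m = n * c) :
    ∀ m : M, ∃ n ∈ N, ∃ c : M, (∀ l : L, l • c = c) ∧ m = n * c := by
  classical
  intro m
  let _instQ : Fintype (L ⧸ (T : Subgroup L)) := Fintype.ofFinite _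
  have hcop : (Nat.card (M ⧸ N)).Coprime (T : Subgroup L).index := by
    obtain ⟨a, ha⟩ := IsPGroup.iff_card.mp hquot
    rw [ha]
    apply Nat.Coprime.pow_left
    exact (Nat.Prime.coprime_iff_not_dvd Fact.out).mpr T.not_dvd_index
  obtain ⟨x, hx⟩ := (powCoprime hcop).surjective (QuotientGroup.mk m : M ⧸ N)
  obtain ⟨m', rfl⟩ := QuotientGroup.mk_surjective x
  obtain ⟨n', hn', c₁, hc₁, hm'⟩ := hT m'
  have hmk : ∀ (l : L) (y : M), (QuotientGroup.mk (l • y) : M ⧸ N) = QuotientGroup.mk y := by
    intro l y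
    rw [QuotientGroup.eq]
    have h := N.inv_mem (htriv l y)
    have e : ((l • y) * y⁻¹)⁻¹ = (l • y)⁻¹ * y := by
      rw [mul_inv_rev, inv_inv, mul_comm]
    rwa [e] at h
  have hc1 : (QuotientGroup.mk c₁ : M ⧸ N) = QuotientGroup.mk m' := by
    rw [hm', QuotientGroup.mk_mul, (QuotientGroup.eq_one_iff n').mpr hn', one_mul]
  have hc'mk : (QuotientGroup.mk (∏ q : L ⧸ (T : Subgroup L), (Quotient.out q) • c₁) : M ⧸ N) =
      QuotientGroup.mk m := by
    have h1 : (QuotientGroup.mk (∏ q : L ⧸ (T : Subgroup L), (Quotient.out q) • c₁) : M ⧸ N) =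
        ∏ q : L ⧸ (T : Subgroup L), (QuotientGroup.mk ((Quotient.out q) • c₁) : M ⧸ N) :=
      map_prod (QuotientGroup.mk' N) _ _
    rw [h1]
    simp only [hmk]
    rw [Finset.prod_const, Finset.card_univ, hc1, ← Nat.card_eq_fintype_card]
    exact hx
  have hfix : ∀ l : L, l • (∏ q : L ⧸ (T : Subgroup L), (Quotient.out q) • c₁) =
      ∏ q : L ⧸ (T : Subgroup L), (Quotient.out q) • c₁ := by
    intro l
    rw [Finset.smul_prod']
    rw [← Equiv.prod_comp (MulAction.toPerm l : Equiv.Perm (L ⧸ (T : Subgroup L)))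
      (fun q => (Quotient.out q) • c₁)]
    apply Finset.prod_congr rfl
    intro q _
    have h1 : (Quotient.out (l • q))⁻¹ * (l * Quotient.out q) ∈ (T : Subgroup L) := by
      rw [← QuotientGroup.eq]
      rw [QuotientGroup.out_eq']
      have : ((l * Quotient.out q : L) : L ⧸ (T : Subgroup L)) = l • ((Quotient.out q : L) : L ⧸ (T : Subgroup L)) := rfl
      rw [this, QuotientGroup.out_eq']
    have h2 := hc₁ _ h1
    have h3 : l * Quotient.out q = Quotient.out (l • q) * ((Quotient.out (l • q))⁻¹ * (l * Quotient.out q)) := by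
      group
    show l • Quotient.out q • c₁ = Quotient.out (l • q) • c₁
    rw [← mul_smul, h3, mul_smul, h2]
  refine ⟨m * (∏ q : L ⧸ (T : Subgroup L), (Quotient.out q) • c₁)⁻¹, ?_, _, hfix, by simp⟩
  have := QuotientGroup.eq.mp hc'mk
  rwa [mul_comm] at this


end Cfsg.Agent.S1940
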