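import Cfsg.Statements.S2162
import Mathlib

set_option autoImplicit false
open Cfsg

namespace Cfsg.Agent.S2162

open Matrix

variable {F : Type*} [Field F]

theorem exists_basis {V : Type*} [AddCommGroup V] [Module F V] [FiniteDimensional F V]
    (f : V →ₗ[F] V) (hff : f ∘ₗ f = 0) (s d : ℕ)
    (hs : Module.finrank F (LinearMap.range f) = s) (hd : Module.finrank F V = s + d + s) :
    ∃ b : Module.Basis ((Fin s ⊕ Fin d) ⊕ Fin s) F V,
      (∀ i, f (b (Sum.inr i)) = b (Sum.inl (Sum.inl i))) ∧ (∀ k, f (b (Sum.inl k)) = 0) := by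
  classical
  have hRK : LinearMap.range f ≤ LinearMap.ker f := by
    rintro _ ⟨x, rfl⟩
    rw [LinearMap.mem_ker]
    exact LinearMap.congr_fun hff x
  obtain ⟨D', hD'⟩ := Submodule.exists_isCompl (LinearMap.range f)
  have hRD : Disjoint (LinearMap.range f) (D' ⊓ LinearMap.ker f) :=
    hD'.disjoint.mono_right inf_le_left
  have hsup : LinearMap.range f ⊔ (D' ⊓ LinearMap.ker f) = LinearMap.ker f := by
    rw [← sup_inf_assoc_of_le D' hRK, hD'.sup_eq_top, top_inf_eq]
  have hK : Module.finrank F (LinearMap.ker f) = d + s := by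
    have h1 := LinearMap.finrank_range_add_finrank_ker f
    omega
  have hDd : Module.finrank F ↥(D' ⊓ LinearMap.ker f) = d := by
    have h1 := Submodule.finrank_sup_add_finrank_inf_eq (LinearMap.range f)
      (D' ⊓ LinearMap.ker f)
    rw [hsup, hRD.eq_bot, finrank_bot] at h1
    omega
  obtain ⟨bR⟩ : Nonempty (Module.Basis (Fin s) F (LinearMap.range f)) :=
    ⟨Module.finBasisOfFinrankEq F _ hs⟩
  obtain ⟨bD⟩ : Nonempty (Module.Basis (Fin d) F ↥(D' ⊓ LinearMap.ker f)) :=
    ⟨Module.finBasisOfFinrankEq F _ hDd⟩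
  have hv : ∀ i : Fin s, ∃ v : V, f v = (bR i : V) := fun i => LinearMap.mem_range.1 (bR i).2
  choose v hv using hv
  have li1 : LinearIndependent F (fun i => ((bR i : LinearMap.range f) : V)) :=
    bR.linearIndependent.map' (LinearMap.range f).subtype (Submodule.ker_subtype _)
  have li2 : LinearIndependent F (fun j => ((bD j : ↥(D' ⊓ LinearMap.ker f)) : V)) :=
    bD.linearIndependent.map' (D' ⊓ LinearMap.ker f).subtype (Submodule.ker_subtype _)
  have sp1 : Submodule.span F (Set.range (fun i => ((bR i : LinearMap.range f) : V))) =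
      LinearMap.range f := by
    have e : (fun i => ((bR i : LinearMap.range f) : V)) =
        (LinearMap.range f).subtype ∘ bR := rfl
    rw [e, Set.range_comp, ← Submodule.map_span, bR.span_eq, Submodule.map_subtype_top]
  have sp2 : Submodule.span F (Set.range (fun j => ((bD j : ↥(D' ⊓ LinearMap.ker f)) : V))) =
      D' ⊓ LinearMap.ker f := by
    have e : (fun j => ((bD j : ↥(D' ⊓ LinearMap.ker f)) : V)) =
        (D' ⊓ LinearMap.ker f).subtype ∘ bD := rfl
    rw [e, Set.range_comp, ← Submodule.map_span, bD.span_eq, Submodule.map_subtype_top]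
  have li12 : LinearIndependent F (Sum.elim (fun i => ((bR i : LinearMap.range f) : V))
      (fun j => ((bD j : ↥(D' ⊓ LinearMap.ker f)) : V))) := by
    apply LinearIndependent.sum_type li1 li2
    rw [sp1, sp2]; exact hRD
  have sp12 : Submodule.span F (Set.range (Sum.elim (fun i => ((bR i : LinearMap.range f) : V))
      (fun j => ((bD j : ↥(D' ⊓ LinearMap.ker f)) : V)))) = LinearMap.ker f := by
    rw [Set.Sum.elim_range, Submodule.span_union, sp1, sp2, hsup]
  have liv : LinearIndependent F v := by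
    have h1 : LinearIndependent F (f ∘ v) := by
      have e : f ∘ v = fun i => ((bR i : LinearMap.range f) : V) := funext hv
      rw [e]; exact li1
    exact LinearIndependent.of_comp f h1
  have li : LinearIndependent F (Sum.elim (Sum.elim (fun i => ((bR i : LinearMap.range f) : V))
      (fun j => ((bD j : ↥(D' ⊓ LinearMap.ker f)) : V))) v) := by
    apply LinearIndependent.sum_type li12 liv
    rw [sp12, Submodule.disjoint_def]
    intro x hxK hxv
    rw [Submodule.mem_span_range_iff_exists_fun] at hxv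
    obtain ⟨c, rfl⟩ := hxv
    rw [LinearMap.mem_ker, map_sum] at hxK
    have h1 : ∑ i, c i • ((bR i : LinearMap.range f) : V) = 0 := by
      rw [← hxK]
      refine Finset.sum_congr rfl fun i _ => ?_
      rw [map_smul, hv]
    have hc := (Fintype.linearIndependent_iff.1 li1) c h1
    simp [hc]
  have hcard : Fintype.card ((Fin s ⊕ Fin d) ⊕ Fin s) = Module.finrank F V := by
    rw [hd]; simp [Fintype.card_sum]
  refine ⟨basisOfLinearIndependentOfCardEqFinrank' (K := F) _ li hcard, ?_, ?_⟩
  · intro i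
    rw [coe_basisOfLinearIndependentOfCardEqFinrank']
    exact hv i
  · intro k
    rw [coe_basisOfLinearIndependentOfCardEqFinrank']
    have h1 : Sum.elim (fun i => ((bR i : LinearMap.range f) : V))
        (fun j => ((bD j : ↥(D' ⊓ LinearMap.ker f)) : V)) k ∈ LinearMap.ker f := by
      have h0 := Submodule.subset_span (R := F) (Set.mem_range_self (f := Sum.elim
        (fun i => ((bR i : LinearMap.range f) : V))
        (fun j => ((bD j : ↥(D' ⊓ LinearMap.ker f)) : V))) k)
      exact sp12.le h0
    exact LinearMap.mem_ker.1 h1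

theorem range_le_ker {V : Type*} [AddCommGroup V] [Module F V]
    (f : V →ₗ[F] V) (hff : f ∘ₗ f = 0) : LinearMap.range f ≤ LinearMap.ker f := by
  rintro _ ⟨x, rfl⟩
  rw [LinearMap.mem_ker]
  exact LinearMap.congr_fun hff x

theorem exists_d {V : Type*} [AddCommGroup V] [Module F V] [FiniteDimensional F V]
    (f : V →ₗ[F] V) (hff : f ∘ₗ f = 0) :
    ∃ d, Module.finrank F V = Module.finrank F (LinearMap.range f) + d +
      Module.finrank F (LinearMap.range f) := by
  have h1 := LinearMap.finrank_range_add_finrank_ker f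
  have h2 := Submodule.finrank_mono (range_le_ker f hff)
  exact ⟨Module.finrank F (LinearMap.ker f) - Module.finrank F (LinearMap.range f), by omega⟩

theorem exists_conj {V : Type*} [AddCommGroup V] [Module F V] [FiniteDimensional F V]
    (f g : V →ₗ[F] V) (hff : f ∘ₗ f = 0) (hgg : g ∘ₗ g = 0)
    (hrk : Module.finrank F (LinearMap.range f) = Module.finrank F (LinearMap.range g)) :
    ∃ φ : V ≃ₗ[F] V, g ∘ₗ φ.toLinearMap = φ.toLinearMap ∘ₗ f := by
  obtain ⟨d, hd⟩ := exists_d f hff
  obtain ⟨b, hb1, hb2⟩ := exists_basis f hff _ d rfl hd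
  obtain ⟨b', hb1', hb2'⟩ := exists_basis g hgg _ d hrk.symm hd
  refine ⟨b.equiv b' (Equiv.refl _), ?_⟩
  apply b.ext
  intro k
  show g (b.equiv b' (Equiv.refl _) (b k)) = b.equiv b' (Equiv.refl _) (f (b k))
  rcases k with k | i
  · rw [Module.Basis.equiv_apply, hb2, map_zero]; exact hb2' k
  · rw [Module.Basis.equiv_apply, hb1, Module.Basis.equiv_apply]; exact hb1' i

theorem exists_det {V : Type*} [AddCommGroup V] [Module F V] [FiniteDimensional F V]
    (f : V →ₗ[F] V) (hff : f ∘ₗ f = 0) (hf0 : f ≠ 0) (hsq : ∀ x : F, ∃ y, y * y = x) (c : F) :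
    ∃ D : V →ₗ[F] V, D ∘ₗ f = f ∘ₗ D ∧ LinearMap.det D = c := by
  classical
  obtain ⟨d, hd⟩ := exists_d f hff
  obtain ⟨b, hb1, hb2⟩ := exists_basis f hff _ d rfl hd
  have hs0 : 0 < Module.finrank F (LinearMap.range f) := by
    rw [Nat.pos_iff_ne_zero]
    intro h0
    rw [Submodule.finrank_eq_zero, LinearMap.range_eq_bot] at h0
    exact hf0 h0
  obtain ⟨y, hy⟩ := hsq c
  obtain ⟨i₀⟩ : Nonempty (Fin (Module.finrank F (LinearMap.range f))) := ⟨⟨0, hs0⟩⟩
  obtain ⟨δ, hδ⟩ : ∃ δ : (Fin (Module.finrank F (LinearMap.range f)) ⊕ Fin d) ⊕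
      Fin (Module.finrank F (LinearMap.range f)) → F,
      δ = Sum.elim (Sum.elim (fun i => if i = i₀ then y else 1) (fun _ => 1))
        (fun i => if i = i₀ then y else 1) := ⟨_, rfl⟩
  have hδ1 : ∀ i, δ (Sum.inr i) = δ (Sum.inl (Sum.inl i)) := by
    intro i; rw [hδ]; rfl
  have hδ2 : ∏ k, δ k = c := by
    rw [hδ, Fintype.prod_sum_type, Fintype.prod_sum_type]
    simp only [Sum.elim_inl, Sum.elim_inr, Finset.prod_ite_eq', Finset.mem_univ, if_true,
      Finset.prod_const_one, mul_one]
    exact hy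
  have hDb : ∀ k, Matrix.toLin b b (Matrix.diagonal δ) (b k) = δ k • b k := by
    intro k
    rw [Matrix.toLin_self]
    simp [Matrix.diagonal_apply]
  refine ⟨Matrix.toLin b b (Matrix.diagonal δ), ?_, ?_⟩
  · apply b.ext
    intro k
    show Matrix.toLin b b (Matrix.diagonal δ) (f (b k)) =
      f (Matrix.toLin b b (Matrix.diagonal δ) (b k))
    rw [hDb]
    rcases k with k | i
    · rw [hb2, map_zero, map_smul, hb2, smul_zero]
    · rw [hb1, hDb, map_smul, hb1, hδ1]
  · rw [LinearMap.det_toLin, Matrix.det_diagonal, hδ2]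

theorem sq_zero [CharP F 2] {n : ℕ} (a : Matrix.SpecialLinearGroup (Fin n) F)
    (ha : orderOf a = 2) :
    ((a : Matrix (Fin n) (Fin n) F) - 1) * ((a : Matrix (Fin n) (Fin n) F) - 1) = 0 := by
  have h2 : (2 : F) = 0 := by
    have h := CharP.cast_eq_zero F 2
    exact_mod_cast h
  have h1 : (a : Matrix (Fin n) (Fin n) F) * (a : Matrix (Fin n) (Fin n) F) = 1 := by
    have h3 : a ^ 2 = 1 := by rw [← ha]; exact pow_orderOf_eq_one a
    rw [pow_two] at h3
    exact congrArg Subtype.val h3
  have e : ((a : Matrix (Fin n) (Fin n) F) - 1) * ((a : Matrix (Fin n) (Fin n) F) - 1) =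
      (2 : F) • (1 - (a : Matrix (Fin n) (Fin n) F)) := by
    rw [Matrix.sub_mul, Matrix.mul_sub, Matrix.mul_sub, h1, two_smul]
    simp only [Matrix.mul_one, Matrix.one_mul]
    abel
  rw [e, h2, zero_smul]

/-- Conjugacy of involutions in the special linear group over a finite field of characteristic two, in dimension at least 3: two elements of order 2 of SL_n(F) are conjugate in SL_n(F) exactly when the matrices a − 1 and b − 1 have the same rank (the rank of a − 1 is the dimension of the commutator space [V, a]). -/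
theorem result {F : Type*} [Field F] [Fintype F] [CharP F 2] {n : ℕ} (hn : 3 ≤ n) (a b : Matrix.SpecialLinearGroup (Fin n) F) (ha : orderOf a = 2) (hb : orderOf b = 2) :
    IsConj a b ↔ ((a : Matrix (Fin n) (Fin n) F) - 1).rank = ((b : Matrix (Fin n) (Fin n) F) - 1).rank := by
  classical
  constructor
  · intro h
    obtain ⟨g, hg⟩ := isConj_iff.1 h
    have hga : (g : Matrix (Fin n) (Fin n) F) * (a : Matrix (Fin n) (Fin n) F) =
        (b : Matrix (Fin n) (Fin n) F) * (g : Matrix (Fin n) (Fin n) F) := by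
      have h1 : g * a = b * g := by rw [← hg]; group
      exact congrArg Subtype.val h1
    have hgd : IsUnit (g : Matrix (Fin n) (Fin n) F).det := by rw [g.2]; exact isUnit_one
    have h2 : (g : Matrix (Fin n) (Fin n) F) * ((a : Matrix (Fin n) (Fin n) F) - 1) =
        ((b : Matrix (Fin n) (Fin n) F) - 1) * (g : Matrix (Fin n) (Fin n) F) := by
      rw [Matrix.mul_sub, Matrix.sub_mul, hga, Matrix.mul_one, Matrix.one_mul]
    rw [← Matrix.rank_mul_eq_right_of_isUnit_det (g : Matrix (Fin n) (Fin n) F)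
      ((a : Matrix (Fin n) (Fin n) F) - 1) hgd, h2,
      Matrix.rank_mul_eq_left_of_isUnit_det (g : Matrix (Fin n) (Fin n) F)
      ((b : Matrix (Fin n) (Fin n) F) - 1) hgd]
  · intro hrank
    have h2 : (2 : F) = 0 := by
      have h := CharP.cast_eq_zero F 2
      exact_mod_cast h
    have hNa := sq_zero a ha
    have hNb := sq_zero b hb
    have hffa : Matrix.toLin' ((a : Matrix (Fin n) (Fin n) F) - 1) ∘ₗ
        Matrix.toLin' ((a : Matrix (Fin n) (Fin n) F) - 1) = 0 := by
      rw [← Matrix.toLin'_mul, hNa, map_zero]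
    have hffb : Matrix.toLin' ((b : Matrix (Fin n) (Fin n) F) - 1) ∘ₗ
        Matrix.toLin' ((b : Matrix (Fin n) (Fin n) F) - 1) = 0 := by
      rw [← Matrix.toLin'_mul, hNb, map_zero]
    have hr : Module.finrank F (LinearMap.range
        (Matrix.toLin' ((a : Matrix (Fin n) (Fin n) F) - 1))) =
        Module.finrank F (LinearMap.range
        (Matrix.toLin' ((b : Matrix (Fin n) (Fin n) F) - 1))) := hrank
    obtain ⟨φ, hφ⟩ := exists_conj _ _ hffa hffb hr
    have hfa0 : Matrix.toLin' ((a : Matrix (Fin n) (Fin n) F) - 1) ≠ 0 := by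
      intro h0
      have h1 : (a : Matrix (Fin n) (Fin n) F) - 1 = 0 := by
        apply Matrix.toLin'.injective
        rw [h0, map_zero]
      have h3 : a = 1 := Subtype.ext (sub_eq_zero.1 h1)
      rw [h3, orderOf_one] at ha
      omega
    have hsq : ∀ x : F, ∃ y, y * y = x := by
      have hinj : Function.Injective (fun y : F => y * y) := by
        intro x y hxy
        have hxy' : x * x = y * y := hxy
        have h3 : (x - y) * (x - y) = 0 := by
          linear_combination hxy' + (y * y - x * y) * h2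
        exact sub_eq_zero.1 (mul_self_eq_zero.1 h3)
      exact Finite.surjective_of_injective hinj
    obtain ⟨D, hD1, hD2⟩ := exists_det _ hffa hfa0 hsq (LinearMap.det φ.toLinearMap)⁻¹
    have hdφ : LinearMap.det φ.toLinearMap ≠ 0 := φ.isUnit_det'.ne_zero
    have hPN : ((b : Matrix (Fin n) (Fin n) F) - 1) * LinearMap.toMatrix' φ.toLinearMap =
        LinearMap.toMatrix' φ.toLinearMap * ((a : Matrix (Fin n) (Fin n) F) - 1) := by
      have h1 := congrArg LinearMap.toMatrix' hφ
      rw [LinearMap.toMatrix'_comp, LinearMap.toMatrix'_comp, LinearMap.toMatrix'_toLin',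
        LinearMap.toMatrix'_toLin'] at h1
      exact h1
    have hDN : LinearMap.toMatrix' D * ((a : Matrix (Fin n) (Fin n) F) - 1) =
        ((a : Matrix (Fin n) (Fin n) F) - 1) * LinearMap.toMatrix' D := by
      have h1 := congrArg LinearMap.toMatrix' hD1
      rw [LinearMap.toMatrix'_comp, LinearMap.toMatrix'_comp, LinearMap.toMatrix'_toLin'] at h1
      exact h1
    have hdet : (LinearMap.toMatrix' φ.toLinearMap * LinearMap.toMatrix' D).det = 1 := by
      rw [Matrix.det_mul, LinearMap.det_toMatrix', LinearMap.det_toMatrix', hD2,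
        mul_inv_cancel₀ hdφ]
    obtain ⟨g, hg⟩ : ∃ g : Matrix.SpecialLinearGroup (Fin n) F,
        (g : Matrix (Fin n) (Fin n) F) =
          LinearMap.toMatrix' φ.toLinearMap * LinearMap.toMatrix' D := ⟨⟨_, hdet⟩, rfl⟩
    have hbg : ((b : Matrix (Fin n) (Fin n) F) - 1) * (g : Matrix (Fin n) (Fin n) F) =
        (g : Matrix (Fin n) (Fin n) F) * ((a : Matrix (Fin n) (Fin n) F) - 1) := by
      rw [hg, ← Matrix.mul_assoc, hPN, Matrix.mul_assoc, ← hDN, Matrix.mul_assoc]
    have hga : g * a = b * g := by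
      apply Subtype.ext
      show (g : Matrix (Fin n) (Fin n) F) * (a : Matrix (Fin n) (Fin n) F) =
        (b : Matrix (Fin n) (Fin n) F) * (g : Matrix (Fin n) (Fin n) F)
      rw [Matrix.sub_mul, Matrix.mul_sub, Matrix.one_mul, Matrix.mul_one] at hbg
      exact (sub_left_inj.1 hbg).symm
    exact isConj_iff.2 ⟨g, by rw [hga, mul_inv_cancel_right]⟩

end Cfsg.Agent.S2162
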