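import Cfsg.Statements.S2163
import Mathlib

set_option autoImplicit false
open Cfsg

namespace Cfsg.Agent.S2163

/-- Over a finite field of characteristic two and for n ≥ 3: for every ℓ with 1 ≤ ℓ and 2ℓ ≤ n, the matrix j_ℓ that is the identity plus the entries 1 in positions (n − ℓ + i, i) for i < ℓ (an identity block of size ℓ in the lower left corner) lies in SL_n(F), has order 2, and j_ℓ − 1 has rank ℓ. Together with the conjugacy criterion by rank, these matrices represent the conjugacy classes of involutions of SL_n(F). -/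
theorem result {F : Type*} [Field F] [Fintype F] [CharP F 2] {n : ℕ} (hn : 3 ≤ n) (ℓ : ℕ) (h1 : 1 ≤ ℓ) (h2 : 2 * ℓ ≤ n) :
    ∃ a : Matrix.SpecialLinearGroup (Fin n) F, (a : Matrix (Fin n) (Fin n) F) = 1 + Matrix.of (fun i j : Fin n => if j.val < ℓ ∧ i.val = j.val + (n - ℓ) then (1 : F) else 0) ∧ orderOf a = 2 ∧ ((a : Matrix (Fin n) (Fin n) F) - 1).rank = ℓ := by
  classical
  set N : Matrix (Fin n) (Fin n) F := Matrix.of (fun i j : Fin n => if j.val < ℓ ∧ i.val = j.val + (n - ℓ) then (1 : F) else 0) with hN
  have hNapp : ∀ i j, N i j = if j.val < ℓ ∧ i.val = j.val + (n - ℓ) then (1 : F) else 0 := fun i j => rfl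
  have h2F : (2 : F) = 0 := by
    have := CharP.cast_eq_zero F 2
    exact_mod_cast this
  have hdet : (1 + N).det = 1 := by
    rw [Matrix.det_of_isLowerTriangular]
    · apply Finset.prod_eq_one
      intro i _
      rw [Matrix.add_apply, Matrix.one_apply_eq, hNapp, if_neg (by omega), add_zero]
    · intro i j hij
      have hij' : i < j := hij
      have hlt : i.val < j.val := hij'
      rw [Matrix.add_apply, Matrix.one_apply_ne (ne_of_lt hij'), hNapp, if_neg (by omega), add_zero]
  have hNN : N * N = 0 := by
    ext i k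
    rw [Matrix.mul_apply, Matrix.zero_apply]
    apply Finset.sum_eq_zero
    intro j _
    rw [hNapp, hNapp]
    by_cases h : j.val < ℓ ∧ i.val = j.val + (n - ℓ)
    · rw [if_pos h, if_neg (by omega), mul_zero]
    · rw [if_neg h, zero_mul]
  let a : Matrix.SpecialLinearGroup (Fin n) F := ⟨1 + N, hdet⟩
  have ha : (a : Matrix (Fin n) (Fin n) F) = 1 + N := rfl
  refine ⟨a, ha, ?_, ?_⟩
  · have hsq : a ^ 2 = 1 := by
      apply Subtype.ext
      rw [Matrix.SpecialLinearGroup.coe_pow, Matrix.SpecialLinearGroup.coe_one, pow_two, ha]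
      have : (1 + N) * (1 + N) = 1 + (2 : F) • N + N * N := by
        rw [two_smul, add_mul, mul_add, mul_add, one_mul, mul_one, one_mul]
        abel
      rw [this, hNN, h2F, zero_smul, add_zero, add_zero]
    have hne : a ≠ 1 := by
      intro h
      have h3 := congrArg (fun M : Matrix.SpecialLinearGroup (Fin n) F => (M : Matrix (Fin n) (Fin n) F) ⟨n - ℓ, by omega⟩ ⟨0, by omega⟩) h
      simp only [Matrix.SpecialLinearGroup.coe_one] at h3
      rw [ha, Matrix.add_apply, Matrix.one_apply_ne (by rw [Ne, Fin.ext_iff]; simp only; omega), hNapp, if_pos ⟨by simp only; omega, by simp only; omega⟩, zero_add] at h3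
      exact one_ne_zero h3
    exact orderOf_eq_prime hsq hne
  · rw [ha, add_sub_cancel_left]
    apply le_antisymm
    · have h5 := Matrix.rank_le_card_of_support_subset N (Finset.Ici (⟨n - ℓ, by omega⟩ : Fin n)) (by
        intro i hi
        rw [Function.mem_support] at hi
        by_contra hcon
        apply hi
        ext j
        rw [Finset.coe_Ici, Set.mem_Ici, Fin.le_def] at hcon
        simp only at hcon
        show N i j = 0
        rw [hNapp, if_neg (by omega)])
      refine h5.trans ?_
      rw [Fin.card_Ici]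
      simp only
      omega
    · have hsub : N.submatrix (fun i : Fin ℓ => (⟨i.val + (n - ℓ), by omega⟩ : Fin n)) (fun j : Fin ℓ => (⟨j.val, by omega⟩ : Fin n)) = 1 := by
        ext i j
        rw [Matrix.submatrix_apply, hNapp, Matrix.one_apply]
        simp only [Fin.ext_iff]
        by_cases hij : i.val = j.val
        · rw [if_pos ⟨j.2, by omega⟩, if_pos hij]
        · rw [if_neg (by omega), if_neg hij]
      have h6 := Matrix.rank_submatrix_le N (fun i : Fin ℓ => (⟨i.val + (n - ℓ), by omega⟩ : Fin n)) (fun j : Fin ℓ => (⟨j.val, by omega⟩ : Fin n))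
      rw [hsub, Matrix.rank_one, Fintype.card_fin] at h6
      exact h6

end Cfsg.Agent.S2163
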