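import Cfsg.Statements.S2165
import Mathlib

set_option autoImplicit false
open Cfsg

namespace Cfsg.Agent.S2165

/-- In SU_n(q), q even, n ≥ 3 (matrices of determinant 1 over the field with q² elements preserving Σ u_i v_i^q): for every ℓ with 1 ≤ ℓ and 2ℓ ≤ n, the permutation matrix of the involution of {0, …, n−1} exchanging i and n − ℓ + i for each i < ℓ lies in SU_n(q), has order 2, and differs from the identity by a matrix of rank ℓ. So every rank between 1 and n/2 occurs for involutions of SU_n(q). -/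
theorem result {F : Type*} [Field F] [Fintype F] [CharP F 2] {n q : ℕ} (hF : Fintype.card F = q ^ 2) (hn : 3 ≤ n) (ℓ : ℕ) (h1 : 1 ≤ ℓ) (h2 : 2 * ℓ ≤ n) :
    ∃ a : ↥(Cfsg.SU n F q), (((a : Matrix.SpecialLinearGroup (Fin n) F) : Matrix (Fin n) (Fin n) F) = Matrix.of (fun i j : Fin n => if (j.val < ℓ ∧ i.val = j.val + (n - ℓ)) ∨ (i.val < ℓ ∧ j.val = i.val + (n - ℓ)) ∨ (i = j ∧ ℓ ≤ i.val ∧ i.val < n - ℓ) then (1 : F) else 0)) ∧ orderOf a = 2 ∧ ((((a : Matrix.SpecialLinearGroup (Fin n) F) : Matrix (Fin n) (Fin n) F)) - 1).rank = ℓ := by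
  classical
  have h2F : (2 : F) = 0 := by
    have := CharP.cast_eq_zero F 2
    exact_mod_cast this
  have hneg : (-1 : F) = 1 := by
    rw [neg_eq_iff_add_eq_zero, one_add_one_eq_two]; exact h2F
  let σfun : Fin n → Fin n := fun i =>
    if h : i.val < ℓ then ⟨i.val + (n - ℓ), by omega⟩
    else if h' : n - ℓ ≤ i.val then ⟨i.val - (n - ℓ), by omega⟩ else i
  have hσval : ∀ i : Fin n, (σfun i).val = if i.val < ℓ then i.val + (n - ℓ) else if n - ℓ ≤ i.val then i.val - (n - ℓ) else i.val := by
    intro i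
    simp only [σfun]
    split_ifs <;> rfl
  have hinv : Function.Involutive σfun := by
    intro i
    rw [Fin.ext_iff, hσval, hσval]
    have := i.2
    split_ifs <;> omega
  let σ : Equiv.Perm (Fin n) := Function.Involutive.toPerm σfun hinv
  have hσ : ∀ i, σ i = σfun i := fun i => rfl
  let P : Matrix (Fin n) (Fin n) F := σ.toPEquiv.toMatrix
  have hPapp : ∀ i j, P i j = if σfun i = j then (1 : F) else 0 := by
    intro i j
    simp only [P, PEquiv.toMatrix_apply, Equiv.toPEquiv_apply, Option.mem_def, Option.some.injEq, hσ]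
  have hPeq : P = Matrix.of (fun i j : Fin n => if (j.val < ℓ ∧ i.val = j.val + (n - ℓ)) ∨ (i.val < ℓ ∧ j.val = i.val + (n - ℓ)) ∨ (i = j ∧ ℓ ≤ i.val ∧ i.val < n - ℓ) then (1 : F) else 0) := by
    ext i j
    rw [hPapp, Matrix.of_apply]
    apply if_congr _ rfl rfl
    rw [Fin.ext_iff, hσval, Fin.ext_iff]
    have := i.2
    have := j.2
    split_ifs <;> omega
  have hdet : P.det = 1 := by
    have h3 : P.det = ((Equiv.Perm.sign σ : ℤˣ) : ℤ) := Matrix.det_permutation σ
    rw [h3]
    rcases Int.units_eq_one_or (Equiv.Perm.sign σ) with h | h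
    · rw [h]; simp
    · rw [h]; simp [hneg]
  let aSL : Matrix.SpecialLinearGroup (Fin n) F := ⟨P, hdet⟩
  have haSL : (aSL : Matrix (Fin n) (Fin n) F) = P := rfl
  have hmem : aSL ∈ Cfsg.SU n F q := by
    intro u v
    have hmat : slToMat n F aSL = P := rfl
    rw [hmat]
    show Cfsg.hermForm n F q (σ.toPEquiv.toMatrix.mulVec u) (σ.toPEquiv.toMatrix.mulVec v) = Cfsg.hermForm n F q u v
    rw [PEquiv.toMatrix_toPEquiv_mulVec, PEquiv.toMatrix_toPEquiv_mulVec]
    unfold Cfsg.hermForm
    exact Equiv.sum_comp σ (fun i => u i * v i ^ q)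
  have hPP : P * P = 1 := by
    show σ.toPEquiv.toMatrix * P = 1
    rw [PEquiv.toMatrix_toPEquiv_mul]
    ext i j
    rw [Matrix.submatrix_apply, hPapp, hσ, hinv i, id, Matrix.one_apply]
  let a : ↥(Cfsg.SU n F q) := ⟨aSL, hmem⟩
  have ha : ((a : Matrix.SpecialLinearGroup (Fin n) F) : Matrix (Fin n) (Fin n) F) = P := rfl
  refine ⟨a, ?_, ?_, ?_⟩
  · rw [ha, hPeq]
  · have hsq : a ^ 2 = 1 := by
      apply Subtype.ext
      apply Subtype.ext
      show ((aSL ^ 2 : Matrix.SpecialLinearGroup (Fin n) F) : Matrix (Fin n) (Fin n) F) = ((1 : Matrix.SpecialLinearGroup (Fin n) F) : Matrix (Fin n) (Fin n) F)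
      rw [Matrix.SpecialLinearGroup.coe_pow, Matrix.SpecialLinearGroup.coe_one, pow_two, haSL, hPP]
    have hne : a ≠ 1 := by
      intro h
      have h3 : aSL = 1 := congrArg Subtype.val h
      have h4 : P = 1 := by
        have := congrArg Subtype.val h3
        exact this
      have h5 := congrFun (congrFun h4 ⟨0, by omega⟩) ⟨0, by omega⟩
      rw [hPapp, Matrix.one_apply_eq, if_neg (by
        rw [Fin.ext_iff, hσval]
        simp only
        split_ifs <;> omega)] at h5
      exact zero_ne_one h5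
    exact orderOf_eq_prime hsq hne
  · rw [ha]
    apply le_antisymm
    · let B : Matrix (Fin n) (Fin n) F := Matrix.of (fun r k : Fin n => if (k.val < n - ℓ ∧ r.val = k.val) ∨ (k.val < ℓ ∧ r.val = k.val + (n - ℓ)) then (1 : F) else 0)
      have hBapp : ∀ r k, B r k = if (k.val < n - ℓ ∧ r.val = k.val) ∨ (k.val < ℓ ∧ r.val = k.val + (n - ℓ)) then (1 : F) else 0 := fun r k => rfl
      have hPB : P * B = B := by
        show σ.toPEquiv.toMatrix * B = B
        rw [PEquiv.toMatrix_toPEquiv_mul]
        ext i k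
        rw [Matrix.submatrix_apply, hBapp, hBapp, id, hσ]
        apply if_congr _ rfl rfl
        rw [hσval]
        have := i.2
        have := k.2
        split_ifs <;> omega
      have hzero : (P - 1) * B = 0 := by
        rw [sub_mul, one_mul, hPB, sub_self]
      have h3 := Matrix.rank_add_rank_le_card_of_mul_eq_zero hzero
      rw [Fintype.card_fin] at h3
      have hsub : B.submatrix (fun i : Fin (n - ℓ) => (⟨i.val, by omega⟩ : Fin n)) (fun j : Fin (n - ℓ) => (⟨j.val, by omega⟩ : Fin n)) = 1 := by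
        ext i j
        rw [Matrix.submatrix_apply, hBapp, Matrix.one_apply]
        simp only [Fin.ext_iff]
        have := i.2
        have := j.2
        by_cases hij : i.val = j.val
        · rw [if_pos (Or.inl ⟨by omega, hij⟩), if_pos hij]
        · rw [if_neg (by omega), if_neg hij]
      have h4 := Matrix.rank_submatrix_le B (fun i : Fin (n - ℓ) => (⟨i.val, by omega⟩ : Fin n)) (fun j : Fin (n - ℓ) => (⟨j.val, by omega⟩ : Fin n))
      rw [hsub, Matrix.rank_one, Fintype.card_fin] at h4
      omega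
    · have hsub : (P - 1).submatrix (fun i : Fin ℓ => (⟨i.val, by omega⟩ : Fin n)) (fun j : Fin ℓ => (⟨j.val + (n - ℓ), by omega⟩ : Fin n)) = 1 := by
        ext i j
        rw [Matrix.submatrix_apply, Matrix.sub_apply, hPapp, Matrix.one_apply, Matrix.one_apply]
        have := i.2
        have := j.2
        rw [if_neg (show ¬ ((⟨i.val, by omega⟩ : Fin n) = ⟨j.val + (n - ℓ), by omega⟩) by
          rw [Fin.ext_iff]; simp only; omega), sub_zero]
        apply if_congr _ rfl rfl
        rw [Fin.ext_iff, hσval, Fin.ext_iff]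
        simp only
        split_ifs <;> omega
      have h6 := Matrix.rank_submatrix_le (P - 1) (fun i : Fin ℓ => (⟨i.val, by omega⟩ : Fin n)) (fun j : Fin ℓ => (⟨j.val + (n - ℓ), by omega⟩ : Fin n))
      rw [hsub, Matrix.rank_one, Fintype.card_fin] at h6
      exact h6

end Cfsg.Agent.S2165
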