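import Cfsg.Statements.S2167
import Mathlib
import Cfsg.Agent.S0440
import Cfsg.Agent.Helper8.SympBasis

set_option autoImplicit false
open Cfsg

namespace Cfsg.Agent.S2167

open Matrix

/-- For an involution t of the symplectic group Sp_{2m}(F), m ≥ 2, F a finite field of characteristic two (matrices A with A J Aᵀ = J acting on column vectors, alternating form f(u, v) = u ⬝ (J v)): the set V(t) of vectors v with f(v, t v) = 0 has either q^{2m} or q^{2m−1} elements, q the order of F (it is a subspace of codimension at most 1), and if it is the whole space then t − 1 has even rank. -/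
theorem result {F : Type*} [Field F] [Fintype F] [CharP F 2] {m : ℕ} (hm : 2 ≤ m) (a : ↥(Matrix.symplecticGroup (Fin m) F)) (ha : orderOf a = 2) :
    (Nat.card {v : Fin m ⊕ Fin m → F // Cfsg.sympForm m F v (Matrix.mulVec ((a : ↥(Matrix.symplecticGroup (Fin m) F)) : Matrix (Fin m ⊕ Fin m) (Fin m ⊕ Fin m) F) v) = 0} = Fintype.card F ^ (2 * m) ∨ Nat.card {v : Fin m ⊕ Fin m → F // Cfsg.sympForm m F v (Matrix.mulVec ((a : ↥(Matrix.symplecticGroup (Fin m) F)) : Matrix (Fin m ⊕ Fin m) (Fin m ⊕ Fin m) F) v) = 0} * Fintype.card F = Fintype.card F ^ (2 * m)) ∧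
    ((∀ v : Fin m ⊕ Fin m → F, Cfsg.sympForm m F v (Matrix.mulVec ((a : ↥(Matrix.symplecticGroup (Fin m) F)) : Matrix (Fin m ⊕ Fin m) (Fin m ⊕ Fin m) F) v) = 0) → Even (((a : ↥(Matrix.symplecticGroup (Fin m) F)) : Matrix (Fin m ⊕ Fin m) (Fin m ⊕ Fin m) F) - 1).rank) := by
  classical
  have hsq : (a : Matrix (Fin m ⊕ Fin m) (Fin m ⊕ Fin m) F) *
      (a : Matrix (Fin m ⊕ Fin m) (Fin m ⊕ Fin m) F) = 1 := by
    have h1 : a ^ 2 = 1 := by rw [← ha]; exact pow_orderOf_eq_one a
    have h2 : ((a * a : ↥(Matrix.symplecticGroup (Fin m) F)) :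
        Matrix (Fin m ⊕ Fin m) (Fin m ⊕ Fin m) F) = 1 := by
      rw [← sq, h1]; rfl
    exact h2
  obtain ⟨A, hA⟩ : ∃ A : Matrix (Fin m ⊕ Fin m) (Fin m ⊕ Fin m) F,
      A = (a : Matrix (Fin m ⊕ Fin m) (Fin m ⊕ Fin m) F) := ⟨_, rfl⟩
  rw [← hA]
  rw [← hA] at hsq
  have hpres : ∀ x y, Cfsg.sympForm m F (A *ᵥ x) (A *ᵥ y) = Cfsg.sympForm m F x y := by
    intro x y; rw [hA]; exact Cfsg.Agent.S0271.sf_mulVec m a x y
  have hAA : ∀ x, A *ᵥ (A *ᵥ x) = x := by
    intro x; rw [Matrix.mulVec_mulVec, hsq, Matrix.one_mulVec]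
  have hcross : ∀ u v, Cfsg.sympForm m F v (A *ᵥ u) = - Cfsg.sympForm m F u (A *ᵥ v) := by
    intro u v
    rw [← hpres v (A *ᵥ u), hAA, Cfsg.Agent.S0271.sf_swap m]
  let φ : (Fin m ⊕ Fin m → F) →+ F :=
    AddMonoidHom.mk' (fun v => Cfsg.sympForm m F v (A *ᵥ v)) (by
      intro u v
      show Cfsg.sympForm m F (u + v) (A *ᵥ (u + v)) =
        Cfsg.sympForm m F u (A *ᵥ u) + Cfsg.sympForm m F v (A *ᵥ v)
      rw [Matrix.mulVec_add, Cfsg.Agent.S0271.sf_add_left, Cfsg.Agent.S0271.sf_add_right,
        Cfsg.Agent.S0271.sf_add_right, hcross u v]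
      ring)
  have hφ : ∀ v, φ v = Cfsg.sympForm m F v (A *ᵥ v) := fun v => rfl
  have hV : Nat.card (Fin m ⊕ Fin m → F) = Fintype.card F ^ (2 * m) := by
    rw [Nat.card_eq_fintype_card, Fintype.card_fun, Fintype.card_sum, Fintype.card_fin, two_mul]
  have hker : Nat.card {v : Fin m ⊕ Fin m → F // Cfsg.sympForm m F v (A *ᵥ v) = 0} =
      Nat.card φ.ker :=
    Nat.card_congr (Equiv.subtypeEquivRight (fun v => by rw [AddMonoidHom.mem_ker]; rfl))
  have hidx : Nat.card φ.ker * Nat.card φ.range = Fintype.card F ^ (2 * m) := by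
    rw [← AddSubgroup.index_ker, AddSubgroup.card_mul_index, hV]
  refine ⟨?_, ?_⟩
  · rw [hker]
    by_cases h0 : ∀ v, φ v = 0
    · left
      have htop : φ.ker = ⊤ := by
        rw [eq_top_iff]; intro v _; exact AddMonoidHom.mem_ker.2 (h0 v)
      rw [htop, AddSubgroup.card_top, hV]
    · right
      push_neg at h0
      obtain ⟨v₀, hv₀⟩ := h0
      have hr : φ.range = ⊤ := by
        rw [eq_top_iff]
        intro c _
        obtain ⟨s, hs⟩ := FiniteField.isSquare_of_char_two (ringChar.eq F 2) (c / φ v₀)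
        refine ⟨s • v₀, ?_⟩
        rw [hφ, Matrix.mulVec_smul, Cfsg.Agent.S0440.sf_smul_left,
          Cfsg.Agent.S0440.sf_smul_right, ← hφ, ← mul_assoc, ← hs, div_mul_cancel₀ _ hv₀]
      rw [hr, AddSubgroup.card_top, Nat.card_eq_fintype_card (α := F)] at hidx
      exact hidx
  · intro hall
    obtain ⟨B, hBdef⟩ : ∃ B : LinearMap.BilinForm F (Fin m ⊕ Fin m → F),
        B = Matrix.toBilin' (Matrix.J (Fin m) F * (A - 1)) := ⟨_, rfl⟩
    have hB : ∀ u v, B u v = Cfsg.sympForm m F u ((A - 1) *ᵥ v) := by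
      intro u v
      rw [hBdef, Matrix.toBilin'_apply', ← Matrix.mulVec_mulVec]; rfl
    have hN : ∀ v, (A - 1) *ᵥ v = A *ᵥ v - v := by
      intro v; rw [Matrix.sub_mulVec, Matrix.one_mulVec]
    have hAlt : B.IsAlt := by
      intro v
      rw [hB, hN, Cfsg.Agent.S0271.sf_sub_right, hall v, Cfsg.Agent.S0271.sf_self, sub_zero]
    obtain ⟨r, k, b, h1, h2, h3, h4⟩ := Cfsg.Agent.Helper8.SympBasis.main B hAlt
    have hswap : ∀ x y, B y x = - B x y := Cfsg.Agent.Helper8.SympBasis.alt_swap B hAlt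
    have hfe : ∀ i j : Fin r, B (b (Sum.inl (Sum.inr i))) (b (Sum.inl (Sum.inl j))) =
        -(if j = i then (1 : F) else 0) := by
      intro i j; rw [hswap (b (Sum.inl (Sum.inl j))) (b (Sum.inl (Sum.inr i))), h1]
    have hdim : Module.finrank F (Fin m ⊕ Fin m → F) = 2 * r + k := by
      rw [Module.finrank_eq_card_basis b, Fintype.card_sum, Fintype.card_sum, Fintype.card_fin,
        Fintype.card_fin]; ring
    have hkerN : LinearMap.ker (A - 1).mulVecLin =
        Submodule.span F (Set.range (b ∘ Sum.inr)) := by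
      apply le_antisymm
      · intro v hv
        have hv' : (A - 1) *ᵥ v = 0 := LinearMap.mem_ker.1 hv
        have hleft : ∀ u, B v u = 0 := by
          intro u
          rw [hswap u v, hB, hv']
          rw [show Cfsg.sympForm m F u 0 = 0 from by
            unfold Cfsg.sympForm; rw [Matrix.mulVec_zero, dotProduct_zero], neg_zero]
        have hexp : ∀ w, B v w = ∑ i, b.repr v i * B (b i) w := by
          intro w
          conv_lhs => rw [← b.sum_repr v]
          simp only [map_sum, map_smul, LinearMap.sum_apply, LinearMap.smul_apply, smul_eq_mul]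
        have hz1 : ∀ l : Fin r, b.repr v (Sum.inl (Sum.inl l)) = 0 := by
          intro l
          have e := hexp (b (Sum.inl (Sum.inr l)))
          rw [hleft] at e
          simp only [Fintype.sum_sum_type, h1, h3, h4, mul_ite, mul_one, mul_zero,
            Finset.sum_ite_eq', Finset.sum_ite_eq, Finset.mem_univ, if_true,
            Finset.sum_const_zero, add_zero] at e
          exact e.symm
        have hz2 : ∀ l : Fin r, b.repr v (Sum.inl (Sum.inr l)) = 0 := by
          intro l
          have e := hexp (b (Sum.inl (Sum.inl l)))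
          rw [hleft] at e
          simp only [Fintype.sum_sum_type, h2, hfe, h4, mul_neg, mul_ite, mul_one, mul_zero,
            Finset.sum_neg_distrib, Finset.sum_ite_eq', Finset.sum_ite_eq, Finset.mem_univ,
            if_true, Finset.sum_const_zero, add_zero, zero_add] at e
          exact neg_eq_zero.1 e.symm
        have hv_eq : v = ∑ j, b.repr v (Sum.inr j) • b (Sum.inr j) := by
          conv_lhs => rw [← b.sum_repr v]
          rw [Fintype.sum_sum_type, Fintype.sum_sum_type]
          simp only [hz1, hz2, zero_smul, Finset.sum_const_zero, zero_add]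
        rw [hv_eq]
        exact Submodule.sum_mem _ (fun j _ =>
          Submodule.smul_mem _ _ (Submodule.subset_span ⟨j, rfl⟩))
      · rw [Submodule.span_le]
        rintro _ ⟨j, rfl⟩
        show (A - 1) *ᵥ (b (Sum.inr j)) = 0
        by_contra hne
        obtain ⟨z, hz⟩ := Cfsg.Agent.S0271.sf_nondeg m _ hne
        apply hz
        rw [Cfsg.Agent.S0271.sf_swap m, ← hB, hswap (b (Sum.inr j)) z, h4, neg_zero, neg_zero]
    have hrk : (A - 1).rank + k = 2 * r + k := by
      have h5 := LinearMap.finrank_range_add_finrank_ker (A - 1).mulVecLin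
      rw [hkerN, finrank_span_eq_card (b.linearIndependent.comp _ Sum.inr_injective),
        Fintype.card_fin, hdim] at h5
      exact h5
    have hfin : (A - 1).rank = 2 * r := by omega
    rw [hfin]; exact even_two_mul r

end Cfsg.Agent.S2167
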