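import Cfsg.Statements.S2231
import Cfsg.Agent.Helper4.SL2
import Cfsg.Agent.Helper4.Sections
import Cfsg.Agent.Helper4.QdNonAb

set_option autoImplicit false
open Cfsg

namespace Cfsg.Agent.S2231

/-- Let p be an odd prime and K a finite field of characteristic p. Then Qd(p) (the natural semidirect product of an elementary abelian group of order p² by SL₂(p)) is not involved in the projective special linear group PSL₂(K). -/
theorem result {p : ℕ} [Fact p.Prime] (hp : p ≠ 2) {K : Type*} [Field K] [Fintype K] [CharP K p] : ¬ Cfsg.Involves ↥(Cfsg.qd p) (Matrix.ProjectiveSpecialLinearGroup (Fin 2) K) := by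
  intro hinv
  classical
  have _instfin : Finite (Matrix.SpecialLinearGroup (Fin 2) K) :=
    Finite.of_injective (fun A => A.1) Subtype.val_injective
  have hG : ∀ Q : Subgroup (Matrix.ProjectiveSpecialLinearGroup (Fin 2) K), IsPGroup p Q →
      ∀ x ∈ Q, ∀ y ∈ Q, x * y = y * x :=
    Helper4.pSubgroups_commute_quotient p (Subgroup.center (Matrix.SpecialLinearGroup (Fin 2) K))
      (Helper4.sl2_pSubgroup_commute p)
  have hqd := Helper4.pSubgroups_commute_of_involves p hG hinv
  obtain ⟨Q, hQ, x, hx, y, hy, hxy⟩ := Helper4.qd_exists_noncomm_pSubgroup p hp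
  exact hxy (hqd Q hQ x hx y hy)


end Cfsg.Agent.S2231
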