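import Cfsg.Statements.S2268
import Cfsg.Agent.Helper4.WellPlaced
import Mathlib.GroupTheory.QuotientGroup.Basic
import Mathlib.Algebra.Group.Subgroup.Finite

set_option autoImplicit false
open Cfsg

namespace Cfsg.Agent.S2268

/-- Let G be a finite group with an abelian Sylow p-subgroup P and let Q ≤ P. Then N_G(Q) = (N_G(Q) ∩ N_G(P))·C_G(Q), so that N_G(Q)/C_G(Q) is a homomorphic image of the subgroup (N_G(Q) ∩ N_G(P))/C_G(P) of N_G(P)/C_G(P); in particular the order of N_G(Q)/C_G(Q) divides the order of N_G(P)/C_G(P). -/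
theorem result {G : Type*} [Group G] [Finite G] {p : ℕ} [Fact p.Prime]
    (P : Sylow p G) (hP : IsMulCommutative (P : Subgroup G)) (Q : Subgroup G) (hQ : Q ≤ (P : Subgroup G)) :
    Subgroup.normalizer (Q : Set G) =
      (Subgroup.normalizer (Q : Set G) ⊓ Subgroup.normalizer ((P : Subgroup G) : Set G)) ⊔ Subgroup.centralizer (Q : Set G) ∧
    ((Subgroup.centralizer (Q : Set G)).subgroupOf (Subgroup.normalizer (Q : Set G))).index ∣ ((Subgroup.centralizer ((P : Subgroup G) : Set G)).subgroupOf (Subgroup.normalizer ((P : Subgroup G) : Set G))).index := by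
  have hPCQ : (P : Subgroup G) ≤ Subgroup.centralizer (Q : Set G) := by
    intro x hx q hq
    have := (isMulCommutative_iff.mp hP) ⟨q, hQ hq⟩ ⟨x, hx⟩
    exact congrArg Subtype.val this
  have hCQN : Subgroup.centralizer (Q : Set G) ≤ Subgroup.normalizer (Q : Set G) :=
    Subgroup.centralizer_le_normalizer _
  have hCPQ : Subgroup.centralizer ((P : Subgroup G) : Set G) ≤ Subgroup.centralizer (Q : Set G) :=
    Subgroup.centralizer_le (SetLike.coe_subset_coe.mpr hQ)
  have hconj : ∀ n ∈ Subgroup.normalizer (Q : Set G), ∀ c ∈ Subgroup.centralizer (Q : Set G),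
      n * c * n⁻¹ ∈ Subgroup.centralizer (Q : Set G) := by
    intro n hn c hc
    have hnorm := Subgroup.normal_subgroupOf_centralizer_normalizer (Q : Set G)
    have := hnorm.conj_mem ⟨c, hCQN hc⟩ (Subgroup.mem_subgroupOf.mpr hc) ⟨n, hn⟩
    exact this
  have hNQ_norm : Subgroup.normalizer (Q : Set G) ≤
      Subgroup.normalizer ((Subgroup.centralizer (Q : Set G) : Subgroup G) : Set G) := by
    intro n hn
    apply Subgroup.mem_normalizer_fintype
    intro c hc
    exact hconj n hn c hc
  have h1 : Subgroup.normalizer (Q : Set G) =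
      (Subgroup.normalizer (Q : Set G) ⊓ Subgroup.normalizer ((P : Subgroup G) : Set G)) ⊔
        Subgroup.centralizer (Q : Set G) := by
    apply le_antisymm
    · intro n hn
      have hQ'p : IsPGroup p ((P : Subgroup G).map (Helper4.cj n)) := P.2.map _
      have hQ'C : (P : Subgroup G).map (Helper4.cj n) ≤ Subgroup.centralizer (Q : Set G) := by
        rintro _ ⟨x, hx, rfl⟩
        exact hconj n hn x (hPCQ hx)
      have hidx : ¬ p ∣ (P : Subgroup G).relIndex (Subgroup.centralizer (Q : Set G)) := fun h =>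
        P.not_dvd_index (h.trans (Subgroup.relIndex_dvd_index_of_le hPCQ))
      obtain ⟨c, hc, hcP⟩ := Helper4.exists_conj_le_of_relIndex (Subgroup.centralizer (Q : Set G))
        (P : Subgroup G) _ P.2 hidx hQ'p hQ'C
      have hcn : c * n ∈ Subgroup.normalizer ((P : Subgroup G) : Set G) := by
        apply Subgroup.mem_normalizer_fintype
        intro x hx
        have := hcP (n * x * n⁻¹) ⟨x, hx, rfl⟩
        have e : c * n * x * (c * n)⁻¹ = c * (n * x * n⁻¹) * c⁻¹ := by group
        rw [e]; exact this
      have hcn' : c * n ∈ Subgroup.normalizer (Q : Set G) := Subgroup.mul_mem _ (hCQN hc) hn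
      have e : n = c⁻¹ * (c * n) := by group
      rw [e]
      exact Subgroup.mul_mem _ (Subgroup.mem_sup_right (Subgroup.inv_mem _ hc))
        (Subgroup.mem_sup_left (Subgroup.mem_inf.mpr ⟨hcn', hcn⟩))
    · exact sup_le inf_le_left hCQN
  refine ⟨h1, ?_⟩
  show (Subgroup.centralizer (Q : Set G)).relIndex (Subgroup.normalizer (Q : Set G)) ∣
    (Subgroup.centralizer ((P : Subgroup G) : Set G)).relIndex
      (Subgroup.normalizer ((P : Subgroup G) : Set G))
  have hM : Subgroup.normalizer (Q : Set G) ⊓ Subgroup.normalizer ((P : Subgroup G) : Set G) ≤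
      Subgroup.normalizer ((Subgroup.centralizer (Q : Set G) : Subgroup G) : Set G) :=
    inf_le_left.trans hNQ_norm
  have h2 : (Subgroup.centralizer (Q : Set G)).relIndex
      ((Subgroup.normalizer (Q : Set G) ⊓ Subgroup.normalizer ((P : Subgroup G) : Set G)) ⊔
        Subgroup.centralizer (Q : Set G)) =
      (Subgroup.centralizer (Q : Set G)).relIndex
        (Subgroup.normalizer (Q : Set G) ⊓ Subgroup.normalizer ((P : Subgroup G) : Set G)) := by
    have i1 := Subgroup.normal_subgroupOf_of_le_normalizer hM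
    have i2 := Subgroup.normal_subgroupOf_sup_of_le_normalizer hM
    exact Nat.card_congr (QuotientGroup.quotientInfEquivProdNormalizerQuotient _ _ hM).toEquiv.symm
  rw [h1, h2]
  have h3 : (Subgroup.centralizer (Q : Set G)).relIndex
        (Subgroup.normalizer (Q : Set G) ⊓ Subgroup.normalizer ((P : Subgroup G) : Set G)) ∣
      (Subgroup.centralizer ((P : Subgroup G) : Set G)).relIndex
        (Subgroup.normalizer (Q : Set G) ⊓ Subgroup.normalizer ((P : Subgroup G) : Set G)) :=
    Subgroup.relIndex_dvd_of_le_left _ hCPQ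
  have hCPM : Subgroup.centralizer ((P : Subgroup G) : Set G) ≤
      Subgroup.normalizer (Q : Set G) ⊓ Subgroup.normalizer ((P : Subgroup G) : Set G) :=
    le_inf (hCPQ.trans hCQN) (Subgroup.centralizer_le_normalizer _)
  have h4 := Subgroup.relIndex_mul_relIndex (Subgroup.centralizer ((P : Subgroup G) : Set G))
    (Subgroup.normalizer (Q : Set G) ⊓ Subgroup.normalizer ((P : Subgroup G) : Set G))
    (Subgroup.normalizer ((P : Subgroup G) : Set G)) hCPM inf_le_right
  exact h3.trans (Dvd.intro _ h4)


end Cfsg.Agent.S2268
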