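import Cfsg.Statements.S2270
-- import your own Cfsg.Agent.* helpers here

set_option autoImplicit false
open Cfsg

namespace Cfsg.Agent.S2270

/-- Let n ≥ 3, p an odd prime, and P an abelian Sylow p-subgroup of the symmetric group S_n (with p dividing n!, so that P ≠ 1). Then N(P)/C(P) has even order. -/
theorem result (n : ℕ) (hn : 3 ≤ n) {p : ℕ} [Fact p.Prime] (hp : p ≠ 2) (hpn : p ≤ n)
    (P : Sylow p (Equiv.Perm (Fin n))) (hP : IsMulCommutative (P : Subgroup (Equiv.Perm (Fin n)))) :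
    2 ∣ ((Subgroup.centralizer ((P : Subgroup (Equiv.Perm (Fin n))) : Set (Equiv.Perm (Fin n)))).subgroupOf (Subgroup.normalizer ((P : Subgroup (Equiv.Perm (Fin n))) : Set (Equiv.Perm (Fin n))))).index := by
  classical
  have hpp : p.Prime := Fact.out
  have hcard : p ∣ Nat.card (Equiv.Perm (Fin n)) := by
    rw [Nat.card_eq_fintype_card, Fintype.card_perm, Fintype.card_fin]
    exact Nat.dvd_factorial hpp.pos hpn
  have hPdvd : p ∣ Nat.card (P : Subgroup (Equiv.Perm (Fin n))) := P.dvd_card_of_dvd_card hcard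
  obtain ⟨x, hx⟩ := exists_prime_orderOf_dvd_card' p hPdvd
  have hXP : (x : Equiv.Perm (Fin n)) ∈ (P : Subgroup (Equiv.Perm (Fin n))) := x.2
  have hXord : orderOf (x : Equiv.Perm (Fin n)) = p := by rw [Subgroup.orderOf_coe, hx]
  generalize (x : Equiv.Perm (Fin n)) = X at hXP hXord
  have hconj : IsConj X X⁻¹ := Equiv.Perm.isConj_iff_cycleType_eq.mpr (Equiv.Perm.cycleType_inv X).symm
  obtain ⟨c, hc⟩ := isConj_iff.mp hconj
  have _instP : IsMulCommutative (P : Subgroup (Equiv.Perm (Fin n))) := hP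
  obtain ⟨ν, hν, hνx⟩ := P.conj_eq_normalizer_conj_of_mem X c⁻¹ hXP
    (by rw [inv_inv, hc]; exact inv_mem hXP)
  have h1 : ν⁻¹ * X * ν = X⁻¹ := by rw [← hνx, inv_inv, hc]
  have hdvd : orderOf (QuotientGroup.mk (s := (Subgroup.centralizer ((P : Subgroup (Equiv.Perm (Fin n))) : Set (Equiv.Perm (Fin n)))).subgroupOf (Subgroup.normalizer ((P : Subgroup (Equiv.Perm (Fin n))) : Set (Equiv.Perm (Fin n))))) (⟨ν, hν⟩ : ↥(Subgroup.normalizer ((P : Subgroup (Equiv.Perm (Fin n))) : Set (Equiv.Perm (Fin n))))))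
      ∣ ((Subgroup.centralizer ((P : Subgroup (Equiv.Perm (Fin n))) : Set (Equiv.Perm (Fin n)))).subgroupOf (Subgroup.normalizer ((P : Subgroup (Equiv.Perm (Fin n))) : Set (Equiv.Perm (Fin n))))).index := by
    rw [Subgroup.index]
    exact orderOf_dvd_natCard _
  refine dvd_trans ?_ hdvd
  by_contra hodd
  rw [← even_iff_two_dvd, Nat.not_even_iff_odd] at hodd
  obtain ⟨k, hk⟩ := hodd
  have hmem : (⟨ν, hν⟩ : ↥(Subgroup.normalizer ((P : Subgroup (Equiv.Perm (Fin n))) : Set (Equiv.Perm (Fin n))))) ^ (2 * k + 1)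
      ∈ (Subgroup.centralizer ((P : Subgroup (Equiv.Perm (Fin n))) : Set (Equiv.Perm (Fin n)))).subgroupOf (Subgroup.normalizer ((P : Subgroup (Equiv.Perm (Fin n))) : Set (Equiv.Perm (Fin n)))) := by
    rw [← QuotientGroup.eq_one_iff, QuotientGroup.mk_pow, ← hk]
    exact pow_orderOf_eq_one _
  rw [Subgroup.mem_subgroupOf, Subgroup.coe_pow] at hmem
  have hcomm : X * ν ^ (2 * k + 1) = ν ^ (2 * k + 1) * X := (Subgroup.mem_centralizer_iff.mp hmem) X hXP
  have h2 : X * ν = ν * X⁻¹ := by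
    rw [← h1]
    group
  have h3 : X⁻¹ * ν = ν * X := by
    have h30 : (ν⁻¹ * X * ν)⁻¹ = X := by rw [h1, inv_inv]
    have h31 : X⁻¹ * ν = ν * (ν⁻¹ * X * ν)⁻¹ := by group
    rw [h31, h30]
  have h4 : Commute X (ν ^ 2) := by
    show X * ν ^ 2 = ν ^ 2 * X
    rw [pow_two, ← mul_assoc, h2, mul_assoc, h3, mul_assoc]
  have h5 : Commute X (ν ^ (2 * k)) := by
    rw [pow_mul]
    exact h4.pow_right k
  have h6 : X * ν = ν * X := by
    rw [pow_succ, ← mul_assoc, h5.eq, mul_assoc, mul_assoc] at hcomm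
    exact mul_left_cancel hcomm
  have h7 : X = X⁻¹ := by
    rw [← h1, mul_assoc, h6, ← mul_assoc, inv_mul_cancel, one_mul]
  have h8 : X ^ 2 = 1 := by
    rw [pow_two]
    nth_rewrite 2 [h7]
    exact mul_inv_cancel X
  have h9 : orderOf X ∣ 2 := orderOf_dvd_of_pow_eq_one h8
  rw [hXord] at h9
  have h10 : p ≤ 2 := Nat.le_of_dvd (by norm_num) h9
  have h11 := hpp.two_le
  omega


end Cfsg.Agent.S2270
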