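import Cfsg.Statements.S2352
import Cfsg.Agent.Helper4.FreeLaw

set_option autoImplicit false
open Cfsg

namespace Cfsg.Agent.S2352

/-- A non-trivial law holds in only finitely many alternating groups: for every non-trivial element w of the free group on countably many generators there is N such that for all n ≥ N some substitution of elements of the alternating group of degree n into w is not the identity. -/
theorem result (w : FreeGroup ℕ) (hw : w ≠ 1) :
    ∃ N : ℕ, ∀ n : ℕ, N ≤ n → ∃ f : ℕ → alternatingGroup (Fin n), FreeGroup.lift f w ≠ 1 := by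
  classical
  have hwL : FreeGroup.mk w.toWord = w := FreeGroup.mk_toWord
  have hS : ∀ L', L' <:+ w.toWord → FreeGroup.mk L' ∈ (w.toWord.tails.map FreeGroup.mk).toFinset := by
    intro L' h
    rw [List.mem_toFinset, List.mem_map]
    exact ⟨L', (List.mem_tails _ _).mpr h, rfl⟩
  have h1 : (1 : FreeGroup ℕ) ∈ (w.toWord.tails.map FreeGroup.mk).toFinset := by
    rw [FreeGroup.one_eq_mk]
    exact hS [] List.nil_suffix
  generalize (w.toWord.tails.map FreeGroup.mk).toFinset = S at hS h1
  choose σ hσ using fun a : ℕ => Helper4.exists_perm_extending_mul S (FreeGroup.of a)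
  have hkey := Helper4.lift_perm_apply_one S σ hσ h1 w.toWord hS
  rw [hwL] at hkey
  have hφw : FreeGroup.lift σ w ≠ 1 := by
    intro h
    rw [h] at hkey
    exact hw hkey.symm
  refine ⟨2 * Fintype.card S, fun n hn => ?_⟩
  obtain ⟨Θ, hΘinj, hΘalt⟩ := Helper4.exists_hom_to_alternating S n hn
  refine ⟨fun a => ⟨Θ (σ a), hΘalt _⟩, fun h => ?_⟩
  have hcomp : (Subgroup.subtype (alternatingGroup (Fin n))).comp
      (FreeGroup.lift (fun a => (⟨Θ (σ a), hΘalt _⟩ : alternatingGroup (Fin n)))) =
      Θ.comp (FreeGroup.lift σ) := by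
    apply FreeGroup.ext_hom
    intro a
    rw [MonoidHom.comp_apply, MonoidHom.comp_apply, FreeGroup.lift_apply_of, FreeGroup.lift_apply_of]
    rfl
  have h2 := congrArg (fun F => F w) hcomp
  simp only [MonoidHom.comp_apply] at h2
  rw [h] at h2
  apply hφw
  apply hΘinj
  rw [← h2, map_one, map_one]


end Cfsg.Agent.S2352
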