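import Cfsg.Statements.S2360
import Mathlib
import Cfsg.Agent.S0781
import Cfsg.Agent.Helper5.OrthOrd5
import Cfsg.Agent.S0284
import Cfsg.Agent.S0278

set_option autoImplicit false
open Cfsg

namespace Cfsg.Agent.S2360

open Matrix

section invol

variable {F : Type*} [Field F]

/-- An involutive matrix (char ≠ 2) has determinant `(-1)^(dim of (-1)-eigenspace)`, and the two
eigenspaces have complementary dimensions. -/
lemma invol_det {n : ℕ} (h2 : (2 : F) ≠ 0) (M : Matrix (Fin n) (Fin n) F) (hMM : M * M = 1) :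
    M.det = (-1) ^ Module.finrank F (LinearMap.ker (Matrix.toLin' M + 1)) ∧
    Module.finrank F (LinearMap.ker (Matrix.toLin' M - 1)) +
      Module.finrank F (LinearMap.ker (Matrix.toLin' M + 1)) = n := by
  classical
  obtain ⟨f, hf⟩ : ∃ f : (Fin n → F) →ₗ[F] (Fin n → F), f = Matrix.toLin' M := ⟨_, rfl⟩
  rw [← hf]
  have hff : ∀ x, f (f x) = x := by
    intro x
    rw [hf, Matrix.toLin'_apply, Matrix.toLin'_apply, Matrix.mulVec_mulVec, hMM,
      Matrix.one_mulVec]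
  have hcompl : IsCompl (LinearMap.ker (f - 1)) (LinearMap.ker (f + 1)) := by
    constructor
    · rw [Submodule.disjoint_def]
      intro x hx1 hx2
      rw [LinearMap.mem_ker, LinearMap.sub_apply, Module.End.one_apply, sub_eq_zero] at hx1
      rw [LinearMap.mem_ker, LinearMap.add_apply, Module.End.one_apply, hx1] at hx2
      have : (2 : F) • x = 0 := by rw [two_smul]; exact hx2
      exact (smul_eq_zero.mp this).resolve_left h2
    · rw [codisjoint_iff, eq_top_iff]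
      intro x _
      rw [Submodule.mem_sup]
      refine ⟨(2 : F)⁻¹ • (x + f x), ?_, (2 : F)⁻¹ • (x - f x), ?_, ?_⟩
      · rw [LinearMap.mem_ker, LinearMap.sub_apply, Module.End.one_apply, map_smul, map_add,
          hff, ← smul_sub]
        have : f x + x - (x + f x) = 0 := by abel
        rw [this, smul_zero]
      · rw [LinearMap.mem_ker, LinearMap.add_apply, Module.End.one_apply, map_smul, map_sub,
          hff, ← smul_add]
        have : f x - x + (x - f x) = 0 := by abel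
        rw [this, smul_zero]
      · rw [← smul_add]
        have : x + f x + (x - f x) = (2 : F) • x := by rw [two_smul]; abel
        rw [this, smul_smul, inv_mul_cancel₀ h2, one_smul]
  have hdim : Module.finrank F (LinearMap.ker (f - 1)) +
      Module.finrank F (LinearMap.ker (f + 1)) = n := by
    rw [Submodule.finrank_add_eq_of_isCompl hcompl]
    simp
  refine ⟨?_, hdim⟩
  obtain ⟨bp, -⟩ : ∃ bp : Module.Basis (Fin (Module.finrank F (LinearMap.ker (f - 1)))) F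
      (LinearMap.ker (f - 1)), bp = Module.finBasis F _ := ⟨_, rfl⟩
  obtain ⟨bm, -⟩ : ∃ bm : Module.Basis (Fin (Module.finrank F (LinearMap.ker (f + 1)))) F
      (LinearMap.ker (f + 1)), bm = Module.finBasis F _ := ⟨_, rfl⟩
  obtain ⟨b, hb⟩ : ∃ b : Module.Basis (Fin (Module.finrank F (LinearMap.ker (f - 1))) ⊕
      Fin (Module.finrank F (LinearMap.ker (f + 1)))) F (Fin n → F),
      b = (bp.prod bm).map (Submodule.prodEquivOfIsCompl _ _ hcompl) := ⟨_, rfl⟩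
  have hb_inl : ∀ j, b (Sum.inl j) = ((bp j : LinearMap.ker (f - 1)) : Fin n → F) := by
    intro j
    rw [hb, Module.Basis.map_apply, Submodule.coe_prodEquivOfIsCompl',
      Module.Basis.prod_apply_inl_fst, Module.Basis.prod_apply_inl_snd]
    simp
  have hb_inr : ∀ j, b (Sum.inr j) = ((bm j : LinearMap.ker (f + 1)) : Fin n → F) := by
    intro j
    rw [hb, Module.Basis.map_apply, Submodule.coe_prodEquivOfIsCompl',
      Module.Basis.prod_apply_inr_fst, Module.Basis.prod_apply_inr_snd]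
    simp
  have hf_inl : ∀ j, f (b (Sum.inl j)) = b (Sum.inl j) := by
    intro j
    have hmem := (bp j).2
    rw [LinearMap.mem_ker, LinearMap.sub_apply, Module.End.one_apply, sub_eq_zero] at hmem
    rw [hb_inl]; exact hmem
  have hf_inr : ∀ j, f (b (Sum.inr j)) = -(b (Sum.inr j)) := by
    intro j
    have hmem := (bm j).2
    rw [LinearMap.mem_ker, LinearMap.add_apply, Module.End.one_apply] at hmem
    rw [hb_inr]; exact eq_neg_of_add_eq_zero_left hmem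
  have hmat : LinearMap.toMatrix b b f =
      Matrix.diagonal (Sum.elim (fun _ => (1 : F)) (fun _ => (-1 : F))) := by
    ext i j
    rw [LinearMap.toMatrix_apply, Matrix.diagonal_apply]
    rcases j with j | j
    · rw [hf_inl, Module.Basis.repr_self, Finsupp.single_apply]
      by_cases h : i = Sum.inl j
      · rw [if_pos h.symm, if_pos h, h]; rfl
      · rw [if_neg (fun h' => h h'.symm), if_neg h]
    · rw [hf_inr, map_neg, Module.Basis.repr_self, Finsupp.neg_apply, Finsupp.single_apply]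
      by_cases h : i = Sum.inr j
      · rw [if_pos h.symm, if_pos h, h]; rfl
      · rw [if_neg (fun h' => h h'.symm), if_neg h, neg_zero]
  rw [← LinearMap.det_toLin' M, ← hf, ← LinearMap.det_toMatrix b f, hmat, Matrix.det_diagonal,
    Fintype.prod_sum_type]
  simp

lemma invol3 (h2 : (2 : F) ≠ 0) (M : Matrix (Fin 3) (Fin 3) F) (hMM : M * M = 1)
    (hdet : M.det = 1) (hM1 : M ≠ 1) :
    ∃ u : Fin 3 → F, u ≠ 0 ∧ M *ᵥ u = u ∧ ∀ x, ∃ c : F, x + M *ᵥ x = c • u := by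
  classical
  obtain ⟨hd, hdim⟩ := invol_det h2 M hMM
  rw [hdet] at hd
  have hne : (-1 : F) ≠ 1 := by
    intro h; apply h2; linear_combination -h
  have heven : Even (Module.finrank F (LinearMap.ker (Matrix.toLin' M + 1))) :=
    (neg_one_pow_eq_one_iff_even hne).mp hd.symm
  have h3 : Module.finrank F (LinearMap.ker (Matrix.toLin' M - 1)) ≠ 3 := by
    intro h3
    apply hM1
    have htop : LinearMap.ker (Matrix.toLin' M - 1) = ⊤ := by
      apply Submodule.eq_top_of_finrank_eq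
      rw [h3]; simp
    apply Matrix.toLin'.injective
    apply LinearMap.ext
    intro x
    have hx : x ∈ LinearMap.ker (Matrix.toLin' M - 1) := by rw [htop]; exact Submodule.mem_top
    rw [LinearMap.mem_ker, LinearMap.sub_apply, Module.End.one_apply, sub_eq_zero] at hx
    rw [hx]; simp
  have h1 : Module.finrank F (LinearMap.ker (Matrix.toLin' M - 1)) = 1 := by
    obtain ⟨k, hk⟩ := heven
    omega
  obtain ⟨v, hv, hall⟩ := finrank_eq_one_iff'.1 h1
  refine ⟨v.1, fun h0 => hv (Subtype.ext h0), ?_, fun x => ?_⟩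
  · have := v.2
    rw [LinearMap.mem_ker, LinearMap.sub_apply, Module.End.one_apply, sub_eq_zero,
      Matrix.toLin'_apply] at this
    exact this
  · have hmem : x + M *ᵥ x ∈ LinearMap.ker (Matrix.toLin' M - 1) := by
      rw [LinearMap.mem_ker, LinearMap.sub_apply, Module.End.one_apply, Matrix.toLin'_apply,
        Matrix.mulVec_add, Matrix.mulVec_mulVec, hMM, Matrix.one_mulVec]
      abel
    obtain ⟨c, hc⟩ := hall ⟨_, hmem⟩
    exact ⟨c, (congrArg Subtype.val hc).symm⟩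

end invol
section su3

variable {F : Type*} [Field F] {q : ℕ}

lemma fix_mem_normSet (hq : 2 ≤ q) (r : F) (hr0 : r ≠ 0) (hr : r ^ q = r) :
    r ∈ Cfsg.Agent.Helper7.normSet F q := by
  refine ⟨hr0, ?_⟩
  have h2 : r ^ (q - 1) * r = 1 * r := by
    rw [← pow_succ, Nat.sub_add_cancel (by omega), one_mul]; exact hr
  exact mul_right_cancel₀ hr0 h2

lemma two_ne_zero_of_odd [Fintype F] (hq : Odd q) (hF : Fintype.card F = q ^ 2) :
    (2 : F) ≠ 0 := by
  intro h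
  have hchar : ringChar F = 2 :=
    CharP.ringChar_of_prime_eq_zero Nat.prime_two (by exact_mod_cast h)
  have h2 := FiniteField.even_card_iff_char_two.mp hchar
  rw [hF] at h2
  have hodd : Odd (q ^ 2) := hq.pow
  rw [Nat.odd_iff] at hodd
  omega

/-- Structure of an involution of `SU₃(q)`, `q` odd: `x ↦ -x + 2 H(x,u) u` with `H(u,u) = 1`. -/
lemma invol_form [Fintype F] (hF : Fintype.card F = q ^ 2) (h2 : (2 : F) ≠ 0) (τ : F ≃+* F)
    (hτ : ∀ x, τ x = x ^ q) (hτ2 : ∀ x, τ (τ x) = x) (M : Matrix (Fin 3) (Fin 3) F)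
    (hMM : M * M = 1) (hdet : M.det = 1) (hM1 : M ≠ 1)
    (hU : ∀ x y, Cfsg.hermForm 3 F q (M *ᵥ x) (M *ᵥ y) = Cfsg.hermForm 3 F q x y) :
    ∃ u : Fin 3 → F, Cfsg.hermForm 3 F q u u = 1 ∧
      ∀ x, M *ᵥ x = -x + (2 * Cfsg.hermForm 3 F q x u) • u := by
  classical
  obtain ⟨u, hu0, hMu, hall⟩ := invol3 h2 M hMM hdet hM1
  have hq := Cfsg.Agent.Helper7.herm_two_le hF
  have hq0 : q ≠ 0 := by omega
  obtain ⟨y0, hy0⟩ := Cfsg.Agent.S0837.hf_nondeg hq0 3 u hu0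
  have hy0' : Cfsg.hermForm 3 F q y0 u ≠ 0 := by
    intro h0
    apply hy0
    rw [← Cfsg.Agent.S0837.hf_conj 3 q τ hτ hτ2 y0 u, h0, map_zero]
  have hφ : ∀ (x : Fin 3 → F) (c : F), x + M *ᵥ x = c • u →
      c * Cfsg.hermForm 3 F q u u = 2 * Cfsg.hermForm 3 F q x u := by
    intro x c hc
    have h := hU x u
    rw [hMu] at h
    have hMx : M *ᵥ x = c • u + (-1 : F) • x := by
      rw [← hc, neg_one_smul]; abel
    rw [hMx, Cfsg.Agent.S0837.hf_add_left, Cfsg.Agent.S0837.hf_smul_left,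
      Cfsg.Agent.S0837.hf_smul_left] at h
    linear_combination h
  have hN0 : Cfsg.hermForm 3 F q u u ≠ 0 := by
    obtain ⟨c, hc⟩ := hall y0
    have h1 := hφ y0 c hc
    intro h0
    rw [h0, mul_zero] at h1
    exact (mul_ne_zero h2 hy0') h1.symm
  have hNfix : (Cfsg.hermForm 3 F q u u) ^ q = Cfsg.hermForm 3 F q u u := by
    rw [← hτ]; exact Cfsg.Agent.S0837.hf_conj 3 q τ hτ hτ2 u u
  obtain ⟨l, hl0, hl⟩ := (Cfsg.Agent.Helper7.normSet_facts hF).1 _
    (fix_mem_normSet hq _ hN0 hNfix)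
  have hlq0 : l ^ q ≠ 0 := pow_ne_zero _ hl0
  refine ⟨l⁻¹ • u, ?_, fun x => ?_⟩
  · rw [Cfsg.Agent.S0837.hf_smul_left, Cfsg.Agent.S0837.hf_smul_right 3 q τ hτ, map_inv₀, hτ,
      ← hl]
    field_simp
  · obtain ⟨c, hc⟩ := hall x
    have h1 := hφ x c hc
    have hMx : M *ᵥ x = -x + c • u := by rw [← hc]; abel
    rw [hMx, Cfsg.Agent.S0837.hf_smul_right 3 q τ hτ, map_inv₀, hτ, smul_smul]
    congr 2
    rw [← hl] at h1
    field_simp
    linear_combination h1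

lemma exists_su_unit [Fintype F] (hF : Fintype.card F = q ^ 2) (τ : F ≃+* F)
    (hτ : ∀ x, τ x = x ^ q) (hτ2 : ∀ x, τ (τ x) = x)
    (v : Fin 3 → F) (hv : Cfsg.hermForm 3 F q v v = 1) :
    ∃ g : GL (Fin 3) F, g ∈ Cfsg.GU 3 F q ∧ (g : Matrix (Fin 3) (Fin 3) F).det = 1 ∧
      (g : Matrix (Fin 3) (Fin 3) F) *ᵥ (Pi.single (0 : Fin 3) (1 : F)) = v := by
  classical
  have hq := Cfsg.Agent.Helper7.herm_two_le hF
  obtain ⟨G, hG, hGe, -⟩ := Cfsg.Agent.Helper7.UnitCard.exists_mover 3 (τ : F →+* F) hτ hF hτ2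
    (Pi.single (0 : Fin 3) (1 : F)) v (Cfsg.Agent.S0279.herm_single _) hv
  obtain ⟨a, hadef⟩ : ∃ a : F, a = (G : Matrix (Fin 3) (Fin 3) F).det := ⟨_, rfl⟩
  have ha1 : a ^ (q + 1) = 1 := by
    have h := congrArg (fun u : Fˣ => (u : F)) (Cfsg.Agent.S0783.det_pow_eq_one hF G hG)
    simp only [Units.val_pow_eq_pow_val, Matrix.GeneralLinearGroup.val_det_apply,
      Units.val_one] at h
    rw [hadef]; exact h
  have ha0 : a ≠ 0 := by
    intro h0; rw [h0, zero_pow (by omega)] at ha1; exact zero_ne_one ha1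
  obtain ⟨d, hddef⟩ : ∃ d : Fin 3 → F,
      d = fun i => if i = (1 : Fin 3) then a⁻¹ else 1 := ⟨_, rfl⟩
  have hd0 : ∀ i, d i ≠ 0 := by
    intro i
    rw [hddef]
    show (if i = (1 : Fin 3) then a⁻¹ else 1) ≠ 0
    split_ifs
    · exact inv_ne_zero ha0
    · exact one_ne_zero
  have hd1 : ∀ i, d i ^ (q + 1) = 1 := by
    intro i
    rw [hddef]
    show (if i = (1 : Fin 3) then a⁻¹ else 1) ^ (q + 1) = 1
    split_ifs
    · rw [inv_pow, ha1, inv_one]
    · exact one_pow _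
  refine ⟨G * Cfsg.Agent.S0783.diagG d hd0,
    Subgroup.mul_mem _ hG (Cfsg.Agent.S0783.diagG_mem d hd0 hd1), ?_, ?_⟩
  · rw [Units.val_mul, Matrix.det_mul, Cfsg.Agent.S0783.diagG_val, Matrix.det_diagonal, ← hadef,
      hddef]
    show a * (∏ i : Fin 3, (if i = (1 : Fin 3) then a⁻¹ else 1)) = 1
    rw [Finset.prod_ite_eq' Finset.univ (1 : Fin 3) (fun _ => a⁻¹)]
    simp [ha0]
  · rw [Units.val_mul, ← Matrix.mulVec_mulVec, Cfsg.Agent.S0783.diagG_val]
    have hfix : Matrix.diagonal d *ᵥ (Pi.single (0 : Fin 3) (1 : F)) = Pi.single 0 1 := by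
      ext i
      rw [Matrix.mulVec_diagonal, hddef]
      show (if i = (1 : Fin 3) then a⁻¹ else 1) * (Pi.single (0 : Fin 3) (1 : F) : Fin 3 → F) i =
        (Pi.single (0 : Fin 3) (1 : F) : Fin 3 → F) i
      split_ifs with hi
      · rw [hi, Pi.single_eq_of_ne (by decide), mul_zero]
      · rw [one_mul]
    rw [hfix, hGe]

lemma exists_su_unit' [Fintype F] (hF : Fintype.card F = q ^ 2) (τ : F ≃+* F)
    (hτ : ∀ x, τ x = x ^ q) (hτ2 : ∀ x, τ (τ x) = x)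
    (u : Fin 3 → F) (hu : Cfsg.hermForm 3 F q u u = 1)
    (v : Fin 3 → F) (hv : Cfsg.hermForm 3 F q v v = 1) :
    ∃ g : GL (Fin 3) F, g ∈ Cfsg.GU 3 F q ∧ (g : Matrix (Fin 3) (Fin 3) F).det = 1 ∧
      (g : Matrix (Fin 3) (Fin 3) F) *ᵥ u = v := by
  classical
  obtain ⟨g1, hg1, hd1, hm1⟩ := exists_su_unit hF τ hτ hτ2 u hu
  obtain ⟨g2, hg2, hd2, hm2⟩ := exists_su_unit hF τ hτ hτ2 v hv
  refine ⟨g2 * g1⁻¹, Subgroup.mul_mem _ hg2 (Subgroup.inv_mem _ hg1), ?_, ?_⟩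
  · have h : ((g1⁻¹ : GL (Fin 3) F) : Matrix (Fin 3) (Fin 3) F).det *
        (g1 : Matrix (Fin 3) (Fin 3) F).det = 1 := by
      rw [← Matrix.det_mul, ← Units.val_mul, inv_mul_cancel, Units.val_one, Matrix.det_one]
    rw [hd1, mul_one] at h
    rw [Units.val_mul, Matrix.det_mul, h, hd2, mul_one]
  · have h3 : ((g1⁻¹ : GL (Fin 3) F) : Matrix (Fin 3) (Fin 3) F) *ᵥ u =
        Pi.single (0 : Fin 3) (1 : F) := by
      rw [← hm1, Matrix.mulVec_mulVec, ← Units.val_mul, inv_mul_cancel, Units.val_one,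
        Matrix.one_mulVec]
    rw [Units.val_mul, ← Matrix.mulVec_mulVec, h3, hm2]

/-- Structure of an involution in `SU₃`. -/
lemma su_invol_form [Fintype F] (hF : Fintype.card F = q ^ 2) (h2 : (2 : F) ≠ 0) (τ : F ≃+* F)
    (hτ : ∀ x, τ x = x ^ q) (hτ2 : ∀ x, τ (τ x) = x) (s : ↥(Cfsg.SU 3 F q)) (hs1 : s ≠ 1)
    (hs2 : s * s = 1) :
    ∃ u : Fin 3 → F, Cfsg.hermForm 3 F q u u = 1 ∧
      ∀ x, (s.1 : Matrix (Fin 3) (Fin 3) F) *ᵥ x = -x + (2 * Cfsg.hermForm 3 F q x u) • u := by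
  apply invol_form hF h2 τ hτ hτ2
  · exact congrArg (fun z : ↥(Cfsg.SU 3 F q) => (z.1 : Matrix (Fin 3) (Fin 3) F)) hs2
  · exact s.1.2
  · intro h
    apply hs1
    apply Subtype.ext
    apply Subtype.ext
    exact h
  · exact (Cfsg.Agent.S0279.mem_SU_iff s.1).mp s.2

/-- Two involutions of `SU₃` are conjugate, via any element moving one axis to the other. -/
lemma conj_of_axis [Fintype F] (τ : F ≃+* F) (hτ : ∀ x, τ x = x ^ q)
    (s1 s2 : ↥(Cfsg.SU 3 F q)) (u w : Fin 3 → F)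
    (h1 : ∀ x, (s1.1 : Matrix (Fin 3) (Fin 3) F) *ᵥ x = -x + (2 * Cfsg.hermForm 3 F q x u) • u)
    (h2 : ∀ x, (s2.1 : Matrix (Fin 3) (Fin 3) F) *ᵥ x = -x + (2 * Cfsg.hermForm 3 F q x w) • w)
    (g : ↥(Cfsg.SU 3 F q)) (c : F) (hc : c * τ c = 1)
    (hg : (g.1 : Matrix (Fin 3) (Fin 3) F) *ᵥ u = c • w) :
    g * s1 * g⁻¹ = s2 := by
  rw [mul_inv_eq_iff_eq_mul]
  apply Subtype.ext
  apply Subtype.ext
  show (g.1 : Matrix (Fin 3) (Fin 3) F) * (s1.1 : Matrix (Fin 3) (Fin 3) F) =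
    (s2.1 : Matrix (Fin 3) (Fin 3) F) * (g.1 : Matrix (Fin 3) (Fin 3) F)
  apply Cfsg.Agent.S0837.mat_ext
  intro x
  rw [← Matrix.mulVec_mulVec, ← Matrix.mulVec_mulVec, h1, h2, Matrix.mulVec_add,
    Matrix.mulVec_smul, Matrix.mulVec_neg, hg]
  have hgU := (Cfsg.Agent.S0279.mem_SU_iff g.1).mp g.2
  have h3 : Cfsg.hermForm 3 F q x u =
      τ c * Cfsg.hermForm 3 F q ((g.1 : Matrix (Fin 3) (Fin 3) F) *ᵥ x) w := by
    rw [← hgU x u, hg, Cfsg.Agent.S0837.hf_smul_right 3 q τ hτ]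
  rw [h3, smul_smul]
  congr 2
  linear_combination (2 * Cfsg.hermForm 3 F q ((g.1 : Matrix (Fin 3) (Fin 3) F) *ᵥ x) w) * hc

end su3
section su3count

variable {F : Type*} [Field F] {q : ℕ}

/-- Commuting distinct involutions of `SU₃` have orthogonal axes. -/
lemma orth_of_commute [Fintype F] (h2 : (2 : F) ≠ 0) (τ : F ≃+* F) (hτ : ∀ x, τ x = x ^ q)
    (hτ2 : ∀ x, τ (τ x) = x)
    (s1 s2 : ↥(Cfsg.SU 3 F q)) (u w : Fin 3 → F)
    (hu : Cfsg.hermForm 3 F q u u = 1) (hw : Cfsg.hermForm 3 F q w w = 1)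
    (h1 : ∀ x, (s1.1 : Matrix (Fin 3) (Fin 3) F) *ᵥ x = -x + (2 * Cfsg.hermForm 3 F q x u) • u)
    (hs2 : ∀ x, (s2.1 : Matrix (Fin 3) (Fin 3) F) *ᵥ x = -x + (2 * Cfsg.hermForm 3 F q x w) • w)
    (hcomm : Commute s1 s2) (hne : s1 ≠ s2) : Cfsg.hermForm 3 F q u w = 0 := by
  by_contra h0
  apply hne
  have hmat : (s1.1 : Matrix (Fin 3) (Fin 3) F) * (s2.1 : Matrix (Fin 3) (Fin 3) F) =
      (s2.1 : Matrix (Fin 3) (Fin 3) F) * (s1.1 : Matrix (Fin 3) (Fin 3) F) :=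
    congrArg (fun z : ↥(Cfsg.SU 3 F q) => (z.1 : Matrix (Fin 3) (Fin 3) F)) hcomm.eq
  have hs1u : (s1.1 : Matrix (Fin 3) (Fin 3) F) *ᵥ u = u := by
    rw [h1, hu, mul_one, two_smul]; abel
  have hfix : (s1.1 : Matrix (Fin 3) (Fin 3) F) *ᵥ ((s2.1 : Matrix (Fin 3) (Fin 3) F) *ᵥ u) =
      (s2.1 : Matrix (Fin 3) (Fin 3) F) *ᵥ u := by
    rw [Matrix.mulVec_mulVec, hmat, ← Matrix.mulVec_mulVec, hs1u]
  rw [h1, hs2] at hfix
  -- hfix : -(−u + a • w) + (2 * H(−u + a • w, u)) • u = −u + a • w,  a = 2 H(u,w)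
  obtain ⟨k, hk⟩ : ∃ k : F, k = Cfsg.hermForm 3 F q (-u + (2 * Cfsg.hermForm 3 F q u w) • w) u :=
    ⟨_, rfl⟩
  rw [← hk] at hfix
  have hw_eq : w = ((k + 1) / (2 * Cfsg.hermForm 3 F q u w)) • u := by
    have h3 : (2 * Cfsg.hermForm 3 F q u w) • w = (k + 1) • u := by
      have h4 : (2 : F) • ((2 * Cfsg.hermForm 3 F q u w) • w) = (2 : F) • ((k + 1) • u) := by
        have h5 : (2 : F) • ((2 * Cfsg.hermForm 3 F q u w) • w) =
            (-u + (2 * Cfsg.hermForm 3 F q u w) • w) +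
              (-1 : F) • (-(-u + (2 * Cfsg.hermForm 3 F q u w) • w) + (2 * k) • u) +
              (2 : F) • ((k + 1) • u) := by
          module
        rw [hfix] at h5
        rw [h5]
        module
      exact smul_right_injective _ h2 h4
    have hne0 : 2 * Cfsg.hermForm 3 F q u w ≠ 0 := mul_ne_zero h2 h0
    rw [div_eq_inv_mul, ← smul_smul, ← h3, smul_smul, inv_mul_cancel₀ hne0, one_smul]
  obtain ⟨c, hcdef⟩ : ∃ c : F, c = (k + 1) / (2 * Cfsg.hermForm 3 F q u w) := ⟨_, rfl⟩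
  rw [← hcdef] at hw_eq
  have hcc : c * τ c = 1 := by
    have := hw
    rw [hw_eq, Cfsg.Agent.S0837.hf_smul_left, Cfsg.Agent.S0837.hf_smul_right 3 q τ hτ, hu,
      mul_one] at this
    exact this
  have hc0 : c ≠ 0 := by
    intro h; rw [h, zero_mul] at hcc; exact zero_ne_one hcc
  have hconj := conj_of_axis τ hτ s1 s2 u w h1 hs2 1 c⁻¹
    (by rw [map_inv₀, ← mul_inv, hcc, inv_one])
    (by
      show (1 : Matrix (Fin 3) (Fin 3) F) *ᵥ u = c⁻¹ • w
      rw [Matrix.one_mulVec, hw_eq, smul_smul, inv_mul_cancel₀ hc0, one_smul])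
  rw [one_mul, inv_one, mul_one] at hconj
  exact hconj

/-- Orthonormal expansion in the unitary 3-space. -/
lemma onb_expand [Fintype F] (hF : Fintype.card F = q ^ 2) (τ : F ≃+* F)
    (hτ : ∀ x, τ x = x ^ q) (hτ2 : ∀ x, τ (τ x) = x) (u w z : Fin 3 → F)
    (huu : Cfsg.hermForm 3 F q u u = 1) (hww : Cfsg.hermForm 3 F q w w = 1)
    (hzz : Cfsg.hermForm 3 F q z z = 1) (huw : Cfsg.hermForm 3 F q u w = 0)
    (huz : Cfsg.hermForm 3 F q u z = 0) (hwz : Cfsg.hermForm 3 F q w z = 0) (v : Fin 3 → F) :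
    v = Cfsg.hermForm 3 F q v u • u + Cfsg.hermForm 3 F q v w • w +
      Cfsg.hermForm 3 F q v z • z := by
  classical
  have hq := Cfsg.Agent.Helper7.herm_two_le hF
  have hq0 : q ≠ 0 := by omega
  have hwu : Cfsg.hermForm 3 F q w u = 0 := by
    rw [← Cfsg.Agent.S0837.hf_conj 3 q τ hτ hτ2 u w, huw, map_zero]
  have hzu : Cfsg.hermForm 3 F q z u = 0 := by
    rw [← Cfsg.Agent.S0837.hf_conj 3 q τ hτ hτ2 u z, huz, map_zero]
  have hzw : Cfsg.hermForm 3 F q z w = 0 := by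
    rw [← Cfsg.Agent.S0837.hf_conj 3 q τ hτ hτ2 w z, hwz, map_zero]
  have hLI : LinearIndependent F ![u, w, z] := by
    rw [Fintype.linearIndependent_iff]
    intro g hg
    rw [Fin.sum_univ_three] at hg
    have hg' : g 0 • u + g 1 • w + g 2 • z = 0 := hg
    have e0 := congrArg (fun x => Cfsg.hermForm 3 F q x u) hg'
    have e1 := congrArg (fun x => Cfsg.hermForm 3 F q x w) hg'
    have e2 := congrArg (fun x => Cfsg.hermForm 3 F q x z) hg'
    simp only [Cfsg.Agent.S0837.hf_add_left, Cfsg.Agent.S0837.hf_smul_left,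
      Cfsg.Agent.S0837.hf_zero_left, huu, hww, hzz, huw, huz, hwz, hwu, hzu, hzw, mul_one,
      mul_zero, add_zero, zero_add] at e0 e1 e2
    intro i
    fin_cases i
    · exact e0
    · exact e1
    · exact e2
  have hcard := Cfsg.Agent.S0782.card_perp 3 hF (τ : F →+* F) hτ hτ2 ![u, w, z] hLI
  have hsub : Subsingleton {x : Fin 3 → F // ∀ j, Cfsg.hermForm 3 F q x (![u, w, z] j) = 0} := by
    have h1 : Nat.card {x : Fin 3 → F // ∀ j, Cfsg.hermForm 3 F q x (![u, w, z] j) = 0} = 1 := by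
      rw [hcard]; simp
    exact (Nat.card_eq_one_iff_unique.mp h1).1
  obtain ⟨d, hddef⟩ : ∃ d : Fin 3 → F, d = v + (-(Cfsg.hermForm 3 F q v u)) • u +
      (-(Cfsg.hermForm 3 F q v w)) • w + (-(Cfsg.hermForm 3 F q v z)) • z := ⟨_, rfl⟩
  have hd : ∀ j, Cfsg.hermForm 3 F q d (![u, w, z] j) = 0 := by
    intro j
    rw [hddef]
    fin_cases j
    · show Cfsg.hermForm 3 F q _ u = 0
      simp only [Cfsg.Agent.S0837.hf_add_left, Cfsg.Agent.S0837.hf_smul_left, huu, hwu, hzu]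
      ring
    · show Cfsg.hermForm 3 F q _ w = 0
      simp only [Cfsg.Agent.S0837.hf_add_left, Cfsg.Agent.S0837.hf_smul_left, huw, hww, hzw]
      ring
    · show Cfsg.hermForm 3 F q _ z = 0
      simp only [Cfsg.Agent.S0837.hf_add_left, Cfsg.Agent.S0837.hf_smul_left, huz, hwz, hzz]
      ring
  have h0 : ∀ j, Cfsg.hermForm 3 F q (0 : Fin 3 → F) (![u, w, z] j) = 0 :=
    fun j => Cfsg.Agent.S0837.hf_zero_left 3 q _
  have hd0 : d = 0 := congrArg Subtype.val (hsub.elim ⟨d, hd⟩ ⟨0, h0⟩)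
  rw [hddef] at hd0
  have : v = v + (-(Cfsg.hermForm 3 F q v u)) • u +
      (-(Cfsg.hermForm 3 F q v w)) • w + (-(Cfsg.hermForm 3 F q v z)) • z +
      (Cfsg.hermForm 3 F q v u • u + Cfsg.hermForm 3 F q v w • w +
      Cfsg.hermForm 3 F q v z • z) := by module
  rw [hd0, zero_add] at this
  exact this

/-- The stabiliser of a vector in `SU₃`. -/
def Ku (q : ℕ) (u : Fin 3 → F) : Subgroup ↥(Cfsg.SU 3 F q) where
  carrier := {g | (g.1 : Matrix (Fin 3) (Fin 3) F) *ᵥ u = u}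
  mul_mem' := by
    intro a b ha hb
    show ((a.1 : Matrix (Fin 3) (Fin 3) F) * (b.1 : Matrix (Fin 3) (Fin 3) F)) *ᵥ u = u
    rw [← Matrix.mulVec_mulVec, hb, ha]
  one_mem' := by
    show (1 : Matrix (Fin 3) (Fin 3) F) *ᵥ u = u
    rw [Matrix.one_mulVec]
  inv_mem' := by
    intro g hg
    have h1 : ((g⁻¹).1 : Matrix (Fin 3) (Fin 3) F) * (g.1 : Matrix (Fin 3) (Fin 3) F) = 1 :=
      congrArg (fun z : ↥(Cfsg.SU 3 F q) => (z.1 : Matrix (Fin 3) (Fin 3) F)) (inv_mul_cancel g)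
    have hg' : (g.1 : Matrix (Fin 3) (Fin 3) F) *ᵥ u = u := hg
    show ((g⁻¹).1 : Matrix (Fin 3) (Fin 3) F) *ᵥ u = u
    calc ((g⁻¹).1 : Matrix (Fin 3) (Fin 3) F) *ᵥ u
        = ((g⁻¹).1 : Matrix (Fin 3) (Fin 3) F) *ᵥ ((g.1 : Matrix (Fin 3) (Fin 3) F) *ᵥ u) := by
          rw [hg']
      _ = u := by rw [Matrix.mulVec_mulVec, h1, Matrix.one_mulVec]

lemma mem_Ku (u : Fin 3 → F) (g : ↥(Cfsg.SU 3 F q)) :
    g ∈ Ku q u ↔ (g.1 : Matrix (Fin 3) (Fin 3) F) *ᵥ u = u := Iff.rfl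

lemma Ku_fib (u : Fin 3 → F) (g g' : ↥(Cfsg.SU 3 F q)) :
    (g.1 : Matrix (Fin 3) (Fin 3) F) *ᵥ u = (g'.1 : Matrix (Fin 3) (Fin 3) F) *ᵥ u ↔
      g⁻¹ * g' ∈ Ku q u := by
  rw [mem_Ku]
  have h1 : ((g⁻¹).1 : Matrix (Fin 3) (Fin 3) F) * (g.1 : Matrix (Fin 3) (Fin 3) F) = 1 :=
    congrArg (fun z : ↥(Cfsg.SU 3 F q) => (z.1 : Matrix (Fin 3) (Fin 3) F)) (inv_mul_cancel g)
  have h2 : (g.1 : Matrix (Fin 3) (Fin 3) F) * ((g⁻¹ * g').1 : Matrix (Fin 3) (Fin 3) F) =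
      (g'.1 : Matrix (Fin 3) (Fin 3) F) :=
    congrArg (fun z : ↥(Cfsg.SU 3 F q) => (z.1 : Matrix (Fin 3) (Fin 3) F))
      (mul_inv_cancel_left g g')
  constructor
  · intro h
    show (((g⁻¹).1 : Matrix (Fin 3) (Fin 3) F) * (g'.1 : Matrix (Fin 3) (Fin 3) F)) *ᵥ u = u
    rw [← Matrix.mulVec_mulVec, ← h, Matrix.mulVec_mulVec, h1, Matrix.one_mulVec]
  · intro h
    rw [← h2, ← Matrix.mulVec_mulVec, h]

end su3count

/-- Let q be odd, F the field with q² elements and S = SU_3(F) (determinant-one isometries of the standard Hermitian form). Then all involutions of S are conjugate; there are exactly q²(q²−q+1) of them; the centralizer of an involution has order q(q+1)(q²−1), the order of the full unitary group of degree 2; and for two distinct commuting involutions t and x there is exactly one further involution commuting with both. -/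
theorem result {F : Type*} [Field F] [Fintype F] {q : ℕ} (hq : Odd q)
    (hF : Fintype.card F = q ^ 2) (t : ↥(Cfsg.SU 3 F q)) (ht : t ≠ 1) (ht2 : t * t = 1) :
    (∀ x : ↥(Cfsg.SU 3 F q), x ≠ 1 → x * x = 1 → ∃ g : ↥(Cfsg.SU 3 F q), g * t * g⁻¹ = x) ∧
    Nat.card {x : ↥(Cfsg.SU 3 F q) // x ≠ 1 ∧ x * x = 1} = q ^ 2 * (q ^ 2 - q + 1) ∧
    Nat.card ↥(Subgroup.centralizer ({t} : Set ↥(Cfsg.SU 3 F q))) = q * (q + 1) * (q ^ 2 - 1) ∧
    ∀ x : ↥(Cfsg.SU 3 F q), x ≠ 1 → x * x = 1 → x ≠ t → Commute t x →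
      Nat.card {y : ↥(Cfsg.SU 3 F q) // y ≠ 1 ∧ y * y = 1 ∧ y ≠ t ∧ y ≠ x ∧ Commute t y ∧ Commute x y} = 1 := by
  classical
  obtain ⟨τ, hτ, hτ2, hτne⟩ := Cfsg.Agent.Helper9.exists_frob9 hF
  have h2 := two_ne_zero_of_odd hq hF
  have hq2 := Cfsg.Agent.Helper7.herm_two_le hF
  obtain ⟨u, huu, htx⟩ := su_invol_form hF h2 τ hτ hτ2 t ht ht2
  have mkSU : ∀ g : GL (Fin 3) F, g ∈ Cfsg.GU 3 F q → (g : Matrix (Fin 3) (Fin 3) F).det = 1 →
      ∃ G : ↥(Cfsg.SU 3 F q),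
        (G.1 : Matrix (Fin 3) (Fin 3) F) = (g : Matrix (Fin 3) (Fin 3) F) := by
    intro g hgU hdet
    exact ⟨⟨⟨_, hdet⟩, (Cfsg.Agent.S0279.mem_SU_iff _).mpr
      (fun a b => (Cfsg.Agent.S0783.mem_GU_iff g).mp hgU a b)⟩, rfl⟩
  have hneg : ∀ a b : Fin 3 → F, Cfsg.hermForm 3 F q (-a) b = -Cfsg.hermForm 3 F q a b := by
    intro a b
    rw [← neg_one_smul F a, Cfsg.Agent.S0837.hf_smul_left]; ring
  -- part 1
  have part1 : ∀ x : ↥(Cfsg.SU 3 F q), x ≠ 1 → x * x = 1 →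
      ∃ g : ↥(Cfsg.SU 3 F q), g * t * g⁻¹ = x := by
    intro x hx1 hx2
    obtain ⟨w, hww, hxx⟩ := su_invol_form hF h2 τ hτ hτ2 x hx1 hx2
    obtain ⟨g, hgU, hgdet, hgu⟩ := exists_su_unit' hF τ hτ hτ2 u huu w hww
    obtain ⟨G, hG⟩ := mkSU g hgU hgdet
    refine ⟨G, conj_of_axis τ hτ t x u w htx hxx G 1 (by rw [map_one, mul_one]) ?_⟩
    rw [hG, hgu, one_smul]
  -- counting (a)
  have hInv : ∀ g : ↥(Cfsg.SU 3 F q), g * t * g⁻¹ ≠ 1 ∧ (g * t * g⁻¹) * (g * t * g⁻¹) = 1 := by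
    intro g
    constructor
    · intro h
      apply ht
      have h3 : t = g⁻¹ * (g * t * g⁻¹) * g := by group
      rw [h3, h]; group
    · have h3 : g * t * g⁻¹ * (g * t * g⁻¹) = g * (t * t) * g⁻¹ := by group
      rw [h3, ht2]; group
  have hA : Nat.card ↥(Cfsg.SU 3 F q) =
      Nat.card {x : ↥(Cfsg.SU 3 F q) // x ≠ 1 ∧ x * x = 1} *
        Nat.card ↥(Subgroup.centralizer ({t} : Set ↥(Cfsg.SU 3 F q))) := by
    refine Cfsg.Agent.Helper7.OrthChain.card_of_fibration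
      (Subgroup.centralizer ({t} : Set ↥(Cfsg.SU 3 F q)))
      (fun g => (⟨g * t * g⁻¹, hInv g⟩ : {x : ↥(Cfsg.SU 3 F q) // x ≠ 1 ∧ x * x = 1})) ?_ ?_
    · rintro ⟨x, hx1, hx2⟩
      obtain ⟨g, hg⟩ := part1 x hx1 hx2
      exact ⟨g, Subtype.ext hg⟩
    · intro g g'
      rw [Subgroup.mem_centralizer_singleton_iff, Subtype.mk.injEq]
      constructor
      · intro h
        calc g⁻¹ * g' * t = g⁻¹ * (g' * t * g'⁻¹) * g' := by group
          _ = g⁻¹ * (g * t * g⁻¹) * g' := by rw [h]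
          _ = t * (g⁻¹ * g') := by group
      · intro h
        calc g * t * g⁻¹ = g * (t * (g⁻¹ * g')) * g'⁻¹ := by group
          _ = g * (g⁻¹ * g' * t) * g'⁻¹ := by rw [h]
          _ = g' * t * g'⁻¹ := by group
  -- counting (b)
  have hB : Nat.card ↥(Cfsg.SU 3 F q) =
      Nat.card {v : Fin 3 → F // Cfsg.hermForm 3 F q v v = 1} * Nat.card ↥(Ku q u) := by
    refine Cfsg.Agent.Helper7.OrthChain.card_of_fibration (Ku q u)
      (fun g => (⟨(g.1 : Matrix (Fin 3) (Fin 3) F) *ᵥ u, by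
        rw [(Cfsg.Agent.S0279.mem_SU_iff g.1).mp g.2 u u]; exact huu⟩ :
        {v : Fin 3 → F // Cfsg.hermForm 3 F q v v = 1})) ?_ ?_
    · rintro ⟨v, hv⟩
      obtain ⟨g, hgU, hgdet, hgu⟩ := exists_su_unit' hF τ hτ hτ2 u huu v hv
      obtain ⟨G, hG⟩ := mkSU g hgU hgdet
      refine ⟨G, Subtype.ext ?_⟩
      show (G.1 : Matrix (Fin 3) (Fin 3) F) *ᵥ u = v
      rw [hG, hgu]
    · intro g g'
      rw [← Ku_fib, Subtype.mk.injEq]
  -- counting (c)
  have htu : (t.1 : Matrix (Fin 3) (Fin 3) F) *ᵥ u = u := by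
    rw [htx, huu, mul_one, two_smul]; abel
  have hfixvec : ∀ y : Fin 3 → F, (t.1 : Matrix (Fin 3) (Fin 3) F) *ᵥ y = y →
      y = Cfsg.hermForm 3 F q y u • u := by
    intro y hy
    rw [htx] at hy
    have h4 : (2 : F) • y = (2 : F) • (Cfsg.hermForm 3 F q y u • u) := by
      have h5 : (2 : F) • y = y + (-1 : F) • (-y + (2 * Cfsg.hermForm 3 F q y u) • u) +
          (2 : F) • (Cfsg.hermForm 3 F q y u • u) := by module
      rw [hy] at h5
      rw [h5]; module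
    exact smul_right_injective _ h2 h4
  have hCu : ∀ g : ↥(Subgroup.centralizer ({t} : Set ↥(Cfsg.SU 3 F q))),
      ((g : ↥(Cfsg.SU 3 F q)).1 : Matrix (Fin 3) (Fin 3) F) *ᵥ u =
        Cfsg.hermForm 3 F q (((g : ↥(Cfsg.SU 3 F q)).1 : Matrix (Fin 3) (Fin 3) F) *ᵥ u) u • u := by
    intro g
    apply hfixvec
    have hc := Subgroup.mem_centralizer_singleton_iff.mp g.2
    have hmat : ((g : ↥(Cfsg.SU 3 F q)).1 : Matrix (Fin 3) (Fin 3) F) *
        (t.1 : Matrix (Fin 3) (Fin 3) F) =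
        (t.1 : Matrix (Fin 3) (Fin 3) F) * ((g : ↥(Cfsg.SU 3 F q)).1 : Matrix (Fin 3) (Fin 3) F) :=
      congrArg (fun z : ↥(Cfsg.SU 3 F q) => (z.1 : Matrix (Fin 3) (Fin 3) F)) hc
    rw [Matrix.mulVec_mulVec, ← hmat, ← Matrix.mulVec_mulVec, htu]
  have hCnorm : ∀ g : ↥(Subgroup.centralizer ({t} : Set ↥(Cfsg.SU 3 F q))),
      (Cfsg.hermForm 3 F q
        (((g : ↥(Cfsg.SU 3 F q)).1 : Matrix (Fin 3) (Fin 3) F) *ᵥ u) u) ^ (q + 1) = 1 := by
    intro g
    have h1 := (Cfsg.Agent.S0279.mem_SU_iff (g : ↥(Cfsg.SU 3 F q)).1).mp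
      (g : ↥(Cfsg.SU 3 F q)).2 u u
    rw [huu] at h1
    obtain ⟨c, hc⟩ : ∃ c, c = Cfsg.hermForm 3 F q
        (((g : ↥(Cfsg.SU 3 F q)).1 : Matrix (Fin 3) (Fin 3) F) *ᵥ u) u := ⟨_, rfl⟩
    have hgu : ((g : ↥(Cfsg.SU 3 F q)).1 : Matrix (Fin 3) (Fin 3) F) *ᵥ u = c • u := by
      rw [hc]; exact hCu g
    rw [← hc]
    rw [hgu, Cfsg.Agent.S0837.hf_smul_left, Cfsg.Agent.S0837.hf_smul_right 3 q τ hτ, huu,
      mul_one, hτ, ← pow_succ'] at h1
    exact h1
  have hle : Ku q u ≤ Subgroup.centralizer ({t} : Set ↥(Cfsg.SU 3 F q)) := by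
    intro g hg
    rw [Subgroup.mem_centralizer_singleton_iff]
    have hconj := conj_of_axis τ hτ t t u u htx htx g 1 (by rw [map_one, mul_one])
      (by rw [one_smul]; exact hg)
    exact mul_inv_eq_iff_eq_mul.mp hconj
  have hC : Nat.card ↥(Subgroup.centralizer ({t} : Set ↥(Cfsg.SU 3 F q))) =
      Nat.card {c : F // c ^ (q + 1) = 1} *
        Nat.card ↥((Ku q u).subgroupOf (Subgroup.centralizer ({t} : Set ↥(Cfsg.SU 3 F q)))) := by
    refine Cfsg.Agent.Helper7.OrthChain.card_of_fibration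
      ((Ku q u).subgroupOf (Subgroup.centralizer ({t} : Set ↥(Cfsg.SU 3 F q))))
      (fun g => (⟨_, hCnorm g⟩ : {c : F // c ^ (q + 1) = 1})) ?_ ?_
    · rintro ⟨c, hc⟩
      have hcc : c * τ c = 1 := by rw [hτ, ← pow_succ']; exact hc
      have hcu : Cfsg.hermForm 3 F q (c • u) (c • u) = 1 := by
        rw [Cfsg.Agent.S0837.hf_smul_left, Cfsg.Agent.S0837.hf_smul_right 3 q τ hτ, huu, mul_one]
        exact hcc
      obtain ⟨g, hgU, hgdet, hgu⟩ := exists_su_unit' hF τ hτ hτ2 u huu (c • u) hcu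
      obtain ⟨G, hG⟩ := mkSU g hgU hgdet
      have hGu : (G.1 : Matrix (Fin 3) (Fin 3) F) *ᵥ u = c • u := by rw [hG, hgu]
      have hconj := conj_of_axis τ hτ t t u u htx htx G c hcc hGu
      have hGC : G ∈ Subgroup.centralizer ({t} : Set ↥(Cfsg.SU 3 F q)) := by
        rw [Subgroup.mem_centralizer_singleton_iff]
        exact mul_inv_eq_iff_eq_mul.mp hconj
      refine ⟨⟨G, hGC⟩, Subtype.ext ?_⟩
      show Cfsg.hermForm 3 F q ((G.1 : Matrix (Fin 3) (Fin 3) F) *ᵥ u) u = c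
      rw [hGu, Cfsg.Agent.S0837.hf_smul_left, huu, mul_one]
    · intro g g'
      rw [Subgroup.mem_subgroupOf, Subtype.mk.injEq]
      show _ ↔ (g : ↥(Cfsg.SU 3 F q))⁻¹ * (g' : ↥(Cfsg.SU 3 F q)) ∈ Ku q u
      rw [← Ku_fib]
      constructor
      · intro h
        calc ((g : ↥(Cfsg.SU 3 F q)).1 : Matrix (Fin 3) (Fin 3) F) *ᵥ u
            = Cfsg.hermForm 3 F q
                (((g : ↥(Cfsg.SU 3 F q)).1 : Matrix (Fin 3) (Fin 3) F) *ᵥ u) u • u := hCu g
          _ = Cfsg.hermForm 3 F q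
                (((g' : ↥(Cfsg.SU 3 F q)).1 : Matrix (Fin 3) (Fin 3) F) *ᵥ u) u • u := by rw [h]
          _ = ((g' : ↥(Cfsg.SU 3 F q)).1 : Matrix (Fin 3) (Fin 3) F) *ᵥ u := (hCu g').symm
      · intro h
        rw [h]
  have hKK : Nat.card ↥((Ku q u).subgroupOf (Subgroup.centralizer ({t} : Set ↥(Cfsg.SU 3 F q)))) =
      Nat.card ↥(Ku q u) := Nat.card_congr (Subgroup.subgroupOfEquivOfLe hle).toEquiv
  have hY : Nat.card {c : F // c ^ (q + 1) = 1} = q + 1 :=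
    Cfsg.Agent.Helper5.norm_one_card hF hq2
  have hN : Nat.card {v : Fin 3 → F // Cfsg.hermForm 3 F q v v = 1} = q ^ 2 * (q ^ 3 + 1) := by
    have h := Cfsg.Agent.S0284.result hF 3
    rw [if_neg (by decide)] at h
    exact h
  have hS : (q + 1) * Nat.card ↥(Cfsg.SU 3 F q) =
      q ^ 3 * ((q + 1) * (q ^ 2 - 1) * (q ^ 3 + 1)) := by
    have h := Cfsg.Agent.S0278.result hF 3 (by norm_num)
    rw [h, Finset.prod_range_succ, Finset.prod_range_succ, Finset.prod_range_one,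
      if_pos (by decide), if_neg (by decide), if_pos (by decide)]
    norm_num
  have hKpos : 0 < Nat.card ↥(Ku q u) := Nat.card_pos
  rw [hKK, hY] at hC
  rw [hN] at hB
  have ar1 : (q + 1) * (q ^ 2 - q + 1) = q ^ 3 + 1 := by
    have hle2 : q ≤ q ^ 2 := by nlinarith
    zify [hle2]
    ring
  have hI : Nat.card {x : ↥(Cfsg.SU 3 F q) // x ≠ 1 ∧ x * x = 1} = q ^ 2 * (q ^ 2 - q + 1) := by
    apply Nat.eq_of_mul_eq_mul_right (show 0 < (q + 1) * Nat.card ↥(Ku q u) by positivity)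
    have h3 : Nat.card {x : ↥(Cfsg.SU 3 F q) // x ≠ 1 ∧ x * x = 1} *
        ((q + 1) * Nat.card ↥(Ku q u)) = q ^ 2 * (q ^ 3 + 1) * Nat.card ↥(Ku q u) := by
      rw [← hC, ← hA, hB]
    rw [h3, ← ar1]; ring
  have hK : Nat.card ↥(Ku q u) = q * (q ^ 2 - 1) := by
    rw [hB] at hS
    generalize q ^ 2 - 1 = m at hS ⊢
    apply Nat.eq_of_mul_eq_mul_left (show 0 < (q + 1) * (q ^ 2 * (q ^ 3 + 1)) by positivity)
    linarith
  have hCc : Nat.card ↥(Subgroup.centralizer ({t} : Set ↥(Cfsg.SU 3 F q))) =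
      q * (q + 1) * (q ^ 2 - 1) := by
    rw [hC, hK]; ring
  refine ⟨part1, hI, hCc, ?_⟩
  -- part 4
  intro x hx1 hx2 hxt hcomm
  obtain ⟨w, hww, hxx⟩ := su_invol_form hF h2 τ hτ hτ2 x hx1 hx2
  have huw : Cfsg.hermForm 3 F q u w = 0 :=
    orth_of_commute h2 τ hτ hτ2 t x u w huu hww htx hxx hcomm (Ne.symm hxt)
  have hwu : Cfsg.hermForm 3 F q w u = 0 := by
    rw [← Cfsg.Agent.S0837.hf_conj 3 q τ hτ hτ2 u w, huw, map_zero]
  rw [Nat.card_eq_one_iff_unique]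
  constructor
  · have key : ∀ y : {y : ↥(Cfsg.SU 3 F q) // y ≠ 1 ∧ y * y = 1 ∧ y ≠ t ∧ y ≠ x ∧
        Commute t y ∧ Commute x y}, y.1 = t * x := by
      rintro ⟨y, hy1, hy2, hyt, hyx, hty, hxy⟩
      obtain ⟨z, hzz, hyy⟩ := su_invol_form hF h2 τ hτ hτ2 y hy1 hy2
      have huz : Cfsg.hermForm 3 F q u z = 0 :=
        orth_of_commute h2 τ hτ hτ2 t y u z huu hzz htx hyy hty (Ne.symm hyt)
      have hwz : Cfsg.hermForm 3 F q w z = 0 :=
        orth_of_commute h2 τ hτ hτ2 x y w z hww hzz hxx hyy hxy (Ne.symm hyx)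
      apply Subtype.ext
      apply Subtype.ext
      show (y.1 : Matrix (Fin 3) (Fin 3) F) =
        (t.1 : Matrix (Fin 3) (Fin 3) F) * (x.1 : Matrix (Fin 3) (Fin 3) F)
      apply Cfsg.Agent.S0837.mat_ext
      intro v
      have hexp := onb_expand hF τ hτ hτ2 u w z huu hww hzz huw huz hwz v
      have hHxv : Cfsg.hermForm 3 F q (-v + (2 * Cfsg.hermForm 3 F q v w) • w) u =
          -Cfsg.hermForm 3 F q v u := by
        rw [Cfsg.Agent.S0837.hf_add_left, Cfsg.Agent.S0837.hf_smul_left, hneg, hwu]; ring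
      rw [← Matrix.mulVec_mulVec, hyy, hxx, htx, hHxv]
      have h6 : (2 : F) • v = (2 : F) • (Cfsg.hermForm 3 F q v u • u +
          Cfsg.hermForm 3 F q v w • w + Cfsg.hermForm 3 F q v z • z) :=
        congrArg (fun y => (2 : F) • y) hexp
      have h7 : -v + (2 * Cfsg.hermForm 3 F q v z) • z =
          (-(-v + (2 * Cfsg.hermForm 3 F q v w) • w) + (2 * -Cfsg.hermForm 3 F q v u) • u) +
            (-1 : F) • ((2 : F) • v) + (2 : F) • (Cfsg.hermForm 3 F q v u • u +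
          Cfsg.hermForm 3 F q v w • w + Cfsg.hermForm 3 F q v z • z) := by
        module
      rw [h7, ← h6]
      module
    exact ⟨fun a b => Subtype.ext ((key a).trans (key b).symm)⟩
  · refine ⟨⟨t * x, ?_, ?_, ?_, ?_, ?_, ?_⟩⟩
    · intro h
      apply hxt
      rw [eq_inv_of_mul_eq_one_right h]
      exact inv_eq_of_mul_eq_one_right ht2
    · calc t * x * (t * x) = t * (x * t) * x := by group
        _ = t * (t * x) * x := by rw [hcomm.eq]
        _ = (t * t) * (x * x) := by group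
        _ = 1 := by rw [ht2, hx2, one_mul]
    · intro h
      apply hx1
      exact mul_left_cancel (a := t) (by rw [h, mul_one])
    · intro h
      apply ht
      exact mul_right_cancel (b := x) (by rw [h, one_mul])
    · exact (Commute.refl t).mul_right hcomm
    · exact hcomm.symm.mul_right (Commute.refl x)

end Cfsg.Agent.S2360
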