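import Cfsg.Statements.S2356
import Mathlib
import Cfsg.Agent.S2360
import Cfsg.Agent.S0285

set_option autoImplicit false
open Cfsg

namespace Cfsg.Agent.S2356

open Matrix Cfsg.Agent.S2360

section su3b

variable {F : Type*} [Field F] {q : ℕ}

lemma hf_neg_left' (a b : Fin 3 → F) :
    Cfsg.hermForm 3 F q (-a) b = -Cfsg.hermForm 3 F q a b := by
  rw [← neg_one_smul F a, Cfsg.Agent.S0837.hf_smul_left]; ring

lemma herm3 (τ : F ≃+* F) (hτ : ∀ x, τ x = x ^ q) (x y : Fin 3 → F) :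
    Cfsg.hermForm 3 F q x y = x 0 * τ (y 0) + x 1 * τ (y 1) + x 2 * τ (y 2) := by
  unfold Cfsg.hermForm
  rw [Fin.sum_univ_three, hτ, hτ, hτ]

/-- The conjugated cross product. -/
def crossc (τ : F ≃+* F) (u w : Fin 3 → F) : Fin 3 → F :=
  ![τ (u 1 * w 2 - u 2 * w 1), τ (u 2 * w 0 - u 0 * w 2), τ (u 0 * w 1 - u 1 * w 0)]

lemma crossc_right (τ : F ≃+* F) (hτ : ∀ x, τ x = x ^ q) (hτ2 : ∀ x, τ (τ x) = x)
    (x u w : Fin 3 → F) :
    Cfsg.hermForm 3 F q x (crossc τ u w) =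
      x 0 * (u 1 * w 2 - u 2 * w 1) + x 1 * (u 2 * w 0 - u 0 * w 2) +
        x 2 * (u 0 * w 1 - u 1 * w 0) := by
  rw [herm3 τ hτ]
  simp [crossc, hτ2]

lemma crossc_perp_left (τ : F ≃+* F) (hτ : ∀ x, τ x = x ^ q) (hτ2 : ∀ x, τ (τ x) = x)
    (u w : Fin 3 → F) : Cfsg.hermForm 3 F q u (crossc τ u w) = 0 := by
  rw [crossc_right τ hτ hτ2]; ring

lemma crossc_perp_right (τ : F ≃+* F) (hτ : ∀ x, τ x = x ^ q) (hτ2 : ∀ x, τ (τ x) = x)
    (u w : Fin 3 → F) : Cfsg.hermForm 3 F q w (crossc τ u w) = 0 := by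
  rw [crossc_right τ hτ hτ2]; ring

lemma crossc_norm (τ : F ≃+* F) (hτ : ∀ x, τ x = x ^ q) (hτ2 : ∀ x, τ (τ x) = x)
    (u w : Fin 3 → F) :
    Cfsg.hermForm 3 F q (crossc τ u w) (crossc τ u w) =
      Cfsg.hermForm 3 F q u u * Cfsg.hermForm 3 F q w w -
        Cfsg.hermForm 3 F q u w * Cfsg.hermForm 3 F q w u := by
  rw [crossc_right τ hτ hτ2, herm3 τ hτ u u, herm3 τ hτ w w, herm3 τ hτ u w, herm3 τ hτ w u]
  simp only [crossc, Matrix.cons_val_zero, Matrix.cons_val_one, Matrix.cons_val_two,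
    Matrix.head_cons, Matrix.tail_cons, map_sub, map_mul]
  ring

lemma normalize3 [Fintype F] (hF : Fintype.card F = q ^ 2) (τ : F ≃+* F)
    (hτ : ∀ x, τ x = x ^ q) (hτ2 : ∀ x, τ (τ x) = x) (z0 : Fin 3 → F)
    (h : Cfsg.hermForm 3 F q z0 z0 ≠ 0) :
    ∃ l : F, l ≠ 0 ∧ Cfsg.hermForm 3 F q (l • z0) (l • z0) = 1 := by
  have hq := Cfsg.Agent.Helper7.herm_two_le hF
  have hfix : (Cfsg.hermForm 3 F q z0 z0) ^ q = Cfsg.hermForm 3 F q z0 z0 := by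
    rw [← hτ]; exact Cfsg.Agent.S0837.hf_conj 3 q τ hτ hτ2 z0 z0
  obtain ⟨l, hl0, hl⟩ := (Cfsg.Agent.Helper7.normSet_facts hF).1 _
    (fix_mem_normSet hq _ h hfix)
  have hlq0 : l ^ q ≠ 0 := pow_ne_zero _ hl0
  refine ⟨l⁻¹, inv_ne_zero hl0, ?_⟩
  rw [Cfsg.Agent.S0837.hf_smul_left, Cfsg.Agent.S0837.hf_smul_right 3 q τ hτ, map_inv₀, hτ, ← hl]
  field_simp

/-- A unit vector orthogonal to two unit vectors spanning a non-degenerate plane. -/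
lemma exists_perp [Fintype F] (hF : Fintype.card F = q ^ 2) (τ : F ≃+* F)
    (hτ : ∀ x, τ x = x ^ q) (hτ2 : ∀ x, τ (τ x) = x) (u p : Fin 3 → F)
    (huu : Cfsg.hermForm 3 F q u u = 1) (hpp : Cfsg.hermForm 3 F q p p = 1)
    (hne : Cfsg.hermForm 3 F q u p * Cfsg.hermForm 3 F q p u ≠ 1) :
    ∃ z : Fin 3 → F, Cfsg.hermForm 3 F q z z = 1 ∧ Cfsg.hermForm 3 F q u z = 0 ∧
      Cfsg.hermForm 3 F q p z = 0 := by
  have hn : Cfsg.hermForm 3 F q (crossc τ u p) (crossc τ u p) ≠ 0 := by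
    rw [crossc_norm τ hτ hτ2, huu, hpp, mul_one]
    exact sub_ne_zero.mpr (Ne.symm hne)
  obtain ⟨l, hl0, hl⟩ := normalize3 hF τ hτ hτ2 _ hn
  refine ⟨l • crossc τ u p, hl, ?_, ?_⟩
  · rw [Cfsg.Agent.S0837.hf_smul_right 3 q τ hτ, crossc_perp_left τ hτ hτ2, mul_zero]
  · rw [Cfsg.Agent.S0837.hf_smul_right 3 q τ hτ, crossc_perp_right τ hτ hτ2, mul_zero]

/-- An orthonormal frame extending a unit vector. -/
lemma exists_frame [Fintype F] (hF : Fintype.card F = q ^ 2) (τ : F ≃+* F)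
    (hτ : ∀ x, τ x = x ^ q) (hτ2 : ∀ x, τ (τ x) = x) (u : Fin 3 → F)
    (huu : Cfsg.hermForm 3 F q u u = 1) :
    ∃ w0 z0 : Fin 3 → F, Cfsg.hermForm 3 F q w0 w0 = 1 ∧ Cfsg.hermForm 3 F q z0 z0 = 1 ∧
      Cfsg.hermForm 3 F q u w0 = 0 ∧ Cfsg.hermForm 3 F q u z0 = 0 ∧
      Cfsg.hermForm 3 F q w0 z0 = 0 := by
  have hq := Cfsg.Agent.Helper7.herm_two_le hF
  have hq0 : q ≠ 0 := by omega
  obtain ⟨g, hgU, -, hg⟩ := exists_su_unit hF τ hτ hτ2 u huu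
  have hU := (Cfsg.Agent.S0783.mem_GU_iff g).mp hgU
  refine ⟨(g : Matrix (Fin 3) (Fin 3) F) *ᵥ Pi.single (1 : Fin 3) (1 : F),
    (g : Matrix (Fin 3) (Fin 3) F) *ᵥ Pi.single (2 : Fin 3) (1 : F), ?_, ?_, ?_, ?_, ?_⟩
  · rw [hU]; exact Cfsg.Agent.S0279.herm_single _
  · rw [hU]; exact Cfsg.Agent.S0279.herm_single _
  · rw [← hg, hU]; exact Cfsg.Agent.S0783.herm_single_ne hq0 _ _ (by decide)
  · rw [← hg, hU]; exact Cfsg.Agent.S0783.herm_single_ne hq0 _ _ (by decide)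
  · rw [hU]; exact Cfsg.Agent.S0783.herm_single_ne hq0 _ _ (by decide)

/-- Every unit vector is the axis of an involution of `SU₃` (given one involution). -/
lemma exists_invol_axis [Fintype F] (hF : Fintype.card F = q ^ 2) (h2 : (2 : F) ≠ 0)
    (τ : F ≃+* F) (hτ : ∀ x, τ x = x ^ q) (hτ2 : ∀ x, τ (τ x) = x)
    (t : ↥(Cfsg.SU 3 F q)) (ht : t ≠ 1) (ht2 : t * t = 1)
    (z : Fin 3 → F) (hzz : Cfsg.hermForm 3 F q z z = 1) :
    ∃ y : ↥(Cfsg.SU 3 F q), y ≠ 1 ∧ y * y = 1 ∧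
      ∀ v, (y.1 : Matrix (Fin 3) (Fin 3) F) *ᵥ v = -v + (2 * Cfsg.hermForm 3 F q v z) • z := by
  obtain ⟨u, huu, htx⟩ := su_invol_form hF h2 τ hτ hτ2 t ht ht2
  obtain ⟨g, hgU, hgdet, hgu⟩ := exists_su_unit' hF τ hτ hτ2 u huu z hzz
  obtain ⟨G, hG⟩ : ∃ G : ↥(Cfsg.SU 3 F q),
      (G.1 : Matrix (Fin 3) (Fin 3) F) = (g : Matrix (Fin 3) (Fin 3) F) :=
    ⟨⟨⟨_, hgdet⟩, (Cfsg.Agent.S0279.mem_SU_iff _).mpr
      (fun a b => (Cfsg.Agent.S0783.mem_GU_iff g).mp hgU a b)⟩, rfl⟩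
  have hGu : (G.1 : Matrix (Fin 3) (Fin 3) F) *ᵥ u = z := by rw [hG, hgu]
  refine ⟨G * t * G⁻¹, ?_, ?_, ?_⟩
  · intro h
    apply ht
    have h3 : t = G⁻¹ * (G * t * G⁻¹) * G := by group
    rw [h3, h]; group
  · have h3 : G * t * G⁻¹ * (G * t * G⁻¹) = G * (t * t) * G⁻¹ := by group
    rw [h3, ht2]; group
  · intro v
    have h1 : (G.1 : Matrix (Fin 3) (Fin 3) F) * ((G⁻¹).1 : Matrix (Fin 3) (Fin 3) F) = 1 :=
      congrArg (fun z : ↥(Cfsg.SU 3 F q) => (z.1 : Matrix (Fin 3) (Fin 3) F)) (mul_inv_cancel G)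
    obtain ⟨v', hv'⟩ : ∃ v', v' = ((G⁻¹).1 : Matrix (Fin 3) (Fin 3) F) *ᵥ v := ⟨_, rfl⟩
    have hGv' : (G.1 : Matrix (Fin 3) (Fin 3) F) *ᵥ v' = v := by
      rw [hv', Matrix.mulVec_mulVec, h1, Matrix.one_mulVec]
    have h3 : Cfsg.hermForm 3 F q v' u = Cfsg.hermForm 3 F q v z := by
      rw [← (Cfsg.Agent.S0279.mem_SU_iff G.1).mp G.2 v' u, hGv', hGu]
    show ((G.1 : Matrix (Fin 3) (Fin 3) F) * (t.1 : Matrix (Fin 3) (Fin 3) F) *
      ((G⁻¹).1 : Matrix (Fin 3) (Fin 3) F)) *ᵥ v = _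
    rw [← Matrix.mulVec_mulVec, ← Matrix.mulVec_mulVec, ← hv', htx, Matrix.mulVec_add,
      Matrix.mulVec_neg, Matrix.mulVec_smul, hGv', hGu, h3]

/-- Involutions with orthogonal axes commute. -/
lemma commute_of_orth (s1 s2 : ↥(Cfsg.SU 3 F q)) (u w : Fin 3 → F)
    (h1 : ∀ x, (s1.1 : Matrix (Fin 3) (Fin 3) F) *ᵥ x = -x + (2 * Cfsg.hermForm 3 F q x u) • u)
    (hs2 : ∀ x, (s2.1 : Matrix (Fin 3) (Fin 3) F) *ᵥ x = -x + (2 * Cfsg.hermForm 3 F q x w) • w)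
    (huw : Cfsg.hermForm 3 F q u w = 0) (hwu : Cfsg.hermForm 3 F q w u = 0) :
    Commute s1 s2 := by
  show s1 * s2 = s2 * s1
  apply Subtype.ext
  apply Subtype.ext
  show (s1.1 : Matrix (Fin 3) (Fin 3) F) * (s2.1 : Matrix (Fin 3) (Fin 3) F) =
    (s2.1 : Matrix (Fin 3) (Fin 3) F) * (s1.1 : Matrix (Fin 3) (Fin 3) F)
  apply Cfsg.Agent.S0837.mat_ext
  intro v
  have e1 : (s1.1 : Matrix (Fin 3) (Fin 3) F) *ᵥ ((s2.1 : Matrix (Fin 3) (Fin 3) F) *ᵥ v) =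
      v + (-(2 * Cfsg.hermForm 3 F q v w)) • w + (-(2 * Cfsg.hermForm 3 F q v u)) • u := by
    rw [hs2 v, h1, Cfsg.Agent.S0837.hf_add_left, Cfsg.Agent.S0837.hf_smul_left, hf_neg_left', hwu]
    module
  have e2 : (s2.1 : Matrix (Fin 3) (Fin 3) F) *ᵥ ((s1.1 : Matrix (Fin 3) (Fin 3) F) *ᵥ v) =
      v + (-(2 * Cfsg.hermForm 3 F q v w)) • w + (-(2 * Cfsg.hermForm 3 F q v u)) • u := by
    rw [h1 v, hs2, Cfsg.Agent.S0837.hf_add_left, Cfsg.Agent.S0837.hf_smul_left, hf_neg_left', huw]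
    module
  rw [← Matrix.mulVec_mulVec, ← Matrix.mulVec_mulVec, e1, e2]

/-- A vector fixed by an involution lies on its axis. -/
lemma fix_of_axis (h2 : (2 : F) ≠ 0) (M : Matrix (Fin 3) (Fin 3) F) (u : Fin 3 → F)
    (hM : ∀ x, M *ᵥ x = -x + (2 * Cfsg.hermForm 3 F q x u) • u) (y : Fin 3 → F)
    (hy : M *ᵥ y = y) : y = Cfsg.hermForm 3 F q y u • u := by
  rw [hM] at hy
  have h4 : (2 : F) • y = (2 : F) • (Cfsg.hermForm 3 F q y u • u) := by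
    have h5 : (2 : F) • y = y + (-1 : F) • (-y + (2 * Cfsg.hermForm 3 F q y u) • u) +
        (2 : F) • (Cfsg.hermForm 3 F q y u • u) := by module
    rw [hy] at h5
    rw [h5]; module
  exact smul_right_injective _ h2 h4

/-- Involutions whose axes are proportional coincide. -/
lemma eq_of_axis [Fintype F] (τ : F ≃+* F) (hτ : ∀ x, τ x = x ^ q)
    (s1 s2 : ↥(Cfsg.SU 3 F q)) (u w : Fin 3 → F)
    (h1 : ∀ x, (s1.1 : Matrix (Fin 3) (Fin 3) F) *ᵥ x = -x + (2 * Cfsg.hermForm 3 F q x u) • u)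
    (hs2 : ∀ x, (s2.1 : Matrix (Fin 3) (Fin 3) F) *ᵥ x = -x + (2 * Cfsg.hermForm 3 F q x w) • w)
    (c : F) (hc : c * τ c = 1) (hw : u = c • w) : s1 = s2 := by
  have h := conj_of_axis τ hτ s1 s2 u w h1 hs2 1 c hc (by
    show (1 : Matrix (Fin 3) (Fin 3) F) *ᵥ u = c • w
    rw [Matrix.one_mulVec, hw])
  rw [one_mul, inv_one, mul_one] at h
  exact h

end su3b
section su3c

variable {F : Type*} [Field F] {q : ℕ}

/-- `w` is an axis of the involution `x`. -/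
def IsAxis (q : ℕ) (x : ↥(Cfsg.SU 3 F q)) (w : Fin 3 → F) : Prop :=
  Cfsg.hermForm 3 F q w w = 1 ∧
    ∀ v, (x.1 : Matrix (Fin 3) (Fin 3) F) *ᵥ v = -v + (2 * Cfsg.hermForm 3 F q v w) • w

lemma axis_rel (h2 : (2 : F) ≠ 0) (τ : F ≃+* F) (hτ : ∀ x, τ x = x ^ q)
    (x : ↥(Cfsg.SU 3 F q)) (w w0 : Fin 3 → F) (hw : IsAxis q x w) (hw0 : IsAxis q x w0) :
    w = Cfsg.hermForm 3 F q w w0 • w0 ∧ (Cfsg.hermForm 3 F q w w0) ^ (q + 1) = 1 := by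
  have hfix : (x.1 : Matrix (Fin 3) (Fin 3) F) *ᵥ w = w := by
    rw [hw.2, hw.1, mul_one, two_smul]; abel
  have h1 := fix_of_axis h2 _ w0 hw0.2 w hfix
  refine ⟨h1, ?_⟩
  obtain ⟨c, hc⟩ : ∃ c, c = Cfsg.hermForm 3 F q w w0 := ⟨_, rfl⟩
  rw [← hc] at h1 ⊢
  have h3 := hw.1
  rw [h1, Cfsg.Agent.S0837.hf_smul_left, Cfsg.Agent.S0837.hf_smul_right 3 q τ hτ, hw0.1, mul_one,
    hτ, ← pow_succ'] at h3
  exact h3

/-- Counting involutions through their axes. -/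
lemma card_axes [Fintype F] (hF : Fintype.card F = q ^ 2) (h2 : (2 : F) ≠ 0)
    (τ : F ≃+* F) (hτ : ∀ x, τ x = x ^ q) (hτ2 : ∀ x, τ (τ x) = x)
    (t : ↥(Cfsg.SU 3 F q)) (ht : t ≠ 1) (ht2 : t * t = 1)
    (P : (Fin 3 → F) → Prop) (hP : ∀ w c, c * τ c = 1 → P w → P (c • w)) :
    Nat.card {w : Fin 3 → F // Cfsg.hermForm 3 F q w w = 1 ∧ P w} =
      Nat.card {x : ↥(Cfsg.SU 3 F q) // x ≠ 1 ∧ x * x = 1 ∧ ∃ w, IsAxis q x w ∧ P w} *
        (q + 1) := by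
  classical
  have hq := Cfsg.Agent.Helper7.herm_two_le hF
  have hex : ∀ w : {w : Fin 3 → F // Cfsg.hermForm 3 F q w w = 1 ∧ P w},
      ∃ y : ↥(Cfsg.SU 3 F q), y ≠ 1 ∧ y * y = 1 ∧
        ∀ v, (y.1 : Matrix (Fin 3) (Fin 3) F) *ᵥ v =
          -v + (2 * Cfsg.hermForm 3 F q v w.1) • w.1 :=
    fun w => exists_invol_axis hF h2 τ hτ hτ2 t ht ht2 w.1 w.2.1
  choose π hπ1 hπ2 hπ3 using hex
  apply Cfsg.Agent.S0775.card_fiber_const
    (fun w => (⟨π w, hπ1 w, hπ2 w, w.1, ⟨w.2.1, hπ3 w⟩, w.2.2⟩ :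
      {x : ↥(Cfsg.SU 3 F q) // x ≠ 1 ∧ x * x = 1 ∧ ∃ w, IsAxis q x w ∧ P w})) (q + 1)
  rintro ⟨x, hx1, hx2, w0, hxw0, hPw0⟩
  rw [← Cfsg.Agent.Helper5.norm_one_card hF hq]
  have hax : ∀ w : {w : {w : Fin 3 → F // Cfsg.hermForm 3 F q w w = 1 ∧ P w} //
      (⟨π w, hπ1 w, hπ2 w, w.1, ⟨w.2.1, hπ3 w⟩, w.2.2⟩ :
        {x : ↥(Cfsg.SU 3 F q) // x ≠ 1 ∧ x * x = 1 ∧ ∃ w, IsAxis q x w ∧ P w}) =
        ⟨x, hx1, hx2, w0, hxw0, hPw0⟩}, IsAxis q x w.1.1 := by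
    intro w
    have hx : π w.1 = x := congrArg Subtype.val w.2
    refine ⟨w.1.2.1, ?_⟩
    intro v
    have h3 := hπ3 w.1 v
    rw [hx] at h3
    exact h3
  have hcc : ∀ c : {c : F // c ^ (q + 1) = 1}, c.1 * τ c.1 = 1 := by
    intro c; rw [hτ, ← pow_succ']; exact c.2
  have hnorm : ∀ c : {c : F // c ^ (q + 1) = 1},
      Cfsg.hermForm 3 F q (c.1 • w0) (c.1 • w0) = 1 := by
    intro c
    rw [Cfsg.Agent.S0837.hf_smul_left, Cfsg.Agent.S0837.hf_smul_right 3 q τ hτ, hxw0.1, mul_one]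
    exact hcc c
  refine Nat.card_congr
    { toFun := fun w => ⟨Cfsg.hermForm 3 F q w.1.1 w0, (axis_rel h2 τ hτ x _ w0 (hax w) hxw0).2⟩
      invFun := fun c => ⟨⟨c.1 • w0, hnorm c, hP w0 c.1 (hcc c) hPw0⟩, ?_⟩
      left_inv := ?_
      right_inv := ?_ }
  · apply Subtype.ext
    show π ⟨c.1 • w0, hnorm c, hP w0 c.1 (hcc c) hPw0⟩ = x
    exact eq_of_axis τ hτ _ x (c.1 • w0) w0 (hπ3 _) hxw0.2 c.1 (hcc c) rfl
  · intro w
    apply Subtype.ext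
    apply Subtype.ext
    exact (axis_rel h2 τ hτ x _ w0 (hax w) hxw0).1.symm
  · intro c
    apply Subtype.ext
    show Cfsg.hermForm 3 F q (c.1 • w0) w0 = c.1
    rw [Cfsg.Agent.S0837.hf_smul_left, hxw0.1, mul_one]

/-- An orthonormal frame of the unitary 3-space. -/
structure Frame (q : ℕ) (u w0 z0 : Fin 3 → F) : Prop where
  huu : Cfsg.hermForm 3 F q u u = 1
  hww : Cfsg.hermForm 3 F q w0 w0 = 1
  hzz : Cfsg.hermForm 3 F q z0 z0 = 1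
  huw : Cfsg.hermForm 3 F q u w0 = 0
  huz : Cfsg.hermForm 3 F q u z0 = 0
  hwz : Cfsg.hermForm 3 F q w0 z0 = 0
  hwu : Cfsg.hermForm 3 F q w0 u = 0
  hzu : Cfsg.hermForm 3 F q z0 u = 0
  hzw : Cfsg.hermForm 3 F q z0 w0 = 0

lemma frame_of (τ : F ≃+* F) (hτ : ∀ x, τ x = x ^ q) (hτ2 : ∀ x, τ (τ x) = x)
    (u w0 z0 : Fin 3 → F) (huu : Cfsg.hermForm 3 F q u u = 1)
    (hww : Cfsg.hermForm 3 F q w0 w0 = 1) (hzz : Cfsg.hermForm 3 F q z0 z0 = 1)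
    (huw : Cfsg.hermForm 3 F q u w0 = 0) (huz : Cfsg.hermForm 3 F q u z0 = 0)
    (hwz : Cfsg.hermForm 3 F q w0 z0 = 0) : Frame q u w0 z0 :=
  ⟨huu, hww, hzz, huw, huz, hwz,
    by rw [← Cfsg.Agent.S0837.hf_conj 3 q τ hτ hτ2 u w0, huw, map_zero],
    by rw [← Cfsg.Agent.S0837.hf_conj 3 q τ hτ hτ2 u z0, huz, map_zero],
    by rw [← Cfsg.Agent.S0837.hf_conj 3 q τ hτ hτ2 w0 z0, hwz, map_zero]⟩

lemma frame_expand [Fintype F] (hF : Fintype.card F = q ^ 2) (τ : F ≃+* F)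
    (hτ : ∀ x, τ x = x ^ q) (hτ2 : ∀ x, τ (τ x) = x) {u w0 z0 : Fin 3 → F}
    (fr : Frame q u w0 z0) (v : Fin 3 → F) :
    v = Cfsg.hermForm 3 F q v u • u + Cfsg.hermForm 3 F q v w0 • w0 +
      Cfsg.hermForm 3 F q v z0 • z0 :=
  onb_expand hF τ hτ hτ2 u w0 z0 fr.huu fr.hww fr.hzz fr.huw fr.huz fr.hwz v

lemma frame_norm (τ : F ≃+* F) (hτ : ∀ x, τ x = x ^ q) {u w0 z0 : Fin 3 → F}
    (fr : Frame q u w0 z0) (a b c : F) :
    Cfsg.hermForm 3 F q (a • u + b • w0 + c • z0) (a • u + b • w0 + c • z0) =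
      a * τ a + b * τ b + c * τ c := by
  simp only [Cfsg.Agent.S0837.hf_add_left, Cfsg.Agent.S0837.hf_add_right 3 q τ hτ,
    Cfsg.Agent.S0837.hf_smul_left, Cfsg.Agent.S0837.hf_smul_right 3 q τ hτ, fr.huu, fr.hww,
    fr.hzz, fr.huw, fr.huz, fr.hwz, fr.hwu, fr.hzu, fr.hzw]
  ring

lemma frame_u {u w0 z0 : Fin 3 → F} (fr : Frame q u w0 z0) (a b c : F) :
    Cfsg.hermForm 3 F q (a • u + b • w0 + c • z0) u = a := by
  simp only [Cfsg.Agent.S0837.hf_add_left, Cfsg.Agent.S0837.hf_smul_left, fr.huu, fr.hwu, fr.hzu]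
  ring

lemma frame_w {u w0 z0 : Fin 3 → F} (fr : Frame q u w0 z0) (a b c : F) :
    Cfsg.hermForm 3 F q (a • u + b • w0 + c • z0) w0 = b := by
  simp only [Cfsg.Agent.S0837.hf_add_left, Cfsg.Agent.S0837.hf_smul_left, fr.huw, fr.hww, fr.hzw]
  ring

lemma frame_z {u w0 z0 : Fin 3 → F} (fr : Frame q u w0 z0) (a b c : F) :
    Cfsg.hermForm 3 F q (a • u + b • w0 + c • z0) z0 = c := by
  simp only [Cfsg.Agent.S0837.hf_add_left, Cfsg.Agent.S0837.hf_smul_left, fr.huz, fr.hwz, fr.hzz]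
  ring

lemma herm2 (τ : F ≃+* F) (hτ : ∀ x, τ x = x ^ q) (x y : Fin 2 → F) :
    Cfsg.hermForm 2 F q x y = x 0 * τ (y 0) + x 1 * τ (y 1) := by
  unfold Cfsg.hermForm
  rw [Fin.sum_univ_two, hτ, hτ]

lemma card_split {α : Type*} [Finite α] (p r : α → Prop) :
    Nat.card {x // p x} = Nat.card {x // p x ∧ r x} + Nat.card {x // p x ∧ ¬ r x} := by
  classical
  haveI := Fintype.ofFinite α
  rw [Nat.card_eq_fintype_card, Nat.card_eq_fintype_card, Nat.card_eq_fintype_card,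
    Fintype.card_subtype, Fintype.card_subtype, Fintype.card_subtype,
    ← Finset.card_filter_add_card_filter_not (s := Finset.univ.filter p) (p := r),
    Finset.filter_filter, Finset.filter_filter]

end su3c
section su3d

variable {F : Type*} [Field F] {q : ℕ}

lemma card_W1 [Fintype F] (hF : Fintype.card F = q ^ 2) (τ : F ≃+* F)
    (hτ : ∀ x, τ x = x ^ q) (hτ2 : ∀ x, τ (τ x) = x) {u w0 z0 : Fin 3 → F}
    (fr : Frame q u w0 z0) :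
    Nat.card {w : Fin 3 → F // Cfsg.hermForm 3 F q w w = 1 ∧ Cfsg.hermForm 3 F q w u = 0} =
      q * (q ^ 2 - 1) := by
  have h := Cfsg.Agent.S0284.result hF 2
  rw [if_pos (by decide)] at h
  have e : q ^ (2 - 1) = q := by norm_num
  rw [e] at h
  rw [← h]
  refine Nat.card_congr
    { toFun := fun w => ⟨![Cfsg.hermForm 3 F q w.1 w0, Cfsg.hermForm 3 F q w.1 z0], ?_⟩
      invFun := fun v => ⟨(0 : F) • u + v.1 0 • w0 + v.1 1 • z0, ?_, ?_⟩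
      left_inv := ?_
      right_inv := ?_ }
  · have hexp := frame_expand hF τ hτ hτ2 fr w.1
    obtain ⟨b, hb⟩ : ∃ b, b = Cfsg.hermForm 3 F q w.1 w0 := ⟨_, rfl⟩
    obtain ⟨c, hc⟩ : ∃ c, c = Cfsg.hermForm 3 F q w.1 z0 := ⟨_, rfl⟩
    rw [w.2.2, ← hb, ← hc] at hexp
    have h1 := w.2.1
    rw [hexp, frame_norm τ hτ fr] at h1
    rw [herm2 τ hτ, ← hb, ← hc]
    show b * τ b + c * τ c = 1
    linear_combination h1
  · rw [frame_norm τ hτ fr]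
    have h1 := v.2
    rw [herm2 τ hτ] at h1
    linear_combination h1
  · exact frame_u fr _ _ _
  · intro w
    apply Subtype.ext
    have hexp := frame_expand hF τ hτ hτ2 fr w.1
    rw [w.2.2] at hexp
    exact hexp.symm
  · intro v
    apply Subtype.ext
    show ![Cfsg.hermForm 3 F q ((0 : F) • u + v.1 0 • w0 + v.1 1 • z0) w0,
      Cfsg.hermForm 3 F q ((0 : F) • u + v.1 0 • w0 + v.1 1 • z0) z0] = v.1
    rw [frame_w fr, frame_z fr]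
    ext i; fin_cases i <;> rfl

lemma card_W3 [Fintype F] (hF : Fintype.card F = q ^ 2) (τ : F ≃+* F)
    (hτ : ∀ x, τ x = x ^ q) (hτ2 : ∀ x, τ (τ x) = x) {u w0 z0 : Fin 3 → F}
    (fr : Frame q u w0 z0) :
    Nat.card {w : Fin 3 → F // Cfsg.hermForm 3 F q w w = 1 ∧
      (Cfsg.hermForm 3 F q w u * τ (Cfsg.hermForm 3 F q w u) = 1 ∧ ¬ ∃ c : F, w = c • u)} =
      (q + 1) * ((q ^ 2 - 1) * (q + 1)) := by
  classical
  have hq := Cfsg.Agent.Helper7.herm_two_le hF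
  have hV : Nat.card {v : Fin 2 → F // Cfsg.hermForm 2 F q v v = 0 ∧ ¬ v = 0} =
      (q ^ 2 - 1) * (q + 1) := by
    have h := Cfsg.Agent.S0285.result hF 2
    rw [if_pos (by decide)] at h
    have e : q ^ (2 - 1) = q := by norm_num
    rw [e] at h
    have hs := card_split (fun v : Fin 2 → F => Cfsg.hermForm 2 F q v v = 0) (fun v => v = 0)
    have h1 : Nat.card {v : Fin 2 → F // Cfsg.hermForm 2 F q v v = 0 ∧ v = 0} = 1 := by
      rw [Nat.card_eq_one_iff_unique]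
      refine ⟨⟨fun a b => Subtype.ext (a.2.2.trans b.2.2.symm)⟩, ⟨⟨0, ?_, rfl⟩⟩⟩
      rw [herm2 τ hτ]; simp
    rw [h, h1] at hs
    linarith
  have hcc : ∀ c : {c : F // c ^ (q + 1) = 1}, c.1 * τ c.1 = 1 := by
    intro c; rw [hτ, ← pow_succ']; exact c.2
  have key : Nat.card {w : Fin 3 → F // Cfsg.hermForm 3 F q w w = 1 ∧
      (Cfsg.hermForm 3 F q w u * τ (Cfsg.hermForm 3 F q w u) = 1 ∧ ¬ ∃ c : F, w = c • u)} =
      Nat.card ({c : F // c ^ (q + 1) = 1} ×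
        {v : Fin 2 → F // Cfsg.hermForm 2 F q v v = 0 ∧ ¬ v = 0}) := by
    refine Nat.card_congr
      { toFun := fun w => (⟨Cfsg.hermForm 3 F q w.1 u, ?_⟩,
          ⟨![Cfsg.hermForm 3 F q w.1 w0, Cfsg.hermForm 3 F q w.1 z0], ?_, ?_⟩)
        invFun := fun p => ⟨p.1.1 • u + p.2.1 0 • w0 + p.2.1 1 • z0, ?_, ?_, ?_⟩
        left_inv := ?_
        right_inv := ?_ }
    · rw [pow_succ', ← hτ]; exact w.2.2.1
    · have hexp := frame_expand hF τ hτ hτ2 fr w.1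
      obtain ⟨a, ha⟩ : ∃ a, a = Cfsg.hermForm 3 F q w.1 u := ⟨_, rfl⟩
      obtain ⟨b, hb⟩ : ∃ b, b = Cfsg.hermForm 3 F q w.1 w0 := ⟨_, rfl⟩
      obtain ⟨c, hc⟩ : ∃ c, c = Cfsg.hermForm 3 F q w.1 z0 := ⟨_, rfl⟩
      rw [← ha, ← hb, ← hc] at hexp
      have h1 := w.2.1
      rw [hexp, frame_norm τ hτ fr] at h1
      have hN := w.2.2.1
      rw [← ha] at hN
      rw [herm2 τ hτ, ← hb, ← hc]
      show b * τ b + c * τ c = 0
      linear_combination h1 - hN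
    · intro h0
      apply w.2.2.2
      have hb : Cfsg.hermForm 3 F q w.1 w0 = 0 := congrFun h0 0
      have hc : Cfsg.hermForm 3 F q w.1 z0 = 0 := congrFun h0 1
      have hexp := frame_expand hF τ hτ hτ2 fr w.1
      rw [hb, hc, zero_smul, zero_smul, add_zero, add_zero] at hexp
      exact ⟨_, hexp⟩
    · rw [frame_norm τ hτ fr]
      have h1 := hcc p.1
      have h3 := p.2.2.1
      rw [herm2 τ hτ] at h3
      linear_combination h1 + h3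
    · rw [frame_u fr]; exact hcc p.1
    · rintro ⟨c, hc⟩
      apply p.2.2.2
      have hb := congrArg (fun x => Cfsg.hermForm 3 F q x w0) hc
      have hc' := congrArg (fun x => Cfsg.hermForm 3 F q x z0) hc
      simp only [frame_w fr, frame_z fr, Cfsg.Agent.S0837.hf_smul_left, fr.huw, fr.huz,
        mul_zero] at hb hc'
      ext i; fin_cases i
      · exact hb
      · exact hc'
    · intro w
      apply Subtype.ext
      exact (frame_expand hF τ hτ hτ2 fr w.1).symm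
    · intro p
      apply Prod.ext
      · apply Subtype.ext
        exact frame_u fr _ _ _
      · apply Subtype.ext
        show ![Cfsg.hermForm 3 F q (p.1.1 • u + p.2.1 0 • w0 + p.2.1 1 • z0) w0,
          Cfsg.hermForm 3 F q (p.1.1 • u + p.2.1 0 • w0 + p.2.1 1 • z0) z0] = p.2.1
        rw [frame_w fr, frame_z fr]
        ext i; fin_cases i <;> rfl
  rw [key, Nat.card_prod, hV, Cfsg.Agent.Helper5.norm_one_card hF hq]

end su3d

lemma arith3 (q A B S : ℕ) (hq : 3 ≤ q) (h1 : q ^ 2 * (q ^ 2 - q + 1) = 1 + A)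
    (h2 : A = q * (q - 1) + B) (h3 : B = S + (q + 1) * (q ^ 2 - 1)) :
    S = q * (q - 2) * (q ^ 2 - 1) := by
  obtain ⟨r, rfl⟩ : ∃ r, q = r + 3 := ⟨q - 3, by omega⟩
  have p1 : (r + 3) ^ 2 - 1 = r ^ 2 + 6 * r + 8 := by
    have h : (r + 3) ^ 2 = r ^ 2 + 6 * r + 8 + 1 := by ring
    rw [h, Nat.add_sub_cancel]
  have p2 : (r + 3) ^ 2 - (r + 3) + 1 = r ^ 2 + 5 * r + 7 := by
    have h : (r + 3) ^ 2 = r ^ 2 + 5 * r + 6 + (r + 3) := by ring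
    rw [h, Nat.add_sub_cancel]
  have p3 : r + 3 - 1 = r + 2 := rfl
  have p4 : r + 3 - 2 = r + 1 := rfl
  rw [p2] at h1
  rw [p3] at h2
  rw [p1] at h3
  rw [p1, p4]
  subst h2
  subst h3
  nlinarith [h1]

/-- Let q be odd, F the field with q² elements, S = SU_3(F) (determinant-one isometries of the standard Hermitian form) and t an involution of S. Then: exactly q(q−1) involutions other than t commute with t; exactly q(q−2)(q²−1) involutions do not commute with t but commute with some involution commuting with t; exactly (q+1)(q²−1) involutions x do not commute with t and admit no involution commuting with both t and x; and every involution can be reached from t in at most three steps, each step going to an involution that commutes with the previous one (the commuting involution graph is connected of diameter 3). -/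
theorem result {F : Type*} [Field F] [Fintype F] {q : ℕ} (hq : Odd q)
    (hF : Fintype.card F = q ^ 2) (t : ↥(Cfsg.SU 3 F q)) (ht : t ≠ 1) (ht2 : t * t = 1) :
    Nat.card {x : ↥(Cfsg.SU 3 F q) // x ≠ 1 ∧ x * x = 1 ∧ x ≠ t ∧ Commute t x} = q * (q - 1) ∧
    Nat.card {x : ↥(Cfsg.SU 3 F q) // x ≠ 1 ∧ x * x = 1 ∧ ¬ Commute t x ∧
        ∃ y : ↥(Cfsg.SU 3 F q), y ≠ 1 ∧ y * y = 1 ∧ Commute t y ∧ Commute y x} = q * (q - 2) * (q ^ 2 - 1) ∧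
    Nat.card {x : ↥(Cfsg.SU 3 F q) // x ≠ 1 ∧ x * x = 1 ∧ ¬ Commute t x ∧
        ∀ y : ↥(Cfsg.SU 3 F q), y ≠ 1 → y * y = 1 → ¬ (Commute t y ∧ Commute y x)} = (q + 1) * (q ^ 2 - 1) ∧
    ∀ x : ↥(Cfsg.SU 3 F q), x ≠ 1 → x * x = 1 →
      ∃ y z : ↥(Cfsg.SU 3 F q), y ≠ 1 ∧ y * y = 1 ∧ z ≠ 1 ∧ z * z = 1 ∧
        Commute t y ∧ Commute y z ∧ Commute z x := by
  classical
  obtain ⟨τ, hτ, hτ2, hτne⟩ := Cfsg.Agent.Helper9.exists_frob9 hF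
  have h2 := two_ne_zero_of_odd hq hF
  have hq2 := Cfsg.Agent.Helper7.herm_two_le hF
  have hq3 : 3 ≤ q := by
    obtain ⟨k, hk⟩ := hq; omega
  obtain ⟨u, huu, htx⟩ := su_invol_form hF h2 τ hτ hτ2 t ht ht2
  have htax : IsAxis q t u := ⟨huu, htx⟩
  obtain ⟨w0, z0, hw0, hz0, huw0, huz0, hwz0⟩ := exists_frame hF τ hτ hτ2 u huu
  have fr := frame_of τ hτ hτ2 u w0 z0 huu hw0 hz0 huw0 huz0 hwz0
  have hconj : ∀ a b : Fin 3 → F, τ (Cfsg.hermForm 3 F q a b) = Cfsg.hermForm 3 F q b a :=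
    Cfsg.Agent.S0837.hf_conj 3 q τ hτ hτ2
  have hinv : ∀ z : Fin 3 → F, Cfsg.hermForm 3 F q z z = 1 →
      ∃ y : ↥(Cfsg.SU 3 F q), y ≠ 1 ∧ y * y = 1 ∧ IsAxis q y z := by
    intro z hz
    obtain ⟨y, hy1, hy2, hy3⟩ := exists_invol_axis hF h2 τ hτ hτ2 t ht ht2 z hz
    exact ⟨y, hy1, hy2, hz, hy3⟩
  have haxis : ∀ x : ↥(Cfsg.SU 3 F q), x ≠ 1 → x * x = 1 → ∃ w, IsAxis q x w := by
    intro x h1 h2'
    obtain ⟨w, hw, hx⟩ := su_invol_form hF h2 τ hτ hτ2 x h1 h2'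
    exact ⟨w, hw, hx⟩
  have hcomm_of : ∀ (s1 s2 : ↥(Cfsg.SU 3 F q)) (a b : Fin 3 → F), IsAxis q s1 a →
      IsAxis q s2 b → Cfsg.hermForm 3 F q a b = 0 → Commute s1 s2 := by
    intro s1 s2 a b h1 hb hab
    exact commute_of_orth s1 s2 a b h1.2 hb.2 hab (by rw [← hconj a b, hab, map_zero])
  have horth_of : ∀ (s1 s2 : ↥(Cfsg.SU 3 F q)) (a b : Fin 3 → F), IsAxis q s1 a →
      IsAxis q s2 b → Commute s1 s2 → s1 ≠ s2 → Cfsg.hermForm 3 F q a b = 0 := by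
    intro s1 s2 a b h1 hb hc hne
    exact orth_of_commute h2 τ hτ hτ2 s1 s2 a b h1.1 hb.1 h1.2 hb.2 hc hne
  have hnbr : ∀ (s1 s2 : ↥(Cfsg.SU 3 F q)) (a b : Fin 3 → F), IsAxis q s1 a → IsAxis q s2 b →
      Cfsg.hermForm 3 F q a b * Cfsg.hermForm 3 F q b a ≠ 1 →
      ∃ y : ↥(Cfsg.SU 3 F q), y ≠ 1 ∧ y * y = 1 ∧ Commute s1 y ∧ Commute y s2 := by
    intro s1 s2 a b h1 hb hne
    obtain ⟨z, hzz, haz, hbz⟩ := exists_perp hF τ hτ hτ2 a b h1.1 hb.1 hne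
    obtain ⟨y, hy1, hy2, hyz⟩ := hinv z hzz
    exact ⟨y, hy1, hy2, hcomm_of s1 y a z h1 hyz haz,
      hcomm_of y s2 z b hyz hb (by rw [← hconj b z, hbz, map_zero])⟩
  have ht_of_axis : ∀ (x : ↥(Cfsg.SU 3 F q)) (w : Fin 3 → F), IsAxis q x w →
      (∃ c : F, w = c • u) → x = t := by
    rintro x w hxw ⟨c, hc⟩
    have hcc : c * τ c = 1 := by
      have h1 := hxw.1
      rw [hc, Cfsg.Agent.S0837.hf_smul_left, Cfsg.Agent.S0837.hf_smul_right 3 q τ hτ, huu,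
        mul_one] at h1
      exact h1
    exact eq_of_axis τ hτ x t w u hxw.2 htx c hcc hc
  have haxis_t : ∀ w : Fin 3 → F, IsAxis q t w → ∃ c : F, w = c • u := by
    intro w hw
    exact ⟨_, (axis_rel h2 τ hτ t w u hw htax).1⟩
  -- class 1
  have hS1 : ∀ x : ↥(Cfsg.SU 3 F q), (x ≠ 1 ∧ x * x = 1 ∧ x ≠ t ∧ Commute t x) ↔
      (x ≠ 1 ∧ x * x = 1 ∧ ∃ w, IsAxis q x w ∧ Cfsg.hermForm 3 F q w u = 0) := by
    intro x
    constructor
    · rintro ⟨hx1, hx2, hxt, hc⟩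
      obtain ⟨w, hw⟩ := haxis x hx1 hx2
      refine ⟨hx1, hx2, w, hw, ?_⟩
      rw [← hconj u w, horth_of t x u w htax hw hc (Ne.symm hxt), map_zero]
    · rintro ⟨hx1, hx2, w, hw, hwu⟩
      refine ⟨hx1, hx2, ?_, ?_⟩
      · intro hxt
        rw [hxt] at hw
        obtain ⟨c, hc⟩ := haxis_t w hw
        have h1 := hw.1
        rw [hc, Cfsg.Agent.S0837.hf_smul_left, huu, mul_one] at hwu
        rw [hc, hwu, zero_smul, Cfsg.Agent.S0837.hf_zero_left] at h1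
        exact zero_ne_one h1
      · exact hcomm_of t x u w htax hw (by rw [← hconj w u, hwu, map_zero])
  -- class 3
  have hnotcomm : ∀ (x : ↥(Cfsg.SU 3 F q)) (w : Fin 3 → F), IsAxis q x w →
      (Cfsg.hermForm 3 F q w u * τ (Cfsg.hermForm 3 F q w u) = 1 ∧ ¬ ∃ c : F, w = c • u) →
      ¬ Commute t x := by
    rintro x w hw ⟨hN, hnc⟩ hc
    by_cases hxt : x = t
    · rw [hxt] at hw; exact hnc (haxis_t w hw)
    · have h0 := horth_of t x u w htax hw hc (Ne.symm hxt)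
      have h0' : Cfsg.hermForm 3 F q w u = 0 := by rw [← hconj u w, h0, map_zero]
      rw [h0', zero_mul] at hN
      exact zero_ne_one hN
  have hS3 : ∀ x : ↥(Cfsg.SU 3 F q), (x ≠ 1 ∧ x * x = 1 ∧ ¬ Commute t x ∧
      ∀ y : ↥(Cfsg.SU 3 F q), y ≠ 1 → y * y = 1 → ¬ (Commute t y ∧ Commute y x)) ↔
      (x ≠ 1 ∧ x * x = 1 ∧ ∃ w, IsAxis q x w ∧
        (Cfsg.hermForm 3 F q w u * τ (Cfsg.hermForm 3 F q w u) = 1 ∧ ¬ ∃ c : F, w = c • u)) := by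
    intro x
    constructor
    · rintro ⟨hx1, hx2, hnc, hall⟩
      obtain ⟨w, hw⟩ := haxis x hx1 hx2
      refine ⟨hx1, hx2, w, hw, ?_, ?_⟩
      · by_contra hne
        have hne' : Cfsg.hermForm 3 F q u w * Cfsg.hermForm 3 F q w u ≠ 1 := by
          rw [← hconj w u, mul_comm]; exact hne
        obtain ⟨y, hy1, hy2, hty, hyx⟩ := hnbr t x u w htax hw hne'
        exact hall y hy1 hy2 ⟨hty, hyx⟩
      · intro hex
        apply hnc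
        rw [ht_of_axis x w hw hex]
    · rintro ⟨hx1, hx2, w, hw, hP⟩
      have hnc := hnotcomm x w hw hP
      refine ⟨hx1, hx2, hnc, ?_⟩
      rintro y hy1 hy2 ⟨hty, hyx⟩
      obtain ⟨z, hz⟩ := haxis y hy1 hy2
      have hyt : y ≠ t := by
        intro h; rw [h] at hyx; exact hnc hyx
      have hyx' : y ≠ x := by
        intro h; rw [h] at hty; exact hnc hty
      have huz : Cfsg.hermForm 3 F q u z = 0 := horth_of t y u z htax hz hty (Ne.symm hyt)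
      have hzw : Cfsg.hermForm 3 F q z w = 0 := horth_of y x z w hz hw hyx hyx'
      obtain ⟨z1, hz1, huz1, hzz1⟩ := exists_perp hF τ hτ hτ2 u z huu hz.1
        (by rw [huz, zero_mul]; exact zero_ne_one)
      have fr2 := frame_of τ hτ hτ2 u z z1 huu hz.1 hz1 huz huz1 hzz1
      have hexp := frame_expand hF τ hτ hτ2 fr2 w
      have hwz : Cfsg.hermForm 3 F q w z = 0 := by rw [← hconj z w, hzw, map_zero]
      obtain ⟨a, ha⟩ : ∃ a, a = Cfsg.hermForm 3 F q w u := ⟨_, rfl⟩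
      obtain ⟨c, hc⟩ : ∃ c, c = Cfsg.hermForm 3 F q w z1 := ⟨_, rfl⟩
      rw [hwz, ← ha, ← hc] at hexp
      have h1 := hw.1
      rw [hexp, frame_norm τ hτ fr2] at h1
      have hN := hP.1
      rw [← ha] at hN
      have hc0 : c * τ c = 0 := by linear_combination h1 - hN
      have hc0' : c = 0 := by
        rcases mul_eq_zero.mp hc0 with h | h
        · exact h
        · exact (map_eq_zero τ).mp h
      apply hP.2
      refine ⟨a, ?_⟩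
      rw [hexp, hc0', zero_smul, zero_smul, add_zero, add_zero]
  -- counting
  have hP1 : ∀ (w : Fin 3 → F) (c : F), c * τ c = 1 → Cfsg.hermForm 3 F q w u = 0 →
      Cfsg.hermForm 3 F q (c • w) u = 0 := by
    intro w c _ h; rw [Cfsg.Agent.S0837.hf_smul_left, h, mul_zero]
  have hP3 : ∀ (w : Fin 3 → F) (c : F), c * τ c = 1 →
      (Cfsg.hermForm 3 F q w u * τ (Cfsg.hermForm 3 F q w u) = 1 ∧ ¬ ∃ c' : F, w = c' • u) →
      (Cfsg.hermForm 3 F q (c • w) u * τ (Cfsg.hermForm 3 F q (c • w) u) = 1 ∧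
        ¬ ∃ c' : F, c • w = c' • u) := by
    rintro w c hc ⟨hN, hne⟩
    have hc0 : c ≠ 0 := by
      intro h; rw [h, zero_mul] at hc; exact zero_ne_one hc
    refine ⟨?_, ?_⟩
    · rw [Cfsg.Agent.S0837.hf_smul_left, map_mul]
      linear_combination
        (Cfsg.hermForm 3 F q w u * τ (Cfsg.hermForm 3 F q w u)) * hc + hN
    · rintro ⟨c', hc'⟩
      apply hne
      refine ⟨c⁻¹ * c', ?_⟩
      rw [← smul_smul, ← hc', smul_smul, inv_mul_cancel₀ hc0, one_smul]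
  have hA1 : Nat.card {w : Fin 3 → F // Cfsg.hermForm 3 F q w w = 1 ∧
      Cfsg.hermForm 3 F q w u = 0} =
      Nat.card {x : ↥(Cfsg.SU 3 F q) // x ≠ 1 ∧ x * x = 1 ∧
        ∃ w, IsAxis q x w ∧ Cfsg.hermForm 3 F q w u = 0} * (q + 1) :=
    card_axes hF h2 τ hτ hτ2 t ht ht2 (fun w => Cfsg.hermForm 3 F q w u = 0) hP1
  have hA3 : Nat.card {w : Fin 3 → F // Cfsg.hermForm 3 F q w w = 1 ∧
      (Cfsg.hermForm 3 F q w u * τ (Cfsg.hermForm 3 F q w u) = 1 ∧ ¬ ∃ c : F, w = c • u)} =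
      Nat.card {x : ↥(Cfsg.SU 3 F q) // x ≠ 1 ∧ x * x = 1 ∧ ∃ w, IsAxis q x w ∧
        (Cfsg.hermForm 3 F q w u * τ (Cfsg.hermForm 3 F q w u) = 1 ∧ ¬ ∃ c : F, w = c • u)} *
        (q + 1) :=
    card_axes hF h2 τ hτ hτ2 t ht ht2
      (fun w => Cfsg.hermForm 3 F q w u * τ (Cfsg.hermForm 3 F q w u) = 1 ∧
        ¬ ∃ c : F, w = c • u) hP3
  rw [card_W1 hF τ hτ hτ2 fr] at hA1
  rw [card_W3 hF τ hτ hτ2 fr] at hA3
  have hc1 : Nat.card {x : ↥(Cfsg.SU 3 F q) // x ≠ 1 ∧ x * x = 1 ∧ x ≠ t ∧ Commute t x} =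
      q * (q - 1) := by
    rw [Nat.card_congr (Equiv.subtypeEquivRight hS1)]
    apply Nat.eq_of_mul_eq_mul_right (show 0 < q + 1 by omega)
    rw [← hA1, ← Cfsg.Agent.Helper7.herm_mul_sub hq2]; ring
  have hc3 : Nat.card {x : ↥(Cfsg.SU 3 F q) // x ≠ 1 ∧ x * x = 1 ∧ ¬ Commute t x ∧
      ∀ y : ↥(Cfsg.SU 3 F q), y ≠ 1 → y * y = 1 → ¬ (Commute t y ∧ Commute y x)} =
      (q + 1) * (q ^ 2 - 1) := by
    rw [Nat.card_congr (Equiv.subtypeEquivRight hS3)]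
    apply Nat.eq_of_mul_eq_mul_right (show 0 < q + 1 by omega)
    rw [← hA3]; ring
  -- class 2 by complement
  have hI := (Cfsg.Agent.S2360.result hq hF t ht ht2).2.1
  have hs1 := card_split (fun x : ↥(Cfsg.SU 3 F q) => x ≠ 1 ∧ x * x = 1) (fun x => x = t)
  have hs2 := card_split (fun x : ↥(Cfsg.SU 3 F q) => (x ≠ 1 ∧ x * x = 1) ∧ ¬ x = t)
    (fun x => Commute t x)
  have hs3 := card_split
    (fun x : ↥(Cfsg.SU 3 F q) => ((x ≠ 1 ∧ x * x = 1) ∧ ¬ x = t) ∧ ¬ Commute t x)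
    (fun x => ∃ y : ↥(Cfsg.SU 3 F q), y ≠ 1 ∧ y * y = 1 ∧ Commute t y ∧ Commute y x)
  have e0 : Nat.card {x : ↥(Cfsg.SU 3 F q) // (x ≠ 1 ∧ x * x = 1) ∧ x = t} = 1 := by
    rw [Nat.card_eq_one_iff_unique]
    exact ⟨⟨fun a b => Subtype.ext (a.2.2.trans b.2.2.symm)⟩, ⟨⟨t, ⟨ht, ht2⟩, rfl⟩⟩⟩
  have e1 : Nat.card {x : ↥(Cfsg.SU 3 F q) // ((x ≠ 1 ∧ x * x = 1) ∧ ¬ x = t) ∧ Commute t x} =
      q * (q - 1) := by
    rw [← hc1]
    exact Nat.card_congr (Equiv.subtypeEquivRight (fun x => by tauto))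
  have e2 : Nat.card {x : ↥(Cfsg.SU 3 F q) //
      (((x ≠ 1 ∧ x * x = 1) ∧ ¬ x = t) ∧ ¬ Commute t x) ∧
        ∃ y : ↥(Cfsg.SU 3 F q), y ≠ 1 ∧ y * y = 1 ∧ Commute t y ∧ Commute y x} =
      Nat.card {x : ↥(Cfsg.SU 3 F q) // x ≠ 1 ∧ x * x = 1 ∧ ¬ Commute t x ∧
        ∃ y : ↥(Cfsg.SU 3 F q), y ≠ 1 ∧ y * y = 1 ∧ Commute t y ∧ Commute y x} := by
    refine Nat.card_congr (Equiv.subtypeEquivRight (fun x => ?_))
    constructor
    · rintro ⟨⟨⟨⟨h1, h2'⟩, -⟩, h3⟩, h4⟩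
      exact ⟨h1, h2', h3, h4⟩
    · rintro ⟨h1, h2', h3, h4⟩
      exact ⟨⟨⟨⟨h1, h2'⟩, fun h => h3 (by rw [h])⟩, h3⟩, h4⟩
  have e3 : Nat.card {x : ↥(Cfsg.SU 3 F q) //
      (((x ≠ 1 ∧ x * x = 1) ∧ ¬ x = t) ∧ ¬ Commute t x) ∧
        ¬ ∃ y : ↥(Cfsg.SU 3 F q), y ≠ 1 ∧ y * y = 1 ∧ Commute t y ∧ Commute y x} =
      (q + 1) * (q ^ 2 - 1) := by
    rw [← hc3]
    refine Nat.card_congr (Equiv.subtypeEquivRight (fun x => ?_))
    constructor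
    · rintro ⟨⟨⟨⟨h1, h2'⟩, -⟩, h3⟩, h4⟩
      exact ⟨h1, h2', h3, fun y hy1 hy2 hc => h4 ⟨y, hy1, hy2, hc.1, hc.2⟩⟩
    · rintro ⟨h1, h2', h3, h4⟩
      exact ⟨⟨⟨⟨h1, h2'⟩, fun h => h3 (by rw [h])⟩, h3⟩,
        fun ⟨y, hy1, hy2, hc1', hc2'⟩ => h4 y hy1 hy2 ⟨hc1', hc2'⟩⟩
  rw [hI, e0] at hs1
  rw [e1] at hs2
  rw [e2, e3] at hs3
  have hc2 : Nat.card {x : ↥(Cfsg.SU 3 F q) // x ≠ 1 ∧ x * x = 1 ∧ ¬ Commute t x ∧
      ∃ y : ↥(Cfsg.SU 3 F q), y ≠ 1 ∧ y * y = 1 ∧ Commute t y ∧ Commute y x} =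
      q * (q - 2) * (q ^ 2 - 1) := by
    exact arith3 q _ _ _ hq3 hs1 hs2 hs3
  refine ⟨hc1, hc2, hc3, ?_⟩
  -- paths
  intro x hx1 hx2
  obtain ⟨w, hw⟩ := haxis x hx1 hx2
  by_cases hN : Cfsg.hermForm 3 F q u w * Cfsg.hermForm 3 F q w u = 1
  · obtain ⟨p1, p2, hp1, hp2, hwp1, hwp2, hp12⟩ := exists_frame hF τ hτ hτ2 w hw.1
    have fr3 := frame_of τ hτ hτ2 w p1 p2 hw.1 hp1 hp2 hwp1 hwp2 hp12
    have hexp := frame_expand hF τ hτ hτ2 fr3 u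
    obtain ⟨a, ha⟩ : ∃ a, a = Cfsg.hermForm 3 F q u w := ⟨_, rfl⟩
    obtain ⟨b, hb⟩ : ∃ b, b = Cfsg.hermForm 3 F q u p1 := ⟨_, rfl⟩
    obtain ⟨c, hc⟩ : ∃ c, c = Cfsg.hermForm 3 F q u p2 := ⟨_, rfl⟩
    rw [← ha, ← hb, ← hc] at hexp
    have h1 := huu
    rw [hexp, frame_norm τ hτ fr3] at h1
    have hN' : a * τ a = 1 := by rw [ha, hconj u w]; exact hN
    have hbc : b * τ b + c * τ c = 0 := by linear_combination h1 - hN'
    have hex : ∃ p : Fin 3 → F, Cfsg.hermForm 3 F q p p = 1 ∧ Cfsg.hermForm 3 F q w p = 0 ∧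
        Cfsg.hermForm 3 F q u p * Cfsg.hermForm 3 F q p u ≠ 1 := by
      by_cases hb1 : b * τ b = 1
      · refine ⟨p2, hp2, hwp2, ?_⟩
        rw [← hconj u p2, ← hc]
        intro hc1
        apply h2
        linear_combination hbc - hb1 - hc1
      · refine ⟨p1, hp1, hwp1, ?_⟩
        rw [← hconj u p1, ← hb]; exact hb1
    obtain ⟨p, hpp, hwp, hup⟩ := hex
    obtain ⟨z, hz1, hz2, hzp⟩ := hinv p hpp
    obtain ⟨y, hy1, hy2, hty, hyz⟩ := hnbr t z u p htax hzp hup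
    refine ⟨y, z, hy1, hy2, hz1, hz2, hty, hyz, ?_⟩
    exact hcomm_of z x p w hzp hw (by rw [← hconj w p, hwp, map_zero])
  · obtain ⟨y, hy1, hy2, hty, hyx⟩ := hnbr t x u w htax hw hN
    exact ⟨y, y, hy1, hy2, hy1, hy2, hty, Commute.refl y, hyx⟩

end Cfsg.Agent.S2356
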