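import Cfsg.Statements.S2466
import Cfsg.Agent.Helper4.CycleTypes

set_option autoImplicit false
open Cfsg

namespace Cfsg.Agent.S2466

/-- Adjacency of odd primes in the prime graph of the alternating groups: let r ≠ s be odd primes at most n. The alternating group of degree n has an element of order r·s if and only if r + s ≤ n. -/
theorem result (n r s : ℕ) (hr : r.Prime) (hs : s.Prime) (hr2 : r ≠ 2) (hs2 : s ≠ 2) (hrs : r ≠ s) (hrn : r ≤ n) (hsn : s ≤ n) :
    (r * s ∈ Set.range (orderOf : alternatingGroup (Fin n) → ℕ)) ↔ r + s ≤ n := by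
  have hcop : Nat.Coprime r s := (Nat.coprime_primes hr hs).mpr hrs
  have hrodd : Odd r := hr.odd_of_ne_two hr2
  have hsodd : Odd s := hs.odd_of_ne_two hs2
  constructor
  · rintro ⟨g, hg⟩
    obtain ⟨m, hsum, h2, -, hlcm⟩ := Helper4.alt_cycleType_data n g
    rw [hg] at hlcm
    obtain ⟨a, ha, hra⟩ := Helper4.prime_dvd_multiset_lcm hr m (hlcm ▸ dvd_mul_right r s)
    obtain ⟨b, hb, hsb⟩ := Helper4.prime_dvd_multiset_lcm hs m (hlcm ▸ dvd_mul_left s r)
    have ha2 := h2 a ha
    have hb2 := h2 b hb
    by_cases hsa : s ∣ a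
    · have h1 : r * s ∣ a := hcop.mul_dvd_of_dvd_of_dvd hra hsa
      have h3 : r * s ≤ a := Nat.le_of_dvd (by omega) h1
      have h4 : a ≤ m.sum := Multiset.le_sum_of_mem ha
      have h5 : r + s ≤ r * s := by
        have := hr.two_le
        have := hs.two_le
        nlinarith
      omega
    · have hba : b ≠ a := fun h => hsa (h ▸ hsb)
      have hb' : b ∈ m.erase a := (Multiset.mem_erase_of_ne hba).mpr hb
      have h3 : a + (m.erase a).sum = m.sum := Multiset.sum_erase ha
      have h4 : b ≤ (m.erase a).sum := Multiset.le_sum_of_mem hb'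
      have h5 : r ≤ a := Nat.le_of_dvd (by omega) hra
      have h6 : s ≤ b := Nat.le_of_dvd (by omega) hsb
      omega
  · intro h
    have hsum : (({r, s} : Multiset ℕ)).sum = r + s := by
      rw [Multiset.insert_eq_cons, Multiset.sum_cons, Multiset.sum_singleton]
    have hcard : Multiset.card ({r, s} : Multiset ℕ) = 2 := by
      rw [Multiset.insert_eq_cons, Multiset.card_cons, Multiset.card_singleton]
    have hlcm : (({r, s} : Multiset ℕ)).lcm = r * s := by
      rw [Multiset.insert_eq_cons, Multiset.lcm_cons, Multiset.lcm_singleton, normalize_eq]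
      exact hcop.lcm_eq_mul
    obtain ⟨g, hg⟩ := Helper4.exists_alt_of_cycleType n {r, s} (by rw [hsum]; exact h)
      (by
        intro a ha
        rw [Multiset.insert_eq_cons, Multiset.mem_cons, Multiset.mem_singleton] at ha
        rcases ha with rfl | rfl
        · exact hr.two_le
        · exact hs.two_le)
      (by
        rw [hsum, hcard]
        obtain ⟨k, hk⟩ := hrodd
        obtain ⟨l, hl⟩ := hsodd
        exact ⟨k + l + 2, by omega⟩)
    exact ⟨g, by rw [hg, hlcm]⟩


end Cfsg.Agent.S2466
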