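import Cfsg.Statements.S2467
import Cfsg.Agent.Helper4.CycleTypes

set_option autoImplicit false
open Cfsg

namespace Cfsg.Agent.S2467

/-- Adjacency of 2 and an odd prime in the prime graph of the alternating groups: let r be an odd prime at most n, with n ≥ 4. The alternating group of degree n has an element of order 2r if and only if r + 4 ≤ n. -/
theorem result (n r : ℕ) (hn : 4 ≤ n) (hr : r.Prime) (hr2 : r ≠ 2) (hrn : r ≤ n) :
    (2 * r ∈ Set.range (orderOf : alternatingGroup (Fin n) → ℕ)) ↔ r + 4 ≤ n := by
  have hrodd : Odd r := hr.odd_of_ne_two hr2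
  have hr3 : 3 ≤ r := by
    have := hr.two_le
    omega
  have hcop : Nat.Coprime 2 r := (Nat.coprime_primes Nat.prime_two hr).mpr (fun h => hr2 h.symm)
  constructor
  · rintro ⟨g, hg⟩
    obtain ⟨m, hsum, h2, heven, hlcm⟩ := Helper4.alt_cycleType_data n g
    rw [hg] at hlcm
    obtain ⟨a, ha, hra⟩ := Helper4.prime_dvd_multiset_lcm hr m (hlcm ▸ dvd_mul_left r 2)
    obtain ⟨b, hb, h2b⟩ := Helper4.prime_dvd_multiset_lcm Nat.prime_two m (hlcm ▸ dvd_mul_right 2 r)
    have hpar := Helper4.sum_add_card_mod_two m
    have hev : (m.sum + Multiset.card m) % 2 = 0 := Nat.even_iff.mp heven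
    have hbE : b ∈ Multiset.filter Even m := Multiset.mem_filter.mpr ⟨hb, (even_iff_two_dvd).mpr h2b⟩
    have hcardpos : 0 < Multiset.card (Multiset.filter Even m) := Multiset.card_pos_iff_exists_mem.mpr ⟨b, hbE⟩
    have hcard2 : 2 ≤ Multiset.card (Multiset.filter Even m) := by omega
    have hsplit : Multiset.filter Even m + Multiset.filter (fun x => ¬ Even x) m = m :=
      Multiset.filter_add_not Even m
    have hsumsplit : (Multiset.filter Even m).sum + (Multiset.filter (fun x => ¬ Even x) m).sum = m.sum := by
      rw [← Multiset.sum_add, hsplit]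
    have ha2 := h2 a ha
    have hra' : r ≤ a := Nat.le_of_dvd (by omega) hra
    by_cases hae : Even a
    · have haE : a ∈ Multiset.filter Even m := Multiset.mem_filter.mpr ⟨ha, hae⟩
      have h2ra : 2 * r ∣ a := hcop.mul_dvd_of_dvd_of_dvd (even_iff_two_dvd.mp hae) hra
      have h2ra' : 2 * r ≤ a := Nat.le_of_dvd (by omega) h2ra
      have h3 : a + ((Multiset.filter Even m).erase a).sum = (Multiset.filter Even m).sum :=
        Multiset.sum_erase haE
      have h4 : Multiset.card ((Multiset.filter Even m).erase a) + 1 = Multiset.card (Multiset.filter Even m) :=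
        Multiset.card_erase_add_one haE
      have h5 : Multiset.card ((Multiset.filter Even m).erase a) • 2 ≤ ((Multiset.filter Even m).erase a).sum := by
        apply Multiset.card_nsmul_le_sum
        intro x hx
        exact h2 x (Multiset.mem_of_mem_filter (Multiset.mem_of_mem_erase hx))
      rw [smul_eq_mul] at h5
      omega
    · have haO : a ∈ Multiset.filter (fun x => ¬ Even x) m := Multiset.mem_filter.mpr ⟨ha, hae⟩
      have h3 : a ≤ (Multiset.filter (fun x => ¬ Even x) m).sum := Multiset.le_sum_of_mem haO
      have h5 : Multiset.card (Multiset.filter Even m) • 2 ≤ (Multiset.filter Even m).sum := by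
        apply Multiset.card_nsmul_le_sum
        intro x hx
        exact h2 x (Multiset.mem_of_mem_filter hx)
      rw [smul_eq_mul] at h5
      omega
  · intro h
    have hsum : (({r, 2, 2} : Multiset ℕ)).sum = r + 4 := by
      rw [Multiset.insert_eq_cons, Multiset.sum_cons, Multiset.insert_eq_cons, Multiset.sum_cons,
        Multiset.sum_singleton]
    have hcard : Multiset.card ({r, 2, 2} : Multiset ℕ) = 3 := by
      rw [Multiset.insert_eq_cons, Multiset.card_cons, Multiset.insert_eq_cons, Multiset.card_cons,
        Multiset.card_singleton]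
    have hlcm : (({r, 2, 2} : Multiset ℕ)).lcm = 2 * r := by
      rw [Multiset.insert_eq_cons, Multiset.lcm_cons, Multiset.insert_eq_cons, Multiset.lcm_cons,
        Multiset.lcm_singleton, normalize_eq]
      have h22 : GCDMonoid.lcm (2 : ℕ) 2 = 2 := by
        show Nat.lcm 2 2 = 2
        exact Nat.lcm_self 2
      rw [h22]
      show Nat.lcm r 2 = 2 * r
      rw [Nat.lcm_comm]
      exact hcop.lcm_eq_mul
    obtain ⟨g, hg⟩ := Helper4.exists_alt_of_cycleType n {r, 2, 2} (by rw [hsum]; exact h)
      (by
        intro a ha
        rw [Multiset.insert_eq_cons, Multiset.mem_cons, Multiset.insert_eq_cons, Multiset.mem_cons,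
          Multiset.mem_singleton] at ha
        rcases ha with rfl | rfl | rfl
        · exact hr.two_le
        · exact le_refl 2
        · exact le_refl 2)
      (by
        rw [hsum, hcard]
        obtain ⟨k, hk⟩ := hrodd
        exact ⟨k + 4, by omega⟩)
    exact ⟨g, by rw [hg, hlcm]⟩


end Cfsg.Agent.S2467
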