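import Cfsg.Statements.S2471
import Cfsg.Agent.Helper4.SL2Orders

set_option autoImplicit false
open Cfsg

namespace Cfsg.Agent.S2471

/-- In PSL(2,q) with q odd, the characteristic p is isolated from 2 in the prime graph: for F a finite field of odd characteristic p with at least 5 elements, PSL(2,F) has no element of order 2p. -/
theorem result {F : Type*} [Field F] [Fintype F] (p : ℕ) [Fact p.Prime] [CharP F p] (hp : p ≠ 2) (h5 : 5 ≤ Fintype.card F) (g : Matrix.ProjectiveSpecialLinearGroup (Fin 2) F) :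
    orderOf g ≠ 2 * p := by
  classical
  intro hord
  have hpp : p.Prime := Fact.out
  obtain ⟨A, rfl⟩ := QuotientGroup.mk_surjective g
  have hpow : ∀ k : ℕ, (QuotientGroup.mk A : Matrix.ProjectiveSpecialLinearGroup (Fin 2) F) ^ k = 1 ↔
      A ^ k ∈ Subgroup.center (Matrix.SpecialLinearGroup (Fin 2) F) := by
    intro k
    rw [← QuotientGroup.mk_pow, QuotientGroup.eq_one_iff]
  have h1 : A ^ (2 * p) ∈ Subgroup.center (Matrix.SpecialLinearGroup (Fin 2) F) :=
    (hpow _).mp (by rw [← hord]; exact pow_orderOf_eq_one _)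
  obtain ⟨r, hr, hrA⟩ := Matrix.SpecialLinearGroup.mem_center_iff.mp h1
  rw [Fintype.card_fin] at hr
  have hA4p : (A : Matrix (Fin 2) (Fin 2) F) ^ (4 * p) = 1 := by
    have e : 4 * p = (2 * p) * 2 := by ring
    rw [e, pow_mul, ← Matrix.SpecialLinearGroup.coe_pow, ← hrA, ← map_pow, hr, map_one]
  have hlt : ∀ k : ℕ, 0 < k → k < 2 * p →
      (QuotientGroup.mk A : Matrix.ProjectiveSpecialLinearGroup (Fin 2) F) ^ k ≠ 1 := by
    intro k hk0 hk hk1
    have hd := orderOf_dvd_of_pow_eq_one hk1
    rw [hord] at hd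
    have := Nat.le_of_dvd hk0 hd
    omega
  have hp3 : 3 ≤ p := by
    have := hpp.two_le
    omega
  rcases Helper4.sl2_pow_trichotomy p (A : Matrix (Fin 2) (Fin 2) F) A.2 hA4p with h | h | h
  · apply hlt 4 (by norm_num) (by omega)
    rw [hpow]
    have e : A ^ 4 = 1 := by
      apply Subtype.ext
      rw [Matrix.SpecialLinearGroup.coe_pow]
      exact h
    rw [e]
    exact Subgroup.one_mem _
  · apply hlt p (by omega) (by omega)
    rw [hpow]
    have e : A ^ p = 1 := by
      apply Subtype.ext
      rw [Matrix.SpecialLinearGroup.coe_pow]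
      exact h
    rw [e]
    exact Subgroup.one_mem _
  · apply hlt p (by omega) (by omega)
    rw [hpow, Matrix.SpecialLinearGroup.mem_center_iff]
    refine ⟨-1, ?_, ?_⟩
    · rw [Fintype.card_fin]
      norm_num
    · rw [Matrix.SpecialLinearGroup.coe_pow, h, map_neg, map_one]


end Cfsg.Agent.S2471
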