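import Cfsg.Statements.S2514
import Mathlib

set_option autoImplicit false
open Cfsg

namespace Cfsg.Agent.S2514

theorem exists_max {X : Type*} [Group X] [Finite X] (g : X) :
    ∃ g' : X, orderOf g ∣ orderOf g' ∧ ∀ y : X, orderOf g' ∣ orderOf y → orderOf y = orderOf g' := by
  classical
  haveI := Fintype.ofFinite X
  obtain ⟨g', hg', hmax⟩ := Finset.exists_max_image
    ((Finset.univ : Finset X).filter (fun y => orderOf g ∣ orderOf y)) orderOf ⟨g, by simp⟩
  have hg'd : orderOf g ∣ orderOf g' := (Finset.mem_filter.mp hg').2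
  refine ⟨g', hg'd, fun y hy => ?_⟩
  have h1 : orderOf y ≤ orderOf g' :=
    hmax y (Finset.mem_filter.mpr ⟨Finset.mem_univ y, hg'd.trans hy⟩)
  have h2 : orderOf g' ≤ orderOf y := Nat.le_of_dvd (orderOf_pos y) hy
  exact le_antisymm h1 h2

theorem exists_ord_of_dvd {X : Type*} [Group X] [Finite X] (g : X) (d : ℕ)
    (hd : d ∣ orderOf g) : ∃ y : X, orderOf y = d := by
  refine ⟨g ^ (orderOf g / d), ?_⟩
  rw [orderOf_pow, Nat.gcd_eq_right (Nat.div_dvd_of_dvd hd),
    Nat.div_div_self hd (orderOf_pos g).ne']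

theorem caseA {G H : Type*} [Group G] [Group H] (k' : ℕ) (F : Fin (k' + 1) → G)
    (i₀ : Fin (k' + 1)) (F' : Fin k' → G) (hF' : ∀ j, F' j = F (i₀.succAbove j)) (h : H)
    (hh : orderOf h = orderOf (F i₀)) :
    orderOf F = orderOf ((F', h) : (Fin k' → G) × H) := by
  rw [orderOf_eq_orderOf_iff]
  intro n
  have h1 : F ^ n = 1 ↔ ∀ i, F i ^ n = 1 := by
    simp only [funext_iff, Pi.pow_apply, Pi.one_apply]
  have h2 : ((F', h) : (Fin k' → G) × H) ^ n = 1 ↔ (∀ j, F' j ^ n = 1) ∧ h ^ n = 1 := by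
    simp only [Prod.pow_mk, Prod.mk_eq_one, funext_iff, Pi.pow_apply, Pi.one_apply]
  have h3 : h ^ n = 1 ↔ F i₀ ^ n = 1 := by
    rw [← orderOf_dvd_iff_pow_eq_one, ← orderOf_dvd_iff_pow_eq_one, hh]
  rw [h1, h2, Fin.forall_iff_succAbove i₀, h3]
  constructor
  · rintro ⟨e1, e2⟩
    exact ⟨fun j => by rw [hF' j]; exact e2 j, e1⟩
  · rintro ⟨e1, e2⟩
    exact ⟨e2, fun j => by rw [← hF' j]; exact e1 j⟩

/-- For a finite group X write μ(X) for the set of element orders of X that are maximal under divisibility. Let G and H be finite groups and k ≥ 1 such that μ(H) ⊆ μ(G) and μ(G) has fewer than k elements outside μ(H). Then the direct product of k copies of G has the same set of element orders as the direct product of k − 1 copies of G with H. -/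
theorem result {G H : Type*} [Group G] [Finite G] [Group H] [Finite H] (k : ℕ) (hk : 1 ≤ k)
    (hsub : {n : ℕ | n ∈ Set.range (orderOf : H → ℕ) ∧ ∀ m ∈ Set.range (orderOf : H → ℕ), n ∣ m → m = n} ⊆ {n : ℕ | n ∈ Set.range (orderOf : G → ℕ) ∧ ∀ m ∈ Set.range (orderOf : G → ℕ), n ∣ m → m = n})
    (hfew : ({n : ℕ | n ∈ Set.range (orderOf : G → ℕ) ∧ ∀ m ∈ Set.range (orderOf : G → ℕ), n ∣ m → m = n} \ {n : ℕ | n ∈ Set.range (orderOf : H → ℕ) ∧ ∀ m ∈ Set.range (orderOf : H → ℕ), n ∣ m → m = n}).ncard < k) :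
    Set.range (orderOf : (Fin k → G) → ℕ) = Set.range (orderOf : (Fin (k - 1) → G) × H → ℕ) := by
  classical
  obtain ⟨k', rfl⟩ : ∃ k', k = k' + 1 := ⟨k - 1, by omega⟩
  change Set.range (orderOf : (Fin (k' + 1) → G) → ℕ) =
    Set.range (orderOf : (Fin k' → G) × H → ℕ)
  have hHG : ∀ h : H, ∃ g : G, orderOf g = orderOf h := by
    intro h
    obtain ⟨h', hd, hmax⟩ := exists_max h
    obtain ⟨⟨g₀, hg₀⟩, -⟩ := hsub ⟨⟨h', rfl⟩, by rintro m ⟨y, rfl⟩ hdvd; exact hmax y hdvd⟩
    exact exists_ord_of_dvd g₀ (orderOf h) (by rw [hg₀]; exact hd)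
  apply Set.Subset.antisymm
  · rintro _ ⟨F, rfl⟩
    choose M hMd hMmax using fun i => exists_max (F i)
    by_cases hA : ∃ i, ∃ h₀ : H, orderOf h₀ = orderOf (M i)
    · obtain ⟨i, h₀, hh₀⟩ := hA
      obtain ⟨h, hh⟩ := exists_ord_of_dvd h₀ (orderOf (F i)) (by rw [hh₀]; exact hMd i)
      exact ⟨(fun t => F (i.succAbove t), h), (caseA k' F i _ (fun t => rfl) h hh).symm⟩
    · have hninj : ¬ Function.Injective (fun i => orderOf (M i)) := by
        intro hinj
        have h3 : (Set.range (fun i => orderOf (M i))).ncard = k' + 1 := by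
          rw [← Set.image_univ, Set.ncard_image_of_injective _ hinj, Set.ncard_univ, Nat.card_fin]
        refine absurd hfew (not_lt.mpr ?_)
        rw [← h3]
        refine Set.ncard_le_ncard ?_
          ((Set.finite_range (orderOf : G → ℕ)).subset (fun n hn => hn.1.1))
        rintro _ ⟨i, rfl⟩
        exact ⟨⟨⟨M i, rfl⟩, by rintro m ⟨y, rfl⟩ hdvd; exact hMmax i y hdvd⟩,
          fun hi => hA ⟨i, hi.1⟩⟩
      have hex : ∃ i j, i ≠ j ∧ orderOf (M i) = orderOf (M j) := by
        by_contra hne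
        apply hninj
        intro i j hij
        by_contra hij'
        exact hne ⟨i, j, hij', hij⟩
      obtain ⟨i, j, hij, hMij⟩ := hex
      have hl : Nat.lcm (orderOf (F i)) (orderOf (F j)) ∣ orderOf (M i) :=
        Nat.lcm_dvd (hMd i) (by rw [hMij]; exact hMd j)
      obtain ⟨g, hg⟩ := exists_ord_of_dvd (M i) _ hl
      have hF''j : Function.update (Function.update F i g) j 1 j = 1 := Function.update_self ..
      have hF''i : Function.update (Function.update F i g) j 1 i = g := by
        rw [Function.update_of_ne hij, Function.update_self]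
      have hF''t : ∀ t, t ≠ i → t ≠ j →
          Function.update (Function.update F i g) j 1 t = F t := by
        intro t hti htj
        rw [Function.update_of_ne htj, Function.update_of_ne hti]
      obtain ⟨F'', hF''def⟩ : ∃ F'' : Fin (k' + 1) → G,
          F'' = Function.update (Function.update F i g) j 1 := ⟨_, rfl⟩
      rw [← hF''def] at hF''j hF''i hF''t
      have hord : orderOf F = orderOf F'' := by
        rw [orderOf_eq_orderOf_iff]
        intro n
        have e1 : ∀ F₁ : Fin (k' + 1) → G, F₁ ^ n = 1 ↔ ∀ t, F₁ t ^ n = 1 := fun F₁ => by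
          simp only [funext_iff, Pi.pow_apply, Pi.one_apply]
        rw [e1, e1]
        have hgn : g ^ n = 1 ↔ F i ^ n = 1 ∧ F j ^ n = 1 := by
          rw [← orderOf_dvd_iff_pow_eq_one, ← orderOf_dvd_iff_pow_eq_one,
            ← orderOf_dvd_iff_pow_eq_one, hg]
          exact Nat.lcm_dvd_iff
        constructor
        · intro hF t
          by_cases htj : t = j
          · rw [htj, hF''j, one_pow]
          · by_cases hti : t = i
            · rw [hti, hF''i]; exact hgn.mpr ⟨hF i, hF j⟩
            · rw [hF''t t hti htj]; exact hF t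
        · intro hF t
          have hg' := hgn.mp (by rw [← hF''i]; exact hF i)
          by_cases htj : t = j
          · rw [htj]; exact hg'.2
          · by_cases hti : t = i
            · rw [hti]; exact hg'.1
            · rw [← hF''t t hti htj]; exact hF t
      refine ⟨(fun t => F'' (j.succAbove t), 1), ?_⟩
      rw [hord]
      exact (caseA k' F'' j _ (fun t => rfl) 1
        (by rw [orderOf_one, hF''j, orderOf_one])).symm
  · rintro _ ⟨⟨F', h⟩, rfl⟩
    obtain ⟨g, hg⟩ := hHG h
    exact ⟨(Fin.cons g F' : Fin (k' + 1) → G),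
      caseA k' (Fin.cons g F' : Fin (k' + 1) → G) 0 F' (fun j => by simp) h
        (by rw [Fin.cons_zero]; exact hg.symm)⟩


end Cfsg.Agent.S2514
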