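import Cfsg.Statements.S2516
-- import your own Cfsg.Agent.* helpers here

set_option autoImplicit false
open Cfsg

namespace Cfsg.Agent.S2516

/-- Let F be a field of characteristic p > 0, V a non-zero finite-dimensional F-vector space, G a finite group and ρ a representation of G on V; form the semidirect product V ⋊ G. For g ∈ G of order k, the coset Vg contains an element of order pk if and only if the minimal polynomial of ρ(g) does not divide 1 + X + ⋯ + X^(k−1). -/
theorem result {F : Type*} [Field F] (p : ℕ) [Fact p.Prime] [CharP F p] {V : Type*} [AddCommGroup V] [Module F V] [FiniteDimensional F V] [Nontrivial V]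
    {G : Type*} [Group G] [Finite G] (ρ : Representation F G V) (g : G) :
    (∃ x : Multiplicative V ⋊[(MulAutMultiplicative V).symm.toMonoidHom.comp
        ((DistribMulAction.toAddAut ((V →ₗ[F] V)ˣ) V).comp ρ.asGroupHom)] G,
        x.right = g ∧ orderOf x = p * orderOf g) ↔
      ¬ (minpoly F (ρ g) ∣ ∑ i ∈ Finset.range (orderOf g), (Polynomial.X : Polynomial F) ^ i) := by
  have hp : p.Prime := Fact.out
  have hk : 0 < orderOf g := orderOf_pos g
  have hφapp : ∀ (h : G) (w : V),
      ((MulAutMultiplicative V).symm.toMonoidHom.comp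
        ((DistribMulAction.toAddAut ((V →ₗ[F] V)ˣ) V).comp ρ.asGroupHom)) h (Multiplicative.ofAdd w)
        = Multiplicative.ofAdd (ρ h w) := fun h w => rfl
  have hpow : ∀ (v : V) (n : ℕ),
      ((⟨Multiplicative.ofAdd v, g⟩ : Multiplicative V ⋊[(MulAutMultiplicative V).symm.toMonoidHom.comp
        ((DistribMulAction.toAddAut ((V →ₗ[F] V)ˣ) V).comp ρ.asGroupHom)] G)) ^ n
        = ⟨Multiplicative.ofAdd (∑ i ∈ Finset.range n, ((ρ g) ^ i) v), g ^ n⟩ := by
    intro v n
    induction n with
    | zero =>
      rw [pow_zero, pow_zero, Finset.sum_range_zero]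
      rfl
    | succ n ih =>
      rw [pow_succ', ih]
      refine SemidirectProduct.ext ?_ ?_
      · rw [SemidirectProduct.mul_left]
        show Multiplicative.ofAdd v * _ = Multiplicative.ofAdd _
        rw [hφapp, ← ofAdd_add, Finset.sum_range_succ', map_sum]
        congr 1
        rw [add_comm]
        congr 1
        apply Finset.sum_congr rfl
        intro i _
        rw [pow_succ']
        rfl
      · rw [SemidirectProduct.mul_right, pow_succ']
  have haeval : Polynomial.aeval (ρ g) (∑ i ∈ Finset.range (orderOf g), (Polynomial.X : Polynomial F) ^ i)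
      = ∑ i ∈ Finset.range (orderOf g), (ρ g) ^ i := by
    rw [map_sum]
    apply Finset.sum_congr rfl
    intro i _
    rw [map_pow, Polynomial.aeval_X]
  rw [minpoly.dvd_iff, haeval]
  constructor
  · rintro ⟨x, hxg, hord⟩ hN
    have hx : x = ⟨Multiplicative.ofAdd (Multiplicative.toAdd x.left), g⟩ := by
      refine SemidirectProduct.ext ?_ ?_
      · rfl
      · exact hxg
    have h1 : x ^ orderOf g = 1 := by
      rw [hx, hpow]
      refine SemidirectProduct.ext ?_ ?_
      · show Multiplicative.ofAdd _ = 1
        rw [← LinearMap.sum_apply, hN]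
        rfl
      · show g ^ orderOf g = 1
        exact pow_orderOf_eq_one g
    have h2 : orderOf x ∣ orderOf g := orderOf_dvd_of_pow_eq_one h1
    rw [hord] at h2
    have h3 : p * orderOf g ≤ orderOf g := Nat.le_of_dvd hk h2
    have h4 := hp.two_le
    nlinarith
  · intro hN
    have hex : ∃ v : V, (∑ i ∈ Finset.range (orderOf g), (ρ g) ^ i) v ≠ 0 := by
      by_contra hcon
      push Not at hcon
      exact hN (LinearMap.ext hcon)
    obtain ⟨v, hv⟩ := hex
    refine ⟨⟨Multiplicative.ofAdd v, g⟩, rfl, ?_⟩
    set x : Multiplicative V ⋊[(MulAutMultiplicative V).symm.toMonoidHom.comp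
        ((DistribMulAction.toAddAut ((V →ₗ[F] V)ˣ) V).comp ρ.asGroupHom)] G := ⟨Multiplicative.ofAdd v, g⟩ with hxdef
    have hxk : x ^ orderOf g = SemidirectProduct.inl (Multiplicative.ofAdd ((∑ i ∈ Finset.range (orderOf g), (ρ g) ^ i) v)) := by
      rw [hxdef, hpow]
      refine SemidirectProduct.ext ?_ ?_
      · rw [SemidirectProduct.left_inl, LinearMap.sum_apply]
      · rw [SemidirectProduct.right_inl]
        exact pow_orderOf_eq_one g
    have hxpk : x ^ (orderOf g * p) = 1 := by
      rw [pow_mul, hxk, ← map_pow, ← ofAdd_nsmul]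
      have h0 : p • ((∑ i ∈ Finset.range (orderOf g), (ρ g) ^ i) v) = 0 := by
        rw [← Nat.cast_smul_eq_nsmul F, CharP.cast_eq_zero F p, zero_smul]
      rw [h0]
      exact map_one _
    have hdvd : orderOf x ∣ orderOf g * p := orderOf_dvd_of_pow_eq_one hxpk
    have hkdvd : orderOf g ∣ orderOf x := by
      have := orderOf_map_dvd (SemidirectProduct.rightHom (φ := (MulAutMultiplicative V).symm.toMonoidHom.comp
        ((DistribMulAction.toAddAut ((V →ₗ[F] V)ˣ) V).comp ρ.asGroupHom))) x
      exact this
    obtain ⟨d, hd⟩ := hkdvd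
    rw [hd] at hdvd
    have hdp : d ∣ p := (Nat.mul_dvd_mul_iff_left hk).mp hdvd
    rcases (Nat.dvd_prime hp).mp hdp with h1 | h1
    · exfalso
      rw [h1, mul_one] at hd
      have h5 : x ^ orderOf g = 1 := by
        rw [← hd]
        exact pow_orderOf_eq_one x
      rw [hxk] at h5
      have h6 := congrArg SemidirectProduct.left h5
      rw [SemidirectProduct.left_inl, SemidirectProduct.one_left] at h6
      exact hv h6
    · rw [hd, h1, mul_comm]


end Cfsg.Agent.S2516
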