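import Cfsg.Statements.S2907
import Cfsg.Agent.Helper5.Basic

set_option autoImplicit false
open Cfsg

namespace Cfsg.Agent.S2907

/-- Let X be a finite semi-extraspecial p-group and x an element of X outside the centre. Then the index of C_X(x) in X equals the order of Z(X), and the commutators [x, y], y ∈ X, form exactly the centre Z(X). -/
theorem result {X : Type*} [Group X] [Finite X] {p : ℕ} [Fact p.Prime] (hX : Cfsg.IsSemiExtraspecial p X) (x : X) (hx : x ∉ Subgroup.center X) : (Subgroup.centralizer ({x} : Set X)).index = Nat.card ↥(Subgroup.center X) ∧ {z : X | ∃ y : X, z = x * y * x⁻¹ * y⁻¹} = (Subgroup.center X : Set X) := by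
  have hp' : p.Prime := Fact.out
  obtain ⟨⟨hp, hfr, hcomm⟩, hY⟩ := hX
  have hc : ∀ a b : X, a * b * a⁻¹ * b⁻¹ ∈ Subgroup.center X := by
    intro a b
    rw [← hcomm, commutator_def]
    exact Subgroup.commutator_mem_commutator (Subgroup.mem_top a) (Subgroup.mem_top b)
  let φ : X →* ↥(Subgroup.center X) := MonoidHom.mk' (fun y => ⟨x * y * x⁻¹ * y⁻¹, hc x y⟩) (by
    intro a b
    apply Subtype.ext
    show x * (a * b) * x⁻¹ * (a * b)⁻¹ = (x * a * x⁻¹ * a⁻¹) * (x * b * x⁻¹ * b⁻¹)
    have h1 := Subgroup.mem_center_iff.1 (hc x b) a⁻¹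
    rw [mul_assoc (x * a * x⁻¹) a⁻¹, h1]
    group)
  have hφ : ∀ y : X, ((φ y : ↥(Subgroup.center X)) : X) = x * y * x⁻¹ * y⁻¹ := fun y => rfl
  have hsurj : φ.range = ⊤ := by
    by_contra hne
    obtain ⟨C, hC, hIC⟩ := (eq_top_or_exists_le_coatom φ.range).resolve_left hne
    have hYZ : C.map (Subgroup.center X).subtype ≤ Subgroup.center X := Subgroup.map_subtype_le C
    have hYC : (C.map (Subgroup.center X).subtype).subgroupOf (Subgroup.center X) = C :=
      Subgroup.comap_map_eq_self_of_injective (Subgroup.center X).subtype_injective C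
    obtain ⟨hYn, hes⟩ := hY (C.map (Subgroup.center X).subtype) hYZ (hYC.symm ▸ hC)
    obtain ⟨-, hcard⟩ := hes
    have hmemY : ∀ y : X, x * y * x⁻¹ * y⁻¹ ∈ C.map (Subgroup.center X).subtype := by
      intro y
      have h2 : φ y ∈ C := hIC ⟨y, rfl⟩
      exact ⟨φ y, h2, rfl⟩
    generalize C.map (Subgroup.center X).subtype = Y at hYZ hYC hYn hcard hmemY
    have hxc : (QuotientGroup.mk' Y x) ∈ Subgroup.center (X ⧸ Y) := by
      rw [Subgroup.mem_center_iff]
      intro g
      obtain ⟨y, rfl⟩ := QuotientGroup.mk'_surjective Y g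
      rw [← map_mul, ← map_mul]
      apply (QuotientGroup.eq).2
      have hz := Subgroup.mem_center_iff.1 (hc x y) (y * x)
      have e : (y * x)⁻¹ * (x * y) = x * y * x⁻¹ * y⁻¹ := by
        calc (y * x)⁻¹ * (x * y) = (y * x)⁻¹ * ((x * y * x⁻¹ * y⁻¹) * (y * x)) := by group
          _ = (y * x)⁻¹ * ((y * x) * (x * y * x⁻¹ * y⁻¹)) := by rw [hz]
          _ = x * y * x⁻¹ * y⁻¹ := by group
      rw [e]
      exact hmemY y
    have hle : (Subgroup.center X).map (QuotientGroup.mk' Y) ≤ Subgroup.center (X ⧸ Y) := by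
      rintro _ ⟨z, hz, rfl⟩
      rw [Subgroup.mem_center_iff]
      intro g
      obtain ⟨y, rfl⟩ := QuotientGroup.mk'_surjective Y g
      rw [← map_mul, ← map_mul, Subgroup.mem_center_iff.1 hz y]
    have hne1 : (Subgroup.center X).map (QuotientGroup.mk' Y) ≠ ⊥ := by
      intro h
      rw [Subgroup.map_eq_bot_iff, QuotientGroup.ker_mk'] at h
      apply hC.1
      rw [← hYC, Subgroup.subgroupOf_eq_top]
      exact h
    have heq : (Subgroup.center X).map (QuotientGroup.mk' Y) = Subgroup.center (X ⧸ Y) := by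
      apply Subgroup.eq_of_le_of_card_ge hle
      have h1 : Nat.card ((Subgroup.center X).map (QuotientGroup.mk' Y)) ∣
          Nat.card (Subgroup.center (X ⧸ Y)) := Subgroup.card_dvd_of_le hle
      rw [hcard] at h1 ⊢
      rcases (Nat.dvd_prime hp').1 h1 with h | h
      · exfalso; exact hne1 (Subgroup.card_eq_one.1 h)
      · exact h.ge
    rw [← heq] at hxc
    obtain ⟨z, hz, hzx⟩ := hxc
    have h3 : z⁻¹ * x ∈ Y := QuotientGroup.eq.1 hzx
    apply hx
    have e : x = z * (z⁻¹ * x) := by group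
    rw [e]
    exact Subgroup.mul_mem _ hz (hYZ h3)
  constructor
  · have hker : φ.ker = Subgroup.centralizer ({x} : Set X) := by
      ext y
      rw [MonoidHom.mem_ker, Cfsg.Agent.Helper5.mem_centralizer_singleton_iff]
      constructor
      · intro h
        have h1 : x * y * x⁻¹ * y⁻¹ = 1 := congrArg Subtype.val h
        calc y * x = (x * y * x⁻¹ * y⁻¹)⁻¹ * (x * y) := by group
          _ = x * y := by rw [h1]; simp
      · intro h
        apply Subtype.ext
        show x * y * x⁻¹ * y⁻¹ = 1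
        rw [← h]; group
    rw [← hker, Subgroup.index_ker, hsurj]
    exact Subgroup.card_top
  · ext z
    constructor
    · rintro ⟨y, rfl⟩; exact hc x y
    · intro hz
      have h1 : (⟨z, hz⟩ : Subgroup.center X) ∈ φ.range := hsurj ▸ Subgroup.mem_top _
      obtain ⟨y, hy⟩ := h1
      exact ⟨y, (congrArg Subtype.val hy).symm⟩

end Cfsg.Agent.S2907
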