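import Cfsg.Statements.S2910
import Mathlib
import Cfsg.Agent.Helper6.Coprime
-- import your own Cfsg.Agent.* helpers here

set_option autoImplicit false
open Cfsg

namespace Cfsg.Agent.S2910

/-- Let p be an odd prime dividing the order of the finite group G and P a Sylow p-subgroup of G. If Ω₁(P) (generated by the elements of order dividing p) is contained in the centre of G, then G has a normal p-complement. In particular, if G is quasisimple then Ω₁(P) is not central in G. -/
theorem result {G : Type*} [Group G] [Finite G] {p : ℕ} [Fact p.Prime] (hp : p ≠ 2) (hdiv : p ∣ Nat.card G) (P : Sylow p G) (hZ : Cfsg.omegaOne p (P : Subgroup G) ≤ Subgroup.center G) : Cfsg.HasNormalPComplement p G ∧ ¬ Cfsg.IsQuasisimple G := by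
  have hF : Cfsg.Agent.Helper6.FrobCond p G := by
    intro X hX g hg hcop
    apply Cfsg.Agent.Helper6.centralizes_of_centralizes_omega g hcop _ X rfl hX hg
    intro a ha hord
    rcases hord with h1 | ⟨h2, _⟩
    · obtain ⟨h, hh⟩ := Cfsg.Agent.Lead.exists_conj_mem_sylow P hX
      have h3 : h * a * h⁻¹ ∈ Cfsg.omegaOne p (P : Subgroup G) :=
        Subgroup.subset_closure ⟨hh a ha, by rw [conj_pow, h1]; group⟩
      have h4 := Subgroup.mem_center_iff.mp (hZ h3)
      have h5 : a = h * a * h⁻¹ := by
        calc a = (h⁻¹ * (h * a * h⁻¹)) * h := by group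
          _ = ((h * a * h⁻¹) * h⁻¹) * h := by rw [h4 h⁻¹]
          _ = h * a * h⁻¹ := by group
      have h6 : a ∈ Subgroup.center G := by rw [h5]; exact hZ h3
      rw [Subgroup.mem_center_iff.mp h6 g, mul_inv_cancel_right]
    · exact absurd h2 hp
  refine ⟨Cfsg.Agent.Helper6.hasNormalPComplement_of_frobCond hF, ?_⟩
  intro hq
  obtain ⟨K, hKn, hKc, hKpow⟩ := Cfsg.Agent.Helper6.exists_isNPC_of_frobCond (Nat.card G) G rfl hF
  have := hKn
  have hperf : Group.IsPerfect G := hq.1
  have hQ : IsPGroup p (G ⧸ K) := by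
    intro x
    obtain ⟨g, rfl⟩ := QuotientGroup.mk_surjective x
    obtain ⟨k, hk⟩ := hKpow g
    exact ⟨k, by rw [← QuotientGroup.mk_pow]; exact (QuotientGroup.eq_one_iff _).mpr hk⟩
  have hKtop : K ≠ ⊤ := by
    intro h0
    rw [h0, Subgroup.card_top] at hKc
    exact (Nat.Prime.coprime_iff_not_dvd Fact.out).mp hKc.symm hdiv
  have hnt : Nontrivial (G ⧸ K) := QuotientGroup.nontrivial_iff.mpr hKtop
  have hnil : Group.IsNilpotent (G ⧸ K) := hQ.isNilpotent
  exact Group.IsPerfect.not_isNilpotent (G ⧸ K) hnil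

end Cfsg.Agent.S2910
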