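import Mathlib
import Cfsg.Prelude.Def_SylowControl
import Cfsg.Agent.Helper5.Sylow2

namespace Cfsg.Agent.S2940

/-- Let S be a Sylow p-subgroup of the finite group G and G₁, G₂ subgroups containing S with G = G₁G₂. Then for every g ∈ G there is a Sylow p-subgroup U of G with S ∩ S^g ≤ U ≤ G₁ ∩ G₂^g (conjugates taken as X^g = g⁻¹Xg). -/
theorem result {G : Type*} [Group G] [Finite G] {p : ℕ} [Fact p.Prime] (S : Sylow p G) (G₁ G₂ : Subgroup G) (h1 : (S : Subgroup G) ≤ G₁) (h2 : (S : Subgroup G) ≤ G₂) (hfact : ∀ g : G, ∃ g₁ ∈ G₁, ∃ g₂ ∈ G₂, g = g₁ * g₂) (g : G) : ∃ U : Sylow p G, (S : Subgroup G) ⊓ Cfsg.subgroupConjRight g (S : Subgroup G) ≤ (U : Subgroup G) ∧ (U : Subgroup G) ≤ G₁ ⊓ Cfsg.subgroupConjRight g G₂ := by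
  obtain ⟨a, ha, b, hb, hab⟩ := hfact g⁻¹
  have hg : g = b⁻¹ * a⁻¹ := by
    have : g = (g⁻¹)⁻¹ := by simp
    rw [this, hab]; simp
  have hP : ((a • S : Sylow p G) : Subgroup G) ≤ G₁ ⊓ Cfsg.subgroupConjRight g G₂ := by
    intro x hx
    rw [Sylow.coe_subgroup_smul] at hx
    obtain ⟨s, hs, rfl⟩ := hx
    refine Subgroup.mem_inf.2 ⟨?_, ?_⟩
    · show a * s * a⁻¹ ∈ G₁
      exact G₁.mul_mem (G₁.mul_mem ha (h1 hs)) (G₁.inv_mem ha)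
    · refine ⟨b⁻¹ * s * b, G₂.mul_mem (G₂.mul_mem (G₂.inv_mem hb) (h2 hs)) hb, ?_⟩
      show g⁻¹ * (b⁻¹ * s * b) * g⁻¹⁻¹ = a * s * a⁻¹
      rw [hg]; group
  have hR : (S : Subgroup G) ⊓ Cfsg.subgroupConjRight g (S : Subgroup G)
      ≤ G₁ ⊓ Cfsg.subgroupConjRight g G₂ :=
    inf_le_inf h1 (Subgroup.map_mono h2)
  exact Helper5.exists_sylow_between (a • S) _ _ hP hR (S.2.to_le inf_le_left)

end Cfsg.Agent.S2940
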