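import Mathlib
import Cfsg.Prelude.Def_SylowChains
import Cfsg.Agent.Helper5.SylCtrl

namespace Cfsg.Agent.S2955

/-- Let p be a prime dividing the order of the finite group G and 𝓕 a conjugation-closed family of subgroups that controls Sylow p-intersections in G. Suppose the Sylow p-subgroups of G are chain-connected: any two of them are joined by a chain of Sylow p-subgroups, consecutive ones distinct with nontrivial intersection, all containing the intersection of the two ends (equivalently, the graph on the Sylow p-subgroups whose edges are the distinct pairs meeting nontrivially is connected). Then for every Sylow p-subgroup S, G is generated by N_G(S) together with the members of 𝓕 that meet S in a Sylow p-subgroup of themselves. -/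
theorem result {G : Type*} [Group G] [Finite G] (p : ℕ) [Fact p.Prime] (hdiv : p ∣ Nat.card G)
    (𝓕 : Set (Subgroup G)) (h𝓕 : Cfsg.IsNormalSet 𝓕) (hc : Cfsg.ControlsSylowIntersections p 𝓕)
    (hconn : Cfsg.IsSylowChainConnected p G) (S : Sylow p G) :
    (⨆ X ∈ Cfsg.sylowMembers p 𝓕 (S : Subgroup G), X) ⊔ Subgroup.normalizer ((S : Subgroup G) : Set G) = ⊤ := by
  set L := (⨆ X ∈ Cfsg.sylowMembers p 𝓕 (S : Subgroup G), X) ⊔
    Subgroup.normalizer ((S : Subgroup G) : Set G) with hL
  have hmemL : ∀ X ∈ Cfsg.sylowMembers p 𝓕 (S : Subgroup G), X ≤ L :=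
    fun X hX => (le_biSup (fun X => X) hX).trans le_sup_left
  have hstep : ∀ A B : Sylow p G,
      (∃ l ∈ L, Cfsg.subgroupConjRight l (S : Subgroup G) = (A : Subgroup G)) → A ≠ B →
      (A : Subgroup G) ⊓ B ≠ ⊥ → ∃ l ∈ L, Cfsg.subgroupConjRight l (S : Subgroup G) = (B : Subgroup G) := by
    intro A B hA hAB hne
    obtain ⟨n, c, X, x, h0, hl, hc'⟩ := hc A B hAB hne
    have key : ∀ i : Fin (n + 1), ∃ l ∈ L,
        Cfsg.subgroupConjRight l (S : Subgroup G) = (c i : Subgroup G) := by
      intro i
      induction i using Fin.induction with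
      | zero => rw [h0]; exact hA
      | succ j ih =>
        obtain ⟨l, hlL, hl⟩ := ih
        obtain ⟨hX1, -, hxX, hconj, -⟩ := hc' j
        have hY : Cfsg.subgroupConjRight l⁻¹ (X j) ∈ Cfsg.sylowMembers p 𝓕 (S : Subgroup G) := by
          have := Helper5.sylowMembers_conj 𝓕 h𝓕 _ _ l⁻¹ hX1
          rw [← hl, Helper5.subgroupConjRight_mul, mul_inv_cancel,
            Helper5.subgroupConjRight_one] at this
          exact this
        have hxL : x j ∈ L := by
          have h1 : l * x j * l⁻¹ ∈ Cfsg.subgroupConjRight l⁻¹ (X j) := by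
            rw [Helper5.subgroupConjRight_def, inv_inv]
            exact Helper5.conj_mem_conj _ _ _ hxX
          have h2 := hmemL _ hY h1
          have : x j = l⁻¹ * (l * x j * l⁻¹) * l := by group
          rw [this]
          exact L.mul_mem (L.mul_mem (L.inv_mem hlL) h2) hlL
        refine ⟨l * (x j)⁻¹, L.mul_mem hlL (L.inv_mem hxL), ?_⟩
        rw [← Helper5.subgroupConjRight_mul, hl, ← hconj, Helper5.subgroupConjRight_mul,
          mul_inv_cancel, Helper5.subgroupConjRight_one]
    have := key (Fin.last n)
    rwa [hl] at this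
  have hall : ∀ T : Sylow p G, ∃ l ∈ L,
      Cfsg.subgroupConjRight l (S : Subgroup G) = (T : Subgroup G) := by
    intro T
    have := (Helper5.sylowChainConnected_iff.1 hconn) S T
    induction this with
    | refl => exact ⟨1, L.one_mem, Helper5.subgroupConjRight_one _⟩
    | @tail b c _ hbc ih =>
      by_cases hbc' : b = c
      · rw [← hbc']; exact ih
      · exact hstep b c ih hbc' hbc
  rw [eq_top_iff]
  intro g _
  obtain ⟨l, hlL, hl⟩ := hall (g • S)
  rw [Sylow.coe_subgroup_smul] at hl
  have hl' : (S : Subgroup G).map (MulAut.conj l⁻¹).toMonoidHom =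
      (S : Subgroup G).map (MulAut.conj g).toMonoidHom := hl
  have h1 : (S : Subgroup G).map (MulAut.conj (l * g)).toMonoidHom = (S : Subgroup G) := by
    rw [← Helper5.conj_conj, ← hl', Helper5.conj_conj, mul_inv_cancel, Helper5.conj_one]
  have h2 : l * g ∈ L := le_sup_right (a := ⨆ X ∈ Cfsg.sylowMembers p 𝓕 (S : Subgroup G), X)
    ((Helper5.mem_normalizer_iff_conj_eq _ _).2 h1)
  have : g = l⁻¹ * (l * g) := by group
  rw [this]; exact L.mul_mem (L.inv_mem hlL) h2

end Cfsg.Agent.S2955
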