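import Cfsg.Statements.S2958

set_option autoImplicit false
open Cfsg

namespace Cfsg.Agent.S2958

theorem mem_conj {G : Type*} [Group G] (X : Subgroup G) (g y : G) :
    y ∈ X.map (MulAut.conj g).toMonoidHom ↔ g⁻¹ * y * g ∈ X := by
  constructor
  · rintro ⟨x, hx, rfl⟩
    simpa [mul_assoc] using hx
  · intro h
    exact ⟨g⁻¹ * y * g, h, by simp [mul_assoc]⟩

/-- Let X, A, B be subgroups of a group G such that G is generated by the conjugates of X and every conjugate of X is contained in A or in B. Then A = G or B = G. -/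
theorem result {G : Type*} [Group G] (X A B : Subgroup G) (hgen : (⨆ g : G, X.map (MulAut.conj g).toMonoidHom) = ⊤) (hcover : ∀ g : G, X.map (MulAut.conj g).toMonoidHom ≤ A ∨ X.map (MulAut.conj g).toMonoidHom ≤ B) : A = ⊤ ∨ B = ⊤ := by
  by_cases hall : ∀ g : G, X.map (MulAut.conj g).toMonoidHom ≤ A
  · left
    rw [eq_top_iff, ← hgen]
    exact iSup_le hall
  · right
    push_neg at hall
    obtain ⟨g₀, hg₀⟩ := hall
    set N : Subgroup G := ⨆ g : {g : G // ¬ X.map (MulAut.conj g).toMonoidHom ≤ A},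
      X.map (MulAut.conj (g : G)).toMonoidHom with hN
    have hNB : N ≤ B := by
      refine iSup_le ?_
      rintro ⟨g, hg⟩
      exact (hcover g).resolve_left hg
    -- conjugation by y ∈ X^h maps N into N
    have hconj : ∀ h : G, ∀ y ∈ X.map (MulAut.conj h).toMonoidHom,
        N.map (MulAut.conj y).toMonoidHom ≤ N := by
      intro h y hy
      by_cases hh : X.map (MulAut.conj h).toMonoidHom ≤ A
      · have hyA : y ∈ A := hh hy
        rw [hN, Subgroup.map_iSup]
        refine iSup_le ?_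
        rintro ⟨g, hg⟩
        have hyg : ¬ X.map (MulAut.conj (y * g)).toMonoidHom ≤ A := by
          intro hle
          apply hg
          intro z hz
          have : y * z * y⁻¹ ∈ X.map (MulAut.conj (y * g)).toMonoidHom := by
            rw [mem_conj] at hz ⊢
            have e : (y * g)⁻¹ * (y * z * y⁻¹) * (y * g) = g⁻¹ * z * g := by group
            rw [e]; exact hz
          have h2 := hle this
          have e2 : z = y⁻¹ * (y * z * y⁻¹) * y := by group
          rw [e2]
          exact A.mul_mem (A.mul_mem (A.inv_mem hyA) h2) hyA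
        have hmap : (X.map (MulAut.conj g).toMonoidHom).map (MulAut.conj y).toMonoidHom =
            X.map (MulAut.conj (y * g)).toMonoidHom := by
          rw [Subgroup.map_map]
          congr 1
          ext z
          simp [mul_assoc]
        show (X.map (MulAut.conj g).toMonoidHom).map (MulAut.conj y).toMonoidHom ≤ N
        rw [hmap]
        exact le_iSup (fun g : {g : G // ¬ X.map (MulAut.conj g).toMonoidHom ≤ A} =>
          X.map (MulAut.conj (g : G)).toMonoidHom) ⟨y * g, hyg⟩
      · have hyN : y ∈ N :=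
          (le_iSup (fun g : {g : G // ¬ X.map (MulAut.conj g).toMonoidHom ≤ A} =>
            X.map (MulAut.conj (g : G)).toMonoidHom) ⟨h, hh⟩) hy
        rintro _ ⟨n, hn, rfl⟩
        show y * n * y⁻¹ ∈ N
        exact N.mul_mem (N.mul_mem hyN hn) (N.inv_mem hyN)
    -- the set of elements conjugating N into N is a subgroup containing all conjugates
    let M : Subgroup G :=
      { carrier := {y | N.map (MulAut.conj y).toMonoidHom ≤ N ∧ N.map (MulAut.conj y⁻¹).toMonoidHom ≤ N}
        one_mem' := by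
          constructor
          · rintro _ ⟨n, hn, rfl⟩; simpa using hn
          · rintro _ ⟨n, hn, rfl⟩; simpa using hn
        mul_mem' := by
          rintro a b ⟨ha1, ha2⟩ ⟨hb1, hb2⟩
          constructor
          · rintro _ ⟨n, hn, rfl⟩
            have h1 : b * n * b⁻¹ ∈ N := hb1 ⟨n, hn, by simp⟩
            have h2 : a * (b * n * b⁻¹) * a⁻¹ ∈ N := ha1 ⟨_, h1, by simp⟩
            have e : (MulAut.conj (a * b)).toMonoidHom n = a * (b * n * b⁻¹) * a⁻¹ := by
              simp [mul_assoc]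
            rw [e]; exact h2
          · rintro _ ⟨n, hn, rfl⟩
            have h1 : a⁻¹ * n * a⁻¹⁻¹ ∈ N := ha2 ⟨n, hn, by simp⟩
            have h2 : b⁻¹ * (a⁻¹ * n * a⁻¹⁻¹) * b⁻¹⁻¹ ∈ N := hb2 ⟨_, h1, by simp⟩
            have e : (MulAut.conj (a * b)⁻¹).toMonoidHom n = b⁻¹ * (a⁻¹ * n * a⁻¹⁻¹) * b⁻¹⁻¹ := by
              simp [mul_assoc]
            rw [e]; exact h2
        inv_mem' := by
          rintro a ⟨ha1, ha2⟩
          refine ⟨ha2, ?_⟩
          rw [inv_inv]; exact ha1 }
    have hM : M = ⊤ := by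
      rw [eq_top_iff, ← hgen]
      refine iSup_le ?_
      intro h y hy
      refine ⟨hconj h y hy, hconj h y⁻¹ (inv_mem hy)⟩
    have hNtop : N = ⊤ := by
      rw [eq_top_iff, ← hgen]
      refine iSup_le ?_
      intro g y hy
      -- y ∈ X^g, X^g = (X^g₀)^(g g₀⁻¹)
      have hm : g * g₀⁻¹ ∈ M := by rw [hM]; trivial
      have h1 : (g * g₀⁻¹)⁻¹ * y * (g * g₀⁻¹) ∈ X.map (MulAut.conj g₀).toMonoidHom := by
        rw [mem_conj] at hy ⊢
        have e : g₀⁻¹ * ((g * g₀⁻¹)⁻¹ * y * (g * g₀⁻¹)) * g₀ = g⁻¹ * y * g := by group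
        rw [e]; exact hy
      have h2 : (g * g₀⁻¹)⁻¹ * y * (g * g₀⁻¹) ∈ N :=
        (le_iSup (fun g : {g : G // ¬ X.map (MulAut.conj g).toMonoidHom ≤ A} =>
            X.map (MulAut.conj (g : G)).toMonoidHom) ⟨g₀, hg₀⟩) h1
      have h3 := hm.1 ⟨_, h2, rfl⟩
      have e : (MulAut.conj (g * g₀⁻¹)).toMonoidHom ((g * g₀⁻¹)⁻¹ * y * (g * g₀⁻¹)) = y := by
        simp [mul_assoc]
      rw [e] at h3
      exact h3
    rw [eq_top_iff, ← hNtop]
    exact hNB

end Cfsg.Agent.S2958
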