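import Mathlib.GroupTheory.Sylow
import Cfsg.Prelude.Def_Solvable
import Cfsg.Agent.Helper5.AxB

namespace Cfsg.Agent.S2960

open Cfsg.Agent.Helper5 in
/-- Let G be a finite group of characteristic p (C_G(O_p(G)) ≤ O_p(G)), p prime, T a Sylow p-subgroup of G and Q a normal subgroup of T with C_T(Q) ≤ Q. Then C_G(Q) ≤ Q. -/
theorem result {G : Type*} [Group G] [Finite G] {p : ℕ} [Fact p.Prime] (hG : Subgroup.centralizer (Cfsg.pCore p G : Set G) ≤ Cfsg.pCore p G) (T : Sylow p G) (Q : Subgroup G) (hQT : Q ≤ (T : Subgroup G)) (hQn : (T : Subgroup G) ≤ Subgroup.normalizer (Q : Set G)) (hC : (T : Subgroup G) ⊓ Subgroup.centralizer (Q : Set G) ≤ Q) : Subgroup.centralizer (Q : Set G) ≤ Q := by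
  have hPT : Cfsg.pCore p G ≤ (T : Subgroup G) := pCore_le_sylow T
  have hPp : IsPGroup p (Cfsg.pCore p G) := pCore_isPGroup
  have hPn : Subgroup.normalizer ((Cfsg.pCore p G : Subgroup G) : Set G) = ⊤ :=
    Subgroup.normalizer_eq_top_iff.2 (pCore_normal p G)
  have hQp : IsPGroup p Q := T.2.to_le hQT
  have hCp : IsPGroup p (Subgroup.centralizer (Q : Set G)) := by
    apply isPGroup_of_coprime_elements_trivial
    intro y hy hcop
    have hyQ := Subgroup.mem_centralizer_iff.1 hy
    have h1 : ∀ a ∈ Cfsg.pCore p G, y * a = a * y := by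
      apply thompson_AxB y hcop Q hQp (fun b hb => (hyQ b hb).symm) _ (Cfsg.pCore p G) rfl hPp
      · rw [hPn]; exact Subgroup.mem_top _
      · rw [hPn]; exact le_top
      · intro a ha hab
        have haQ : a ∈ Q := hC ⟨hPT ha, Subgroup.mem_centralizer_iff.2 (fun b hb => (hab b hb).symm)⟩
        exact (hyQ a haQ).symm
    have hyP : y ∈ Cfsg.pCore p G :=
      hG (Subgroup.mem_centralizer_iff.2 (fun a ha => (h1 a ha).symm))
    exact eq_one_of_pow_coprime _ hPp (orderOf y) hcop y hyP (pow_orderOf_eq_one y)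
  have hTC : (T : Subgroup G) ≤ Subgroup.normalizer
      ((Subgroup.centralizer (Q : Set G) : Subgroup G) : Set G) :=
    hQn.trans (normalizer_le_normalizer_centralizer Q)
  have hsup : IsPGroup p (Subgroup.centralizer (Q : Set G) ⊔ (T : Subgroup G) : Subgroup G) :=
    IsPGroup.to_sup_of_normal_left' hCp T.2 hTC
  have heq := T.3 hsup le_sup_right
  have hCT : Subgroup.centralizer (Q : Set G) ≤ (T : Subgroup G) := by
    rw [← heq]; exact le_sup_left
  intro x hx
  exact hC ⟨hCT hx, hx⟩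

end Cfsg.Agent.S2960
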