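import Cfsg.Statements.S2961
import Cfsg.Agent.S2960
import Cfsg.Agent.Helper5.CharP
import Cfsg.Agent.Helper4.StrClosed

set_option autoImplicit false
open Cfsg

namespace Cfsg.Agent.S2961

/-- Let G be a finite group of characteristic p (C_G(O_p(G)) ≤ O_p(G)), p prime, T a Sylow p-subgroup of G and Q a normal subgroup of T with C_T(Q) ≤ Q. Then every subgroup L of G containing Q has characteristic p: C_L(O_p(L)) ≤ O_p(L). -/
theorem result {G : Type*} [Group G] [Finite G] {p : ℕ} [Fact p.Prime] (hG : Subgroup.centralizer (Cfsg.pCore p G : Set G) ≤ Cfsg.pCore p G) (T : Sylow p G) (Q : Subgroup G) (hQT : Q ≤ (T : Subgroup G)) (hQn : (T : Subgroup G) ≤ Subgroup.normalizer (Q : Set G)) (hC : (T : Subgroup G) ⊓ Subgroup.centralizer (Q : Set G) ≤ Q) (L : Subgroup G) (hQL : Q ≤ L) : Subgroup.centralizer (Cfsg.pCore p ↥L : Set ↥L) ≤ Cfsg.pCore p ↥L := by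
  classical
  have hpp : p.Prime := Fact.out
  have hCQ : Subgroup.centralizer (Q : Set G) ≤ Q := Cfsg.Agent.S2960.result hG T Q hQT hQn hC
  rw [Cfsg.Agent.Helper5.charP_iff]
  have hRn : (Cfsg.pCore p G).Normal := Cfsg.Agent.Helper5.pCore_normal p G
  have hRp : IsPGroup p (Cfsg.pCore p G) := Cfsg.Agent.Helper5.pCore_isPGroup
  have hRT : Cfsg.pCore p G ≤ (T : Subgroup G) := Cfsg.Agent.Helper5.pCore_le_sylow T
  have hDL : (Cfsg.pCore p ↥L).map L.subtype ≤ L := Cfsg.Agent.Helper5.pCoreMap_le p L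
  have hDp : IsPGroup p ((Cfsg.pCore p ↥L).map L.subtype) := Cfsg.Agent.Helper5.pCoreMap_isPGroup L
  have hLD : L ≤ Subgroup.normalizer (((Cfsg.pCore p ↥L).map L.subtype : Subgroup G) : Set G) :=
    Cfsg.Agent.Helper5.le_normalizer_pCoreMap p L
  generalize hRdef : Cfsg.pCore p G = R at hG hRn hRp hRT
  generalize hDdef : (Cfsg.pCore p ↥L).map L.subtype = D at hDL hDp hLD
  have hle : ∀ N : Subgroup G, N ≤ L → L ≤ Subgroup.normalizer (N : Set G) → IsPGroup p N → N ≤ D := by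
    intro N h1 h2 h3
    rw [← hDdef]
    exact Cfsg.Agent.Helper5.le_pCoreMap L N h1 h2 h3
  have hRLconj : ∀ l ∈ L, ∀ b ∈ R ⊓ L, l * b * l⁻¹ ∈ R ⊓ L := by
    intro l hl b hb
    exact Subgroup.mem_inf.mpr ⟨hRn.conj_mem b (Subgroup.mem_inf.mp hb).1 l,
      L.mul_mem (L.mul_mem hl (Subgroup.mem_inf.mp hb).2) (L.inv_mem hl)⟩
  have hRLD : R ⊓ L ≤ D := by
    apply hle (R ⊓ L) inf_le_right _ (hRp.to_le inf_le_left)
    intro l hl
    apply Subgroup.mem_normalizer_fintype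
    intro b hb
    exact hRLconj l hl b hb
  have hEconj : ∀ l ∈ L, ∀ e ∈ L ⊓ Subgroup.centralizer (D : Set G),
      l * e * l⁻¹ ∈ L ⊓ Subgroup.centralizer (D : Set G) := by
    intro l hl e he
    obtain ⟨heL, heC⟩ := Subgroup.mem_inf.mp he
    refine Subgroup.mem_inf.mpr ⟨L.mul_mem (L.mul_mem hl heL) (L.inv_mem hl), ?_⟩
    rw [Subgroup.mem_centralizer_iff] at heC ⊢
    intro d hd
    have hd' : l⁻¹ * d * l ∈ D := by
      have h4 := (Subgroup.mem_normalizer_iff.mp (hLD (L.inv_mem hl)) d).mp hd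
      rwa [inv_inv] at h4
    have h5 := heC _ hd'
    calc d * (l * e * l⁻¹) = l * ((l⁻¹ * d * l) * e) * l⁻¹ := by group
      _ = l * (e * (l⁻¹ * d * l)) * l⁻¹ := by rw [h5]
      _ = l * e * l⁻¹ * d := by group
  generalize hEdef : L ⊓ Subgroup.centralizer (D : Set G) = E at hEconj
  have hEL : E ≤ L := by rw [← hEdef]; exact inf_le_left
  have hED : ∀ e ∈ E, ∀ d ∈ D, d * e = e * d := by
    intro e he d hd
    rw [← hEdef] at he
    exact Subgroup.mem_centralizer_iff.mp (Subgroup.mem_inf.mp he).2 d hd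
  have hEcent : ∀ e ∈ E, ∀ b ∈ R ⊓ L, e * b * e⁻¹ = b := by
    intro e he b hb
    have h1 := hED e he b (hRLD hb)
    rw [← h1]; group
  have hnormR : ∀ x : G, x ∈ Subgroup.normalizer (R : Set G) := by
    intro x
    rw [Subgroup.normalizer_eq_top_iff.mpr hRn]; exact Subgroup.mem_top _
  -- the p-subgroup M
  have hMp : IsPGroup p (E ⊓ Cfsg.Agent.Helper4.stabChain R (R ⊓ L) : Subgroup G) := by
    obtain ⟨j, hj⟩ := IsPGroup.iff_card.mp (hRp.to_le (inf_le_left : R ⊓ L ≤ R))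
    rintro ⟨w, hw⟩
    have h1 := Cfsg.Agent.Helper4.stabChain_pow_mem_centralizer R (R ⊓ L) w (Subgroup.mem_inf.mp hw).2
    have h2 : w ^ Nat.card (R ⊓ L : Subgroup G) ∈ R := hG h1
    obtain ⟨k, hk⟩ := hRp ⟨_, h2⟩
    refine ⟨j + k, ?_⟩
    apply Subtype.ext
    have h3 := congrArg Subtype.val hk
    rw [Subgroup.coe_pow, Subgroup.coe_one] at h3
    rw [Subgroup.coe_pow, Subgroup.coe_one]
    simp only at h3 ⊢
    rw [hj, ← pow_mul, ← pow_add] at h3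
    exact h3
  have hMconj : ∀ l ∈ L, ∀ w ∈ E ⊓ Cfsg.Agent.Helper4.stabChain R (R ⊓ L),
      l * w * l⁻¹ ∈ E ⊓ Cfsg.Agent.Helper4.stabChain R (R ⊓ L) := by
    intro l hl w hw
    obtain ⟨hwE, hwS⟩ := Subgroup.mem_inf.mp hw
    obtain ⟨_, hwu, hwb⟩ := (Cfsg.Agent.Helper4.mem_stabChain R (R ⊓ L) w).mp hwS
    refine Subgroup.mem_inf.mpr ⟨hEconj l hl w hwE, ?_⟩
    refine (Cfsg.Agent.Helper4.mem_stabChain R (R ⊓ L) _).mpr ⟨hnormR _, fun u hu => ?_, fun a ha => ?_⟩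
    · have hu' : l⁻¹ * u * l ∈ R := by
        have h0 := hRn.conj_mem u hu l⁻¹
        rwa [inv_inv] at h0
      have h1 := hRLconj l hl _ (hwu _ hu')
      have h2 : l * (w * (l⁻¹ * u * l) * w⁻¹ * (l⁻¹ * u * l)⁻¹) * l⁻¹
          = l * w * l⁻¹ * u * (l * w * l⁻¹)⁻¹ * u⁻¹ := by group
      rwa [h2] at h1
    · have ha' : l⁻¹ * a * l ∈ R ⊓ L := by
        have h0 := hRLconj l⁻¹ (L.inv_mem hl) a ha
        rwa [inv_inv] at h0
      have h7 : l * w * l⁻¹ * a * (l * w * l⁻¹)⁻¹ = l * (w * (l⁻¹ * a * l) * w⁻¹) * l⁻¹ := by group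
      rw [h7, hwb _ ha']; group
  have hMD : E ⊓ Cfsg.Agent.Helper4.stabChain R (R ⊓ L) ≤ D := by
    apply hle _ (inf_le_left.trans hEL) _ hMp
    intro l hl
    apply Subgroup.mem_normalizer_fintype
    intro w hw
    exact hMconj l hl w hw
  have hQR : ∀ q ∈ Q, ∀ r ∈ R, q * r * q⁻¹ * r⁻¹ ∈ R ⊓ L := by
    intro q hq r hr
    refine Subgroup.mem_inf.mpr ⟨R.mul_mem (hRn.conj_mem r hr q) (R.inv_mem hr), ?_⟩
    have h1 : r * q⁻¹ * r⁻¹ ∈ Q :=
      (Subgroup.mem_normalizer_iff.mp (hQn (hRT hr)) q⁻¹).mp (Q.inv_mem hq)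
    have h2 : q * r * q⁻¹ * r⁻¹ = q * (r * q⁻¹ * r⁻¹) := by group
    rw [h2]; exact hQL (Q.mul_mem hq h1)
  have hcomm : ∀ y ∈ E, ∀ q ∈ Q,
      y * q * y⁻¹ * q⁻¹ ∈ E ⊓ Cfsg.Agent.Helper4.stabChain R (R ⊓ L) := by
    intro y hy q hq
    have hyL : y ∈ L := hEL hy
    have hqL : q ∈ L := hQL hq
    have hwE : y * q * y⁻¹ * q⁻¹ ∈ E := by
      have h1 : q * y⁻¹ * q⁻¹ ∈ E := hEconj q hqL y⁻¹ (E.inv_mem hy)
      have h2 : y * q * y⁻¹ * q⁻¹ = y * (q * y⁻¹ * q⁻¹) := by group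
      rw [h2]; exact E.mul_mem hy h1
    refine Subgroup.mem_inf.mpr ⟨hwE, ?_⟩
    refine (Cfsg.Agent.Helper4.mem_stabChain R (R ⊓ L) _).mpr
      ⟨hnormR _, fun r hr => ?_, fun a ha => hEcent _ hwE a ha⟩
    have hA : y * q * y⁻¹ ∈ L := L.mul_mem (L.mul_mem hyL hqL) (L.inv_mem hyL)
    have h1 : q⁻¹ * (q * r * q⁻¹ * r⁻¹)⁻¹ * q ∈ R ⊓ L := by
      have h0 := hRLconj q⁻¹ (L.inv_mem hqL) _ ((R ⊓ L).inv_mem (hQR q hq r hr))
      rwa [inv_inv] at h0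
    have h2 := hRLconj _ hA _ h1
    have hr' : y⁻¹ * r * y ∈ R := by
      have h0 := hRn.conj_mem r hr y⁻¹
      rwa [inv_inv] at h0
    have h3 := hRLconj y hyL _ (hQR q hq _ hr')
    have h4 := (R ⊓ L).mul_mem h2 h3
    have h5 : (y * q * y⁻¹) * (q⁻¹ * (q * r * q⁻¹ * r⁻¹)⁻¹ * q) * (y * q * y⁻¹)⁻¹ *
        (y * (q * (y⁻¹ * r * y) * q⁻¹ * (y⁻¹ * r * y)⁻¹) * y⁻¹)
        = (y * q * y⁻¹ * q⁻¹) * r * (y * q * y⁻¹ * q⁻¹)⁻¹ * r⁻¹ := by group
    rwa [h5] at h4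
  have hpreg : ∀ y ∈ E, (orderOf y).Coprime p → y = 1 := by
    intro y hy hcop
    have hyC : y ∈ Subgroup.centralizer (Q : Set G) := by
      rw [Subgroup.mem_centralizer_iff]
      intro q hq
      have hwD : y * q * y⁻¹ * q⁻¹ ∈ D := hMD (hcomm y hy q hq)
      have hyw : (y * q * y⁻¹ * q⁻¹) * y = y * (y * q * y⁻¹ * q⁻¹) := hED y hy _ hwD
      have h1 : q * y * q⁻¹ = (y * q * y⁻¹ * q⁻¹)⁻¹ * y := by group
      have hcomm' : Commute (y * q * y⁻¹ * q⁻¹)⁻¹ y := Commute.inv_left hyw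
      have h2 : (q * y * q⁻¹) ^ orderOf y = 1 := by
        rw [conj_pow, pow_orderOf_eq_one]; group
      rw [h1, hcomm'.mul_pow, pow_orderOf_eq_one, mul_one, inv_pow, inv_eq_one] at h2
      obtain ⟨k, hk⟩ := hDp ⟨_, hwD⟩
      have h4 : (y * q * y⁻¹ * q⁻¹) ^ p ^ k = 1 := by
        have h0 := congrArg Subtype.val hk
        rw [Subgroup.coe_pow, Subgroup.coe_one] at h0
        exact h0
      have h5 : orderOf (y * q * y⁻¹ * q⁻¹) ∣ Nat.gcd (orderOf y) (p ^ k) :=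
        Nat.dvd_gcd (orderOf_dvd_of_pow_eq_one h2) (orderOf_dvd_of_pow_eq_one h4)
      have h6 : Nat.gcd (orderOf y) (p ^ k) = 1 := Nat.Coprime.pow_right k hcop
      rw [h6, Nat.dvd_one, orderOf_eq_one_iff] at h5
      have h7 : y * q * y⁻¹ = q := mul_inv_eq_one.mp h5
      have h8 : y * q = q * y := mul_inv_eq_iff_eq_mul.mp h7
      exact h8.symm
    have hyQ : y ∈ Q := hCQ hyC
    obtain ⟨k, hk⟩ := (T.isPGroup'.to_le hQT) ⟨y, hyQ⟩
    have h4 : y ^ p ^ k = 1 := by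
      have h0 := congrArg Subtype.val hk
      rw [Subgroup.coe_pow, Subgroup.coe_one] at h0
      exact h0
    have h5 : orderOf y ∣ Nat.gcd (orderOf y) (p ^ k) :=
      Nat.dvd_gcd dvd_rfl (orderOf_dvd_of_pow_eq_one h4)
    have h6 : Nat.gcd (orderOf y) (p ^ k) = 1 := Nat.Coprime.pow_right k hcop
    rw [h6, Nat.dvd_one, orderOf_eq_one_iff] at h5
    exact h5
  have hEp : IsPGroup p E := by
    rintro ⟨y, hy⟩
    obtain ⟨a, m, hm, hord⟩ := Nat.exists_eq_pow_mul_and_not_dvd (orderOf_pos y).ne' p hpp.ne_one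
    refine ⟨a, ?_⟩
    apply Subtype.ext
    rw [Subgroup.coe_pow, Subgroup.coe_one]
    apply hpreg _ (E.pow_mem hy _)
    have h1 : (y ^ p ^ a) ^ m = 1 := by rw [← pow_mul, ← hord, pow_orderOf_eq_one]
    have h2 : orderOf (y ^ p ^ a) ∣ m := orderOf_dvd_of_pow_eq_one h1
    exact Nat.Coprime.coprime_dvd_left h2 ((Nat.Prime.coprime_iff_not_dvd hpp).mpr hm).symm
  apply hle E hEL _ hEp
  intro l hl
  apply Subgroup.mem_normalizer_fintype
  intro e he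
  exact hEconj l hl e he

end Cfsg.Agent.S2961
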