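import Mathlib.GroupTheory.Sylow
import Cfsg.Agent.Helper5.StrEmb3

namespace Cfsg.Agent.S2998

open Cfsg.Agent.Helper5 in
/-- Let G be a finite group, p a prime, P a Sylow p-subgroup of G and x ∈ P an element such that N_G(R) ≤ C_G(x) for every nontrivial subgroup R of P. Then P ≤ C_G(x); every G-conjugate of x lying in P equals x (so g ∈ C_G(x) whenever g x g⁻¹ ∈ P); and for every normal subgroup N of G, the image of x in G ⧸ N has the same property with respect to the image of P: the normalizer of every nontrivial subgroup of the image of P centralizes the image of x. -/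
theorem result {G : Type*} [Group G] [Finite G] {p : ℕ} [Fact p.Prime] (P : Sylow p G) (x : G) (hxP : x ∈ (P : Subgroup G)) (hlc : ∀ R : Subgroup G, R ≤ (P : Subgroup G) → R ≠ ⊥ → Subgroup.normalizer (R : Set G) ≤ Subgroup.centralizer ({x} : Set G)) : (P : Subgroup G) ≤ Subgroup.centralizer ({x} : Set G) ∧ (∀ g : G, g * x * g⁻¹ ∈ (P : Subgroup G) → g * x * g⁻¹ = x) ∧ ∀ (N : Subgroup G) [N.Normal], ∀ R : Subgroup (G ⧸ N), R ≤ (P : Subgroup G).map (QuotientGroup.mk' N) → R ≠ ⊥ → Subgroup.normalizer (R : Set (G ⧸ N)) ≤ Subgroup.centralizer ({(QuotientGroup.mk x : G ⧸ N)} : Set (G ⧸ N)) := by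
  have h1 : (P : Subgroup G) ≤ Subgroup.centralizer ({x} : Set G) := by
    by_cases hP : (P : Subgroup G) = ⊥
    · rw [hP]; exact bot_le
    · exact Subgroup.le_normalizer.trans (hlc P le_rfl hP)
  refine ⟨h1, ?_, ?_⟩
  · intro g hg
    by_cases hx1 : x = 1
    · subst hx1; simp
    have hy1 : g * x * g⁻¹ ≠ 1 := by
      intro h
      apply hx1
      have e : x = g⁻¹ * (g * x * g⁻¹) * g := by group
      rw [e, h]; group
    have hPne : (P : Subgroup G) ≠ ⊥ := by
      intro h
      apply hx1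
      have := hxP
      rwa [h, Subgroup.mem_bot] at this
    have hz : Subgroup.zpowers (g * x * g⁻¹) ≤ (P : Subgroup G) := by
      rw [Subgroup.zpowers_le]; exact hg
    have hzne : Subgroup.zpowers (g * x * g⁻¹) ≠ ⊥ := by
      rw [Ne, Subgroup.zpowers_eq_bot]; exact hy1
    have hCy : Subgroup.centralizer {g * x * g⁻¹} ≤ Subgroup.centralizer ({x} : Set G) :=
      (centralizer_singleton_le_normalizer_zpowers _).trans (hlc _ hz hzne)
    have hgP : (P : Subgroup G).map (MulAut.conj g).toMonoidHom ≤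
        Subgroup.centralizer ({x} : Set G) := by
      refine le_trans ?_ hCy
      rintro _ ⟨u, hu, rfl⟩
      refine (mem_centralizer_singleton_iff _ _).2 ?_
      have hux := (mem_centralizer_singleton_iff x u).1 (h1 hu)
      show g * u * g⁻¹ * (g * x * g⁻¹) = g * x * g⁻¹ * (g * u * g⁻¹)
      calc g * u * g⁻¹ * (g * x * g⁻¹) = g * (u * x) * g⁻¹ := by group
        _ = g * (x * u) * g⁻¹ := by rw [hux]
        _ = g * x * g⁻¹ * (g * u * g⁻¹) := by group
    obtain ⟨c, hc, hcP⟩ := exists_conj_le_sylow_in_subgroup P _ h1 _ hgP (isPGroup_conj _ P.2 g)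
    have hn : c⁻¹ * g ∈ Subgroup.normalizer ((P : Subgroup G) : Set G) := by
      apply mem_normalizer_of_conj_le
      rw [← conj_conj, conj_le_iff, inv_inv]
      exact hcP
    have h2 : c⁻¹ * g ∈ Subgroup.centralizer ({x} : Set G) := hlc P le_rfl hPne hn
    have h3 : g ∈ Subgroup.centralizer ({x} : Set G) := by
      have e : g = c * (c⁻¹ * g) := by group
      rw [e]; exact Subgroup.mul_mem _ hc h2
    have h4 := (mem_centralizer_singleton_iff x g).1 h3
    rw [h4]; group
  · intro N hN R hRP hRne gbar hg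
    obtain ⟨g, rfl⟩ := QuotientGroup.mk_surjective gbar
    have hR₀ne : R.comap (QuotientGroup.mk' N) ⊓ (P : Subgroup G) ≠ ⊥ := by
      intro h0
      apply hRne
      rw [eq_bot_iff]
      intro r hr
      obtain ⟨u, huP, rfl⟩ := hRP hr
      have hu : u ∈ R.comap (QuotientGroup.mk' N) ⊓ (P : Subgroup G) := ⟨hr, huP⟩
      rw [h0, Subgroup.mem_bot] at hu
      rw [hu]; simp
    have hconjR : ∀ u : G, (QuotientGroup.mk' N) u ∈ R → (QuotientGroup.mk' N) (g * u * g⁻¹) ∈ R := by
      intro u hu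
      have := (Subgroup.mem_normalizer_iff.1 hg (QuotientGroup.mk' N u)).1 hu
      simpa using this
    have hQ : (R.comap (QuotientGroup.mk' N) ⊓ (P : Subgroup G)).map (MulAut.conj g).toMonoidHom ≤
        N ⊔ (P : Subgroup G) := by
      rintro _ ⟨u, hu, rfl⟩
      have h2 := hconjR u hu.1
      obtain ⟨a, haP, ha⟩ := hRP h2
      have h3 : a⁻¹ * (g * u * g⁻¹) ∈ N := QuotientGroup.eq.1 ha
      have e : g * u * g⁻¹ = a * (a⁻¹ * (g * u * g⁻¹)) := by group
      show g * u * g⁻¹ ∈ N ⊔ (P : Subgroup G)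
      rw [e]; exact Subgroup.mul_mem _ (le_sup_right (a := N) haP) (le_sup_left (b := (P : Subgroup G)) h3)
    obtain ⟨h, hh, hle⟩ := exists_conj_le_sylow_in_subgroup P (N ⊔ (P : Subgroup G)) le_sup_right _ hQ
      (isPGroup_conj _ (P.2.to_le inf_le_right) g)
    obtain ⟨n, hn, a, ha, rfl⟩ : ∃ n ∈ N, ∃ a ∈ (P : Subgroup G), n * a = h := by
      have h5 := hh
      rw [← SetLike.mem_coe, Subgroup.normal_mul] at h5
      exact Set.mem_mul.1 h5
    have hle' : (R.comap (QuotientGroup.mk' N) ⊓ (P : Subgroup G)).map (MulAut.conj g).toMonoidHom ≤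
        (P : Subgroup G).map (MulAut.conj n).toMonoidHom := by
      rw [← conj_conj, (mem_normalizer_iff_conj_eq (P : Subgroup G) a).1 (Subgroup.le_normalizer ha)] at hle
      exact hle
    have hn1 : (QuotientGroup.mk' N) n = 1 := (QuotientGroup.eq_one_iff n).2 hn
    have hnorm : n⁻¹ * g ∈ Subgroup.normalizer
        ((R.comap (QuotientGroup.mk' N) ⊓ (P : Subgroup G) : Subgroup G) : Set G) := by
      apply mem_normalizer_of_conj_le
      rintro _ ⟨u, hu, rfl⟩
      show n⁻¹ * g * u * (n⁻¹ * g)⁻¹ ∈ R.comap (QuotientGroup.mk' N) ⊓ (P : Subgroup G)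
      constructor
      · show (QuotientGroup.mk' N) (n⁻¹ * g * u * (n⁻¹ * g)⁻¹) ∈ R
        have h6 := hconjR u hu.1
        have e : (QuotientGroup.mk' N) (n⁻¹ * g * u * (n⁻¹ * g)⁻¹) = (QuotientGroup.mk' N) (g * u * g⁻¹) := by
          simp only [map_mul, map_inv, hn1]
          group
        rw [e]; exact h6
      · have h3 := hle' (conj_mem_conj _ g u hu)
        rw [mem_conj_iff] at h3
        have e : n⁻¹ * g * u * (n⁻¹ * g)⁻¹ = n⁻¹ * (g * u * g⁻¹) * n := by group
        rw [e]; exact h3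
    have hcent := (mem_centralizer_singleton_iff _ _).1 (hlc _ inf_le_right hR₀ne hnorm)
    refine (mem_centralizer_singleton_iff _ _).2 ?_
    have h7 := congrArg (QuotientGroup.mk' N) hcent
    simp only [map_mul, map_inv, hn1] at h7
    simpa using h7

end Cfsg.Agent.S2998
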