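import Cfsg.Statements.S3011
import Mathlib
import Cfsg.Agent.Helper6.BaerSuzuki
-- import your own Cfsg.Agent.* helpers here

set_option autoImplicit false
open Cfsg

namespace Cfsg.Agent.S3011


theorem odd_sq_eq_one {G : Type*} [Group G] {x : G} (ho : Odd (orderOf x)) (h2 : x * x = 1) : x = 1 := by
  have h1 : orderOf x ∣ 2 := orderOf_dvd_of_pow_eq_one (by rw [pow_two]; exact h2)
  have h3 : orderOf x = 1 := by
    rcases (Nat.dvd_prime Nat.prime_two).mp h1 with h | h
    · exact h
    · rw [h] at ho; exact absurd ho (by decide)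
  exact orderOf_eq_one_iff.mp h3

theorem commute_of_sq_commute {G : Type*} [Group G] {h k : G} (ho : Odd (orderOf h))
    (hc : Commute (h * h) k) : Commute h k := by
  obtain ⟨j, hj⟩ := ho
  have h1 : h = (h * h) ^ (j + 1) := by
    rw [← pow_two, ← pow_mul]
    have : 2 * (j + 1) = orderOf h + 1 := by omega
    rw [this, pow_succ, pow_orderOf_eq_one, one_mul]
  rw [h1]
  exact hc.pow_left _

theorem odd_orderOf_sq {G : Type*} [Group G] {h : G} (ho : Odd (orderOf h)) : Odd (orderOf (h * h)) := by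
  rw [← pow_two]
  exact Odd.of_dvd_nat ho (orderOf_pow_dvd 2)

theorem sidki_four_aux {G : Type*} [Group G] (V : Subgroup G) (hS : Cfsg.IsSidkiPair V)
    (a b : G) (ha : a ∈ V) (hb : b ∈ V)
    (hV4 : ∀ w ∈ V, w = 1 ∨ w = a ∨ w = b ∨ w = a * b)
    (h k : G) (hho : Odd (orderOf h)) (hko : Odd (orderOf k)) (hh1 : h ≠ 1) (hk1 : k ≠ 1)
    (hah : a * h * a⁻¹ = h⁻¹) (hbh : b * h = h * b) (hak : a * k = k * a)
    (hbk : b * k * b⁻¹ = k⁻¹) : False := by
  have Ah : MulAut.conj a h = h⁻¹ := by rw [MulAut.conj_apply]; exact hah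
  have Ak : MulAut.conj a k = k := by rw [MulAut.conj_apply, hak, mul_inv_cancel_right]
  have Bh : MulAut.conj b h = h := by rw [MulAut.conj_apply, hbh, mul_inv_cancel_right]
  have Bk : MulAut.conj b k = k⁻¹ := by rw [MulAut.conj_apply]; exact hbk
  have Ch : MulAut.conj (a * b) h = h⁻¹ := by rw [map_mul, MulAut.mul_apply, Bh, Ah]
  have Ck : MulAut.conj (a * b) k = k⁻¹ := by rw [map_mul, MulAut.mul_apply, Bk, map_inv, Ak]
  have sid : ∀ (v : G), v ∈ V → ∀ x : G, Odd (orderOf x) → MulAut.conj v x = x⁻¹ →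
      ∃ w ∈ V, w ≠ 1 ∧ MulAut.conj w x = x := by
    intro v hv x hxo hbx
    obtain ⟨w, hw, hw1, hwx⟩ := hS x v hv hxo (by rw [← MulAut.conj_apply]; exact hbx)
    exact ⟨w, hw, hw1, by rw [MulAut.conj_apply, hwx, mul_inv_cancel_right]⟩
  have sidb : ∀ x : G, Odd (orderOf x) → x ≠ 1 → MulAut.conj b x = x⁻¹ →
      MulAut.conj a x = x ∨ MulAut.conj (a * b) x = x := by
    intro x hxo hx1 hbx
    obtain ⟨w, hw, hw1, hwc⟩ := sid b hb x hxo hbx
    rcases hV4 w hw with rfl | rfl | rfl | rfl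
    · exact absurd rfl hw1
    · left; exact hwc
    · exfalso; apply hx1; apply odd_sq_eq_one hxo
      have : x = x⁻¹ := by rw [← hbx, hwc]
      exact mul_eq_one_iff_eq_inv.mpr this
    · right; exact hwc
  have hcomm : Commute h k := by
    by_contra hne
    have hl_ord : orderOf (h⁻¹ * k * h) = orderOf k := by
      have := Cfsg.Agent.Lead.orderOf_conj_eq h⁻¹ k
      rwa [inv_inv] at this
    have hl1 : h⁻¹ * k * h ≠ 1 := by
      intro h0
      apply hk1
      calc k = h * (h⁻¹ * k * h) * h⁻¹ := by group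
        _ = 1 := by rw [h0]; group
    have hBl : MulAut.conj b (h⁻¹ * k * h) = (h⁻¹ * k * h)⁻¹ := by
      rw [map_mul, map_mul, map_inv, Bh, Bk]; group
    have hCl : MulAut.conj (a * b) (h⁻¹ * k * h) = h⁻¹ * k * h := by
      rcases sidb _ (by rw [hl_ord]; exact hko) hl1 hBl with h0 | h0
      · exfalso
        rw [map_mul, map_mul, map_inv, Ah, Ak, inv_inv] at h0
        apply hne
        apply commute_of_sq_commute hho
        show h * h * k = k * (h * h)
        calc h * h * k = h * (h * k * h⁻¹) * h := by group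
          _ = h * (h⁻¹ * k * h) * h := by rw [h0]
          _ = k * (h * h) := by group
      · exact h0
    have hm_ord : orderOf (h⁻¹ * (h⁻¹ * k * h) * h) = orderOf k := by
      have := Cfsg.Agent.Lead.orderOf_conj_eq h⁻¹ (h⁻¹ * k * h)
      rw [inv_inv] at this
      rw [this, hl_ord]
    have hm1 : h⁻¹ * (h⁻¹ * k * h) * h ≠ 1 := by
      intro h0
      apply hk1
      calc k = h * h * (h⁻¹ * (h⁻¹ * k * h) * h) * h⁻¹ * h⁻¹ := by group
        _ = 1 := by rw [h0]; group
    have hBm : MulAut.conj b (h⁻¹ * (h⁻¹ * k * h) * h) = (h⁻¹ * (h⁻¹ * k * h) * h)⁻¹ := by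
      rw [map_mul, map_mul, map_inv, hBl, Bh]; simp [mul_assoc]
    rcases sidb _ (by rw [hm_ord]; exact hko) hm1 hBm with h0 | h0
    · rw [map_mul, map_mul, map_mul, map_mul, map_inv, Ah, Ak, inv_inv] at h0
      apply hne
      apply commute_of_sq_commute hho
      apply commute_of_sq_commute (odd_orderOf_sq hho)
      show h * h * (h * h) * k = k * (h * h * (h * h))
      calc h * h * (h * h) * k = h * h * (h * (h * k * h⁻¹) * h⁻¹) * h * h := by group
        _ = h * h * (h⁻¹ * (h⁻¹ * k * h) * h) * h * h := by rw [h0]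
        _ = k * (h * h * (h * h)) := by group
    · rw [map_mul, map_mul, map_inv, Ch, hCl, inv_inv] at h0
      have h2 : Commute h (h⁻¹ * k * h) := by
        apply commute_of_sq_commute hho
        show h * h * (h⁻¹ * k * h) = (h⁻¹ * k * h) * (h * h)
        calc h * h * (h⁻¹ * k * h) = h * (h * (h⁻¹ * k * h) * h⁻¹) * h := by group
          _ = h * (h⁻¹ * (h⁻¹ * k * h) * h) * h := by rw [h0]
          _ = (h⁻¹ * k * h) * (h * h) := by group
      apply hne
      show h * k = k * h
      have h3 : h * (h⁻¹ * k * h) = (h⁻¹ * k * h) * h := h2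
      calc h * k = h * (h * (h⁻¹ * k * h)) * h⁻¹ := by group
        _ = h * ((h⁻¹ * k * h) * h) * h⁻¹ := by rw [h3]
        _ = k * h := by group
  have hhk : h * k = k * h := hcomm
  have hyo : Odd (orderOf (h * k)) := by
    have h1 : orderOf (h * k) ∣ orderOf h * orderOf k :=
      (hcomm.orderOf_mul_dvd_lcm).trans (Nat.lcm_dvd_mul _ _)
    exact Odd.of_dvd_nat (hho.mul hko) h1
  have hCy : MulAut.conj (a * b) (h * k) = (h * k)⁻¹ := by
    rw [map_mul, Ch, Ck, hhk, mul_inv_rev]
  obtain ⟨w, hw, hw1, hwc⟩ := sid (a * b) (V.mul_mem ha hb) (h * k) hyo hCy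
  rcases hV4 w hw with rfl | rfl | rfl | rfl
  · exact hw1 rfl
  · rw [map_mul, Ah, Ak] at hwc
    have h1 : h⁻¹ = h := mul_right_cancel hwc
    exact hh1 (odd_sq_eq_one hho (mul_eq_one_iff_eq_inv.mpr h1.symm))
  · rw [map_mul, Bh, Bk] at hwc
    have h1 : k⁻¹ = k := mul_left_cancel hwc
    exact hk1 (odd_sq_eq_one hko (mul_eq_one_iff_eq_inv.mpr h1.symm))
  · rw [hCy] at hwc
    have h1 : h * k = 1 := odd_sq_eq_one hyo (mul_eq_one_iff_eq_inv.mpr hwc.symm)
    have h2 : k = h⁻¹ := (mul_eq_one_iff_eq_inv'.mp h1)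
    rw [h2, map_inv, Ah, inv_inv] at Ak
    exact hh1 (odd_sq_eq_one hho (mul_eq_one_iff_eq_inv.mpr Ak))

/-- Let G be a finite group and V a nontrivial elementary abelian 2-subgroup of G of order at most 4 such that, whenever an element of V inverts an element h of G of odd order, some nontrivial element of V commutes with h. Then V meets O₂(G) nontrivially. (The case of order at most 4 has a short argument from the Baer–Suzuki theorem.) -/
theorem result {G : Type*} [Group G] [Finite G] (V : Subgroup G) (hV : Cfsg.IsElementaryAbelian 2 V) (hV1 : V ≠ ⊥) (hS : Cfsg.IsSidkiPair V) (h4 : Nat.card V ≤ 4) : V ⊓ Cfsg.pCore 2 G ≠ ⊥ := by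
  classical
  intro hbot
  obtain ⟨hVc, hV2⟩ := hV
  haveI : Fact (Nat.Prime 2) := ⟨Nat.prime_two⟩
  have hord : ∀ v ∈ V, v ≠ 1 → orderOf v = 2 := by
    intro v hv hv1
    exact orderOf_eq_prime (hV2 v hv) hv1
  have hnot : ∀ v ∈ V, v ≠ 1 → v ∉ Cfsg.pCore 2 G := by
    intro v hv hv1 hc
    have : v ∈ V ⊓ Cfsg.pCore 2 G := ⟨hv, hc⟩
    rw [hbot] at this
    exact hv1 (Subgroup.mem_bot.mp this)
  have key : ∀ v ∈ V, v ≠ 1 → ∃ h : G, h ≠ 1 ∧ Odd (orderOf h) ∧ v * h * v⁻¹ = h⁻¹ ∧
      ∃ w ∈ V, w ≠ 1 ∧ w ≠ v ∧ w * h = h * w := by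
    intro v hv hv1
    obtain ⟨h, hh1, hho, hinv⟩ :=
      Cfsg.Agent.Helper6.involution_inverts_odd v (hord v hv hv1) (hnot v hv hv1)
    obtain ⟨w, hw, hw1, hwh⟩ := hS h v hv hho hinv
    refine ⟨h, hh1, hho, hinv, w, hw, hw1, ?_, hwh⟩
    rintro rfl
    apply hh1
    apply odd_sq_eq_one hho
    have : h = h⁻¹ := by rw [← hinv, hwh, mul_inv_cancel_right]
    exact mul_eq_one_iff_eq_inv.mpr this
  obtain ⟨a, ha, ha1⟩ : ∃ a ∈ V, a ≠ 1 := by
    by_contra hcon
    push Not at hcon
    apply hV1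
    rw [Subgroup.eq_bot_iff_forall]
    exact hcon
  obtain ⟨h₁, hh1, hho1, hinv1, b, hb, hb1, hba, hbh1⟩ := key a ha ha1
  have hsq : ∀ x ∈ V, x * x = 1 := fun x hx => by rw [← pow_two]; exact hV2 x hx
  have hV4 : ∀ w ∈ V, w = 1 ∨ w = a ∨ w = b ∨ w = a * b := by
    intro w hw
    by_contra hcon
    push Not at hcon
    obtain ⟨hw1, hwa, hwb, hwab⟩ := hcon
    have hab1 : a * b ≠ 1 := by
      intro h0
      apply hba
      have h1 : a = b⁻¹ := mul_eq_one_iff_eq_inv.mp h0
      have h2 : b = b⁻¹ := mul_eq_one_iff_eq_inv.mp (hsq b hb)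
      rw [h2, h1]
    have haab : a * b ≠ a := by
      intro h0; exact hb1 (by simpa using h0)
    have hbab : a * b ≠ b := by
      intro h0; exact ha1 (by simpa using h0)
    have hsub : ((({1, a, b, a * b, w} : Finset G)) : Set G) ⊆ (V : Set G) := by
      intro x hx
      simp only [Finset.coe_insert, Finset.coe_singleton, Set.mem_insert_iff,
        Set.mem_singleton_iff] at hx
      rcases hx with rfl | rfl | rfl | rfl | rfl
      · exact V.one_mem
      · exact ha
      · exact hb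
      · exact V.mul_mem ha hb
      · exact hw
    have hcard : ({1, a, b, a * b, w} : Finset G).card = 5 := by
      rw [Finset.card_insert_of_notMem, Finset.card_insert_of_notMem,
        Finset.card_insert_of_notMem, Finset.card_insert_of_notMem, Finset.card_singleton]
      · simp only [Finset.mem_singleton]; exact fun h0 => hwab h0.symm
      · simp only [Finset.mem_insert, Finset.mem_singleton]
        rintro (h0 | h0)
        · exact hbab h0.symm
        · exact hwb h0.symm
      · simp only [Finset.mem_insert, Finset.mem_singleton]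
        rintro (h0 | h0 | h0)
        · exact hba h0.symm
        · exact haab h0.symm
        · exact hwa h0.symm
      · simp only [Finset.mem_insert, Finset.mem_singleton]
        rintro (h0 | h0 | h0 | h0)
        · exact ha1 h0.symm
        · exact hb1 h0.symm
        · exact hab1 h0.symm
        · exact hw1 h0.symm
    have h5 := Set.ncard_le_ncard hsub (Set.toFinite _)
    rw [Set.ncard_coe_finset, hcard] at h5
    have h6 : (V : Set G).ncard = Nat.card V := (Nat.card_coe_set_eq (V : Set G)).symm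
    have h7 : Nat.card (V : Set G) = Nat.card V := rfl
    omega
  have hcomm : ∀ x ∈ V, ∀ y ∈ V, x * y = y * x := by
    intro x hx y hy
    have := hVc.is_comm.comm (⟨x, hx⟩ : V) ⟨y, hy⟩
    exact congrArg Subtype.val this
  obtain ⟨h₂, hh2, hho2, hinv2, w, hw, hw1, hwb, hwh2⟩ := key b hb hb1
  rcases hV4 w hw with rfl | rfl | rfl | rfl
  · exact hw1 rfl
  · exact sidki_four_aux V hS w b hw hb hV4 h₁ h₂ hho1 hho2 hh1 hh2 hinv1 hbh1 hwh2 hinv2
  · exact hwb rfl
  · refine sidki_four_aux V hS (a * b) b hw hb ?_ h₁ h₂ hho1 hho2 hh1 hh2 ?_ hbh1 hwh2 hinv2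
    · intro x hx
      rcases hV4 x hx with rfl | rfl | rfl | rfl
      · left; rfl
      · right; right; right
        rw [mul_assoc, hsq b hb, mul_one]
      · right; right; left; rfl
      · right; left; rfl
    · calc a * b * h₁ * (a * b)⁻¹ = a * (b * h₁ * b⁻¹) * a⁻¹ := by group
        _ = a * h₁ * a⁻¹ := by rw [hbh1, mul_inv_cancel_right]
        _ = h₁⁻¹ := hinv1

end Cfsg.Agent.S3011
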