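import Cfsg.Statements.S3014
import Mathlib
-- import your own Cfsg.Agent.* helpers here

set_option autoImplicit false
open Cfsg

namespace Cfsg.Agent.S3014

/-- Let G be a finite group and H ≤ M ≤ G subgroups such that for every g ∈ G the subgroup generated by H and g H g⁻¹ meets M exactly in H. If H is a maximal subgroup of M and M is a maximal subgroup of G, then the normal closure of H in G meets M exactly in H. -/
theorem result {G : Type*} [Group G] [Finite G] (H M : Subgroup G) (hHM : H ≤ M) (hcl : ∀ g : G, (H ⊔ H.map (MulAut.conj g).toMonoidHom) ⊓ M = H) (hmaxH : IsCoatom (H.subgroupOf M)) (hmaxM : IsCoatom M) : Subgroup.normalClosure (H : Set G) ⊓ M = H := by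
  classical
  have hconj_mem : ∀ (L : Subgroup G) (g x : G),
      x ∈ L.map (MulAut.conj g).toMonoidHom ↔ g⁻¹ * x * g ∈ L := by
    intro L g x
    constructor
    · rintro ⟨h, hh, rfl⟩
      have : g⁻¹ * (g * h * g⁻¹) * g = h := by group
      show g⁻¹ * (g * h * g⁻¹) * g ∈ L
      rw [this]; exact hh
    · intro hx
      refine ⟨g⁻¹ * x * g, hx, ?_⟩
      show g * (g⁻¹ * x * g) * g⁻¹ = x
      group
  have hW : ∀ g : G, H.map (MulAut.conj g).toMonoidHom ≤ M →
      H.map (MulAut.conj g).toMonoidHom = H := by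
    intro g hg
    have h1 : H ⊔ H.map (MulAut.conj g).toMonoidHom ≤ M := sup_le hHM hg
    have h2 : H ⊔ H.map (MulAut.conj g).toMonoidHom = H := by
      have := hcl g
      rwa [inf_eq_left.mpr h1] at this
    have h3 : H.map (MulAut.conj g).toMonoidHom ≤ H := le_sup_right.trans (le_of_eq h2)
    exact Subgroup.eq_of_le_of_card_ge h3
      (le_of_eq (Subgroup.card_map_of_injective (MulAut.conj g).injective).symm)
  have hMn : ∀ g ∈ M, H.map (MulAut.conj g).toMonoidHom = H := by
    intro g hg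
    apply hW
    intro x hx
    rw [hconj_mem] at hx
    have : x = g * (g⁻¹ * x * g) * g⁻¹ := by group
    rw [this]
    exact M.mul_mem (M.mul_mem hg (hHM hx)) (M.inv_mem hg)
  have hMn' : ∀ m ∈ M, ∀ a, m⁻¹ * a * m ∈ H ↔ a ∈ H := by
    intro m hm a
    rw [← hconj_mem H m a, hMn m hm]
  have hnz : ∀ (L : Subgroup G) (g : G), L.map (MulAut.conj g).toMonoidHom = L →
      g ∈ Subgroup.normalizer (L : Set G) := by
    intro L g hg
    rw [Subgroup.mem_normalizer_iff]
    intro h
    constructor
    · intro hh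
      have h1 : g * h * g⁻¹ ∈ L.map (MulAut.conj g).toMonoidHom := ⟨h, hh, rfl⟩
      rwa [hg] at h1
    · intro hh
      have h1 : g * h * g⁻¹ ∈ L.map (MulAut.conj g).toMonoidHom := by rw [hg]; exact hh
      rw [hconj_mem] at h1
      have e : g⁻¹ * (g * h * g⁻¹) * g = h := by group
      rwa [e] at h1
  have hnz' : ∀ g : G, g ∈ Subgroup.normalizer (H : Set G) →
      H.map (MulAut.conj g).toMonoidHom = H := by
    intro g hg
    rw [Subgroup.mem_normalizer_iff] at hg
    apply le_antisymm
    · rintro x ⟨h, hh, rfl⟩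
      exact (hg h).mp hh
    · intro x hx
      rw [hconj_mem]
      refine (hg (g⁻¹ * x * g)).mpr ?_
      have : g * (g⁻¹ * x * g) * g⁻¹ = x := by group
      rw [this]; exact hx
  by_cases hnorm : ∀ g : G, H.map (MulAut.conj g).toMonoidHom = H
  · have hN : H.Normal := ⟨fun n hn g => by
      have : g * n * g⁻¹ ∈ H.map (MulAut.conj g).toMonoidHom := ⟨n, hn, rfl⟩
      rwa [hnorm g] at this⟩
    rw [Subgroup.normalClosure_eq_self]
    exact inf_eq_left.mpr hHM
  push Not at hnorm
  obtain ⟨g0, hg0⟩ := hnorm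
  have hMle : M ≤ Subgroup.normalizer (H : Set G) := fun m hm => hnz H m (hMn m hm)
  have hNeq : Subgroup.normalizer (H : Set G) = M := by
    by_contra hne
    have hlt : M < Subgroup.normalizer (H : Set G) := lt_of_le_of_ne hMle (Ne.symm hne)
    have htop := hmaxM.2 _ hlt
    exact hg0 (hnz' g0 (by rw [htop]; exact Subgroup.mem_top _))
  have hNM : ∀ g : G, H.map (MulAut.conj g).toMonoidHom = H → g ∈ M := by
    intro g hg
    have := hnz H g hg
    rwa [hNeq] at this
  have hmax : ∀ L : Subgroup G, H ≤ L → L ≤ M → L = H ∨ L = M := by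
    intro L hHL hLM
    by_cases hLH : L ≤ H
    · left; exact le_antisymm hLH hHL
    · right
      apply le_antisymm hLM
      have hlt : H.subgroupOf M < L.subgroupOf M := by
        rw [SetLike.lt_iff_le_and_exists]
        refine ⟨fun x hx => ?_, ?_⟩
        · rw [Subgroup.mem_subgroupOf] at hx ⊢; exact hHL hx
        · obtain ⟨l, hl, hl'⟩ := SetLike.not_le_iff_exists.mp hLH
          exact ⟨⟨l, hLM hl⟩, by rw [Subgroup.mem_subgroupOf]; exact hl,
            by rw [Subgroup.mem_subgroupOf]; exact hl'⟩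
      have := hmaxH.2 _ hlt
      exact Subgroup.subgroupOf_eq_top.mp this
  by_cases hA : ∃ g : G, g ∉ M ∧ ∃ x ∈ M, x ∉ H ∧ g⁻¹ * x * g ∈ M
  · obtain ⟨g, hgM, x, hxM, hxH, hxg⟩ := hA
    obtain ⟨K, hK⟩ : ∃ K : Subgroup G, K = H ⊔ H.map (MulAut.conj g).toMonoidHom := ⟨_, rfl⟩
    have hKM : K ⊓ M = H := by rw [hK]; exact hcl g
    have hHK : H ≤ K := by rw [hK]; exact le_sup_left
    have hxK : K.map (MulAut.conj x).toMonoidHom = K := by
      rw [hK, Subgroup.map_sup, hMn x hxM]
      congr 1
      ext y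
      rw [hconj_mem, hconj_mem, hconj_mem]
      rw [← hMn' (g⁻¹ * x * g) hxg (g⁻¹ * y * g)]
      have : (g⁻¹ * x * g)⁻¹ * (g⁻¹ * y * g) * (g⁻¹ * x * g) = g⁻¹ * (x⁻¹ * y * x) * g := by
        group
      rw [this]
    have hxN : x ∈ Subgroup.normalizer (K : Set G) := hnz K x hxK
    have hML : M ≤ Subgroup.normalizer (K : Set G) := by
      rcases hmax (Subgroup.normalizer (K : Set G) ⊓ M)
        (le_inf (hHK.trans Subgroup.le_normalizer) hHM) inf_le_right with h1 | h1
      · exfalso
        have : x ∈ Subgroup.normalizer (K : Set G) ⊓ M := ⟨hxN, hxM⟩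
        rw [h1] at this; exact hxH this
      · exact (le_of_eq h1.symm).trans inf_le_left
    have hKnotM : ¬ K ≤ M := by
      intro hKM'
      apply hgM
      apply hNM
      apply hW
      exact (by rw [hK]; exact le_sup_right :
        H.map (MulAut.conj g).toMonoidHom ≤ K).trans hKM'
    have hNtop : Subgroup.normalizer (K : Set G) = ⊤ := by
      apply hmaxM.2
      apply lt_of_le_of_ne hML
      intro heq
      exact hKnotM (by rw [heq]; exact Subgroup.le_normalizer)
    haveI hKn : K.Normal := Subgroup.normalizer_eq_top_iff.mp hNtop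
    have hncl : Subgroup.normalClosure (H : Set G) ≤ K := Subgroup.normalClosure_le_normal hHK
    apply le_antisymm
    · calc Subgroup.normalClosure (H : Set G) ⊓ M ≤ K ⊓ M := inf_le_inf_right M hncl
        _ = H := hKM
    · exact le_inf Subgroup.le_normalClosure hHM
  · push Not at hA
    have hB : ∀ g : G, g ∉ M → ∀ x ∈ M, g⁻¹ * x * g ∈ M → g⁻¹ * x * g ∈ H := by
      intro g hg x hx hxg
      by_contra hn
      have hg' : g⁻¹ ∉ M := fun h => hg (by simpa using M.inv_mem h)
      have := hA g⁻¹ hg' (g⁻¹ * x * g) hxg hn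
      apply this
      have e : (g⁻¹)⁻¹ * (g⁻¹ * x * g) * g⁻¹ = x := by group
      rw [e]; exact hx
    haveI hN' : (H.subgroupOf M).Normal := ⟨fun n hn m => by
      rw [Subgroup.mem_subgroupOf] at hn ⊢
      have : (m : G) * n * (m : G)⁻¹ ∈ H.map (MulAut.conj (m : G)).toMonoidHom := ⟨n, hn, rfl⟩
      rw [hMn m m.2] at this
      exact this⟩
    obtain ⟨m0, hm0M, hm0H⟩ : ∃ m ∈ M, m ∉ H := by
      have h1 : ¬ M ≤ H := fun h => hmaxH.1 (Subgroup.subgroupOf_eq_top.mpr h)
      exact SetLike.not_le_iff_exists.mp h1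
    have hcyc : IsCyclic (↥M ⧸ H.subgroupOf M) := by
      refine isCyclic_iff_exists_zpowers_eq_top.mpr ⟨QuotientGroup.mk ⟨m0, hm0M⟩, ?_⟩
      rw [eq_top_iff]
      intro y _
      obtain ⟨y, rfl⟩ := QuotientGroup.mk_surjective y
      have hlt : H.subgroupOf M <
          (Subgroup.zpowers (QuotientGroup.mk ⟨m0, hm0M⟩ : ↥M ⧸ H.subgroupOf M)).comap
            (QuotientGroup.mk' (H.subgroupOf M)) := by
        rw [SetLike.lt_iff_le_and_exists]
        refine ⟨fun h hh => ?_, ⟨m0, hm0M⟩, ?_, ?_⟩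
        · rw [Subgroup.mem_comap]
          have : QuotientGroup.mk' (H.subgroupOf M) h = 1 := (QuotientGroup.eq_one_iff h).mpr hh
          rw [this]; exact Subgroup.one_mem _
        · rw [Subgroup.mem_comap]; exact Subgroup.mem_zpowers _
        · rw [Subgroup.mem_subgroupOf]; exact hm0H
      have htop := hmaxH.2 _ hlt
      have : y ∈ (Subgroup.zpowers (QuotientGroup.mk ⟨m0, hm0M⟩ : ↥M ⧸ H.subgroupOf M)).comap
          (QuotientGroup.mk' (H.subgroupOf M)) := by rw [htop]; exact Subgroup.mem_top _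
      exact this
    letI : CommGroup (↥M ⧸ H.subgroupOf M) := IsCyclic.commGroup
    obtain ⟨ϕ, hϕ⟩ : ∃ ϕ : ↥M →* ↥M ⧸ H.subgroupOf M, ϕ = QuotientGroup.mk' (H.subgroupOf M) :=
      ⟨_, rfl⟩
    have hϕ1 : ∀ (y : G) (hy : y ∈ M), ϕ ⟨y, hy⟩ = 1 ↔ y ∈ H := by
      intro y hy
      rw [hϕ]
      exact (QuotientGroup.eq_one_iff _).trans Subgroup.mem_subgroupOf
    have hT : ∀ (x : G) (hx : x ∈ M), MonoidHom.transfer ϕ x = ϕ ⟨x, hx⟩ := by
      intro x hx
      have : Fintype (Quotient (MulAction.orbitRel (Subgroup.zpowers x) (G ⧸ M))) :=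
        Fintype.ofFinite _
      rw [MonoidHom.transfer_eq_prod_quotient_orbitRel_zpowers_quot]
      have hterm1 : ∀ (k : G) (n : ℕ) (hn : k⁻¹ * x ^ n * k ∈ M), k ∉ M → ϕ ⟨_, hn⟩ = 1 := by
        intro k n hn hk
        rw [hϕ1]
        exact hB k hk (x ^ n) (M.pow_mem hx n) hn
      have hterm2 : ∀ (k : G) (n : ℕ) (hn : k⁻¹ * x ^ n * k ∈ M), k ∈ M → n = 1 →
          ϕ ⟨_, hn⟩ = ϕ ⟨x, hx⟩ := by
        intro k n hn hk h1
        subst h1
        have : (⟨k⁻¹ * x ^ 1 * k, hn⟩ : ↥M) = (⟨k, hk⟩ : ↥M)⁻¹ * ⟨x, hx⟩ * ⟨k, hk⟩ := by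
          apply Subtype.ext; simp
        rw [this, map_mul, map_mul, map_inv, mul_comm, mul_inv_cancel_left]
      have hone : ∀ m ∈ M, (QuotientGroup.mk m : G ⧸ M) = QuotientGroup.mk (1 : G) := by
        intro m hm
        rw [QuotientGroup.eq]; simpa using hm
      have hq0 : (Quotient.mk'' (QuotientGroup.mk (1 : G)) :
          Quotient (MulAction.orbitRel (Subgroup.zpowers x) (G ⧸ M))).out =
            QuotientGroup.mk (1 : G) := by
        have h1 : (Quotient.mk'' (QuotientGroup.mk (1 : G)) :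
            Quotient (MulAction.orbitRel (Subgroup.zpowers x) (G ⧸ M))).out ∈
              MulAction.orbit (Subgroup.zpowers x) (QuotientGroup.mk (1 : G) : G ⧸ M) := by
          have := Quotient.mk_out (s := MulAction.orbitRel (Subgroup.zpowers x) (G ⧸ M))
            (QuotientGroup.mk (1 : G) : G ⧸ M)
          exact this
        obtain ⟨⟨z, hz⟩, hz'⟩ := h1
        rw [← hz']
        show (QuotientGroup.mk (z * 1) : G ⧸ M) = _
        apply hone
        rw [mul_one]
        exact (Subgroup.zpowers_le.mpr hx) hz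
      rw [Finset.prod_eq_single (Quotient.mk'' (QuotientGroup.mk (1 : G)) :
          Quotient (MulAction.orbitRel (Subgroup.zpowers x) (G ⧸ M)))]
      · apply hterm2
        · rw [hq0]
          have h2 : ((QuotientGroup.mk (1 : G) : G ⧸ M).out : G ⧸ M) = QuotientGroup.mk (1 : G) :=
            QuotientGroup.out_eq' _
          rw [QuotientGroup.eq] at h2
          simpa using h2
        · rw [Function.minimalPeriod_eq_one_iff_isFixedPt, hq0]
          show (QuotientGroup.mk (x * 1) : G ⧸ M) = _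
          apply hone
          rw [mul_one]; exact hx
      · intro q _ hq
        apply hterm1
        intro hk
        apply hq
        have h2 : ((q.out.out : G) : G ⧸ M) = q.out := QuotientGroup.out_eq' _
        rw [hone _ hk] at h2
        rw [← Quotient.out_eq' q, ← h2]
      · intro h; exact absurd (Finset.mem_univ _) h
    have hker : H ≤ (MonoidHom.transfer ϕ).ker := by
      intro h hh
      rw [MonoidHom.mem_ker, hT h (hHM hh), hϕ1]
      exact hh
    have hncl : Subgroup.normalClosure (H : Set G) ≤ (MonoidHom.transfer ϕ).ker :=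
      Subgroup.normalClosure_le_normal hker
    apply le_antisymm
    · rintro y ⟨hy1, hy2⟩
      have h1 := hncl hy1
      rw [MonoidHom.mem_ker, hT y hy2, hϕ1] at h1
      exact h1
    · exact le_inf Subgroup.le_normalClosure hHM

end Cfsg.Agent.S3014
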