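import Cfsg.Statements.S3020
import Cfsg.Agent.Helper5.Basic
import Cfsg.Agent.Helper5.Cores

set_option autoImplicit false
open Cfsg

namespace Cfsg.Agent.S3020

/-- Let G be a finite group, p a prime and H an abelian p-subgroup of G that is extremely closed (for every g, the subgroup generated by H and g H g⁻¹ meets N_G(H) exactly in H). Then for every g ∈ G, the subgroup T generated by H and g H g⁻¹ is the product of H with O_{p'}(T), and H meets O_{p'}(T) trivially; that is, O_{p'}(T) is a normal p-complement of H in T. -/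
theorem result {G : Type*} [Group G] [Finite G] {p : ℕ} [Fact p.Prime] (H : Subgroup G) (hHp : IsPGroup p H) (hHab : IsMulCommutative H) (hcl : Cfsg.IsExtremelyClosed H) (g : G) (T : Subgroup G) (hT : T = H ⊔ H.map (MulAut.conj g).toMonoidHom) : H ⊔ (Cfsg.pPrimeCore p ↥T).map T.subtype = T ∧ H ⊓ (Cfsg.pPrimeCore p ↥T).map T.subtype = ⊥ := by
  classical
  have hHT : H ≤ T := by rw [hT]; exact le_sup_left
  have hN : T ⊓ Subgroup.normalizer (H : Set G) = H := by rw [hT]; exact hcl g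
  have hHc : ∀ x ∈ H, ∀ y ∈ H, x * y = y * x := fun x hx y hy =>
    congrArg Subtype.val (mul_comm' (⟨x, hx⟩ : H) ⟨y, hy⟩)
  have hH₀p : IsPGroup p ↥(H.subgroupOf T) :=
    hHp.of_equiv (Subgroup.subgroupOfEquivOfLe hHT).symm
  have hnorm : ∀ y : ↥T, y ∈ Subgroup.normalizer ((H.subgroupOf T : Subgroup ↥T) : Set ↥T) →
      y ∈ H.subgroupOf T := by
    intro y hy
    rw [Subgroup.mem_subgroupOf]
    have h1 : (y : G) ∈ Subgroup.normalizer (H : Set G) := by
      apply Helper5.mem_normalizer_of_conj_le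
      rintro _ ⟨a, ha, rfl⟩
      have h2 := (Subgroup.mem_normalizer_iff.1 hy ⟨a, hHT ha⟩).1 (Subgroup.mem_subgroupOf.2 ha)
      exact Subgroup.mem_subgroupOf.1 h2
    have h3 : (y : G) ∈ T ⊓ Subgroup.normalizer (H : Set G) := ⟨y.2, h1⟩
    rw [hN] at h3
    exact h3
  obtain ⟨P, hP⟩ := hH₀p.exists_le_sylow
  have hPeq : H.subgroupOf T = (P : Subgroup ↥T) := by
    by_contra hne
    obtain ⟨y, -, hyN, hyn⟩ := Helper5.exists_mem_normalizer_not_mem (P : Subgroup ↥T)
      (H.subgroupOf T) P.2 hP hne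
    exact hyn (hnorm y hyN)
  have hP' : Subgroup.normalizer ((P : Subgroup ↥T) : Set ↥T) ≤
      Subgroup.centralizer ((P : Subgroup ↥T) : Set ↥T) := by
    intro y hy
    rw [← hPeq] at hy ⊢
    have hy' := hnorm y hy
    rw [Subgroup.mem_centralizer_iff]
    intro z hz
    apply Subtype.ext
    exact hHc _ (Subgroup.mem_subgroupOf.1 hz) _ (Subgroup.mem_subgroupOf.1 hy')
  have hcompl := MonoidHom.ker_transferSylow_isComplement' P hP'
  have hK := MonoidHom.not_dvd_card_ker_transferSylow P hP'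
  have hKle : (MonoidHom.transferSylow P hP').ker ≤ Cfsg.pPrimeCore p ↥T :=
    Helper5.le_pPrimeCore _ inferInstance
      (Nat.Coprime.symm ((Nat.Prime.coprime_iff_not_dvd Fact.out).2 hK))
  have htop : (⊤ : Subgroup ↥T) ≤ H.subgroupOf T ⊔ Cfsg.pPrimeCore p ↥T := by
    rw [← hcompl.sup_eq_top, hPeq, sup_comm]
    exact sup_le_sup_left hKle _
  have hHmap : (H.subgroupOf T).map T.subtype = H := by
    rw [Subgroup.subgroupOf_map_subtype]; exact inf_eq_left.2 hHT
  refine ⟨?_, ?_⟩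
  · apply le_antisymm
    · refine sup_le hHT ?_
      rintro _ ⟨y, -, rfl⟩
      exact y.2
    · intro t ht
      have h1 : (⟨t, ht⟩ : ↥T) ∈ H.subgroupOf T ⊔ Cfsg.pPrimeCore p ↥T := htop (Subgroup.mem_top _)
      have h2 : t ∈ (H.subgroupOf T ⊔ Cfsg.pPrimeCore p ↥T).map T.subtype := ⟨_, h1, rfl⟩
      rw [Subgroup.map_sup, hHmap] at h2
      exact h2
  · rw [eq_bot_iff]
    rintro x ⟨hxH, y, hy, rfl⟩
    have h1 : y ∈ H.subgroupOf T ⊓ Cfsg.pPrimeCore p ↥T := ⟨Subgroup.mem_subgroupOf.2 hxH, hy⟩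
    have h2 : H.subgroupOf T ⊓ Cfsg.pPrimeCore p ↥T = ⊥ := by
      apply Disjoint.eq_bot
      apply Subgroup.disjoint_of_coprime_natCard
      obtain ⟨k, hk⟩ := IsPGroup.iff_card.1 hH₀p
      rw [hk]
      exact Nat.Coprime.pow_left k (Helper5.pPrimeCore_coprime p ↥T).symm
    rw [h2, Subgroup.mem_bot] at h1
    rw [h1]
    exact Subgroup.mem_bot.2 rfl

end Cfsg.Agent.S3020
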