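import Cfsg.Statements.S3021
import Cfsg.Agent.Helper5.Basic

set_option autoImplicit false
open Cfsg

namespace Cfsg.Agent.S3021

open Cfsg.Agent.Helper5

/-- Let G be a finite group, p a prime and H a p-subgroup of G that is extremely closed (for every g, the subgroup generated by H and g H g⁻¹ meets N_G(H) exactly in H). Then every p-subgroup Q of G containing H has N_G(Q) ≤ N_G(H); in particular every Sylow p-subgroup P of G containing H normalizes H, and H is strongly closed in P with respect to G. -/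
theorem result {G : Type*} [Group G] [Finite G] {p : ℕ} [Fact p.Prime] (H : Subgroup G) (hHp : IsPGroup p H) (hcl : Cfsg.IsExtremelyClosed H) : (∀ Q : Subgroup G, IsPGroup p Q → H ≤ Q → Subgroup.normalizer (Q : Set G) ≤ Subgroup.normalizer (H : Set G)) ∧ ∀ P : Sylow p G, H ≤ (P : Subgroup G) → (P : Subgroup G) ≤ Subgroup.normalizer (H : Set G) ∧ Cfsg.IsStronglyClosed H (P : Subgroup G) := by
  have partA : ∀ Q : Subgroup G, IsPGroup p Q → H ≤ Q →
      Subgroup.normalizer (Q : Set G) ≤ Subgroup.normalizer (H : Set G) := by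
    intro Q hQ hHQ n hn
    set T : Subgroup G := H ⊔ H.map (MulAut.conj n).toMonoidHom with hT
    have hHn : H.map (MulAut.conj n).toMonoidHom ≤ Q := by
      rintro _ ⟨h, hh, rfl⟩
      exact (hn h).1 (hHQ hh)
    have hTQ : T ≤ Q := sup_le hHQ hHn
    have hTp : IsPGroup p T := hQ.to_le hTQ
    have hHT : H ≤ T := le_sup_left
    have hEq : H = T := by
      by_contra hne
      obtain ⟨y, hyT, hyN, hyH⟩ := exists_mem_normalizer_not_mem T H hTp hHT hne
      have : y ∈ T ⊓ Subgroup.normalizer (H : Set G) := Subgroup.mem_inf.2 ⟨hyT, hyN⟩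
      rw [hT, hcl n] at this
      exact hyH this
    apply mem_normalizer_of_conj_le
    have : H.map (MulAut.conj n).toMonoidHom ≤ T := le_sup_right
    rwa [← hEq] at this
  refine ⟨partA, ?_⟩
  intro P hHP
  have hPN : (P : Subgroup G) ≤ Subgroup.normalizer (H : Set G) :=
    Subgroup.le_normalizer.trans (partA P P.2 hHP)
  refine ⟨hPN, hHP, ?_⟩
  intro x hx g hg
  have h1 : g * x * g⁻¹ ∈ H ⊔ H.map (MulAut.conj g).toMonoidHom :=
    (le_sup_right : H.map (MulAut.conj g).toMonoidHom ≤ _) (conj_mem_conj H g x hx)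
  have : g * x * g⁻¹ ∈ (H ⊔ H.map (MulAut.conj g).toMonoidHom) ⊓ Subgroup.normalizer (H : Set G) :=
    Subgroup.mem_inf.2 ⟨h1, hPN hg⟩
  rw [hcl g] at this
  exact this

end Cfsg.Agent.S3021
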