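import Mathlib
import Cfsg.Prelude.Def_SylowChains
import Cfsg.Agent.Helper5.SylChain
import Cfsg.Agent.Helper5.StrEmb
import Cfsg.Agent.Helper5.ElemAb
import Cfsg.Agent.Helper3.CoprimeGen

set_option autoImplicit false

namespace Cfsg.Agent.S3058

open Cfsg.Agent.Helper5
open scoped commutatorElement

/-- Let p be a prime and G a finite group whose Sylow p-subgroups are not chain-connected through nontrivial intersections (so G has a strongly p-embedded subgroup). If N and M are normal subgroups of G whose orders are both divisible by p, then the order of N ∩ M is divisible by p. Consequently, among the normal subgroups of G whose order is divisible by p there is a smallest one (the intersection of all of them). -/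
theorem result {G : Type*} [Group G] [Finite G]
    (p : ℕ) [Fact p.Prime] (hG : ¬ Cfsg.IsSylowChainConnected p G)
    (N M : Subgroup G) [N.Normal] [M.Normal] (hN : p ∣ Nat.card N) (hM : p ∣ Nat.card M) :
    p ∣ Nat.card ↥(N ⊓ M) := by
  have hp : p.Prime := Fact.out
  by_contra hD
  obtain ⟨H, hHtop, hpH, hse⟩ := exists_classical_of_not_connected p hG
  have hNorm := normalizer_le_of_classical p H hse
  obtain ⟨S, hSH⟩ := exists_sylow_le_of_classical p H hpH hse
  obtain ⟨Tn, hTn⟩ := exists_sylow_map_eq_inf S N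
  obtain ⟨Tm, hTm⟩ := exists_sylow_map_eq_inf S M
  have hXdvd : p ∣ Nat.card ↥((S : Subgroup G) ⊓ N) := by
    rw [← hTn, Subgroup.card_map_of_injective (Subgroup.subtype_injective _),
      Sylow.card_eq_multiplicity]
    exact dvd_pow_self _ (hp.factorization_pos_of_dvd Nat.card_pos.ne' hN).ne'
  have hYdvd : p ∣ Nat.card ↥((S : Subgroup G) ⊓ M) := by
    rw [← hTm, Subgroup.card_map_of_injective (Subgroup.subtype_injective _),
      Sylow.card_eq_multiplicity]
    exact dvd_pow_self _ (hp.factorization_pos_of_dvd Nat.card_pos.ne' hM).ne'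
  obtain ⟨x, hx⟩ := exists_prime_orderOf_dvd_card' p hXdvd
  obtain ⟨y, hy⟩ := exists_prime_orderOf_dvd_card' p hYdvd
  have hxS : (x : G) ∈ (S : Subgroup G) := (Subgroup.mem_inf.1 x.2).1
  have hxN : (x : G) ∈ N := (Subgroup.mem_inf.1 x.2).2
  have hxo : orderOf (x : G) = p := by rw [Subgroup.orderOf_coe]; exact hx
  have hyS : (y : G) ∈ (S : Subgroup G) := (Subgroup.mem_inf.1 y.2).1
  have hyM : (y : G) ∈ M := (Subgroup.mem_inf.1 y.2).2
  have hyo : orderOf (y : G) = p := by rw [Subgroup.orderOf_coe]; exact hy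
  have hSD : ∀ z : G, z ∈ (S : Subgroup G) → z ∈ N → z ∈ M → z = 1 := by
    intro z hzS hzN hzM
    by_contra hz1
    apply hD
    have hzD : z ∈ N ⊓ M := Subgroup.mem_inf.2 ⟨hzN, hzM⟩
    obtain ⟨k, hk⟩ := (IsPGroup.iff_orderOf.1 S.2) ⟨z, hzS⟩
    have hk' : orderOf z = p ^ k := by rw [← hk, Subgroup.orderOf_mk]
    have hk0 : k ≠ 0 := by
      rintro rfl
      rw [pow_zero, orderOf_eq_one_iff] at hk'
      exact hz1 hk'
    have h1 : orderOf (⟨z, hzD⟩ : ↥(N ⊓ M)) = p ^ k := by rw [Subgroup.orderOf_mk]; exact hk'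
    have h2 := orderOf_dvd_natCard (⟨z, hzD⟩ : ↥(N ⊓ M))
    rw [h1] at h2
    exact dvd_trans (dvd_pow_self p hk0) h2
  have hxy : (x : G) * y = y * x := by
    have h1 : ⁅(x : G), (y : G)⁆ = 1 := by
      apply hSD
      · rw [commutatorElement_def]
        exact Subgroup.mul_mem _ (Subgroup.mul_mem _ (Subgroup.mul_mem _ hxS hyS)
          (Subgroup.inv_mem _ hxS)) (Subgroup.inv_mem _ hyS)
      · have e : ⁅(x : G), (y : G)⁆ = x * (y * (x : G)⁻¹ * (y : G)⁻¹) := by
          rw [commutatorElement_def]; group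
        rw [e]
        exact N.mul_mem hxN (‹N.Normal›.conj_mem _ (N.inv_mem hxN) _)
      · rw [commutatorElement_def]
        exact M.mul_mem (‹M.Normal›.conj_mem _ hyM _) (M.inv_mem hyM)
    exact commutatorElement_eq_one_iff_mul_comm.1 h1
  have hx1 : (x : G) ≠ 1 := by
    intro h
    rw [h, orderOf_one] at hxo
    exact hp.one_lt.ne hxo
  have hy1 : (y : G) ≠ 1 := by
    intro h
    rw [h, orderOf_one] at hyo
    exact hp.one_lt.ne hyo
  set E : Subgroup G := Subgroup.closure {(x : G), (y : G)} with hEdef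
  have hE : Cfsg.IsElementaryAbelian p E := by
    apply isElementaryAbelian_closure
    · intro a ha b hb
      rcases ha with rfl | rfl <;> rcases hb with rfl | rfl
      · rfl
      · exact hxy
      · exact hxy.symm
      · rfl
    · intro a ha
      rcases ha with rfl | rfl
      · have h := pow_orderOf_eq_one (x : G)
        rw [hxo] at h; exact h
      · have h := pow_orderOf_eq_one (y : G)
        rw [hyo] at h; exact h
  have hES : E ≤ (S : Subgroup G) := by
    rw [hEdef, Subgroup.closure_le]
    intro a ha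
    rcases ha with rfl | rfl
    · exact hxS
    · exact hyS
  have hxE : (x : G) ∈ E := Subgroup.subset_closure (Set.mem_insert _ _)
  have hyE : (y : G) ∈ E := Subgroup.subset_closure (Set.mem_insert_of_mem _ rfl)
  have hEcard : p < Nat.card E := by
    by_contra hle
    have hzE : Subgroup.zpowers (x : G) ≤ E := by
      rw [Subgroup.zpowers_le]; exact hxE
    have heq : Subgroup.zpowers (x : G) = E := by
      apply Subgroup.eq_of_le_of_card_ge hzE
      rw [Nat.card_zpowers, hxo]; omega
    have hyz : (y : G) ∈ Subgroup.zpowers (x : G) := heq ▸ hyE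
    exact hy1 (hSD _ hyS ((Subgroup.zpowers_le.2 hxN) hyz) hyM)
  have hDn : (N ⊓ M).Normal := inferInstance
  have hED : E ≤ Subgroup.normalizer ((N ⊓ M : Subgroup G) : Set G) := by
    rw [Subgroup.normalizer_eq_top_iff.2 hDn]; exact le_top
  have hgen := Cfsg.Agent.Helper3.generated_by_centralizers p E (N ⊓ M) hE hD hED
  have hDH : N ⊓ M ≤ H := by
    rw [hgen]
    apply iSup_le
    rintro ⟨B, hBE, hBi⟩
    have hBne : B ≠ ⊥ := by
      rintro rfl
      rw [Subgroup.relIndex_bot_left] at hBi
      omega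
    have hBp : IsPGroup p B := S.2.to_le (hBE.trans hES)
    refine inf_le_right.trans ?_
    exact (Subgroup.centralizer_le_normalizer _).trans
      (hNorm B ((hBE.trans hES).trans hSH) hBp hBne)
  have hZy : Subgroup.zpowers (y : G) ≤ (S : Subgroup G) ⊓ M :=
    Subgroup.zpowers_le.2 (Subgroup.mem_inf.2 ⟨hyS, hyM⟩)
  have hNH : N ≤ H := by
    intro n hn
    apply mem_of_conj_le H hNorm S hSH (Subgroup.zpowers (y : G)) ((hZy.trans inf_le_left).trans hSH)
      (S.2.to_le (hZy.trans inf_le_left))
    · intro h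
      apply hy1
      have : (y : G) ∈ Subgroup.zpowers (y : G) := Subgroup.mem_zpowers _
      rw [h] at this
      exact Subgroup.mem_bot.1 this
    · rintro _ ⟨z, hz, rfl⟩
      have hzS : z ∈ (S : Subgroup G) := (Subgroup.mem_inf.1 (hZy hz)).1
      have hzM : z ∈ M := (Subgroup.mem_inf.1 (hZy hz)).2
      have e : (MulAut.conj n).toMonoidHom z = ⁅n, z⁆ * z := by
        simp [commutatorElement_def]
      rw [e]
      refine H.mul_mem (hDH (Subgroup.mem_inf.2 ⟨?_, ?_⟩)) (hSH hzS)
      · have e2 : ⁅n, z⁆ = n * (z * n⁻¹ * z⁻¹) := by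
          rw [commutatorElement_def]; group
        rw [e2]
        exact N.mul_mem hn (‹N.Normal›.conj_mem _ (N.inv_mem hn) _)
      · rw [commutatorElement_def]
        exact M.mul_mem (‹M.Normal›.conj_mem _ hzM _) (M.inv_mem hzM)
  have hfr := Sylow.normalizer_sup_eq_top Tn
  rw [hTn] at hfr
  apply hHtop
  rw [eq_top_iff, ← hfr]
  refine sup_le (hNorm _ (inf_le_left.trans hSH) (S.2.to_le inf_le_left) ?_) hNH
  intro h
  apply hx1
  have hmem : ∀ X : Subgroup G, X = ⊥ → ∀ z ∈ X, z = 1 := by
    rintro _ rfl z hz; exact Subgroup.mem_bot.1 hz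
  exact hmem _ h _ x.2

end Cfsg.Agent.S3058
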