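import Mathlib
import Cfsg.Agent.Helper5.StrEmb

namespace Cfsg.Agent.S3059

/-- Let p be a prime and H a strongly p-embedded subgroup of the finite group G in the classical sense: H is proper, p divides the order of H, and H ∩ gHg⁻¹ has order prime to p for every g outside H. Then for every normal subgroup N of G of order divisible by p, G = H · O^p(N), where O^p(N) is the subgroup generated by the elements of N of order prime to p. -/
theorem result {G : Type*} [Group G] [Finite G]
    (p : ℕ) [Fact p.Prime] (H : Subgroup G) (hH : H ≠ ⊤) (hpH : p ∣ Nat.card H)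
    (hse : ∀ g : G, g ∉ H → ¬ p ∣ Nat.card ↥(H ⊓ H.map (MulAut.conj g).toMonoidHom))
    (N : Subgroup G) [N.Normal] (hN : p ∣ Nat.card N) :
    H ⊔ Subgroup.closure {g : G | g ∈ N ∧ (orderOf g).Coprime p} = ⊤ := by
  have hp : p.Prime := Fact.out
  obtain ⟨S, hS⟩ := Helper5.exists_sylow_le_of_classical p H hpH hse
  obtain ⟨T, hT⟩ := Helper5.exists_sylow_map_eq_inf S N
  have hTne : (S : Subgroup G) ⊓ N ≠ ⊥ := by
    intro h
    have h1 : Nat.card ((T : Subgroup N).map N.subtype) = 1 := by
      rw [hT, h]; simp
    rw [Subgroup.card_map_of_injective N.subtype_injective, Sylow.card_eq_multiplicity] at h1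
    have h2 := hp.factorization_pos_of_dvd Nat.card_pos.ne' hN
    have h3 : 1 < p ^ (Nat.card N).factorization p := Nat.one_lt_pow h2.ne' hp.one_lt
    omega
  have hnorm : Subgroup.normalizer (((S : Subgroup G) ⊓ N : Subgroup G) : Set G) ≤ H :=
    Helper5.normalizer_le_of_classical p H hse _ (inf_le_left.trans hS)
      (S.2.to_le inf_le_left) hTne
  have hfr := Sylow.normalizer_sup_eq_top T
  rw [hT] at hfr
  have hNle : N ≤ H ⊔ Subgroup.closure {g : G | g ∈ N ∧ (orderOf g).Coprime p} :=
    (Helper5.le_sylow_inf_sup_closure_coprime S N).trans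
      (sup_le_sup_right (inf_le_left.trans hS) _)
  rw [eq_top_iff, ← hfr]
  exact sup_le (hnorm.trans le_sup_left) hNle

end Cfsg.Agent.S3059
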