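import Cfsg.Statements.S3087
import Mathlib

set_option autoImplicit false
open Cfsg

namespace Cfsg.Agent.S3087

theorem card_sup_mul_card_inf {V : Type*} [AddCommGroup V] [Finite V] (U₁ U₂ : AddSubgroup V) :
    Nat.card ↥(U₁ ⊔ U₂) * Nat.card ↥(U₁ ⊓ U₂) = Nat.card U₁ * Nat.card U₂ := by
  have h1 : Nat.card ↥(U₁ ⊔ U₂) = Nat.card U₂ * U₂.relIndex U₁ := by
    rw [← AddSubgroup.relIndex_bot_left, ← AddSubgroup.relIndex_bot_left,
      ← AddSubgroup.relIndex_sup_right U₁ U₂,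
      AddSubgroup.relIndex_mul_relIndex _ _ _ bot_le le_sup_right]
  have h2 : Nat.card U₁ = Nat.card ↥(U₁ ⊓ U₂) * U₂.relIndex U₁ := by
    rw [← AddSubgroup.relIndex_bot_left, ← AddSubgroup.relIndex_bot_left,
      ← AddSubgroup.inf_relIndex_left U₁ U₂,
      AddSubgroup.relIndex_mul_relIndex _ _ _ bot_le inf_le_left]
  rw [h1, h2]; ring

/-- Let p be a prime, G a finite group acting linearly on a finite vector space V over the field with p elements, W a G-invariant subspace, and A a subgroup of G with |A|·|C_V(A)| ≥ |B|·|C_V(B)| for every subgroup B of A. Then |A|·|C_W(A)| ≥ |B|·|C_W(B)| for every subgroup B of A that contains C_A(W); that is, the image of A in the group induced on W satisfies the same maximality condition. -/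
theorem result {G V : Type*} [Group G] [Finite G] [AddCommGroup V] [Finite V] (p : ℕ) [Fact p.Prime] [Module (ZMod p) V]
    (ρ : Representation (ZMod p) G V) (W : Submodule (ZMod p) V) (hW : ∀ g : G, ∀ w ∈ W, ρ g w ∈ W)
    (A : Subgroup G)
    (hP : ∀ B : Subgroup G, B ≤ A →
      Nat.card ↥B * Nat.card {v : V // ∀ b ∈ B, ρ b v = v} ≤ Nat.card ↥A * Nat.card {v : V // ∀ a ∈ A, ρ a v = v})
    (B : Subgroup G) (hBA : B ≤ A) (hCB : ∀ a ∈ A, (∀ w ∈ W, ρ a w = w) → a ∈ B) :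
    Nat.card ↥B * Nat.card {w : W // ∀ b ∈ B, ρ b w = w} ≤ Nat.card ↥A * Nat.card {w : W // ∀ a ∈ A, ρ a w = w} := by
  -- fixed points as additive subgroups
  let CV : Subgroup G → AddSubgroup V := fun D =>
    { carrier := {v | ∀ d ∈ D, ρ d v = v}
      zero_mem' := by intro d _; simp
      add_mem' := by
        intro a b ha hb d hd
        rw [map_add, ha d hd, hb d hd]
      neg_mem' := by
        intro a ha d hd
        rw [map_neg, ha d hd] }
  have hcV : ∀ D : Subgroup G, Nat.card {v : V // ∀ d ∈ D, ρ d v = v} = Nat.card ↥(CV D) :=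
    fun D => rfl
  have hcW : ∀ D : Subgroup G, Nat.card {w : W // ∀ d ∈ D, ρ d w = w} =
      Nat.card ↥(CV D ⊓ W.toAddSubgroup) := by
    intro D
    apply Nat.card_congr
    exact
      { toFun := fun w => ⟨(w.1 : V), ⟨w.2, w.1.2⟩⟩
        invFun := fun v => ⟨⟨v.1, v.2.2⟩, v.2.1⟩
        left_inv := fun w => rfl
        right_inv := fun v => rfl }
  rw [hcW B, hcW A]
  have hmono : CV A ≤ CV B := fun v hv d hd => hv d (hBA hd)
  set U₁ : AddSubgroup V := CV B ⊓ W.toAddSubgroup with hU₁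
  set U₂ : AddSubgroup V := CV A with hU₂
  have hsup : U₁ ⊔ U₂ ≤ CV B := sup_le inf_le_left hmono
  have hinf : U₁ ⊓ U₂ = CV A ⊓ W.toAddSubgroup := by
    rw [hU₁, hU₂]
    apply le_antisymm
    · exact le_inf inf_le_right (inf_le_left.trans inf_le_right)
    · exact le_inf (le_inf (inf_le_left.trans hmono) inf_le_right) inf_le_left
  have key := card_sup_mul_card_inf U₁ U₂
  rw [hinf] at key
  have hle : Nat.card ↥(U₁ ⊔ U₂) ≤ Nat.card ↥(CV B) := AddSubgroup.card_le_of_le hsup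
  have hPB := hP B hBA
  rw [hcV B, hcV A] at hPB
  have hpos : 0 < Nat.card ↥(CV A) := Nat.card_pos
  -- |B| |U₁| |CV A| ≤ |B| |CV B| |C_W(A)| ≤ |A| |CV A| |C_W(A)|
  have h3 : Nat.card ↥B * Nat.card ↥U₁ * Nat.card ↥(CV A) ≤
      Nat.card ↥A * Nat.card ↥(CV A ⊓ W.toAddSubgroup) * Nat.card ↥(CV A) := by
    calc Nat.card ↥B * Nat.card ↥U₁ * Nat.card ↥(CV A)
        = Nat.card ↥B * (Nat.card ↥U₁ * Nat.card ↥U₂) := by rw [hU₂]; ring
      _ = Nat.card ↥B * (Nat.card ↥(U₁ ⊔ U₂) * Nat.card ↥(CV A ⊓ W.toAddSubgroup)) := by rw [key]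
      _ ≤ Nat.card ↥B * (Nat.card ↥(CV B) * Nat.card ↥(CV A ⊓ W.toAddSubgroup)) := by
          gcongr
      _ = (Nat.card ↥B * Nat.card ↥(CV B)) * Nat.card ↥(CV A ⊓ W.toAddSubgroup) := by ring
      _ ≤ (Nat.card ↥A * Nat.card ↥(CV A)) * Nat.card ↥(CV A ⊓ W.toAddSubgroup) := by
          gcongr
      _ = Nat.card ↥A * Nat.card ↥(CV A ⊓ W.toAddSubgroup) * Nat.card ↥(CV A) := by ring
  exact Nat.le_of_mul_le_mul_right h3 hpos

end Cfsg.Agent.S3087
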