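import Cfsg.Statements.S4189
import Mathlib
import Cfsg.Agent.S0115
import Cfsg.Agent.S0206
import Cfsg.Agent.S0016
import Cfsg.Agent.Lead.UniqSub

set_option autoImplicit false
open Cfsg

namespace Cfsg.Agent.S4189

theorem aut_pow_fix {P : Type*} [Group P] (φ : MulAut P) (x : P) (h : φ x = x) (n : ℕ) :
    (φ ^ n) x = x := by
  induction n with
  | zero => simp
  | succ n ih => rw [pow_succ φ n, MulAut.mul_apply, h, ih]

theorem aut_two {P : Type*} [Group P] [Finite P] (a : P) (m : ℕ) (hm : 1 ≤ m)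
    (ha : orderOf a = 2 ^ m) (hidx : (Subgroup.zpowers a).index = 2)
    (hout : ∀ g : P, g ∉ Subgroup.zpowers a → g ^ 2 ^ (m - 1) = 1) :
    IsPGroup 2 (MulAut P) := by
  intro α
  have hlt : 2 ^ (m - 1) < 2 ^ m := Nat.pow_lt_pow_right (by norm_num) (by omega)
  have hnot : ¬ (a ^ 2 ^ (m - 1) = 1) := by
    intro h2
    have h3 := orderOf_dvd_of_pow_eq_one h2
    rw [ha] at h3
    have := Nat.le_of_dvd (by positivity) h3
    omega
  have hCa : α a ∈ Subgroup.zpowers a := by
    by_contra h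
    have h1 := hout _ h
    rw [← map_pow] at h1
    exact hnot ((map_eq_one_iff α α.injective).mp h1)
  obtain ⟨i, hi⟩ := Cfsg.Agent.Lead.exists_pow_of_mem_zpowers hCa
  have h2m : 2 ^ m = 2 * 2 ^ (m - 1) := by
    obtain ⟨j, rfl⟩ : ∃ j, m = j + 1 := ⟨m - 1, by omega⟩
    rw [show j + 1 - 1 = j by omega]; ring
  have hodd : ¬ 2 ∣ i := by
    rintro ⟨t, rfl⟩
    apply hnot
    have h1 : (α a) ^ 2 ^ (m - 1) = 1 := by
      rw [← hi, ← pow_mul]
      have e : 2 * t * 2 ^ (m - 1) = 2 ^ m * t := by rw [h2m]; ring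
      rw [e, pow_mul, ← ha, pow_orderOf_eq_one, one_pow]
    rw [← map_pow] at h1
    exact (map_eq_one_iff α α.injective).mp h1
  have hcop : Nat.Coprime i (2 ^ m) :=
    (((Nat.Prime.coprime_iff_not_dvd Nat.prime_two).mpr hodd).symm).pow_right m
  have hpow : ∀ n : ℕ, (α ^ n) a = a ^ (i ^ n) := by
    intro n
    induction n with
    | zero => simp
    | succ n ih =>
      rw [pow_succ α n, MulAut.mul_apply, ← hi, map_pow, ih, ← pow_mul, ← pow_succ]
  have hN : (α ^ 2 ^ (m - 1)) a = a := by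
    rw [hpow]
    have h1 : i ^ 2 ^ (m - 1) ≡ 1 [MOD 2 ^ m] := by
      have h2 := Nat.ModEq.pow_totient hcop
      rw [Nat.totient_prime_pow Nat.prime_two (by omega : 0 < m)] at h2
      simpa using h2
    have h3 : a ^ (i ^ 2 ^ (m - 1)) = a ^ 1 := by
      rw [pow_eq_pow_iff_modEq, ha]; exact h1
    rw [h3, pow_one]
  obtain ⟨β, hβ⟩ : ∃ β : MulAut P, β = α ^ 2 ^ (m - 1) := ⟨_, rfl⟩
  rw [← hβ] at hN
  have hβC : ∀ c ∈ Subgroup.zpowers a, β c = c := by
    intro c hc
    obtain ⟨j, rfl⟩ := Subgroup.mem_zpowers_iff.mp hc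
    rw [map_zpow, hN]
  have hex : ∃ b : P, b ∉ Subgroup.zpowers a := by
    by_contra hcon
    push_neg at hcon
    have : Subgroup.zpowers a = ⊤ := by rw [eq_top_iff]; intro x _; exact hcon x
    rw [this, Subgroup.index_top] at hidx
    omega
  obtain ⟨b, hb⟩ := hex
  have hβb : β b ∉ Subgroup.zpowers a := by
    intro h
    apply hb
    have h1 : β (β b) = β b := hβC _ h
    have h2 : β b = b := β.injective h1
    rw [← h2]; exact h
  have hc : b⁻¹ * β b ∈ Subgroup.zpowers a := by
    rw [Subgroup.mul_mem_iff_of_index_two hidx]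
    constructor
    · intro h; exact absurd ((Subgroup.zpowers a).inv_mem_iff.mp h) hb
    · intro h; exact absurd h hβb
  obtain ⟨c, hcdef⟩ : ∃ c : P, c = b⁻¹ * β b := ⟨_, rfl⟩
  rw [← hcdef] at hc
  have hβbc : β b = b * c := by rw [hcdef]; group
  have hcpow : c ^ 2 ^ m = 1 := by
    obtain ⟨j, hj⟩ := Cfsg.Agent.Lead.exists_pow_of_mem_zpowers hc
    rw [← hj, ← pow_mul, mul_comm, pow_mul, ← ha, pow_orderOf_eq_one, one_pow]
  have hbn : ∀ n : ℕ, (β ^ n) b = b * c ^ n := by
    intro n
    induction n with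
    | zero => simp
    | succ n ih =>
      rw [pow_succ' β n, MulAut.mul_apply, ih, map_mul, hβbc,
        hβC _ (Subgroup.pow_mem _ hc n), mul_assoc, ← pow_succ']
  have hγa : (β ^ 2 ^ m) a = a := aut_pow_fix β a hN _
  have hγb : (β ^ 2 ^ m) b = b := by rw [hbn, hcpow, mul_one]
  have hγC : ∀ c' ∈ Subgroup.zpowers a, (β ^ 2 ^ m) c' = c' := by
    intro c' hc'
    obtain ⟨j, rfl⟩ := Subgroup.mem_zpowers_iff.mp hc'
    rw [map_zpow, hγa]
  have hγ : β ^ 2 ^ m = 1 := by
    ext g
    show (β ^ 2 ^ m) g = g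
    by_cases hg : g ∈ Subgroup.zpowers a
    · exact hγC g hg
    · have h1 : b⁻¹ * g ∈ Subgroup.zpowers a := by
        rw [Subgroup.mul_mem_iff_of_index_two hidx]
        constructor
        · intro h; exact absurd ((Subgroup.zpowers a).inv_mem_iff.mp h) hb
        · intro h; exact absurd h hg
      have h7 : (β ^ 2 ^ m) (b * (b⁻¹ * g)) = b * (b⁻¹ * g) := by
        rw [map_mul, hγb, hγC _ h1]
      have e : b * (b⁻¹ * g) = g := by group
      rw [e] at h7; exact h7
  refine ⟨(m - 1) + m, ?_⟩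
  rw [pow_add, pow_mul, ← hβ]; exact hγ

theorem aut_dihedral (k : ℕ) : IsPGroup 2 (MulAut (DihedralGroup (2 ^ (k + 2)))) := by
  haveI : NeZero (2 ^ (k + 2)) := ⟨by positivity⟩
  have hr : ∀ i : ZMod (2 ^ (k + 2)), DihedralGroup.r i ∈
      Subgroup.zpowers (DihedralGroup.r (1 : ZMod (2 ^ (k + 2)))) := by
    intro i
    have h1 := DihedralGroup.r_one_pow (n := 2 ^ (k + 2)) i.val
    rw [ZMod.natCast_zmod_val] at h1
    rw [← h1]; exact Subgroup.pow_mem _ (Subgroup.mem_zpowers _) _
  apply aut_two (DihedralGroup.r 1) (k + 2) (by omega) DihedralGroup.orderOf_r_one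
  · have h1 := Subgroup.card_mul_index
      (Subgroup.zpowers (DihedralGroup.r (1 : ZMod (2 ^ (k + 2)))))
    rw [Nat.card_zpowers, DihedralGroup.orderOf_r_one, DihedralGroup.nat_card] at h1
    exact Nat.eq_of_mul_eq_mul_left (by positivity) (h1.trans (mul_comm 2 _))
  · intro g hg
    cases g with
    | r i => exact absurd (hr i) hg
    | sr i =>
      have h1 : (DihedralGroup.sr i) ^ 2 = 1 := by
        rw [pow_two]; exact DihedralGroup.sr_mul_self i
      have e : 2 ^ (k + 2 - 1) = 2 * 2 ^ k := by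
        rw [show k + 2 - 1 = k + 1 by omega]; ring
      rw [e, pow_mul, h1, one_pow]

theorem aut_quaternion (k : ℕ) (hk : 1 ≤ k) :
    IsPGroup 2 (MulAut (QuaternionGroup (2 ^ (k + 1)))) := by
  haveI : NeZero (2 ^ (k + 1)) := ⟨by positivity⟩
  haveI : NeZero (2 * 2 ^ (k + 1)) := ⟨by positivity⟩
  have hord : orderOf (QuaternionGroup.a (1 : ZMod (2 * 2 ^ (k + 1)))) = 2 ^ (k + 2) := by
    rw [QuaternionGroup.orderOf_a_one]; ring
  have hr : ∀ i : ZMod (2 * 2 ^ (k + 1)), QuaternionGroup.a i ∈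
      Subgroup.zpowers (QuaternionGroup.a (1 : ZMod (2 * 2 ^ (k + 1)))) := by
    intro i
    have h1 := QuaternionGroup.a_one_pow (n := 2 ^ (k + 1)) i.val
    rw [ZMod.natCast_zmod_val] at h1
    rw [← h1]; exact Subgroup.pow_mem _ (Subgroup.mem_zpowers _) _
  have e : ∀ k : ℕ, 1 ≤ k → 2 ^ (k + 2 - 1) = 4 * 2 ^ (k - 1) := by
    intro k hk
    obtain ⟨j, rfl⟩ : ∃ j, k = j + 1 := ⟨k - 1, by omega⟩
    rw [show j + 1 + 2 - 1 = j + 2 by omega, show j + 1 - 1 = j by omega]; ring
  apply aut_two (QuaternionGroup.a 1) (k + 2) (by omega) hord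
  · have h1 := Subgroup.card_mul_index
      (Subgroup.zpowers (QuaternionGroup.a (1 : ZMod (2 * 2 ^ (k + 1)))))
    rw [Nat.card_zpowers, hord, Nat.card_eq_fintype_card, QuaternionGroup.card] at h1
    have e2 : 4 * 2 ^ (k + 1) = 2 ^ (k + 2) * 2 := by ring
    exact Nat.eq_of_mul_eq_mul_left (by positivity) (h1.trans e2)
  · intro g hg
    cases g with
    | a i => exact absurd (hr i) hg
    | xa i =>
      have h1 : (QuaternionGroup.xa i) ^ 4 = 1 := QuaternionGroup.xa_pow_four i
      rw [e k hk, pow_mul, h1, one_pow]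

theorem aut_semidihedral {P : Type*} [Group P] [Finite P] (k : ℕ)
    (hcard : Nat.card P = 2 ^ (k + 4)) (a b : P) (ha : orderOf a = 2 ^ (k + 3))
    (hb : orderOf b = 2) (hba : b * a * b⁻¹ = a ^ (2 ^ (k + 2) - 1)) :
    IsPGroup 2 (MulAut P) := by
  have hidx : (Subgroup.zpowers a).index = 2 := by
    have h1 := Subgroup.card_mul_index (Subgroup.zpowers a)
    rw [Nat.card_zpowers, ha, hcard] at h1
    have e : 2 ^ (k + 4) = 2 ^ (k + 3) * 2 := by ring
    exact Nat.eq_of_mul_eq_mul_left (by positivity) (h1.trans e)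
  have hbb : b * b = 1 := by rw [← pow_two, ← hb]; exact pow_orderOf_eq_one b
  have hbinv : b⁻¹ = b := inv_eq_of_mul_eq_one_left hbb
  have h4 : (4:ℕ) ≤ 2 ^ (k + 2) := by
    have h := Nat.pow_le_pow_right (show 0 < 2 by norm_num) (show 2 ≤ k + 2 by omega)
    norm_num at h
    exact h
  obtain ⟨N, hN⟩ : ∃ N, 2 ^ (k + 2) = N + 1 := ⟨2 ^ (k + 2) - 1, by omega⟩
  have hN' : 2 ^ (k + 2) - 1 = N := by omega
  rw [hN'] at hba
  have h6 : 2 ^ (k + 3) = 2 * (N + 1) := by rw [← hN]; ring
  have hbC : b ∉ Subgroup.zpowers a := by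
    intro h
    obtain ⟨j, hj⟩ := Subgroup.mem_zpowers_iff.mp h
    have hcomm : b * a * b⁻¹ = a := by
      rw [← hj]; group
    rw [hcomm] at hba
    have h2 : a ^ N = a ^ 1 := by rw [pow_one]; exact hba.symm
    rw [pow_eq_pow_iff_modEq, ha] at h2
    have h3 := (Nat.modEq_iff_dvd' (by omega : 1 ≤ N)).mp h2.symm
    have h5 := Nat.le_of_dvd (by omega) h3
    omega
  apply aut_two a (k + 3) (by omega) ha hidx
  intro g hg
  have h1 : b⁻¹ * g ∈ Subgroup.zpowers a := by
    rw [Subgroup.mul_mem_iff_of_index_two hidx]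
    constructor
    · intro h; exact absurd ((Subgroup.zpowers a).inv_mem_iff.mp h) hbC
    · intro h; exact absurd h hg
  obtain ⟨i, hi⟩ := Cfsg.Agent.Lead.exists_pow_of_mem_zpowers h1
  have hg' : g = b * a ^ i := by rw [hi]; group
  have h2 : (b * a * b⁻¹) ^ i = b * a ^ i * b⁻¹ := conj_pow
  rw [hba, hbinv] at h2
  have hsq : g ^ 2 = a ^ (N * i + i) := by
    rw [hg', pow_two, ← mul_assoc (b * a ^ i) b (a ^ i), ← h2, ← pow_mul, ← pow_add]
  have hg4 : g ^ 4 = 1 := by
    have e4 : g ^ 4 = (g ^ 2) ^ 2 := pow_mul g 2 2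
    rw [e4, hsq, ← pow_mul]
    have e5 : (N * i + i) * 2 = 2 ^ (k + 3) * i := by rw [h6]; ring
    rw [e5, pow_mul, ← ha, pow_orderOf_eq_one, one_pow]
  have e : 2 ^ (k + 3 - 1) = 4 * 2 ^ k := by
    rw [show k + 3 - 1 = k + 2 by omega]; ring
  rw [e, pow_mul, hg4, one_pow]

open Subgroup in
theorem klein_struct {S : Type*} [Group S] [Finite S] (h2 : IsPGroup 2 S)
    (hab : Nat.card (Abelianization S) = 4) :
    Nat.card S = 4 ∨
    ((∃ k : ℕ, Nonempty (S ≃* DihedralGroup (2 ^ (k + 2)))) ∨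
      (∃ k : ℕ, Nat.card S = 2 ^ (k + 4) ∧ ∃ a b : S, orderOf a = 2 ^ (k + 3) ∧ orderOf b = 2 ∧ b * a * b⁻¹ = a ^ (2 ^ (k + 2) - 1)) ∨
      (∃ k : ℕ, Nonempty (S ≃* QuaternionGroup (2 ^ (k + 1))))) := by
  classical
  haveI : Fact (Nat.Prime 2) := ⟨Nat.prime_two⟩
  obtain ⟨n, hn⟩ := h2.exists_card_eq
  have hidx : (commutator S).index = 4 := by
    rw [Subgroup.index_eq_card]; exact hab
  have hn2 : 2 ≤ n := by
    have h1 := Subgroup.card_mul_index (commutator S)
    rw [hidx, hn] at h1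
    rcases Nat.lt_or_ge n 2 with hlt | hge
    · exfalso
      have h3 : 2 ^ n < 4 := by
        calc 2 ^ n ≤ 2 ^ 1 := Nat.pow_le_pow_right (by norm_num) (by omega)
          _ < 4 := by norm_num
      have h4 : 0 < Nat.card (commutator S) := Nat.card_pos
      omega
    · exact hge
  by_cases hn3 : n = 2
  · left; rw [hn, hn3]; norm_num
  right
  have hn3' : 3 ≤ n := by omega
  have hc := Cfsg.Agent.S0115.backward n S hn3' hn hidx
  obtain ⟨hZcard, hnc⟩ := Cfsg.Agent.S0114.center_card_two n S hn3' hn hc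
  obtain ⟨C, hCc, hCi⟩ := Cfsg.Agent.S0113.aux n S hn3' hn hc
  haveI := hCc
  obtain ⟨⟨a, haC⟩, hgen⟩ := IsCyclic.exists_generator (α := C)
  have hCform : ∀ g ∈ C, ∃ i : ℤ, g = a ^ i := by
    intro g hg
    obtain ⟨i, hi⟩ := Subgroup.mem_zpowers_iff.mp (hgen ⟨g, hg⟩)
    refine ⟨i, ?_⟩
    have h1 := congrArg Subtype.val hi
    simpa using h1.symm
  obtain ⟨b, hbC⟩ : ∃ b : S, b ∉ C := by
    by_contra hcon
    push_neg at hcon
    have hCtop : C = ⊤ := eq_top_iff.mpr (fun g _ => hcon g)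
    rw [hCtop, Subgroup.index_top] at hCi
    omega
  obtain ⟨hbg, hcent, hb2Z, htaZ, hcomm_of⟩ :=
    Cfsg.Agent.S0114.index_two_struct C hCi a haC hCform b hbC
  have hba : b * a ≠ a * b := fun h => hnc (hcomm_of h)
  have hCz : C = Subgroup.zpowers a :=
    le_antisymm (fun g hg => by
      obtain ⟨i, rfl⟩ := hCform g hg
      exact Subgroup.zpow_mem_zpowers a i) (Subgroup.zpowers_le.mpr haC)
  have hCcard : Nat.card C = 2 ^ (n - 1) := by
    have h1 := Subgroup.card_mul_index C
    rw [hCi, hn] at h1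
    have h2' : 2 ^ n = 2 ^ (n - 1) * 2 := by
      rw [← pow_succ]; congr 1; omega
    exact Nat.eq_of_mul_eq_mul_right (by norm_num) (h1.trans h2')
  have hoa : orderOf a = 2 ^ (n - 1) := by
    rw [← Nat.card_zpowers, ← hCz]; exact hCcard
  obtain ⟨w, hw⟩ : ∃ w : S, w = a ^ 2 ^ (n - 2) := ⟨_, rfl⟩
  have hw2 : w ^ 2 = 1 := by
    rw [hw, ← pow_mul, ← pow_succ]
    have e : n - 2 + 1 = n - 1 := by omega
    rw [e, ← hoa]; exact pow_orderOf_eq_one a
  have hw1 : w ≠ 1 := by
    intro h0
    rw [hw] at h0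
    have h1 := orderOf_dvd_of_pow_eq_one h0
    rw [hoa] at h1
    have h3 := Nat.le_of_dvd (by positivity) h1
    have h4 : 2 ^ (n - 2) < 2 ^ (n - 1) := Nat.pow_lt_pow_right (by norm_num) (by omega)
    omega
  have hwC : w ∈ C := by rw [hw]; exact pow_mem haC _
  have hwinv : w⁻¹ = w := by
    rw [inv_eq_iff_mul_eq_one, ← pow_two]; exact hw2
  obtain ⟨c, hcdef⟩ : ∃ c : S, c = b * a * b⁻¹ * a := ⟨_, rfl⟩
  have hcZ : c ∈ Subgroup.center S := by rw [hcdef]; exact htaZ
  have hbab : b * a * b⁻¹ = c * a⁻¹ := by rw [hcdef]; group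
  have hcen2 : ∀ u ∈ Subgroup.center S, u ^ 2 = 1 := by
    intro u hu
    have h1 : (⟨u, hu⟩ : Subgroup.center S) ^ Nat.card (Subgroup.center S) = 1 :=
      pow_card_eq_one'
    rw [hZcard] at h1
    have h3 := congrArg Subtype.val h1
    simpa using h3
  have hc2 : c ^ 2 = 1 := hcen2 c hcZ
  have hbw : b * w = w * b := by
    have h1 : b * w * b⁻¹ = (b * a * b⁻¹) ^ 2 ^ (n - 2) := by rw [hw, conj_pow]
    have hcomm : Commute c a⁻¹ := (Subgroup.mem_center_iff.mp hcZ a⁻¹).symm
    rw [hbab, hcomm.mul_pow] at h1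
    have h2' : c ^ 2 ^ (n - 2) = 1 := by
      obtain ⟨m, hm⟩ : ∃ m, n - 2 = m + 1 := ⟨n - 3, by omega⟩
      rw [hm, pow_succ, mul_comm, pow_mul, hc2, one_pow]
    have h3 : (a⁻¹) ^ 2 ^ (n - 2) = w⁻¹ := by rw [hw, inv_pow]
    rw [h2', one_mul, h3, hwinv] at h1
    calc b * w = (b * w * b⁻¹) * b := by group
      _ = w * b := by rw [h1]
  have hwZ : w ∈ Subgroup.center S := hcent w hwC hbw
  have hZform : ∀ u ∈ Subgroup.center S, u = 1 ∨ u = w := by
    intro u hu
    have h1 : Subgroup.zpowers w = Subgroup.center S := by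
      apply Subgroup.eq_of_le_of_card_ge (Subgroup.zpowers_le.mpr hwZ)
      rw [hZcard, Nat.card_zpowers, orderOf_eq_prime hw2 hw1]
    exact Cfsg.Agent.Lead.eq_one_or_eq_of_mem_zpowers_sq (by rw [h1]; exact hu) hw2
  have hb1 : b ≠ 1 := by rintro rfl; exact hbC (one_mem C)
  have hwa : w * a⁻¹ = a ^ (2 ^ (n - 2) - 1) := by
    rw [hw]
    have e : 2 ^ (n - 2) = (2 ^ (n - 2) - 1) + 1 := by
      have h5 := Nat.one_le_two_pow (n := n - 2)
      omega
    conv_lhs => rw [e]
    rw [pow_succ, mul_inv_cancel_right]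
  have hwcomm : ∀ g : S, g * w = w * g := Subgroup.mem_center_iff.mp hwZ
  rcases hZform c hcZ with hc1 | hcw
  · have hbab' : b * a * b⁻¹ = a⁻¹ := by rw [hbab, hc1, one_mul]
    rcases hZform (b * b) hb2Z with hbb | hbb
    · -- dihedral
      left
      refine ⟨n - 3, ?_⟩
      have hob : orderOf b = 2 := orderOf_eq_prime (by rw [pow_two]; exact hbb) hb1
      have hba2 : (b * a) * (b * a) = 1 := by
        calc b * a * (b * a) = (b * a * b⁻¹) * (b * b) * a := by group
          _ = a⁻¹ * 1 * a := by rw [hbab', hbb]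
          _ = 1 := by group
      have hoba : orderOf (b * a) = 2 := orderOf_eq_prime (by rw [pow_two]; exact hba2) (by
        intro h0
        apply hbC
        have h5 : b = a⁻¹ := eq_inv_of_mul_eq_one_left h0
        rw [h5]; exact inv_mem haC)
      have hne : b ≠ b * a := by
        intro h0
        have h5 : b * 1 = b * a := by rw [mul_one]; exact h0
        have ha1 : a = 1 := (mul_left_cancel h5).symm
        exact hba (by rw [ha1, mul_one, one_mul])
      have hres := Cfsg.Agent.S0206.result b (b * a) hob hoba hne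
      have htop : Subgroup.closure ({b, b * a} : Set S) = ⊤ := by
        rw [eq_top_iff]
        intro g _
        have hb_mem : b ∈ Subgroup.closure ({b, b * a} : Set S) :=
          Subgroup.subset_closure (Set.mem_insert _ _)
        have hba_mem : b * a ∈ Subgroup.closure ({b, b * a} : Set S) :=
          Subgroup.subset_closure (Set.mem_insert_of_mem _ rfl)
        have ha_mem : a ∈ Subgroup.closure ({b, b * a} : Set S) := by
          have e : b⁻¹ * (b * a) = a := by group
          have h6 := mul_mem (inv_mem hb_mem) hba_mem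
          rw [e] at h6; exact h6
        have hC_le : C ≤ Subgroup.closure ({b, b * a} : Set S) := by
          rw [hCz, Subgroup.zpowers_le]; exact ha_mem
        by_cases hg : g ∈ C
        · exact hC_le hg
        · have h7 := mul_mem hb_mem (hC_le (hbg g hg))
          have e : b * (b⁻¹ * g) = g := by group
          rw [e] at h7; exact h7
      have hord : orderOf (b * (b * a)) = 2 ^ (n - 3 + 2) := by
        have e : b * (b * a) = a := by rw [← mul_assoc, hbb, one_mul]
        rw [e, hoa]; congr 1; omega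
      rw [hord] at hres
      obtain ⟨e⟩ := hres
      exact ⟨(Subgroup.topEquiv.symm.trans (MulEquiv.subgroupCongr htop.symm)).trans e⟩
    · -- quaternion
      right; right
      have hconj : ∀ i : ℤ, b * a ^ i * b⁻¹ = (a ^ i)⁻¹ := by
        intro i
        rw [← conj_zpow, hbab', inv_zpow]
      have hinv : ∀ g : S, g ^ 2 = 1 → g = 1 ∨ g = w := by
        intro g hg
        by_cases hgC : g ∈ C
        · obtain ⟨i, rfl⟩ := hCform g hgC
          apply hZform
          apply hcent _ hgC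
          have h2' : (a ^ i)⁻¹ = a ^ i := by
            rw [inv_eq_iff_mul_eq_one, ← pow_two]; exact hg
          calc b * a ^ i = (b * a ^ i * b⁻¹) * b := by group
            _ = a ^ i * b := by rw [hconj i, h2']
        · exfalso
          obtain ⟨i, hi⟩ := hCform _ (hbg g hgC)
          have hgb : g = b * a ^ i := by rw [← hi]; group
          have h3 : g ^ 2 = w := by
            rw [hgb, pow_two]
            calc b * a ^ i * (b * a ^ i) = (b * a ^ i * b⁻¹) * (b * b) * a ^ i := by group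
              _ = (a ^ i)⁻¹ * w * a ^ i := by rw [hconj i, hbb]
              _ = w := by
                rw [mul_assoc, ← hwcomm (a ^ i), inv_mul_cancel_left]
          rw [h3] at hg
          exact hw1 hg
      have huniq : ∀ H K : Subgroup S, Nat.card H = 2 → Nat.card K = 2 → H = K := by
        have key : ∀ H : Subgroup S, Nat.card H = 2 → H = Subgroup.zpowers w := by
          intro H hH
          haveI : Nontrivial H := Finite.one_lt_card_iff_nontrivial.mp (by rw [hH]; norm_num)
          obtain ⟨⟨g, hgH⟩, hg1⟩ := exists_ne (1 : H)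
          have hg2 : g ^ 2 = 1 := by
            have h1 : (⟨g, hgH⟩ : H) ^ Nat.card H = 1 := pow_card_eq_one'
            rw [hH] at h1
            have h3 := congrArg Subtype.val h1
            simpa using h3
          have hgw : g = w := by
            rcases hinv g hg2 with h0 | h0
            · exact absurd (Subtype.ext h0) hg1
            · exact h0
          symm
          apply Subgroup.eq_of_le_of_card_ge (Subgroup.zpowers_le.mpr (by rw [← hgw]; exact hgH))
          rw [hH, Nat.card_zpowers, orderOf_eq_prime hw2 hw1]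
        intro H K hH hK
        rw [key H hH, key K hK]
      rcases Cfsg.Agent.S0016.result 2 h2 huniq with hcyc | ⟨-, m, ⟨e⟩⟩
      · exfalso
        haveI := hcyc
        obtain ⟨g, hg⟩ := IsCyclic.exists_generator (α := S)
        apply hnc
        intro x y
        obtain ⟨i, rfl⟩ := Subgroup.mem_zpowers_iff.mp (hg x)
        obtain ⟨j, rfl⟩ := Subgroup.mem_zpowers_iff.mp (hg y)
        exact zpow_mul_comm g i j
      · have hm : m ≠ 0 := by
          rintro rfl
          haveI : NeZero (2 ^ 0) := ⟨by norm_num⟩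
          have h1 := Nat.card_congr e.toEquiv
          rw [hn, Nat.card_eq_fintype_card, QuaternionGroup.card] at h1
          have h2' : 2 ^ 3 ≤ 2 ^ n := Nat.pow_le_pow_right (by norm_num) hn3'
          norm_num at h1 h2'
          omega
        obtain ⟨k, rfl⟩ : ∃ k, m = k + 1 := ⟨m - 1, by omega⟩
        exact ⟨k, ⟨e⟩⟩
  · -- semidihedral
    right; left
    have hbab' : b * a * b⁻¹ = w * a⁻¹ := by rw [hbab, hcw]
    have hn4 : 4 ≤ n := by
      by_contra hlt
      have hn3'' : n = 3 := by omega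
      apply hba
      have h1 : b * a * b⁻¹ = a := by
        rw [hbab', hwa, hn3'']; norm_num
      calc b * a = (b * a * b⁻¹) * b := by group
        _ = a * b := by rw [h1]
    have hrel : ∀ b' : S, b' * a * b'⁻¹ = w * a⁻¹ →
        b' * a * b'⁻¹ = a ^ (2 ^ (n - 4 + 2) - 1) := by
      intro b' hb'
      have e : n - 4 + 2 = n - 2 := by omega
      rw [e, ← hwa]; exact hb'
    have hcard : Nat.card S = 2 ^ (n - 4 + 4) := by
      rw [hn]; congr 1; omega
    have hoa' : orderOf a = 2 ^ (n - 4 + 3) := by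
      rw [hoa]; congr 1; omega
    rcases hZform (b * b) hb2Z with hbb | hbb
    · exact ⟨n - 4, hcard, a, b, hoa',
        orderOf_eq_prime (by rw [pow_two]; exact hbb) hb1, hrel b hbab'⟩
    · have hawa : a * (w * a⁻¹) = w := by
        rw [← mul_assoc, hwcomm a, mul_assoc, mul_inv_cancel, mul_one]
      have hab2 : (a * b) * (a * b) = 1 := by
        calc a * b * (a * b) = a * (b * a * b⁻¹) * (b * b) := by group
          _ = a * (w * a⁻¹) * w := by rw [hbab', hbb]
          _ = w * w := by rw [hawa]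
          _ = 1 := by rw [← pow_two]; exact hw2
      have hab1 : a * b ≠ 1 := by
        intro h0
        apply hbC
        have h5 : b = a⁻¹ := (eq_inv_of_mul_eq_one_left h0 : a = b⁻¹) ▸ (inv_inv b).symm
        rw [h5]; exact inv_mem haC
      refine ⟨n - 4, hcard, a, a * b, hoa',
        orderOf_eq_prime (by rw [pow_two]; exact hab2) hab1, hrel (a * b) ?_⟩
      calc a * b * a * (a * b)⁻¹ = a * (b * a * b⁻¹) * a⁻¹ := by group
        _ = a * (w * a⁻¹) * a⁻¹ := by rw [hbab']
        _ = w * a⁻¹ := by rw [hawa]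

/-- Let P be a finite non-abelian 2-group whose commutator subgroup has index 4 and whose automorphism group is not a 2-group (some automorphism has order that is not a power of 2). Then P is isomorphic to the quaternion group of order 8. -/
theorem result {P : Type*} [Group P] [Finite P] (hP : IsPGroup 2 P) (hna : ¬ IsMulCommutative P) (h4 : (commutator P).index = 4) (haut : ¬ IsPGroup 2 (MulAut P)) : Nonempty (P ≃* QuaternionGroup 2) := by
  haveI : Fact (Nat.Prime 2) := ⟨Nat.prime_two⟩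
  have hab : Nat.card (Abelianization P) = 4 := h4
  rcases klein_struct hP hab with h | ⟨k, ⟨e⟩⟩ | ⟨k, hcard, a, b, ha, hb, hba⟩ | ⟨k, ⟨e⟩⟩
  · exfalso
    apply hna
    have hc := IsPGroup.commutative_of_card_eq_prime_sq (p := 2) (G := P) (by rw [h]; norm_num)
    exact ⟨⟨hc⟩⟩
  · exfalso
    exact haut ((aut_dihedral k).of_equiv (MulAut.congr e.symm))
  · exfalso
    exact haut (aut_semidihedral k hcard a b ha hb hba)
  · by_cases hk : k = 0
    · subst hk
      exact ⟨e⟩
    · exfalso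
      exact haut ((aut_quaternion k (by omega)).of_equiv (MulAut.congr e.symm))


end Cfsg.Agent.S4189
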