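import Cfsg.Statements.S3116
import Mathlib
import Cfsg.Agent.S4189

set_option autoImplicit false
open Cfsg

namespace Cfsg.Agent.S3116

/-- The automorphism group of a dihedral 2-group of order at least 8, or of a quasi-dihedral (semidihedral) 2-group of order at least 16, is a 2-group. -/
theorem result {X : Type*} [Group X] [Finite X] (h2 : IsPGroup 2 X)
    (h : (∃ n : ℕ, 4 ≤ n ∧ Nonempty (X ≃* DihedralGroup n)) ∨ Cfsg.IsQuasiDihedral X) : IsPGroup 2 (MulAut X) := by
  haveI : Fact (Nat.Prime 2) := ⟨Nat.prime_two⟩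
  rcases h with ⟨n, hn4, ⟨e⟩⟩ | ⟨n, hn3, hcard, x, y, hx, hy, hyx⟩
  · obtain ⟨j, hj⟩ := IsPGroup.iff_card.mp h2
    have hc : Nat.card X = 2 * n := by
      rw [Nat.card_congr e.toEquiv, DihedralGroup.nat_card]
    have hdvd : n ∣ 2 ^ j := by
      rw [← hj, hc]; exact dvd_mul_left n 2
    obtain ⟨i, -, hi⟩ := (Nat.dvd_prime_pow Nat.prime_two).mp hdvd
    have hi2 : 2 ≤ i := by
      by_contra hcon
      have hi1 : i ≤ 1 := by omega
      have h5 := Nat.pow_le_pow_right (show 0 < 2 by norm_num) hi1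
      norm_num at h5
      omega
    obtain ⟨k, rfl⟩ : ∃ k, i = k + 2 := ⟨i - 2, by omega⟩
    subst hi
    exact (Cfsg.Agent.S4189.aut_dihedral k).of_equiv (MulAut.congr e.symm)
  · obtain ⟨k, rfl⟩ : ∃ k, n = k + 3 := ⟨n - 3, by omega⟩
    have h1 : k + 3 - 1 = k + 2 := by omega
    have h2' : k + 3 + 1 = k + 4 := by omega
    rw [h1] at hyx
    rw [h2'] at hcard
    exact Cfsg.Agent.S4189.aut_semidihedral k hcard x y hx hy hyx


end Cfsg.Agent.S3116
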