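import Cfsg.Statements.S3155
import Mathlib

set_option autoImplicit false
open Cfsg

namespace Cfsg.Agent.S3155

theorem no_sq_neg_one : ∀ d : ZMod 4, d * d ≠ -1 := by decide

theorem key (σ : (ZMod 4 × ZMod 4 × ZMod 4) →+ (ZMod 4 × ZMod 4 × ZMod 4))
    (h : ∀ a, σ (σ a) = -a) : False := by
  let f : (ZMod 4 × ZMod 4 × ZMod 4) →ₗ[ZMod 4] (ZMod 4 × ZMod 4 × ZMod 4) :=
    AddMonoidHom.toZModLinearMap 4 σ
  have hf : f.comp f = (-1 : ZMod 4) • LinearMap.id := by
    refine LinearMap.ext fun a => ?_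
    show σ (σ a) = (-1 : ZMod 4) • a
    rw [h a, neg_smul, one_smul]
  have hdet := congrArg LinearMap.det hf
  rw [LinearMap.det_comp, LinearMap.det_smul, LinearMap.det_id] at hdet
  haveI : Fact (1 < 4) := ⟨by norm_num⟩
  have hrank : Module.finrank (ZMod 4) (ZMod 4 × ZMod 4 × ZMod 4) = 3 := by
    rw [Module.finrank_prod, Module.finrank_prod, Module.finrank_self]
  rw [hrank] at hdet
  apply no_sq_neg_one (LinearMap.det f)
  rw [hdet]
  decide

/-- Let B be the direct product of three cyclic groups of order 4. Then the automorphism of B inverting every element is not the square of any automorphism of B. -/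
theorem result {B : Type*} [CommGroup B] [Finite B] (hB : Nonempty (B ≃* Multiplicative (ZMod 4 × ZMod 4 × ZMod 4)))
    (τ : B ≃* B) : τ.trans τ ≠ MulEquiv.inv B := by
  intro hτ
  obtain ⟨e⟩ := hB
  have hτ' : ∀ b : B, τ (τ b) = b⁻¹ := by
    intro b
    have := congrArg (fun φ : B ≃* B => φ b) hτ
    simpa using this
  let σ : (ZMod 4 × ZMod 4 × ZMod 4) →+ (ZMod 4 × ZMod 4 × ZMod 4) :=
    AddMonoidHom.toMultiplicative.symm ((e.toMonoidHom.comp τ.toMonoidHom).comp e.symm.toMonoidHom)
  apply key σ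
  intro a
  show Multiplicative.toAdd (e (τ (e.symm (Multiplicative.ofAdd
    (Multiplicative.toAdd (e (τ (e.symm (Multiplicative.ofAdd a))))))))) = -a
  simp [hτ']

end Cfsg.Agent.S3155
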