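import Cfsg.Statements.S3180
import Cfsg.Agent.Helper4.Alperin2

set_option autoImplicit false
open Cfsg

namespace Cfsg.Agent.S3180

/-- Let P be a Sylow p-subgroup of a finite group J and P₁ a subgroup of P that is weakly closed in P with respect to J. If J acts on a set and two points, each fixed by every element of P₁, lie in one J-orbit, then they lie in one orbit of the normalizer of P₁ in J. -/
theorem result {J : Type*} [Group J] [Finite J]
    {p : ℕ} [Fact p.Prime] (P : Sylow p J) (P₁ : Subgroup J) (hW : Cfsg.IsWeaklyClosed P₁ (P : Subgroup J))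
    {Ω : Type*} [MulAction J Ω] (x y : Ω) (hx : ∀ g ∈ P₁, g • x = x) (hy : ∀ g ∈ P₁, g • y = y)
    (hc : ∃ g : J, g • x = y) :
    ∃ g ∈ Subgroup.normalizer (P₁ : Set J), g • x = y := by
  classical
  obtain ⟨g, hg⟩ := hc
  obtain ⟨hP₁P, hwc⟩ := hW
  have hP₁p : IsPGroup p P₁ := P.2.to_le hP₁P
  have hP₁x : P₁ ≤ MulAction.stabilizer J x := fun q hq => MulAction.mem_stabilizer_iff.mpr (hx q hq)
  have hQ₂x : P₁.map (MulAut.conj g⁻¹).toMonoidHom ≤ MulAction.stabilizer J x := by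
    rintro _ ⟨q, hq, rfl⟩
    rw [MulAction.mem_stabilizer_iff]
    simp only [MulEquiv.toMonoidHom_eq_coe, MonoidHom.coe_coe, MulAut.conj_apply, inv_inv]
    rw [mul_smul, mul_smul, hg, hy q hq, ← hg, inv_smul_smul]
  obtain ⟨R, hR, hRidx⟩ := Helper4.exists_sylow_ge_inf_sylow (MulAction.stabilizer J x) P₁ hP₁p hP₁x
  obtain ⟨c, hc, hcQ⟩ := Helper4.exists_conj_le_of_relIndex (MulAction.stabilizer J x)
    ((R : Subgroup J) ⊓ MulAction.stabilizer J x) (P₁.map (MulAut.conj g⁻¹).toMonoidHom)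
    (R.2.to_le inf_le_left) hRidx (hP₁p.map _) hQ₂x
  obtain ⟨k, hk⟩ := MulAction.exists_smul_eq J P R
  -- k⁻¹ normalizes P₁
  have h1 : P₁.map (MulAut.conj k⁻¹).toMonoidHom = P₁ := by
    apply hwc
    rintro _ ⟨q, hq, rfl⟩
    have hqR : q ∈ ((k • P : Sylow p J) : Subgroup J) := by rw [hk]; exact hR hq
    rw [Helper4.mem_smul_sylow_iff] at hqR
    simpa [MulAut.conj_apply] using hqR
  -- k⁻¹ * (c * g⁻¹) normalizes P₁
  have h2 : P₁.map (MulAut.conj (k⁻¹ * (c * g⁻¹))).toMonoidHom = P₁ := by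
    apply hwc
    rintro _ ⟨q, hq, rfl⟩
    have h3 := (Subgroup.mem_inf.mp (hcQ _ ⟨q, hq, rfl⟩)).1
    have hqR : c * ((MulAut.conj g⁻¹).toMonoidHom q) * c⁻¹ ∈ ((k • P : Sylow p J) : Subgroup J) := by
      rw [hk]; exact h3
    rw [Helper4.mem_smul_sylow_iff] at hqR
    have e : (MulAut.conj (k⁻¹ * (c * g⁻¹))).toMonoidHom q =
        k⁻¹ * (c * ((MulAut.conj g⁻¹).toMonoidHom q) * c⁻¹) * k := by
      simp [MulAut.conj_apply, mul_assoc]
    rw [e]
    exact hqR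
  have hn1 : k⁻¹ ∈ Subgroup.normalizer (P₁ : Set J) := Subgroup.mem_normalizer_iff_map_conj_eq.mpr h1
  have hn2 : k⁻¹ * (c * g⁻¹) ∈ Subgroup.normalizer (P₁ : Set J) :=
    Subgroup.mem_normalizer_iff_map_conj_eq.mpr h2
  have hn3 : c * g⁻¹ ∈ Subgroup.normalizer (P₁ : Set J) := by
    have := Subgroup.mul_mem _ (Subgroup.inv_mem _ hn1) hn2
    simpa using this
  refine ⟨(c * g⁻¹)⁻¹, Subgroup.inv_mem _ hn3, ?_⟩
  have hcx : c⁻¹ • x = x := by
    have : c • x = x := MulAction.mem_stabilizer_iff.mp hc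
    rw [inv_smul_eq_iff, this]
  rw [mul_inv_rev, inv_inv, mul_smul, hcx, hg]

end Cfsg.Agent.S3180
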