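import Cfsg.Statements.S3190
import Cfsg.Agent.Helper5.Singer

set_option autoImplicit false
open Cfsg

namespace Cfsg.Agent.S3190

/-- Let p be an odd prime and, inside a finite group, let P be a p-subgroup normalized by a Klein four-group T. Let R be a subgroup of P, normal in P and normalized by T, such that P is the product of R with the centralizer of T in P. If T centralizes the centre of P, then T centralizes the centre of R. -/
theorem result {X : Type*} [Group X] [Finite X]
    {p : ℕ} (hp : p.Prime) (hodd : Odd p) (P T R : Subgroup X) (hP : IsPGroup p ↥P) (hT : IsKleinFour ↥T)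
    (hTP : T ≤ Subgroup.normalizer (P : Set X)) (hRP : R ≤ P) (hRn : (R.subgroupOf P).Normal)
    (hTR : T ≤ Subgroup.normalizer (R : Set X)) (hfac : R ⊔ (P ⊓ Subgroup.centralizer (T : Set X)) = P)
    (hZ : T ≤ Subgroup.centralizer (((Subgroup.center ↥P).map P.subtype : Subgroup X) : Set X)) :
    T ≤ Subgroup.centralizer (((Subgroup.center ↥R).map R.subtype : Subgroup X) : Set X) := by
  classical
  haveI : Fact p.Prime := ⟨hp⟩
  intro t ht
  have ht2 : t * t = 1 := by
    haveI := hT
    have h1 : (⟨t, ht⟩ : ↥T) ^ 2 = 1 := by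
      rw [← IsKleinFour.exponent_two (G := ↥T)]
      exact Monoid.pow_exponent_eq_one _
    have h2 := congrArg Subtype.val h1
    simpa [pow_two] using h2
  have htinv : t⁻¹ = t := inv_eq_of_mul_eq_one_left ht2
  have htN := hTR ht
  have htR : ∀ r ∈ R, t * r * t ∈ R := by
    intro r hr
    have h0 := (Subgroup.mem_normalizer_iff.mp htN r).mp hr
    rwa [htinv] at h0
  have hRc : ∀ x ∈ P, ∀ r ∈ R, x * r * x⁻¹ ∈ R := by
    intro x hx r hr
    have h1 := hRn.conj_mem ⟨r, hRP hr⟩ (Subgroup.mem_subgroupOf.mpr hr) ⟨x, hx⟩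
    exact Subgroup.mem_subgroupOf.mp h1
  obtain ⟨W, hWmem⟩ : ∃ W : Subgroup X, ∀ w, w ∈ W ↔
      (w ∈ R ∧ (∀ r ∈ R, r * w = w * r) ∧ t * w * t = w⁻¹) :=
    ⟨{ carrier := {w | w ∈ R ∧ (∀ r ∈ R, r * w = w * r) ∧ t * w * t = w⁻¹}
       mul_mem' := by
         rintro a b ⟨ha, hac, hat⟩ ⟨hb, hbc, hbt⟩
         refine ⟨R.mul_mem ha hb, ?_, ?_⟩
         · intro r hr
           rw [← mul_assoc, hac r hr, mul_assoc, hbc r hr, mul_assoc]
         · have h1 : t * (a * b) * t = (t * a * t) * (t * b * t) := by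
             calc t * (a * b) * t = t * a * (t * t) * b * t := by rw [ht2]; group
               _ = (t * a * t) * (t * b * t) := by group
           have h2 : a * b = b * a := hbc a ha
           rw [h1, hat, hbt, mul_inv_rev, ← mul_inv_rev, ← mul_inv_rev, h2]
       one_mem' := ⟨R.one_mem, fun r _ => by rw [mul_one, one_mul],
         by rw [mul_one, ht2, inv_one]⟩
       inv_mem' := by
         rintro a ⟨ha, hac, hat⟩
         refine ⟨R.inv_mem ha, ?_, ?_⟩
         · intro r hr
           have h0 := hac r hr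
           calc r * a⁻¹ = a⁻¹ * (a * r) * a⁻¹ := by group
             _ = a⁻¹ * (r * a) * a⁻¹ := by rw [h0]
             _ = a⁻¹ * r := by group
         · have h1 : t * a⁻¹ * t = (t * a * t)⁻¹ := by
             rw [mul_inv_rev, mul_inv_rev, htinv, mul_assoc]
           rw [h1, hat] }, fun w => Iff.rfl⟩
  have hWbot : W = ⊥ := by
    by_contra hne
    have hWP : W ≤ P := fun w hw => hRP ((hWmem w).mp hw).1
    have hcl : ∀ x, (x ∈ R ∨ (x ∈ P ∧ x * t = t * x)) → ∀ w ∈ W, x * w * x⁻¹ ∈ W := by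
      intro x hx w hw
      have hw' := (hWmem w).mp hw
      rcases hx with hx | ⟨hx, hxt⟩
      · rw [hw'.2.1 x hx, mul_inv_cancel_right]
        exact hw
      · rw [hWmem]
        refine ⟨hRc x hx w hw'.1, ?_, ?_⟩
        · intro r hr
          have hr' : x⁻¹ * r * x ∈ R := by
            have h0 := hRc x⁻¹ (P.inv_mem hx) r hr
            rwa [inv_inv] at h0
          have h1 := hw'.2.1 _ hr'
          calc r * (x * w * x⁻¹) = x * ((x⁻¹ * r * x) * w) * x⁻¹ := by group
            _ = x * (w * (x⁻¹ * r * x)) * x⁻¹ := by rw [h1]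
            _ = (x * w * x⁻¹) * r := by group
        · have hxt' : x⁻¹ * t = t * x⁻¹ := (Commute.inv_left (show Commute x t from hxt)).eq
          calc t * (x * w * x⁻¹) * t = (t * x) * w * (x⁻¹ * t) := by group
            _ = (x * t) * w * (t * x⁻¹) := by rw [← hxt, hxt']
            _ = x * (t * w * t) * x⁻¹ := by group
            _ = x * w⁻¹ * x⁻¹ := by rw [hw'.2.2]
            _ = (x * w * x⁻¹)⁻¹ := by group
    have hnorm : ∀ x, (x ∈ R ∨ (x ∈ P ∧ x * t = t * x)) →
        x ∈ Subgroup.normalizer (W : Set X) := by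
      intro x hx
      have hx' : x⁻¹ ∈ R ∨ (x⁻¹ ∈ P ∧ x⁻¹ * t = t * x⁻¹) := by
        rcases hx with hx | ⟨hx, hxt⟩
        · exact Or.inl (R.inv_mem hx)
        · exact Or.inr ⟨P.inv_mem hx, (Commute.inv_left (show Commute x t from hxt)).eq⟩
      rw [Subgroup.mem_normalizer_iff]
      intro w
      constructor
      · exact hcl x hx w
      · intro h
        have h0 := hcl x⁻¹ hx' _ h
        have e : x⁻¹ * (x * w * x⁻¹) * x⁻¹⁻¹ = w := by group
        rwa [e] at h0
    have hPN : P ≤ Subgroup.normalizer (W : Set X) := by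
      have h0 : R ⊔ (P ⊓ Subgroup.centralizer (T : Set X)) ≤ Subgroup.normalizer (W : Set X) := by
        apply sup_le
        · intro x hx
          exact hnorm x (Or.inl hx)
        · intro x hx
          obtain ⟨hx1, hx2⟩ := Subgroup.mem_inf.mp hx
          exact hnorm x (Or.inr ⟨hx1, (Subgroup.mem_centralizer_iff.mp hx2 t ht).symm⟩)
      rwa [hfac] at h0
    haveI hWn : (W.subgroupOf P).Normal :=
      (Subgroup.normal_subgroupOf_iff_le_normalizer hWP).mpr hPN
    haveI : Group.IsNilpotent ↥P := hP.isNilpotent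
    have hmeet : W.subgroupOf P ⊓ Subgroup.center ↥P ≠ ⊥ := by
      intro h
      have h0 := Cfsg.Agent.Helper5.eq_bot_of_inf_center_eq_bot_nilp (W.subgroupOf P) h
      rw [Subgroup.subgroupOf_eq_bot] at h0
      apply hne
      have h1 := disjoint_iff.mp h0
      rwa [inf_eq_left.mpr hWP] at h1
    rw [Ne, Subgroup.eq_bot_iff_forall] at hmeet
    push Not at hmeet
    obtain ⟨z, hz, hz1⟩ := hmeet
    obtain ⟨hzW, hzZ⟩ := Subgroup.mem_inf.mp hz
    rw [Subgroup.mem_subgroupOf, hWmem] at hzW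
    have hzc : (z : X) ∈ ((Subgroup.center ↥P).map P.subtype : Subgroup X) :=
      Subgroup.mem_map_of_mem _ hzZ
    have h1 := Subgroup.mem_centralizer_iff.mp (hZ ht) (z : X) hzc
    have h2 := hzW.2.2
    have h3 : (z : X) * (z : X) = 1 := by
      have h0 : (z : X)⁻¹ = (z : X) := by rw [← h2, ← h1, mul_assoc, ht2, mul_one]
      calc (z : X) * (z : X) = (z : X)⁻¹ * (z : X) := by rw [h0]
        _ = 1 := inv_mul_cancel _
    have h4 : z ^ 2 = 1 := Subtype.ext (by rw [pow_two]; exact h3)
    obtain ⟨k, hk⟩ := hP z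
    have hd1 : orderOf z ∣ 2 := orderOf_dvd_of_pow_eq_one h4
    have hd2 : orderOf z ∣ p ^ k := orderOf_dvd_of_pow_eq_one hk
    have hcop : Nat.Coprime 2 (p ^ k) := Nat.Coprime.pow_right k
      ((Nat.Prime.coprime_iff_not_dvd Nat.prime_two).mpr (fun h => by
        obtain ⟨m, hm⟩ := hodd
        omega))
    have hd3 : orderOf z ∣ Nat.gcd 2 (p ^ k) := Nat.dvd_gcd hd1 hd2
    rw [Nat.Coprime.gcd_eq_one hcop] at hd3
    exact hz1 (orderOf_eq_one_iff.mp (Nat.dvd_one.mp hd3))
  rw [Subgroup.mem_centralizer_iff]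
  rintro _ ⟨z, hz, rfl⟩
  have hzc : ∀ r ∈ R, r * (z : X) = (z : X) * r := by
    intro r hr
    have h0 := Subgroup.mem_center_iff.mp hz ⟨r, hr⟩
    exact congrArg Subtype.val h0
  have hcR : t * (z : X) * t ∈ R := htR _ z.2
  have hcc : ∀ r ∈ R, r * (t * (z : X) * t) = (t * (z : X) * t) * r := by
    intro r hr
    have h1 := hzc (t * r * t) (htR r hr)
    have e : t * ((t * r * t) * (z : X)) * t = (t * t) * r * (t * (z : X) * t) := by group
    calc r * (t * (z : X) * t) = t * ((t * r * t) * (z : X)) * t := by rw [e, ht2, one_mul]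
      _ = t * ((z : X) * (t * r * t)) * t := by rw [h1]
      _ = (t * (z : X) * t) * r * (t * t) := by group
      _ = (t * (z : X) * t) * r := by rw [ht2, mul_one]
  have huW : (z : X) * (t * (z : X) * t)⁻¹ ∈ W := by
    rw [hWmem]
    refine ⟨R.mul_mem z.2 (R.inv_mem hcR), ?_, ?_⟩
    · intro r hr
      have h1 := hzc r hr
      have h2 := hcc r hr
      have h3 : r * (t * (z : X) * t)⁻¹ = (t * (z : X) * t)⁻¹ * r := by
        calc r * (t * (z : X) * t)⁻¹
            = (t * (z : X) * t)⁻¹ * ((t * (z : X) * t) * r) * (t * (z : X) * t)⁻¹ := by group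
          _ = (t * (z : X) * t)⁻¹ * (r * (t * (z : X) * t)) * (t * (z : X) * t)⁻¹ := by rw [h2]
          _ = (t * (z : X) * t)⁻¹ * r := by group
      calc r * ((z : X) * (t * (z : X) * t)⁻¹) = (r * (z : X)) * (t * (z : X) * t)⁻¹ := by group
        _ = ((z : X) * r) * (t * (z : X) * t)⁻¹ := by rw [h1]
        _ = (z : X) * (r * (t * (z : X) * t)⁻¹) := by group
        _ = (z : X) * ((t * (z : X) * t)⁻¹ * r) := by rw [h3]
        _ = (z : X) * (t * (z : X) * t)⁻¹ * r := by group
    · have e1 : t * ((z : X) * (t * (z : X) * t)⁻¹) * t = t * (z : X) * t⁻¹ * (z : X)⁻¹ := by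
        group
      have e2 : ((z : X) * (t * (z : X) * t)⁻¹)⁻¹ = t * (z : X) * t * (z : X)⁻¹ := by group
      rw [e1, e2, htinv]
  rw [hWbot, Subgroup.mem_bot] at huW
  have hzt : (z : X) = t * (z : X) * t := mul_inv_eq_one.mp huW
  show (z : X) * t = t * (z : X)
  calc (z : X) * t = (t * (z : X) * t) * t := by rw [← hzt]
    _ = t * (z : X) := by rw [mul_assoc, ht2, mul_one]

end Cfsg.Agent.S3190
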