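import Cfsg.Statements.S3200
import Mathlib
import Cfsg.Agent.S0143
import Cfsg.Agent.Lead.Hall
import Cfsg.Agent.Lead.SylowBasic
-- import your own Cfsg.Agent.* helpers here

set_option autoImplicit false
open Cfsg

namespace Cfsg.Agent.S3200


universe u
open scoped Pointwise

theorem solv_of_card_pp {H : Type u} [Group H] [Finite H] (p n : ℕ) (hp : p.Prime)
    (h : Nat.card H = p ^ n) : Group.IsSolvable H := by
  haveI := Fact.mk hp
  haveI := (IsPGroup.of_card h).isNilpotent
  infer_instance

theorem relIndex_normal_dvd {H : Type u} [Group H] [Finite H] (C N : Subgroup H) [N.Normal] :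
    C.relIndex N ∣ C.index := by
  have h1 : C.relIndex (C ⊔ N) ∣ C.index := Subgroup.relIndex_dvd_index_of_le le_sup_left
  have ha : Nat.card N * N.relIndex (C ⊔ N) = Nat.card ↥(C ⊔ N) := by
    have := Subgroup.relIndex_mul_relIndex ⊥ N (C ⊔ N) bot_le le_sup_right
    rw [Subgroup.relIndex_bot_left, Subgroup.relIndex_bot_left] at this
    exact this
  have hb : Nat.card C * C.relIndex (C ⊔ N) = Nat.card ↥(C ⊔ N) := by
    have := Subgroup.relIndex_mul_relIndex ⊥ C (C ⊔ N) bot_le le_sup_left
    rw [Subgroup.relIndex_bot_left, Subgroup.relIndex_bot_left] at this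
    exact this
  have hc : Nat.card ↥(C ⊓ N) * C.relIndex N = Nat.card N := by
    have := Subgroup.relIndex_mul_relIndex ⊥ (C ⊓ N) N bot_le inf_le_right
    rw [Subgroup.relIndex_bot_left, Subgroup.relIndex_bot_left, Subgroup.inf_relIndex_right] at this
    exact this
  have hd : Nat.card ↥(C ⊓ N) * N.relIndex C = Nat.card C := by
    have := Subgroup.relIndex_mul_relIndex ⊥ (C ⊓ N) C bot_le inf_le_left
    rw [Subgroup.relIndex_bot_left, Subgroup.relIndex_bot_left, Subgroup.inf_relIndex_left] at this
    exact this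
  have he : N.relIndex (C ⊔ N) = N.relIndex C := Subgroup.relIndex_sup_right C N
  have hpos1 : 0 < Nat.card ↥(C ⊓ N) := Nat.card_pos
  have hpos2 : 0 < N.relIndex C := by
    rcases Nat.eq_zero_or_pos (N.relIndex C) with h0 | h0
    · rw [h0, mul_zero] at hd
      have : 0 < Nat.card C := Nat.card_pos
      omega
    · exact h0
  have hkey : C.relIndex N = C.relIndex (C ⊔ N) := by
    rw [he] at ha
    have e1 : Nat.card ↥(C ⊓ N) * C.relIndex N * N.relIndex C
        = Nat.card ↥(C ⊓ N) * N.relIndex C * C.relIndex (C ⊔ N) := by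
      rw [hc, ha, hd, hb]
    have e2 : (Nat.card ↥(C ⊓ N) * N.relIndex C) * C.relIndex N
        = (Nat.card ↥(C ⊓ N) * N.relIndex C) * C.relIndex (C ⊔ N) := by
      rw [← e1]; ring
    exact Nat.eq_of_mul_eq_mul_left (Nat.mul_pos hpos1 hpos2) e2
  rw [hkey]; exact h1

theorem solv_aux : ∀ (n : ℕ) (H : Type u) [Group H] [Finite H], Nat.card H = n →
    ∀ (C : Subgroup H), (∀ a ∈ C, ∀ b ∈ C, a * b = b * a) → ∀ k : ℕ, C.index = 2 ^ k →
    Group.IsSolvable H := by
  intro n
  induction n using Nat.strong_induction_on with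
  | _ n ih =>
    intro H _ _ hn C hC k hk
    by_cases hsimp : IsSimpleGroup H
    · haveI := hsimp
      by_cases hCbot : C = ⊥
      · rw [hCbot, Subgroup.index_bot] at hk
        exact solv_of_card_pp 2 k Nat.prime_two hk
      · obtain ⟨a, haC, ha1⟩ : ∃ a ∈ C, a ≠ (1 : H) := by
          by_contra hcon
          push Not at hcon
          apply hCbot
          rw [Subgroup.eq_bot_iff_forall]
          exact hcon
        have hle : C ≤ Subgroup.centralizer ({a} : Set H) := by
          intro c hc
          rw [Subgroup.mem_centralizer_singleton_iff]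
          exact hC c hc a haC
        have hdvd : (Subgroup.centralizer ({a} : Set H)).index ∣ 2 ^ k := by
          rw [← hk]; exact Subgroup.index_dvd_of_le hle
        obtain ⟨j, -, hj⟩ := (Nat.dvd_prime_pow Nat.prime_two).mp hdvd
        have hprime := Cfsg.Agent.S0143.result 2 j Nat.prime_two a ha1 hj
        exact solv_of_card_pp (Nat.card H) 1 hprime (pow_one _).symm
    · rcases subsingleton_or_nontrivial H with hsub | hnt
      · exact Group.isSolvable_of_comm (fun a b => Subsingleton.elim _ _)
      · obtain ⟨N, hNn, hNbot, hNtop⟩ : ∃ N : Subgroup H, N.Normal ∧ N ≠ ⊥ ∧ N ≠ ⊤ := by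
          by_contra hcon
          push Not at hcon
          apply hsimp
          exact { toNontrivial := hnt
                  eq_bot_or_eq_top_of_normal := fun N hN => by
                    by_cases hb : N = ⊥
                    · exact Or.inl hb
                    · exact Or.inr (hcon N hN hb) }
        haveI := hNn
        have hcN : Nat.card N < n := by
          rw [← hn]
          have h1 : Nat.card N ≤ Nat.card H := Subgroup.card_le_card_group N
          have h2 : Nat.card N ≠ Nat.card H := fun h => hNtop ((Subgroup.card_eq_iff_eq_top N).mp h)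
          omega
        have hcQ : Nat.card (H ⧸ N) < n := by
          rw [← hn, Subgroup.card_eq_card_quotient_mul_card_subgroup N]
          have h1 : 1 < Nat.card N := (Subgroup.one_lt_card_iff_ne_bot N).mpr hNbot
          have h2 : 0 < Nat.card (H ⧸ N) := Nat.card_pos
          nlinarith
        haveI hsN : Group.IsSolvable ↥N := by
          have hd : (C.subgroupOf N).index ∣ 2 ^ k := by
            rw [← hk]; exact relIndex_normal_dvd C N
          obtain ⟨j, -, hj⟩ := (Nat.dvd_prime_pow Nat.prime_two).mp hd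
          refine ih _ hcN ↥N rfl (C.subgroupOf N) ?_ j hj
          intro a ha b hb
          exact Subtype.ext (hC a.1 (Subgroup.mem_subgroupOf.mp ha) b.1 (Subgroup.mem_subgroupOf.mp hb))
        haveI hsQ : Group.IsSolvable (H ⧸ N) := by
          have hd : (C.map (QuotientGroup.mk' N)).index ∣ 2 ^ k := by
            rw [← hk]; exact Subgroup.index_map_dvd C (QuotientGroup.mk'_surjective N)
          obtain ⟨j, -, hj⟩ := (Nat.dvd_prime_pow Nat.prime_two).mp hd
          refine ih _ hcQ (H ⧸ N) rfl (C.map (QuotientGroup.mk' N)) ?_ j hj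
          intro a ha b hb
          obtain ⟨x, hx, rfl⟩ := Subgroup.mem_map.mp ha
          obtain ⟨y, hy, rfl⟩ := Subgroup.mem_map.mp hb
          rw [← map_mul, ← map_mul, hC x hx y hy]
        exact Group.isSolvable_of_ker_le_range N.subtype (QuotientGroup.mk' N)
          (by rw [QuotientGroup.ker_mk', Subgroup.range_subtype])

theorem comm_of_conj {H : Type u} [Group H] (C E : Subgroup H) (g : H)
    (hC : ∀ a ∈ C, ∀ b ∈ C, a * b = b * a) (hg : MulAut.conj g • C = E) :
    ∀ a ∈ E, ∀ b ∈ E, a * b = b * a := by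
  intro a ha b hb
  rw [← hg, Cfsg.Agent.Lead.mem_conj_smul_iff] at ha hb
  have h := hC _ ha _ hb
  have e1 : a * b = g * (g⁻¹ * a * g * (g⁻¹ * b * g)) * g⁻¹ := by group
  rw [e1, h]; group

/-- Let H be a finite group in which a Sylow 2-subgroup has an abelian complement (an abelian subgroup meeting it trivially whose product with it is all of H). Then H is solvable, and every subgroup and every quotient group of H again has a Sylow 2-subgroup with an abelian complement. -/
theorem result {H : Type*} [Group H] [Finite H]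
    (S : Sylow 2 H) (C : Subgroup H) (hC : IsMulCommutative ↥C) (hSC : Subgroup.IsComplement' (S : Subgroup H) C) :
    Group.IsSolvable H ∧
    (∀ L : Subgroup H, ∃ (P : Sylow 2 ↥L) (D : Subgroup ↥L), IsMulCommutative ↥D ∧ Subgroup.IsComplement' (P : Subgroup ↥L) D) ∧
    (∀ (N : Subgroup H) [N.Normal], ∃ (P : Sylow 2 (H ⧸ N)) (D : Subgroup (H ⧸ N)),
      IsMulCommutative ↥D ∧ Subgroup.IsComplement' (P : Subgroup (H ⧸ N)) D) := by
  have hCcomm : ∀ a ∈ C, ∀ b ∈ C, a * b = b * a := fun a ha b hb =>
    congrArg Subtype.val (hC.is_comm.comm ⟨a, ha⟩ ⟨b, hb⟩)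
  have hidx : C.index = Nat.card (S : Subgroup H) := hSC.index_eq_card
  have hScard : Nat.card (S : Subgroup H) = 2 ^ (Nat.card H).factorization 2 :=
    Sylow.card_eq_multiplicity S
  haveI hsolv : Group.IsSolvable H := solv_aux _ H rfl C hCcomm _ (hidx.trans hScard)
  have hcardH : Nat.card (S : Subgroup H) * Nat.card C = Nat.card H := hSC.card_mul_card
  have hCodd : (Nat.card C).Coprime 2 := by
    have h1 : (S : Subgroup H).index = Nat.card C := hSC.symm.index_eq_card
    rw [← h1]
    exact ((Nat.Prime.coprime_iff_not_dvd Nat.prime_two).mpr (Sylow.not_dvd_index S)).symm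
  refine ⟨hsolv, ?_, ?_⟩
  · intro L
    obtain ⟨P⟩ : Nonempty (Sylow 2 ↥L) := inferInstance
    have hPodd : ¬ 2 ∣ (P : Subgroup ↥L).index := Sylow.not_dvd_index P
    have hPmul : Nat.card (P : Subgroup ↥L) * (P : Subgroup ↥L).index = Nat.card ↥L :=
      Subgroup.card_mul_index _
    have hcopP : ((P : Subgroup ↥L).index).Coprime (Nat.card (P : Subgroup ↥L)) :=
      (Sylow.card_coprime_index P).symm
    obtain ⟨D, hDcard, -⟩ := Cfsg.Agent.Lead.hall_dom_aux (Nat.card ↥L) ↥L rfl
      (P : Subgroup ↥L).index (Nat.card (P : Subgroup ↥L)) (by rw [mul_comm]; exact hPmul.symm)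
      hcopP ⊥ (by rw [Subgroup.card_bot]; exact Nat.coprime_one_left _)
    refine ⟨P, D, ?_, ?_⟩
    · have hD'card : Nat.card (D.map L.subtype) = (P : Subgroup ↥L).index := by
        rw [Subgroup.card_map_of_injective L.subtype_injective, hDcard]
      have hcop' : (Nat.card (D.map L.subtype)).Coprime (Nat.card (S : Subgroup H)) := by
        rw [hD'card, hScard]
        exact (((Nat.Prime.coprime_iff_not_dvd Nat.prime_two).mpr hPodd).symm.pow_right _)
      have hmk : Nat.card H = Nat.card C * Nat.card (S : Subgroup H) := by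
        rw [mul_comm]; exact hcardH.symm
      have hcopCS : (Nat.card C).Coprime (Nat.card (S : Subgroup H)) := by
        rw [hScard]; exact hCodd.pow_right _
      obtain ⟨E, hEcard, hDE⟩ := Cfsg.Agent.Lead.hall_dom_aux (Nat.card H) H rfl (Nat.card C)
        (Nat.card (S : Subgroup H)) hmk hcopCS (D.map L.subtype) hcop'
      obtain ⟨g, hg⟩ := Cfsg.Agent.Lead.hall_conj_aux (Nat.card H) H rfl (Nat.card C)
        (Nat.card (S : Subgroup H)) hmk hcopCS C E rfl hEcard
      have hEcomm := comm_of_conj C E g hCcomm hg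
      refine ⟨⟨fun a b => ?_⟩⟩
      have ha : ((a : ↥L) : H) ∈ E := hDE (Subgroup.mem_map.mpr ⟨a.1, a.2, rfl⟩)
      have hb : ((b : ↥L) : H) ∈ E := hDE (Subgroup.mem_map.mpr ⟨b.1, b.2, rfl⟩)
      show a * b = b * a
      exact Subtype.ext (Subtype.ext (hEcomm _ ha _ hb))
    · exact Subgroup.isComplement'_of_coprime (by rw [hDcard]; exact hPmul)
        (by rw [hDcard]; exact hcopP.symm)
  · intro N hN
    have hsurj : Function.Surjective (QuotientGroup.mk' N) := QuotientGroup.mk'_surjective N
    refine ⟨S.mapSurjective hsurj, C.map (QuotientGroup.mk' N), ?_, ?_⟩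
    · refine ⟨⟨fun a b => ?_⟩⟩
      obtain ⟨x, hx, hxa⟩ := Subgroup.mem_map.mp a.2
      obtain ⟨y, hy, hyb⟩ := Subgroup.mem_map.mp b.2
      show a * b = b * a
      apply Subtype.ext
      show (a : H ⧸ N) * (b : H ⧸ N) = b * a
      rw [← hxa, ← hyb, ← map_mul, ← map_mul, hCcomm x hx y hy]
    · apply Subgroup.isComplement'_of_disjoint_and_mul_eq_univ
      · apply Subgroup.disjoint_of_coprime_natCard
        have h1 := Sylow.card_eq_multiplicity (S.mapSurjective hsurj)
        rw [h1]
        have h2 : Nat.card (C.map (QuotientGroup.mk' N)) ∣ Nat.card C :=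
          Subgroup.card_map_dvd C (QuotientGroup.mk' N)
        exact ((hCodd.coprime_dvd_left h2).pow_right _).symm
      · rw [Sylow.coe_mapSurjective]
        apply Set.eq_univ_iff_forall.mpr
        intro q
        obtain ⟨h, rfl⟩ := hsurj q
        obtain ⟨⟨s, c⟩, hsc⟩ := hSC.2 h
        exact Set.mem_mul.mpr ⟨QuotientGroup.mk' N s.1, Subgroup.mem_map.mpr ⟨s.1, s.2, rfl⟩,
          QuotientGroup.mk' N c.1, Subgroup.mem_map.mpr ⟨c.1, c.2, rfl⟩,
          by rw [← map_mul]; exact congrArg (QuotientGroup.mk' N) hsc⟩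

end Cfsg.Agent.S3200
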