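import Cfsg.Statements.S3208
import Mathlib
import Cfsg.Agent.Helper3.Stable
-- import your own Cfsg.Agent.* helpers here

set_option autoImplicit false
open Cfsg

namespace Cfsg.Agent.S3208


theorem exists_conj_equiv {G : Type*} [Group G] (T : Subgroup G) (y : G)
    (hy : y ∈ Subgroup.normalizer (T : Set G)) :
    ∃ φ : T ≃* T, ∀ x : T, (φ x : G) = y * x * y⁻¹ := by
  have hinv : ∀ x : T, y⁻¹ * (x : G) * y ∈ T := by
    intro x
    apply (Subgroup.mem_normalizer_iff.mp hy (y⁻¹ * x * y)).mpr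
    have e : y * (y⁻¹ * (x : G) * y) * y⁻¹ = x := by group
    rw [e]; exact x.2
  refine ⟨{ toFun := fun x => ⟨y * x * y⁻¹, (Subgroup.mem_normalizer_iff.mp hy x).mp x.2⟩
            invFun := fun x => ⟨y⁻¹ * x * y, hinv x⟩
            left_inv := fun x => by apply Subtype.ext; simp [mul_assoc]
            right_inv := fun x => by apply Subtype.ext; simp [mul_assoc]
            map_mul' := fun a b => by apply Subtype.ext; simp [mul_assoc] }, fun x => rfl⟩

/-- Let j be an involution of a finite group G, H a subgroup of G, and T a Sylow 2-subgroup of H ∩ C_G(j) containing j such that ⟨j⟩ is a characteristic subgroup of T. Then T is a Sylow 2-subgroup of H. -/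
theorem result {G : Type*} [Group G] [Finite G]
    (j : G) (hj : orderOf j = 2) (H T : Subgroup G) (hT : T ≤ H ⊓ Subgroup.centralizer ({j} : Set G)) (h2 : IsPGroup 2 ↥T)
    (hSyl : ¬ 2 ∣ T.relIndex (H ⊓ Subgroup.centralizer ({j} : Set G))) (hjT : j ∈ T)
    (hchar : ((Subgroup.zpowers j).subgroupOf T).Characteristic) :
    ¬ 2 ∣ T.relIndex H := by
  classical
  intro hdvd
  have hTH : T ≤ H := le_trans hT inf_le_left
  have hj1 : j ≠ 1 := by
    intro h
    rw [h, orderOf_one] at hj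
    omega
  -- a Sylow 2-subgroup S of H containing T
  have hTHp : IsPGroup 2 (T.subgroupOf H) := h2.comap_subtype
  obtain ⟨P, hP⟩ := hTHp.exists_le_sylow
  obtain ⟨S, hSdef⟩ : ∃ S : Subgroup G, S = (P : Subgroup H).map H.subtype := ⟨_, rfl⟩
  have hSH : S ≤ H := by rw [hSdef]; exact Subgroup.map_subtype_le _
  have hSp : IsPGroup 2 S := by rw [hSdef]; exact P.isPGroup'.map _
  have hTS : T ≤ S := by
    intro t ht
    rw [hSdef]
    exact ⟨⟨t, hTH ht⟩, hP (Subgroup.mem_subgroupOf.mpr ht), rfl⟩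
  have hSidx : ¬ 2 ∣ S.relIndex H := by
    have e : S.subgroupOf H = (P : Subgroup H) := by
      rw [hSdef]
      ext x
      rw [Subgroup.mem_subgroupOf]
      constructor
      · rintro ⟨z, hz, hzx⟩
        have : z = x := Subtype.ext hzx
        rwa [← this]
      · intro hx
        exact ⟨x, hx, rfl⟩
    show ¬ 2 ∣ (S.subgroupOf H).index
    rw [e]
    exact P.not_dvd_index
  have hne : T ≠ S := by
    intro h
    rw [h] at hdvd
    exact hSidx hdvd
  haveI : Group.IsNilpotent S := hSp.isNilpotent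
  obtain ⟨y, hyS, hyN, hyT⟩ :=
    Cfsg.Agent.Helper3.exists_mem_normalizer_not_mem_of_nilpotent S T inferInstance hTS hne
  -- y centralizes j
  obtain ⟨φ, hφ⟩ := exists_conj_equiv T y hyN
  have hfix := hchar.fixed φ
  have hjmem : (⟨j, hjT⟩ : T) ∈ (Subgroup.zpowers j).subgroupOf T :=
    Subgroup.mem_subgroupOf.mpr (Subgroup.mem_zpowers j)
  rw [← hfix, Subgroup.mem_comap, Subgroup.mem_subgroupOf] at hjmem
  have hconj : y * j * y⁻¹ ∈ Subgroup.zpowers j := by
    have := hφ ⟨j, hjT⟩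
    rw [← this]
    exact hjmem
  obtain ⟨k, hk⟩ := Subgroup.mem_zpowers_iff.mp hconj
  have hyj : y * j * y⁻¹ = j := by
    rw [← zpow_mod_orderOf, hj, Nat.cast_ofNat] at hk
    have h2 : k % 2 = 0 ∨ k % 2 = 1 := by omega
    rcases h2 with h | h
    · rw [h, zpow_zero] at hk
      exfalso
      apply hj1
      have : j = y⁻¹ * (y * j * y⁻¹) * y := by group
      rw [this, ← hk]; group
    · rw [h, zpow_one] at hk
      exact hk.symm
  have hyC : y ∈ Subgroup.centralizer ({j} : Set G) := by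
    rw [Subgroup.mem_centralizer_iff]
    intro z hz
    rw [Set.mem_singleton_iff] at hz
    rw [hz]
    have := congrArg (fun t => t * y) hyj
    simpa [mul_assoc] using this.symm
  have hyK : y ∈ H ⊓ Subgroup.centralizer ({j} : Set G) := Subgroup.mem_inf.mpr ⟨hSH hyS, hyC⟩
  -- T ⊔ zpowers y
  have hT'S : T ⊔ Subgroup.zpowers y ≤ S := sup_le hTS (by
    rw [Subgroup.zpowers_le]; exact hyS)
  have hT'K : T ⊔ Subgroup.zpowers y ≤ H ⊓ Subgroup.centralizer ({j} : Set G) :=
    sup_le hT (by rw [Subgroup.zpowers_le]; exact hyK)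
  have hT'p : IsPGroup 2 (T ⊔ Subgroup.zpowers y : Subgroup G) := hSp.to_le hT'S
  obtain ⟨m, hm⟩ := IsPGroup.iff_card.mp hT'p
  have h1 : T.relIndex (T ⊔ Subgroup.zpowers y) ∣ 2 ^ m := by
    rw [← hm]; exact Subgroup.relIndex_dvd_card T (T ⊔ Subgroup.zpowers y)
  obtain ⟨i, -, hi⟩ := (Nat.dvd_prime_pow Nat.prime_two).mp h1
  have hi0 : i ≠ 0 := by
    intro h0
    rw [h0, pow_zero] at hi
    have := Subgroup.relIndex_eq_one.mp hi
    exact hyT (this (Subgroup.mem_sup_right (Subgroup.mem_zpowers y)))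
  have h2' : 2 ∣ T.relIndex (T ⊔ Subgroup.zpowers y) := by
    rw [hi]; exact dvd_pow_self 2 hi0
  have h3 := Subgroup.relIndex_mul_relIndex T (T ⊔ Subgroup.zpowers y)
    (H ⊓ Subgroup.centralizer ({j} : Set G)) le_sup_left hT'K
  exact hSyl (h3 ▸ dvd_mul_of_dvd_left h2' _)

end Cfsg.Agent.S3208
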