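import Cfsg.Statements.S3225
import Mathlib
import Cfsg.Agent.Helper6.ThompsonTransfer2
-- import your own Cfsg.Agent.* helpers here

set_option autoImplicit false
open Cfsg

namespace Cfsg.Agent.S3225

/-- Let G be a finite group of even order with no subgroup of index 2, S a Sylow 2-subgroup of G and M a subgroup of index 2 in S such that, for some n ≥ 1, every element of S outside M has order greater than 2^(n−1). Then every element of S of order 2ⁿ is conjugate in G to an element of M. -/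
theorem result {G : Type*} [Group G] [Finite G] (hev : Even (Nat.card G))
    (hG : ∀ H : Subgroup G, H.index ≠ 2) (S : Sylow 2 G) (M : Subgroup G) (hMS : M ≤ (S : Subgroup G)) (hM : M.relIndex (S : Subgroup G) = 2)
    (n : ℕ) (hn : 1 ≤ n) (hord : ∀ y ∈ (S : Subgroup G), y ∉ M → 2 ^ (n - 1) < orderOf y)
    (x : G) (hx : x ∈ (S : Subgroup G)) (hxn : orderOf x = 2 ^ n) :
    ∃ g : G, g * x * g⁻¹ ∈ M := by
  classical
  by_contra hcon
  push Not at hcon
  haveI : Fact (Nat.Prime 2) := ⟨Nat.prime_two⟩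
  have hodd : Odd (S : Subgroup G).index := by
    rw [← Nat.not_even_iff_odd, even_iff_two_dvd]
    exact S.not_dvd_index
  have hxpow : x ^ 2 ^ n = 1 := by rw [← hxn]; exact pow_orderOf_eq_one x
  have hconj : ∀ g : G, g⁻¹ * x * g ∈ (S : Subgroup G) → g⁻¹ * x * g ∉ M := by
    intro g _
    have h := hcon g⁻¹
    rwa [inv_inv] at h
  have hpow : ∀ j : ℕ, 1 ≤ j → ∀ g : G, g⁻¹ * x ^ 2 ^ j * g ∈ (S : Subgroup G) →
      g⁻¹ * x ^ 2 ^ j * g ∈ M := by
    intro j hj g hg
    by_contra hnot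
    have h1 := hord _ hg hnot
    have h2 : (g⁻¹ * x ^ 2 ^ j * g) ^ 2 ^ (n - 1) = 1 := by
      have h3 : (g⁻¹ * x ^ 2 ^ j * g) ^ 2 ^ (n - 1) = g⁻¹ * (x ^ 2 ^ j) ^ 2 ^ (n - 1) * g := by
        have := conj_pow (a := g⁻¹) (b := x ^ 2 ^ j) (i := 2 ^ (n - 1))
        rw [inv_inv] at this
        exact this
      rw [h3, ← pow_mul, ← pow_add]
      have h4 : j + (n - 1) = n + (j - 1) := by omega
      rw [h4, pow_add, pow_mul, hxpow, one_pow]
      group
    have h5 : orderOf (g⁻¹ * x ^ 2 ^ j * g) ∣ 2 ^ (n - 1) := orderOf_dvd_of_pow_eq_one h2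
    have h6 := Nat.le_of_dvd (by positivity) h5
    omega
  have hτ := Cfsg.Agent.Helper6.transfer_sign_two_pow (S : Subgroup G) M hM hodd x n hxpow
    hconj hpow
  exact hG _ (Cfsg.Agent.Helper6.index_ker_of_neg_one _ x hτ)

end Cfsg.Agent.S3225
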