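import Cfsg.Statements.S3247
import Mathlib
import Cfsg.Agent.Helper4.PConCent
import Cfsg.Agent.S0631

set_option autoImplicit false
open Cfsg

namespace Cfsg.Agent.S3247

/-- Let G be a finite group and p a prime; here a p-local subgroup means the normalizer of a nontrivial p-subgroup, other than G itself. If every p-local subgroup of G that is maximal among p-local subgroups is p-constrained, or if the centralizer of every element of order p of G is p-constrained, then every p-local subgroup of G is p-constrained. -/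
theorem result {G : Type*} [Group G] [Finite G] (p : ℕ) [hp : Fact p.Prime]
    (h : (∀ M : Subgroup G, (∃ T : Subgroup G, IsPGroup p ↥T ∧ T ≠ ⊥ ∧ M = Subgroup.normalizer (T : Set G)) → M ≠ ⊤ →
        (∀ M' : Subgroup G, (∃ T' : Subgroup G, IsPGroup p ↥T' ∧ T' ≠ ⊥ ∧ M' = Subgroup.normalizer (T' : Set G)) → M' ≠ ⊤ → M ≤ M' → M = M') →
        Cfsg.IsPConstrained p ↥M) ∨
      (∀ x : G, orderOf x = p → Cfsg.IsPConstrained p ↥(Subgroup.centralizer ({x} : Set G))))
    (T : Subgroup G) (hT : IsPGroup p ↥T) (hT1 : T ≠ ⊥) (hTG : Subgroup.normalizer (T : Set G) ≠ ⊤) :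
    Cfsg.IsPConstrained p ↥(Subgroup.normalizer (T : Set G)) := by
  rcases h with hA | hB
  · -- maximal local
    obtain ⟨N, hN⟩ : ∃ N : Subgroup G, N = Subgroup.normalizer (T : Set G) := ⟨_, rfl⟩
    rw [← hN] at hTG ⊢
    let S : Set (Subgroup G) := {M | (∃ T' : Subgroup G, IsPGroup p ↥T' ∧ T' ≠ ⊥ ∧
      M = Subgroup.normalizer (T' : Set G)) ∧ M ≠ ⊤ ∧ N ≤ M}
    have hNS : N ∈ S := ⟨⟨T, hT, hT1, hN⟩, hTG, le_rfl⟩
    obtain ⟨M, hMS, hMmax⟩ := (wellFounded_gt (α := Subgroup G)).has_min S ⟨N, hNS⟩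
    have hMc : Cfsg.IsPConstrained p ↥M := hA M hMS.1 hMS.2.1 (fun M' hM' hM'top hle => by
      by_contra hne
      exact hMmax M' ⟨hM', hM'top, hMS.2.2.trans hle⟩ (lt_of_le_of_ne hle hne))
    have hNM : N ≤ M := hMS.2.2
    have hTM : T ≤ M := (hN ▸ Subgroup.le_normalizer).trans hNM
    have h1 := (Cfsg.Agent.S0631.result hMc (T.subgroupOf M) hT.comap_subtype).1
    have h2 : Subgroup.normalizer ((T.subgroupOf M : Subgroup ↥M) : Set ↥M) = N.subgroupOf M := by
      rw [hN]; exact (Subgroup.subgroupOf_normalizer_eq hTM).symm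
    exact Cfsg.Agent.Helper4.isPConstrained_of_mulEquiv p
      ((MulEquiv.subgroupCongr h2).trans (Subgroup.subgroupOfEquivOfLe hNM)) h1
  · obtain ⟨N, hN⟩ : ∃ N : Subgroup G, N = Subgroup.normalizer (T : Set G) := ⟨_, rfl⟩
    rw [← hN] at hTG ⊢
    have hTN : T ≤ N := hN ▸ Subgroup.le_normalizer
    -- an element of order p in the centre of T
    obtain ⟨x, hxT, hxc, hxo⟩ : ∃ x ∈ T, (∀ t ∈ T, t * x = x * t) ∧ orderOf x = p := by
      haveI : Nontrivial ↥T := (Subgroup.nontrivial_iff_ne_bot T).mpr hT1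
      have hc := hT.bot_lt_center
      have hZp : IsPGroup p ↥(Subgroup.center ↥T) := hT.to_subgroup _
      obtain ⟨k, hk⟩ := IsPGroup.iff_card.mp hZp
      have hk0 : k ≠ 0 := by
        rintro rfl
        rw [pow_zero, Subgroup.card_eq_one] at hk
        exact (ne_of_gt hc) hk
      have hdvd : p ∣ Nat.card ↥(Subgroup.center ↥T) := by
        rw [hk]; exact dvd_pow_self p hk0
      obtain ⟨z, hz⟩ := exists_prime_orderOf_dvd_card' p hdvd
      refine ⟨((z : ↥T) : G), (z : ↥T).2, ?_, ?_⟩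
      · intro t ht
        have := Subgroup.mem_center_iff.mp z.2 ⟨t, ht⟩
        exact congrArg Subtype.val this
      · rw [Subgroup.orderOf_coe, Subgroup.orderOf_coe]; exact hz
    have hxN : x ∈ N := hTN hxT
    obtain ⟨C, hCdef⟩ : ∃ C : Subgroup G, C = Subgroup.centralizer ({x} : Set G) := ⟨_, rfl⟩
    have hCc : Cfsg.IsPConstrained p ↥C := by rw [hCdef]; exact hB x hxo
    have hTC : T ≤ C := by
      intro t ht
      rw [hCdef, Subgroup.mem_centralizer_iff]
      intro y hy
      rw [Set.mem_singleton_iff.mp hy]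
      exact (hxc t ht).symm
    have h1 := (Cfsg.Agent.S0631.result hCc (T.subgroupOf C) hT.comap_subtype).1
    have h2 : Subgroup.normalizer ((T.subgroupOf C : Subgroup ↥C) : Set ↥C) = N.subgroupOf C := by
      rw [hN]; exact (Subgroup.subgroupOf_normalizer_eq hTC).symm
    have hx'o : orderOf (⟨x, hxN⟩ : ↥N) = p := by rw [Subgroup.orderOf_mk]; exact hxo
    have hx'Q : (⟨x, hxN⟩ : ↥N) ∈ Cfsg.pCore p ↥N := by
      haveI : (T.subgroupOf N).Normal := by
        rw [hN]
        exact (Subgroup.normal_subgroupOf_iff_le_normalizer Subgroup.le_normalizer).mpr le_rfl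
      exact Cfsg.Agent.Helper3.le_pCore (T.subgroupOf N) hT.comap_subtype (Subgroup.mem_subgroupOf.mpr hxT)
    have h3 : Subgroup.centralizer ({(⟨x, hxN⟩ : ↥N)} : Set ↥N) = C.subgroupOf N := by
      ext y
      rw [Subgroup.mem_subgroupOf, hCdef, Subgroup.mem_centralizer_iff,
        Subgroup.mem_centralizer_iff]
      constructor
      · intro hy z hz
        rw [Set.mem_singleton_iff.mp hz]
        exact congrArg Subtype.val (hy ⟨x, hxN⟩ rfl)
      · intro hy z hz
        rw [Set.mem_singleton_iff.mp hz]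
        exact Subtype.ext (hy x rfl)
    have e1 : ↥(N.subgroupOf C) ≃* ↥(N ⊓ C) :=
      ((N.subgroupOf C).equivMapOfInjective C.subtype C.subtype_injective).trans
        (MulEquiv.subgroupCongr (Subgroup.subgroupOf_map_subtype N C))
    have e2 : ↥(C.subgroupOf N) ≃* ↥(N ⊓ C) :=
      ((C.subgroupOf N).equivMapOfInjective N.subtype N.subtype_injective).trans
        (MulEquiv.subgroupCongr ((Subgroup.subgroupOf_map_subtype C N).trans (inf_comm C N)))
    have h4 : Cfsg.IsPConstrained p ↥(Subgroup.centralizer ({(⟨x, hxN⟩ : ↥N)} : Set ↥N)) :=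
      Cfsg.Agent.Helper4.isPConstrained_of_mulEquiv p
        (((MulEquiv.subgroupCongr h2).trans e1).trans
          (e2.symm.trans (MulEquiv.subgroupCongr h3.symm))) h1
    exact Cfsg.Agent.Helper4.isPConstrained_of_centralizer_of_mem_pCore p ⟨x, hxN⟩ hx'o hx'Q h4

end Cfsg.Agent.S3247
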