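import Cfsg.Statements.S3276
import Mathlib
import Cfsg.Agent.Lead.SylowBasic
import Cfsg.Agent.Lead.UniqSub

set_option autoImplicit false
open Cfsg

namespace Cfsg.Agent.S3276

theorem invol_common {G : Type*} [Group G] [Finite G] (a b : G) (ha : orderOf a = 2)
    (hb : orderOf b = 2) (hnc : ¬ IsConj a b) :
    ∃ u : G, orderOf u = 2 ∧ Commute u a ∧ Commute u b := by
  have ha2 : a * a = 1 := by
    have := pow_orderOf_eq_one a
    rw [ha, pow_two] at this
    exact this
  have hb2 : b * b = 1 := by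
    have := pow_orderOf_eq_one b
    rw [hb, pow_two] at this
    exact this
  have hai : a⁻¹ = a := inv_eq_of_mul_eq_one_left ha2
  have hbi : b⁻¹ = b := inv_eq_of_mul_eq_one_left hb2
  obtain ⟨c, hc⟩ : ∃ c, c = a * b := ⟨_, rfl⟩
  have hac : a * c * a⁻¹ = c⁻¹ := by
    rw [hc, hai, mul_inv_rev, hai, hbi]
    simp only [mul_assoc]
    rw [← mul_assoc a a, ha2, one_mul]
  have hbc : b * c * b⁻¹ = c⁻¹ := by
    rw [hc, hbi, mul_inv_rev, hai, hbi]
    simp only [mul_assoc]
    rw [hb2, mul_one]
  rcases Nat.even_or_odd' (orderOf c) with ⟨k, hk | hk⟩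
  · have hk0 : 0 < k := by
      have := orderOf_pos c
      omega
    have h2 : (c ^ k)⁻¹ = c ^ k := by
      apply inv_eq_of_mul_eq_one_left
      rw [← pow_add, ← two_mul, ← hk]
      exact pow_orderOf_eq_one c
    refine ⟨c ^ k, ?_, ?_, ?_⟩
    · apply orderOf_eq_prime
      · rw [← pow_mul, mul_comm, ← hk]
        exact pow_orderOf_eq_one c
      · intro h
        have h3 := orderOf_dvd_of_pow_eq_one h
        have h4 := Nat.le_of_dvd hk0 h3
        omega
    · have h1 : a * c ^ k * a⁻¹ = (c ^ k)⁻¹ := by rw [← conj_pow, hac, inv_pow]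
      rw [h2] at h1
      show c ^ k * a = a * c ^ k
      calc c ^ k * a = a * c ^ k * a⁻¹ * a := by rw [h1]
        _ = a * c ^ k := by group
    · have h1 : b * c ^ k * b⁻¹ = (c ^ k)⁻¹ := by rw [← conj_pow, hbc, inv_pow]
      rw [h2] at h1
      show c ^ k * b = b * c ^ k
      calc c ^ k * b = b * c ^ k * b⁻¹ * b := by rw [h1]
        _ = b * c ^ k := by group
  · exfalso
    apply hnc
    rw [isConj_iff]
    refine ⟨c ^ k, ?_⟩
    have h1 : a * (c ^ k)⁻¹ * a⁻¹ = c ^ k := by
      have e : a * (c ^ k)⁻¹ * a⁻¹ = (a * c ^ k * a⁻¹)⁻¹ := by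
        simp only [mul_inv_rev, inv_inv, mul_assoc]
      rw [e, ← conj_pow, hac, inv_pow, inv_inv]
    have h3 : c ^ k * c ^ k = c⁻¹ := by
      apply eq_inv_of_mul_eq_one_left
      rw [← pow_add, ← pow_succ, ← two_mul, ← hk]
      exact pow_orderOf_eq_one c
    calc c ^ k * a * (c ^ k)⁻¹ = c ^ k * (a * (c ^ k)⁻¹ * a⁻¹) * a := by
          rw [hai]; simp only [mul_assoc]; rw [ha2, mul_one]
      _ = c ^ k * c ^ k * a := by rw [h1]
      _ = c⁻¹ * a := by rw [h3]
      _ = b := by rw [hc, mul_inv_rev, hai, hbi, mul_assoc, ha2, mul_one]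

/-- Let x and y be commuting, non-conjugate involutions of a finite group G, and suppose that for every involution u commuting with x, each conjugate of y that commutes with u also commutes with y. Then the normal closure of y is a proper, normal, elementary abelian 2-subgroup of G; and if y is the only involution of that normal closure commuting with x, it has order at most 4. -/
theorem result {G : Type*} [Group G] [Finite G] (x y : G) (hx : orderOf x = 2) (hy : orderOf y = 2)
    (hxy : Commute x y) (hnc : ¬ IsConj x y)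
    (hstar : ∀ u : G, orderOf u = 2 → Commute u x → ∀ g : G, Commute (g * y * g⁻¹) u → Commute (g * y * g⁻¹) y) :
    Subgroup.normalClosure ({y} : Set G) ≠ ⊤ ∧ Cfsg.IsElementaryAbelian 2 (Subgroup.normalClosure ({y} : Set G)) ∧
      ((∀ u ∈ Subgroup.normalClosure ({y} : Set G), orderOf u = 2 → Commute u x → u = y) →
        Nat.card ↥(Subgroup.normalClosure ({y} : Set G)) ≤ 4) := by
  classical
  have hx2 : x * x = 1 := by
    have := pow_orderOf_eq_one x
    rw [hx, pow_two] at this
    exact this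
  have hy2 : y * y = 1 := by
    have := pow_orderOf_eq_one y
    rw [hy, pow_two] at this
    exact this
  have hK : ∀ g : G, Commute (g * y * g⁻¹) y := by
    intro g
    have hy' : orderOf (g * y * g⁻¹) = 2 := by rw [Cfsg.Agent.Lead.orderOf_conj_eq, hy]
    have hnc' : ¬ IsConj x (g * y * g⁻¹) := by
      intro h
      apply hnc
      exact h.trans (isConj_iff.mpr ⟨g⁻¹, by group⟩)
    obtain ⟨u, hu, hux, huy⟩ := invol_common x (g * y * g⁻¹) hx hy' hnc'
    exact hstar u hu hux g huy.symm
  have hKK : ∀ g h : G, Commute (g * y * g⁻¹) (h * y * h⁻¹) := by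
    intro g h
    have h2 := (Commute.conj_iff h).mpr (hK (h⁻¹ * g))
    have e1 : h * ((h⁻¹ * g) * y * (h⁻¹ * g)⁻¹) * h⁻¹ = g * y * g⁻¹ := by group
    rw [e1] at h2
    exact h2
  obtain ⟨N, hNdef⟩ : ∃ N : Subgroup G, N = Subgroup.normalClosure ({y} : Set G) := ⟨_, rfl⟩
  rw [← hNdef]
  have hNn : N.Normal := by rw [hNdef]; exact Subgroup.normalClosure_normal
  have hgen : ∀ s ∈ Group.conjugatesOfSet ({y} : Set G), ∃ g : G, s = g * y * g⁻¹ := by
    intro s hs
    rw [Group.mem_conjugatesOfSet_iff] at hs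
    obtain ⟨a, ha, hconj⟩ := hs
    rw [Set.mem_singleton_iff] at ha
    rw [ha, isConj_iff] at hconj
    obtain ⟨c, hc⟩ := hconj
    exact ⟨c, hc.symm⟩
  have hNcl : ∀ n, n ∈ N → n ∈ Subgroup.closure (Group.conjugatesOfSet ({y} : Set G)) := by
    intro n hn
    rw [hNdef] at hn
    exact hn
  have hNcomm : ∀ a ∈ N, ∀ b ∈ N, a * b = b * a := by
    have h1 : Group.conjugatesOfSet ({y} : Set G) ⊆
        Subgroup.centralizer (Group.conjugatesOfSet ({y} : Set G)) := by
      intro s hs
      rw [SetLike.mem_coe, Subgroup.mem_centralizer_iff]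
      intro t ht
      obtain ⟨g, rfl⟩ := hgen s hs
      obtain ⟨h, rfl⟩ := hgen t ht
      exact (hKK h g).eq
    have h2 : ∀ n, n ∈ N → n ∈ Subgroup.centralizer (Group.conjugatesOfSet ({y} : Set G)) :=
      fun n hn => (Subgroup.closure_le _).mpr h1 (hNcl n hn)
    have h3 : Group.conjugatesOfSet ({y} : Set G) ⊆ Subgroup.centralizer (N : Set G) := by
      intro s hs
      rw [SetLike.mem_coe, Subgroup.mem_centralizer_iff]
      intro n hn
      exact (Subgroup.mem_centralizer_iff.mp (h2 n hn) s hs).symm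
    have h4 : ∀ n, n ∈ N → n ∈ Subgroup.centralizer (N : Set G) :=
      fun n hn => (Subgroup.closure_le _).mpr h3 (hNcl n hn)
    intro a ha b hb
    exact Subgroup.mem_centralizer_iff.mp (h4 b hb) a ha
  have hNsq : ∀ a ∈ N, a * a = 1 := by
    intro a ha
    have ha' := hNcl a ha
    clear ha
    induction ha' using Subgroup.closure_induction with
    | mem s hs =>
      obtain ⟨g, rfl⟩ := hgen s hs
      calc g * y * g⁻¹ * (g * y * g⁻¹) = g * (y * y) * g⁻¹ := by group
        _ = 1 := by rw [hy2]; group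
    | one => exact mul_one 1
    | mul s t hs ht ihs iht =>
      have hsN : s ∈ N := by rw [hNdef]; exact hs
      have htN : t ∈ N := by rw [hNdef]; exact ht
      calc s * t * (s * t) = s * (t * s) * t := by simp only [mul_assoc]
        _ = s * (s * t) * t := by rw [hNcomm t htN s hsN]
        _ = (s * s) * (t * t) := by simp only [mul_assoc]
        _ = 1 := by rw [ihs, iht, mul_one]
    | inv s hs ihs =>
      calc s⁻¹ * s⁻¹ = (s * s)⁻¹ := by rw [mul_inv_rev]
        _ = 1 := by rw [ihs, inv_one]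
  have hEA : Cfsg.IsElementaryAbelian 2 N := by
    refine ⟨⟨⟨fun a b => ?_⟩⟩, fun a ha => ?_⟩
    · exact Subtype.ext (hNcomm a a.2 b b.2)
    · rw [pow_two]; exact hNsq a ha
  refine ⟨?_, hEA, ?_⟩
  · intro htop
    have hcomm : ∀ a b : G, a * b = b * a := fun a b =>
      hNcomm a (by rw [htop]; trivial) b (by rw [htop]; trivial)
    haveI : (Subgroup.zpowers y).Normal := ⟨fun n hn g => by
      have : g * n * g⁻¹ = n := by rw [hcomm g n, mul_assoc, mul_inv_cancel, mul_one]
      rw [this]; exact hn⟩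
    have hle : Subgroup.normalClosure ({y} : Set G) ≤ Subgroup.zpowers y :=
      Subgroup.normalClosure_le_normal
        (by rw [Set.singleton_subset_iff]; exact Subgroup.mem_zpowers y)
    have hxz : x ∈ Subgroup.zpowers y := hle (by rw [← hNdef, htop]; trivial)
    rcases Cfsg.Agent.Lead.eq_one_or_eq_of_mem_zpowers_sq hxz (by rw [pow_two]; exact hy2)
      with h | h
    · rw [h, orderOf_one] at hx; omega
    · apply hnc; rw [h]
  · intro huniq
    have hxi : x⁻¹ = x := inv_eq_of_mul_eq_one_left hx2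
    have hφ : ∀ n ∈ N, n * (x * n * x⁻¹) = 1 ∨ n * (x * n * x⁻¹) = y := by
      intro n hn
      have hcn : x * n * x⁻¹ ∈ N := hNn.conj_mem n hn x
      have hmem : n * (x * n * x⁻¹) ∈ N := N.mul_mem hn hcn
      by_cases h1 : n * (x * n * x⁻¹) = 1
      · exact Or.inl h1
      · right
        apply huniq _ hmem (orderOf_eq_prime (by rw [pow_two]; exact hNsq _ hmem) h1)
        show n * (x * n * x⁻¹) * x = x * (n * (x * n * x⁻¹))
        have e1 : x * (n * (x * n * x⁻¹)) = (x * n * x⁻¹) * n * x := by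
          rw [hxi]; simp only [mul_assoc]
        rw [e1, hNcomm n hn _ hcn]
    have hker : ∀ n ∈ N, n * (x * n * x⁻¹) = 1 → n = 1 ∨ n = y := by
      intro n hn h
      by_cases h1 : n = 1
      · exact Or.inl h1
      · right
        apply huniq n hn (orderOf_eq_prime (by rw [pow_two]; exact hNsq n hn) h1)
        have h2 : x * n * x⁻¹ = n := by
          have h3 : x * n * x⁻¹ = n⁻¹ := (inv_eq_of_mul_eq_one_right h).symm
          rw [h3]
          exact inv_eq_of_mul_eq_one_left (hNsq n hn)
        show n * x = x * n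
        calc n * x = x * n * x⁻¹ * x := by rw [h2]
          _ = x * n := by group
    have hφmul : ∀ n ∈ N, ∀ m ∈ N, (n * m) * (x * (n * m) * x⁻¹) =
        (n * (x * n * x⁻¹)) * (m * (x * m * x⁻¹)) := by
      intro n hn m hm
      have hcn : x * n * x⁻¹ ∈ N := hNn.conj_mem n hn x
      have e1 : x * (n * m) * x⁻¹ = (x * n * x⁻¹) * (x * m * x⁻¹) := by group
      rw [e1]
      calc n * m * (x * n * x⁻¹ * (x * m * x⁻¹))
          = n * (m * (x * n * x⁻¹)) * (x * m * x⁻¹) := by simp only [mul_assoc]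
        _ = n * ((x * n * x⁻¹) * m) * (x * m * x⁻¹) := by rw [hNcomm m hm _ hcn]
        _ = n * (x * n * x⁻¹) * (m * (x * m * x⁻¹)) := by simp only [mul_assoc]
    have hcover : ∃ n₀ : G, ∀ n ∈ N, n = 1 ∨ n = y ∨ n = n₀ ∨ n = y * n₀ := by
      by_cases hex : ∃ n₀ ∈ N, n₀ * (x * n₀ * x⁻¹) = y
      · obtain ⟨n₀, hn₀, hφ₀⟩ := hex
        refine ⟨n₀, fun n hn => ?_⟩
        rcases hφ n hn with h | h
        · rcases hker n hn h with h' | h'
          · exact Or.inl h'
          · exact Or.inr (Or.inl h')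
        · have h1 : (n * n₀) * (x * (n * n₀) * x⁻¹) = 1 := by
            rw [hφmul n hn n₀ hn₀, h, hφ₀, hy2]
          have h2 : n₀⁻¹ = n₀ := inv_eq_of_mul_eq_one_left (hNsq n₀ hn₀)
          rcases hker _ (N.mul_mem hn hn₀) h1 with h' | h'
          · right; right; left
            have h3 : n = n₀⁻¹ := eq_inv_of_mul_eq_one_left h'
            rw [h3, h2]
          · right; right; right
            calc n = n * n₀ * n₀⁻¹ := by group
              _ = y * n₀ := by rw [h', h2]
      · refine ⟨1, fun n hn => ?_⟩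
        rcases hφ n hn with h | h
        · rcases hker n hn h with h' | h'
          · exact Or.inl h'
          · exact Or.inr (Or.inl h')
        · exact absurd ⟨n, hn, h⟩ hex
    obtain ⟨n₀, hn₀⟩ := hcover
    have hsub : (N : Set G) ⊆ (({1, y, n₀, y * n₀} : Finset G) : Set G) := by
      intro n hn
      rw [Finset.mem_coe]
      simp only [Finset.mem_insert, Finset.mem_singleton]
      exact hn₀ n hn
    calc Nat.card N = (N : Set G).ncard := (Nat.card_coe_set_eq _)
      _ ≤ (({1, y, n₀, y * n₀} : Finset G) : Set G).ncard :=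
          Set.ncard_le_ncard hsub (Finset.finite_toSet _)
      _ = ({1, y, n₀, y * n₀} : Finset G).card := Set.ncard_coe_finset _
      _ ≤ 4 := Finset.card_le_four


end Cfsg.Agent.S3276
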