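import Cfsg.Statements.S3305
import Mathlib
-- import your own Cfsg.Agent.* helpers here

set_option autoImplicit false
open Cfsg

namespace Cfsg.Agent.S3305

/-- If any two distinct Sylow 2-subgroups of the finite group G intersect in a cyclic group, then the same holds in every quotient group G/H, H a normal subgroup of G. -/
theorem result {G : Type*} [Group G] [Finite G]
    (hC : ∀ S T : Sylow 2 G, S ≠ T → IsCyclic ↥((S : Subgroup G) ⊓ (T : Subgroup G))) (H : Subgroup G) [H.Normal] :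
    ∀ S T : Sylow 2 (G ⧸ H), S ≠ T → IsCyclic ↥((S : Subgroup (G ⧸ H)) ⊓ (T : Subgroup (G ⧸ H))) := by
  classical
  intro S T hST
  have hsurj := QuotientGroup.mk'_surjective H
  obtain ⟨D, hDdef⟩ : ∃ D : Subgroup G, D = ((S : Subgroup (G ⧸ H)) ⊓
      (T : Subgroup (G ⧸ H))).comap (QuotientGroup.mk' H) := ⟨_, rfl⟩
  have hDmap : D.map (QuotientGroup.mk' H) =
      (S : Subgroup (G ⧸ H)) ⊓ (T : Subgroup (G ⧸ H)) := by
    rw [hDdef]; exact Subgroup.map_comap_eq_self_of_surjective hsurj _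
  rw [← hDmap]
  obtain ⟨R⟩ : Nonempty (Sylow 2 D) := inferInstance
  obtain ⟨R₀, hR₀def⟩ : ∃ R₀ : Subgroup G, R₀ = (R : Subgroup D).map D.subtype := ⟨_, rfl⟩
  have hR₀D : R₀ ≤ D := by rw [hR₀def]; exact Subgroup.map_subtype_le _
  have hR₀p : IsPGroup 2 R₀ := by rw [hR₀def]; exact R.isPGroup'.map _
  have key : ∀ U : Sylow 2 (G ⧸ H),
      R₀ ≤ (U : Subgroup (G ⧸ H)).comap (QuotientGroup.mk' H) →
      ∃ X : Sylow 2 G, R₀ ≤ (X : Subgroup G) ∧
        (X : Subgroup G) ≤ (U : Subgroup (G ⧸ H)).comap (QuotientGroup.mk' H) := by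
    intro U hRU
    obtain ⟨L, hLdef⟩ : ∃ L : Subgroup G,
        L = (U : Subgroup (G ⧸ H)).comap (QuotientGroup.mk' H) := ⟨_, rfl⟩
    rw [← hLdef] at hRU ⊢
    have hp : IsPGroup 2 (R₀.subgroupOf L) := hR₀p.comap_subtype
    obtain ⟨Y, hY⟩ := hp.exists_le_sylow
    have hYp : IsPGroup 2 ((Y : Subgroup L).map L.subtype) := Y.isPGroup'.map _
    have hLidx : ¬ 2 ∣ L.index := by
      rw [hLdef, Subgroup.index_comap_of_surjective _ hsurj]; exact U.not_dvd_index
    have hYidx : ¬ 2 ∣ ((Y : Subgroup L).map L.subtype).index := by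
      rw [Subgroup.index_map_subtype]
      intro h
      rcases (Nat.Prime.dvd_mul Nat.prime_two).mp h with h | h
      · exact Y.not_dvd_index h
      · exact hLidx h
    refine ⟨hYp.toSylow hYidx, ?_, ?_⟩
    · rw [IsPGroup.toSylow_coe]
      intro x hx
      exact ⟨⟨x, hRU hx⟩, hY (Subgroup.mem_subgroupOf.mpr hx), rfl⟩
    · rw [IsPGroup.toSylow_coe]; exact Subgroup.map_subtype_le _
  have hRS : R₀ ≤ (S : Subgroup (G ⧸ H)).comap (QuotientGroup.mk' H) := by
    refine le_trans hR₀D ?_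
    rw [hDdef]; exact Subgroup.comap_mono inf_le_left
  have hRT : R₀ ≤ (T : Subgroup (G ⧸ H)).comap (QuotientGroup.mk' H) := by
    refine le_trans hR₀D ?_
    rw [hDdef]; exact Subgroup.comap_mono inf_le_right
  obtain ⟨X₁, hX₁R, hX₁S⟩ := key S hRS
  obtain ⟨X₂, hX₂R, hX₂T⟩ := key T hRT
  have hX : X₁ ≠ X₂ := by
    intro hEq
    have hXD : (X₁ : Subgroup G) ≤ D := by
      rw [hDdef, Subgroup.comap_inf]
      exact le_inf hX₁S (hEq ▸ hX₂T)
    have h1 : ((X₁ : Subgroup G).map (QuotientGroup.mk' H)).index ∣ (X₁ : Subgroup G).index :=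
      Subgroup.index_map_dvd _ hsurj
    have h2 : (X₁ : Subgroup G).map (QuotientGroup.mk' H) ≤
        (S : Subgroup (G ⧸ H)) ⊓ (T : Subgroup (G ⧸ H)) := by
      rw [← hDmap]; exact Subgroup.map_mono hXD
    have h3 : ((S : Subgroup (G ⧸ H)) ⊓ (T : Subgroup (G ⧸ H))).index ∣
        ((X₁ : Subgroup G).map (QuotientGroup.mk' H)).index := Subgroup.index_dvd_of_le h2
    have h4 : 2 ∣ ((S : Subgroup (G ⧸ H)) ⊓ (T : Subgroup (G ⧸ H))).index := by
      have h5 := Subgroup.relIndex_mul_index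
        (inf_le_left : (S : Subgroup (G ⧸ H)) ⊓ (T : Subgroup (G ⧸ H)) ≤ S)
      rw [← h5]
      apply dvd_mul_of_dvd_left
      obtain ⟨m, hm⟩ := IsPGroup.iff_card.mp S.isPGroup'
      have h6 : ((S : Subgroup (G ⧸ H)) ⊓ (T : Subgroup (G ⧸ H))).relIndex S ∣ 2 ^ m := by
        rw [← hm]; exact Subgroup.relIndex_dvd_card _ _
      obtain ⟨i, -, hi⟩ := (Nat.dvd_prime_pow Nat.prime_two).mp h6
      have hi0 : i ≠ 0 := by
        intro h0
        rw [h0, pow_zero] at hi
        have hle := Subgroup.relIndex_eq_one.mp hi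
        have hST' : (S : Subgroup (G ⧸ H)) ≤ T := le_trans hle inf_le_right
        exact hST (Sylow.ext (S.is_maximal' T.isPGroup' hST').symm)
      rw [hi]; exact dvd_pow_self 2 hi0
    exact X₁.not_dvd_index (dvd_trans h4 (dvd_trans h3 h1))
  have hcyc := hC X₁ X₂ hX
  have hRle : R₀ ≤ (X₁ : Subgroup G) ⊓ (X₂ : Subgroup G) := le_inf hX₁R hX₂R
  haveI hRcyc : IsCyclic (R : Subgroup D) := by
    let f : (R : Subgroup D) →* ((X₁ : Subgroup G) ⊓ (X₂ : Subgroup G) : Subgroup G) :=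
      MonoidHom.mk' (fun x => ⟨((x : D) : G), hRle (by rw [hR₀def]; exact ⟨x, x.2, rfl⟩)⟩)
        (fun _ _ => rfl)
    have hf : Function.Injective f := by
      intro a b hab
      apply Subtype.ext; apply Subtype.ext
      have h := congrArg Subtype.val hab
      exact h
    exact isCyclic_of_injective f hf
  have hDp : IsPGroup 2 (D.map (QuotientGroup.mk' H)) := by
    rw [hDmap]; exact S.isPGroup'.to_le inf_le_left
  have hsub : Function.Surjective ((QuotientGroup.mk' H).subgroupMap D) :=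
    MonoidHom.subgroupMap_surjective _ _
  have htop : (R : Subgroup D).map ((QuotientGroup.mk' H).subgroupMap D) = ⊤ :=
    ((R.mapSurjective hsub).is_maximal' (hDp.to_subgroup ⊤) le_top).symm
  have hg : Function.Surjective
      (((QuotientGroup.mk' H).subgroupMap D).comp (R : Subgroup D).subtype) := by
    intro y
    have hy : y ∈ (R : Subgroup D).map ((QuotientGroup.mk' H).subgroupMap D) := by
      rw [htop]; trivial
    obtain ⟨r, hr, hry⟩ := hy
    exact ⟨⟨r, hr⟩, hry⟩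
  exact isCyclic_of_surjective _ hg

end Cfsg.Agent.S3305
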