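import Cfsg.Statements.S3303
import Mathlib
import Cfsg.Agent.S3305
import Cfsg.Agent.Helper3.PComp
import Cfsg.Agent.Helper3.Local
-- import your own Cfsg.Agent.* helpers here

set_option autoImplicit false
open Cfsg

namespace Cfsg.Agent.S3303


theorem two_group_of_cyclic_core {X : Type*} [Group X] [Finite X] (hs : Group.IsSolvable X)
    (hO : Cfsg.pPrimeCore 2 X = ⊥) (hcyc : IsCyclic ↥(Cfsg.pCore 2 X)) : IsPGroup 2 X := by
  haveI : Fact (Nat.Prime 2) := ⟨Nat.prime_two⟩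
  have hlayer : Cfsg.layer X = ⊥ :=
    Cfsg.Agent.Helper3.layer_eq_bot_of_le_solvable (⊤ : Subgroup X) inferInstance le_top
  have hCF : Subgroup.centralizer (Cfsg.fittingSubgroup X : Set X) ≤ Cfsg.fittingSubgroup X :=
    Cfsg.Agent.Helper3.centralizer_fitting_le_iff.mpr hlayer
  rw [Cfsg.Agent.Helper3.fitting_eq_pCore_of_pPrimeCore_eq_bot 2 hO] at hCF
  have hQp : IsPGroup 2 (Cfsg.pCore 2 X) := Cfsg.Agent.Helper3.pCore_isPGroup 2 X
  obtain ⟨Q, hQdef⟩ : ∃ Q : Subgroup X, Q = Cfsg.pCore 2 X := ⟨_, rfl⟩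
  haveI hQn : Q.Normal := by rw [hQdef]; infer_instance
  rw [← hQdef] at hCF hcyc hQp
  obtain ⟨k, hk⟩ := hQp.exists_card_eq
  have key := Subgroup.card_dvd_of_injective _
    (QuotientGroup.kerLift_injective Q.normalizerMonoidHom)
  rw [Subgroup.normalizerMonoidHom_ker, ← Subgroup.index, ← Subgroup.relIndex,
    hcyc.card_mulAut, hk] at key
  have hNtop : Subgroup.normalizer (Q : Set X) = ⊤ := Subgroup.normalizer_eq_top_iff.mpr hQn
  rw [hNtop, Subgroup.relIndex_top_right] at key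
  have h1 : (2 ^ k).totient ∣ 2 ^ k := by
    rcases Nat.eq_zero_or_pos k with h0 | h0
    · rw [h0]; simp
    · rw [Nat.totient_prime_pow Nat.prime_two h0]
      simpa using (pow_dvd_pow 2 (Nat.sub_le k 1))
  have h2 : Nat.card (Subgroup.centralizer (Q : Set X)) ∣ 2 ^ k := by
    rw [← hk]; exact Subgroup.card_dvd_of_le hCF
  have h3 : Nat.card X ∣ 2 ^ k * 2 ^ k := by
    rw [← Subgroup.card_mul_index (Subgroup.centralizer (Q : Set X))]
    exact Nat.mul_dvd_mul h2 (key.trans h1)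
  rw [← pow_add] at h3
  obtain ⟨j, _, hj⟩ := (Nat.dvd_prime_pow Nat.prime_two).mp h3
  exact IsPGroup.of_card hj

/-- Let G be a finite solvable group in which the intersection of any two distinct Sylow 2-subgroups is cyclic. Then G/O(G) has a normal Sylow 2-subgroup, where O(G) is the largest normal subgroup of odd order. -/
theorem result {G : Type*} [Group G] [Finite G] (hs : Group.IsSolvable G)
    (hC : ∀ S T : Sylow 2 G, S ≠ T → IsCyclic ↥((S : Subgroup G) ⊓ (T : Subgroup G))) :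
    ∃ P : Sylow 2 (G ⧸ Cfsg.oddCore G), (P : Subgroup (G ⧸ Cfsg.oddCore G)).Normal := by
  classical
  haveI : Fact (Nat.Prime 2) := ⟨Nat.prime_two⟩
  haveI : Group.IsSolvable G := hs
  have hsX : Group.IsSolvable (G ⧸ Cfsg.oddCore G) := inferInstance
  have hO : Cfsg.pPrimeCore 2 (G ⧸ Cfsg.oddCore G) = ⊥ :=
    Cfsg.Agent.Helper3.pPrimeCore_quotient_eq_bot 2 G
  have hC' := Cfsg.Agent.S3305.result hC (Cfsg.oddCore G)
  obtain ⟨P⟩ : Nonempty (Sylow 2 (G ⧸ Cfsg.oddCore G)) := inferInstance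
  by_cases hP : (P : Subgroup (G ⧸ Cfsg.oddCore G)).Normal
  · exact ⟨P, hP⟩
  · have hex : ∃ g : G ⧸ Cfsg.oddCore G, g • P ≠ P := by
      by_contra hcon
      push Not at hcon
      apply hP
      rw [← Subgroup.normalizer_eq_top_iff, eq_top_iff]
      intro g _
      exact Sylow.smul_eq_iff_mem_normalizer.mp (hcon g)
    obtain ⟨g, hg⟩ := hex
    have hcyc := hC' (g • P) P hg
    have hQp : IsPGroup 2 (Cfsg.pCore 2 (G ⧸ Cfsg.oddCore G)) :=
      Cfsg.Agent.Helper3.pCore_isPGroup 2 _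
    have hQle : Cfsg.pCore 2 (G ⧸ Cfsg.oddCore G) ≤
        ((g • P : Sylow 2 (G ⧸ Cfsg.oddCore G)) : Subgroup (G ⧸ Cfsg.oddCore G)) ⊓
          (P : Subgroup (G ⧸ Cfsg.oddCore G)) :=
      le_inf (hQp.le_sylow_of_normal _) (hQp.le_sylow_of_normal _)
    haveI := hcyc
    have hQcyc : IsCyclic ↥(Cfsg.pCore 2 (G ⧸ Cfsg.oddCore G)) :=
      isCyclic_of_injective (Subgroup.inclusion hQle) (Subgroup.inclusion_injective hQle)
    have h2 := two_group_of_cyclic_core hsX hO hQcyc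
    exfalso
    apply hP
    have hPtop : (P : Subgroup (G ⧸ Cfsg.oddCore G)) = ⊤ :=
      (P.is_maximal' (h2.to_subgroup ⊤) le_top).symm
    rw [hPtop]
    infer_instance

end Cfsg.Agent.S3303
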