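import Cfsg.Statements.S3349
import Mathlib
-- import your own Cfsg.Agent.* helpers here

set_option autoImplicit false
open Cfsg

namespace Cfsg.Agent.S3349

/-- Let Q be a finite extraspecial p-group and α an automorphism of Q fixing every element of some maximal abelian subgroup of Q. Then the order of α is a power of p. -/
theorem result {Q : Type*} [Group Q] [Finite Q]
    (p : ℕ) [Fact p.Prime] (hQ : Cfsg.IsExtraspecial p Q) (α : MulAut Q)
    (A : Subgroup Q) (hA : IsMulCommutative A) (hmax : ∀ B : Subgroup Q, A ≤ B → IsMulCommutative B → B = A)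
    (hfix : ∀ a ∈ A, α a = a) :
    ∃ k : ℕ, orderOf α = p ^ k := by
  classical
  obtain ⟨⟨hp, hfrat, hcomm⟩, hcard⟩ := hQ
  -- centralizer of A is A
  have hCA : ∀ q : Q, (∀ a ∈ A, q * a = a * q) → q ∈ A := by
    intro q hq
    have hcomm' : ∀ x ∈ ((A : Set Q) ∪ {q}), ∀ y ∈ ((A : Set Q) ∪ {q}), x * y = y * x := by
      intro x hx y hy
      rcases hx with hx | hx <;> rcases hy with hy | hy
      · have := hA.is_comm.comm (⟨x, hx⟩ : A) ⟨y, hy⟩
        exact congrArg Subtype.val this
      · rw [Set.mem_singleton_iff] at hy; rw [hy]; exact (hq x hx).symm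
      · rw [Set.mem_singleton_iff] at hx; rw [hx]; exact hq y hy
      · rw [Set.mem_singleton_iff] at hx hy; rw [hx, hy]
    have hB : IsMulCommutative (Subgroup.closure ((A : Set Q) ∪ {q})) := by
      refine ⟨⟨?_⟩⟩
      rintro ⟨x, hx⟩ ⟨y, hy⟩
      apply Subtype.ext
      show x * y = y * x
      induction hx, hy using Subgroup.closure_induction₂ with
      | mem x y hx hy => exact hcomm' x hx y hy
      | one_left x hx => simp
      | one_right x hx => simp
      | mul_left x y z _ _ _ h1 h2 => rw [mul_assoc, h2, ← mul_assoc, h1, mul_assoc]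
      | mul_right x y z _ _ _ h1 h2 => rw [← mul_assoc, h1, mul_assoc, h2, ← mul_assoc]
      | inv_left x y _ _ h => 
        have : x⁻¹ * y = x⁻¹ * (y * x) * x⁻¹ := by group
        rw [this, ← h]; group
      | inv_right x y _ _ h =>
        have : x * y⁻¹ = y⁻¹ * (y * x) * y⁻¹ := by group
        rw [this, ← h]; group
    have hle : A ≤ Subgroup.closure ((A : Set Q) ∪ {q}) := by
      intro a ha
      exact Subgroup.subset_closure (Or.inl ha)
    have := hmax _ hle hB
    rw [← this]
    exact Subgroup.subset_closure (Or.inr rfl)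
  have hZA : Subgroup.center Q ≤ A := by
    intro z hz
    apply hCA
    intro a _
    exact (Subgroup.mem_center_iff.mp hz a).symm
  have hc : ∀ q : Q, q⁻¹ * α q ∈ A := by
    intro q
    apply hCA
    intro a ha
    have h1 : q * a * q⁻¹ * a⁻¹ ∈ commutator Q := by
      rw [commutator_def]
      exact Subgroup.commutator_mem_commutator (Subgroup.mem_top q) (Subgroup.mem_top a)
    rw [hcomm] at h1
    have h2 := hfix _ (hZA h1)
    simp only [map_mul, map_inv, hfix a ha] at h2
    have h3 : α q * a * (α q)⁻¹ = q * a * q⁻¹ := by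
      have := congrArg (· * a) h2
      simpa using this
    calc q⁻¹ * α q * a = q⁻¹ * (α q * a * (α q)⁻¹) * α q := by group
      _ = q⁻¹ * (q * a * q⁻¹) * α q := by rw [h3]
      _ = a * (q⁻¹ * α q) := by group
  have hpow : ∀ (n : ℕ) (q : Q), (α ^ n) q = q * (q⁻¹ * α q) ^ n := by
    intro n
    induction n with
    | zero => intro q; simp
    | succ n ih =>
      intro q
      rw [pow_succ', MulAut.mul_apply, ih, map_mul, map_pow, hfix _ (hc q)]
      rw [pow_succ' (q⁻¹ * α q) n, ← mul_assoc, ← mul_assoc, mul_inv_cancel, one_mul]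
  have h1 : α ^ Nat.card A = 1 := by
    ext q
    rw [hpow]
    have : (⟨q⁻¹ * α q, hc q⟩ : A) ^ Nat.card A = 1 := pow_card_eq_one'
    have h2 : (q⁻¹ * α q) ^ Nat.card A = 1 := congrArg Subtype.val this
    rw [h2]
    simp
  have h2 : orderOf α ∣ Nat.card A := orderOf_dvd_of_pow_eq_one h1
  obtain ⟨k, hk⟩ := (IsPGroup.iff_card.mp (hp.to_subgroup A))
  rw [hk] at h2
  obtain ⟨j, -, hj⟩ := (Nat.dvd_prime_pow (Fact.out : p.Prime)).mp h2
  exact ⟨j, hj⟩

end Cfsg.Agent.S3349
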