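import Cfsg.Statements.S3495
import Mathlib

set_option autoImplicit false
open Cfsg

namespace Cfsg.Agent.S3495

/-- Let a finite group G act faithfully and primitively on a finite set Ω with non-trivial point stabilizers, each acting primitively on every one of its orbits (an extremely primitive group), and suppose G has an elementary abelian normal p-subgroup N acting regularly on Ω (affine type). Then every non-trivial subgroup M of a point stabilizer G_α that is normal in G_α has the same orbits on Ω as G_α, and normalizes no subgroup of N other than 1 and N. -/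
theorem result {G : Type*} [Group G] [Finite G] {Ω : Type*} [Fintype Ω] [MulAction G Ω] [FaithfulSMul G Ω] (hprim : MulAction.IsPreprimitive G Ω) (hH : ∀ α : Ω, MulAction.stabilizer G α ≠ ⊥) (hep : ∀ (α : Ω) (ω : Ω), MulAction.IsPreprimitive (MulAction.stabilizer G α) (MulAction.orbit (MulAction.stabilizer G α) ω))
    (N : Subgroup G) [N.Normal] (hNc : IsMulCommutative N) (p : ℕ) (hp : p.Prime) (hNp : ∀ n ∈ N, n ^ p = 1)
    (hNtr : MulAction.IsPretransitive N Ω) (hNreg : ∀ ω : Ω, MulAction.stabilizer N ω = ⊥) (α : Ω) (M : Subgroup G) (hM : M ≠ ⊥) (hMle : M ≤ MulAction.stabilizer G α)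
    (hMn : MulAction.stabilizer G α ≤ Subgroup.normalizer (M : Set G)) :
    (∀ ω : Ω, MulAction.orbit M ω = MulAction.orbit (MulAction.stabilizer G α) ω) ∧
    (∀ L : Subgroup G, L ≤ N → M ≤ Subgroup.normalizer (L : Set G) → L = ⊥ ∨ L = N) := by
  classical
  haveI := hNtr
  haveI := hNc
  haveI := hprim
  have hfree : ∀ n ∈ N, n • α = α → n = 1 := by
    intro n hn h
    have h1 : (⟨n, hn⟩ : N) ∈ MulAction.stabilizer N α := MulAction.mem_stabilizer_iff.mpr h
    rw [hNreg α, Subgroup.mem_bot] at h1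
    exact congrArg Subtype.val h1
  have hinj : ∀ n₁ ∈ N, ∀ n₂ ∈ N, n₁ • α = n₂ • α → n₁ = n₂ := by
    intro n₁ h1 n₂ h2 h
    have h3 : (n₂⁻¹ * n₁) • α = α := by rw [mul_smul, h, inv_smul_smul]
    have h4 := hfree _ (mul_mem (inv_mem h2) h1) h3
    calc n₁ = n₂ * (n₂⁻¹ * n₁) := by group
      _ = n₂ := by rw [h4, mul_one]
  have htrans : ∀ ω : Ω, ∃ n ∈ N, n • α = ω := by
    intro ω
    obtain ⟨n, hn⟩ := MulAction.exists_smul_eq N α ω
    exact ⟨n.1, n.2, hn⟩
  have hcommN : ∀ n₁ ∈ N, ∀ n₂ ∈ N, n₁ * n₂ = n₂ * n₁ := by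
    intro n₁ h1 n₂ h2
    have := mul_comm' (⟨n₁, h1⟩ : N) ⟨n₂, h2⟩
    exact congrArg Subtype.val this
  have hmemS : ∀ g : G, g ∈ MulAction.stabilizer G α ↔ g • α = α :=
    fun g => MulAction.mem_stabilizer_iff
  have hMfix : ∀ m ∈ M, m • α = α := fun m hm => (hmemS m).mp (hMle hm)
  have hconj : ∀ g : G, g • α = α → ∀ n : G, (g * n * g⁻¹) • α = g • n • α := by
    intro g hg n
    have hg' : g⁻¹ • α = α := by rw [inv_smul_eq_iff, hg]
    rw [mul_smul, mul_smul, hg']
  have hNn : ∀ n ∈ N, ∀ g : G, g * n * g⁻¹ ∈ N :=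
    fun n hn g => Subgroup.Normal.conj_mem inferInstance n hn g
  have hMconj : ∀ g ∈ MulAction.stabilizer G α, ∀ m ∈ M, g * m * g⁻¹ ∈ M :=
    fun g hg m hm => (Subgroup.mem_normalizer_iff.mp (hMn hg) m).mp hm
  obtain ⟨m₀, hm₀, hm₀1⟩ : ∃ m ∈ M, m ≠ 1 := by
    by_contra hcon
    apply hM
    rw [Subgroup.eq_bot_iff_forall]
    intro m hm
    by_contra h1
    exact hcon ⟨m, hm, h1⟩
  haveI hnt : Nontrivial Ω := by
    by_contra hnt
    haveI : Subsingleton Ω := not_nontrivial_iff_subsingleton.mp hnt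
    apply hm₀1
    apply FaithfulSMul.eq_of_smul_eq_smul (α := Ω)
    intro x
    exact Subsingleton.elim _ _
  have hco : IsCoatom (MulAction.stabilizer G α) :=
    MulAction.IsPreprimitive.isCoatom_stabilizer_of_isPreprimitive G α
  have factA : ∀ L : Subgroup G, L ≤ N →
      (∀ g ∈ MulAction.stabilizer G α, ∀ l ∈ L, g * l * g⁻¹ ∈ L) → L = ⊥ ∨ L = N := by
    intro L hLN hLinv
    by_cases hL : L = ⊥
    · exact Or.inl hL
    right
    obtain ⟨l₀, hl₀, hl₀1⟩ : ∃ l ∈ L, l ≠ 1 := by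
      by_contra hcon
      apply hL
      rw [Subgroup.eq_bot_iff_forall]
      intro l hl
      by_contra h1
      exact hcon ⟨l, hl, h1⟩
    have hLnormal : ∀ l ∈ L, ∀ g : G, g * l * g⁻¹ ∈ L := by
      intro l hl g
      obtain ⟨n, hn, hnα⟩ := htrans (g • α)
      have hh : (n⁻¹ * g) • α = α := by rw [mul_smul, ← hnα, inv_smul_smul]
      have h1 := hLinv (n⁻¹ * g) ((hmemS _).mpr hh) l hl
      have h2 : n * ((n⁻¹ * g) * l * (n⁻¹ * g)⁻¹) = ((n⁻¹ * g) * l * (n⁻¹ * g)⁻¹) * n :=
        hcommN n hn _ (hLN h1)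
      have h3 : g * l * g⁻¹ = n * ((n⁻¹ * g) * l * (n⁻¹ * g)⁻¹) * n⁻¹ := by group
      rw [h3, h2, mul_inv_cancel_right]
      exact h1
    haveI hLn : L.Normal := ⟨hLnormal⟩
    have hK : L ⊔ MulAction.stabilizer G α = ⊤ := by
      apply hco.2
      refine lt_of_le_of_ne le_sup_right ?_
      intro h
      have h1 : l₀ ∈ MulAction.stabilizer G α := by rw [h]; exact Subgroup.mem_sup_left hl₀
      exact hl₀1 (hfree l₀ (hLN hl₀) ((hmemS l₀).mp h1))
    apply le_antisymm hLN
    intro n hn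
    have hn' : n ∈ L ⊔ MulAction.stabilizer G α := by rw [hK]; exact Subgroup.mem_top n
    have hn'' : n ∈ (↑(L ⊔ MulAction.stabilizer G α) : Set G) := hn'
    rw [Subgroup.normal_mul] at hn''
    obtain ⟨l, hl, h, hh, rfl⟩ := Set.mem_mul.mp hn''
    have h1 : (l * h) • α = l • α := by rw [mul_smul, (hmemS h).mp hh]
    have h2 := hinj (l * h) hn l (hLN hl) h1
    rw [h2]; exact hl
  have hcent : ∀ n ∈ N, (∀ m ∈ M, m * n = n * m) → n = 1 := by
    intro n hn hc
    have hL0 := factA (N ⊓ Subgroup.centralizer (M : Set G)) inf_le_left (by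
      intro g hg l hl
      obtain ⟨hlN, hlC⟩ := Subgroup.mem_inf.mp hl
      refine Subgroup.mem_inf.mpr ⟨hNn l hlN g, ?_⟩
      rw [Subgroup.mem_centralizer_iff]
      intro m hm
      have hm' : g⁻¹ * m * g⁻¹⁻¹ ∈ M := hMconj g⁻¹ (inv_mem hg) m hm
      have h1 : (g⁻¹ * m * g⁻¹⁻¹) * l = l * (g⁻¹ * m * g⁻¹⁻¹) :=
        (Subgroup.mem_centralizer_iff.mp hlC) _ hm'
      calc m * (g * l * g⁻¹) = g * ((g⁻¹ * m * g⁻¹⁻¹) * l) * g⁻¹ := by group
        _ = g * (l * (g⁻¹ * m * g⁻¹⁻¹)) * g⁻¹ := by rw [h1]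
        _ = g * l * g⁻¹ * m := by group)
    rcases hL0 with h | h
    · have h1 : n ∈ N ⊓ Subgroup.centralizer (M : Set G) :=
        Subgroup.mem_inf.mpr ⟨hn, Subgroup.mem_centralizer_iff.mpr hc⟩
      rw [h, Subgroup.mem_bot] at h1
      exact h1
    · exfalso
      apply hm₀1
      apply FaithfulSMul.eq_of_smul_eq_smul (α := Ω)
      intro x
      obtain ⟨n', hn', rfl⟩ := htrans x
      have hn'C : n' ∈ Subgroup.centralizer (M : Set G) := by
        have h1 : n' ∈ N ⊓ Subgroup.centralizer (M : Set G) := by rw [h]; exact hn'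
        exact (Subgroup.mem_inf.mp h1).2
      have h1 : m₀ * n' = n' * m₀ := (Subgroup.mem_centralizer_iff.mp hn'C) m₀ hm₀
      rw [one_smul, ← mul_smul, h1, mul_smul, hMfix m₀ hm₀]
  have factC : ∀ ω : Ω, (∀ m ∈ M, m • ω = ω) → ω = α := by
    intro ω hω
    obtain ⟨n, hn, rfl⟩ := htrans ω
    have h1 : n = 1 := by
      apply hcent n hn
      intro m hm
      have h2 : (m * n * m⁻¹) • α = n • α := by
        rw [hconj m (hMfix m hm) n]; exact hω m hm
      have h3 := hinj _ (hNn n hn m) n hn h2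
      calc m * n = (m * n * m⁻¹) * m := by group
        _ = n * m := by rw [h3]
    rw [h1, one_smul]
  have part1 : ∀ ω : Ω, MulAction.orbit M ω = MulAction.orbit (MulAction.stabilizer G α) ω := by
    intro ω
    apply Set.Subset.antisymm
    · intro x hx
      obtain ⟨m, rfl⟩ := MulAction.mem_orbit_iff.mp hx
      exact MulAction.mem_orbit_iff.mpr ⟨⟨m.1, hMle m.2⟩, rfl⟩
    · haveI := hep α ω
      haveI hMn' : (M.subgroupOf (MulAction.stabilizer G α)).Normal :=
        Subgroup.normal_subgroupOf_of_le_normalizer hMn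
      intro x hx
      obtain ⟨g, rfl⟩ := MulAction.mem_orbit_iff.mp hx
      by_cases hfix : MulAction.fixedPoints (M.subgroupOf (MulAction.stabilizer G α))
          (MulAction.orbit (MulAction.stabilizer G α) ω) = Set.univ
      · have hω : ∀ m ∈ M, m • ω = ω := by
          intro m hm
          have h1 : (⟨ω, MulAction.mem_orbit_self ω⟩ : MulAction.orbit (MulAction.stabilizer G α) ω)
              ∈ MulAction.fixedPoints (M.subgroupOf (MulAction.stabilizer G α))
                (MulAction.orbit (MulAction.stabilizer G α) ω) := by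
            rw [hfix]; exact Set.mem_univ _
          have h2 := MulAction.mem_fixedPoints.mp h1 ⟨⟨m, hMle hm⟩, hm⟩
          exact congrArg Subtype.val h2
        have hωα := factC ω hω
        have h3 : g • ω = ω := by
          rw [hωα]; exact (hmemS g.1).mp g.2
        rw [h3]; exact MulAction.mem_orbit_self ω
      · haveI := MulAction.IsQuasiPreprimitive.isPretransitive_of_normal hfix
        obtain ⟨m, hm⟩ := MulAction.exists_smul_eq (M.subgroupOf (MulAction.stabilizer G α))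
          (⟨ω, MulAction.mem_orbit_self ω⟩ : MulAction.orbit (MulAction.stabilizer G α) ω)
          ⟨g • ω, MulAction.mem_orbit ω g⟩
        have h1 := congrArg Subtype.val hm
        exact MulAction.mem_orbit_iff.mpr ⟨⟨m.1.1, m.2⟩, h1⟩
  refine ⟨part1, ?_⟩
  intro L hLN hML
  apply factA L hLN
  intro g hg l hl
  have hlN := hLN hl
  have h1 : g • l • α ∈ MulAction.orbit M (l • α) := by
    rw [part1 (l • α)]
    exact MulAction.mem_orbit_iff.mpr ⟨⟨g, hg⟩, rfl⟩
  obtain ⟨m, hm⟩ := MulAction.mem_orbit_iff.mp h1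
  have h2 : (g * l * g⁻¹) • α = (m.1 * l * m.1⁻¹) • α := by
    rw [hconj g ((hmemS g).mp hg) l, hconj m.1 (hMfix m.1 m.2) l]
    exact hm.symm
  have h3 := hinj _ (hNn l hlN g) _ (hNn l hlN m.1) h2
  rw [h3]
  exact (Subgroup.mem_normalizer_iff.mp (hML m.2) l).mp hl


end Cfsg.Agent.S3495
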