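import Cfsg.Statements.S3498
import Mathlib
import Cfsg.Agent.Lead.Coprime3

set_option autoImplicit false
open Cfsg

namespace Cfsg.Agent.S3498

/-- A maximal subgroup of a finite almost simple group does not have prime order. Here G is almost simple in the sense that it has a non-abelian simple normal subgroup T with trivial centralizer. -/
theorem result {G : Type*} [Group G] [Finite G] (T : Subgroup G) [T.Normal] (hT : IsSimpleGroup T) (hTc : ¬ IsMulCommutative T)
    (hC : Subgroup.centralizer (T : Set G) = ⊥) (H : Subgroup G) (hmax : IsCoatom H) : ¬ (Nat.card H).Prime := by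
  intro hp0
  classical
  obtain ⟨p, hpdef⟩ : ∃ p, p = Nat.card H := ⟨_, rfl⟩
  have hp : p.Prime := by rw [hpdef]; exact hp0
  haveI : Fact p.Prime := ⟨hp⟩
  haveI := hT
  have hTsimp : ∀ N : Subgroup T, N.Normal → N = ⊥ ∨ N = ⊤ := fun N hN => hN.eq_bot_or_eq_top
  have hTcard : ¬ Nat.card T ∣ p := by
    intro hd
    apply hTc
    rcases (Nat.dvd_prime hp).mp hd with h1 | h1
    · haveI : Subsingleton T := (Nat.card_eq_one_iff_unique.mp h1).1
      exact ⟨⟨fun a b => Subsingleton.elim _ _⟩⟩
    · haveI : IsCyclic T := isCyclic_of_prime_card h1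
      infer_instance
  have hpgrp : ∀ q : ℕ, q.Prime → IsPGroup q T → False := by
    intro q hq hTq
    haveI : Fact q.Prime := ⟨hq⟩
    haveI : Nontrivial T := IsSimpleGroup.toNontrivial
    have hcn := hTq.center_nontrivial
    rcases hTsimp (Subgroup.center T) inferInstance with h0 | h1
    · obtain ⟨a, b, hab⟩ := hcn
      apply hab
      apply Subtype.ext
      have ha : (a : T) ∈ (⊥ : Subgroup T) := by rw [← h0]; exact a.2
      have hb : (b : T) ∈ (⊥ : Subgroup T) := by rw [← h0]; exact b.2
      rw [Subgroup.mem_bot.mp ha, Subgroup.mem_bot.mp hb]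
    · apply hTc
      refine ⟨⟨fun a b => ?_⟩⟩
      have hb : b ∈ Subgroup.center T := by rw [h1]; exact Subgroup.mem_top b
      exact Subgroup.mem_center_iff.mp hb a
  have hHp : IsPGroup p H := IsPGroup.of_card (n := 1) (by rw [pow_one, hpdef])
  haveI : IsCyclic H := isCyclic_of_prime_card hpdef.symm
  have hHcomm : ∀ a ∈ H, ∀ b ∈ H, a * b = b * a := by
    intro a ha b hb
    have := (inferInstance : IsMulCommutative H).is_comm.comm ⟨a, ha⟩ ⟨b, hb⟩
    exact congrArg (fun t : H => (t : G)) this
  have hHnn : ¬ H.Normal := by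
    intro hHn
    haveI := hHn
    have hn : ((H ⊓ T).subgroupOf T).Normal := inferInstance
    rcases hTsimp _ hn with h | h
    · have hbot : H ⊓ T = ⊥ := by
        rw [eq_bot_iff]
        intro x hx
        have hx' : (⟨x, hx.2⟩ : T) ∈ (H ⊓ T).subgroupOf T := Subgroup.mem_subgroupOf.mpr hx
        rw [h] at hx'
        exact congrArg (fun t : T => (t : G)) (Subgroup.mem_bot.mp hx')
      have hle : H ≤ Subgroup.centralizer (T : Set G) := by
        intro x hx
        rw [Subgroup.mem_centralizer_iff]
        intro t ht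
        have hc : x * t * x⁻¹ * t⁻¹ ∈ H ⊓ T := by
          constructor
          · have h1 : t * x⁻¹ * t⁻¹ ∈ H := hHn.conj_mem x⁻¹ (H.inv_mem hx) t
            have e : x * t * x⁻¹ * t⁻¹ = x * (t * x⁻¹ * t⁻¹) := by group
            rw [e]
            exact H.mul_mem hx h1
          · have h1 : x * t * x⁻¹ ∈ T := (inferInstance : T.Normal).conj_mem t ht x
            exact T.mul_mem h1 (T.inv_mem ht)
        rw [hbot, Subgroup.mem_bot] at hc
        have h2 := mul_inv_eq_one.mp hc
        calc t * x = x * t * x⁻¹ * x := by rw [h2]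
          _ = x * t := by group
      rw [hC] at hle
      have hH0 : H = ⊥ := le_bot_iff.mp hle
      rw [hH0, Subgroup.card_bot] at hpdef
      rw [hpdef] at hp
      exact Nat.not_prime_one hp
    · have hTH : T ≤ H := by
        intro t ht
        have : (⟨t, ht⟩ : T) ∈ (H ⊓ T).subgroupOf T := by rw [h]; trivial
        exact (Subgroup.mem_subgroupOf.mp this).1
      exact hTcard (by rw [hpdef]; exact Subgroup.card_dvd_of_le hTH)
  have hNH : Subgroup.normalizer (H : Set G) = H := by
    rcases eq_or_lt_of_le (Subgroup.le_normalizer (H := H)) with h | h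
    · exact h.symm
    · exfalso
      have htop := hmax.2 _ h
      exact hHnn (Subgroup.normalizer_eq_top_iff.mp htop)
  obtain ⟨P, hHP⟩ := hHp.exists_le_sylow
  have hPH : (P : Subgroup G) = H := by
    rcases eq_or_lt_of_le hHP with h | h
    · exact h.symm
    · exfalso
      have htop := hmax.2 _ h
      have hTp : IsPGroup p T := P.isPGroup'.to_le (by rw [htop]; exact le_top)
      exact hpgrp p hp hTp
  have hNC : Subgroup.normalizer ((P : Subgroup G) : Set G) ≤
      Subgroup.centralizer ((P : Subgroup G) : Set G) := by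
    rw [hPH, hNH]
    intro x hx
    rw [Subgroup.mem_centralizer_iff]
    intro y hy
    exact hHcomm y hy x hx
  have hnd := MonoidHom.not_dvd_card_ker_transferSylow P hNC
  have hKn : (MonoidHom.transferSylow P hNC).ker.Normal := MonoidHom.normal_ker _
  obtain ⟨K, hKdef⟩ : ∃ K : Subgroup G, K = (MonoidHom.transferSylow P hNC).ker := ⟨_, rfl⟩
  rw [← hKdef] at hnd hKn
  have hTK : T ≤ K := by
    haveI := hKn
    have hn : ((K ⊓ T).subgroupOf T).Normal := inferInstance
    rcases hTsimp _ hn with h | h
    · exfalso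
      have hinj : Function.Injective ((MonoidHom.transferSylow P hNC).comp T.subtype) := by
        rw [injective_iff_map_eq_one]
        intro t ht
        have h1 : (t : G) ∈ K := by rw [hKdef]; exact ht
        have h2 : t ∈ (K ⊓ T).subgroupOf T := Subgroup.mem_subgroupOf.mpr ⟨h1, t.2⟩
        rw [h] at h2
        exact Subgroup.mem_bot.mp h2
      have hd := Subgroup.card_dvd_of_injective _ hinj
      have hcP : Nat.card (P : Subgroup G) = p := by rw [hPH, hpdef]
      rw [hcP] at hd
      exact hTcard hd
    · intro t ht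
      have : (⟨t, ht⟩ : T) ∈ (K ⊓ T).subgroupOf T := by rw [h]; trivial
      exact (Subgroup.mem_subgroupOf.mp this).1
  have hpT : ¬ p ∣ Nat.card T := fun hd => hnd (hd.trans (Subgroup.card_dvd_of_le hTK))
  have hT1 : Nat.card T ≠ 1 := by
    intro h1
    exact hTcard (by rw [h1]; exact one_dvd _)
  obtain ⟨r, hr, hrT⟩ := Nat.exists_prime_and_dvd hT1
  haveI : Fact r.Prime := ⟨hr⟩
  have hrp : r ≠ p := fun h => hpT (h ▸ hrT)
  have hHT : H ≤ Subgroup.normalizer (T : Set G) := by
    rw [Subgroup.normalizer_eq_top]; exact le_top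
  have hcopT : p.Coprime (Nat.card T) := (Nat.Prime.coprime_iff_not_dvd hp).mpr hpT
  have hcop : (Nat.card H).Coprime (Nat.card T) := by rw [← hpdef]; exact hcopT
  have hsolv : IsSolvable H :=
    isSolvable_of_comm (fun a b => (inferInstance : IsMulCommutative H).is_comm.comm a b)
  obtain ⟨R, hR⟩ := Cfsg.Agent.Lead.coprime_sylow_exists H T hHT hcop (Or.inl hsolv) r
  obtain ⟨R', hR'def⟩ : ∃ R' : Subgroup G, R' = (R : Subgroup T).map T.subtype := ⟨_, rfl⟩
  rw [← hR'def] at hR
  have hRcard : Nat.card R' = Nat.card (R : Subgroup T) := by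
    rw [hR'def]; exact Subgroup.card_map_of_injective T.subtype_injective
  have hrR : r ∣ Nat.card R' := by
    rw [hRcard]; exact Sylow.dvd_card_of_dvd_card R hrT
  have hlt : H < H ⊔ R' := by
    refine lt_of_le_of_ne le_sup_left ?_
    intro heq
    have hle : R' ≤ H := by rw [heq]; exact le_sup_right
    have h1 : Nat.card R' ∣ p := by rw [hpdef]; exact Subgroup.card_dvd_of_le hle
    exact hrp ((Nat.prime_dvd_prime_iff_eq hr hp).mp (hrR.trans h1))
  have htop : H ⊔ R' = ⊤ := hmax.2 _ hlt
  have hinf : R' ⊓ H = ⊥ := by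
    apply Subgroup.inf_eq_bot_of_coprime
    rw [hRcard, R.card_eq_multiplicity, ← hpdef]
    exact Nat.Coprime.pow_left _ ((Nat.coprime_primes hr hp).mpr hrp)
  have hcardG := Cfsg.Agent.Lead.card_sup_of_le_normalizer R' H hR hinf
  rw [sup_comm, htop, Subgroup.card_top] at hcardG
  have hTdvd : Nat.card T ∣ Nat.card R' := by
    have h1 : Nat.card T ∣ Nat.card R' * Nat.card H := by
      rw [← hcardG]; exact Subgroup.card_subgroup_dvd_card T
    rw [← hpdef] at h1
    exact Nat.Coprime.dvd_of_dvd_mul_right hcopT.symm h1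
  have hTr : IsPGroup r T := by
    have h1 : Nat.card T ∣ r ^ (Nat.card T).factorization r := by
      rw [← R.card_eq_multiplicity, ← hRcard]; exact hTdvd
    obtain ⟨k, -, hk⟩ := (Nat.dvd_prime_pow hr).mp h1
    exact IsPGroup.of_card hk
  exact hpgrp r hr hTr


end Cfsg.Agent.S3498
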