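import Cfsg.Statements.S3504
import Mathlib

set_option autoImplicit false
open Cfsg

namespace Cfsg.Agent.S3504

/-- For n ≥ 5, the fixed-point-free permutations of prime order in the symmetric group of degree n form a single conjugacy class if and only if n is a prime power. -/
theorem result (n : ℕ) (hn : 5 ≤ n) :
    Nat.card {c : ConjClasses (Equiv.Perm (Fin n)) // ∃ g : Equiv.Perm (Fin n), ConjClasses.mk g = c ∧ (orderOf g).Prime ∧ ∀ i : Fin n, g i ≠ i} = 1 ↔ IsPrimePow n := by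
  classical
  have hA : ∀ p : ℕ, p.Prime → p ∣ n → ∃ g : Equiv.Perm (Fin n), orderOf g = p ∧
      (∀ i : Fin n, g i ≠ i) := by
    intro p hp hpn
    have hnp : n / p * p = n := Nat.div_mul_cancel hpn
    have hpos : 0 < n / p := Nat.div_pos (Nat.le_of_dvd (by omega) hpn) hp.pos
    obtain ⟨g, hg⟩ := (Equiv.Perm.exists_with_cycleType_iff (α := Fin n)
      (m := Multiset.replicate (n / p) p)).mpr
      ⟨by rw [Multiset.sum_replicate, smul_eq_mul, Fintype.card_fin, hnp], fun a ha => by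
        rw [Multiset.eq_of_mem_replicate ha]; exact hp.two_le⟩
    refine ⟨g, ?_, ?_⟩
    · rw [← Equiv.Perm.lcm_cycleType, hg]
      apply Nat.dvd_antisymm
      · rw [Multiset.lcm_dvd]
        intro b hb
        rw [Multiset.eq_of_mem_replicate hb]
      · apply Multiset.dvd_lcm
        rw [Multiset.mem_replicate]
        exact ⟨by omega, rfl⟩
    · intro i
      have hs : g.support.card = n := by
        rw [← Equiv.Perm.sum_cycleType, hg, Multiset.sum_replicate, smul_eq_mul, hnp]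
      have huniv : g.support = Finset.univ :=
        Finset.eq_univ_of_card _ (by rw [hs, Fintype.card_fin])
      have : i ∈ g.support := by rw [huniv]; exact Finset.mem_univ i
      exact Equiv.Perm.mem_support.mp this
  have hB : ∀ g : Equiv.Perm (Fin n), (orderOf g).Prime → (∀ i : Fin n, g i ≠ i) →
      orderOf g ∣ n ∧ g.cycleType = Multiset.replicate (n / orderOf g) (orderOf g) := by
    intro g hg hfp
    obtain ⟨k, hk⟩ := Equiv.Perm.cycleType_prime_order hg
    have huniv : g.support = Finset.univ := by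
      apply Finset.eq_univ_of_forall
      intro i
      exact Equiv.Perm.mem_support.mpr (hfp i)
    have hs : (k + 1) * orderOf g = n := by
      have := Equiv.Perm.sum_cycleType g
      rw [hk, Multiset.sum_replicate, smul_eq_mul, huniv, Finset.card_univ,
        Fintype.card_fin] at this
      exact this
    refine ⟨Dvd.intro_left _ hs, ?_⟩
    have hdiv : n / orderOf g = k + 1 := Nat.div_eq_of_eq_mul_left hg.pos hs.symm
    rw [hdiv]
    exact hk
  rw [isPrimePow_iff_unique_prime_dvd]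
  constructor
  · intro h1
    rw [Nat.card_eq_one_iff_unique] at h1
    obtain ⟨hsub, ⟨⟨c, g, hgc, hgp, hgf⟩⟩⟩ := h1
    refine ⟨orderOf g, ⟨hgp, (hB g hgp hgf).1⟩, ?_⟩
    rintro p ⟨hp, hpn⟩
    obtain ⟨g', hg'o, hg'f⟩ := hA p hp hpn
    have heq := hsub.elim ⟨ConjClasses.mk g', ⟨g', rfl, by rw [hg'o]; exact hp, hg'f⟩⟩
      ⟨c, ⟨g, hgc, hgp, hgf⟩⟩
    have h2 : ConjClasses.mk g' = ConjClasses.mk g := by
      have := congrArg Subtype.val heq
      rw [hgc]
      exact this
    have h3 : IsConj g' g := ConjClasses.mk_eq_mk_iff_isConj.mp h2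
    have h4 := Equiv.Perm.isConj_iff_cycleType_eq.mp h3
    rw [← hg'o, ← Equiv.Perm.lcm_cycleType g', h4, Equiv.Perm.lcm_cycleType]
  · rintro ⟨p, ⟨hp, hpn⟩, huniq⟩
    rw [Nat.card_eq_one_iff_unique]
    constructor
    · constructor
      rintro ⟨c₁, g₁, rfl, hp₁, hf₁⟩ ⟨c₂, g₂, rfl, hp₂, hf₂⟩
      apply Subtype.ext
      show ConjClasses.mk g₁ = ConjClasses.mk g₂
      rw [ConjClasses.mk_eq_mk_iff_isConj, Equiv.Perm.isConj_iff_cycleType_eq]
      obtain ⟨hd₁, hc₁⟩ := hB g₁ hp₁ hf₁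
      obtain ⟨hd₂, hc₂⟩ := hB g₂ hp₂ hf₂
      have e₁ : orderOf g₁ = p := huniq _ ⟨hp₁, hd₁⟩
      have e₂ : orderOf g₂ = p := huniq _ ⟨hp₂, hd₂⟩
      rw [hc₁, hc₂, e₁, e₂]
    · obtain ⟨g', hg'o, hg'f⟩ := hA p hp hpn
      exact ⟨⟨ConjClasses.mk g', ⟨g', rfl, by rw [hg'o]; exact hp, hg'f⟩⟩⟩

end Cfsg.Agent.S3504
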