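import Cfsg.Statements.S3508
import Mathlib

set_option autoImplicit false
open Cfsg

namespace Cfsg.Agent.S3508

theorem nilp_lemma {A : Type*} [AddCommGroup A] [Finite A] {p D R e : ℕ} (hp : p.Prime)
    (hexp : ∀ a : A, p • a = 0) (hcard : Nat.card A ∣ p ^ D)
    (f : A →+ A) (hper : ∀ a : A, (⇑f)^[p ^ R] a = a) (hDe : D ≤ p ^ e) :
    ∀ a : A, (⇑f)^[p ^ e] a = a := by
  classical
  obtain ⟨F, hF⟩ : ∃ F : AddMonoid.End A, ∀ a, F a = f a := ⟨f, fun a => rfl⟩
  have hfun : (⇑F : A → A) = ⇑f := funext hF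
  obtain ⟨δ, hδF⟩ : ∃ δ : AddMonoid.End A, δ + 1 = F := ⟨F - 1, sub_add_cancel F 1⟩
  have hp0 : (p : AddMonoid.End A) = 0 := by
    apply AddMonoidHom.ext
    intro a
    show p • a = 0
    exact hexp a
  have hcomm : Commute δ (1 : AddMonoid.End A) := Commute.one_right δ
  have hfrob : ∀ n : ℕ, F ^ (p ^ n) = δ ^ (p ^ n) + 1 := by
    intro n
    obtain ⟨r, hr⟩ := hcomm.exists_add_pow_prime_pow_eq hp n
    rw [hδF, one_pow, hp0, zero_mul, zero_mul, zero_mul, add_zero] at hr
    exact hr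
  have hFR : F ^ (p ^ R) = 1 := by
    apply AddMonoidHom.ext
    intro a
    show (F ^ (p ^ R)) a = a
    rw [AddMonoid.End.coe_pow, hfun]
    exact hper a
  have hδR : δ ^ (p ^ R) = 0 := by
    have h := hfrob R
    rw [hFR] at h
    have h' : δ ^ (p ^ R) + 1 = 0 + 1 := by rw [zero_add]; exact h.symm
    exact add_right_cancel h'
  have hX : ∀ i : ℕ, ∃ X : AddSubgroup A, ∀ y, y ∈ X ↔ ∃ x, (δ ^ i) x = y := by
    intro i
    exact ⟨AddMonoidHom.range (δ ^ i), fun y => AddMonoidHom.mem_range⟩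
  choose X hXmem using hX
  have hXle : ∀ i, X (i + 1) ≤ X i := by
    intro i y hy
    obtain ⟨x, rfl⟩ := (hXmem (i + 1) y).mp hy
    exact (hXmem i _).mpr ⟨δ x, by rw [pow_succ]; rfl⟩
  have hXstep : ∀ i, X (i + 1) = X i → X i = ⊥ := by
    intro i hi
    have hk : ∀ k : ℕ, ∀ y ∈ X i, ∃ z ∈ X i, (δ ^ k) z = y := by
      intro k
      induction k with
      | zero => intro y hy; exact ⟨y, hy, by rw [pow_zero]; rfl⟩
      | succ k ih =>
        intro y hy
        rw [← hi] at hy
        obtain ⟨x, hx⟩ := (hXmem (i + 1) y).mp hy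
        have hy' : (δ ^ i) x ∈ X i := (hXmem i _).mpr ⟨x, rfl⟩
        obtain ⟨z, hz, hzy⟩ := ih _ hy'
        refine ⟨z, hz, ?_⟩
        rw [pow_succ']
        show δ ((δ ^ k) z) = y
        rw [hzy, ← hx, pow_succ']
        rfl
    rw [eq_bot_iff]
    intro y hy
    obtain ⟨z, hz, hzy⟩ := hk (p ^ R) y hy
    rw [← hzy, hδR]
    exact AddSubgroup.zero_mem _
  have hp1 : p ≠ 1 := hp.one_lt.ne'
  have hchain : ∀ i : ℕ, i ≤ D → ∃ j : ℕ, Nat.card (X i) = p ^ j ∧ j + i ≤ D := by
    intro i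
    induction i with
    | zero =>
      intro _
      have hdvd : Nat.card (X 0) ∣ p ^ D :=
        dvd_trans (AddSubgroup.card_addSubgroup_dvd_card _) hcard
      obtain ⟨j, hj, hjc⟩ := (Nat.dvd_prime_pow hp).mp hdvd
      exact ⟨j, hjc, by omega⟩
    | succ i ih =>
      intro hi
      obtain ⟨j, hjc, hji⟩ := ih (by omega)
      have hdvd : Nat.card (X (i + 1)) ∣ p ^ j := by
        rw [← hjc]; exact AddSubgroup.card_dvd_of_le (hXle i)
      obtain ⟨j', hj', hjc'⟩ := (Nat.dvd_prime_pow hp).mp hdvd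
      by_cases hjj : j' = j
      · have heq : X (i + 1) = X i :=
          AddSubgroup.eq_of_le_of_card_ge (hXle i) (le_of_eq (by rw [hjc, hjc', hjj]))
        have hbot := hXstep i heq
        rw [hbot, AddSubgroup.card_bot] at hjc
        have hj0 : j = 0 := by
          rcases Nat.pow_eq_one.mp hjc.symm with h | h
          · exact absurd h hp1
          · exact h
        exact ⟨j', hjc', by omega⟩
      · exact ⟨j', hjc', by omega⟩
  obtain ⟨j, hjc, hjD⟩ := hchain D le_rfl
  have hj0 : j = 0 := by omega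
  rw [hj0, pow_zero] at hjc
  have hXD : X D = ⊥ := AddSubgroup.eq_bot_of_card_eq (h := hjc)
  have hδD : δ ^ D = 0 := by
    apply AddMonoidHom.ext
    intro a
    have h : (δ ^ D) a ∈ X D := (hXmem D _).mpr ⟨a, rfl⟩
    rw [hXD, AddSubgroup.mem_bot] at h
    exact h
  have hδe : δ ^ (p ^ e) = 0 := pow_eq_zero_of_le hDe hδD
  have hFe : F ^ (p ^ e) = 1 := by rw [hfrob e, hδe, zero_add]
  intro a
  have h : (F ^ (p ^ e)) a = a := by rw [hFe]; rfl
  rw [AddMonoid.End.coe_pow, hfun] at h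
  exact h

theorem affine {A : Type*} [AddCommGroup A] [Finite A] {p D R e : ℕ} (hp : p.Prime)
    (hexp : ∀ a : A, p • a = 0) (hcard : Nat.card A ∣ p ^ D)
    (u : A →+ A) (n₀ : A) (T : A → A) (hT : ∀ x, T x = u x + n₀)
    (hper : ∀ a : A, T^[p ^ R] a = a) (hDe : D + 1 ≤ p ^ e) :
    ∀ a : A, T^[p ^ e] a = a := by
  classical
  haveI : Fact (1 < p) := ⟨hp.one_lt⟩
  haveI : NeZero p := ⟨hp.ne_zero⟩
  have hmod : ∀ (x : ℕ) (a : A), (x % p) • a = x • a := by
    intro x a
    conv_rhs => rw [← Nat.mod_add_div x p, add_nsmul, mul_nsmul, hexp, smul_zero, add_zero]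
  obtain ⟨U, hU⟩ : ∃ U : (A × ZMod p) →+ (A × ZMod p),
      ∀ (x : A) (c : ZMod p), U (x, c) = (u x + c.val • n₀, c) :=
    ⟨AddMonoidHom.mk' (fun z => (u z.1 + z.2.val • n₀, z.2)) (by
      intro z w
      refine Prod.ext ?_ rfl
      show u (z.1 + w.1) + (z.2 + w.2).val • n₀
        = (u z.1 + z.2.val • n₀) + (u w.1 + w.2.val • n₀)
      rw [map_add, ZMod.val_add, hmod, add_nsmul]
      abel), fun x c => rfl⟩
  have hα : ∀ (k : ℕ) (x : A), (⇑U)^[k] (x, 1) = (T^[k] x, 1) := by
    intro k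
    induction k with
    | zero => intro x; rfl
    | succ k ih =>
      intro x
      rw [Function.iterate_succ_apply', ih x, hU, ZMod.val_one, one_nsmul,
        Function.iterate_succ_apply', hT]
  have hβ : ∀ (k : ℕ) (x : A) (c : ZMod p),
      (⇑U)^[k] (x, c) = ((⇑u)^[k] x + c.val • T^[k] 0, c) := by
    intro k
    induction k with
    | zero => intro x c; simp
    | succ k ih =>
      intro x c
      rw [Function.iterate_succ_apply', ih x c, hU, Function.iterate_succ_apply',
        Function.iterate_succ_apply', hT, map_add, map_nsmul, nsmul_add, add_assoc]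
  have hexpU : ∀ z : A × ZMod p, p • z = 0 := by
    intro z
    refine Prod.ext (hexp z.1) ?_
    show p • z.2 = 0
    rw [nsmul_eq_mul, ZMod.natCast_self, zero_mul]
  have hcardU : Nat.card (A × ZMod p) ∣ p ^ (D + 1) := by
    rw [Nat.card_prod, Nat.card_zmod, pow_succ]
    exact mul_dvd_mul_right hcard p
  have hT0 : T^[p ^ R] 0 = 0 := hper 0
  have huR : ∀ x : A, (⇑u)^[p ^ R] x = x := by
    intro x
    have h1 := hα (p ^ R) x
    rw [hβ, hper x, ZMod.val_one, one_nsmul, hT0, add_zero] at h1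
    exact congrArg Prod.fst h1
  have hperU : ∀ z : A × ZMod p, (⇑U)^[p ^ R] z = z := by
    rintro ⟨x, c⟩
    rw [hβ, hT0, smul_zero, add_zero, huR]
  have hres := nilp_lemma hp hexpU hcardU U hperU hDe
  intro a
  have h := hres (a, 1)
  rw [hα] at h
  exact congrArg Prod.fst h

/-- Let a finite group G act faithfully on a set Ω with p ^ m points (p prime) and have an elementary abelian normal p-subgroup N acting regularly on Ω (so G is a group of affine transformations of an m-dimensional space over the field with p elements). If G contains an element of order p ^ r with r ≥ 1, then p ^ (r − 1) ≤ m. In particular an element of order p ^ m forces m ≤ 2, and m ≤ 1 when p is odd. -/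
theorem result {G : Type*} [Group G] [Finite G] {Ω : Type*} [Fintype Ω] [MulAction G Ω] [FaithfulSMul G Ω] (p m : ℕ) (hp : p.Prime) (hcard : Fintype.card Ω = p ^ m)
    (N : Subgroup G) [N.Normal] (hNc : IsMulCommutative N) (hNp : ∀ n ∈ N, n ^ p = 1)
    (hNtr : MulAction.IsPretransitive N Ω) (hNreg : ∀ ω : Ω, MulAction.stabilizer N ω = ⊥)
    (g : G) (r : ℕ) (hr : 1 ≤ r) (hg : orderOf g = p ^ r) :
    p ^ (r - 1) ≤ m ∧ (r = m → m ≤ 2 ∧ (2 < p → m ≤ 1)) := by
  classical
  haveI := hNc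
  haveI := hNtr
  letI : CommGroup N := { (inferInstance : Group N) with mul_comm := fun a b => mul_comm' a b }
  haveI : Finite (Additive N) := inferInstanceAs (Finite N)
  have hpos : 0 < Fintype.card Ω := by rw [hcard]; exact pow_pos hp.pos m
  obtain ⟨ω₀⟩ := Fintype.card_pos_iff.mp hpos
  have hR1 : ∀ ω : Ω, ∃ n : N, (n : G) • ω₀ = ω := fun ω => MulAction.exists_smul_eq N ω₀ ω
  have hR2 : ∀ n n' : N, (n : G) • ω₀ = (n' : G) • ω₀ → n = n' := by
    intro n n' h
    have hmem : n'⁻¹ * n ∈ MulAction.stabilizer N ω₀ := by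
      rw [MulAction.mem_stabilizer_iff]
      show ((n'⁻¹ * n : N) : G) • ω₀ = ω₀
      rw [Subgroup.coe_mul, Subgroup.coe_inv, mul_smul, h, inv_smul_smul]
    rw [hNreg ω₀, Subgroup.mem_bot] at hmem
    exact (inv_mul_eq_one.mp hmem).symm
  have hcardN : Nat.card (Additive N) = p ^ m := by
    have hbij : Function.Bijective (fun n : N => (n : G) • ω₀) :=
      ⟨fun n n' h => hR2 n n' h, fun ω => hR1 ω⟩
    have h1 : Nat.card N = Nat.card Ω := Nat.card_congr (Equiv.ofBijective _ hbij)
    rw [Nat.card_eq_fintype_card (α := Ω), hcard] at h1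
    exact h1
  have hexpA : ∀ a : Additive N, p • a = 0 := by
    intro a
    have h1 : (Additive.toMul a) ^ p = 1 :=
      Subtype.ext (by rw [Subgroup.coe_pow]; exact hNp _ (Additive.toMul a).2)
    exact congrArg Additive.ofMul h1
  obtain ⟨n₀, hn₀⟩ := hR1 (g • ω₀)
  obtain ⟨u, hu⟩ : ∃ u : Additive N →+ Additive N, ∀ a : Additive N,
      ((Additive.toMul (u a) : N) : G) = g * ((Additive.toMul a : N) : G) * g⁻¹ :=
    ⟨AddMonoidHom.mk' (fun a => Additive.ofMul (⟨g * ((Additive.toMul a : N) : G) * g⁻¹,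
        Subgroup.Normal.conj_mem inferInstance _ (Additive.toMul a).2 g⟩ : N))
      (fun a b => by
        apply Additive.toMul.injective
        apply Subtype.ext
        show g * (((Additive.toMul a : N) : G) * ((Additive.toMul b : N) : G)) * g⁻¹
          = (g * ((Additive.toMul a : N) : G) * g⁻¹) * (g * ((Additive.toMul b : N) : G) * g⁻¹)
        group), fun a => rfl⟩
  obtain ⟨a₀, ha₀⟩ : ∃ a₀ : Additive N, a₀ = Additive.ofMul n₀ := ⟨_, rfl⟩
  have hact : ∀ a : Additive N, g • (((Additive.toMul a : N) : G) • ω₀)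
      = ((Additive.toMul (u a + a₀) : N) : G) • ω₀ := by
    intro a
    have e : ((Additive.toMul (u a + a₀) : N) : G)
        = g * ((Additive.toMul a : N) : G) * g⁻¹ * (n₀ : G) := by
      rw [← hu a, ha₀]; rfl
    rw [e, mul_smul, hn₀, mul_smul, inv_smul_smul, mul_smul]
  obtain ⟨T, hT⟩ : ∃ T : Additive N → Additive N, ∀ x, T x = u x + a₀ :=
    ⟨fun x => u x + a₀, fun x => rfl⟩
  have hiter : ∀ (k : ℕ) (a : Additive N), g ^ k • (((Additive.toMul a : N) : G) • ω₀)
      = ((Additive.toMul (T^[k] a) : N) : G) • ω₀ := by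
    intro k
    induction k with
    | zero => intro a; rw [pow_zero, one_smul]; rfl
    | succ k ih =>
      intro a
      rw [pow_succ', mul_smul, ih a, Function.iterate_succ_apply', hT]
      exact hact _
  have hgr : g ^ (p ^ r) = 1 := by rw [← hg]; exact pow_orderOf_eq_one g
  have hper : ∀ a : Additive N, T^[p ^ r] a = a := by
    intro a
    have h := hiter (p ^ r) a
    rw [hgr, one_smul] at h
    exact Additive.toMul.injective (hR2 _ _ h).symm
  have hmain : p ^ (r - 1) ≤ m := by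
    by_contra hcon
    push_neg at hcon
    have hres := affine hp hexpA (dvd_of_eq hcardN) u a₀ T hT hper (e := r - 1) (by omega)
    have hg1 : g ^ (p ^ (r - 1)) = 1 := by
      apply FaithfulSMul.eq_of_smul_eq_smul (α := Ω)
      intro ω
      obtain ⟨n, rfl⟩ := hR1 ω
      have h := hiter (p ^ (r - 1)) (Additive.ofMul n)
      rw [hres] at h
      rw [one_smul]
      exact h
    have hdvd : p ^ r ∣ p ^ (r - 1) := by rw [← hg]; exact orderOf_dvd_of_pow_eq_one hg1
    have hle := Nat.le_of_dvd (pow_pos hp.pos _) hdvd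
    have hlt : p ^ (r - 1) < p ^ r := Nat.pow_lt_pow_right hp.one_lt (by omega)
    omega
  refine ⟨hmain, ?_⟩
  intro hrm
  subst hrm
  have hA : ∀ k : ℕ, k + 3 < 2 ^ (k + 2) := by
    intro k
    induction k with
    | zero => norm_num
    | succ k ih =>
      have e : 2 ^ (k + 1 + 2) = 2 * 2 ^ (k + 2) := by
        rw [show k + 1 + 2 = (k + 2) + 1 from rfl, pow_succ, mul_comm]
      omega
  have hB : ∀ k : ℕ, k + 2 < 3 ^ (k + 1) := by
    intro k
    induction k with
    | zero => norm_num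
    | succ k ih =>
      have e : 3 ^ (k + 1 + 1) = 3 * 3 ^ (k + 1) := by rw [pow_succ, mul_comm]
      omega
  constructor
  · by_contra hcon
    push_neg at hcon
    obtain ⟨k, hk⟩ : ∃ k, r = k + 3 := ⟨r - 3, by omega⟩
    have h1 : 2 ^ (r - 1) ≤ p ^ (r - 1) := Nat.pow_le_pow_left hp.two_le _
    have h2 := hA k
    have e : r - 1 = k + 2 := by omega
    rw [e] at h1 hmain
    omega
  · intro hp3
    by_contra hcon
    push_neg at hcon
    obtain ⟨k, hk⟩ : ∃ k, r = k + 2 := ⟨r - 2, by omega⟩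
    have h1 : 3 ^ (r - 1) ≤ p ^ (r - 1) := Nat.pow_le_pow_left (by omega) _
    have h2 := hB k
    have e : r - 1 = k + 1 := by omega
    rw [e] at h1 hmain
    omega


end Cfsg.Agent.S3508
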