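import Cfsg.Statements.S3511
import Mathlib
-- import your own Cfsg.Agent.* helpers here

set_option autoImplicit false
open Cfsg

namespace Cfsg.Agent.S3511

theorem squarefree_rad (n : ℕ) : Squarefree (∏ p ∈ n.primeFactors, p) := by
  apply Finset.squarefree_prod_of_pairwise_isCoprime
  · intro a ha b hb hab
    have ha' := Nat.prime_of_mem_primeFactors (Finset.mem_coe.mp ha)
    have hb' := Nat.prime_of_mem_primeFactors (Finset.mem_coe.mp hb)
    show IsRelPrime a b
    rw [← Nat.coprime_iff_isRelPrime]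
    exact (Nat.coprime_primes ha' hb').mpr hab
  · intro i hi
    exact (Nat.prime_of_mem_primeFactors hi).squarefree

/-- Let a finite group G act faithfully on a set Ω. If every element of G of square-free order has a regular cycle (an orbit of the cyclic group it generates with trivial stabilizer), then every element of G has a regular cycle. -/
theorem result {G : Type*} [Group G] [Finite G] {Ω : Type*} [MulAction G Ω] [FaithfulSMul G Ω]
    (h : ∀ g : G, Squarefree (orderOf g) → ∃ ω : Ω, MulAction.stabilizer (Subgroup.zpowers g) ω = ⊥) (g : G) :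
    ∃ ω : Ω, MulAction.stabilizer (Subgroup.zpowers g) ω = ⊥ := by
  classical
  set n := orderOf g with hn
  have hn0 : n ≠ 0 := (orderOf_pos g).ne'
  set r := ∏ p ∈ n.primeFactors, p with hr
  have hrn : r ∣ n := Nat.prod_primeFactors_dvd n
  have hg' : orderOf (g ^ (n / r)) = r := orderOf_pow_orderOf_div hn0 hrn
  obtain ⟨ω, hω⟩ := h (g ^ (n / r)) (by rw [hg']; exact squarefree_rad n)
  refine ⟨ω, ?_⟩
  rw [eq_bot_iff]
  intro x hx
  rw [Subgroup.mem_bot]
  by_contra hx1
  have hx1' : (x : G) ≠ 1 := fun h => hx1 (Subtype.ext h)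
  rw [MulAction.mem_stabilizer_iff] at hx
  have hxω : (x : G) • ω = ω := hx
  set m := orderOf (x : G) with hm
  have hm0 : m ≠ 0 := (orderOf_pos (x : G)).ne'
  have hm1 : m ≠ 1 := fun h => hx1' (orderOf_eq_one_iff.mp h)
  have hmn : m ∣ n := orderOf_dvd_of_mem_zpowers x.2
  obtain ⟨p, hp, hpm⟩ := Nat.exists_prime_and_dvd hm1
  have hpn : p ∣ n := hpm.trans hmn
  have hy : orderOf ((x : G) ^ (m / p)) = p := orderOf_pow_orderOf_div hm0 hpm
  have hpr : p ∣ r := Finset.dvd_prod_of_mem _ (Nat.mem_primeFactors.mpr ⟨hp, hpn, hn0⟩)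
  obtain ⟨k, hk⟩ := (IsOfFinOrder.mem_powers_iff_mem_zpowers (isOfFinOrder_of_finite g)).mpr x.2
  have hk' : g ^ k = (x : G) := hk
  -- y = g ^ (k * (m / p)), y ^ p = 1
  have hyp : ((x : G) ^ (m / p)) ^ p = 1 := by
    have := pow_orderOf_eq_one ((x : G) ^ (m / p))
    rwa [hy] at this
  rw [← hk', ← pow_mul, ← pow_mul, ← mul_assoc] at hyp
  have hdiv : n ∣ k * (m / p) * p := orderOf_dvd_of_pow_eq_one hyp
  obtain ⟨c, hc⟩ := hpn
  have hp0 : 0 < p := hp.pos
  have hdiv2 : n / p ∣ k * (m / p) := by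
    have : n / p = c := by rw [hc]; exact Nat.mul_div_cancel_left c hp0
    rw [this]
    rw [hc, mul_comm p c] at hdiv
    exact Nat.dvd_of_mul_dvd_mul_right hp0 hdiv
  obtain ⟨e, he⟩ := hdiv2
  obtain ⟨s, hs⟩ := hpr
  have hnr : n / p = (n / r) * s := by
    obtain ⟨t, ht⟩ := hrn
    have hr0 : 0 < r := Nat.pos_of_ne_zero (fun h0 => hn0 (by rw [ht, h0, zero_mul]))
    have h1 : n / r = t := by rw [ht]; exact Nat.mul_div_cancel_left t hr0
    have h2 : n / p = s * t := by
      rw [ht, hs, mul_assoc]; exact Nat.mul_div_cancel_left _ hp0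
    rw [h1, h2, mul_comm]
  have hmem : (x : G) ^ (m / p) ∈ Subgroup.zpowers (g ^ (n / r)) := by
    rw [← hk', ← pow_mul, he, hnr, mul_assoc, pow_mul]
    exact Subgroup.pow_mem _ (Subgroup.mem_zpowers _) _
  have hfix : (x : G) ^ (m / p) • ω = ω := by
    have : ∀ j : ℕ, (x : G) ^ j • ω = ω := by
      intro j
      induction j with
      | zero => simp
      | succ j ih => rw [pow_succ, mul_smul, hxω, ih]
    exact this _
  have hbot : (⟨(x : G) ^ (m / p), hmem⟩ : Subgroup.zpowers (g ^ (n / r))) ∈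
      MulAction.stabilizer (Subgroup.zpowers (g ^ (n / r))) ω := by
    rw [MulAction.mem_stabilizer_iff]
    exact hfix
  rw [hω, Subgroup.mem_bot] at hbot
  have h1 : (x : G) ^ (m / p) = 1 := congrArg Subtype.val hbot
  rw [h1, orderOf_one] at hy
  exact hp.one_lt.ne hy

end Cfsg.Agent.S3511
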