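import Cfsg.Statements.S3515
import Mathlib

set_option autoImplicit false
open Cfsg

namespace Cfsg.Agent.S3515

lemma aux_cases : ∀ y : Fin 2 → ZMod 2, y = 0 ∨ y = Pi.single 0 1 ∨ y = Pi.single 1 1 ∨ y = Pi.single 0 1 + Pi.single 1 1 := by decide
lemma aux_ne0 : (Pi.single 0 1 + Pi.single 1 1 : Fin 2 → ZMod 2) ≠ 0 := by decide
lemma aux_ne1 : (Pi.single 0 1 + Pi.single 1 1 : Fin 2 → ZMod 2) ≠ Pi.single 0 1 := by decide
lemma aux_ne2 : (Pi.single 0 1 + Pi.single 1 1 : Fin 2 → ZMod 2) ≠ Pi.single 1 1 := by decide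

/-- Every primitive affine permutation group of degree p² is 3-closed. Let p be a prime and G a group of permutations of the plane V = F_p² consisting of affine maps x ↦ Ax + b, containing all translations, and acting primitively on V. Then any permutation σ of V that agrees on every triple of points with some element of G (σ preserves every G-orbit on ordered triples) already lies in G. -/
theorem result (p : ℕ) [Fact p.Prime] (G : Subgroup (Equiv.Perm (Fin 2 → ZMod p)))
    (haff : (G : Set (Equiv.Perm (Fin 2 → ZMod p))) ⊆ {τ : Equiv.Perm (Fin 2 → ZMod p) | ∃ (A : (Fin 2 → ZMod p) ≃ₗ[ZMod p] (Fin 2 → ZMod p)) (b : Fin 2 → ZMod p), ∀ x, τ x = A x + b})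
    (htrans : ∀ b : Fin 2 → ZMod p, ∃ g ∈ G, ∀ x, g x = x + b) (hprim : MulAction.IsPreprimitive G (Fin 2 → ZMod p))
    (σ : Equiv.Perm (Fin 2 → ZMod p)) (hσ : (∀ t : Fin 3 → (Fin 2 → ZMod p), ∃ g ∈ G, ∀ i, σ (t i) = g (t i))) : σ ∈ G := by
  obtain ⟨g, hg, hgt⟩ := hσ ![0, Pi.single 0 1, Pi.single 1 1]
  have hg0 : σ 0 = g 0 := hgt 0
  have hg1 : σ (Pi.single 0 1) = g (Pi.single 0 1) := hgt 1
  have hg2 : σ (Pi.single 1 1) = g (Pi.single 1 1) := hgt 2
  suffices h : σ = g by rw [h]; exact hg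
  by_cases hp : p = 2
  · subst hp
    apply Equiv.ext
    intro x
    have hπ := aux_cases
    have hne0 := aux_ne0
    have hne1 := aux_ne1
    have hne2 := aux_ne2
    rcases hπ x with hx | hx | hx | hx
    · rw [hx]; exact hg0
    · rw [hx]; exact hg1
    · rw [hx]; exact hg2
    · apply (Equiv.symm_apply_eq g).mp
      rcases hπ (g.symm (σ x)) with hz | hz | hz | hz
      · exfalso
        have h1 : σ x = σ 0 := by rw [hg0]; exact (Equiv.symm_apply_eq g).mp hz
        have h2 := σ.injective h1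
        rw [hx] at h2
        exact hne0 h2
      · exfalso
        have h1 : σ x = σ (Pi.single 0 1) := by rw [hg1]; exact (Equiv.symm_apply_eq g).mp hz
        have h2 := σ.injective h1
        rw [hx] at h2
        exact hne1 h2
      · exfalso
        have h1 : σ x = σ (Pi.single 1 1) := by rw [hg2]; exact (Equiv.symm_apply_eq g).mp hz
        have h2 := σ.injective h1
        rw [hx] at h2
        exact hne2 h2
      · rw [hz, hx]
  · have key : ∀ x y z : Fin 2 → ZMod p, ∃ (A : (Fin 2 → ZMod p) ≃ₗ[ZMod p] (Fin 2 → ZMod p)) (b : Fin 2 → ZMod p), σ x = A x + b ∧ σ y = A y + b ∧ σ z = A z + b := by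
      intro x y z
      obtain ⟨g, hg, hgt⟩ := hσ ![x, y, z]
      obtain ⟨A, b, hAb⟩ := haff hg
      refine ⟨A, b, ?_, ?_, ?_⟩
      · have h0 := hgt 0
        rw [show (![x, y, z] : Fin 3 → (Fin 2 → ZMod p)) 0 = x from rfl] at h0
        rw [h0, hAb]
      · have h1 := hgt 1
        rw [show (![x, y, z] : Fin 3 → (Fin 2 → ZMod p)) 1 = y from rfl] at h1
        rw [h1, hAb]
      · have h2 := hgt 2
        rw [show (![x, y, z] : Fin 3 → (Fin 2 → ZMod p)) 2 = z from rfl] at h2
        rw [h2, hAb]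
    have h2ne : (2 : ZMod p) ≠ 0 := by
      intro h2
      have h3 : ((2 : ℕ) : ZMod p) = 0 := by exact_mod_cast h2
      rw [ZMod.natCast_eq_zero_iff] at h3
      have hp' := (Fact.out : p.Prime)
      exact hp ((Nat.prime_dvd_prime_iff_eq hp' Nat.prime_two).mp h3)
    have hdouble : ∀ x, σ (x + x) - σ 0 = (2 : ZMod p) • (σ x - σ 0) := by
      intro x
      obtain ⟨A, b, h0, h1, h2⟩ := key 0 x (x + x)
      rw [h0, h1, h2, map_zero, map_add, two_smul]
      abel
    have hmid : ∀ x y, σ (x + x) + σ (y + y) = (2 : ZMod p) • σ (x + y) := by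
      intro x y
      obtain ⟨A, b, h0, h1, h2⟩ := key (x + x) (y + y) (x + y)
      rw [h0, h1, h2, map_add, map_add, map_add, two_smul]
      abel
    have hadd : ∀ x y, (σ (x + y) - σ 0) = (σ x - σ 0) + (σ y - σ 0) := by
      intro x y
      apply smul_right_injective _ h2ne
      show (2 : ZMod p) • (σ (x + y) - σ 0) = (2 : ZMod p) • ((σ x - σ 0) + (σ y - σ 0))
      calc (2 : ZMod p) • (σ (x + y) - σ 0) = (2 : ZMod p) • σ (x + y) - (σ 0 + σ 0) := by
            rw [smul_sub, two_smul (ZMod p) (σ 0)]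
        _ = (σ (x + x) + σ (y + y)) - (σ 0 + σ 0) := by rw [hmid]
        _ = (σ (x + x) - σ 0) + (σ (y + y) - σ 0) := by abel
        _ = (2 : ZMod p) • (σ x - σ 0) + (2 : ZMod p) • (σ y - σ 0) := by rw [hdouble, hdouble]
        _ = (2 : ZMod p) • ((σ x - σ 0) + (σ y - σ 0)) := by rw [smul_add]
    let A₀ : (Fin 2 → ZMod p) →+ (Fin 2 → ZMod p) := AddMonoidHom.mk' (fun x => σ x - σ 0) hadd
    let A₁ : (Fin 2 → ZMod p) →ₗ[ZMod p] (Fin 2 → ZMod p) := A₀.toZModLinearMap p
    have hA₁ : ∀ x, A₁ x = σ x - σ 0 := fun x => rfl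
    obtain ⟨A', b', hg'⟩ := haff hg
    have hb' : b' = σ 0 := by rw [hg0, hg', map_zero, zero_add]
    have hlin : (A' : (Fin 2 → ZMod p) →ₗ[ZMod p] (Fin 2 → ZMod p)) = A₁ := by
      apply (Pi.basisFun (ZMod p) (Fin 2)).ext
      intro i
      rw [Pi.basisFun_apply]
      have h4 : σ (Pi.single i 1) = g (Pi.single i 1) := by
        fin_cases i
        · exact hg1
        · exact hg2
      rw [hA₁, h4, hg', hb', add_sub_cancel_right]
      rfl
    apply Equiv.ext
    intro x
    have h5 : A' x = A₁ x := by rw [← hlin]; rfl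
    rw [hg', hb', h5, hA₁, sub_add_cancel]

end Cfsg.Agent.S3515
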