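import Cfsg.Statements.S3516
import Mathlib

set_option autoImplicit false
open Cfsg

namespace Cfsg.Agent.S3516

/-- Let p be an odd prime, d ≥ 3, and G a group of affine permutations x ↦ Ax + b of V = F_p^d containing all translations and all maps x ↦ Ax with A of determinant 1. Then the 3-closure of G is the full affine group: a permutation σ of V agrees on every triple of points with some element of G if and only if σ is an affine map. -/
theorem result (p : ℕ) [Fact p.Prime] (hp : p ≠ 2) (d : ℕ) (hd : 3 ≤ d) (G : Subgroup (Equiv.Perm (Fin d → ZMod p)))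
    (haff : (G : Set (Equiv.Perm (Fin d → ZMod p))) ⊆ {τ : Equiv.Perm (Fin d → ZMod p) | ∃ (A : (Fin d → ZMod p) ≃ₗ[ZMod p] (Fin d → ZMod p)) (b : Fin d → ZMod p), ∀ x, τ x = A x + b})
    (htrans : ∀ b : Fin d → ZMod p, ∃ g ∈ G, ∀ x, g x = x + b)
    (hsl : ∀ A : (Fin d → ZMod p) ≃ₗ[ZMod p] (Fin d → ZMod p), LinearMap.det (A : (Fin d → ZMod p) →ₗ[ZMod p] (Fin d → ZMod p)) = 1 → ∃ g ∈ G, ∀ x, g x = A x)
    (σ : Equiv.Perm (Fin d → ZMod p)) :
    (∀ t : Fin 3 → (Fin d → ZMod p), ∃ g ∈ G, ∀ i, σ (t i) = g (t i)) ↔ σ ∈ {τ : Equiv.Perm (Fin d → ZMod p) | ∃ (A : (Fin d → ZMod p) ≃ₗ[ZMod p] (Fin d → ZMod p)) (b : Fin d → ZMod p), ∀ x, τ x = A x + b} := by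
  constructor
  · intro h
    have key : ∀ x y z : Fin d → ZMod p, ∃ (A : (Fin d → ZMod p) ≃ₗ[ZMod p] (Fin d → ZMod p)) (b : Fin d → ZMod p), σ x = A x + b ∧ σ y = A y + b ∧ σ z = A z + b := by
      intro x y z
      obtain ⟨g, hg, hgt⟩ := h ![x, y, z]
      obtain ⟨A, b, hAb⟩ := haff hg
      refine ⟨A, b, ?_, ?_, ?_⟩
      · have h0 := hgt 0
        rw [show (![x, y, z] : Fin 3 → (Fin d → ZMod p)) 0 = x from rfl] at h0
        rw [h0, hAb]
      · have h1 := hgt 1
        rw [show (![x, y, z] : Fin 3 → (Fin d → ZMod p)) 1 = y from rfl] at h1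
        rw [h1, hAb]
      · have h2 := hgt 2
        rw [show (![x, y, z] : Fin 3 → (Fin d → ZMod p)) 2 = z from rfl] at h2
        rw [h2, hAb]
    have h2ne : (2 : ZMod p) ≠ 0 := by
      intro h2
      have h3 : ((2 : ℕ) : ZMod p) = 0 := by exact_mod_cast h2
      rw [ZMod.natCast_eq_zero_iff] at h3
      have hp' := (Fact.out : p.Prime)
      exact hp ((Nat.prime_dvd_prime_iff_eq hp' Nat.prime_two).mp h3)
    have hdouble : ∀ x, σ (x + x) - σ 0 = (2 : ZMod p) • (σ x - σ 0) := by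
      intro x
      obtain ⟨A, b, h0, h1, h2⟩ := key 0 x (x + x)
      rw [h0, h1, h2, map_zero, map_add, two_smul]
      abel
    have hmid : ∀ x y, σ (x + x) + σ (y + y) = (2 : ZMod p) • σ (x + y) := by
      intro x y
      obtain ⟨A, b, h0, h1, h2⟩ := key (x + x) (y + y) (x + y)
      rw [h0, h1, h2, map_add, map_add, map_add, two_smul]
      abel
    have hadd : ∀ x y, (σ (x + y) - σ 0) = (σ x - σ 0) + (σ y - σ 0) := by
      intro x y
      apply smul_right_injective _ h2ne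
      show (2 : ZMod p) • (σ (x + y) - σ 0) = (2 : ZMod p) • ((σ x - σ 0) + (σ y - σ 0))
      calc (2 : ZMod p) • (σ (x + y) - σ 0) = (2 : ZMod p) • σ (x + y) - (σ 0 + σ 0) := by
            rw [smul_sub, two_smul (ZMod p) (σ 0)]
        _ = (σ (x + x) + σ (y + y)) - (σ 0 + σ 0) := by rw [hmid]
        _ = (σ (x + x) - σ 0) + (σ (y + y) - σ 0) := by abel
        _ = (2 : ZMod p) • (σ x - σ 0) + (2 : ZMod p) • (σ y - σ 0) := by rw [hdouble, hdouble]
        _ = (2 : ZMod p) • ((σ x - σ 0) + (σ y - σ 0)) := by rw [smul_add]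
    let A₀ : (Fin d → ZMod p) →+ (Fin d → ZMod p) := AddMonoidHom.mk' (fun x => σ x - σ 0) hadd
    let A₁ : (Fin d → ZMod p) →ₗ[ZMod p] (Fin d → ZMod p) := A₀.toZModLinearMap p
    have hA₁ : ∀ x, A₁ x = σ x - σ 0 := fun x => rfl
    have hbij : Function.Bijective A₁ := by
      constructor
      · intro x y hxy
        rw [hA₁, hA₁, sub_left_inj] at hxy
        exact σ.injective hxy
      · intro y
        obtain ⟨x, hx⟩ := σ.surjective (y + σ 0)
        exact ⟨x, by rw [hA₁, hx, add_sub_cancel_right]⟩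
    refine ⟨LinearEquiv.ofBijective A₁ hbij, σ 0, fun x => ?_⟩
    rw [LinearEquiv.ofBijective_apply, hA₁, sub_add_cancel]
  · rintro ⟨A, b, hAb⟩ t
    classical
    let W : Submodule (ZMod p) (Fin d → ZMod p) := Submodule.span (ZMod p) (({t 1 - t 0, t 2 - t 0} : Finset (Fin d → ZMod p)) : Set (Fin d → ZMod p))
    have hWmem : ∀ i : Fin 3, t i - t 0 ∈ W := by
      intro i
      fin_cases i
      · simp
      · exact Submodule.subset_span (by simp)
      · exact Submodule.subset_span (by simp)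
    have hW : W ≠ ⊤ := by
      intro hWtop
      have h1 : Module.finrank (ZMod p) W ≤ 2 :=
        (finrank_span_finset_le_card (R := ZMod p) ({t 1 - t 0, t 2 - t 0} : Finset (Fin d → ZMod p))).trans Finset.card_le_two
      have h2 : Module.finrank (ZMod p) W = d := by
        rw [hWtop, finrank_top, Module.finrank_fin_fun]
      omega
    obtain ⟨x, hx⟩ : ∃ x, x ∉ W := by
      by_contra hcon
      push Not at hcon
      exact hW (eq_top_iff.mpr (fun x _ => hcon x))
    obtain ⟨f, hfx, hfW⟩ := Submodule.exists_dual_map_eq_bot_of_notMem hx inferInstance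
    have hfW' : ∀ w ∈ W, f w = 0 := by
      intro w hw
      have h3 : f w ∈ W.map f := Submodule.mem_map_of_mem hw
      rw [hfW] at h3
      exact (Submodule.mem_bot _).mp h3
    have hdetA : LinearMap.det (A : (Fin d → ZMod p) →ₗ[ZMod p] (Fin d → ZMod p)) ≠ 0 := (LinearEquiv.isUnit_det' A).ne_zero
    have hc0 : (LinearMap.det (A : (Fin d → ZMod p) →ₗ[ZMod p] (Fin d → ZMod p)))⁻¹ ≠ 0 := inv_ne_zero hdetA
    have hfv : f ((((LinearMap.det (A : (Fin d → ZMod p) →ₗ[ZMod p] (Fin d → ZMod p)))⁻¹ - 1) * (f x)⁻¹) • x) = (LinearMap.det (A : (Fin d → ZMod p) →ₗ[ZMod p] (Fin d → ZMod p)))⁻¹ - 1 := by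
      rw [map_smul, smul_eq_mul, mul_assoc, inv_mul_cancel₀ hfx, mul_one]
    have hunit : IsUnit (1 + f ((((LinearMap.det (A : (Fin d → ZMod p) →ₗ[ZMod p] (Fin d → ZMod p)))⁻¹ - 1) * (f x)⁻¹) • x)) := by
      rw [hfv, add_sub_cancel]; exact isUnit_iff_ne_zero.mpr hc0
    have hD : ∀ y, LinearEquiv.dilatransvection hunit y = y + f y • ((((LinearMap.det (A : (Fin d → ZMod p) →ₗ[ZMod p] (Fin d → ZMod p)))⁻¹ - 1) * (f x)⁻¹) • x) := fun y => LinearEquiv.dilatransvection.apply
    have hdetD : LinearMap.det ((LinearEquiv.dilatransvection hunit : (Fin d → ZMod p) ≃ₗ[ZMod p] (Fin d → ZMod p)) : (Fin d → ZMod p) →ₗ[ZMod p] (Fin d → ZMod p)) = (LinearMap.det (A : (Fin d → ZMod p) →ₗ[ZMod p] (Fin d → ZMod p)))⁻¹ := by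
      rw [LinearEquiv.dilatransvection.coe_toLinearMap, LinearMap.transvection.det, hfv, add_sub_cancel]
    have hdetA' : LinearMap.det (((LinearEquiv.dilatransvection hunit).trans A : (Fin d → ZMod p) ≃ₗ[ZMod p] (Fin d → ZMod p)) : (Fin d → ZMod p) →ₗ[ZMod p] (Fin d → ZMod p)) = 1 := by
      rw [LinearEquiv.coe_trans, LinearMap.det_comp, hdetD, mul_inv_cancel₀ hdetA]
    obtain ⟨g₁, hg₁, hg₁'⟩ := hsl ((LinearEquiv.dilatransvection hunit).trans A) hdetA'
    obtain ⟨g₂, hg₂, hg₂'⟩ := htrans (A (t 0) + b - A (LinearEquiv.dilatransvection hunit (t 0)))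
    refine ⟨g₂ * g₁, mul_mem hg₂ hg₁, fun i => ?_⟩
    rw [Equiv.Perm.mul_apply, hg₂', hg₁', hAb, LinearEquiv.trans_apply]
    have hDsub : LinearEquiv.dilatransvection hunit (t i - t 0) = t i - t 0 := by
      rw [hD, hfW' _ (hWmem i), zero_smul, add_zero]
    have h5 : A (LinearEquiv.dilatransvection hunit (t i)) - A (LinearEquiv.dilatransvection hunit (t 0)) = A (t i) - A (t 0) := by
      rw [← map_sub, ← map_sub, hDsub, map_sub]
    calc A (t i) + b = (A (t i) - A (t 0)) + (A (t 0) + b) := by abel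
      _ = (A (LinearEquiv.dilatransvection hunit (t i)) - A (LinearEquiv.dilatransvection hunit (t 0))) + (A (t 0) + b) := by rw [h5]
      _ = _ := by abel

end Cfsg.Agent.S3516
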