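import Cfsg.Statements.S3517
import Mathlib

set_option autoImplicit false
open Cfsg

namespace Cfsg.Agent.S3517

lemma exists_equiv_of_li {K V ι : Type*} [Field K] [AddCommGroup V] [Module K V] [FiniteDimensional K V]
    (v w : ι → V) (hv : LinearIndependent K v) (hw : LinearIndependent K w) :
    ∃ A : V ≃ₗ[K] V, ∀ i, A (v i) = w i := by
  let f := (Module.Basis.span hv).equiv (Module.Basis.span hw) (Equiv.refl ι)
  obtain ⟨g, hg⟩ := Submodule.exists_linearEquiv_restrict_eq f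
  refine ⟨g, fun i => ?_⟩
  have h1 := hg (Module.Basis.span hv i)
  rw [Module.Basis.equiv_apply] at h1
  simp only [Module.Basis.span_apply, Equiv.refl_apply] at h1
  exact h1.symm

lemma exists_equiv_pair {d : ℕ} (u1 u2 w1 w2 : Fin d → ZMod 2)
    (h1 : u1 = 0 ↔ w1 = 0) (h2 : u2 = 0 ↔ w2 = 0) (h12 : u1 = u2 ↔ w1 = w2) :
    ∃ A : (Fin d → ZMod 2) ≃ₗ[ZMod 2] (Fin d → ZMod 2), A u1 = w1 ∧ A u2 = w2 := by
  by_cases hu1 : u1 = 0
  · have hw1 := h1.mp hu1
    by_cases hu2 : u2 = 0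
    · have hw2 := h2.mp hu2
      exact ⟨LinearEquiv.refl _ _, by rw [hu1, hw1]; rfl, by rw [hu2, hw2]; rfl⟩
    · have hw2 : w2 ≠ 0 := fun h => hu2 (h2.mpr h)
      obtain ⟨A, hA⟩ := exists_equiv_of_li (K := ZMod 2) (fun _ : Unit => u2) (fun _ : Unit => w2)
        ((linearIndependent_unique_iff (R := ZMod 2)).mpr hu2) ((linearIndependent_unique_iff (R := ZMod 2)).mpr hw2)
      exact ⟨A, by rw [hu1, hw1, map_zero], hA ()⟩
  · have hw1 : w1 ≠ 0 := fun h => hu1 (h1.mpr h)
    by_cases hu2 : u2 = 0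
    · have hw2 := h2.mp hu2
      obtain ⟨A, hA⟩ := exists_equiv_of_li (K := ZMod 2) (fun _ : Unit => u1) (fun _ : Unit => w1)
        ((linearIndependent_unique_iff (R := ZMod 2)).mpr hu1) ((linearIndependent_unique_iff (R := ZMod 2)).mpr hw1)
      exact ⟨A, hA (), by rw [hu2, hw2, map_zero]⟩
    · have hw2 : w2 ≠ 0 := fun h => hu2 (h2.mpr h)
      by_cases hu12 : u1 = u2
      · have hw12 := h12.mp hu12
        obtain ⟨A, hA⟩ := exists_equiv_of_li (K := ZMod 2) (fun _ : Unit => u1) (fun _ : Unit => w1)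
          ((linearIndependent_unique_iff (R := ZMod 2)).mpr hu1) ((linearIndependent_unique_iff (R := ZMod 2)).mpr hw1)
        exact ⟨A, hA (), by rw [← hu12, ← hw12]; exact hA ()⟩
      · have hw12 : w1 ≠ w2 := fun h => hu12 (h12.mpr h)
        have hli : ∀ x y : Fin d → ZMod 2, x ≠ 0 → y ≠ 0 → x ≠ y → LinearIndependent (ZMod 2) ![x, y] := by
          intro x y hx hy hxy
          rw [LinearIndependent.pair_iff' hx]
          intro a
          have ha : a = 0 ∨ a = 1 := by revert a; decide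
          rcases ha with rfl | rfl
          · rw [zero_smul]; exact fun h => hy h.symm
          · rw [one_smul]; exact hxy
        obtain ⟨A, hA⟩ := exists_equiv_of_li ![u1, u2] ![w1, w2] (hli u1 u2 hu1 hu2 hu12) (hli w1 w2 hw1 hw2 hw12)
        exact ⟨A, hA 0, hA 1⟩

/-- For d ≥ 3, the 3-closure of the affine group AGL_d(2) acting on F_2^d is the full symmetric group: every permutation of F_2^d agrees on every ordered triple of points with some affine map (AGL_d(2) is 3-transitive). -/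
theorem result (d : ℕ) (hd : 3 ≤ d) (σ : Equiv.Perm (Fin d → ZMod 2)) (t : Fin 3 → (Fin d → ZMod 2)) :
    ∃ (A : (Fin d → ZMod 2) ≃ₗ[ZMod 2] (Fin d → ZMod 2)) (b : Fin d → ZMod 2), ∀ i, σ (t i) = A (t i) + b := by
  obtain ⟨A, hA1, hA2⟩ := exists_equiv_pair (t 1 - t 0) (t 2 - t 0) (σ (t 1) - σ (t 0)) (σ (t 2) - σ (t 0))
    (by rw [sub_eq_zero, sub_eq_zero, σ.injective.eq_iff])
    (by rw [sub_eq_zero, sub_eq_zero, σ.injective.eq_iff])
    (by rw [sub_left_inj, sub_left_inj, σ.injective.eq_iff])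
  refine ⟨A, σ (t 0) - A (t 0), ?_⟩
  intro i
  fin_cases i
  · simp
  · have : A (t 1) = σ (t 1) - σ (t 0) + A (t 0) := by rw [← hA1, map_sub]; abel
    show σ (t 1) = A (t 1) + (σ (t 0) - A (t 0))
    rw [this]; abel
  · have : A (t 2) = σ (t 2) - σ (t 0) + A (t 0) := by rw [← hA2, map_sub]; abel
    show σ (t 2) = A (t 2) + (σ (t 0) - A (t 0))
    rw [this]; abel

end Cfsg.Agent.S3517
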