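import Cfsg.Statements.S3524
import Mathlib
-- import your own Cfsg.Agent.* helpers here

set_option autoImplicit false
open Cfsg

namespace Cfsg.Agent.S3524

/-- A permutation group with a base is closed at one level above the base size. Let G be a group of permutations of a set Ω and suppose some k points α₁, …, α_k are fixed simultaneously only by the identity of G (a base of size k). Then G is (k+1)-closed: a permutation of Ω that agrees on every (k+1)-tuple of points with some element of G belongs to G. -/
theorem result {Ω : Type*} (G : Subgroup (Equiv.Perm Ω)) (k : ℕ) (α : Fin k → Ω)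
    (hbase : ∀ g ∈ G, (∀ i, g (α i) = α i) → g = 1) (σ : Equiv.Perm Ω)
    (hσ : ∀ t : Fin (k + 1) → Ω, ∃ g ∈ G, ∀ i, σ (t i) = g (t i)) : σ ∈ G := by
  classical
  rcases isEmpty_or_nonempty Ω with hΩ | ⟨⟨ω0⟩⟩
  · have : σ = 1 := Subsingleton.elim _ _
    rw [this]; exact G.one_mem
  · obtain ⟨g0, hg0, h0⟩ := hσ (Fin.snoc α ω0)
    have key : ∀ ω, σ ω = g0 ω := by
      intro ω
      obtain ⟨g, hg, h⟩ := hσ (Fin.snoc α ω)
      have h1 : g0⁻¹ * g = 1 := by
        apply hbase _ (G.mul_mem (G.inv_mem hg0) hg)
        intro i
        have a := h0 i.castSucc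
        have b := h i.castSucc
        simp only [Fin.snoc_castSucc] at a b
        simp only [Equiv.Perm.coe_mul, Function.comp_apply]
        rw [← b, a]; simp
      have hgg : g = g0 := by
        have := congrArg (g0 * ·) h1; simpa using this
      have c := h (Fin.last k)
      simp only [Fin.snoc_last] at c
      rw [c, hgg]
    have : σ = g0 := Equiv.ext key
    rw [this]; exact hg0

end Cfsg.Agent.S3524
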