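import Cfsg.Statements.S3546
import Mathlib
import Cfsg.Agent.Helper6.Derange
-- import your own Cfsg.Agent.* helpers here

set_option autoImplicit false
open Cfsg

namespace Cfsg.Agent.S3546

/-- Let G act faithfully and transitively on a finite set and let D be the subgroup of G generated by the derangements (the elements fixing no point). Then D is itself transitive, and D contains every element of G whose number of fixed points is different from 1. -/
theorem result {G Ω : Type*} [Group G] [Finite G] [MulAction G Ω] [FaithfulSMul G Ω] [Finite Ω]
    (htrans : MulAction.IsPretransitive G Ω) :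
    MulAction.IsPretransitive ↥(Subgroup.closure {g : G | ∀ ω : Ω, g • ω ≠ ω}) Ω ∧
    ∀ g : G, Nat.card (MulAction.fixedBy Ω g) ≠ 1 → g ∈ Subgroup.closure {g : G | ∀ ω : Ω, g • ω ≠ ω} := by
  classical
  by_cases hne : Nonempty Ω
  · have hD := Cfsg.Agent.Helper6.derange_core G Ω
      (Subgroup.closure {g : G | ∀ ω : Ω, g • ω ≠ ω}) (fun g hg => Subgroup.subset_closure hg)
    constructor
    · rw [MulAction.pretransitive_iff_subsingleton_quotient]
      exact (Finite.card_le_one_iff_subsingleton).mp hD.1.le
    · intro g hg
      by_contra h
      exact hg (hD.2 g h)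
  · rw [not_nonempty_iff] at hne
    constructor
    · exact ⟨fun x => isEmptyElim x⟩
    · intro g _
      exact Subgroup.subset_closure (fun ω => isEmptyElim ω)

end Cfsg.Agent.S3546
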