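import Cfsg.Statements.S3547
import Mathlib
import Cfsg.Agent.Helper6.Derange
-- import your own Cfsg.Agent.* helpers here

set_option autoImplicit false
open Cfsg

namespace Cfsg.Agent.S3547

/-- Let G act faithfully and transitively on a finite set Ω, let D be the subgroup generated by the derangements, and let r_G and r_D be the numbers of orbits of G and of D on ordered pairs of points (the permutation ranks). Then r_D − 1 = (r_G − 1)·[G : D]. -/
theorem result {G Ω : Type*} [Group G] [Finite G] [MulAction G Ω] [FaithfulSMul G Ω] [Finite Ω]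
    (htrans : MulAction.IsPretransitive G Ω) :
    Nat.card (MulAction.orbitRel.Quotient ↥(Subgroup.closure {g : G | ∀ ω : Ω, g • ω ≠ ω}) (Ω × Ω)) - 1 =
      (Nat.card (MulAction.orbitRel.Quotient G (Ω × Ω)) - 1) * (Subgroup.closure {g : G | ∀ ω : Ω, g • ω ≠ ω}).index := by
  classical
  by_cases hne : Nonempty Ω
  · have hD := Cfsg.Agent.Helper6.derange_core G Ω
      (Subgroup.closure {g : G | ∀ ω : Ω, g • ω ≠ ω}) (fun g hg => Subgroup.subset_closure hg)
    generalize Subgroup.closure {g : G | ∀ ω : Ω, g • ω ≠ ω} = D at hD ⊢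
    have : Fintype G := Fintype.ofFinite G
    have h1 := Cfsg.Agent.Helper6.burnside_natCard G (Ω × Ω)
    have h2 := Cfsg.Agent.Helper6.burnside_subgroup G (Ω × Ω) D
    have h4 := Finset.sum_filter_add_sum_filter_not Finset.univ (· ∈ D)
      (fun g => Nat.card (MulAction.fixedBy (Ω × Ω) g))
    have h5 : ∑ g ∈ Finset.univ.filter (· ∉ D), Nat.card (MulAction.fixedBy (Ω × Ω) g) =
        (Finset.univ.filter (· ∉ D)).card := by
      rw [Finset.card_eq_sum_ones]
      apply Finset.sum_congr rfl
      intro g hg
      rw [Finset.mem_filter] at hg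
      rw [Cfsg.Agent.Helper6.card_fixedBy_prod, hD.2 g hg.2]
    have h6 := Finset.card_filter_add_card_filter_not (s := (Finset.univ : Finset G)) (· ∈ D)
    rw [Cfsg.Agent.Helper6.card_filter_mem_subgroup, Finset.card_univ,
      ← Nat.card_eq_fintype_card] at h6
    have hidx := Subgroup.card_mul_index D
    have hrG : 1 ≤ Nat.card (MulAction.orbitRel.Quotient G (Ω × Ω)) := by
      have hne' : Nonempty (MulAction.orbitRel.Quotient G (Ω × Ω)) :=
        (nonempty_quotient_iff _).mpr inferInstance
      exact Nat.card_pos
    have hrD : 1 ≤ Nat.card (MulAction.orbitRel.Quotient D (Ω × Ω)) := by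
      have hne' : Nonempty (MulAction.orbitRel.Quotient D (Ω × Ω)) :=
        (nonempty_quotient_iff _).mpr inferInstance
      exact Nat.card_pos
    generalize Nat.card (MulAction.orbitRel.Quotient G (Ω × Ω)) = rG at *
    generalize Nat.card (MulAction.orbitRel.Quotient D (Ω × Ω)) = rD at *
    obtain ⟨a, rfl⟩ := Nat.exists_eq_add_of_le' hrG
    obtain ⟨b, rfl⟩ := Nat.exists_eq_add_of_le' hrD
    simp only [Nat.add_sub_cancel]
    have hpos : 0 < Nat.card D := Nat.card_pos
    apply Nat.eq_of_mul_eq_mul_right hpos
    have hkey : a * Nat.card G = b * Nat.card D := by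
      rw [h2, h5] at h4
      rw [← h4] at h1
      nlinarith
    rw [mul_assoc, mul_comm D.index, hidx]
    exact hkey.symm
  · rw [not_nonempty_iff] at hne
    have e1 : IsEmpty (MulAction.orbitRel.Quotient G (Ω × Ω)) := by
      constructor
      intro x
      induction x using Quotient.inductionOn with
      | _ y => exact hne.false y.1
    have e2 : IsEmpty (MulAction.orbitRel.Quotient
        (Subgroup.closure {g : G | ∀ ω : Ω, g • ω ≠ ω}) (Ω × Ω)) := by
      constructor
      intro x
      induction x using Quotient.inductionOn with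
      | _ y => exact hne.false y.1
    rw [Nat.card_of_isEmpty, Nat.card_of_isEmpty]
    simp

end Cfsg.Agent.S3547
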