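import Cfsg.Statements.S3548
import Mathlib
import Cfsg.Agent.Helper6.Derange2
-- import your own Cfsg.Agent.* helpers here

set_option autoImplicit false
open Cfsg

namespace Cfsg.Agent.S3548

/-- Let G act faithfully and transitively on a finite set with n ≥ 2 points and let D be the subgroup generated by the derangements. Then the index of D in G divides n − 1, and if it equals n − 1 then n is a prime power. -/
theorem result {G Ω : Type*} [Group G] [Finite G] [MulAction G Ω] [FaithfulSMul G Ω] [Finite Ω]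
    (htrans : MulAction.IsPretransitive G Ω) (hΩ : 2 ≤ Nat.card Ω) :
    (Subgroup.closure {g : G | ∀ ω : Ω, g • ω ≠ ω}).index ∣ Nat.card Ω - 1 ∧
    ((Subgroup.closure {g : G | ∀ ω : Ω, g • ω ≠ ω}).index = Nat.card Ω - 1 → IsPrimePow (Nat.card Ω)) := by
  classical
  have hnΩ : Nonempty Ω := by
    by_contra h
    rw [not_nonempty_iff] at h
    rw [Nat.card_of_isEmpty] at hΩ
    omega
  obtain ⟨a⟩ := hnΩ
  have hDn := Cfsg.Agent.Helper6.derange_closure_normal G Ω
  have hDsub : ∀ g : G, (∀ ω : Ω, g • ω ≠ ω) →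
      g ∈ Subgroup.closure {g : G | ∀ ω : Ω, g • ω ≠ ω} := fun g hg => Subgroup.subset_closure hg
  generalize Subgroup.closure {g : G | ∀ ω : Ω, g • ω ≠ ω} = D at hDn hDsub ⊢
  have hcompl : ({a}ᶜ : Set Ω).ncard = Nat.card Ω - 1 := by
    rw [Set.ncard_compl, Set.ncard_singleton]
  have h1 : D.index ∣ Nat.card Ω - 1 := by
    rw [← hcompl]
    apply Cfsg.Agent.Helper6.derange_index_dvd G Ω D hDsub a
    · simp
    · intro g hg y hy
      simp only [Set.mem_compl_iff, Set.mem_singleton_iff] at hy ⊢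
      intro h
      apply hy
      rw [← hg] at h
      exact smul_left_cancel g h
  refine ⟨h1, ?_⟩
  intro hidx
  have hne : Nonempty Ω := ⟨a⟩
  obtain ⟨hc1, hc2⟩ := Cfsg.Agent.Helper6.derange_core G Ω D hDsub
  have htrD : MulAction.IsPretransitive D Ω :=
    Cfsg.Agent.Helper6.isPretransitive_of_card_quotient_eq_one D Ω hc1
  have key : ∀ δ : Ω, δ ≠ a → MulAction.orbit (MulAction.stabilizer G a) δ = {a}ᶜ ∧
      D ⊓ MulAction.stabilizer G a ≤ MulAction.stabilizer G δ := by
    intro δ hδ
    obtain ⟨hB, hcard⟩ := Cfsg.Agent.Helper6.derange_orbit_card G Ω D hDsub a δ hδ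
    have hsub : MulAction.orbit (MulAction.stabilizer G a) δ ⊆ {a}ᶜ := by
      rintro _ ⟨h, rfl⟩
      simp only [Set.mem_compl_iff, Set.mem_singleton_iff]
      intro h2
      apply hδ
      have h3 : (h : G) • δ = (h : G) • a := by
        rw [MulAction.mem_stabilizer_iff.mp h.2]; exact h2
      exact smul_left_cancel _ h3
    have hle := Set.ncard_le_ncard hsub
    rw [hcompl, hcard, hidx] at hle
    have hpos : 0 < (MulAction.orbit (MulAction.stabilizer G a) δ).ncard :=
      (Set.ncard_pos).mpr ⟨δ, MulAction.mem_orbit_self δ⟩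
    rw [hcard] at hpos
    have hr0 : 0 < (MulAction.stabilizer G δ ⊓ MulAction.stabilizer G a).relIndex
        (D ⊓ MulAction.stabilizer G a) := Nat.pos_of_mul_pos_right hpos
    have hr : (MulAction.stabilizer G δ ⊓ MulAction.stabilizer G a).relIndex
        (D ⊓ MulAction.stabilizer G a) ≤ 1 := by
      have hn1 : 0 < Nat.card Ω - 1 := by omega
      exact Nat.le_of_mul_le_mul_right (by rw [one_mul]; exact hle) hn1
    have hr1 : (MulAction.stabilizer G δ ⊓ MulAction.stabilizer G a).relIndex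
        (D ⊓ MulAction.stabilizer G a) = 1 := by omega
    constructor
    · apply Set.eq_of_subset_of_ncard_le hsub
      rw [hcompl, hcard, hr1, one_mul, hidx]
    · rw [Subgroup.relIndex_eq_one] at hr1
      exact hr1.trans inf_le_left
  have hbot : D ⊓ MulAction.stabilizer G a = ⊥ := by
    rw [eq_bot_iff]
    intro d hd
    rw [Subgroup.mem_bot]
    apply FaithfulSMul.eq_of_smul_eq_smul (α := Ω)
    intro ω
    rw [one_smul]
    by_cases hω : ω = a
    · rw [hω]; exact hd.2
    · exact (key ω hω).2 hd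
  have hmove : ∀ d : G, d ∈ D → d ≠ 1 → d • a ≠ a := by
    intro d hd hd1 h
    have : d ∈ D ⊓ MulAction.stabilizer G a := ⟨hd, h⟩
    rw [hbot, Subgroup.mem_bot] at this
    exact hd1 this
  have hconj : ∀ d1 d2 : G, d1 ∈ D → d2 ∈ D → d1 ≠ 1 → d2 ≠ 1 → orderOf d1 = orderOf d2 := by
    intro d1 d2 h1 h2 hn1 hn2
    have ha1 := hmove d1 h1 hn1
    have ha2 := hmove d2 h2 hn2
    have hmem : d2 • a ∈ MulAction.orbit (MulAction.stabilizer G a) (d1 • a) := by
      rw [(key _ ha1).1]; exact ha2
    obtain ⟨h, hh⟩ := hmem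
    have hh' : (h : G) • d1 • a = d2 • a := hh
    have h3 : d2⁻¹ * ((h : G) * d1 * (h : G)⁻¹) ∈ D ⊓ MulAction.stabilizer G a := by
      constructor
      · exact D.mul_mem (D.inv_mem h2) (hDn.conj_mem d1 h1 h)
      · show d2⁻¹ * ((h : G) * d1 * (h : G)⁻¹) ∈ MulAction.stabilizer G a
        rw [MulAction.mem_stabilizer_iff, mul_smul, mul_smul, mul_smul]
        have h5 : (h : G)⁻¹ • a = a := by
          rw [inv_smul_eq_iff]; exact (MulAction.mem_stabilizer_iff.mp h.2).symm
        rw [h5, inv_smul_eq_iff]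
        exact hh'
    rw [hbot, Subgroup.mem_bot, inv_mul_eq_one] at h3
    rw [h3]
    exact (orderOf_injective (MulAut.conj (h : G)).toMonoidHom (MulAut.conj (h : G)).injective
      d1).symm
  have hstab : MulAction.stabilizer D a = ⊥ := by
    rw [eq_bot_iff]
    intro d hd
    rw [Subgroup.mem_bot]
    have : (d : G) ∈ D ⊓ MulAction.stabilizer G a := ⟨d.2, hd⟩
    rw [hbot, Subgroup.mem_bot] at this
    exact Subtype.ext this
  have hcardD : Nat.card D = Nat.card Ω := by
    have := MulAction.index_stabilizer_of_transitive D a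
    rw [hstab, Subgroup.index_bot] at this
    exact this
  obtain ⟨p, hp, hpd⟩ := Nat.exists_prime_and_dvd (show Nat.card Ω ≠ 1 by omega)
  have : Fact p.Prime := ⟨hp⟩
  rw [← hcardD] at hpd
  obtain ⟨x, hx⟩ := exists_prime_orderOf_dvd_card' p hpd
  have hxne : (x : G) ≠ 1 := by
    intro h
    rw [← Subgroup.orderOf_coe, h, orderOf_one] at hx
    exact hp.one_lt.ne hx
  have hPG : IsPGroup p D := by
    intro d
    by_cases hd : (d : G) = 1
    · exact ⟨0, by apply Subtype.ext; simpa using hd⟩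
    · refine ⟨1, ?_⟩
      have := hconj d x d.2 x.2 hd hxne
      rw [Subgroup.orderOf_coe, Subgroup.orderOf_coe, hx] at this
      rw [pow_one, ← this]
      exact pow_orderOf_eq_one d
  obtain ⟨k, hk⟩ := IsPGroup.iff_card.mp hPG
  rw [hcardD] at hk
  rw [isPrimePow_nat_iff]
  refine ⟨p, k, hp, ?_, hk.symm⟩
  rcases Nat.eq_zero_or_pos k with rfl | h
  · simp at hk
    omega
  · exact h

end Cfsg.Agent.S3548
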