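import Cfsg.Statements.S3549
import Mathlib
import Cfsg.Agent.Helper6.Derange2
-- import your own Cfsg.Agent.* helpers here

set_option autoImplicit false
open Cfsg

namespace Cfsg.Agent.S3549


open scoped Pointwise

/-- Let G act faithfully, transitively but imprimitively on a finite set with n points, and let D be the subgroup generated by the derangements. Then the index of D in G is at most √n − 1. -/
theorem result {G Ω : Type*} [Group G] [Finite G] [MulAction G Ω] [FaithfulSMul G Ω] [Finite Ω]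
    (htrans : MulAction.IsPretransitive G Ω) (himp : ¬ MulAction.IsPreprimitive G Ω) :
    ((Subgroup.closure {g : G | ∀ ω : Ω, g • ω ≠ ω}).index : ℝ) ≤ Real.sqrt (Nat.card Ω) - 1 := by
  classical
  have hex : ∃ B : Set Ω, MulAction.IsBlock G B ∧ ¬ MulAction.IsTrivialBlock B := by
    by_contra hcon
    push Not at hcon
    exact himp { toIsPretransitive := htrans
                 isTrivialBlock_of_isBlock := fun {B} hB => hcon B hB }
  obtain ⟨B, hB, hBnt⟩ := hex
  have hBns : ¬ B.Subsingleton := fun h => hBnt (Or.inl h)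
  have hBnu : B ≠ Set.univ := fun h => hBnt (Or.inr h)
  rw [Set.not_subsingleton_iff] at hBns
  obtain ⟨a, ha, b, hb, hab⟩ := hBns
  have hDn := Cfsg.Agent.Helper6.derange_closure_normal G Ω
  have hDsub : ∀ g : G, (∀ ω : Ω, g • ω ≠ ω) →
      g ∈ Subgroup.closure {g : G | ∀ ω : Ω, g • ω ≠ ω} := fun g hg => Subgroup.subset_closure hg
  generalize Subgroup.closure {g : G | ∀ ω : Ω, g • ω ≠ ω} = D at hDn hDsub ⊢
  have hk2 : 1 < B.ncard := (Set.one_lt_ncard_iff (Set.toFinite B)).mpr ⟨a, b, ha, hb, hab⟩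
  have hkn : B.ncard ∣ Nat.card Ω := hB.ncard_dvd_card ⟨a, ha⟩
  have hklt : B.ncard < Nat.card Ω := by
    rw [← Set.ncard_univ]
    exact Set.ncard_lt_ncard (Set.ssubset_univ_iff.mpr hBnu) (Set.toFinite _)
  obtain ⟨l, hl⟩ := hkn
  have h1 : D.index ∣ B.ncard - 1 := by
    have := Cfsg.Agent.Helper6.derange_index_dvd G Ω D hDsub a (B \ {a}) (by simp) (by
      intro g hg y hy
      have hgB : g • B = B := hB.smul_eq_of_mem ha (by rw [hg]; exact ha)
      refine ⟨?_, ?_⟩
      · rw [← hgB]; exact Set.smul_mem_smul_set hy.1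
      · simp only [Set.mem_singleton_iff]
        intro h
        apply hy.2
        rw [← hg] at h
        exact smul_left_cancel g h)
    rwa [Set.ncard_sdiff_singleton_of_mem ha] at this
  have hcompl : ({a}ᶜ : Set Ω).ncard = Nat.card Ω - 1 := by
    rw [Set.ncard_compl, Set.ncard_singleton]
  have h2 : D.index ∣ Nat.card Ω - 1 := by
    rw [← hcompl]
    apply Cfsg.Agent.Helper6.derange_index_dvd G Ω D hDsub a
    · simp
    · intro g hg y hy
      simp only [Set.mem_compl_iff, Set.mem_singleton_iff] at hy ⊢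
      intro h
      apply hy
      rw [← hg] at h
      exact smul_left_cancel g h
  rw [hl] at h2 hklt
  generalize D.index = m at *
  generalize B.ncard = k at *
  have hl2 : 2 ≤ l := by
    by_contra hcon
    have : l ≤ 1 := by omega
    have : k * l ≤ k * 1 := Nat.mul_le_mul_left k this
    omega
  have h3 : m ∣ k * (l - 1) := by
    have e : k * l - 1 - (k - 1) = k * (l - 1) := by
      rw [Nat.mul_sub_one]
      omega
    rw [← e]
    exact Nat.dvd_sub h2 h1
  have hcop : Nat.Coprime m k := by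
    have hg1 : Nat.gcd m k ∣ k - 1 := (Nat.gcd_dvd_left m k).trans h1
    have hg2 : Nat.gcd m k ∣ k := Nat.gcd_dvd_right m k
    have h5 : Nat.gcd m k ∣ k - (k - 1) := Nat.dvd_sub hg2 hg1
    have e : k - (k - 1) = 1 := by omega
    rw [e] at h5
    exact Nat.dvd_one.mp h5
  have h4 : m ∣ l - 1 := hcop.dvd_of_dvd_mul_left h3
  have hm1 : m ≤ k - 1 := Nat.le_of_dvd (by omega) h1
  have hm2 : m ≤ l - 1 := Nat.le_of_dvd (by omega) h4
  have hsq : (m + 1) * (m + 1) ≤ Nat.card Ω := by
    rw [hl]
    exact Nat.mul_le_mul (by omega) (by omega)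
  have hreal : ((m : ℝ) + 1) ≤ Real.sqrt (Nat.card Ω) := by
    apply Real.le_sqrt_of_sq_le
    have : ((m + 1) * (m + 1) : ℕ) ≤ Nat.card Ω := hsq
    have h6 : (((m + 1) * (m + 1) : ℕ) : ℝ) ≤ (Nat.card Ω : ℝ) := by exact_mod_cast this
    push_cast at h6
    nlinarith
  linarith

end Cfsg.Agent.S3549
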