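import Mathlib
import Cfsg.Agent.Helper2.SubsetFix
import Cfsg.Statements.S3573

set_option autoImplicit false
open Cfsg

namespace Cfsg.Agent.S3573

/-- Let 1 ≤ k with 2k < n and consider the symmetric group of degree n acting on the k-subsets of an n-set. Let r be a prime dividing the number C(n,k) of k-subsets. If r is odd, then every permutation of order r fixes some k-subset if and only if r ≤ k and the remainder of k modulo r is at most the remainder of n modulo r. If r = 2, then every involution fixes some k-subset if and only if k is even or n is odd. -/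
theorem result (n k : ℕ) (hk : 1 ≤ k) (hkn : 2 * k < n) (r : ℕ) (hr : r.Prime) (hrd : r ∣ Nat.choose n k) :
    (r ≠ 2 → ((∀ σ : Equiv.Perm (Fin n), orderOf σ = r → ∃ s : Finset (Fin n), s.card = k ∧ s.image σ = s) ↔
      (r ≤ k ∧ k % r ≤ n % r))) ∧
    (r = 2 → ((∀ σ : Equiv.Perm (Fin n), orderOf σ = 2 → ∃ s : Finset (Fin n), s.card = k ∧ s.image σ = s) ↔
      (Even k ∨ Odd n))) := by
  have hkn' : k ≤ n := by omega
  have hrn : r ≤ n := by
    have h3 : n.choose k ∣ n.factorial :=
      ⟨k.factorial * (n - k).factorial, by
        rw [← Nat.choose_mul_factorial_mul_factorial hkn']; ring⟩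
    exact (Nat.Prime.dvd_factorial hr).mp (hrd.trans h3)
  constructor
  · intro _
    constructor
    · intro h
      have hmod := Cfsg.Agent.Helper2.SubsetFix.mod_le_of_all hr hrn h
      exact ⟨Cfsg.Agent.Helper2.SubsetFix.le_of_dvd_choose hr hrd hmod, hmod⟩
    · rintro ⟨-, hmod⟩ σ hσ
      exact Cfsg.Agent.Helper2.SubsetFix.exists_inv σ hr hσ k
        (by rw [Fintype.card_fin]; exact hkn') (by rw [Fintype.card_fin]; exact hmod)
  · intro h2
    subst h2
    constructor
    · intro h
      have hmod := Cfsg.Agent.Helper2.SubsetFix.mod_le_of_all hr hrn h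
      rcases Nat.even_or_odd k with hk' | hk'
      · exact Or.inl hk'
      · right
        rw [Nat.odd_iff] at hk' ⊢
        have := Nat.mod_lt n (by norm_num : 0 < 2)
        omega
    · intro h σ hσ
      apply Cfsg.Agent.Helper2.SubsetFix.exists_inv σ hr hσ k
        (by rw [Fintype.card_fin]; exact hkn')
      rw [Fintype.card_fin]
      rcases h with h | h
      · rw [Nat.even_iff.mp h]
        exact Nat.zero_le _
      · rw [Nat.odd_iff.mp h]
        have := Nat.mod_lt k (by norm_num : 0 < 2)
        omega


end Cfsg.Agent.S3573
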