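import Cfsg.Statements.S3660
import Mathlib
import Cfsg.Agent.Helper6.Aff2
-- import your own Cfsg.Agent.* helpers here

set_option autoImplicit false
open Cfsg

namespace Cfsg.Agent.S3660


theorem prime_dvd_card_iff {X : Type*} [Group X] [Finite X] (p : ℕ) (hp : p.Prime) :
    p ∣ Nat.card X ↔ ∃ g : X, orderOf g = p := by
  constructor
  · intro h
    have : Fact p.Prime := ⟨hp⟩
    exact exists_prime_orderOf_dvd_card' p h
  · rintro ⟨g, rfl⟩
    exact orderOf_dvd_natCard g

theorem sl2_center_char2 {F : Type*} [Field F] [CharP F 2] :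
    Subgroup.center (Matrix.SpecialLinearGroup (Fin 2) F) = ⊥ := by
  rw [eq_bot_iff]
  intro A hA
  rw [Matrix.SpecialLinearGroup.mem_center_iff] at hA
  obtain ⟨r, hr, hA⟩ := hA
  rw [Subgroup.mem_bot]
  have hr2 : r ^ 2 = 1 := by simpa using hr
  have h2 : (2 : F) = 0 := CharTwo.two_eq_zero
  have hr1 : r = 1 := by
    have : (r - 1) ^ 2 = 0 := by grind
    have := pow_eq_zero_iff (n := 2) (by norm_num) |>.mp this
    exact sub_eq_zero.mp this
  apply Subtype.ext
  rw [← hA, hr1]
  simp

/-- The prime graph of a finite group has the prime divisors of its order as vertices, two distinct primes p, q being joined when the group has an element of order pq; two groups have the same prime graph when they have the same prime divisors and the same joined pairs. Let F be a finite field of characteristic 2 with at least 4 elements. Then there are finite groups of arbitrarily large order with the same prime graph as PSL(2,F); in particular PSL(2,F) is not determined by its prime graph. -/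
theorem result {F : Type*} [Field F] [Fintype F] [CharP F 2] (hF : 4 ≤ Fintype.card F) (N : ℕ) :
    ∃ (H : Type) (_ : Group H) (_ : Finite H), N < Nat.card H ∧
      ((∀ p : ℕ, p.Prime → (p ∣ Nat.card (Matrix.ProjectiveSpecialLinearGroup (Fin 2) F) ↔ p ∣ Nat.card H)) ∧
      (∀ p q : ℕ, p.Prime → q.Prime → p ≠ q → ((∃ g : (Matrix.ProjectiveSpecialLinearGroup (Fin 2) F), orderOf g = p * q) ↔ (∃ g : H, orderOf g = p * q)))) := by
  classical
  have h2 : (2 : F) = 0 := CharTwo.two_eq_zero
  have hfinSL : Finite (Matrix.SpecialLinearGroup (Fin 2) F) := by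
    unfold Matrix.SpecialLinearGroup
    infer_instance
  have hfinPSL : Finite (Matrix.ProjectiveSpecialLinearGroup (Fin 2) F) := by
    unfold Matrix.ProjectiveSpecialLinearGroup
    infer_instance
  -- PSL versus SL
  have hqinj : Function.Injective (QuotientGroup.mk' (Subgroup.center (Matrix.SpecialLinearGroup (Fin 2) F))) := by
    rw [← MonoidHom.ker_eq_bot_iff, QuotientGroup.ker_mk']
    exact sl2_center_char2
  have hPSL : ∀ n : ℕ, (∃ g : Matrix.ProjectiveSpecialLinearGroup (Fin 2) F, orderOf g = n) ↔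
      (∃ A : Matrix.SpecialLinearGroup (Fin 2) F, orderOf A = n) := by
    intro n
    constructor
    · rintro ⟨g, rfl⟩
      obtain ⟨A, rfl⟩ := QuotientGroup.mk'_surjective _ g
      exact ⟨A, (orderOf_injective _ hqinj A).symm⟩
    · rintro ⟨A, rfl⟩
      exact ⟨QuotientGroup.mk' _ A, orderOf_injective _ hqinj A⟩
  -- SL into the affine group
  have hSLaff : ∀ n : ℕ, (∃ A : Matrix.SpecialLinearGroup (Fin 2) F, orderOf A = n) →
      (∃ M : Cfsg.Agent.Helper6.affGroup F, orderOf M = n) := by
    rintro n ⟨A, rfl⟩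
    exact ⟨Cfsg.Agent.Helper6.affEmb F A,
      orderOf_injective _ Cfsg.Agent.Helper6.affEmb_injective A⟩
  -- an involution in SL(2,F)
  have hinv : ∃ A : Matrix.SpecialLinearGroup (Fin 2) F, orderOf A = 2 := by
    have hdet : (!![1, 1; 0, 1] : Matrix (Fin 2) (Fin 2) F).det = 1 := by
      rw [Matrix.det_fin_two]; simp
    obtain ⟨A0, hA0⟩ : ∃ A0 : Matrix.SpecialLinearGroup (Fin 2) F,
        (A0 : Matrix (Fin 2) (Fin 2) F) = !![1, 1; 0, 1] := ⟨⟨_, hdet⟩, rfl⟩
    refine ⟨A0, ?_⟩
    have : Fact (Nat.Prime 2) := ⟨Nat.prime_two⟩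
    apply orderOf_eq_prime
    · apply Subtype.ext
      rw [Matrix.SpecialLinearGroup.coe_pow, hA0]
      ext i j
      fin_cases i <;> fin_cases j <;>
        simp [pow_succ, Matrix.mul_apply, Fin.sum_univ_two] <;> grind
    · intro h
      have h3 := congrArg Subtype.val h
      rw [hA0] at h3
      have h4 := congrFun (congrFun h3 0) 1
      simp at h4
  -- affine group back to SL
  have haffSL : ∀ M : Cfsg.Agent.Helper6.affGroup F,
      orderOf M ∣ 4 ∨ ∃ A : Matrix.SpecialLinearGroup (Fin 2) F, orderOf A = orderOf M := by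
    intro M
    by_cases ht : (M.1 : Matrix (Fin 3) (Fin 3) F) 0 0 + (M.1 : Matrix (Fin 3) (Fin 3) F) 1 1 = 0
    · left
      exact orderOf_dvd_of_pow_eq_one (Cfsg.Agent.Helper6.aff_pow4_of_trace_zero M ht)
    · right
      exact ⟨Cfsg.Agent.Helper6.affBlock F M, (Cfsg.Agent.Helper6.aff_orderOf_eq_block M ht).symm⟩
  obtain ⟨H, iG, iF, hcard, hspec⟩ := Cfsg.Agent.Helper6.aff_exists_large (F := F) N
  have hH : ∀ n : ℕ, (∃ M : Cfsg.Agent.Helper6.affGroup F, orderOf M = n) ↔
      (∃ h : H, orderOf h = n) := by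
    intro n
    have := Set.ext_iff.mp hspec n
    simp only [Set.mem_range] at this
    exact this.symm
  refine ⟨H, iG, Finite.of_fintype H, ?_, ?_, ?_⟩
  · rw [Nat.card_eq_fintype_card]; exact hcard
  · intro p hp
    rw [prime_dvd_card_iff p hp, prime_dvd_card_iff p hp, hPSL, ← hH]
    constructor
    · exact hSLaff p
    · rintro ⟨M, hM⟩
      rcases haffSL M with h4 | ⟨A, hA⟩
      · rw [hM] at h4
        have : p ∣ 2 := hp.dvd_of_dvd_pow (show p ∣ 2 ^ 2 from h4)
        have hp2 : p = 2 := (Nat.prime_dvd_prime_iff_eq hp Nat.prime_two).mp this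
        rw [hp2]; exact hinv
      · exact ⟨A, hA.trans hM⟩
  · intro p q hp hq hpq
    rw [hPSL, ← hH]
    constructor
    · exact hSLaff (p * q)
    · rintro ⟨M, hM⟩
      rcases haffSL M with h4 | ⟨A, hA⟩
      · exfalso
        rw [hM] at h4
        have h5 : p ∣ 2 := hp.dvd_of_dvd_pow (show p ∣ 2 ^ 2 from (dvd_mul_right p q).trans h4)
        have h6 : q ∣ 2 := hq.dvd_of_dvd_pow (show q ∣ 2 ^ 2 from (dvd_mul_left q p).trans h4)
        have hp2 : p = 2 := (Nat.prime_dvd_prime_iff_eq hp Nat.prime_two).mp h5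
        have hq2 : q = 2 := (Nat.prime_dvd_prime_iff_eq hq Nat.prime_two).mp h6
        exact hpq (hp2.trans hq2.symm)
      · exact ⟨A, hA.trans hM⟩

end Cfsg.Agent.S3660
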