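import Cfsg.Statements.S3678
import Mathlib
import Cfsg.Agent.Helper6.PSL27
-- import your own Cfsg.Agent.* helpers here

set_option autoImplicit false
open Cfsg

namespace Cfsg.Agent.S3678


theorem prime_dvd_card_iff {X : Type*} [Group X] [Finite X] (p : ℕ) (hp : p.Prime) :
    p ∣ Nat.card X ↔ ∃ g : X, orderOf g = p := by
  constructor
  · intro h
    have : Fact p.Prime := ⟨hp⟩
    exact exists_prime_orderOf_dvd_card' p h
  · rintro ⟨g, rfl⟩
    exact orderOf_dvd_natCard g

/-- The prime graph of a finite group has the prime divisors of its order as vertices, two distinct primes p, q being joined when the group has an element of order pq; two groups have the same prime graph when they have the same prime divisors and the same joined pairs. Let F be the field with 7 elements. There are finite groups of arbitrarily large order with the same prime graph as PSL(2,F) (the graph on {2, 3, 7} with no edges, which is also the prime graph of PSL(2,8)). -/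
theorem result {F : Type*} [Field F] [Fintype F] (hF : Fintype.card F = 7) (N : ℕ) :
    ∃ (H : Type) (_ : Group H) (_ : Finite H), N < Nat.card H ∧
      ((∀ p : ℕ, p.Prime → (p ∣ Nat.card (Matrix.ProjectiveSpecialLinearGroup (Fin 2) F) ↔ p ∣ Nat.card H)) ∧
      (∀ p q : ℕ, p.Prime → q.Prime → p ≠ q → ((∃ g : (Matrix.ProjectiveSpecialLinearGroup (Fin 2) F), orderOf g = p * q) ↔ (∃ g : H, orderOf g = p * q)))) := by
  classical
  have hfinSL : Finite (Matrix.SpecialLinearGroup (Fin 2) F) := by
    unfold Matrix.SpecialLinearGroup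
    infer_instance
  have hfinPSL : Finite (Matrix.ProjectiveSpecialLinearGroup (Fin 2) F) := by
    unfold Matrix.ProjectiveSpecialLinearGroup
    infer_instance
  have hft : Fintype (GaloisField 2 3) := Fintype.ofFinite _
  have hc8 : Fintype.card (GaloisField 2 3) = 8 := by
    rw [← Nat.card_eq_fintype_card, GaloisField.card 2 3 (by norm_num)]
    norm_num
  obtain ⟨H, iG, iF, hcard, hspec⟩ :=
    Cfsg.Agent.Helper6.aff_exists_large (F := GaloisField 2 3) N
  have hH : ∀ n : ℕ, (∃ M : Cfsg.Agent.Helper6.affGroup (GaloisField 2 3), orderOf M = n) ↔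
      (∃ h : H, orderOf h = n) := by
    intro n
    have := Set.ext_iff.mp hspec n
    simp only [Set.mem_range] at this
    exact this.symm
  obtain ⟨a2, a3, a7⟩ := Cfsg.Agent.Helper6.aff8_exists hc8
  obtain ⟨b2, b3, b7⟩ := Cfsg.Agent.Helper6.psl27_exists hF
  refine ⟨H, iG, Finite.of_fintype H, ?_, ?_, ?_⟩
  · rw [Nat.card_eq_fintype_card]; exact hcard
  · intro p hp
    rw [prime_dvd_card_iff p hp, prime_dvd_card_iff p hp, ← hH]
    constructor
    · rintro ⟨g, hg⟩
      have := Cfsg.Agent.Helper6.prime_cases_of_dvd _ (Cfsg.Agent.Helper6.psl27_order hF g)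
        (hg ▸ hp)
      rw [hg] at this
      rcases this with rfl | rfl | rfl
      · exact a2
      · exact a3
      · exact a7
    · rintro ⟨g, hg⟩
      have := Cfsg.Agent.Helper6.prime_cases_of_dvd _ (Cfsg.Agent.Helper6.aff8_order hc8 g)
        (hg ▸ hp)
      rw [hg] at this
      rcases this with rfl | rfl | rfl
      · exact b2
      · exact b3
      · exact b7
  · intro p q hp hq hpq
    rw [← hH]
    constructor
    · rintro ⟨g, hg⟩
      exact absurd hg (Cfsg.Agent.Helper6.no_edge_of_dvd _
        (Cfsg.Agent.Helper6.psl27_order hF g) p q hp hq hpq)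
    · rintro ⟨g, hg⟩
      exact absurd hg (Cfsg.Agent.Helper6.no_edge_of_dvd _
        (Cfsg.Agent.Helper6.aff8_order hc8 g) p q hp hq hpq)

end Cfsg.Agent.S3678
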