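import Cfsg.Statements.S3683
import Mathlib
-- import your own Cfsg.Agent.* helpers here

set_option autoImplicit false
open Cfsg

namespace Cfsg.Agent.S3683

/-- Let a finite group G act faithfully and primitively on a set Ω, and suppose the stabilizer of a point a fixes a second point b ≠ a (a suborbit of length 1 other than {a}). Then the stabilizer of a is trivial and G is cyclic of prime order. -/
theorem result {G Ω : Type*} [Group G] [Finite G] [MulAction G Ω] [FaithfulSMul G Ω] [Finite Ω]
    (hprim : MulAction.IsPreprimitive G Ω) (a b : Ω) (hab : a ≠ b) (hfix : ∀ g : G, g • a = a → g • b = b) :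
    MulAction.stabilizer G a = ⊥ ∧ IsCyclic G ∧ (Nat.card G).Prime := by
  classical
  have hnt : Nontrivial Ω := ⟨⟨a, b, hab⟩⟩
  have htr : MulAction.IsPretransitive G Ω := hprim.toIsPretransitive
  have hca : IsCoatom (MulAction.stabilizer G a) :=
    MulAction.IsPreprimitive.isCoatom_stabilizer_of_isPreprimitive (G := G) (a := a)
  have hcb : IsCoatom (MulAction.stabilizer G b) :=
    MulAction.IsPreprimitive.isCoatom_stabilizer_of_isPreprimitive (G := G) (a := b)
  have hle : MulAction.stabilizer G a ≤ MulAction.stabilizer G b := fun g hg => hfix g hg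
  have heq : MulAction.stabilizer G a = MulAction.stabilizer G b := by
    rcases eq_or_lt_of_le hle with h | h
    · exact h
    · exact absurd (hca.2 _ h) hcb.1
  obtain ⟨g, hg⟩ := MulAction.exists_smul_eq G a b
  have hgN : g ∈ Subgroup.normalizer (MulAction.stabilizer G a : Set G) := by
    rw [Subgroup.mem_normalizer_iff]
    intro h
    conv_rhs => rw [heq]
    rw [MulAction.mem_stabilizer_iff, MulAction.mem_stabilizer_iff, ← hg, mul_smul, mul_smul,
      inv_smul_smul, smul_left_cancel_iff]
  have hgn : g ∉ MulAction.stabilizer G a := by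
    intro h
    rw [MulAction.mem_stabilizer_iff, hg] at h
    exact hab h.symm
  have hN : Subgroup.normalizer (MulAction.stabilizer G a : Set G) = ⊤ := by
    apply hca.2
    exact lt_of_le_of_ne Subgroup.le_normalizer (fun h => hgn (h ▸ hgN))
  have hbot : MulAction.stabilizer G a = ⊥ := by
    rw [eq_bot_iff]
    intro h hh
    rw [Subgroup.mem_bot]
    apply FaithfulSMul.eq_of_smul_eq_smul (α := Ω)
    intro ω
    obtain ⟨x, rfl⟩ := MulAction.exists_smul_eq G a ω
    rw [one_smul]
    have hx : x⁻¹ ∈ Subgroup.normalizer (MulAction.stabilizer G a : Set G) := by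
      rw [hN]; exact Subgroup.mem_top _
    have h2 := (Subgroup.mem_normalizer_iff.mp hx h).mp hh
    rw [MulAction.mem_stabilizer_iff, inv_inv, mul_smul, mul_smul] at h2
    calc h • x • a = x • x⁻¹ • h • x • a := (smul_inv_smul _ _).symm
      _ = x • a := by rw [h2]
  refine ⟨hbot, ?_⟩
  rw [hbot] at hca
  have hGnt : Nontrivial G := by
    by_contra hG
    rw [not_nontrivial_iff_subsingleton] at hG
    exact hgn (by rw [Subsingleton.elim g 1]; exact Subgroup.one_mem _)
  obtain ⟨p, hp, hpd⟩ := Nat.exists_prime_and_dvd (Finite.one_lt_card (α := G)).ne'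
  have : Fact p.Prime := ⟨hp⟩
  obtain ⟨x, hx⟩ := exists_prime_orderOf_dvd_card' p hpd
  have hz : Subgroup.zpowers x = ⊤ := by
    apply hca.2
    apply bot_lt_iff_ne_bot.mpr
    intro h
    rw [Subgroup.zpowers_eq_bot] at h
    rw [h, orderOf_one] at hx
    exact hp.one_lt.ne hx
  have hcard : Nat.card G = p := by
    rw [← hx, ← Nat.card_zpowers, hz, Subgroup.card_top]
  exact ⟨⟨x, fun y => by rw [← Subgroup.mem_zpowers_iff, hz]; exact Subgroup.mem_top _⟩,
    hcard ▸ hp⟩

end Cfsg.Agent.S3683
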