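import Cfsg.Statements.S3684
import Mathlib
import Cfsg.Agent.Helper1.Dihedral

set_option autoImplicit false
open Cfsg

namespace Cfsg.Agent.S3684

theorem aux {G Ω : Type*} [Group G] [Finite G] [MulAction G Ω] [FaithfulSMul G Ω]
    (a : Ω) (H K : Subgroup G)
    (hHa : ∀ x : G, x ∈ H ↔ x • a = a)
    (hcoH : IsCoatom H) (hcoK : IsCoatom K)
    (hidx : H.index = K.index)
    (hDH : (H ⊓ K).relIndex H = 2)
    (htr : ∀ x : Ω, ∃ g : G, g • a = x) :
    Nat.card H = 2 ∧ ∃ p : ℕ, p.Prime ∧ Nonempty (G ≃* DihedralGroup p) := by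
  classical
  have hDK : (H ⊓ K).relIndex K = 2 := by
    have e1 := Subgroup.relIndex_mul_index (inf_le_left : H ⊓ K ≤ H)
    have e2 := Subgroup.relIndex_mul_index (inf_le_right : H ⊓ K ≤ K)
    have h0 : K.index ≠ 0 := Subgroup.index_ne_zero_of_finite
    rw [hDH, hidx, ← e2] at e1
    exact (Nat.eq_of_mul_eq_mul_right (Nat.pos_of_ne_zero h0) e1).symm
  have nH : ((H ⊓ K).subgroupOf H).Normal := Subgroup.normal_of_index_eq_two hDH
  have nK : ((H ⊓ K).subgroupOf K).Normal := Subgroup.normal_of_index_eq_two hDK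
  have conjH : ∀ h ∈ H, ∀ d ∈ H ⊓ K, h * d * h⁻¹ ∈ H ⊓ K := by
    intro h hh d hd
    have := nH.conj_mem ⟨d, (Subgroup.mem_inf.mp hd).1⟩ (Subgroup.mem_subgroupOf.mpr hd) ⟨h, hh⟩
    exact Subgroup.mem_subgroupOf.mp this
  have conjK : ∀ h ∈ K, ∀ d ∈ H ⊓ K, h * d * h⁻¹ ∈ H ⊓ K := by
    intro h hh d hd
    have := nK.conj_mem ⟨d, (Subgroup.mem_inf.mp hd).2⟩ (Subgroup.mem_subgroupOf.mpr hd) ⟨h, hh⟩
    exact Subgroup.mem_subgroupOf.mp this
  have hHN : H ≤ Subgroup.normalizer ((H ⊓ K : Subgroup G) : Set G) := by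
    intro h hh
    rw [Subgroup.mem_normalizer_iff]
    intro d
    constructor
    · intro hd; exact conjH h hh d hd
    · intro hd
      have := conjH h⁻¹ (inv_mem hh) _ hd
      have e : h⁻¹ * (h * d * h⁻¹) * h⁻¹⁻¹ = d := by group
      rwa [e] at this
  have hKN : K ≤ Subgroup.normalizer ((H ⊓ K : Subgroup G) : Set G) := by
    intro h hh
    rw [Subgroup.mem_normalizer_iff]
    intro d
    constructor
    · intro hd; exact conjK h hh d hd
    · intro hd
      have := conjK h⁻¹ (inv_mem hh) _ hd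
      have e : h⁻¹ * (h * d * h⁻¹) * h⁻¹⁻¹ = d := by group
      rwa [e] at this
  have hHK : H ≠ K := by
    intro h
    have h1 : (H ⊓ K).relIndex H = 1 := Subgroup.relIndex_eq_one.mpr (le_inf le_rfl (le_of_eq h))
    rw [hDH] at h1
    exact absurd h1 (by norm_num)
  have hNtop : Subgroup.normalizer ((H ⊓ K : Subgroup G) : Set G) = ⊤ := by
    by_contra hne
    have h1 : H = Subgroup.normalizer ((H ⊓ K : Subgroup G) : Set G) := by
      rcases eq_or_lt_of_le hHN with h | h
      · exact h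
      · exact absurd (hcoH.2 _ h) hne
    have h2 : K = Subgroup.normalizer ((H ⊓ K : Subgroup G) : Set G) := by
      rcases eq_or_lt_of_le hKN with h | h
      · exact h
      · exact absurd (hcoK.2 _ h) hne
    exact hHK (h1.trans h2.symm)
  have hDtriv : ∀ d ∈ H ⊓ K, d = 1 := by
    intro d hd
    apply FaithfulSMul.eq_of_smul_eq_smul (α := Ω)
    intro x
    obtain ⟨g, rfl⟩ := htr x
    have hg : g⁻¹ ∈ Subgroup.normalizer ((H ⊓ K : Subgroup G) : Set G) := by
      rw [hNtop]; exact Subgroup.mem_top _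
    have h3 : g⁻¹ * d * g⁻¹⁻¹ ∈ H ⊓ K := (Subgroup.mem_normalizer_iff.mp hg d).mp hd
    have h4 : (g⁻¹ * d * g⁻¹⁻¹) • a = a := (hHa _).mp (Subgroup.mem_inf.mp h3).1
    have e : d * g = g * (g⁻¹ * d * g⁻¹⁻¹) := by group
    rw [one_smul, ← mul_smul, e, mul_smul, h4]
  have hDbot : H ⊓ K = ⊥ := by
    rw [Subgroup.eq_bot_iff_forall]; exact hDtriv
  have hHcard : Nat.card H = 2 := by
    have := Subgroup.card_mul_index ((H ⊓ K).subgroupOf H)
    have hc1 : Nat.card ((H ⊓ K).subgroupOf H) = 1 := by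
      rw [hDbot, Subgroup.bot_subgroupOf, Subgroup.card_bot]
    have hi : ((H ⊓ K).subgroupOf H).index = 2 := hDH
    rw [hc1, hi] at this
    omega
  obtain ⟨⟨t, ht⟩, ht1, huniq⟩ := (Nat.card_eq_two_iff' (1 : H)).mp hHcard
  have ht1' : t ≠ 1 := fun h => ht1 (Subtype.ext h)
  have hHmem : ∀ x ∈ H, x = 1 ∨ x = t := by
    intro x hx
    by_cases hx1 : x = 1
    · exact Or.inl hx1
    · right
      have := huniq ⟨x, hx⟩ (fun h => hx1 (congrArg Subtype.val h))
      exact congrArg Subtype.val this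
  have htt : t * t = 1 := by
    rcases hHmem (t * t) (mul_mem ht ht) with h | h
    · exact h
    · exfalso; apply ht1'
      have : t * t = t * 1 := by rw [h, mul_one]
      exact mul_left_cancel this
  have hex : ∃ g : G, g⁻¹ * t * g ∉ H := by
    by_contra hcon
    have hcon' : ∀ g : G, g⁻¹ * t * g ∈ H := fun g => by
      by_contra h; exact hcon ⟨g, h⟩
    apply ht1'
    apply FaithfulSMul.eq_of_smul_eq_smul (α := Ω)
    intro x
    obtain ⟨g, rfl⟩ := htr x
    have h4 : (g⁻¹ * t * g) • a = a := (hHa _).mp (hcon' g)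
    have e : t * g = g * (g⁻¹ * t * g) := by group
    rw [one_smul, ← mul_smul, e, mul_smul, h4]
  obtain ⟨g, hg⟩ := hex
  obtain ⟨s, hs⟩ : ∃ s, s = g⁻¹ * t * g := ⟨_, rfl⟩
  rw [← hs] at hg
  have hss : s * s = 1 := by
    rw [hs]
    calc g⁻¹ * t * g * (g⁻¹ * t * g) = g⁻¹ * (t * t) * g := by group
      _ = 1 := by rw [htt]; group
  have hs1 : s ≠ 1 := by
    intro h; apply hg; rw [h]; exact one_mem H
  obtain ⟨ρ, hρ⟩ : ∃ ρ, ρ = t * s := ⟨_, rfl⟩
  have htinv : t⁻¹ = t := inv_eq_of_mul_eq_one_left htt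
  have hsinv : s⁻¹ = s := inv_eq_of_mul_eq_one_left hss
  have h3 : t * ρ * t = ρ⁻¹ := by
    have e1 : ρ⁻¹ = s * t := by rw [hρ, mul_inv_rev, htinv, hsinv]
    rw [e1, hρ]
    calc t * (t * s) * t = (t * t) * s * t := by group
      _ = s * t := by rw [htt, one_mul]
  have hsρ : s = t * ρ := by rw [hρ, ← mul_assoc, htt, one_mul]
  have hρ1 : ρ ≠ 1 := by
    intro h
    apply hg
    have : s = t := by rw [hsρ, h, mul_one]
    rw [this]; exact ht
  have hcl : Subgroup.closure ({ρ, t} : Set G) = ⊤ := by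
    apply hcoH.2
    have htc : t ∈ Subgroup.closure ({ρ, t} : Set G) := Subgroup.subset_closure (by simp)
    have hρc : ρ ∈ Subgroup.closure ({ρ, t} : Set G) := Subgroup.subset_closure (by simp)
    refine lt_of_le_of_ne ?_ ?_
    · intro x hx
      rcases hHmem x hx with h | h
      · rw [h]; exact one_mem _
      · rw [h]; exact htc
    · intro h
      apply hg
      rw [h, hsρ]
      exact mul_mem htc hρc
  have hd : t ∉ Subgroup.zpowers ρ := by
    intro htz
    obtain ⟨k, hk⟩ := Subgroup.mem_zpowers_iff.mp htz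
    have hc : t * ρ = ρ * t := by
      rw [← hk]
      exact ((Commute.refl ρ).zpow_left k).eq
    have hρρ : ρ * ρ = 1 := by
      have e : t * ρ * t = ρ := by rw [hc, mul_assoc, htt, mul_one]
      rw [e] at h3
      exact mul_eq_one_iff_eq_inv.mpr h3
    obtain ⟨m, rfl | rfl⟩ := Int.even_or_odd' k
    · apply ht1'
      rw [← hk, zpow_mul, zpow_two, hρρ, one_zpow]
    · apply hs1
      have e : ρ = t := by
        rw [← hk, zpow_add_one, zpow_mul, zpow_two, hρρ, one_zpow, one_mul]
      have h5 : t * s = t * 1 := by rw [mul_one, ← hρ, e]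
      exact mul_left_cancel h5
  have h1 : ρ ^ orderOf ρ = 1 := pow_orderOf_eq_one ρ
  have hinj := Cfsg.Agent.Helper1.dihedralLift_injective (orderOf ρ) ρ t h1 htt h3 rfl hd
  have hrange := Cfsg.Agent.Helper1.dihedralLift_range (orderOf ρ) ρ t h1 htt h3
  have hsurj : Function.Surjective (Cfsg.Agent.Helper1.dihedralLift (orderOf ρ) ρ t h1 htt h3) := by
    rw [← MonoidHom.range_eq_top, hrange, hcl]
  have hGcard : Nat.card G = 2 * orderOf ρ := by
    rw [← DihedralGroup.nat_card]
    exact (Nat.card_congr (Equiv.ofBijective _ ⟨hinj, hsurj⟩)).symm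
  have hn1 : orderOf ρ ≠ 1 := by
    intro h; exact hρ1 (orderOf_eq_one_iff.mp h)
  obtain ⟨q, hqdef⟩ : ∃ q, q = (orderOf ρ).minFac := ⟨_, rfl⟩
  have hq : q.Prime := by rw [hqdef]; exact Nat.minFac_prime hn1
  obtain ⟨m, hm⟩ : q ∣ orderOf ρ := by rw [hqdef]; exact Nat.minFac_dvd _
  have hmpos : 0 < m := by
    rcases Nat.eq_zero_or_pos m with h | h
    · exfalso
      rw [h, mul_zero] at hm
      have := orderOf_pos ρ
      omega
    · exact h
  have hm1 : m = 1 := by
    by_contra hm1
    have hordq : orderOf (ρ ^ q) = m := by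
      rw [orderOf_pow_of_dvd hq.pos.ne' ⟨m, hm⟩, hm, Nat.mul_div_cancel_left m hq.pos]
    have h3q : t * ρ ^ q * t = (ρ ^ q)⁻¹ := by
      have e : (t * ρ * t⁻¹) ^ q = t * ρ ^ q * t⁻¹ := conj_pow
      rw [htinv, h3, inv_pow] at e
      exact e.symm
    have hdq : t ∉ Subgroup.zpowers (ρ ^ q) := by
      intro h
      apply hd
      exact (Subgroup.zpowers_le.mpr (Subgroup.npow_mem_zpowers ρ q)) h
    have h1q : (ρ ^ q) ^ m = 1 := by rw [← hordq]; exact pow_orderOf_eq_one _
    have hinjq := Cfsg.Agent.Helper1.dihedralLift_injective m (ρ ^ q) t h1q htt h3q hordq hdq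
    have hrangeq := Cfsg.Agent.Helper1.dihedralLift_range m (ρ ^ q) t h1q htt h3q
    have hclq : Subgroup.closure ({ρ ^ q, t} : Set G) = ⊤ := by
      apply hcoH.2
      have htc : t ∈ Subgroup.closure ({ρ ^ q, t} : Set G) := Subgroup.subset_closure (by simp)
      have hρc : ρ ^ q ∈ Subgroup.closure ({ρ ^ q, t} : Set G) := Subgroup.subset_closure (by simp)
      refine lt_of_le_of_ne ?_ ?_
      · intro x hx
        rcases hHmem x hx with h | h
        · rw [h]; exact one_mem _
        · rw [h]; exact htc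
      · intro h
        rw [← h] at hρc
        rcases hHmem _ hρc with h' | h'
        · apply hm1
          rw [← hordq, h', orderOf_one]
        · apply hdq
          rw [← h']
          exact Subgroup.mem_zpowers _
    have hsurjq : Function.Surjective (Cfsg.Agent.Helper1.dihedralLift m (ρ ^ q) t h1q htt h3q) := by
      rw [← MonoidHom.range_eq_top, hrangeq, hclq]
    have hGcard' : Nat.card G = 2 * m := by
      rw [← DihedralGroup.nat_card]
      exact (Nat.card_congr (Equiv.ofBijective _ ⟨hinjq, hsurjq⟩)).symm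
    have hq2 := hq.two_le
    rw [hGcard, hm] at hGcard'
    nlinarith [Nat.mul_le_mul_right m hq2, hmpos]
  refine ⟨hHcard, orderOf ρ, ?_, ?_⟩
  · rw [hm, hm1, mul_one]; exact hq
  · exact ⟨(MulEquiv.ofBijective _ ⟨hinj, hsurj⟩).symm⟩

/-- Let a finite group G act faithfully and primitively on a set Ω, and suppose the stabilizer of a point a has an orbit of length 2. Then the stabilizer of a has order 2 and G is isomorphic to the dihedral group of order 2p for some prime p. -/
theorem result {G Ω : Type*} [Group G] [Finite G] [MulAction G Ω] [FaithfulSMul G Ω] [Finite Ω]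
    (hprim : MulAction.IsPreprimitive G Ω) (a b : Ω) (h2 : Nat.card (MulAction.orbit (MulAction.stabilizer G a) b) = 2) :
    Nat.card (MulAction.stabilizer G a) = 2 ∧ ∃ p : ℕ, p.Prime ∧ Nonempty (G ≃* DihedralGroup p) := by
  classical
  haveI := hprim
  haveI := hprim.toIsPretransitive
  haveI hnt : Nontrivial Ω := by
    obtain ⟨x, y, hxy, -⟩ := Nat.card_eq_two_iff.mp h2
    exact ⟨⟨x.1, y.1, fun h => hxy (Subtype.ext h)⟩⟩
  have hcoH : IsCoatom (MulAction.stabilizer G a) :=
    MulAction.IsPreprimitive.isCoatom_stabilizer_of_isPreprimitive G a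
  have hcoK : IsCoatom (MulAction.stabilizer G b) :=
    MulAction.IsPreprimitive.isCoatom_stabilizer_of_isPreprimitive G b
  have hidx : (MulAction.stabilizer G a).index = (MulAction.stabilizer G b).index := by
    rw [MulAction.index_stabilizer_of_transitive, MulAction.index_stabilizer_of_transitive]
  have hstab : MulAction.stabilizer (MulAction.stabilizer G a) b
      = (MulAction.stabilizer G a ⊓ MulAction.stabilizer G b).subgroupOf (MulAction.stabilizer G a) := by
    ext x
    rw [MulAction.mem_stabilizer_iff, Subgroup.mem_subgroupOf, Subgroup.mem_inf]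
    constructor
    · intro hx; exact ⟨x.2, hx⟩
    · intro hx; exact hx.2
  have hDH : (MulAction.stabilizer G a ⊓ MulAction.stabilizer G b).relIndex (MulAction.stabilizer G a) = 2 := by
    change ((MulAction.stabilizer G a ⊓ MulAction.stabilizer G b).subgroupOf (MulAction.stabilizer G a)).index = 2
    rw [← hstab]
    exact ((Nat.card_congr (MulAction.orbitEquivQuotientStabilizer (MulAction.stabilizer G a) b)).symm).trans h2
  exact aux a _ _ (fun x => MulAction.mem_stabilizer_iff) hcoH hcoK hidx hDH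
    (fun x => MulAction.exists_smul_eq G a x)


end Cfsg.Agent.S3684
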