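import Cfsg.Statements.S3815
import Mathlib
-- import your own Cfsg.Agent.* helpers here

set_option autoImplicit false
open Cfsg

namespace Cfsg.Agent.S3815

/-- Let G be a finite group, p a prime and d ∈ G an element of order prime to p. If dg has order prime to p for every element g ∈ G of order prime to p, then d ∈ O_{p'}(G). -/
theorem result {G : Type*} [Group G] [Finite G] {p : ℕ} [Fact p.Prime]
    (d : G) (hd : (orderOf d).Coprime p)
    (h : ∀ g : G, (orderOf g).Coprime p → (orderOf (d * g)).Coprime p) :
    d ∈ Cfsg.pPrimeCore p G := by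
  classical
  have hp : p.Prime := Fact.out
  have hconj : ∀ x y : G, orderOf (x * y * x⁻¹) = orderOf y := by
    intro x y
    exact orderOf_injective (MulAut.conj x).toMonoidHom (MulAut.conj x).injective y
  let T : Subgroup G :=
    { carrier := {t | ∀ g : G, (orderOf g).Coprime p →
        (orderOf (t * g)).Coprime p ∧ (orderOf (t⁻¹ * g)).Coprime p}
      one_mem' := by
        intro g hg
        simpa using hg
      mul_mem' := by
        intro a b ha hb g hg
        constructor
        · rw [mul_assoc]
          exact (ha _ (hb g hg).1).1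
        · rw [mul_inv_rev, mul_assoc]
          exact (hb _ (ha g hg).2).2
      inv_mem' := by
        intro a ha g hg
        rw [inv_inv]
        exact ⟨(ha g hg).2, (ha g hg).1⟩ }
  have hdT : d ∈ T := by
    intro g hg
    refine ⟨h g hg, ?_⟩
    have h1 : (orderOf (d * g⁻¹)).Coprime p := h g⁻¹ (by rwa [orderOf_inv])
    have h2 : d⁻¹ * g = (d⁻¹ * (d * g⁻¹) * d⁻¹⁻¹)⁻¹ := by group
    rw [h2, orderOf_inv, hconj]
    exact h1
  have hTn : T.Normal := by
    constructor
    intro t ht x g hg
    have h1 : (orderOf (x⁻¹ * g * x)).Coprime p := by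
      have := hconj x⁻¹ g
      rw [inv_inv] at this
      rwa [this]
    constructor
    · have h2 : x * t * x⁻¹ * g = x * (t * (x⁻¹ * g * x)) * x⁻¹ := by group
      rw [h2, hconj]
      exact (ht _ h1).1
    · have h2 : (x * t * x⁻¹)⁻¹ * g = x * (t⁻¹ * (x⁻¹ * g * x)) * x⁻¹ := by group
      rw [h2, hconj]
      exact (ht _ h1).2
  have hTS : ∀ t ∈ T, (orderOf t).Coprime p := by
    intro t ht
    have := (ht 1 (by simp)).1
    rwa [mul_one] at this
  have hcop : (Nat.card T).Coprime p := by
    apply Nat.Coprime.symm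
    rw [Nat.Prime.coprime_iff_not_dvd hp]
    intro hdvd
    obtain ⟨x, hx⟩ := exists_prime_orderOf_dvd_card' p hdvd
    have h1 := hTS x.1 x.2
    rw [Subgroup.orderOf_coe, hx] at h1
    exact hp.one_lt.ne' ((Nat.coprime_self p).mp h1)
  exact (le_sSup (show T ∈ {N : Subgroup G | N.Normal ∧ (Nat.card N).Coprime p} from
    ⟨hTn, hcop⟩)) hdT

end Cfsg.Agent.S3815
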