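import Cfsg.Statements.S3820
import Cfsg.Agent.Helper4.Pronormal

set_option autoImplicit false
open Cfsg

namespace Cfsg.Agent.S3820

/-- Call a subgroup H of G pronormal if H and gHg⁻¹ are conjugate inside ⟨H, gHg⁻¹⟩ for every g ∈ G. Let S ≤ H ≤ G be subgroups of a finite group with S pronormal in G (for instance S a Sylow subgroup). Then H is pronormal in G if and only if H and gHg⁻¹ are conjugate inside ⟨H, gHg⁻¹⟩ for every g ∈ N_G(S). In particular H is pronormal whenever N_G(S) ≤ H. -/
theorem result {G : Type*} [Group G] [Finite G] (S H : Subgroup G) (hSH : S ≤ H)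
    (hS : Cfsg.IsPronormal S) :
    Cfsg.IsPronormal H ↔
      ∀ g ∈ Subgroup.normalizer (S : Set G), ∃ w ∈ H ⊔ H.map (MulAut.conj g).toMonoidHom,
        H.map (MulAut.conj g).toMonoidHom = H.map (MulAut.conj w).toMonoidHom := by
  constructor
  · intro h g _
    exact h g
  · intro h g
    obtain ⟨w, hw, hSw⟩ := hS g
    have hS_le : S ⊔ S.map (MulAut.conj g).toMonoidHom ≤ H ⊔ H.map (MulAut.conj g).toMonoidHom :=
      sup_le_sup hSH (Subgroup.map_mono hSH)
    have hwH : w ∈ H ⊔ H.map (MulAut.conj g).toMonoidHom := hS_le hw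
    have hn : w⁻¹ * g ∈ Subgroup.normalizer (S : Set G) := by
      rw [Helper4.mem_normalizer_iff_map_conj, Helper4.map_conj_mul, hSw, ← Helper4.map_conj_mul,
        inv_mul_cancel, Helper4.map_conj_one]
    obtain ⟨u, hu, hHu⟩ := h _ hn
    have hHn_le : H.map (MulAut.conj (w⁻¹ * g)).toMonoidHom ≤ H ⊔ H.map (MulAut.conj g).toMonoidHom := by
      rw [Helper4.map_conj_mul]
      exact Helper4.map_conj_le_of_mem _ _ _ le_sup_right (Subgroup.inv_mem _ hwH)
    have huH : u ∈ H ⊔ H.map (MulAut.conj g).toMonoidHom := (sup_le le_sup_left hHn_le) hu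
    refine ⟨w * u, Subgroup.mul_mem _ hwH huH, ?_⟩
    rw [Helper4.map_conj_mul H w u, ← hHu, ← Helper4.map_conj_mul]
    congr 3
    group

end Cfsg.Agent.S3820
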