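import Cfsg.Statements.S3821
import Cfsg.Agent.Helper4.Pronormal

set_option autoImplicit false
open Cfsg

namespace Cfsg.Agent.S3821

/-- Let A be a normal subgroup of the finite group G and H a subgroup of A. Then H is pronormal in G (H and gHg⁻¹ conjugate inside ⟨H, gHg⁻¹⟩ for every g ∈ G) if and only if H is pronormal in A and G = A · N_G(H). -/
theorem result {G : Type*} [Group G] [Finite G] (A H : Subgroup G) [A.Normal] (hHA : H ≤ A) :
    Cfsg.IsPronormal H ↔ (Cfsg.IsPronormal (H.subgroupOf A) ∧ A ⊔ Subgroup.normalizer (H : Set G) = ⊤) := by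
  have hHmap : (H.subgroupOf A).map A.subtype = H := Subgroup.map_subgroupOf_eq_of_le hHA
  have hconjA : ∀ g : G, H.map (MulAut.conj g).toMonoidHom ≤ A := by
    intro g x hx
    rw [Helper4.mem_map_conj_iff] at hx
    have h1 : g⁻¹ * x * g ∈ A := hHA hx
    have h2 := (inferInstance : A.Normal).conj_mem _ h1 g
    have h3 : g * (g⁻¹ * x * g) * g⁻¹ = x := by group
    rwa [h3] at h2
  constructor
  · intro h
    refine ⟨?_, ?_⟩
    · intro a
      obtain ⟨x, hx, hHx⟩ := h (a : G)
      have hxA : x ∈ A := (sup_le hHA (hconjA a)) hx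
      refine ⟨⟨x, hxA⟩, ?_, ?_⟩
      · have h1 : (H.subgroupOf A ⊔ (H.subgroupOf A).map (MulAut.conj a).toMonoidHom).map A.subtype
            = H ⊔ H.map (MulAut.conj (a : G)).toMonoidHom := by
          rw [Subgroup.map_sup, Helper4.map_conj_subtype, hHmap]
        have h2 : x ∈ (H.subgroupOf A ⊔ (H.subgroupOf A).map (MulAut.conj a).toMonoidHom).map A.subtype := by
          rw [h1]; exact hx
        obtain ⟨y, hy, hyx⟩ := h2
        have hyeq : y = ⟨x, hxA⟩ := Subtype.ext hyx
        rw [← hyeq]; exact hy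
      · apply Subgroup.map_injective A.subtype_injective
        rw [Helper4.map_conj_subtype, Helper4.map_conj_subtype, hHmap]
        exact hHx
    · rw [eq_top_iff]
      intro g _
      obtain ⟨x, hx, hHx⟩ := h g
      have hxA : x ∈ A := (sup_le hHA (hconjA g)) hx
      have hn : x⁻¹ * g ∈ Subgroup.normalizer (H : Set G) := by
        rw [Helper4.mem_normalizer_iff_map_conj, Helper4.map_conj_mul, hHx, ← Helper4.map_conj_mul,
          inv_mul_cancel, Helper4.map_conj_one]
      have h3 : g = x * (x⁻¹ * g) := by group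
      rw [h3]
      exact Subgroup.mul_mem _ (Subgroup.mem_sup_left hxA) (Subgroup.mem_sup_right hn)
  · rintro ⟨hpro, htop⟩ g
    have hg : g ∈ A ⊔ Subgroup.normalizer (H : Set G) := by rw [htop]; trivial
    open scoped Pointwise in
    have hg' : ∃ a ∈ A, ∃ n ∈ Subgroup.normalizer (H : Set G), a * n = g := by
      have hset : ((A ⊔ Subgroup.normalizer (H : Set G) : Subgroup G) : Set G)
          = (A : Set G) * (Subgroup.normalizer (H : Set G) : Set G) := Subgroup.normal_mul A _
      have hg'' : g ∈ (A : Set G) * (Subgroup.normalizer (H : Set G) : Set G) := by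
        rw [← hset]; exact hg
      exact Set.mem_mul.mp hg''
    obtain ⟨a, ha, n, hn, rfl⟩ := hg'
    have hHn : H.map (MulAut.conj n).toMonoidHom = H := (Helper4.mem_normalizer_iff_map_conj H n).mp hn
    have hHan : H.map (MulAut.conj (a * n)).toMonoidHom = H.map (MulAut.conj a).toMonoidHom := by
      rw [Helper4.map_conj_mul, hHn]
    obtain ⟨x, hx, hHx⟩ := hpro ⟨a, ha⟩
    refine ⟨(x : G), ?_, ?_⟩
    · rw [hHan]
      have h1 : (H.subgroupOf A ⊔ (H.subgroupOf A).map (MulAut.conj (⟨a, ha⟩ : A)).toMonoidHom).map A.subtype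
          = H ⊔ H.map (MulAut.conj a).toMonoidHom := by
        rw [Subgroup.map_sup, Helper4.map_conj_subtype, hHmap]
      rw [← h1]
      exact ⟨x, hx, rfl⟩
    · rw [hHan]
      have h2 := congrArg (Subgroup.map A.subtype) hHx
      rw [Helper4.map_conj_subtype, Helper4.map_conj_subtype, hHmap] at h2
      exact h2

end Cfsg.Agent.S3821
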