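import Cfsg.Statements.S3825
import Mathlib

set_option autoImplicit false
open Cfsg

namespace Cfsg.Agent.S3825

/-- Let U be a subgroup of a finite group H and w an involution of H normalizing U and commuting with exactly two elements of U, the identity and y. If V is a non-cyclic elementary abelian 2-subgroup of U containing y which is normal in U and invariant under w, then V is a Sylow 2-subgroup of U, V has order 4, and U/V is abelian. -/
theorem result {H : Type*} [Group H] [Finite H] (U : Subgroup H) (w : H) (hw : orderOf w = 2)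
    (hwU : w ∈ Subgroup.normalizer (U : Set H)) (y : H) (hy : y ≠ 1) (hyU : y ∈ U)
    (hfix : ∀ u ∈ U, w * u * w⁻¹ = u ↔ (u = 1 ∨ u = y))
    (V : Subgroup H) (hVU : V ≤ U) (hVn : (V.subgroupOf U).Normal) (hVw : ∀ v ∈ V, w * v * w⁻¹ ∈ V)
    (hVe : Cfsg.IsElementaryAbelian 2 V) (hVc : ¬ IsCyclic ↥V) (hyV : y ∈ V) :
    ¬ 2 ∣ V.relIndex U ∧ Nat.card ↥V = 4 ∧ ⁅U, U⁆ ≤ V := by
  classical
  obtain ⟨hVcomm, hVexp⟩ := hVe
  haveI : Fact (Nat.Prime 2) := ⟨Nat.prime_two⟩
  have hw2 : w * w = 1 := by rw [← pow_two, ← hw]; exact pow_orderOf_eq_one w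
  have hwinv : w⁻¹ = w := inv_eq_of_mul_eq_one_left hw2
  have hσσ : ∀ u : H, w * (w * u * w⁻¹) * w⁻¹ = u := by
    intro u
    calc w * (w * u * w⁻¹) * w⁻¹ = (w * w) * u * (w * w)⁻¹ := by group
      _ = u := by rw [hw2, one_mul, inv_one, mul_one]
  have hσU : ∀ u ∈ U, w * u * w⁻¹ ∈ U :=
    fun u hu => (Subgroup.mem_normalizer_iff.mp hwU u).mp hu
  have hVc2 : ∀ a ∈ V, ∀ b ∈ V, a * b = b * a := by
    intro a ha b hb
    have h0 := hVcomm.is_comm.comm (⟨a, ha⟩ : ↥V) ⟨b, hb⟩
    exact congrArg Subtype.val h0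
  have hVinv : ∀ a ∈ V, a⁻¹ = a := by
    intro a ha
    have h0 := hVexp a ha
    rw [pow_two] at h0
    exact inv_eq_of_mul_eq_one_left h0
  have hφ : ∀ v ∈ V, v * (w * v * w⁻¹) = 1 ∨ v * (w * v * w⁻¹) = y := by
    intro v hv
    have hσv := hVw v hv
    apply (hfix _ (U.mul_mem (hVU hv) (hVU hσv))).mp
    calc w * (v * (w * v * w⁻¹)) * w⁻¹ = (w * v * w⁻¹) * (w * (w * v * w⁻¹) * w⁻¹) := by group
      _ = (w * v * w⁻¹) * v := by rw [hσσ]
      _ = v * (w * v * w⁻¹) := hVc2 _ hσv _ hv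
  have hfixV : ∀ v ∈ V, v * (w * v * w⁻¹) = 1 → (v = 1 ∨ v = y) := by
    intro v hv h
    apply (hfix v (hVU hv)).mp
    have h1 : w * v * w⁻¹ = v⁻¹ := eq_inv_of_mul_eq_one_right h
    rw [h1, hVinv v hv]
  haveI : Fintype ↥V := Fintype.ofFinite _
  have hV4 : Nat.card ↥V ≤ 4 := by
    rw [Nat.card_eq_fintype_card, ← Finset.card_univ]
    let f : ↥V → H := fun v => (v : H) * (w * (v : H) * w⁻¹)
    have him : (Finset.univ.image f) ⊆ ({1, y} : Finset H) := by
      intro a ha
      obtain ⟨v, -, rfl⟩ := Finset.mem_image.mp ha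
      rw [Finset.mem_insert, Finset.mem_singleton]
      exact hφ v v.2
    have him2 : (Finset.univ.image f).card ≤ 2 :=
      (Finset.card_le_card him).trans Finset.card_le_two
    have hfib : ∀ a ∈ Finset.univ.image f,
        (Finset.univ.filter (fun x => f x = a)).card ≤ 2 := by
      intro a ha
      obtain ⟨v₀, -, rfl⟩ := Finset.mem_image.mp ha
      have hsub : Finset.univ.filter (fun x => f x = f v₀) ⊆
          ({v₀, v₀ * ⟨y, hyV⟩} : Finset ↥V) := by
        intro x hx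
        have hx' : f x = f v₀ := (Finset.mem_filter.mp hx).2
        have hprod : ((v₀ : H) * (x : H)) * (w * ((v₀ : H) * (x : H)) * w⁻¹) = 1 := by
          have e : ((v₀ : H) * (x : H)) * (w * ((v₀ : H) * (x : H)) * w⁻¹)
              = (v₀ : H) * ((x : H) * (w * (v₀ : H) * w⁻¹)) * (w * (x : H) * w⁻¹) := by group
          have e2 : (v₀ : H) * ((w * (v₀ : H) * w⁻¹) * (x : H)) * (w * (x : H) * w⁻¹)
              = f v₀ * f x := by
            simp only [f]; group
          rw [e, hVc2 _ x.2 _ (hVw _ v₀.2), e2, hx']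
          have hfV : f v₀ ∈ V := V.mul_mem v₀.2 (hVw _ v₀.2)
          have h0 := hVexp _ hfV
          rwa [pow_two] at h0
        rw [Finset.mem_insert, Finset.mem_singleton]
        rcases hfixV _ (V.mul_mem v₀.2 x.2) hprod with h | h
        · left
          have hx0 : (x : H) = (v₀ : H) := by
            have h0 := eq_inv_of_mul_eq_one_right h
            rw [h0, hVinv _ v₀.2]
          exact Subtype.ext hx0
        · right
          have hx0 : (x : H) = (v₀ : H) * y := by
            calc (x : H) = (v₀ : H)⁻¹ * ((v₀ : H) * (x : H)) := by group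
              _ = (v₀ : H)⁻¹ * y := by rw [h]
              _ = (v₀ : H) * y := by rw [hVinv _ v₀.2]
          exact Subtype.ext hx0
      exact (Finset.card_le_card hsub).trans Finset.card_le_two
    have h0 := Finset.card_le_mul_card_image (Finset.univ : Finset ↥V) 2 hfib
    omega
  have hVcard : Nat.card ↥V = 4 := by
    have hpg : IsPGroup 2 ↥V :=
      fun v => ⟨1, by rw [pow_one]; exact Subtype.ext (by simpa using hVexp v v.2)⟩
    obtain ⟨k, hk⟩ := IsPGroup.iff_card.mp hpg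
    have hV4' : 2 ^ k ≤ 4 := hk ▸ hV4
    have hk2 : k ≤ 2 := by
      by_contra hcon
      push Not at hcon
      have h8 : 8 ≤ 2 ^ k := by
        calc 8 = 2 ^ 3 := by norm_num
          _ ≤ 2 ^ k := Nat.pow_le_pow_right (by norm_num) hcon
      omega
    interval_cases k
    · exfalso
      apply hVc
      haveI : Subsingleton ↥V := (Nat.card_eq_one_iff_unique.mp (by rw [hk]; rfl)).1
      exact isCyclic_of_subsingleton
    · exfalso
      apply hVc
      exact isCyclic_of_prime_card (p := 2) (by rw [hk]; rfl)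
    · rw [hk]; rfl
  obtain ⟨v', hv'V, hv'y⟩ : ∃ v' ∈ V, v' * (w * v' * w⁻¹) = y := by
    have hex : ∃ v : ↥V, v ∉ ({1, ⟨y, hyV⟩} : Finset ↥V) := by
      by_contra hcon
      push Not at hcon
      have hsub : (Finset.univ : Finset ↥V) ⊆ {1, ⟨y, hyV⟩} := fun v _ => hcon v
      have h1 := Finset.card_le_card hsub
      have h2 : ({1, ⟨y, hyV⟩} : Finset ↥V).card ≤ 2 := Finset.card_le_two
      rw [Finset.card_univ, ← Nat.card_eq_fintype_card, hVcard] at h1
      omega
    obtain ⟨v, hv⟩ := hex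
    rw [Finset.mem_insert, Finset.mem_singleton, not_or] at hv
    refine ⟨v, v.2, ?_⟩
    rcases hφ v v.2 with h | h
    · exfalso
      rcases hfixV v v.2 h with h' | h'
      · exact hv.1 (Subtype.ext h')
      · exact hv.2 (Subtype.ext h')
    · exact h
  have hA : ∀ u ∈ U, u⁻¹ * (w * u * w⁻¹) ∈ V → u ∈ V := by
    intro u hu hv
    obtain ⟨v, hvdef⟩ : ∃ v, v = u⁻¹ * (w * u * w⁻¹) := ⟨_, rfl⟩
    rw [← hvdef] at hv
    have hσu : w * u * w⁻¹ = u * v := by rw [hvdef]; group
    have h1 : v * (w * v * w⁻¹) = 1 := by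
      have h0 : u = u * v * (w * v * w⁻¹) := by
        calc u = w * (w * u * w⁻¹) * w⁻¹ := (hσσ u).symm
          _ = w * (u * v) * w⁻¹ := by rw [hσu]
          _ = (w * u * w⁻¹) * (w * v * w⁻¹) := by group
          _ = u * v * (w * v * w⁻¹) := by rw [hσu]
      have h0' : u * 1 = u * (v * (w * v * w⁻¹)) := by rw [mul_one, ← mul_assoc]; exact h0
      exact (mul_left_cancel h0').symm
    rcases hfixV v hv h1 with h | h
    · have h2 : w * u * w⁻¹ = u := by rw [hσu, h, mul_one]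
      rcases (hfix u hu).mp h2 with h3 | h3
      · rw [h3]; exact V.one_mem
      · rw [h3]; exact hyV
    · have h2 : w * (u * v') * w⁻¹ = u * v' := by
        have hs := hVexp _ (hVw v' hv'V)
        rw [pow_two] at hs
        have h5 : y * (w * v' * w⁻¹) = v' := by
          rw [← hv'y, mul_assoc, hs, mul_one]
        calc w * (u * v') * w⁻¹ = (w * u * w⁻¹) * (w * v' * w⁻¹) := by group
          _ = u * y * (w * v' * w⁻¹) := by rw [hσu, h]
          _ = u * (y * (w * v' * w⁻¹)) := by group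
          _ = u * v' := by rw [h5]
      rcases (hfix _ (U.mul_mem hu (hVU hv'V))).mp h2 with h3 | h3
      · have h4 : u = v'⁻¹ := eq_inv_of_mul_eq_one_left h3
        rw [h4]; exact V.inv_mem hv'V
      · have h4 : u = y * v'⁻¹ := by rw [← h3]; group
        rw [h4]; exact V.mul_mem hyV (V.inv_mem hv'V)
  haveI := hVn
  let σ : ↥U →* ↥U :=
    { toFun := fun u => ⟨w * (u : H) * w⁻¹, hσU u u.2⟩
      map_one' := Subtype.ext (by simp)
      map_mul' := fun a b => Subtype.ext (by simp [mul_assoc]) }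
  have hσcoe : ∀ u : ↥U, ((σ u : ↥U) : H) = w * (u : H) * w⁻¹ := fun u => rfl
  have hle : V.subgroupOf U ≤ (V.subgroupOf U).comap σ := by
    intro v hv
    rw [Subgroup.mem_comap, Subgroup.mem_subgroupOf, hσcoe]
    exact hVw _ (Subgroup.mem_subgroupOf.mp hv)
  let σb : (↥U ⧸ V.subgroupOf U) →* (↥U ⧸ V.subgroupOf U) := QuotientGroup.map _ _ σ hle
  have hσb : ∀ u : ↥U, σb (QuotientGroup.mk u) = QuotientGroup.mk (σ u) := fun u => rfl
  have hfpf : ∀ r : ↥U ⧸ V.subgroupOf U, σb r = r → r = 1 := by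
    intro r hr
    obtain ⟨u, rfl⟩ := QuotientGroup.mk_surjective r
    rw [hσb] at hr
    have h1 := QuotientGroup.eq.mp hr.symm
    rw [Subgroup.mem_subgroupOf] at h1
    have h2 : (u : H)⁻¹ * (w * (u : H) * w⁻¹) ∈ V := h1
    have h3 := hA _ u.2 h2
    exact (QuotientGroup.eq_one_iff u).mpr (Subgroup.mem_subgroupOf.mpr h3)
  have hσb2 : ∀ r : ↥U ⧸ V.subgroupOf U, σb (σb r) = r := by
    intro r
    obtain ⟨u, rfl⟩ := QuotientGroup.mk_surjective r
    rw [hσb, hσb]
    congr 1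
    exact Subtype.ext (hσσ (u : H))
  have hginj : Function.Injective (fun q : ↥U ⧸ V.subgroupOf U => q⁻¹ * σb q) := by
    intro q₁ q₂ h
    have h' : q₁⁻¹ * σb q₁ = q₂⁻¹ * σb q₂ := h
    have h1 : σb (q₂ * q₁⁻¹) = q₂ * q₁⁻¹ := by
      rw [map_mul, map_inv]
      have h2 : σb q₁ = q₁ * (q₂⁻¹ * σb q₂) := by rw [← h', mul_inv_cancel_left]
      rw [h2]; group
    have h3 := hfpf _ h1
    exact (mul_inv_eq_one.mp h3).symm
  have hgsurj : Function.Surjective (fun q : ↥U ⧸ V.subgroupOf U => q⁻¹ * σb q) :=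
    Finite.injective_iff_surjective.mp hginj
  have hinvert : ∀ q : ↥U ⧸ V.subgroupOf U, σb q = q⁻¹ := by
    intro q
    obtain ⟨r, hr⟩ := hgsurj q
    have hr' : r⁻¹ * σb r = q := hr
    rw [← hr', map_mul, map_inv, hσb2, mul_inv_rev, inv_inv]
  have hcomm : ∀ a b : ↥U ⧸ V.subgroupOf U, a * b = b * a := by
    intro a b
    have h1 := hinvert (a * b)
    rw [map_mul, hinvert a, hinvert b, mul_inv_rev] at h1
    have h2 := congrArg (fun x => x⁻¹) h1
    simp only [mul_inv_rev, inv_inv] at h2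
    exact h2.symm
  refine ⟨?_, hVcard, ?_⟩
  · intro hdvd
    have hcardQ : V.relIndex U = Nat.card (↥U ⧸ V.subgroupOf U) := rfl
    rw [hcardQ] at hdvd
    obtain ⟨q, hq⟩ := exists_prime_orderOf_dvd_card' (G := ↥U ⧸ V.subgroupOf U) 2 hdvd
    have hq2 : q * q = 1 := by rw [← pow_two, ← hq]; exact pow_orderOf_eq_one q
    have hqinv : q⁻¹ = q := inv_eq_of_mul_eq_one_left hq2
    have h1 : σb q = q := by rw [hinvert, hqinv]
    have h2 := hfpf q h1
    rw [h2, orderOf_one] at hq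
    omega
  · rw [Subgroup.commutator_le]
    intro a ha b hb
    have h1 : (QuotientGroup.mk ((⟨a, ha⟩ : ↥U) * ⟨b, hb⟩ * (⟨a, ha⟩ : ↥U)⁻¹ * (⟨b, hb⟩ : ↥U)⁻¹) :
        ↥U ⧸ V.subgroupOf U) = 1 := by
      rw [QuotientGroup.mk_mul, QuotientGroup.mk_mul,
        QuotientGroup.mk_mul, QuotientGroup.mk_inv, QuotientGroup.mk_inv]
      rw [hcomm (QuotientGroup.mk ⟨a, ha⟩) (QuotientGroup.mk ⟨b, hb⟩)]
      group
    have h2 := (QuotientGroup.eq_one_iff _).mp h1
    rw [Subgroup.mem_subgroupOf] at h2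
    exact h2

end Cfsg.Agent.S3825
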