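import Cfsg.Statements.S3838
import Mathlib
import Cfsg.Agent.Helper6.Tate
import Cfsg.Agent.Helper6.TransferMod
import Cfsg.Agent.Helper4.RelSylow
import Cfsg.Agent.Helper5.Basic
-- import your own Cfsg.Agent.* helpers here

set_option autoImplicit false
open Cfsg

namespace Cfsg.Agent.S3838


open scoped commutatorElement

open Cfsg.Agent.Helper6 in
theorem conj_mod_commutator_of_npc {G : Type*} [Group G] [Finite G] {p : ℕ} [Fact p.Prime]
    (P : Sylow p G)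
    (hN : Cfsg.HasNormalPComplement p ↥(Subgroup.normalizer ((P : Subgroup G) : Set G)))
    (n x : G) (hn : n ∈ Subgroup.normalizer ((P : Subgroup G) : Set G))
    (hx : x ∈ (P : Subgroup G)) :
    n⁻¹ * x * n * x⁻¹ ∈ (commutator ↥(P : Subgroup G)).map (P : Subgroup G).subtype := by
  set N := Subgroup.normalizer ((P : Subgroup G) : Set G) with hNdef
  obtain ⟨K₀, hK₀⟩ := exists_isNPC_of_hasNormalPComplement hN
  have hF : FrobCond p N := frobCond_of_isNPC hK₀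
  have hPN : (P : Subgroup G) ≤ N := Subgroup.le_normalizer
  obtain ⟨S, hS⟩ := exists_sylow_subgroup_ge N (P : Subgroup G) P.isPGroup'
  have hK₀n := hK₀.1
  have hQ : IsPGroup p (N ⧸ K₀) := quot_isPGroup p K₀ (fun g hg => (hK₀.mem_iff g).mpr hg)
  obtain ⟨c, hc, s, hs, hncs⟩ := exists_mul_of_quot_isPGroup p K₀ hQ S ⟨n, hn⟩
  have hsP : ((s : N) : G) ∈ (P : Subgroup G) := by
    have h1 : IsPGroup p ((S : Subgroup N).map N.subtype) := S.isPGroup'.map _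
    have h2 : (P : Subgroup G) ≤ (S : Subgroup N).map N.subtype := by
      intro a ha
      exact ⟨⟨a, hPN ha⟩, hS a (hPN ha) ha, rfl⟩
    have h3 := P.is_maximal' h1 h2
    rw [← h3]
    exact ⟨s, hs, rfl⟩
  have hcop : (orderOf c).Coprime p := (hK₀.mem_iff c).mp hc
  have hcop' : (orderOf (c : G)).Coprime p := by rwa [Subgroup.orderOf_coe]
  have hcC : (c : G) ∈ Subgroup.centralizer ((P : Subgroup G) : Set G) :=
    mem_centralizer_of_frobCond_subgroup N hF (P : Subgroup G) P.isPGroup' hPN (c : G) c.2 c.2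
      hcop'
  have hn' : n = (c : G) * (s : G) := congrArg Subtype.val hncs
  have hcx : (c : G)⁻¹ * x * (c : G) = x := by
    have := Subgroup.mem_centralizer_iff.mp hcC x hx
    rw [mul_assoc, this, ← mul_assoc, inv_mul_cancel, one_mul]
  have hcomm : n⁻¹ * x * n * x⁻¹ = ⁅(s : G)⁻¹, x⁆ := by
    rw [hn', commutatorElement_def]
    calc ((c : G) * s)⁻¹ * x * (c * s) * x⁻¹ = (s : G)⁻¹ * ((c : G)⁻¹ * x * c) * s * x⁻¹ := by
          group
      _ = (s : G)⁻¹ * x * s * x⁻¹ := by rw [hcx]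
      _ = _ := by group
  rw [hcomm]
  refine ⟨⁅(⟨(s : G), hsP⟩ : (P : Subgroup G))⁻¹, ⟨x, hx⟩⁆,
    Subgroup.commutator_mem_commutator (Subgroup.mem_top _) (Subgroup.mem_top _), ?_⟩
  simp [commutatorElement_def]

theorem fusion_mod_of_npc {G : Type*} [Group G] [Finite G] {p : ℕ} [Fact p.Prime]
    (P : Sylow p G)
    (hN : Cfsg.HasNormalPComplement p ↥(Subgroup.normalizer ((P : Subgroup G) : Set G)))
    (Q : Subgroup G)
    (h1 : (commutator ↥(P : Subgroup G)).map (P : Subgroup G).subtype ≤ Q)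
    (hPQ : (P : Subgroup G) ≤ Subgroup.normalizer (Q : Set G))
    (x g : G) (hx : x ∈ (P : Subgroup G)) (hg : g ∈ Subgroup.normalizer (Q : Set G))
    (hy : g⁻¹ * x * g ∈ (P : Subgroup G)) : (g⁻¹ * x * g)⁻¹ * x ∈ Q := by
  have hcm : ∀ a ∈ (P : Subgroup G), ∀ b ∈ (P : Subgroup G), a * b * a⁻¹ * b⁻¹ ∈ Q := by
    intro a ha b hb
    exact h1 ⟨⁅(⟨a, ha⟩ : (P : Subgroup G)), ⟨b, hb⟩⁆,
      Subgroup.commutator_mem_commutator (Subgroup.mem_top _) (Subgroup.mem_top _),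
      by simp [commutatorElement_def]⟩
  have hnq : ∀ c ∈ Subgroup.normalizer (Q : Set G), ∀ q ∈ Q, c * q * c⁻¹ ∈ Q :=
    fun c hc q hq => (Subgroup.mem_normalizer_iff.mp hc q).mp hq
  have hnq' : ∀ c ∈ Subgroup.normalizer (Q : Set G), ∀ q ∈ Q, c⁻¹ * q * c ∈ Q := by
    intro c hc q hq
    have := hnq c⁻¹ (inv_mem hc) q hq
    simpa using this
  set y := g⁻¹ * x * g with hydef
  let D : Subgroup G :=
    { carrier := {c | c ∈ Subgroup.normalizer (Q : Set G) ∧ c⁻¹ * y * c * y⁻¹ ∈ Q}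
      mul_mem' := by
        rintro c d ⟨hc1, hc2⟩ ⟨hd1, hd2⟩
        refine ⟨mul_mem hc1 hd1, ?_⟩
        have h3 : (c * d)⁻¹ * y * (c * d) * y⁻¹ =
            d⁻¹ * (c⁻¹ * y * c * y⁻¹) * d * (d⁻¹ * y * d * y⁻¹) := by group
        rw [h3]
        exact Q.mul_mem (hnq' d hd1 _ hc2) hd2
      one_mem' := ⟨one_mem _, by simp⟩
      inv_mem' := by
        rintro c ⟨hc1, hc2⟩
        refine ⟨inv_mem hc1, ?_⟩
        have h3 : c⁻¹⁻¹ * y * c⁻¹ * y⁻¹ = c * (c⁻¹ * y * c * y⁻¹)⁻¹ * c⁻¹ := by group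
        rw [h3]
        exact hnq c hc1 _ (Q.inv_mem hc2) }
  have hDmem : ∀ c, c ∈ D ↔ c ∈ Subgroup.normalizer (Q : Set G) ∧ c⁻¹ * y * c * y⁻¹ ∈ Q :=
    fun c => Iff.rfl
  have hPD : (P : Subgroup G) ≤ D := by
    intro c hc
    rw [hDmem]
    refine ⟨hPQ hc, ?_⟩
    have := hcm c⁻¹ (inv_mem hc) y hy
    simpa using this
  have hPgD : (P : Subgroup G).map (MulAut.conj g⁻¹).toMonoidHom ≤ D := by
    rintro _ ⟨a, ha, rfl⟩
    rw [hDmem]
    simp only [MulEquiv.toMonoidHom_eq_coe, MonoidHom.coe_coe, MulAut.conj_apply, inv_inv]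
    refine ⟨mul_mem (mul_mem (inv_mem hg) (hPQ ha)) hg, ?_⟩
    have h3 : (g⁻¹ * a * g)⁻¹ * y * (g⁻¹ * a * g) * y⁻¹ = g⁻¹ * (a⁻¹ * x * a⁻¹⁻¹ * x⁻¹) * g := by
      rw [hydef]; group
    rw [h3]
    exact hnq' g hg _ (hcm a⁻¹ (inv_mem ha) x hx)
  have hidx : ¬ p ∣ (P : Subgroup G).relIndex D := fun h =>
    P.not_dvd_index (h.trans (Subgroup.relIndex_dvd_index_of_le hPD))
  obtain ⟨c, hcD, hc⟩ := Cfsg.Agent.Helper4.exists_conj_le_of_relIndex (p := p) D (P : Subgroup G)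
    ((P : Subgroup G).map (MulAut.conj g⁻¹).toMonoidHom) P.isPGroup' hidx (P.isPGroup'.map _) hPgD
  -- n = c * g⁻¹ normalizes P
  have hnN : c * g⁻¹ ∈ Subgroup.normalizer ((P : Subgroup G) : Set G) := by
    apply Cfsg.Agent.Helper5.mem_normalizer_of_conj_le
    rintro _ ⟨a, ha, rfl⟩
    have := hc (g⁻¹ * a * g) ⟨a, ha, by simp⟩
    simp only [MulEquiv.toMonoidHom_eq_coe, MonoidHom.coe_coe, MulAut.conj_apply]
    have h3 : c * g⁻¹ * a * (c * g⁻¹)⁻¹ = c * (g⁻¹ * a * g) * c⁻¹ := by group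
    rw [h3]
    exact this
  have h4 := conj_mod_commutator_of_npc P hN (c * g⁻¹)⁻¹ x (inv_mem hnN) hx
  have h5 : (c * g⁻¹)⁻¹⁻¹ * x * (c * g⁻¹)⁻¹ * x⁻¹ ∈ Q := h1 h4
  have h6 : (c * g⁻¹)⁻¹⁻¹ * x * (c * g⁻¹)⁻¹ * x⁻¹ = c * y * c⁻¹ * x⁻¹ := by
    rw [hydef]; group
  rw [h6] at h5
  -- c y c⁻¹ y⁻¹ ∈ Q
  have h7 : c * y * c⁻¹ * y⁻¹ ∈ Q := by
    have := ((hDmem c⁻¹).mp (inv_mem hcD)).2
    simpa using this
  -- y x⁻¹ ∈ Q
  have h8 : y * x⁻¹ ∈ Q := by
    have h9 : y * x⁻¹ = (c * y * c⁻¹ * y⁻¹)⁻¹ * (c * y * c⁻¹ * x⁻¹) := by group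
    rw [h9]
    exact Q.mul_mem (Q.inv_mem h7) h5
  have h10 : y⁻¹ * x = y⁻¹ * (y * x⁻¹)⁻¹ * y := by group
  rw [h10]
  exact hnq' y (hPQ hy) _ (Q.inv_mem h8)

/-- Let G be a finite group with Sylow p-subgroup P such that N_G(P) has a normal p-complement. Then N_G(Q) has a normal p-complement for every subgroup Q with [P, P] ≤ Q ≤ Φ(P). -/
theorem result {G : Type*} [Group G] [Finite G] {p : ℕ} [Fact p.Prime] (P : Sylow p G) (hN : Cfsg.HasNormalPComplement p ↥(Subgroup.normalizer ((P : Subgroup G) : Set G))) (Q : Subgroup G) (h1 : (commutator ↥(P : Subgroup G)).map (P : Subgroup G).subtype ≤ Q) (h2 : Q ≤ (frattini ↥(P : Subgroup G)).map (P : Subgroup G).subtype) : Cfsg.HasNormalPComplement p ↥(Subgroup.normalizer (Q : Set G)) := by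
  have hp : p.Prime := Fact.out
  have hQP : Q ≤ (P : Subgroup G) := h2.trans (Subgroup.map_subtype_le _)
  have hconjQ : ∀ a ∈ (P : Subgroup G), ∀ q ∈ Q, a * q * a⁻¹ ∈ Q := by
    intro a ha q hq
    have h3 : ⁅a, q⁆ ∈ Q := h1 ⟨⁅(⟨a, ha⟩ : (P : Subgroup G)), ⟨q, hQP hq⟩⁆,
      Subgroup.commutator_mem_commutator (Subgroup.mem_top _) (Subgroup.mem_top _),
      by simp [commutatorElement_def]⟩
    have h4 : a * q * a⁻¹ = ⁅a, q⁆ * q := by rw [commutatorElement_def]; group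
    rw [h4]; exact Q.mul_mem h3 hq
  have hPX : (P : Subgroup G) ≤ Subgroup.normalizer (Q : Set G) := by
    intro a ha
    rw [Subgroup.mem_normalizer_iff]
    intro q
    constructor
    · exact hconjQ a ha q
    · intro hq
      have := hconjQ a⁻¹ (inv_mem ha) _ hq
      simpa [mul_assoc] using this
  set X := Subgroup.normalizer (Q : Set G) with hX
  set PX : Subgroup X := (P : Subgroup G).subgroupOf X with hPXdef
  have hPXp : IsPGroup p PX := P.isPGroup'.comap_subtype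
  have hPXi : ¬ p ∣ PX.index := fun h =>
    P.not_dvd_index (h.trans (Subgroup.relIndex_dvd_index_of_le hPX))
  let R : Subgroup PX := Q.comap (X.subtype.comp PX.subtype)
  have hRmem : ∀ x : PX, x ∈ R ↔ ((x : X) : G) ∈ Q := fun x => Iff.rfl
  have hRn : R.Normal := by
    constructor
    intro x hx a
    rw [hRmem] at hx ⊢
    exact hconjQ _ a.2 _ hx
  have hcomm : commutator PX ≤ R := by
    rw [commutator_def, Subgroup.commutator_le]
    intro a _ b _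
    rw [hRmem]
    exact h1 ⟨⁅(⟨((a : X) : G), a.2⟩ : (P : Subgroup G)), ⟨((b : X) : G), b.2⟩⁆,
      Subgroup.commutator_mem_commutator (Subgroup.mem_top _) (Subgroup.mem_top _),
      by simp [commutatorElement_def]⟩
  have hfus : ∀ (x : PX) (g : X) (h : g⁻¹ * x * g ∈ PX),
      QuotientGroup.mk' R ⟨g⁻¹ * x * g, h⟩ = QuotientGroup.mk' R x := by
    intro x g h
    rw [QuotientGroup.mk'_apply, QuotientGroup.mk'_apply, QuotientGroup.eq, hRmem]
    exact fusion_mod_of_npc P hN Q h1 hPX ((x : X) : G) (g : G) x.2 g.2 h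
  obtain ⟨L, hLn, hLP, hLR⟩ :=
    Cfsg.Agent.Helper6.transfer_ker_of_fusion_mod PX hPXp hPXi R hcomm hfus
  have hΦ0 := Cfsg.Agent.Helper6.nongen_of_le_frattini (P : Subgroup G) Q h2
  have hΦ : ∀ C : Subgroup X, C ≤ PX → PX ≤ C ⊔ (L ⊓ PX) → PX ≤ C :=
    Cfsg.Agent.Helper6.nongen_subgroupOf X (P : Subgroup G) Q hPX hΦ0 (L ⊓ PX) (by
      rintro _ ⟨y, hy, rfl⟩
      have hy' := Subgroup.mem_inf.mp hy
      exact (hRmem ⟨y, hy'.2⟩).mp (hLR ⟨y, hy'.2⟩ hy'.1))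
  exact Cfsg.Agent.Helper6.tate_npc PX hPXp hPXi L hLP hΦ

end Cfsg.Agent.S3838
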