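import Cfsg.Statements.S3858
import Cfsg.Agent.Helper4.Basic
import Cfsg.Agent.Helper4.Pronormal

set_option autoImplicit false
open Cfsg

namespace Cfsg.Agent.S3858

/-- Let G be a finite group with a normal non-abelian simple subgroup T whose centralizer is trivial (G almost simple with socle T), r a prime and R a Sylow r-subgroup of G meeting T nontrivially. Then R lies in exactly one maximal subgroup of G if and only if G has exactly one conjugacy class of maximal subgroups whose index is prime to r. -/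
theorem result {G : Type*} [Group G] [Finite G] (T : Subgroup G) [T.Normal] (hT : IsSimpleGroup T) (hna : ¬ IsMulCommutative T)
    (hC : Subgroup.centralizer (T : Set G) = ⊥) {r : ℕ} [Fact r.Prime] (R : Sylow r G) (hR0 : (R : Subgroup G) ⊓ T ≠ ⊥) :
    (∃! M : Subgroup G, IsCoatom M ∧ (R : Subgroup G) ≤ M) ↔
      ((∃ M : Subgroup G, IsCoatom M ∧ ¬ r ∣ M.index) ∧
        ∀ M₁ M₂ : Subgroup G, IsCoatom M₁ → ¬ r ∣ M₁.index → IsCoatom M₂ → ¬ r ∣ M₂.index → ∃ g : G, M₂ = M₁.map (MulAut.conj g).toMonoidHom) := by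
  classical
  have hr : r.Prime := Fact.out
  have hN : Subgroup.normalizer ((R : Subgroup G) : Set G) ≠ ⊤ := by
    intro htop
    have hnorm : (R : Subgroup G).Normal := Subgroup.normalizer_eq_top_iff.mp htop
    haveI := hT
    have hn' : ((R : Subgroup G).subgroupOf T).Normal := hnorm.subgroupOf T
    rcases hn'.eq_bot_or_eq_top with h | h
    · rw [Subgroup.subgroupOf_eq_bot] at h
      exact hR0 (disjoint_iff.mp h)
    · rw [Subgroup.subgroupOf_eq_top] at h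
      have hpT : IsPGroup r ↥T := R.2.to_le h
      have hsolv : Group.IsSolvable ↥T := by
        haveI := hpT.isNilpotent
        infer_instance
      exact hna ⟨⟨IsSimpleGroup.comm_iff_isSolvable.mpr hsolv⟩⟩
  have hidx : ∀ M : Subgroup G, (R : Subgroup G) ≤ M → ¬ r ∣ M.index := by
    intro M hM hd
    exact R.not_dvd_index (hd.trans (Subgroup.index_dvd_of_le hM))
  have hco : ∀ (M : Subgroup G) (g : G), IsCoatom M →
      IsCoatom (M.map (MulAut.conj g).toMonoidHom) := by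
    intro M g hM
    exact ((MulAut.conj g).mapSubgroup.isCoatom_iff M).mpr hM
  have hfix : ∀ M : Subgroup G, ¬ r ∣ M.index →
      ∃ g : G, (R : Subgroup G) ≤ M.map (MulAut.conj g).toMonoidHom := by
    intro M hM
    obtain ⟨x, hx⟩ := IsPGroup.nonempty_fixed_point_of_prime_not_dvd_card R.2 (G ⧸ M) hM
    obtain ⟨g, rfl⟩ := QuotientGroup.mk_surjective x
    refine ⟨g, fun h hh => ?_⟩
    rw [Cfsg.Agent.Helper4.mem_map_conj_iff]
    have h1 := hx ⟨h, hh⟩
    have h2 : ((h * g : G) : G ⧸ M) = (g : G ⧸ M) := h1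
    have h3 := QuotientGroup.eq.mp h2
    have h4 := M.inv_mem h3
    have h5 : ((h * g)⁻¹ * g)⁻¹ = g⁻¹ * h * g := by group
    rw [h5] at h4
    exact h4
  constructor
  · rintro ⟨M₀, ⟨hM₀c, hM₀R⟩, huniq⟩
    have hall : ∀ M : Subgroup G, IsCoatom M → ¬ r ∣ M.index →
        ∃ g : G, M.map (MulAut.conj g).toMonoidHom = M₀ := by
      intro M hMc hMr
      obtain ⟨g, hg⟩ := hfix M hMr
      exact ⟨g, huniq _ ⟨hco M g hMc, hg⟩⟩
    refine ⟨⟨M₀, hM₀c, hidx M₀ hM₀R⟩, ?_⟩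
    intro M₁ M₂ h1c h1r h2c h2r
    obtain ⟨g₁, hg₁⟩ := hall M₁ h1c h1r
    obtain ⟨g₂, hg₂⟩ := hall M₂ h2c h2r
    refine ⟨g₂⁻¹ * g₁, ?_⟩
    rw [Cfsg.Agent.Helper4.map_conj_mul, hg₁, ← hg₂, ← Cfsg.Agent.Helper4.map_conj_mul,
      inv_mul_cancel, Cfsg.Agent.Helper4.map_conj_one]
  · rintro ⟨⟨M', hM'c, hM'r⟩, hconj⟩
    rcases eq_top_or_exists_le_coatom (Subgroup.normalizer ((R : Subgroup G) : Set G)) with
      h | ⟨M₀, hM₀c, hM₀N⟩
    · exact absurd h hN
    have hRM₀ : (R : Subgroup G) ≤ M₀ := Subgroup.le_normalizer.trans hM₀N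
    refine ⟨M₀, ⟨hM₀c, hRM₀⟩, ?_⟩
    rintro M ⟨hMc, hRM⟩
    obtain ⟨g, hg⟩ := hconj M₀ M hM₀c (hidx M₀ hRM₀) hMc (hidx M hRM)
    have h1 : ∀ x ∈ (R : Subgroup G), g⁻¹ * x * g⁻¹⁻¹ ∈ M₀ := by
      intro x hx
      have h0 := hRM hx
      rw [hg, Cfsg.Agent.Helper4.mem_map_conj_iff] at h0
      rw [inv_inv]
      exact h0
    obtain ⟨m, hm, hmn⟩ :=
      Cfsg.Agent.Helper4.exists_mem_mul_mem_normalizer R M₀ hRM₀ g⁻¹ h1
    have h2 : m * g⁻¹ ∈ M₀ := hM₀N hmn
    have h3 : g⁻¹ ∈ M₀ := by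
      have h0 := M₀.mul_mem (M₀.inv_mem hm) h2
      rwa [inv_mul_cancel_left] at h0
    have h4 : g ∈ M₀ := by simpa using M₀.inv_mem h3
    rw [hg]
    exact (Cfsg.Agent.Helper4.mem_normalizer_iff_map_conj M₀ g).mp (Subgroup.le_normalizer h4)

end Cfsg.Agent.S3858
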