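import Cfsg.Statements.S3859
import Cfsg.Agent.Helper4.PPrimeP

set_option autoImplicit false
open Cfsg

namespace Cfsg.Agent.S3859

/-- Let G be a finite group with a normal non-abelian simple subgroup T whose centralizer is trivial (G almost simple with socle T), r a prime and R a Sylow r-subgroup of G meeting T nontrivially. If R lies in exactly one maximal subgroup of G, then G/T is an r-group. -/
theorem result {G : Type*} [Group G] [Finite G] (T : Subgroup G) [T.Normal] (hT : IsSimpleGroup T) (hna : ¬ IsMulCommutative T)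
    (hC : Subgroup.centralizer (T : Set G) = ⊥) {r : ℕ} [Fact r.Prime] (R : Sylow r G) (hR0 : (R : Subgroup G) ⊓ T ≠ ⊥)
    (huniq : ∃! M : Subgroup G, IsCoatom M ∧ (R : Subgroup G) ≤ M) : IsPGroup r (G ⧸ T) := by
  classical
  obtain ⟨M, ⟨hMco, hRM⟩, hMuniq⟩ := huniq
  have hsup : (R : Subgroup G) ⊔ T = ⊤ := by
    by_contra hne
    obtain ⟨M', hM'co, hM'le⟩ := (eq_top_or_exists_le_coatom ((R : Subgroup G) ⊔ T)).resolve_left hne
    have hM' : M' = M := hMuniq M' ⟨hM'co, le_sup_left.trans hM'le⟩
    have hTM : T ≤ M := hM' ▸ (le_sup_right.trans hM'le)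
    set N := Subgroup.normalizer (((R : Subgroup G) ⊓ T : Subgroup G) : Set G) with hN
    have hRN : (R : Subgroup G) ≤ N := by
      intro x hx
      rw [hN, Subgroup.mem_normalizer_iff]
      intro h
      rw [Subgroup.mem_inf, Subgroup.mem_inf]
      constructor
      · rintro ⟨h1, h2⟩
        exact ⟨mul_mem (mul_mem hx h1) (inv_mem hx), ‹T.Normal›.conj_mem h h2 x⟩
      · rintro ⟨h1, h2⟩
        refine ⟨?_, ?_⟩
        · have : h = x⁻¹ * (x * h * x⁻¹) * x := by group
          rw [this]
          exact mul_mem (mul_mem (inv_mem hx) h1) hx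
        · have : h = x⁻¹ * (x * h * x⁻¹) * x⁻¹⁻¹ := by group
          rw [this]
          exact ‹T.Normal›.conj_mem _ h2 x⁻¹
    have hNtop : N ≠ ⊤ := by
      intro hNt
      have hnorm : ((R : Subgroup G) ⊓ T : Subgroup G).Normal :=
        Subgroup.normalizer_eq_top_iff.mp hNt
      have hnT : (((R : Subgroup G) ⊓ T : Subgroup G).subgroupOf T).Normal := inferInstance
      rcases hnT.eq_bot_or_eq_top with h1 | h1
      · rw [Subgroup.subgroupOf_eq_bot] at h1
        apply hR0
        have h2 : (R : Subgroup G) ⊓ T ⊓ T = ⊥ := disjoint_iff.mp h1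
        rwa [inf_assoc, inf_idem] at h2
      · rw [Subgroup.subgroupOf_eq_top] at h1
        have hTR : T ≤ (R : Subgroup G) := h1.trans inf_le_left
        have hTp : IsPGroup r T := R.isPGroup'.to_le hTR
        haveI : Nontrivial T := IsSimpleGroup.toNontrivial
        have hcen := hTp.bot_lt_center
        rcases (Subgroup.center T).normal_of_characteristic.eq_bot_or_eq_top with h2 | h2
        · exact absurd h2 hcen.ne'
        · apply hna
          refine ⟨⟨fun a b => ?_⟩⟩
          have ha : a ∈ Subgroup.center T := by rw [h2]; trivial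
          exact (Subgroup.mem_center_iff.mp ha b).symm
    obtain ⟨M'', hM''co, hM''le⟩ := (eq_top_or_exists_le_coatom N).resolve_left hNtop
    have hM'' : M'' = M := hMuniq M'' ⟨hM''co, hRN.trans hM''le⟩
    have hNM : N ≤ M := hM'' ▸ hM''le
    apply hMco.1
    rw [eq_top_iff]
    intro g _
    obtain ⟨l, hl, hlg⟩ := Cfsg.Agent.Helper4.frattini_inf_normal R T g
    have : g = l⁻¹ * (l * g) := by group
    rw [this]
    exact mul_mem (inv_mem (hTM hl)) (hNM hlg)
  intro q
  obtain ⟨g, rfl⟩ := QuotientGroup.mk_surjective q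
  have hg : g ∈ (R : Subgroup G) ⊔ T := by rw [hsup]; trivial
  rw [Subgroup.mem_sup_of_normal_right] at hg
  obtain ⟨x, hx, t, ht, rfl⟩ := hg
  obtain ⟨k, hk⟩ := R.isPGroup' ⟨x, hx⟩
  refine ⟨k, ?_⟩
  have hxk : x ^ r ^ k = 1 := congrArg Subtype.val hk
  have h1 : (QuotientGroup.mk (x * t) : G ⧸ T) = QuotientGroup.mk x := by
    rw [QuotientGroup.mk_mul, (QuotientGroup.eq_one_iff t).mpr ht, mul_one]
  rw [h1, ← QuotientGroup.mk_pow, hxk]
  rfl

end Cfsg.Agent.S3859
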