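import Cfsg.Statements.S3861
import Mathlib
import Cfsg.Agent.Helper6.RealOdd
-- import your own Cfsg.Agent.* helpers here

set_option autoImplicit false
open Cfsg

namespace Cfsg.Agent.S3861

/-- A finite group G has no non-identity element of odd order that is conjugate to its inverse if and only if the Sylow 2-subgroups of G are normal. -/
theorem result {G : Type*} [Group G] [Finite G] (P : Sylow 2 G) : (∀ x : G, x ≠ 1 → Odd (orderOf x) → ¬ IsConj x x⁻¹) ↔ (P : Subgroup G).Normal := by
  constructor
  · intro h
    exact Cfsg.Agent.Helper6.sylow_two_normal_of_no_real_odd h P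
  · intro hP x hx1 hodd
    exact Cfsg.Agent.Helper6.no_real_odd_of_sylow_two_normal P hP x hx1 hodd

end Cfsg.Agent.S3861
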