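import Cfsg.Statements.S3862
import Mathlib
import Cfsg.Agent.Helper6.Coprime
-- import your own Cfsg.Agent.* helpers here

set_option autoImplicit false
open Cfsg

namespace Cfsg.Agent.S3862

/-- If every 2-element of the finite group G that is conjugate to its inverse lies in the centre of G, then G has a normal 2-complement. -/
theorem result {G : Type*} [Group G] [Finite G] (h : ∀ x : G, (∃ j : ℕ, orderOf x = 2 ^ j) → IsConj x x⁻¹ → x ∈ Subgroup.center G) : Cfsg.HasNormalPComplement 2 G := by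
  haveI : Fact (Nat.Prime 2) := ⟨Nat.prime_two⟩
  apply Cfsg.Agent.Helper6.hasNormalPComplement_of_frobCond
  intro X hX g hg hcop
  have hXord : ∀ x ∈ X, ∃ j : ℕ, orderOf x = 2 ^ j := by
    intro x hx
    obtain ⟨k, hk⟩ := hX ⟨x, hx⟩
    have hk' : x ^ 2 ^ k = 1 := by simpa using congrArg Subtype.val hk
    obtain ⟨j, -, hj⟩ := (Nat.dvd_prime_pow Nat.prime_two).mp (orderOf_dvd_of_pow_eq_one hk')
    exact ⟨j, hj⟩
  have key : ∀ n : ℕ, ∀ x ∈ X, orderOf x = n → g * x * g⁻¹ = x := by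
    intro n
    induction n using Nat.strong_induction_on with
    | _ n ih =>
      intro x hx hn
      by_cases hx1 : x = 1
      · rw [hx1]; simp
      obtain ⟨j, hj⟩ := hXord x hx
      have hj0 : j ≠ 0 := by
        rintro rfl
        rw [pow_zero, orderOf_eq_one_iff] at hj
        exact hx1 hj
      have h2dvd : 2 ∣ orderOf x := by rw [hj]; exact dvd_pow_self 2 hj0
      have hsqord : orderOf (x ^ 2) < n := by
        rw [orderOf_pow' x (by norm_num), Nat.gcd_eq_right h2dvd, ← hn]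
        exact Nat.div_lt_self (orderOf_pos x) (by norm_num)
      have hsq := ih _ hsqord (x ^ 2) (X.pow_mem hx 2) rfl
      have hyX : g * x * g⁻¹ ∈ X := (Subgroup.mem_normalizer_iff.mp hg x).mp hx
      have hyy : (g * x * g⁻¹) * (g * x * g⁻¹) = x * x := by
        calc (g * x * g⁻¹) * (g * x * g⁻¹) = g * (x * x) * g⁻¹ := by group
          _ = g * x ^ 2 * g⁻¹ := by rw [pow_two]
          _ = x ^ 2 := hsq
          _ = x * x := pow_two x
      obtain ⟨y, hydef⟩ : ∃ y, y = g * x * g⁻¹ := ⟨_, rfl⟩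
      rw [← hydef] at hyX hyy ⊢
      have hcX : x⁻¹ * y ∈ X := X.mul_mem (X.inv_mem hx) hyX
      have hconj : IsConj (x⁻¹ * y) (x⁻¹ * y)⁻¹ := by
        rw [isConj_iff]
        refine ⟨x, ?_⟩
        calc x * (x⁻¹ * y) * x⁻¹ = y⁻¹ * (y * y) * x⁻¹ := by group
          _ = y⁻¹ * (x * x) * x⁻¹ := by rw [hyy]
          _ = (x⁻¹ * y)⁻¹ := by group
      have hcen := h (x⁻¹ * y) (hXord _ hcX) hconj
      have hgc : g * (x⁻¹ * y) = (x⁻¹ * y) * g := Subgroup.mem_center_iff.mp hcen g
      obtain ⟨k, hk⟩ := hXord _ hcX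
      have hck : (x⁻¹ * y) ^ 2 ^ k = 1 := by rw [← hk]; exact pow_orderOf_eq_one _
      have hyc : g * x * g⁻¹ = x * (x⁻¹ * y) := by rw [← hydef]; group
      have hc1 := Cfsg.Agent.Helper6.eq_one_of_conj_eq_mul hyc hgc hck hcop
      calc y = x * (x⁻¹ * y) := by group
        _ = x := by rw [hc1, mul_one]
  rw [Subgroup.mem_centralizer_iff]
  intro x hx
  have h1 := key _ x hx rfl
  calc x * g = (g * x * g⁻¹) * g := by rw [h1]
    _ = g * x := by group

end Cfsg.Agent.S3862
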