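import Cfsg.Statements.S3863
import Mathlib
-- import your own Cfsg.Agent.* helpers here

set_option autoImplicit false
open Cfsg

namespace Cfsg.Agent.S3863

/-- The conjugacy class of `x` has as many elements as the index of the centralizer of `x`. -/
theorem card_isConj_eq_index_centralizer' {G : Type*} [Group G] (x : G) :
    Nat.card {y : G // IsConj x y} = (Subgroup.centralizer ({x} : Set G)).index := by
  have h1 : (Subgroup.centralizer ({x} : Set G)).map
      ((ConjAct.toConjAct (G := G) : G ≃* ConjAct G) : G →* ConjAct G) =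
      MulAction.stabilizer (ConjAct G) x := by
    ext g
    rw [Subgroup.mem_map, MulAction.mem_stabilizer_iff]
    constructor
    · rintro ⟨c, hc, rfl⟩
      rw [Subgroup.mem_centralizer_iff] at hc
      have h2 := hc x rfl
      show ConjAct.toConjAct c • x = x
      rw [ConjAct.toConjAct_smul, mul_inv_eq_iff_eq_mul]
      exact h2.symm
    · intro hg
      refine ⟨ConjAct.ofConjAct g, ?_, ?_⟩
      · rw [Subgroup.mem_centralizer_iff]
        intro h hh
        rw [Set.mem_singleton_iff] at hh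
        subst hh
        rw [ConjAct.smul_def, mul_inv_eq_iff_eq_mul] at hg
        exact hg.symm
      · show ConjAct.toConjAct (ConjAct.ofConjAct g) = g
        simp
  rw [← Subgroup.index_map_equiv _ (ConjAct.toConjAct (G := G)), h1,
    MulAction.index_stabilizer, ← Nat.card_coe_set_eq]
  apply Nat.card_congr
  refine Equiv.subtypeEquivRight ?_
  intro y
  rw [ConjAct.mem_orbit_conjAct, isConj_comm]

/-- A real element whose class has odd size is an involution or trivial. -/
theorem sq_eq_one_of_real_of_odd_index {G : Type*} [Group G] [Finite G] (x : G) (hreal : IsConj x x⁻¹)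
    (hodd : ¬ 2 ∣ (Subgroup.centralizer ({x} : Set G)).index) : x ^ 2 = 1 := by
  classical
  letI : Fintype {y : G // IsConj x y} := Fintype.ofFinite _
  have hinv : ∀ y : G, IsConj x y → IsConj x y⁻¹ := by
    intro y hy
    refine hreal.trans ?_
    obtain ⟨c, hc⟩ := isConj_iff.1 hy
    refine isConj_iff.2 ⟨c, ?_⟩
    rw [← hc]
    group
  let σ : Equiv.Perm {y : G // IsConj x y} :=
    { toFun := fun y => ⟨y.1⁻¹, hinv y.1 y.2⟩
      invFun := fun y => ⟨y.1⁻¹, hinv y.1 y.2⟩
      left_inv := fun y => Subtype.ext (inv_inv _)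
      right_inv := fun y => Subtype.ext (inv_inv _) }
  have hσ : σ ^ 2 ^ 1 = 1 := by
    ext y
    simp [σ, pow_two]
  have hcard : ¬ 2 ∣ Fintype.card {y : G // IsConj x y} := by
    rw [← Nat.card_eq_fintype_card, card_isConj_eq_index_centralizer']
    exact hodd
  obtain ⟨a, ha⟩ := Equiv.Perm.exists_fixed_point_of_prime (p := 2) (n := 1) hcard hσ
  have ha' : (a.1)⁻¹ = a.1 := congrArg Subtype.val ha
  have ha2 : a.1 ^ 2 = 1 := by
    rw [pow_two]
    nth_rewrite 1 [← ha']
    exact inv_mul_cancel _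
  obtain ⟨c, hc⟩ := isConj_iff.1 a.2
  rw [← hc, conj_pow] at ha2
  have : x ^ 2 = c⁻¹ * (c * x ^ 2 * c⁻¹) * c := by group
  rw [this, ha2]
  group

/-- Let x be an element of the finite group G that is conjugate to its inverse. Then some 2-element conjugates x to its inverse; if the conjugacy class of x has odd size then x ^ 2 = 1; and x lies in, and is conjugate to its inverse inside, every normal subgroup of odd index. -/
theorem result {G : Type*} [Group G] [Finite G] (x : G) (hx : IsConj x x⁻¹) : (∃ t : G, (∃ j : ℕ, orderOf t = 2 ^ j) ∧ t * x * t⁻¹ = x⁻¹) ∧ (Odd (Subgroup.centralizer ({x} : Set G)).index → x ^ 2 = 1) ∧ ∀ (N : Subgroup G) [N.Normal], Odd N.index → ∃ hxN : x ∈ N, IsConj (⟨x, hxN⟩ : N) (⟨x, hxN⟩ : N)⁻¹ := by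
  classical
  have part1 : ∃ t : G, (∃ j : ℕ, orderOf t = 2 ^ j) ∧ t * x * t⁻¹ = x⁻¹ := by
    obtain ⟨g, hg⟩ := isConj_iff.mp hx
    obtain ⟨k, m, hm, hkm⟩ := Nat.exists_eq_two_pow_mul_odd (orderOf_pos g).ne'
    obtain ⟨j, hj⟩ := hm
    refine ⟨g ^ m, ⟨k, ?_⟩, ?_⟩
    · have hm0 : m ≠ 0 := by omega
      have hdvd : m ∣ orderOf g := by rw [hkm]; exact dvd_mul_left _ _
      rw [orderOf_pow_of_dvd hm0 hdvd, hkm]
      exact Nat.mul_div_cancel _ (Nat.pos_of_ne_zero hm0)
    · have hg2 : Commute (g ^ 2) x := by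
        have h1 : g ^ 2 * x * (g ^ 2)⁻¹ = x := by
          have : g ^ 2 * x * (g ^ 2)⁻¹ = g * (g * x * g⁻¹) * g⁻¹ := by
            simp only [pow_two]; group
          rw [this, hg]
          have h3 : g * x⁻¹ * g⁻¹ = (g * x * g⁻¹)⁻¹ := by group
          rw [h3, hg, inv_inv]
        have : g ^ 2 * x = x * g ^ 2 := by
          calc g ^ 2 * x = (g ^ 2 * x * (g ^ 2)⁻¹) * g ^ 2 := by group
            _ = x * g ^ 2 := by rw [h1]
        exact this
      have hc : Commute ((g ^ 2) ^ j) x := hg2.pow_left j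
      have e : g ^ m = (g ^ 2) ^ j * g := by
        rw [hj, pow_succ, pow_mul]
      rw [e]
      have h4 : (g ^ 2) ^ j * g * x * ((g ^ 2) ^ j * g)⁻¹ =
          (g ^ 2) ^ j * (g * x * g⁻¹) * ((g ^ 2) ^ j)⁻¹ := by group
      rw [h4, hg]
      have hc' : Commute ((g ^ 2) ^ j) x⁻¹ := hc.inv_right
      rw [hc'.eq]
      group
  refine ⟨part1, ?_, ?_⟩
  · intro hodd
    apply sq_eq_one_of_real_of_odd_index x hx
    exact Nat.not_even_iff_odd.mpr hodd ∘ (even_iff_two_dvd.mpr)
  · intro N hN hodd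
    obtain ⟨t, ⟨j, hj⟩, ht⟩ := part1
    have hcop : ∀ y : G ⧸ N, ∀ i : ℕ, y ^ 2 ^ i = 1 → y = 1 := by
      intro y i hi
      have h1 : orderOf y ∣ 2 ^ i := orderOf_dvd_of_pow_eq_one hi
      have h2 : orderOf y ∣ N.index := by
        rw [Subgroup.index_eq_card]
        exact orderOf_dvd_natCard y
      have h3 : Nat.Coprime (2 ^ i) N.index :=
        Nat.Coprime.pow_left i (Nat.coprime_two_left.mpr hodd)
      have h4 : orderOf y ∣ Nat.gcd (2 ^ i) N.index := Nat.dvd_gcd h1 h2
      rw [h3] at h4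
      exact orderOf_eq_one_iff.mp (Nat.dvd_one.mp h4)
    have htN : t ∈ N := by
      rw [← QuotientGroup.eq_one_iff]
      apply hcop _ j
      rw [← QuotientGroup.mk_pow, ← hj, pow_orderOf_eq_one]
      rfl
    have hxN : x ∈ N := by
      rw [← QuotientGroup.eq_one_iff]
      apply hcop _ 1
      have h1 : ((x⁻¹ : G) : G ⧸ N) = (x : G ⧸ N) := by
        rw [← ht, QuotientGroup.mk_mul, QuotientGroup.mk_mul, QuotientGroup.mk_inv,
          (QuotientGroup.eq_one_iff t).mpr htN]
        simp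
      rw [pow_one, pow_two]
      nth_rewrite 1 [← h1]
      rw [← QuotientGroup.mk_mul, inv_mul_cancel]
      rfl
    refine ⟨hxN, isConj_iff.mpr ⟨⟨t, htN⟩, ?_⟩⟩
    apply Subtype.ext
    exact ht

end Cfsg.Agent.S3863
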