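import Cfsg.Statements.S3864
import Mathlib
import Cfsg.Agent.Helper6.DihSylow2
-- import your own Cfsg.Agent.* helpers here

set_option autoImplicit false
open Cfsg

namespace Cfsg.Agent.S3864


theorem zmod2_zero_ne_one : (0 : ZMod 2) ≠ 1 := by decide

open DihedralGroup in
theorem dih_trichotomy {G : Type*} [Group G] [Finite G] (P : Sylow 2 G) {m : ℕ} [NeZero m]
    (h4 : 4 ∣ m) (τ : DihedralGroup m →* G) (hτ : Function.Injective τ)
    (hP : τ.range = (P : Subgroup G)) :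
    (Nat.card {C : ConjClasses G // ∃ g : G, ConjClasses.mk g = C ∧ orderOf g = 2} = 1 ∧
      ∀ N : Subgroup G, N.Normal → N.index ≠ 2) ∨
    (Nat.card {C : ConjClasses G // ∃ g : G, ConjClasses.mk g = C ∧ orderOf g = 2} = 2 ∧
      (∃ N : Subgroup G, N.Normal ∧ N.index = 2) ∧ ∀ N : Subgroup G, N.Normal → N.index ≠ 4) ∨
    (Nat.card {C : ConjClasses G // ∃ g : G, ConjClasses.mk g = C ∧ orderOf g = 2} = 3 ∧
      Cfsg.HasNormalPComplement 2 G) := by
  classical
  haveI : Fact (Nat.Prime 2) := ⟨Nat.prime_two⟩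
  have h2 : 2 ∣ m := dvd_trans (by norm_num) h4
  have hclass : ∀ t : G, orderOf t = 2 → IsConj t (τ (r ((m / 2 : ℕ) : ZMod m))) ∨
      IsConj t (τ (sr 0)) ∨ IsConj t (τ (sr 1)) := fun t ht =>
    Cfsg.Agent.Helper6.dih_sylow_invol_conj P h2 τ hτ hP t ht
  have hz2 := Cfsg.Agent.Helper6.dih_orderOf_half h2 τ hτ
  have hs02 := Cfsg.Agent.Helper6.dih_orderOf_sr τ hτ 0
  have hs12 := Cfsg.Agent.Helper6.dih_orderOf_sr τ hτ 1
  have hset : {C : ConjClasses G | ∃ g : G, ConjClasses.mk g = C ∧ orderOf g = 2} =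
      {ConjClasses.mk (τ (r ((m / 2 : ℕ) : ZMod m))), ConjClasses.mk (τ (sr 0)),
        ConjClasses.mk (τ (sr 1))} := by
    ext C
    simp only [Set.mem_setOf_eq, Set.mem_insert_iff, Set.mem_singleton_iff]
    constructor
    · rintro ⟨g, rfl, hg⟩
      rcases hclass g hg with h | h | h
      · left; exact ConjClasses.mk_eq_mk_iff_isConj.mpr h
      · right; left; exact ConjClasses.mk_eq_mk_iff_isConj.mpr h
      · right; right; exact ConjClasses.mk_eq_mk_iff_isConj.mpr h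
    · rintro (rfl | rfl | rfl)
      · exact ⟨_, rfl, hz2⟩
      · exact ⟨_, rfl, hs02⟩
      · exact ⟨_, rfl, hs12⟩
  have hcard : Nat.card {C : ConjClasses G // ∃ g : G, ConjClasses.mk g = C ∧ orderOf g = 2} =
      ({ConjClasses.mk (τ (r ((m / 2 : ℕ) : ZMod m))), ConjClasses.mk (τ (sr 0)),
        ConjClasses.mk (τ (sr 1))} : Set (ConjClasses G)).ncard := by
    rw [← hset]
    exact Nat.card_coe_set_eq _
  rw [hcard]
  have hsr0 : (sr 0 : DihedralGroup m) * sr 0 = 1 := sr_mul_self 0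
  have hsr1 : (sr 1 : DihedralGroup m) * sr 1 = 1 := sr_mul_self 1
  have h01 : (0 : ZMod 2) ≠ 1 := zmod2_zero_ne_one
  by_cases hA : IsConj (τ (r ((m / 2 : ℕ) : ZMod m))) (τ (sr 0))
  · by_cases hB : IsConj (τ (r ((m / 2 : ℕ) : ZMod m))) (τ (sr 1))
    · left
      refine ⟨?_, fun N _ => Cfsg.Agent.Helper6.dih_sylow_no_index_two P τ hP hA hB N⟩
      have e1 : ConjClasses.mk (τ (sr 0)) = ConjClasses.mk (τ (r ((m / 2 : ℕ) : ZMod m))) :=
        ConjClasses.mk_eq_mk_iff_isConj.mpr hA.symm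
      have e2 : ConjClasses.mk (τ (sr 1)) = ConjClasses.mk (τ (r ((m / 2 : ℕ) : ZMod m))) :=
        ConjClasses.mk_eq_mk_iff_isConj.mpr hB.symm
      rw [e1, e2]
      simp
    · right; left
      have hC : ¬ IsConj (τ (sr 0)) (τ (sr 1)) := fun h => hB (hA.trans h)
      refine ⟨?_, ?_, fun N hN =>
        Cfsg.Agent.Helper6.dih_sylow_no_index_four P h4 τ hτ hP (Or.inl hA) N hN⟩
      · have e1 : ConjClasses.mk (τ (sr 0)) = ConjClasses.mk (τ (r ((m / 2 : ℕ) : ZMod m))) :=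
          ConjClasses.mk_eq_mk_iff_isConj.mpr hA.symm
        have hne : ConjClasses.mk (τ (r ((m / 2 : ℕ) : ZMod m))) ≠ ConjClasses.mk (τ (sr 1)) :=
          fun h => hB (ConjClasses.mk_eq_mk_iff_isConj.mp h)
        rw [e1, Set.insert_eq_of_mem (Set.mem_insert _ _)]
        exact Set.ncard_pair hne
      · obtain ⟨N, hN, hNi, -⟩ := Cfsg.Agent.Helper6.dih_sylow_transfer P h2 τ hτ hP (sr 0)
          (Cfsg.Agent.Helper6.sr_ne_one' 0) (sr 1) hsr1 (by
            intro y hy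
            rcases Cfsg.Agent.Helper6.dih_conj_invol h2 τ hτ (sr 1) y hsr1
              (Cfsg.Agent.Helper6.sr_ne_one' 1) hy with ⟨-, h⟩ | ⟨i, rfl, ⟨-, h⟩ | ⟨hi, -⟩⟩
            · exact absurd h.symm hB
            · exact absurd h.symm hC
            · rw [Cfsg.Agent.Helper6.dihRed_sr, hi]
              exact ⟨Cfsg.Agent.Helper6.sr_ne_one' 1, fun h => h01 (sr.inj h).symm⟩)
        exact ⟨N, hN, hNi⟩
  · by_cases hB : IsConj (τ (r ((m / 2 : ℕ) : ZMod m))) (τ (sr 1))
    · right; left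
      have hC : ¬ IsConj (τ (sr 0)) (τ (sr 1)) := fun h => hA (hB.trans h.symm)
      refine ⟨?_, ?_, fun N hN =>
        Cfsg.Agent.Helper6.dih_sylow_no_index_four P h4 τ hτ hP (Or.inr (Or.inl hB)) N hN⟩
      · have e1 : ConjClasses.mk (τ (sr 1)) = ConjClasses.mk (τ (r ((m / 2 : ℕ) : ZMod m))) :=
          ConjClasses.mk_eq_mk_iff_isConj.mpr hB.symm
        have hne : ConjClasses.mk (τ (r ((m / 2 : ℕ) : ZMod m))) ≠ ConjClasses.mk (τ (sr 0)) :=
          fun h => hA (ConjClasses.mk_eq_mk_iff_isConj.mp h)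
        rw [e1, Set.pair_comm, Set.insert_eq_of_mem (Set.mem_insert _ _)]
        exact Set.ncard_pair hne
      · obtain ⟨N, hN, hNi, -⟩ := Cfsg.Agent.Helper6.dih_sylow_transfer P h2 τ hτ hP (sr 1)
          (Cfsg.Agent.Helper6.sr_ne_one' 1) (sr 0) hsr0 (by
            intro y hy
            rcases Cfsg.Agent.Helper6.dih_conj_invol h2 τ hτ (sr 0) y hsr0
              (Cfsg.Agent.Helper6.sr_ne_one' 0) hy with ⟨-, h⟩ | ⟨i, rfl, ⟨hi, -⟩ | ⟨-, h⟩⟩
            · exact absurd h.symm hA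
            · rw [Cfsg.Agent.Helper6.dihRed_sr, hi]
              exact ⟨Cfsg.Agent.Helper6.sr_ne_one' 0, fun h => h01 (sr.inj h)⟩
            · exact absurd h hC)
        exact ⟨N, hN, hNi⟩
    · by_cases hC : IsConj (τ (sr 0)) (τ (sr 1))
      · right; left
        refine ⟨?_, ?_, fun N hN =>
          Cfsg.Agent.Helper6.dih_sylow_no_index_four P h4 τ hτ hP (Or.inr (Or.inr hC)) N hN⟩
        · have e1 : ConjClasses.mk (τ (sr 1)) = ConjClasses.mk (τ (sr 0)) :=
            ConjClasses.mk_eq_mk_iff_isConj.mpr hC.symm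
          have hne : ConjClasses.mk (τ (r ((m / 2 : ℕ) : ZMod m))) ≠ ConjClasses.mk (τ (sr 0)) :=
            fun h => hA (ConjClasses.mk_eq_mk_iff_isConj.mp h)
          rw [e1, Set.pair_eq_singleton]
          exact Set.ncard_pair hne
        · obtain ⟨N, hN, hNi, -⟩ := Cfsg.Agent.Helper6.dih_sylow_transfer P h2 τ hτ hP (r 1)
            Cfsg.Agent.Helper6.dih2_r_one_ne (sr 0) hsr0 (by
              intro y hy
              rcases Cfsg.Agent.Helper6.dih_conj_invol h2 τ hτ (sr 0) y hsr0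
                (Cfsg.Agent.Helper6.sr_ne_one' 0) hy with ⟨-, h⟩ | ⟨i, rfl, -⟩
              · exact absurd h.symm hA
              · rw [Cfsg.Agent.Helper6.dihRed_sr]
                exact ⟨Cfsg.Agent.Helper6.sr_ne_one' _, Cfsg.Agent.Helper6.sr_ne_r' _ _⟩)
          exact ⟨N, hN, hNi⟩
      · right; right
        refine ⟨?_, Cfsg.Agent.Helper6.dih_sylow_npc P h2 τ hτ hP hA hB⟩
        exact Set.ncard_eq_three.mpr ⟨_, _, _,
          fun h => hA (ConjClasses.mk_eq_mk_iff_isConj.mp h),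
          fun h => hB (ConjClasses.mk_eq_mk_iff_isConj.mp h),
          fun h => hC (ConjClasses.mk_eq_mk_iff_isConj.mp h), rfl⟩

/-- Let G be a finite group whose Sylow 2-subgroups are dihedral of order 2 ^ n with n ≥ 3, and count the conjugacy classes of involutions of G. Then exactly one of the following holds: there is one class of involutions and no normal subgroup of index 2; there are two classes of involutions, a normal subgroup of index 2 and none of index 4; there are three classes of involutions and G has a normal 2-complement. -/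
theorem result {G : Type*} [Group G] [Finite G] (P : Sylow 2 G) (n : ℕ) (hn : 3 ≤ n) (hdih : Nonempty (↥(P : Subgroup G) ≃* DihedralGroup (2 ^ (n - 1)))) : (Nat.card {C : ConjClasses G // ∃ g : G, ConjClasses.mk g = C ∧ orderOf g = 2} = 1 ∧ ∀ N : Subgroup G, N.Normal → N.index ≠ 2) ∨ (Nat.card {C : ConjClasses G // ∃ g : G, ConjClasses.mk g = C ∧ orderOf g = 2} = 2 ∧ (∃ N : Subgroup G, N.Normal ∧ N.index = 2) ∧ ∀ N : Subgroup G, N.Normal → N.index ≠ 4) ∨ (Nat.card {C : ConjClasses G // ∃ g : G, ConjClasses.mk g = C ∧ orderOf g = 2} = 3 ∧ Cfsg.HasNormalPComplement 2 G) := by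
  obtain ⟨e⟩ := hdih
  obtain ⟨k, hk⟩ : ∃ k, n - 1 = k + 2 := ⟨n - 3, by omega⟩
  have h4 : 4 ∣ 2 ^ (n - 1) := by
    rw [hk, pow_add]
    exact Dvd.intro_left _ rfl
  haveI : NeZero (2 ^ (n - 1)) := ⟨by positivity⟩
  obtain ⟨τ, hτ, hP⟩ := Cfsg.Agent.Helper6.exists_dih_hom P e
  exact dih_trichotomy P h4 τ hτ hP

end Cfsg.Agent.S3864
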