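import Cfsg.Statements.S3866
import Cfsg.Agent.Helper3.Signalizer
import Cfsg.Agent.Helper5.Basic

set_option autoImplicit false
open Cfsg

namespace Cfsg.Agent.S3866

open scoped commutatorElement in

/-- Let A be a commutative normal subgroup of the finite group G with G generated by A and an element x. Then a ↦ x a x⁻¹ a⁻¹ is a surjective homomorphism from A onto the commutator subgroup of G whose kernel is the centralizer of x in A; in particular the commutator subgroup has order equal to the index in A of that centralizer. -/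
theorem result {G : Type*} [Group G] [Finite G] (A : Subgroup G) [A.Normal] (hA : IsMulCommutative A) (x : G) (hgen : A ⊔ Subgroup.zpowers x = ⊤) : (∀ a ∈ A, x * a * x⁻¹ * a⁻¹ ∈ commutator G) ∧ (∀ c ∈ commutator G, ∃ a ∈ A, x * a * x⁻¹ * a⁻¹ = c) ∧ (∀ a ∈ A, ∀ b ∈ A, x * (a * b) * x⁻¹ * (a * b)⁻¹ = (x * a * x⁻¹ * a⁻¹) * (x * b * x⁻¹ * b⁻¹)) ∧ Nat.card (commutator G) * Nat.card ↥(A ⊓ Subgroup.centralizer ({x} : Set G)) = Nat.card A := by
  classical
  have hcomm : ∀ a ∈ A, ∀ b ∈ A, a * b = b * a := fun a ha b hb => by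
    haveI := hA
    exact congrArg Subtype.val (mul_comm' (⟨a, ha⟩ : A) ⟨b, hb⟩)
  have hnorm : ∀ a ∈ A, x * a * x⁻¹ ∈ A := fun a ha => ‹A.Normal›.conj_mem a ha x
  have h3 : ∀ a ∈ A, ∀ b ∈ A, x * (a * b) * x⁻¹ * (a * b)⁻¹ =
      (x * a * x⁻¹ * a⁻¹) * (x * b * x⁻¹ * b⁻¹) := by
    intro a ha b hb
    have h0 := hcomm (x * b * x⁻¹ * b⁻¹) (A.mul_mem (hnorm b hb) (A.inv_mem hb)) a⁻¹
      (A.inv_mem ha)
    calc x * (a * b) * x⁻¹ * (a * b)⁻¹ = x * a * x⁻¹ * ((x * b * x⁻¹ * b⁻¹) * a⁻¹) := by group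
      _ = x * a * x⁻¹ * (a⁻¹ * (x * b * x⁻¹ * b⁻¹)) := by rw [h0]
      _ = (x * a * x⁻¹ * a⁻¹) * (x * b * x⁻¹ * b⁻¹) := by group
  have h1 : ∀ a ∈ A, x * a * x⁻¹ * a⁻¹ ∈ commutator G := by
    intro a ha
    rw [commutator_def]
    have e : x * a * x⁻¹ * a⁻¹ = ⁅x, a⁆ := (commutatorElement_def x a).symm
    rw [e]
    exact Subgroup.commutator_mem_commutator (Subgroup.mem_top x) (Subgroup.mem_top a)
  let φ : ↥A →* G :=
    { toFun := fun a => x * a.1 * x⁻¹ * a.1⁻¹
      map_one' := by simp
      map_mul' := fun a b => h3 a.1 a.2 b.1 b.2 }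
  have hφ : ∀ a : ↥A, φ a = x * a.1 * x⁻¹ * a.1⁻¹ := fun a => rfl
  have hrA : φ.range ≤ A := by
    rintro _ ⟨a, rfl⟩
    rw [hφ]
    exact A.mul_mem (hnorm a.1 a.2) (A.inv_mem a.2)
  have hrn : φ.range.Normal := by
    have hN : A ⊔ Subgroup.zpowers x ≤ Subgroup.normalizer (φ.range : Set G) := by
      refine sup_le ?_ ?_
      · apply Helper3.le_normalizer_of_conj_mem
        intro a ha d hd
        have e : a * d * a⁻¹ = d := by
          rw [hcomm a ha d (hrA hd), mul_inv_cancel_right]
        rw [e]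
        exact hd
      · rw [Subgroup.zpowers_le]
        apply Helper5.mem_normalizer_of_conj_le
        rintro _ ⟨_, ⟨a, rfl⟩, rfl⟩
        refine ⟨⟨x * a.1 * x⁻¹, hnorm a.1 a.2⟩, ?_⟩
        rw [hφ, hφ]
        simp only [MulEquiv.coe_toMonoidHom, MulAut.conj_apply]
        group
    rw [hgen] at hN
    constructor
    intro n hn g
    exact (Subgroup.mem_normalizer_iff.1 (hN (Subgroup.mem_top g)) n).1 hn
  have hle : commutator G ≤ φ.range := by
    haveI := hrn
    have hcen : ∀ t : G, (∀ a ∈ A, (QuotientGroup.mk a : G ⧸ φ.range) * QuotientGroup.mk t =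
          QuotientGroup.mk t * QuotientGroup.mk a) →
        (QuotientGroup.mk x : G ⧸ φ.range) * QuotientGroup.mk t =
          QuotientGroup.mk t * QuotientGroup.mk x →
        ∀ g : G, (QuotientGroup.mk g : G ⧸ φ.range) * QuotientGroup.mk t =
          QuotientGroup.mk t * QuotientGroup.mk g := by
      intro t hA' hx' g
      have hK : A ⊔ Subgroup.zpowers x ≤ (Subgroup.centralizer
          ({(QuotientGroup.mk t : G ⧸ φ.range)} : Set (G ⧸ φ.range))).comap
          (QuotientGroup.mk' φ.range) := by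
        refine sup_le ?_ ?_
        · intro a ha
          refine Subgroup.mem_comap.2 (Subgroup.mem_centralizer_iff.2 ?_)
          intro w hw
          rw [Set.mem_singleton_iff.1 hw]
          exact (hA' a ha).symm
        · rw [Subgroup.zpowers_le]
          refine Subgroup.mem_comap.2 (Subgroup.mem_centralizer_iff.2 ?_)
          intro w hw
          rw [Set.mem_singleton_iff.1 hw]
          exact hx'.symm
      rw [hgen] at hK
      have h9 := Subgroup.mem_centralizer_iff.1 (Subgroup.mem_comap.1 (hK (Subgroup.mem_top g))) _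
        (Set.mem_singleton _)
      exact h9.symm
    have hxa : ∀ a ∈ A, (QuotientGroup.mk x : G ⧸ φ.range) * QuotientGroup.mk a =
        QuotientGroup.mk a * QuotientGroup.mk x := by
      intro a ha
      rw [← QuotientGroup.mk_mul, ← QuotientGroup.mk_mul, QuotientGroup.eq]
      have e : (x * a)⁻¹ * (a * x) = x⁻¹ * φ ⟨a⁻¹, A.inv_mem ha⟩ * x⁻¹⁻¹ := by
        rw [hφ]
        group
      rw [e]
      exact hrn.conj_mem _ ⟨_, rfl⟩ _
    have hxc := hcen x (fun a ha => (hxa a ha).symm) rfl
    have hac : ∀ a ∈ A, ∀ g : G, (QuotientGroup.mk g : G ⧸ φ.range) * QuotientGroup.mk a =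
        QuotientGroup.mk a * QuotientGroup.mk g := by
      intro a ha
      apply hcen a
      · intro b hb
        rw [← QuotientGroup.mk_mul, ← QuotientGroup.mk_mul, hcomm b hb a ha]
      · exact hxa a ha
    have hall : ∀ g h : G, (QuotientGroup.mk g : G ⧸ φ.range) * QuotientGroup.mk h =
        QuotientGroup.mk h * QuotientGroup.mk g := by
      intro g h
      have hK : A ⊔ Subgroup.zpowers x ≤ (Subgroup.centralizer
          ({(QuotientGroup.mk g : G ⧸ φ.range)} : Set (G ⧸ φ.range))).comap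
          (QuotientGroup.mk' φ.range) := by
        refine sup_le ?_ ?_
        · intro a ha
          refine Subgroup.mem_comap.2 (Subgroup.mem_centralizer_iff.2 ?_)
          intro w hw
          rw [Set.mem_singleton_iff.1 hw]
          exact hac a ha g
        · rw [Subgroup.zpowers_le]
          refine Subgroup.mem_comap.2 (Subgroup.mem_centralizer_iff.2 ?_)
          intro w hw
          rw [Set.mem_singleton_iff.1 hw]
          exact hxc g
      rw [hgen] at hK
      exact Subgroup.mem_centralizer_iff.1 (Subgroup.mem_comap.1 (hK (Subgroup.mem_top h))) _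
        (Set.mem_singleton _)
    rw [commutator_def, Subgroup.commutator_le]
    intro g _ h _
    have h5 := hall h⁻¹ g⁻¹
    rw [← QuotientGroup.mk_mul, ← QuotientGroup.mk_mul, QuotientGroup.eq] at h5
    have e : (h⁻¹ * g⁻¹)⁻¹ * (g⁻¹ * h⁻¹) = ⁅g, h⁆ := by
      rw [commutatorElement_def]
      group
    rwa [e] at h5
  have heq : commutator G = φ.range := by
    refine le_antisymm hle ?_
    rintro _ ⟨a, rfl⟩
    exact h1 a.1 a.2
  refine ⟨h1, ?_, h3, ?_⟩
  · intro c hc
    obtain ⟨a, rfl⟩ := hle hc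
    exact ⟨a.1, a.2, rfl⟩
  · have hk : (φ.ker).map A.subtype = A ⊓ Subgroup.centralizer ({x} : Set G) := by
      ext z
      constructor
      · rintro ⟨a, ha, rfl⟩
        refine ⟨a.2, Subgroup.mem_centralizer_iff.2 ?_⟩
        intro w hw
        rw [Set.mem_singleton_iff.1 hw]
        have h0 : x * a.1 * x⁻¹ * a.1⁻¹ = 1 := MonoidHom.mem_ker.1 ha
        show x * a.1 = a.1 * x
        calc x * a.1 = (x * a.1 * x⁻¹ * a.1⁻¹) * a.1 * x := by group
          _ = a.1 * x := by rw [h0, one_mul]
      · rintro ⟨hzA, hzc⟩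
        refine ⟨⟨z, hzA⟩, MonoidHom.mem_ker.2 ?_, rfl⟩
        rw [hφ]
        have h0 : x * z = z * x := Subgroup.mem_centralizer_iff.1 hzc x (Set.mem_singleton x)
        show x * z * x⁻¹ * z⁻¹ = 1
        rw [h0]
        group
    rw [heq, ← hk, Subgroup.card_map_of_injective A.subtype_injective, ← Subgroup.index_ker,
      mul_comm]
    exact Subgroup.card_mul_index φ.ker

end Cfsg.Agent.S3866
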