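import Cfsg.Statements.S3903
import Mathlib
import Cfsg.Agent.Helper6.MaxCent
-- import your own Cfsg.Agent.* helpers here

set_option autoImplicit false
open Cfsg

namespace Cfsg.Agent.S3903

/-- Let N be a proper normal subgroup of the finite group G such that every element x of G outside N has prime power order and has centralizer C_G(x) a maximal subgroup of G. Then N is solvable. -/
theorem result {G : Type*} [Group G] [Finite G] (N : Subgroup G) [N.Normal] (hN : N ≠ ⊤)
    (h : ∀ x : G, x ∉ N → IsPrimePow (orderOf x) ∧ IsCoatom (Subgroup.centralizer ({x} : Set G))) : Group.IsSolvable ↥N := by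
  classical
  obtain ⟨x₀, hx₀⟩ : ∃ x, x ∉ N := by
    by_contra hall
    push Not at hall
    exact hN (eq_top_iff.mpr fun g _ => hall g)
  obtain ⟨p, e, hp, he, hpe⟩ := (isPrimePow_nat_iff _).mp (h x₀ hx₀).1
  haveI := Fact.mk hp
  have hex : ∃ j, x₀ ^ (p ^ j) ∈ N := ⟨e, by rw [hpe, pow_orderOf_eq_one]; exact one_mem _⟩
  have hj0 : Nat.find hex ≠ 0 := by
    intro h0
    have h1 := Nat.find_spec hex
    rw [h0, pow_zero, pow_one] at h1
    exact hx₀ h1
  obtain ⟨j, hj⟩ := Nat.exists_eq_succ_of_ne_zero hj0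
  have hxN : x₀ ^ (p ^ j) ∉ N := Nat.find_min hex (by omega)
  have hxp : (x₀ ^ (p ^ j)) ^ p ∈ N := by
    have h1 := Nat.find_spec hex
    rw [hj, pow_succ, pow_mul] at h1
    exact h1
  have hxk : (x₀ ^ (p ^ j)) ^ (p ^ e) = 1 := by
    rw [← pow_mul, mul_comm, pow_mul, hpe, pow_orderOf_eq_one, one_pow]
  have hyN : ∀ m ∈ N, x₀ ^ (p ^ j) * m ∉ N := by
    intro m hm h1
    apply hxN
    have : x₀ ^ (p ^ j) = x₀ ^ (p ^ j) * m * m⁻¹ := by group
    rw [this]; exact mul_mem h1 (inv_mem hm)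
  by_cases hcase : ∃ m ∈ N, Subgroup.normalizer
      ((N ⊓ Subgroup.centralizer ({x₀ ^ (p ^ j) * m} : Set G) : Subgroup G) : Set G) = ⊤
  · obtain ⟨m, hm, hnorm⟩ := hcase
    have hy := hyN m hm
    have hyp : (x₀ ^ (p ^ j) * m) ^ p ∈ N := by
      rw [← QuotientGroup.eq_one_iff, QuotientGroup.mk_pow, QuotientGroup.mk_mul,
        (QuotientGroup.eq_one_iff m).mpr hm, mul_one, ← QuotientGroup.mk_pow]
      exact (QuotientGroup.eq_one_iff _).mpr hxp
    obtain ⟨k, hk⟩ := Cfsg.Agent.Helper6.MaxCent.good_pow hp N _ hy hyp (h _ hy).1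
    exact Cfsg.Agent.Helper6.MaxCent.caseA N h _ hy k hk (Subgroup.normalizer_eq_top_iff.mp hnorm)
  · push Not at hcase
    apply Cfsg.Agent.Helper6.MaxCent.caseB N h _ hxN hxp e hxk
    intro m hm
    have hy := hyN m hm
    have hM := (h _ hy).2
    have hle : Subgroup.centralizer ({x₀ ^ (p ^ j) * m} : Set G) ≤ Subgroup.normalizer
        ((N ⊓ Subgroup.centralizer ({x₀ ^ (p ^ j) * m} : Set G) : Subgroup G) : Set G) := by
      refine le_trans ?_ Subgroup.inf_normalizer_le_normalizer_inf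
      refine le_inf ?_ Subgroup.le_normalizer
      rw [Subgroup.normalizer_eq_top]; exact le_top
    by_contra hne
    exact hcase m hm (hM.2 _ (lt_of_le_of_ne hle (Ne.symm hne)))

end Cfsg.Agent.S3903
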