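import Cfsg.Statements.S3908
import Mathlib
import Cfsg.Agent.S0016
import Cfsg.Agent.Lead.Fpf2

set_option autoImplicit false
open Cfsg

namespace Cfsg.Agent.S3908

universe u

theorem sylow_trichotomy {G : Type u} [Group G] [Finite G]
    (hB : ∀ A B : Subgroup G, IsMulCommutative ↥A → IsMulCommutative ↥B →
      Nat.card ↥A = Nat.card ↥B → ∃ g : G, B = A.map (MulAut.conj g).toMonoidHom)
    (p : ℕ) [Fact p.Prime] (P : Sylow p G) :
    IsCyclic ↥(P : Subgroup G) ∨
      (p = 2 ∧ ∃ n : ℕ, Nonempty (↥(P : Subgroup G) ≃* QuaternionGroup (2 ^ n))) ∨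
      ∀ x ∈ (P : Subgroup G), x ^ p = 1 := by
  have hp : p.Prime := Fact.out
  by_cases huniq : ∀ H K : Subgroup ↥(P : Subgroup G), Nat.card H = p → Nat.card K = p → H = K
  · rcases Cfsg.Agent.S0016.result p P.isPGroup' huniq with h | h
    · left; exact h
    · right; left; exact h
  · right; right
    push Not at huniq
    obtain ⟨H, K, hH, hK, hHK⟩ := huniq
    obtain ⟨x, z, hx, hz, hz1, hxz, hcomm⟩ :=
      Lead.exists_rank_two_of_two_subgroups P.isPGroup' H K hH hK hHK
    have hxG : (x : G) ^ p = 1 := by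
      have := congrArg Subtype.val hx
      simpa using this
    have hzG : (z : G) ^ p = 1 := by
      have := congrArg Subtype.val hz
      simpa using this
    have hz1G : (z : G) ≠ 1 := fun h => hz1 (Subtype.ext h)
    have hxzG : (x : G) ∉ Subgroup.zpowers (z : G) := by
      intro hmem
      obtain ⟨k, hk⟩ := Subgroup.mem_zpowers_iff.1 hmem
      apply hxz
      rw [Subgroup.mem_zpowers_iff]
      exact ⟨k, Subtype.ext (by simpa using hk)⟩
    have hcommG : (x : G) * (z : G) = (z : G) * (x : G) := by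
      have := congrArg Subtype.val hcomm
      simpa using this
    obtain ⟨E, hE⟩ : ∃ E : Subgroup G,
        E = Subgroup.zpowers (z : G) ⊔ Subgroup.zpowers (x : G) := ⟨_, rfl⟩
    have hzE : (z : G) ∈ E := hE ▸ Subgroup.mem_sup_left (Subgroup.mem_zpowers _)
    have hxE : (x : G) ∈ E := hE ▸ Subgroup.mem_sup_right (Subgroup.mem_zpowers _)
    have hmin : ∀ L : Subgroup G, (z : G) ∈ L → (x : G) ∈ L → E ≤ L := by
      intro L h1 h2
      rw [hE, sup_le_iff, Subgroup.zpowers_le, Subgroup.zpowers_le]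
      exact ⟨h1, h2⟩
    have hEc : ∀ u ∈ E, ∀ v ∈ E, u * v = v * u := by
      rw [hE]
      apply Lead.comm_sup_zpowers
      · intro a ha b hb
        obtain ⟨i, rfl⟩ := Subgroup.mem_zpowers_iff.1 ha
        obtain ⟨j, rfl⟩ := Subgroup.mem_zpowers_iff.1 hb
        exact ((Commute.refl (z : G)).zpow_zpow i j).eq
      · intro a ha
        obtain ⟨i, rfl⟩ := Subgroup.mem_zpowers_iff.1 ha
        exact (Commute.zpow_left (show Commute (z : G) (x : G) from hcommG.symm) i).eq
    letI : CommGroup E := { (inferInstance : Group E) with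
      mul_comm := fun a b => Subtype.ext (hEc a a.2 b b.2) }
    have hEpow : ∀ e ∈ E, e ^ p = 1 := by
      have hle : E ≤ ((powMonoidHom p : E →* E).ker).map E.subtype := by
        apply hmin
        · refine Subgroup.mem_map.2 ⟨⟨z, hzE⟩, ?_, rfl⟩
          rw [MonoidHom.mem_ker, powMonoidHom_apply]
          exact Subtype.ext hzG
        · refine Subgroup.mem_map.2 ⟨⟨x, hxE⟩, ?_, rfl⟩
          rw [MonoidHom.mem_ker, powMonoidHom_apply]
          exact Subtype.ext hxG
      intro e he
      obtain ⟨k, hk, rfl⟩ := Subgroup.mem_map.1 (hle he)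
      rw [MonoidHom.mem_ker, powMonoidHom_apply] at hk
      have := congrArg Subtype.val hk
      simpa using this
    have hEp : IsPGroup p E := by
      intro e
      exact ⟨1, by rw [pow_one]; exact Subtype.ext (hEpow e e.2)⟩
    have hEcard : p ^ 2 ∣ Nat.card E := by
      obtain ⟨i, hi⟩ := IsPGroup.iff_card.1 hEp
      rw [hi]
      apply pow_dvd_pow
      by_contra hlt
      have hi1 : i ≤ 1 := by omega
      have hcardle : Nat.card E ≤ p := by
        rw [hi]
        calc p ^ i ≤ p ^ 1 := Nat.pow_le_pow_right hp.pos hi1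
          _ = p := pow_one p
      have h1 : Subgroup.zpowers (z : G) = E :=
        Subgroup.eq_of_le_of_card_ge (Subgroup.zpowers_le.2 hzE)
          (by rw [Nat.card_zpowers, orderOf_eq_prime hzG hz1G]; exact hcardle)
      exact hxzG (h1 ▸ hxE)
    obtain ⟨E₂', hE₂'⟩ := Sylow.exists_subgroup_card_pow_prime p hEcard
    obtain ⟨E₂, hE₂def⟩ : ∃ E₂ : Subgroup G, E₂ = E₂'.map E.subtype := ⟨_, rfl⟩
    have hE₂E : E₂ ≤ E := by
      rw [hE₂def]
      exact Subgroup.map_subtype_le _
    have hE₂card : Nat.card E₂ = p ^ 2 := by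
      rw [hE₂def, ← hE₂']
      exact (Nat.card_congr (Subgroup.equivMapOfInjective _ _ E.subtype_injective).toEquiv).symm
    have hE₂c : IsMulCommutative E₂ :=
      ⟨⟨fun a b => Subtype.ext (hEc a (hE₂E a.2) b (hE₂E b.2))⟩⟩
    intro y hy
    by_contra hyp
    obtain ⟨k, hk⟩ := (IsPGroup.iff_orderOf.1 P.isPGroup') ⟨y, hy⟩
    rw [Subgroup.orderOf_mk] at hk
    have hk2 : 2 ≤ k := by
      by_contra hk2
      have hk1 : k ≤ 1 := by omega
      apply hyp
      have h1 : orderOf y ∣ p := by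
        rw [hk]
        calc p ^ k ∣ p ^ 1 := pow_dvd_pow p hk1
          _ = p := pow_one p
      exact orderOf_dvd_iff_pow_eq_one.1 h1
    have hc : orderOf (y ^ (p ^ (k - 2))) = p ^ 2 := by
      rw [orderOf_pow_of_dvd (pow_pos hp.pos _).ne' (hk ▸ pow_dvd_pow p (Nat.sub_le k 2)), hk,
        Nat.pow_div (Nat.sub_le k 2) hp.pos]
      congr 1
      omega
    obtain ⟨g, hg⟩ := hB (Subgroup.zpowers (y ^ (p ^ (k - 2)))) E₂ inferInstance hE₂c
      (by rw [Nat.card_zpowers, hc, hE₂card])
    have hmem : g * (y ^ (p ^ (k - 2))) * g⁻¹ ∈ E₂ := by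
      rw [hg]
      exact Subgroup.mem_map.2 ⟨_, Subgroup.mem_zpowers _, rfl⟩
    have h1 := hEpow _ (hE₂E hmem)
    rw [conj_pow] at h1
    have h2 : (y ^ (p ^ (k - 2))) ^ p = 1 := by
      have e : (y ^ (p ^ (k - 2))) ^ p =
          g⁻¹ * (g * (y ^ (p ^ (k - 2))) ^ p * g⁻¹) * g := by group
      rw [e, h1]
      group
    have h3 := orderOf_dvd_of_pow_eq_one h2
    rw [hc] at h3
    have h4 := Nat.le_of_dvd hp.pos h3
    have h5 : p < p ^ 2 := by
      rw [sq]
      exact lt_mul_of_one_lt_left hp.pos hp.one_lt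
    omega

/-- Let G be a finite group in which any two abelian subgroups of the same order are conjugate. Then a Sylow 2-subgroup of G is cyclic, elementary abelian or generalized quaternion, and for an odd prime p a Sylow p-subgroup of G is cyclic or has exponent dividing p. -/
theorem result {G : Type*} [Group G] [Finite G] (hB : ∀ A B : Subgroup G, IsMulCommutative ↥A → IsMulCommutative ↥B → Nat.card ↥A = Nat.card ↥B → ∃ g : G, B = A.map (MulAut.conj g).toMonoidHom) :
    (∀ P : Sylow 2 G, IsCyclic ↥(P : Subgroup G) ∨ Cfsg.IsElementaryAbelian 2 (P : Subgroup G) ∨ ∃ k : ℕ, Nonempty (↥(P : Subgroup G) ≃* QuaternionGroup (2 ^ k))) ∧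
    ∀ (p : ℕ) [Fact p.Prime], p ≠ 2 → ∀ P : Sylow p G, IsCyclic ↥(P : Subgroup G) ∨ ∀ x ∈ (P : Subgroup G), x ^ p = 1 := by
  constructor
  · intro P
    haveI : Fact (Nat.Prime 2) := ⟨Nat.prime_two⟩
    rcases sylow_trichotomy hB 2 P with h | ⟨-, n, hn⟩ | h
    · left; exact h
    · right; right; exact ⟨n, hn⟩
    · right; left
      refine ⟨⟨⟨fun a b => Subtype.ext ?_⟩⟩, h⟩
      have h1 := h a a.2
      have h2 := h b b.2
      have h3 := h (a * b) (Subgroup.mul_mem _ a.2 b.2)
      have ha' : (a : G)⁻¹ = a := by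
        rw [inv_eq_iff_mul_eq_one, ← sq]; exact h1
      have hb' : (b : G)⁻¹ = b := by
        rw [inv_eq_iff_mul_eq_one, ← sq]; exact h2
      have hab' : ((a : G) * b)⁻¹ = a * b := by
        rw [inv_eq_iff_mul_eq_one, ← sq]; exact h3
      rw [mul_inv_rev, ha', hb'] at hab'
      exact hab'.symm
  · intro p _ hp2 P
    rcases sylow_trichotomy hB p P with h | ⟨h2, -⟩ | h
    · left; exact h
    · exact absurd h2 hp2
    · right; exact h

end Cfsg.Agent.S3908
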