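import Cfsg.Statements.S3909
import Mathlib
import Cfsg.Agent.Helper7.SylowLemmas

set_option autoImplicit false
open Cfsg

namespace Cfsg.Agent.S3909

open Cfsg.Agent.Helper7 in
theorem result {G : Type*} [Group G] [Finite G] (hB : ∀ A B : Subgroup G, IsMulCommutative ↥A → IsMulCommutative ↥B → Nat.card ↥A = Nat.card ↥B → ∃ g : G, B = A.map (MulAut.conj g).toMonoidHom) (M : Subgroup G) [M.Normal] :
    (∀ a : G, (∃ m ∈ M, orderOf m = orderOf a) → a ∈ M) ∧
    ∀ (p t : ℕ) [Fact p.Prime], 2 ≤ t → Nat.card ↥M = p ^ t → Cfsg.IsElementaryAbelian p M → ∀ P : Sylow p G, (P : Subgroup G) = M := by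
  have hMn : M.Normal := inferInstance
  have part1 : ∀ a : G, (∃ m ∈ M, orderOf m = orderOf a) → a ∈ M := by
    rintro a ⟨m, hm, hma⟩
    obtain ⟨g, hg⟩ := hB (Subgroup.zpowers m) (Subgroup.zpowers a) inferInstance inferInstance
      (by rw [Nat.card_zpowers, Nat.card_zpowers, hma])
    have ha : a ∈ (Subgroup.zpowers m).map (MulAut.conj g).toMonoidHom := by
      rw [← hg]
      exact Subgroup.mem_zpowers a
    obtain ⟨c, hc, rfl⟩ := ha
    have hcM : c ∈ M := by
      obtain ⟨k, rfl⟩ := Subgroup.mem_zpowers_iff.1 hc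
      exact M.zpow_mem hm k
    show g * c * g⁻¹ ∈ M
    exact hMn.conj_mem c hcM g
  refine ⟨part1, ?_⟩
  intro p t hpF ht hcard hEA P
  have hp : p.Prime := Fact.out
  have hMp : IsPGroup p M := IsPGroup.of_card hcard
  apply le_antisymm
  · intro x hxP
    by_contra hxM
    obtain ⟨k, hk⟩ := orderOf_eq_prime_pow_of_mem_sylow P x hxP
    have hx1 : x ≠ 1 := by
      rintro rfl
      exact hxM (M.one_mem)
    have hk0 : k ≠ 0 := by
      rintro rfl
      rw [pow_zero, orderOf_eq_one_iff] at hk
      exact hx1 hk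
    -- an element of order p in M
    have hpM : p ∣ Nat.card M := by
      rw [hcard]
      exact dvd_pow_self p (by omega)
    obtain ⟨m, hm⟩ := exists_prime_orderOf_dvd_card' (G := M) p hpM
    by_cases hk1 : k = 1
    · apply hxM
      apply part1 x ⟨(m : G), m.2, ?_⟩
      rw [Subgroup.orderOf_coe, hm, hk, hk1, pow_one]
    · have hk2 : 2 ≤ k := by omega
      have hy : orderOf (x ^ (p ^ (k - 2))) = p ^ 2 := by
        rw [orderOf_pow_of_dvd (pow_pos hp.pos _).ne' (by rw [hk]; exact pow_dvd_pow p (by omega)),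
          hk]
        rw [Nat.pow_div (by omega) hp.pos]
        congr 1
        omega
      -- a subgroup of M of order p^2
      have hdvd : p ^ 2 ∣ Nat.card M := by
        rw [hcard]
        exact pow_dvd_pow p ht
      obtain ⟨K, hK⟩ := Sylow.exists_subgroup_card_pow_prime (G := M) p hdvd
      have hK'card : Nat.card (K.map M.subtype) = p ^ 2 := by
        rw [← hK]
        exact Nat.card_congr (K.equivMapOfInjective M.subtype M.subtype_injective).toEquiv.symm
      have hK'le : K.map M.subtype ≤ M := by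
        rintro _ ⟨c, _, rfl⟩
        exact c.2
      have hK'comm : IsMulCommutative (K.map M.subtype) := by
        rw [isMulCommutative_iff]
        intro a b
        apply Subtype.ext
        have h0 := isMulCommutative_iff.1 hEA.1 ⟨a.1, hK'le a.2⟩ ⟨b.1, hK'le b.2⟩
        have h1 : (a : G) * (b : G) = (b : G) * (a : G) := congrArg Subtype.val h0
        exact h1
      obtain ⟨g, hg⟩ := hB (K.map M.subtype) (Subgroup.zpowers (x ^ (p ^ (k - 2)))) hK'comm
        inferInstance (by rw [Nat.card_zpowers, hy, hK'card])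
      have hmem : x ^ (p ^ (k - 2)) ∈ (K.map M.subtype).map (MulAut.conj g).toMonoidHom := by
        rw [← hg]
        exact Subgroup.mem_zpowers _
      obtain ⟨c, hc, hceq⟩ := hmem
      have hcp : c ^ p = 1 := hEA.2 c (hK'le hc)
      have hyp : (x ^ (p ^ (k - 2))) ^ p = 1 := by
        rw [← hceq]
        show (g * c * g⁻¹) ^ p = 1
        rw [conj_pow, hcp]
        simp
      have hdv : p ^ 2 ∣ p := by
        rw [← hy]
        exact orderOf_dvd_of_pow_eq_one hyp
      have hle := Nat.le_of_dvd hp.pos hdv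
      have h2 : p < p ^ 2 := by
        calc p = p ^ 1 := (pow_one p).symm
          _ < p ^ 2 := Nat.pow_lt_pow_right hp.one_lt (by norm_num)
      omega
  · exact normal_pGroup_le_sylow M hMp P

end Cfsg.Agent.S3909
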