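import Cfsg.Statements.S3910
import Mathlib
import Cfsg.Agent.S0583
import Cfsg.Agent.Lead.UniqSub
import Cfsg.Agent.Lead.GenCent
import Cfsg.Agent.Helper7.Hypercenter

set_option autoImplicit false
open Cfsg

namespace Cfsg.Agent.S3910

/-- A finite nilpotent group in which any two abelian subgroups of the same order are conjugate is cyclic. -/
theorem result {G : Type*} [Group G] [Finite G] (hB : ∀ A B : Subgroup G, IsMulCommutative ↥A → IsMulCommutative ↥B → Nat.card ↥A = Nat.card ↥B → ∃ g : G, B = A.map (MulAut.conj g).toMonoidHom) (hnil : Group.IsNilpotent G) : IsCyclic G := by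
  haveI := hnil
  -- unique subgroup of each prime order
  have huniq : ∀ q : ℕ, q.Prime → ∀ H K : Subgroup G, Nat.card H = q → Nat.card K = q →
      H = K := by
    intro q hq H K hH hK
    haveI := Fact.mk hq
    obtain Q : Sylow q G := default
    haveI hQn : (Q : Subgroup G).Normal :=
      Sylow.normal_of_normalizerCondition Group.normalizerCondition_of_isNilpotent Q
    have hQ1 : (Q : Subgroup G) ≠ ⊥ :=
      Q.ne_bot_of_dvd_card (hH ▸ Subgroup.card_subgroup_dvd_card H)
    have hne : (Q : Subgroup G) ⊓ Subgroup.center G ≠ ⊥ := fun h =>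
      hQ1 (S0583.eq_bot_of_inf_center_eq_bot _ h)
    have hpg : IsPGroup q ↥((Q : Subgroup G) ⊓ Subgroup.center G) :=
      Q.isPGroup'.to_le inf_le_left
    have hdvd : q ∣ Nat.card ↥((Q : Subgroup G) ⊓ Subgroup.center G) := by
      obtain ⟨k, hk⟩ := IsPGroup.iff_card.1 hpg
      rw [hk]
      apply dvd_pow_self
      rintro rfl
      rw [pow_zero] at hk
      exact hne (Subgroup.card_eq_one.1 hk)
    obtain ⟨z, hz⟩ := exists_prime_orderOf_dvd_card' q hdvd
    have hzc : (z : G) ∈ Subgroup.center G := z.2.2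
    have hzo : orderOf (z : G) = q := by rw [Subgroup.orderOf_coe]; exact hz
    have key : ∀ H : Subgroup G, Nat.card H = q → H = Subgroup.zpowers (z : G) := by
      intro H hH
      haveI : IsCyclic H := isCyclic_of_prime_card hH
      haveI : IsMulCommutative H := ⟨⟨fun a b => (IsCyclic.commGroup (α := H)).mul_comm a b⟩⟩
      obtain ⟨g, hg⟩ := hB (Subgroup.zpowers (z : G)) H inferInstance inferInstance
        (by rw [Nat.card_zpowers, hzo, hH])
      rw [hg, MonoidHom.map_zpowers]
      congr 1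
      show g * z * g⁻¹ = z
      rw [Subgroup.mem_center_iff] at hzc
      rw [hzc g]
      group
    rw [key H hH, key K hK]
  obtain ⟨A, hAn, hAc, hAmax⟩ := Lead.exists_max_normal_abelian (G := G)
  haveI := hAn
  have hCA : Subgroup.centralizer (A : Set G) ≤ A :=
    Lead.centralizer_le_of_max_normal_abelian A hAc hAmax
  letI : CommGroup A := { (inferInstance : Group A) with
    mul_comm := fun x y => Subtype.ext (hAc x x.2 y y.2) }
  have hAcyc : IsCyclic A := by
    by_contra hnc
    obtain ⟨q, a, b, hq, haq, hbq, hb1, hab⟩ := Lead.exists_rank_two hnc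
    haveI := Fact.mk hq
    have ha1 : a ≠ 1 := by
      rintro rfl
      exact hab (Subgroup.one_mem _)
    have h1 : Nat.card (Subgroup.zpowers (a : G)) = q := by
      rw [Nat.card_zpowers, Subgroup.orderOf_coe, orderOf_eq_prime haq ha1]
    have h2 : Nat.card (Subgroup.zpowers (b : G)) = q := by
      rw [Nat.card_zpowers, Subgroup.orderOf_coe, orderOf_eq_prime hbq hb1]
    have h3 := huniq q hq _ _ h1 h2
    apply hab
    have h4 : (a : G) ∈ Subgroup.zpowers (b : G) := h3 ▸ Subgroup.mem_zpowers _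
    obtain ⟨k, hk⟩ := Subgroup.mem_zpowers_iff.1 h4
    rw [Subgroup.mem_zpowers_iff]
    exact ⟨k, Subtype.ext (by simpa using hk)⟩
  obtain ⟨g', hg'⟩ := IsCyclic.exists_generator (α := A)
  have hAg : A = Subgroup.zpowers (g' : G) := by
    apply le_antisymm
    · intro a ha
      obtain ⟨k, hk⟩ := Subgroup.mem_zpowers_iff.1 (hg' ⟨a, ha⟩)
      rw [Subgroup.mem_zpowers_iff]
      exact ⟨k, by have := congrArg Subtype.val hk; simpa using this⟩
    · rw [Subgroup.zpowers_le]
      exact g'.2
  obtain ⟨g, hgdef⟩ : ∃ g : G, g = (g' : G) := ⟨_, rfl⟩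
  rw [← hgdef] at hAg
  have hgA : g ∈ A := hgdef ▸ g'.2
  have hconj : ∀ h : G, ∃ i : ℤ, h * g * h⁻¹ = g ^ i := by
    intro h
    have : h * g * h⁻¹ ∈ A := hAn.conj_mem g hgA h
    rw [hAg] at this
    obtain ⟨i, hi⟩ := Subgroup.mem_zpowers_iff.1 this
    exact ⟨i, hi.symm⟩
  have hsubn : ∀ m : ℕ, ∀ x : G,
      Nat.card (Subgroup.zpowers x) = Nat.card (Subgroup.zpowers (g ^ m)) →
      x ∈ Subgroup.zpowers (g ^ m) := by
    intro m x hcard
    obtain ⟨h, hh⟩ := hB (Subgroup.zpowers (g ^ m)) (Subgroup.zpowers x) inferInstance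
      inferInstance hcard.symm
    rw [MonoidHom.map_zpowers] at hh
    have hx : x ∈ Subgroup.zpowers ((MulAut.conj h).toMonoidHom (g ^ m)) :=
      hh ▸ Subgroup.mem_zpowers x
    obtain ⟨i, hi⟩ := hconj h
    have e : (MulAut.conj h).toMonoidHom (g ^ m) = (g ^ m) ^ i := by
      show h * g ^ m * h⁻¹ = (g ^ m) ^ i
      rw [← conj_pow, hi, ← zpow_natCast, ← zpow_natCast, ← zpow_mul, ← zpow_mul, mul_comm]
    rw [e] at hx
    exact (Subgroup.zpowers_le.2 (Subgroup.zpow_mem _ (Subgroup.mem_zpowers _) i)) hx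
  have hGA : ∀ x : G, x ∈ A := by
    intro x
    by_contra hxA
    obtain ⟨p, j₀, k, hp, hok, hyA⟩ := Helper7.exists_prime_pow_power_notMem A _ x rfl hxA
    obtain ⟨y, hy⟩ : ∃ y : G, y = x ^ j₀ := ⟨_, rfl⟩
    rw [← hy] at hok hyA
    haveI := Fact.mk hp
    obtain ⟨j, m', hpm, hN⟩ :=
      Nat.exists_eq_pow_mul_and_not_dvd (orderOf_pos g).ne' p hp.ne_one
    have hm'0 : m' ≠ 0 := by
      rintro rfl
      rw [mul_zero] at hN
      exact (orderOf_pos g).ne' hN
    rcases le_or_gt k j with hkj | hkj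
    · have hNk : orderOf g = p ^ k * (p ^ (j - k) * m') := by
        rw [hN, ← mul_assoc, ← pow_add]
        congr 2
        omega
      have hord : orderOf (g ^ (p ^ (j - k) * m')) = p ^ k := by
        have hpos : 0 < p ^ (j - k) * m' :=
          Nat.mul_pos (pow_pos hp.pos _) (Nat.pos_of_ne_zero hm'0)
        rw [orderOf_pow_of_dvd hpos.ne' (hNk ▸ dvd_mul_left _ _), hNk]
        exact Nat.mul_div_cancel _ hpos
      apply hyA
      have := hsubn (p ^ (j - k) * m') y (by rw [Nat.card_zpowers, Nat.card_zpowers, hok, hord])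
      rw [hAg]
      exact (Subgroup.zpowers_le.2 (Subgroup.pow_mem _ (Subgroup.mem_zpowers g) _)) this
    · have hordw : orderOf (y ^ (p ^ (k - j))) = p ^ j := by
        rw [orderOf_pow_of_dvd (pow_pos hp.pos _).ne' (hok ▸ pow_dvd_pow p (Nat.sub_le k j)), hok,
          Nat.pow_div (Nat.sub_le k j) hp.pos]
        congr 1
        omega
      have hordg : orderOf (g ^ m') = p ^ j := by
        rw [orderOf_pow_of_dvd hm'0 (hN ▸ dvd_mul_left _ _), hN]
        exact Nat.mul_div_cancel _ (Nat.pos_of_ne_zero hm'0)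
      have h1 := hsubn m' (y ^ (p ^ (k - j)))
        (by rw [Nat.card_zpowers, Nat.card_zpowers, hordw, hordg])
      have h2 : Subgroup.zpowers (y ^ (p ^ (k - j))) = Subgroup.zpowers (g ^ m') := by
        apply Subgroup.eq_of_le_of_card_ge (Subgroup.zpowers_le.2 h1)
        rw [Nat.card_zpowers, Nat.card_zpowers, hordw, hordg]
      have h3 : g ^ m' ∈ Subgroup.zpowers y := by
        have : g ^ m' ∈ Subgroup.zpowers (y ^ (p ^ (k - j))) := h2 ▸ Subgroup.mem_zpowers _
        exact (Subgroup.zpowers_le.2 (Subgroup.pow_mem _ (Subgroup.mem_zpowers y) _)) this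
      have hc1 : Commute y (g ^ m') := by
        obtain ⟨i, hi⟩ := Subgroup.mem_zpowers_iff.1 h3
        rw [← hi]
        exact (Commute.refl y).zpow_right i
      have hc2 : Commute y (g ^ (p ^ j)) := by
        have hco : (orderOf (g ^ (p ^ j))).Coprime p := by
          rw [orderOf_pow_of_dvd (pow_pos hp.pos _).ne' (hN ▸ dvd_mul_right _ _), hN,
            Nat.mul_div_cancel_left _ (pow_pos hp.pos _)]
          exact ((Nat.Prime.coprime_iff_not_dvd hp).2 hpm).symm
        exact Helper7.commute_of_nilpotent_coprime p y (g ^ (p ^ j)) k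
          (by rw [← hok]; exact pow_orderOf_eq_one y) hco
      have hcop : Nat.gcd m' (p ^ j) = 1 :=
        Nat.Coprime.pow_right j ((Nat.Prime.coprime_iff_not_dvd hp).2 hpm).symm
      have hc : Commute y g := by
        have hb : (m' : ℤ) * Nat.gcdA m' (p ^ j) + ((p ^ j : ℕ) : ℤ) * Nat.gcdB m' (p ^ j) = 1 := by
          have := Nat.gcd_eq_gcd_ab m' (p ^ j)
          rw [hcop] at this
          exact_mod_cast this.symm
        have e : g = (g ^ m') ^ (Nat.gcdA m' (p ^ j)) * (g ^ (p ^ j)) ^ (Nat.gcdB m' (p ^ j)) := by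
          rw [← zpow_natCast, ← zpow_natCast, ← zpow_mul, ← zpow_mul, ← zpow_add, hb, zpow_one]
        rw [e]
        exact (hc1.zpow_right _).mul_right (hc2.zpow_right _)
      apply hyA
      apply hCA
      rw [Subgroup.mem_centralizer_iff]
      intro h hh
      have hh' : h ∈ A := hh
      rw [hAg] at hh'
      obtain ⟨i, rfl⟩ := Subgroup.mem_zpowers_iff.1 hh'
      exact ((hc.zpow_right i).eq).symm
  exact ⟨⟨g, fun x => by have := hGA x; rw [hAg] at this; exact this⟩⟩

end Cfsg.Agent.S3910
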