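import Cfsg.Statements.S3917
import Mathlib
import Cfsg.Agent.Lead.GenCent
import Cfsg.Agent.Lead.Hall

set_option autoImplicit false
open Cfsg

namespace Cfsg.Agent.S3917

/-- Say that a group has self-centralizing non-cyclic subgroups when every non-cyclic subgroup H satisfies C_G(H) ≤ H. A finite abelian group with self-centralizing non-cyclic subgroups is cyclic or elementary abelian of order p² for a prime p. -/
theorem result {G : Type*} [CommGroup G] [Finite G] (hX : (∀ H : Subgroup G, ¬ IsCyclic ↥H → Subgroup.centralizer (H : Set G) ≤ H)) :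
    IsCyclic G ∨ ∃ p : ℕ, p.Prime ∧ Nat.card G = p ^ 2 ∧ Monoid.exponent G = p := by
  by_cases hc : IsCyclic G
  · left; exact hc
  right
  obtain ⟨q, a, b, hq, haq, hbq, hb1, hab⟩ := Lead.exists_rank_two hc
  haveI := Fact.mk hq
  have ha1 : a ≠ 1 := by
    rintro rfl
    exact hab (Subgroup.one_mem _)
  have hao : orderOf a = q := orderOf_eq_prime haq ha1
  have hbo : orderOf b = q := orderOf_eq_prime hbq hb1
  have hEpow : ∀ e ∈ Subgroup.zpowers a ⊔ Subgroup.zpowers b, e ^ q = 1 := by
    have hle : Subgroup.zpowers a ⊔ Subgroup.zpowers b ≤ (powMonoidHom q : G →* G).ker := by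
      rw [sup_le_iff, Subgroup.zpowers_le, Subgroup.zpowers_le]
      exact ⟨by simpa using haq, by simpa using hbq⟩
    intro e he
    have := hle he
    simpa using this
  have hEnc : ¬ IsCyclic ↥(Subgroup.zpowers a ⊔ Subgroup.zpowers b) := by
    intro hcyc
    obtain ⟨g, hg⟩ := IsCyclic.exists_generator (α := ↥(Subgroup.zpowers a ⊔ Subgroup.zpowers b))
    have h1 : orderOf g = Nat.card ↥(Subgroup.zpowers a ⊔ Subgroup.zpowers b) :=
      orderOf_eq_card_of_forall_mem_zpowers hg
    have h2 : g ^ q = 1 := Subtype.ext (hEpow g g.2)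
    have h3 : orderOf g ∣ q := orderOf_dvd_of_pow_eq_one h2
    have h4 : Nat.card ↥(Subgroup.zpowers a ⊔ Subgroup.zpowers b) ≤ q := by
      rw [← h1]
      exact Nat.le_of_dvd hq.pos h3
    have h5 : Subgroup.zpowers b = Subgroup.zpowers a ⊔ Subgroup.zpowers b := by
      apply Subgroup.eq_of_le_of_card_ge le_sup_right
      rw [Nat.card_zpowers, hbo]
      exact h4
    apply hab
    rw [h5]
    exact Subgroup.mem_sup_left (Subgroup.mem_zpowers a)
  have hEtop : Subgroup.zpowers a ⊔ Subgroup.zpowers b = ⊤ := by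
    rw [eq_top_iff]
    intro g _
    apply hX _ hEnc
    rw [Subgroup.mem_centralizer_iff]
    intro h _
    exact mul_comm h g
  have hinf : Subgroup.zpowers a ⊓ Subgroup.zpowers b = ⊥ := by
    by_contra hne
    have h1 : Nat.card ↥(Subgroup.zpowers a ⊓ Subgroup.zpowers b) ∣ q := by
      have := Subgroup.card_dvd_of_le (inf_le_left : Subgroup.zpowers a ⊓ Subgroup.zpowers b ≤ _)
      rwa [Nat.card_zpowers, hao] at this
    rcases (Nat.dvd_prime hq).1 h1 with h2 | h2
    · exact hne (Subgroup.card_eq_one.1 h2)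
    · have h3 : Subgroup.zpowers a ⊓ Subgroup.zpowers b = Subgroup.zpowers a := by
        apply Subgroup.eq_of_le_of_card_ge inf_le_left
        rw [h2, Nat.card_zpowers, hao]
      apply hab
      have : a ∈ Subgroup.zpowers a ⊓ Subgroup.zpowers b := by
        rw [h3]
        exact Subgroup.mem_zpowers a
      exact this.2
  have hcard := Lead.card_sup_of_inf_eq_bot (Subgroup.zpowers a) (Subgroup.zpowers b) hinf
  rw [hEtop, Nat.card_zpowers, Nat.card_zpowers, hao, hbo] at hcard
  refine ⟨q, hq, ?_, ?_⟩
  · rw [sq, ← hcard]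
    exact (Nat.card_congr Subgroup.topEquiv.toEquiv).symm
  · have h1 : Monoid.exponent G ∣ q := by
      apply Monoid.exponent_dvd_of_forall_pow_eq_one
      intro g
      apply hEpow
      rw [hEtop]
      exact Subgroup.mem_top g
    rcases (Nat.dvd_prime hq).1 h1 with h2 | h2
    · exfalso
      rw [Monoid.exp_eq_one_iff] at h2
      exact hb1 (Subsingleton.elim b 1)
    · exact h2

end Cfsg.Agent.S3917
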