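import Cfsg.Statements.S3920
import Mathlib
import Cfsg.Agent.Helper7.SelfNorm

set_option autoImplicit false
open Cfsg

namespace Cfsg.Agent.S3920

open Cfsg.Agent.Helper7 DihedralGroup

/-- The rotation subgroup. -/
def rot (n : ℕ) : Subgroup (DihedralGroup n) where
  carrier := {g | ∃ i : ZMod n, g = r i}
  mul_mem' := by
    rintro _ _ ⟨i, rfl⟩ ⟨j, rfl⟩
    exact ⟨i + j, r_mul_r i j⟩
  one_mem' := ⟨0, one_def⟩
  inv_mem' := by
    rintro _ ⟨i, rfl⟩
    exact ⟨-i, inv_r i⟩

instance rot_cyclic (n : ℕ) [NeZero n] : IsCyclic (rot n) := by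
  refine ⟨⟨⟨r 1, ⟨1, rfl⟩⟩, ?_⟩⟩
  rintro ⟨_, ⟨i, rfl⟩⟩
  refine ⟨(i.val : ℤ), Subtype.ext ?_⟩
  simp only [zpow_natCast, Subgroup.coe_pow]
  rw [r_one_pow, ZMod.natCast_zmod_val]

theorem exists_sr_of_not_cyclic {n : ℕ} [NeZero n] (H : Subgroup (DihedralGroup n))
    (hH : ¬ IsCyclic H) : ∃ i : ZMod n, sr i ∈ H := by
  by_contra hcon
  push Not at hcon
  apply hH
  have hle : H ≤ rot n := by
    intro g hg
    cases g with
    | r j => exact ⟨j, rfl⟩
    | sr j => exact absurd hg (hcon j)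
  exact Subgroup.isCyclic_of_le hle

theorem two_torsion_unique {n : ℕ} [NeZero n] (t s : ZMod n) (ht : 2 * t = 0) (hs : 2 * s = 0)
    (ht0 : t ≠ 0) (hs0 : s ≠ 0) : t = s := by
  have key : ∀ u : ZMod n, 2 * u = 0 → u ≠ 0 → 2 * u.val = n := by
    intro u hu hu0
    have h1 : ((2 * u.val : ℕ) : ZMod n) = 0 := by
      rw [Nat.cast_mul, ZMod.natCast_zmod_val]
      exact_mod_cast hu
    rw [ZMod.natCast_eq_zero_iff] at h1
    have h2 : u.val < n := ZMod.val_lt u
    have h3 : u.val ≠ 0 := fun h => hu0 ((ZMod.val_eq_zero u).1 h)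
    obtain ⟨c, hc⟩ := h1
    have hc1 : c = 1 := by
      have hnpos : 0 < n := Nat.pos_of_ne_zero (NeZero.ne n)
      have hlt : c < 2 := by
        by_contra hc2
        push Not at hc2
        have : n * 2 ≤ n * c := Nat.mul_le_mul_left n hc2
        omega
      have hc0 : c ≠ 0 := by
        rintro rfl
        omega
      omega
    rw [hc, hc1, mul_one]
  have h1 := key t ht ht0
  have h2 := key s hs hs0
  apply ZMod.val_injective n
  omega

theorem backward {n : ℕ} (hn : 3 ≤ n) (hcase : Odd n ∨ ∃ k : ℕ, n = 2 ^ k)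
    (H : Subgroup (DihedralGroup n)) (hH : ¬ IsCyclic H) :
    Subgroup.centralizer (H : Set (DihedralGroup n)) ≤ H := by
  haveI : NeZero n := ⟨by omega⟩
  obtain ⟨i, hi⟩ := exists_sr_of_not_cyclic H hH
  -- key: all 2-torsion rotations in H
  have key : ∀ t : ZMod n, 2 * t = 0 → r t ∈ H := by
    intro t ht
    by_cases ht0 : t = 0
    · rw [ht0, ← one_def]; exact H.one_mem
    rcases hcase with hodd | ⟨k, hk⟩
    · exfalso
      apply ht0
      have h3 : ((2 * t.val : ℕ) : ZMod n) = 0 := by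
        rw [Nat.cast_mul, ZMod.natCast_zmod_val]
        exact_mod_cast ht
      rw [ZMod.natCast_eq_zero_iff] at h3
      have h4 : n ∣ t.val := (Nat.Coprime.dvd_mul_left (Odd.coprime_two_right hodd)).1 h3
      have h5 : t.val = 0 := Nat.eq_zero_of_dvd_of_lt h4 (ZMod.val_lt t)
      exact (ZMod.val_eq_zero t).1 h5
    · -- find nontrivial rotation in H
      have hex : ∃ u : ZMod n, u ≠ 0 ∧ r u ∈ H := by
        by_contra hcon
        push Not at hcon
        apply hH
        refine ⟨⟨⟨sr i, hi⟩, ?_⟩⟩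
        rintro ⟨h, hh⟩
        cases h with
        | r u =>
          have hu : u = 0 := by
            by_contra hu
            exact hcon u hu hh
          subst hu
          refine ⟨0, Subtype.ext ?_⟩
          simp only [zpow_zero, Subgroup.coe_one]
          exact one_def
        | sr u =>
          have hu : u = i := by
            by_contra hu
            have h1 : sr i * sr u ∈ H := H.mul_mem hi hh
            rw [sr_mul_sr] at h1
            exact hcon (u - i) (sub_ne_zero.2 hu) h1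
          refine ⟨1, Subtype.ext ?_⟩
          simp [hu]
      obtain ⟨u, hu0, huH⟩ := hex
      -- order of r u
      have hord : orderOf (r u : DihedralGroup n) ∣ 2 ^ (k + 1) := by
        have h1 := orderOf_dvd_natCard (r u : DihedralGroup n)
        have h2 : 2 * n = 2 ^ (k + 1) := by rw [hk, pow_succ, mul_comm]
        rw [DihedralGroup.nat_card, h2] at h1
        exact h1
      obtain ⟨e, -, he⟩ := (Nat.dvd_prime_pow Nat.prime_two).1 hord
      have he1 : e ≠ 0 := by
        rintro rfl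
        rw [pow_zero, orderOf_eq_one_iff] at he
        exact hu0 (r.inj (he.trans one_def))
      obtain ⟨e', rfl⟩ := Nat.exists_eq_succ_of_ne_zero he1
      have hx : (r u : DihedralGroup n) ^ (2 ^ e') ∈ H := H.pow_mem huH _
      rw [r_pow] at hx
      have hs2 : 2 * (u * ((2 ^ e' : ℕ) : ZMod n)) = 0 := by
        have h1 : (r u : DihedralGroup n) ^ (2 ^ (e' + 1)) = 1 := by
          rw [← he]; exact pow_orderOf_eq_one _
        rw [r_pow, one_def] at h1
        have h2 := r.inj h1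
        have h3 : 2 * (u * ((2 ^ e' : ℕ) : ZMod n)) = u * ((2 ^ (e' + 1) : ℕ) : ZMod n) := by
          push_cast
          ring
        rw [h3, h2]
      have hs0 : u * ((2 ^ e' : ℕ) : ZMod n) ≠ 0 := by
        intro h
        have h1 : (r u : DihedralGroup n) ^ (2 ^ e') = 1 := by
          rw [r_pow, h, one_def]
        have h2 := orderOf_dvd_of_pow_eq_one h1
        rw [he] at h2
        have h3 := Nat.le_of_dvd (by positivity) h2
        have h4 : 2 ^ e' < 2 ^ (e' + 1) := Nat.pow_lt_pow_right (by norm_num) (Nat.lt_succ_self _)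
        omega
      rw [two_torsion_unique t _ ht hs2 ht0 hs0]
      exact hx
  intro g hg
  have hc := (Subgroup.mem_centralizer_iff.1 hg) (sr i) hi
  cases g with
  | r j =>
    rw [sr_mul_r, r_mul_sr] at hc
    have h1 : i + j = i - j := sr.inj hc
    apply key
    linear_combination h1
  | sr j =>
    rw [sr_mul_sr, sr_mul_sr] at hc
    have h1 : j - i = i - j := r.inj hc
    have h2 : r (j - i) ∈ H := key _ (by linear_combination h1)
    have h3 : sr i * r (j - i) ∈ H := H.mul_mem hi h2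
    rw [sr_mul_r] at h3
    have h4 : i + (j - i) = j := by ring
    rw [h4] at h3
    exact h3

/-- The subgroup `⟨r^d, s⟩`. -/
def dSub (n : ℕ) (d : ZMod n) : Subgroup (DihedralGroup n) where
  carrier := {g | ∃ j : ZMod n, g = r (d * j) ∨ g = sr (d * j)}
  mul_mem' := by
    rintro _ _ ⟨i, rfl | rfl⟩ ⟨j, rfl | rfl⟩
    · exact ⟨i + j, Or.inl (by rw [r_mul_r]; congr 1; ring)⟩
    · exact ⟨j - i, Or.inr (by rw [r_mul_sr]; congr 1; ring)⟩
    · exact ⟨i + j, Or.inr (by rw [sr_mul_r]; congr 1; ring)⟩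
    · exact ⟨j - i, Or.inl (by rw [sr_mul_sr]; congr 1; ring)⟩
  one_mem' := ⟨0, Or.inl (by rw [one_def, mul_zero])⟩
  inv_mem' := by
    rintro _ ⟨i, rfl | rfl⟩
    · exact ⟨-i, Or.inl (by rw [inv_r]; congr 1; ring)⟩
    · exact ⟨i, Or.inr (inv_sr _)⟩

theorem forward {n : ℕ} (hn : 3 ≤ n)
    (h : ∀ H : Subgroup (DihedralGroup n), ¬ IsCyclic ↥H →
      Subgroup.centralizer (H : Set (DihedralGroup n)) ≤ H) :
    Odd n ∨ ∃ k : ℕ, n = 2 ^ k := by
  by_contra hcon
  push Not at hcon
  obtain ⟨hodd, hpow⟩ := hcon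
  haveI : NeZero n := ⟨by omega⟩
  obtain ⟨a, b, hb, hab⟩ := Nat.exists_eq_two_pow_mul_odd (NeZero.ne n)
  have ha : a ≠ 0 := by
    rintro rfl
    apply hodd
    rw [hab, pow_zero, one_mul]; exact hb
  have hb1 : b ≠ 1 := by
    rintro rfl
    exact hpow a (by rw [hab, mul_one])
  obtain ⟨a', rfl⟩ := Nat.exists_eq_succ_of_ne_zero ha
  have h2m : 2 * (((2 ^ a' * b : ℕ) : ZMod n)) = 0 := by
    have : ((2 * (2 ^ a' * b) : ℕ) : ZMod n) = 0 := by
      rw [ZMod.natCast_eq_zero_iff]
      exact ⟨1, by rw [hab, pow_succ]; ring⟩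
    exact_mod_cast this
  have h2d : 2 * (((2 ^ (a' + 1) : ℕ) : ZMod n)) ≠ 0 := by
    intro h0
    have h1 : ((2 * 2 ^ (a' + 1) : ℕ) : ZMod n) = 0 := by
      exact_mod_cast h0
    rw [ZMod.natCast_eq_zero_iff] at h1
    have h3 : b ∣ 2 := by
      have h4 : 2 ^ (a' + 1) * b ∣ 2 ^ (a' + 1) * 2 := by
        rw [← hab, mul_comm _ 2]; exact h1
      exact (Nat.mul_dvd_mul_iff_left (by positivity)).1 h4
    have h5 : b ≤ 2 := Nat.le_of_dvd (by norm_num) h3
    have h6 : b ≠ 2 := by
      rintro rfl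
      exact absurd hb (by decide)
    have h7 : b ≠ 0 := by
      rintro rfl
      exact absurd hb (by decide)
    omega
  set d : ZMod n := ((2 ^ (a' + 1) : ℕ) : ZMod n) with hd
  set m : ZMod n := ((2 ^ a' * b : ℕ) : ZMod n) with hm
  have hrd : (r d : DihedralGroup n) ∈ dSub n d := ⟨1, Or.inl (by rw [mul_one])⟩
  have hs0 : (sr 0 : DihedralGroup n) ∈ dSub n d := ⟨0, Or.inr (by rw [mul_zero])⟩
  have hnc : (r d : DihedralGroup n) * sr 0 ≠ sr 0 * r d := by
    rw [r_mul_sr, sr_mul_r]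
    intro h
    have h1 : (0 : ZMod n) - d = 0 + d := sr.inj h
    apply h2d
    linear_combination (-1 : ZMod n) * h1
  have hncyc : ¬ IsCyclic (dSub n d) := by
    intro hc
    have := comm_of_isCyclic (⟨r d, hrd⟩ : dSub n d) ⟨sr 0, hs0⟩
    exact hnc (congrArg Subtype.val this)
  have hcent : (r m : DihedralGroup n) ∈ Subgroup.centralizer
      ((dSub n d : Subgroup (DihedralGroup n)) : Set (DihedralGroup n)) := by
    rw [Subgroup.mem_centralizer_iff]
    rintro _ ⟨j, rfl | rfl⟩
    · rw [r_mul_r, r_mul_r, add_comm]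
    · rw [sr_mul_r, r_mul_sr]
      congr 1
      linear_combination h2m
  obtain ⟨j, hj | hj⟩ := h _ hncyc hcent
  · have h1 : m = d * j := r.inj hj
    have hdvd : 2 ^ (a' + 1) ∣ n := ⟨b, hab⟩
    have h2 := congrArg (ZMod.castHom hdvd (ZMod (2 ^ (a' + 1)))) h1
    rw [map_mul, hm, hd, map_natCast, map_natCast] at h2
    have h3 : ((2 ^ (a' + 1) : ℕ) : ZMod (2 ^ (a' + 1))) = 0 := ZMod.natCast_self _
    rw [h3, zero_mul, ZMod.natCast_eq_zero_iff] at h2
    have h4 : 2 ∣ b := by
      rw [pow_succ] at h2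
      exact (Nat.mul_dvd_mul_iff_left (by positivity)).1 h2
    exact (Nat.not_even_iff_odd.2 hb) (even_iff_two_dvd.2 h4)
  · exact absurd hj (by simp)

/-- Say that a group has self-centralizing non-cyclic subgroups when every non-cyclic subgroup H satisfies C_G(H) ≤ H. For n ≥ 3, the dihedral group of order 2n has self-centralizing non-cyclic subgroups if and only if n is odd or a power of 2. -/
theorem result (n : ℕ) (hn : 3 ≤ n) : (∀ H : Subgroup (DihedralGroup n), ¬ IsCyclic ↥H → Subgroup.centralizer (H : Set (DihedralGroup n)) ≤ H) ↔ (Odd n ∨ ∃ k : ℕ, n = 2 ^ k) := by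
  exact ⟨forward hn, fun hcase H hH => backward hn hcase H hH⟩

end Cfsg.Agent.S3920
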