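import Cfsg.Statements.S3937
import Mathlib
import Cfsg.Agent.Helper7.BaerEngel

set_option autoImplicit false
open Cfsg

namespace Cfsg.Agent.S3937

/-- Baer's characterization of the Fitting subgroup: in a finite group G, an element g lies in the Fitting subgroup if and only if g is a left Engel element, that is, for every x there is n with [x, g, g, …, g] = 1 (n entries g, [a, b] = aba⁻¹b⁻¹). -/
theorem result {G : Type*} [Group G] [Finite G] (g : G) :
    g ∈ Cfsg.fittingSubgroup G ↔ ∀ x : G, ∃ n : ℕ, (List.replicate n g).foldl (fun a b => a * b * a⁻¹ * b⁻¹) x = 1 := by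
  constructor
  · intro hg x
    obtain ⟨m, hm⟩ := Cfsg.Agent.Helper7.engel_of_mem_fitting g hg x
    exact ⟨m, by rw [Cfsg.Agent.Helper7.foldl_replicate_engel]; exact hm⟩
  · intro h
    apply Cfsg.Agent.Helper7.engel_mem_fitting _ G rfl g
    intro x
    obtain ⟨m, hm⟩ := h x
    exact ⟨m, by rw [← Cfsg.Agent.Helper7.foldl_replicate_engel]; exact hm⟩

end Cfsg.Agent.S3937
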