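import Cfsg.Statements.S3941
import Mathlib

set_option autoImplicit false
open Cfsg

namespace Cfsg.Agent.S3941

theorem a4_facts : ∃ x y : alternatingGroup (Fin 4), x ^ 3 = 1 ∧ y ^ 3 = 1 ∧ (x * y) ^ 2 = 1 ∧ x * y ≠ 1 := by
  have hx : (Equiv.swap (0 : Fin 4) 1 * Equiv.swap 1 2) ∈ alternatingGroup (Fin 4) := by
    rw [Equiv.Perm.mem_alternatingGroup, Equiv.Perm.sign_mul, Equiv.Perm.sign_swap (by decide),
      Equiv.Perm.sign_swap (by decide)]; rfl
  have hy : (Equiv.swap (0 : Fin 4) 1 * Equiv.swap 1 3) ∈ alternatingGroup (Fin 4) := by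
    rw [Equiv.Perm.mem_alternatingGroup, Equiv.Perm.sign_mul, Equiv.Perm.sign_swap (by decide),
      Equiv.Perm.sign_swap (by decide)]; rfl
  refine ⟨⟨_, hx⟩, ⟨_, hy⟩, ?_, ?_, ?_, ?_⟩
  · apply Subtype.ext
    show (Equiv.swap (0 : Fin 4) 1 * Equiv.swap 1 2) ^ 3 = 1
    decide
  · apply Subtype.ext
    show (Equiv.swap (0 : Fin 4) 1 * Equiv.swap 1 3) ^ 3 = 1
    decide
  · apply Subtype.ext
    show ((Equiv.swap (0 : Fin 4) 1 * Equiv.swap 1 2) * (Equiv.swap (0 : Fin 4) 1 * Equiv.swap 1 3)) ^ 2 = 1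
    decide
  · intro h
    have h2 : ((Equiv.swap (0 : Fin 4) 1 * Equiv.swap 1 2) * (Equiv.swap (0 : Fin 4) 1 * Equiv.swap 1 3)) = 1 :=
      congrArg Subtype.val h
    revert h2
    decide

/-- Let n ≥ 5 and p an odd prime with p ≤ n, and suppose that every proper subgroup of the alternating group of degree n whose order is divisible by p has a normal Sylow p-subgroup. Then n = p. -/
theorem result (n p : ℕ) (hn : 5 ≤ n) [Fact p.Prime] (hp : p ≠ 2) (hpn : p ≤ n)
    (h : ∀ H : Subgroup ↥(alternatingGroup (Fin n)), H ≠ ⊤ → p ∣ Nat.card ↥H → Cfsg.IsPClosed p ↥H) : n = p := by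
  classical
  by_contra hne
  have hlt : p < n := lt_of_le_of_ne hpn (Ne.symm hne)
  obtain ⟨m, rfl⟩ : ∃ m, n = m + 1 := ⟨n - 1, by omega⟩
  have hpm : p ≤ m := by omega
  have hm4 : 4 ≤ m := by omega
  have hpp : p.Prime := Fact.out
  let g : Equiv.Perm (Fin m) →* Equiv.Perm (Fin (m+1)) :=
    Equiv.Perm.extendDomainHom (finSuccAboveEquiv (Fin.last m))
  have hg : Function.Injective g := Equiv.Perm.extendDomainHom_injective _
  have hsign : ∀ σ, Equiv.Perm.sign (g σ) = Equiv.Perm.sign σ :=
    fun σ => Equiv.Perm.sign_extendDomain σ _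
  let f : alternatingGroup (Fin m) →* alternatingGroup (Fin (m+1)) :=
    (g.comp (alternatingGroup (Fin m)).subtype).codRestrict (alternatingGroup (Fin (m+1)))
      (fun σ => by
        rw [Equiv.Perm.mem_alternatingGroup]
        show Equiv.Perm.sign (g σ.1) = 1
        rw [hsign]; exact Equiv.Perm.mem_alternatingGroup.mp σ.2)
  have hf : Function.Injective f := by
    intro a b hab
    have h1 : g a.1 = g b.1 := congrArg Subtype.val hab
    exact Subtype.ext (hg h1)
  let e : alternatingGroup (Fin m) ≃* f.range := MonoidHom.ofInjective hf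
  have hcardH : Nat.card f.range = Nat.card (alternatingGroup (Fin m)) :=
    (Nat.card_congr e.toEquiv).symm
  have hcm : 2 * Nat.card (alternatingGroup (Fin m)) = m.factorial := by
    haveI : Nontrivial (Fin m) := Fin.nontrivial_iff_two_le.mpr (by omega)
    rw [two_mul_nat_card_alternatingGroup, Nat.card_perm, Nat.card_fin]
  have hcn : 2 * Nat.card (alternatingGroup (Fin (m+1))) = (m+1).factorial := by
    haveI : Nontrivial (Fin (m+1)) := Fin.nontrivial_iff_two_le.mpr (by omega)
    rw [two_mul_nat_card_alternatingGroup, Nat.card_perm, Nat.card_fin]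
  have hHtop : f.range ≠ ⊤ := by
    intro h1
    have h2 := (Subgroup.card_eq_iff_eq_top f.range).mpr h1
    rw [hcardH] at h2
    rw [← h2, hcm, Nat.factorial_succ] at hcn
    have hpos : 0 < m.factorial := Nat.factorial_pos m
    nlinarith
  have hpdvd : p ∣ Nat.card f.range := by
    rw [hcardH]
    have h1 : p ∣ 2 * Nat.card (alternatingGroup (Fin m)) := by
      rw [hcm]; exact hpp.dvd_factorial.mpr hpm
    rcases hpp.dvd_mul.mp h1 with h2 | h2
    · exact absurd ((Nat.prime_dvd_prime_iff_eq hpp Nat.prime_two).mp h2) hp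
    · exact h2
  have hcl := h f.range hHtop hpdvd
  obtain ⟨P⟩ : Nonempty (Sylow p f.range) := inferInstance
  have hPn : (P : Subgroup f.range).Normal := hcl P
  by_cases hm5 : 5 ≤ m
  · haveI : IsSimpleGroup (alternatingGroup (Fin m)) :=
      alternatingGroup.isSimpleGroup (by simpa using hm5)
    haveI : IsSimpleGroup f.range := e.symm.isSimpleGroup
    rcases hPn.eq_bot_or_eq_top with h1 | h1
    · exact P.ne_bot_of_dvd_card hpdvd h1
    · have h2 : 2 ∣ Nat.card f.range := by
        rw [hcardH]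
        have h4 : 4 ∣ m.factorial := by
          have : Nat.factorial 4 ∣ m.factorial := Nat.factorial_dvd_factorial hm4
          exact Dvd.dvd.trans (by decide) this
        rw [← hcm] at h4
        omega
      have h3 : Nat.card (P : Subgroup f.range) = Nat.card f.range := by
        rw [h1]; exact Subgroup.card_top
      rw [← h3, P.card_eq_multiplicity] at h2
      have := (Nat.prime_dvd_prime_iff_eq Nat.prime_two hpp).mp (Nat.prime_two.dvd_of_dvd_pow h2)
      exact hp this.symm
  · have hm : m = 4 := by omega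
    subst hm
    have hp3 : p = 3 := by
      have h5 : p ≤ 4 := hpm
      have h2 := hpp.two_le
      interval_cases p
      · exact absurd rfl hp
      · rfl
      · exact absurd hpp (by decide)
    subst hp3
    obtain ⟨x, y, hx3, hy3, hxy, hxy1⟩ := a4_facts
    haveI := Sylow.unique_of_normal P hPn
    have key : ∀ z : f.range, z ^ 3 = 1 → z ∈ (P : Subgroup f.range) := by
      intro z hz
      have hzp : IsPGroup 3 (Subgroup.zpowers z) := by
        rintro ⟨w, hw⟩
        obtain ⟨k, rfl⟩ := Subgroup.mem_zpowers_iff.mp hw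
        refine ⟨1, Subtype.ext ?_⟩
        show (z ^ k) ^ (3 ^ 1) = 1
        rw [pow_one, ← zpow_natCast, ← zpow_mul, mul_comm, zpow_mul, zpow_natCast, hz, one_zpow]
      obtain ⟨Q, hQ⟩ := hzp.exists_le_sylow
      rw [Subsingleton.elim P Q]
      exact hQ (Subgroup.mem_zpowers z)
    have hxP := key (e x) (by rw [← map_pow, hx3, map_one])
    have hyP := key (e y) (by rw [← map_pow, hy3, map_one])
    have hxyP : e (x * y) ∈ (P : Subgroup f.range) := by rw [map_mul]; exact mul_mem hxP hyP
    obtain ⟨k, hk⟩ := P.isPGroup' ⟨e (x*y), hxyP⟩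
    have hk' : (e (x * y)) ^ (3 ^ k) = 1 := congrArg Subtype.val hk
    have h2' : (e (x * y)) ^ 2 = 1 := by rw [← map_pow, hxy, map_one]
    have h1 : orderOf (e (x * y)) ∣ Nat.gcd (3 ^ k) 2 :=
      Nat.dvd_gcd (orderOf_dvd_of_pow_eq_one hk') (orderOf_dvd_of_pow_eq_one h2')
    have h3 : Nat.gcd (3 ^ k) 2 = 1 := Nat.Coprime.pow_left k (by decide)
    rw [h3, Nat.dvd_one, orderOf_eq_one_iff] at h1
    exact hxy1 (e.injective (by rw [h1, map_one]))

end Cfsg.Agent.S3941
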