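import Cfsg.Statements.S3949

set_option autoImplicit false
open Cfsg

namespace Cfsg.Agent.S3949

variable {G : Type*} [Group G]

theorem aa (α : MulAut G) (hα : orderOf α = 2) (g : G) : α (α g) = g := by
  have h : α ^ 2 = 1 := by rw [← hα]; exact pow_orderOf_eq_one α
  have h2 : (α ^ 2) g = g := by rw [h]; rfl
  rw [pow_two] at h2
  exact h2

theorem f_inv (α : MulAut G) (hα : orderOf α = 2) (c : G) :
    α (c * (α c)⁻¹) = (c * (α c)⁻¹)⁻¹ := by
  rw [map_mul, map_inv, aa α hα]
  simp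

theorem pow_inv' (α : MulAut G) (c : G) (hc : α c = c⁻¹) (n : ℕ) : α (c ^ n) = (c ^ n)⁻¹ := by
  rw [map_pow, hc, inv_pow]

theorem iter_inv (α : MulAut G) (j : ℕ) : ∀ (c : G) (hc : α c = c⁻¹),
    (fun c : G => c * (α c)⁻¹)^[j] c = c ^ (2 ^ j) := by
  induction j with
  | zero => intro c hc; simp
  | succ j ih =>
    intro c hc
    rw [Function.iterate_succ_apply]
    have h1 : c * (α c)⁻¹ = c ^ 2 := by
      simp only [hc, inv_inv, pow_two]
    rw [h1, ih (c ^ 2) (pow_inv' α c hc 2), ← pow_mul, pow_succ, mul_comm]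

theorem result {G : Type*} [Group G] [Finite G] (α : MulAut G) (hα : orderOf α = 2) (hG : Subgroup.closure (Set.range (fun c : G => c * (α c)⁻¹)) = ⊤)
    (j : ℕ) (hj : ∀ g : G, α g = g⁻¹ → ¬ 2 ^ j ∣ orderOf g) :
    Set.range ((fun c : G => c * (α c)⁻¹)^[j]) = {g : G | Odd (orderOf g) ∧ α g = g⁻¹} := by
  cases j with
  | zero =>
    exfalso
    exact hj 1 (by simp) (by simp)
  | succ j =>
    ext g
    constructor
    · rintro ⟨c, rfl⟩
      rw [Function.iterate_succ_apply]
      have hd := f_inv α hα c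
      set d := c * (α c)⁻¹ with hd_def
      rw [iter_inv α j d hd]
      refine ⟨?_, pow_inv' α d hd _⟩
      have hn : orderOf d ≠ 0 := (orderOf_pos d).ne'
      obtain ⟨k, m, hm, hkm⟩ := Nat.exists_eq_two_pow_mul_odd hn
      have hk : k ≤ j := by
        by_contra hcon
        push Not at hcon
        apply hj d hd
        rw [hkm]
        exact Dvd.dvd.mul_right (pow_dvd_pow 2 hcon) m
      have h2 : (d ^ 2 ^ j) ^ m = 1 := by
        rw [← pow_mul]
        apply orderOf_dvd_iff_pow_eq_one.1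
        rw [hkm]
        exact Nat.mul_dvd_mul (pow_dvd_pow 2 hk) dvd_rfl
      have h3 : orderOf (d ^ 2 ^ j) ∣ m := orderOf_dvd_of_pow_eq_one h2
      exact Odd.of_dvd_nat hm h3
    · rintro ⟨hodd, hinv⟩
      have hcop : Nat.Coprime (2 ^ (j + 1)) (orderOf g) := by
        apply Nat.Coprime.pow_left
        rw [Nat.coprime_two_left]
        exact hodd
      obtain ⟨m, hm⟩ := exists_pow_eq_self_of_coprime hcop
      refine ⟨g ^ m, ?_⟩
      rw [iter_inv α (j + 1) (g ^ m) (pow_inv' α g hinv m), ← pow_mul, mul_comm, pow_mul]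
      exact hm

end Cfsg.Agent.S3949
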