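import Cfsg.Statements.S3976
import Mathlib
import Cfsg.Agent.Helper7.Wielandt

set_option autoImplicit false
open Cfsg

namespace Cfsg.Agent.S3976

/-- conjugation action on the subgroups of a given order -/
instance conjAct {G : Type*} [Group G] (k : ℕ) :
    MulAction G {H : Subgroup G // Nat.card H = k} where
  smul g H := ⟨H.1.map (MulAut.conj g).toMonoidHom,
    (Nat.card_congr (H.1.equivMapOfInjective _ (MulAut.conj g).injective).toEquiv.symm).trans H.2⟩
  one_smul H := by
    apply Subtype.ext
    show H.1.map (MulAut.conj (1 : G)).toMonoidHom = H.1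
    ext x
    simp
  mul_smul g h H := by
    apply Subtype.ext
    show H.1.map (MulAut.conj (g * h)).toMonoidHom
      = (H.1.map (MulAut.conj h).toMonoidHom).map (MulAut.conj g).toMonoidHom
    rw [Subgroup.map_map]
    congr 1
    ext x
    simp [mul_assoc]

theorem smul_val {G : Type*} [Group G] (k : ℕ) (g : G) (H : {H : Subgroup G // Nat.card H = k}) :
    (g • H).1 = H.1.map (MulAut.conj g).toMonoidHom := rfl

theorem result {G : Type*} [Group G] [Finite G] (p m s : ℕ) (hp : p.Prime) (hG : Nat.card G = p ^ m) (hs : s ≤ m) : Nat.card {H : Subgroup G // H.Normal ∧ Nat.card H = p ^ s} ≡ 1 [MOD p] := by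
  haveI : Fact p.Prime := ⟨hp⟩
  have hpg : IsPGroup p G := IsPGroup.of_card hG
  have h1 := Cfsg.Agent.Helper7.card_subgroups_prime_pow_modEq_one (G := G) p s hp
    (by rw [hG]; exact pow_dvd_pow p hs)
  have h2 := hpg.card_modEq_card_fixedPoints {H : Subgroup G // Nat.card H = p ^ s}
  have h3 : Nat.card (MulAction.fixedPoints G {H : Subgroup G // Nat.card H = p ^ s})
      = Nat.card {H : Subgroup G // H.Normal ∧ Nat.card H = p ^ s} := by
    apply Nat.card_congr
    refine
      { toFun := fun H => ⟨H.1.1, ?_, H.1.2⟩
        invFun := fun H => ⟨⟨H.1, H.2.2⟩, ?_⟩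
        left_inv := fun H => rfl
        right_inv := fun H => rfl }
    · constructor
      intro n hn g
      have hfix : g • H.1 = H.1 := H.2 g
      have h4 : (g • H.1).1 = H.1.1 := congrArg Subtype.val hfix
      rw [smul_val] at h4
      rw [← h4]
      exact ⟨n, hn, rfl⟩
    · intro g
      apply Subtype.ext
      rw [smul_val]
      show H.1.map (MulAut.conj g).toMonoidHom = H.1
      haveI := H.2.1
      apply le_antisymm
      · rintro _ ⟨n, hn, rfl⟩
        exact H.2.1.conj_mem n hn g
      · intro n hn
        refine ⟨g⁻¹ * n * g, ?_, ?_⟩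
        · have := H.2.1.conj_mem n hn g⁻¹
          simpa using this
        · show g * (g⁻¹ * n * g) * g⁻¹ = n
          group
  rw [← h3]
  exact h2.symm.trans h1

end Cfsg.Agent.S3976
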