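import Cfsg.Statements.S3982
import Mathlib
import Cfsg.Agent.Helper7.CoprimeAct

set_option autoImplicit false
open Cfsg

namespace Cfsg.Agent.S3982

open Cfsg.Agent.Helper7 in
theorem step {G : Type*} [Group G] [Finite G] (p : ℕ) [Fact p.Prime]
    (hC : ∀ g : G, g ≠ 1 → (∃ k : ℕ, orderOf g = p ^ k) →
      Odd (Nat.card ↥(Subgroup.centralizer ({g} : Set G))))
    (Q : Subgroup G) (hQ : IsPGroup p ↥Q)
    (hev : Even (Nat.card ↥(Subgroup.normalizer (Q : Set G)))) (z : G) (hz : z ∈ Q) (hz1 : z ≠ 1) :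
    ∃ S : Subgroup G, S ≤ Subgroup.centralizer ({z} : Set G) ∧ IsPGroup p S ∧
      Nat.card S = p ^ (Nat.card (Subgroup.centralizer ({z} : Set G))).factorization p ∧
      z ∈ S ∧ Even (Nat.card ↥(Subgroup.normalizer (S : Set G))) := by
  haveI : Fact (Nat.Prime 2) := ⟨Nat.prime_two⟩
  obtain ⟨t', ht'⟩ := exists_prime_orderOf_dvd_card' (G := Subgroup.normalizer (Q : Set G)) 2
    (even_iff_two_dvd.1 hev)
  obtain ⟨t, htN, ht2⟩ : ∃ t : G, t ∈ Subgroup.normalizer (Q : Set G) ∧ orderOf t = 2 :=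
    ⟨t'.1, t'.2, by rw [Subgroup.orderOf_coe, ht']⟩
  have htt : t * t = 1 := by
    have h1 := pow_orderOf_eq_one t
    rwa [ht2, pow_two] at h1
  have htinv : t⁻¹ = t := inv_eq_of_mul_eq_one_left htt
  have hord : ∀ y ∈ Q, ∃ k : ℕ, orderOf y = p ^ k := by
    intro y hy
    obtain ⟨k, hk⟩ := (IsPGroup.iff_orderOf.1 hQ) ⟨y, hy⟩
    rw [Subgroup.orderOf_mk] at hk
    exact ⟨k, hk⟩
  have hfix : ∀ y ∈ Q, t * y * t⁻¹ = y → y = 1 := by
    intro y hy hty
    by_contra hy1
    have h1 := hC y hy1 (hord y hy)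
    have h2 : t ∈ Subgroup.centralizer ({y} : Set G) := by
      rw [Subgroup.mem_centralizer_iff]
      intro w hw
      rw [Set.mem_singleton_iff] at hw
      subst hw
      calc w * t = (t * w * t⁻¹) * t := by rw [hty]
        _ = t * w := by group
    have h3 : orderOf (⟨t, h2⟩ : Subgroup.centralizer ({y} : Set G)) ∣
        Nat.card (Subgroup.centralizer ({y} : Set G)) := orderOf_dvd_natCard _
    rw [Subgroup.orderOf_mk, ht2] at h3
    exact (Nat.not_even_iff_odd.2 h1) (even_iff_two_dvd.2 h3)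
  have hconjQ : ∀ y ∈ Q, t * y * t⁻¹ ∈ Q := fun y hy =>
    (Subgroup.mem_normalizer_iff.1 htN y).1 hy
  have hinj : Function.Injective (fun x : Q =>
      (⟨(x : G)⁻¹ * (t * x * t⁻¹), Q.mul_mem (Q.inv_mem x.2) (hconjQ x x.2)⟩ : Q)) := by
    intro x y hxy
    have h1 : (x : G)⁻¹ * (t * x * t⁻¹) = (y : G)⁻¹ * (t * y * t⁻¹) := congrArg Subtype.val hxy
    have h2 : t * ((y : G) * (x : G)⁻¹) * t⁻¹ = (y : G) * (x : G)⁻¹ := by
      have e1 : t * ((y : G) * (x : G)⁻¹) * t⁻¹ = (t * y * t⁻¹) * (t * x * t⁻¹)⁻¹ := by group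
      have e2 : t * x * t⁻¹ = (x : G) * ((y : G)⁻¹ * (t * y * t⁻¹)) := by
        rw [← h1]
        group
      rw [e1, e2]
      group
    have h3 := hfix _ (Q.mul_mem y.2 (Q.inv_mem x.2)) h2
    apply Subtype.ext
    exact (mul_inv_eq_one.1 h3).symm
  have hsurj := Finite.surjective_of_injective hinj
  have hinvert : ∀ y ∈ Q, t * y * t⁻¹ = y⁻¹ := by
    intro y hy
    obtain ⟨x, hx⟩ := hsurj ⟨y, hy⟩
    have h1 : (x : G)⁻¹ * (t * x * t⁻¹) = y := congrArg Subtype.val hx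
    rw [← h1]
    have e : t * ((x : G)⁻¹ * (t * x * t⁻¹)) * t⁻¹ = (t * x * t⁻¹)⁻¹ * ((t * t) * x * (t * t)⁻¹) := by
      group
    rw [e, htt]
    group
  have hz' : t * z * t⁻¹ = z⁻¹ := hinvert z hz
  have hKconj : ∀ c ∈ Subgroup.centralizer ({z} : Set G),
      t * c * t⁻¹ ∈ Subgroup.centralizer ({z} : Set G) := by
    intro c hc
    rw [Subgroup.mem_centralizer_iff] at hc ⊢
    intro w hw
    rw [Set.mem_singleton_iff] at hw
    subst hw
    have h1 : w * c = c * w := hc w rfl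
    have h2 : w = t * w⁻¹ * t⁻¹ := by
      have h3 : t * w⁻¹ * t⁻¹ = (t * w * t⁻¹)⁻¹ := by group
      rw [h3, hz', inv_inv]
    have h4 : w⁻¹ * c = c * w⁻¹ := by
      have h5 : w⁻¹ * c = w⁻¹ * (c * w) * w⁻¹ := by group
      rw [h5, ← h1]
      group
    calc w * (t * c * t⁻¹) = (t * w⁻¹ * t⁻¹) * (t * c * t⁻¹) := by rw [← h2]
      _ = t * (w⁻¹ * c) * t⁻¹ := by group
      _ = t * (c * w⁻¹) * t⁻¹ := by rw [h4]
      _ = (t * c * t⁻¹) * (t * w⁻¹ * t⁻¹) := by group
      _ = (t * c * t⁻¹) * w := by rw [← h2]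
  have htK : Subgroup.zpowers t ≤
      Subgroup.normalizer ((Subgroup.centralizer ({z} : Set G) : Subgroup G) : Set G) := by
    rw [Subgroup.zpowers_le, Subgroup.mem_normalizer_iff]
    intro c
    constructor
    · exact hKconj c
    · intro h
      have h1 := hKconj _ h
      have e : t * (t * c * t⁻¹) * t⁻¹ = (t * t) * c * (t * t)⁻¹ := by group
      rw [e, htt] at h1
      simpa using h1
  have ht2grp : IsPGroup 2 (Subgroup.zpowers t) := by
    apply IsPGroup.of_card (n := 1)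
    rw [Nat.card_zpowers, ht2, pow_one]
  have hzord := hord z hz
  have hKodd : ¬ 2 ∣ Nat.card (Subgroup.centralizer ({z} : Set G)) := by
    rw [← even_iff_two_dvd, Nat.not_even_iff_odd]
    exact hC z hz1 hzord
  obtain ⟨S, hSK, hSp, hScard, htS, hSmax⟩ :=
    exists_invariant_sylow 2 p (Subgroup.zpowers t) (Subgroup.centralizer ({z} : Set G))
      ht2grp htK hKodd
  refine ⟨S, hSK, hSp, hScard, ?_, ?_⟩
  · refine hSmax (Subgroup.zpowers z) ?_ ?_ ?_ (Subgroup.mem_zpowers z)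
    · rw [Subgroup.zpowers_le, Subgroup.mem_centralizer_iff]
      intro w hw
      rw [Set.mem_singleton_iff] at hw
      rw [hw]
    · obtain ⟨k, hk⟩ := hzord
      apply IsPGroup.of_card (n := k)
      rw [Nat.card_zpowers, hk]
    · apply le_normalizer_of_forall_conj_mem
      intro c hc x hx
      rw [Subgroup.mem_centralizer_iff] at hc
      obtain ⟨i, rfl⟩ := Subgroup.mem_zpowers_iff.1 hx
      have h1 : Commute c z := (hc z rfl).symm
      have h2 : c * z ^ i * c⁻¹ = z ^ i := by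
        rw [(h1.zpow_right i).eq, mul_inv_cancel_right]
      rw [h2]
      exact Subgroup.zpow_mem _ (Subgroup.mem_zpowers z) i
  · have h1 : t ∈ Subgroup.normalizer (S : Set G) := htS (Subgroup.mem_zpowers t)
    have h2 : orderOf (⟨t, h1⟩ : Subgroup.normalizer (S : Set G)) ∣
        Nat.card (Subgroup.normalizer (S : Set G)) := orderOf_dvd_natCard _
    rw [Subgroup.orderOf_mk, ht2] at h2
    exact even_iff_two_dvd.2 h2

theorem result {G : Type*} [Group G] [Finite G] (p : ℕ) [Fact p.Prime] (hp2 : p ≠ 2) (hpG : p ∣ Nat.card G) (h2G : 2 ∣ Nat.card G) (hC : ∀ g : G, g ≠ 1 → (∃ k : ℕ, orderOf g = p ^ k) → Odd (Nat.card ↥(Subgroup.centralizer ({g} : Set G)))) (Q : Subgroup G) (hQ : IsPGroup p ↥Q) (hQ1 : Q ≠ ⊥) (hev : Even (Nat.card ↥(Subgroup.normalizer (Q : Set G)))) (P : Sylow p G) : Even (Nat.card ↥(Subgroup.normalizer ((P : Subgroup G) : Set G))) := by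
  have hpp : p.Prime := Fact.out
  obtain ⟨z, hzQ, hz1⟩ : ∃ z ∈ Q, z ≠ 1 := by
    obtain ⟨a, ha⟩ := (Subgroup.ne_bot_iff_exists_ne_one (H := Q)).1 hQ1
    exact ⟨a.1, a.2, fun h => ha (Subtype.ext h)⟩
  obtain ⟨S, hSK, hSp, hScard, hzS, hSev⟩ := step p hC Q hQ hev z hzQ hz1
  obtain ⟨P₁, hSP₁⟩ := hSp.exists_le_sylow
  -- S = P₁ ⊓ C(z)
  have hSeq : S = (P₁ : Subgroup G) ⊓ Subgroup.centralizer ({z} : Set G) := by
    apply Subgroup.eq_of_le_of_card_ge (le_inf hSP₁ hSK)
    have h1 : IsPGroup p ((P₁ : Subgroup G) ⊓ Subgroup.centralizer ({z} : Set G) : Subgroup G) :=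
      P₁.2.to_le inf_le_left
    obtain ⟨i, hi⟩ := IsPGroup.iff_card.1 h1
    have h2 : p ^ i ∣ Nat.card (Subgroup.centralizer ({z} : Set G)) :=
      hi ▸ Subgroup.card_dvd_of_le inf_le_right
    have h3 := (hpp.pow_dvd_iff_le_factorization Nat.card_pos.ne').1 h2
    rw [hi, hScard]
    exact Nat.pow_le_pow_right hpp.pos h3
  -- a central element of P₁
  have hP₁nt : Nontrivial (P₁ : Subgroup G) := by
    rw [Subgroup.nontrivial_iff_ne_bot]
    exact P₁.ne_bot_of_dvd_card hpG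
  haveI := hP₁nt
  haveI := P₁.2.center_nontrivial
  obtain ⟨z₁', hz₁'⟩ := (Subgroup.ne_bot_iff_exists_ne_one
    (H := Subgroup.center (P₁ : Subgroup G))).1
    ((Subgroup.nontrivial_iff_ne_bot _).1 inferInstance)
  have hz₁P : ((z₁' : (P₁ : Subgroup G)) : G) ∈ (P₁ : Subgroup G) := (z₁' : (P₁ : Subgroup G)).2
  have hz₁1 : ((z₁' : (P₁ : Subgroup G)) : G) ≠ 1 := by
    intro h
    apply hz₁'
    apply Subtype.ext
    apply Subtype.ext
    exact h
  have hz₁c : ∀ y ∈ (P₁ : Subgroup G), y * ((z₁' : (P₁ : Subgroup G)) : G) =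
      ((z₁' : (P₁ : Subgroup G)) : G) * y := by
    intro y hy
    have h1 := Subgroup.mem_center_iff.1 z₁'.2 ⟨y, hy⟩
    exact congrArg Subtype.val h1
  have hz₁S : ((z₁' : (P₁ : Subgroup G)) : G) ∈ S := by
    rw [hSeq, Subgroup.mem_inf]
    refine ⟨hz₁P, ?_⟩
    rw [Subgroup.mem_centralizer_iff]
    intro w hw
    rw [Set.mem_singleton_iff] at hw
    subst hw
    exact hz₁c w (hSP₁ hzS)
  obtain ⟨S₁, hS₁K, hS₁p, hS₁card, -, hS₁ev⟩ := step p hC S hSp hSev _ hz₁S hz₁1
  have hP₁C : (P₁ : Subgroup G) ≤ Subgroup.centralizer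
      ({((z₁' : (P₁ : Subgroup G)) : G)} : Set G) := by
    intro y hy
    rw [Subgroup.mem_centralizer_iff]
    intro w hw
    rw [Set.mem_singleton_iff] at hw
    subst hw
    exact (hz₁c y hy).symm
  have hS₁card' : Nat.card S₁ = p ^ (Nat.card G).factorization p := by
    rw [hS₁card]
    congr 1
    apply le_antisymm
    · have h1 : p ^ (Nat.card (Subgroup.centralizer
          ({((z₁' : (P₁ : Subgroup G)) : G)} : Set G))).factorization p ∣ Nat.card G :=
        (Nat.ordProj_dvd _ _).trans (Subgroup.card_subgroup_dvd_card _)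
      exact (hpp.pow_dvd_iff_le_factorization Nat.card_pos.ne').1 h1
    · have h1 : p ^ (Nat.card G).factorization p ∣ Nat.card (Subgroup.centralizer
          ({((z₁' : (P₁ : Subgroup G)) : G)} : Set G)) := by
        rw [← P₁.card_eq_multiplicity]
        exact Subgroup.card_dvd_of_le hP₁C
      exact (hpp.pow_dvd_iff_le_factorization Nat.card_pos.ne').1 h1
  have h1 := (Sylow.ofCard S₁ hS₁card').card_eq_index_normalizer
  have h2 := P.card_eq_index_normalizer
  have h3 : Nat.card (Subgroup.normalizer ((P : Subgroup G) : Set G)) =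
      Nat.card (Subgroup.normalizer (S₁ : Set G)) := by
    have h4 := Subgroup.card_mul_index (Subgroup.normalizer ((P : Subgroup G) : Set G))
    have h5 := Subgroup.card_mul_index (Subgroup.normalizer (S₁ : Set G))
    have h6 : (Subgroup.normalizer ((P : Subgroup G) : Set G)).index =
        (Subgroup.normalizer (S₁ : Set G)).index := by
      exact h2.symm.trans h1
    rw [h6] at h4
    have hpos : 0 < (Subgroup.normalizer (S₁ : Set G)).index :=
      Nat.pos_of_ne_zero (Subgroup.index_ne_zero_of_finite)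
    exact Nat.eq_of_mul_eq_mul_right hpos (h4.trans h5.symm)
  rw [h3]
  exact hS₁ev

end Cfsg.Agent.S3982
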