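import Cfsg.Statements.S3983
import Mathlib
import Cfsg.Agent.Helper7.SylowLemmas
import Cfsg.Agent.Helper7.Conj

set_option autoImplicit false
open scoped Pointwise
open Cfsg

namespace Cfsg.Agent.S3983

open Cfsg.Agent.Helper7 in
theorem result {G : Type*} [Group G] [Finite G] (p : ℕ) [Fact p.Prime] (P : Sylow p G) (hTI : ∀ g : G, g ∉ Subgroup.normalizer ((P : Subgroup G) : Set G) → (P : Subgroup G) ⊓ (MulAut.conj g • (P : Subgroup G)) = ⊥) (U : Subgroup G) (hU : p ∣ Nat.card ↥U) (Q : Sylow p ↥U) : ∀ u : ↥U, u ∉ Subgroup.normalizer ((Q : Subgroup ↥U) : Set ↥U) → (Q : Subgroup ↥U) ⊓ (MulAut.conj u • (Q : Subgroup ↥U)) = ⊥ := by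
  intro u hu
  have hQ' : IsPGroup p ((Q : Subgroup U).map U.subtype) := Q.2.map _
  obtain ⟨P₁, hP₁⟩ := hQ'.exists_le_sylow
  obtain ⟨g, hg⟩ := MulAction.exists_smul_eq G P P₁
  rw [eq_bot_iff]
  intro x hx
  rw [Subgroup.mem_inf, mem_conj_smul_iff] at hx
  rw [Subgroup.mem_bot]
  by_contra hx1
  apply hu
  have h1 : (x : G) ∈ P₁ := hP₁ (Subgroup.mem_map_of_mem _ hx.1)
  have h2 : ((u⁻¹ * x * u : U) : G) ∈ P₁ := hP₁ (Subgroup.mem_map_of_mem _ hx.2)
  have hu' : (u : G) ∈ Subgroup.normalizer ((P₁ : Subgroup G) : Set G) := by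
    by_contra hcon
    have h3 : g⁻¹ * (u : G) * g ∉ Subgroup.normalizer ((P : Subgroup G) : Set G) := by
      intro h
      apply hcon
      have h' : (g⁻¹ * (u : G) * g) • P = P := Sylow.smul_eq_iff_mem_normalizer.2 h
      apply Sylow.smul_eq_iff_mem_normalizer.1
      rw [← hg, ← mul_smul]
      have e : (u : G) * g = g * (g⁻¹ * u * g) := by group
      rw [e, mul_smul, h']
    have h4 := hTI _ h3
    have h5 : g⁻¹ * (x : G) * g ∈
        (P : Subgroup G) ⊓ (MulAut.conj (g⁻¹ * (u : G) * g) • (P : Subgroup G)) := by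
      rw [Subgroup.mem_inf, mem_conj_smul_iff]
      constructor
      · have h6 := h1
        rw [← hg, mem_smul_sylow_iff] at h6
        exact h6
      · have h6 := h2
        rw [← hg, mem_smul_sylow_iff] at h6
        have e : (g⁻¹ * (u : G) * g)⁻¹ * (g⁻¹ * (x : G) * g) * (g⁻¹ * (u : G) * g) =
            g⁻¹ * ((u⁻¹ * x * u : U) : G) * g := by
          simp only [Subgroup.coe_mul, Subgroup.coe_inv]
          group
        rw [e]
        exact h6
    rw [h4, Subgroup.mem_bot] at h5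
    apply hx1
    have h7 : (x : G) = 1 := by
      have e : (x : G) = g * (g⁻¹ * (x : G) * g) * g⁻¹ := by group
      rw [e, h5]
      group
    exact Subtype.ext h7
  have hT : IsPGroup p ((P₁ : Subgroup G).subgroupOf U) :=
    P₁.2.comap_of_injective U.subtype U.subtype_injective
  have hQT : (Q : Subgroup U) ≤ (P₁ : Subgroup G).subgroupOf U := by
    intro y hy
    exact Subgroup.mem_subgroupOf.2 (hP₁ (Subgroup.mem_map_of_mem _ hy))
  have hTQ : (P₁ : Subgroup G).subgroupOf U = Q := Q.3 hT hQT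
  apply Sylow.smul_eq_iff_mem_normalizer.1
  refine (sylow_eq_of_le (u • Q) Q ?_).symm
  intro y hy
  have h3 : u⁻¹ * y * u ∈ Q := (mem_smul_sylow_iff u y Q).1 hy
  have h4 : ((u⁻¹ * y * u : U) : G) ∈ P₁ := hP₁ (Subgroup.mem_map_of_mem _ h3)
  have h5 := (Subgroup.mem_normalizer_iff.1 hu' _).1 h4
  have e : (u : G) * ((u⁻¹ * y * u : U) : G) * (u : G)⁻¹ = (y : G) := by
    simp only [Subgroup.coe_mul, Subgroup.coe_inv]
    group
  rw [e] at h5
  have h6 : y ∈ (P₁ : Subgroup G).subgroupOf U := Subgroup.mem_subgroupOf.2 h5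
  rw [hTQ] at h6
  exact h6

end Cfsg.Agent.S3983
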