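import Cfsg.Statements.S3984
import Mathlib
import Cfsg.Agent.Helper7.TISylow
import Cfsg.Agent.Helper7.RelSylow

set_option autoImplicit false
open scoped Pointwise
open Cfsg

namespace Cfsg.Agent.S3984

open Cfsg.Agent.Helper7 in
theorem result {G : Type*} [Group G] [Finite G] (p : ℕ) [Fact p.Prime] (P : Sylow p G) (hTI : ∀ g : G, g ∉ Subgroup.normalizer ((P : Subgroup G) : Set G) → (P : Subgroup G) ⊓ (MulAut.conj g • (P : Subgroup G)) = ⊥) (N : Subgroup G) [N.Normal] (hN : (Nat.card ↥N).Coprime p) (Q : Sylow p (G ⧸ N)) : ∀ x : G ⧸ N, x ∉ Subgroup.normalizer ((Q : Subgroup (G ⧸ N)) : Set (G ⧸ N)) → (Q : Subgroup (G ⧸ N)) ⊓ (MulAut.conj x • (Q : Subgroup (G ⧸ N))) = ⊥ := by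
  obtain ⟨P₁, hP₁⟩ := Sylow.mapSurjective_surjective (QuotientGroup.mk'_surjective N) p Q
  have hQ : (Q : Subgroup (G ⧸ N)) = (P₁ : Subgroup G).map (QuotientGroup.mk' N) := by
    rw [← hP₁]
    rfl
  intro xbar hxbar
  obtain ⟨x, rfl⟩ := QuotientGroup.mk'_surjective N xbar
  rw [eq_bot_iff]
  intro ybar hybar
  rw [Subgroup.mem_inf, mem_conj_smul_iff, hQ] at hybar
  rw [Subgroup.mem_bot]
  by_contra hy1
  apply hxbar
  obtain ⟨y, hyP, rfl⟩ := Subgroup.mem_map.1 hybar.1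
  obtain ⟨z, hzP, hz⟩ := Subgroup.mem_map.1 hybar.2
  have hzN : z⁻¹ * (x⁻¹ * y * x) ∈ N := by
    rw [← QuotientGroup.eq_one_iff, QuotientGroup.mk_mul, QuotientGroup.mk_inv]
    have h1 : ((z : G) : G ⧸ N) = QuotientGroup.mk' N z := rfl
    rw [h1, hz]
    have h2 : ((x⁻¹ * y * x : G) : G ⧸ N) =
        (QuotientGroup.mk' N x)⁻¹ * QuotientGroup.mk' N y * QuotientGroup.mk' N x := by
      simp
    rw [h2, inv_mul_cancel]
  have hmem : x⁻¹ * y * x ∈ (P₁ : Subgroup G) ⊔ N := by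
    have e : x⁻¹ * y * x = z * (z⁻¹ * (x⁻¹ * y * x)) := by group
    rw [e]
    exact Subgroup.mul_mem_sup hzP hzN
  have hidx : ¬ p ∣ (P₁ : Subgroup G).relIndex ((P₁ : Subgroup G) ⊔ N) := by
    intro hdiv
    apply P₁.not_dvd_index
    have h1 := Subgroup.relIndex_mul_index (le_sup_left : (P₁ : Subgroup G) ≤ (P₁ : Subgroup G) ⊔ N)
    rw [← h1]
    exact Dvd.dvd.mul_right hdiv _
  obtain ⟨k, hk⟩ := orderOf_eq_prime_pow_of_mem_sylow P₁ y hyP
  have hzp : IsPGroup p (Subgroup.zpowers (x⁻¹ * y * x)) := by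
    apply IsPGroup.of_card (n := k)
    rw [Nat.card_zpowers, ← hk]
    have h1 := orderOf_conj_eq x⁻¹ y
    rwa [inv_inv] at h1
  obtain ⟨c, hcH, hc⟩ := exists_conj_le_of_not_dvd_relIndex ((P₁ : Subgroup G) ⊔ N)
    (P₁ : Subgroup G) (Subgroup.zpowers (x⁻¹ * y * x)) P₁.2 hidx hzp
    (Subgroup.zpowers_le.2 hmem)
  obtain ⟨a, ha, n, hn, rfl⟩ := Subgroup.mem_sup_of_normal_right.1 hcH
  have h1 := hc _ (Subgroup.mem_zpowers _)
  have h2 : (x * n⁻¹)⁻¹ * y * (x * n⁻¹) ∈ P₁ := by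
    have h3 := Subgroup.mul_mem _ (Subgroup.mul_mem _ (Subgroup.inv_mem _ ha) h1) ha
    have e : a⁻¹ * (a * n * (x⁻¹ * y * x) * (a * n)⁻¹) * a = (x * n⁻¹)⁻¹ * y * (x * n⁻¹) := by
      group
    rwa [e] at h3
  have hy1' : y ≠ 1 := by
    rintro rfl
    exact hy1 (map_one _)
  have hw := mem_normalizer_of_TI_sylow P hTI P₁ (x * n⁻¹) y hyP h2 hy1'
  have hw' : QuotientGroup.mk' N (x * n⁻¹) ∈
      Subgroup.normalizer (((P₁ : Subgroup G).map (QuotientGroup.mk' N) : Subgroup (G ⧸ N)) :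
        Set (G ⧸ N)) :=
    Subgroup.le_normalizer_map _ (Subgroup.mem_map_of_mem _ hw)
  have hxn : QuotientGroup.mk' N (x * n⁻¹) = QuotientGroup.mk' N x := by
    rw [map_mul]
    have h3 : QuotientGroup.mk' N n⁻¹ = 1 :=
      (QuotientGroup.eq_one_iff _).2 (Subgroup.inv_mem _ hn)
    rw [h3, mul_one]
  rw [hxn, ← hQ] at hw'
  exact hw'

end Cfsg.Agent.S3984
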