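import Cfsg.Statements.S3985
import Mathlib
import Cfsg.Agent.Helper7.SylowLemmas
import Cfsg.Agent.Helper7.Conj

set_option autoImplicit false
open scoped Pointwise
open Cfsg

namespace Cfsg.Agent.S3985

open Cfsg.Agent.Helper7 in
theorem mem_centralizer_of_cyclic_sylow {G : Type*} [Group G] [Finite G] {p : ℕ} [Fact p.Prime]
    (P : Sylow p G) (hcyc : IsCyclic (P : Subgroup G)) (g : G)
    (hgN : g ∈ Subgroup.normalizer ((P : Subgroup G) : Set G)) (x : G) (hx : x ∈ P) (hx1 : x ≠ 1)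
    (hgx : g * x = x * g) : g ∈ Subgroup.centralizer ((P : Subgroup G) : Set G) := by
  have hpp : p.Prime := Fact.out
  haveI := hcyc
  obtain ⟨u₀, hu₀⟩ := IsCyclic.exists_generator (α := (P : Subgroup G))
  have hgen : ∀ y ∈ (P : Subgroup G), ∃ e : ℤ, (u₀ : G) ^ e = y := by
    intro y hy
    obtain ⟨e, he⟩ := Subgroup.mem_zpowers_iff.1 (hu₀ ⟨y, hy⟩)
    refine ⟨e, ?_⟩
    have h1 := congrArg Subtype.val he
    simpa using h1
  have hcomm : ∀ y ∈ (P : Subgroup G), ∀ z ∈ (P : Subgroup G), y * z = z * y := by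
    intro y hy z hz
    obtain ⟨a, rfl⟩ := hgen y hy
    obtain ⟨b, rfl⟩ := hgen z hz
    rw [← zpow_add, ← zpow_add, add_comm]
  obtain ⟨n, hn⟩ := orderOf_eq_prime_pow_of_mem_sylow P (u₀ : G) u₀.2
  obtain ⟨k, hk⟩ := hgen (g * u₀ * g⁻¹) ((Subgroup.mem_normalizer_iff.1 hgN u₀).1 u₀.2)
  have hconj : ∀ (e : ℤ), g * (u₀ : G) ^ e * g⁻¹ = ((u₀ : G) ^ e) ^ k := by
    intro e
    have h1 : g * (u₀ : G) ^ e * g⁻¹ = (g * u₀ * g⁻¹) ^ e := by
      have h2 := (MulAut.conj g).toMonoidHom.map_zpow (u₀ : G) e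
      simpa [MulAut.conj_apply] using h2
    rw [h1, ← hk, ← zpow_mul, ← zpow_mul, mul_comm]
  have hpow : ∀ j : ℕ, g ^ j * (u₀ : G) * (g ^ j)⁻¹ = (u₀ : G) ^ (k ^ j) := by
    intro j
    induction j with
    | zero => simp
    | succ j ih =>
      have e1 : g ^ (j + 1) * (u₀ : G) * (g ^ (j + 1))⁻¹ =
          g * (g ^ j * (u₀ : G) * (g ^ j)⁻¹) * g⁻¹ := by
        rw [pow_succ']
        group
      rw [e1, ih, hconj, ← zpow_mul, pow_succ]
  obtain ⟨e, he⟩ := hgen x hx
  have h1 : ((u₀ : G) ^ e) ^ k = (u₀ : G) ^ e := by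
    rw [← hconj, he, hgx, mul_inv_cancel_right]
  have h2 : ((orderOf (u₀ : G) : ℕ) : ℤ) ∣ e * k - e := by
    rw [orderOf_dvd_iff_zpow_eq_one, zpow_sub, zpow_mul, h1, mul_inv_cancel]
  have h3 : ¬ ((orderOf (u₀ : G) : ℕ) : ℤ) ∣ e := by
    rw [orderOf_dvd_iff_zpow_eq_one, he]
    exact hx1
  have h4 : (p : ℤ) ∣ k - 1 := by
    by_contra hcon
    apply h3
    rw [hn] at h2 ⊢
    have hcop : IsCoprime ((p : ℤ) ^ n) (k - 1) := by
      apply IsCoprime.pow_left
      exact (Nat.prime_iff_prime_int.1 hpp).coprime_iff_not_dvd.2 hcon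
    push_cast at h2 ⊢
    apply hcop.dvd_of_dvd_mul_right
    have e2 : e * (k - 1) = e * k - e := by ring
    rw [e2]
    exact h2
  have h5 : ((p : ℤ) ^ (n + 1)) ∣ k ^ p ^ n - 1 := by
    have h6 := dvd_sub_pow_of_dvd_sub (R := ℤ) (p := p) (a := k) (b := 1) h4 n
    simpa using h6
  have h6 : (u₀ : G) ^ (k ^ p ^ n) = (u₀ : G) := by
    have h7 : ((orderOf (u₀ : G) : ℕ) : ℤ) ∣ k ^ p ^ n - 1 := by
      rw [hn]
      push_cast
      exact (Dvd.intro _ (pow_succ (p : ℤ) n).symm).trans h5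
    rw [orderOf_dvd_iff_zpow_eq_one, zpow_sub, zpow_one] at h7
    exact mul_inv_eq_one.1 h7
  have hC1 : g ^ (p ^ n) ∈ Subgroup.centralizer ((P : Subgroup G) : Set G) := by
    rw [Subgroup.mem_centralizer_iff]
    intro y hy
    obtain ⟨b, rfl⟩ := hgen y hy
    have h7 := hpow (p ^ n)
    rw [h6] at h7
    have h8 : Commute (g ^ (p ^ n)) (u₀ : G) := by
      show g ^ (p ^ n) * u₀ = u₀ * g ^ (p ^ n)
      calc g ^ (p ^ n) * u₀ = (g ^ (p ^ n) * u₀ * (g ^ (p ^ n))⁻¹) * g ^ (p ^ n) := by group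
        _ = u₀ * g ^ (p ^ n) := by rw [h7]
    exact ((h8.zpow_right b).eq).symm
  -- a `p'`-power of `g` lies in `P`
  haveI : ((P : Subgroup G).subgroupOf (Subgroup.normalizer ((P : Subgroup G) : Set G))).Normal :=
    Subgroup.normal_in_normalizer
  have hC2 : g ^ ((P : Subgroup G).relIndex (Subgroup.normalizer ((P : Subgroup G) : Set G))) ∈
      Subgroup.centralizer ((P : Subgroup G) : Set G) := by
    have h7 : (QuotientGroup.mk (⟨g, hgN⟩ : Subgroup.normalizer ((P : Subgroup G) : Set G)) :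
        Subgroup.normalizer ((P : Subgroup G) : Set G) ⧸
          (P : Subgroup G).subgroupOf (Subgroup.normalizer ((P : Subgroup G) : Set G))) ^
        Nat.card (Subgroup.normalizer ((P : Subgroup G) : Set G) ⧸
          (P : Subgroup G).subgroupOf (Subgroup.normalizer ((P : Subgroup G) : Set G))) = 1 :=
      pow_card_eq_one'
    rw [← QuotientGroup.mk_pow, QuotientGroup.eq_one_iff, Subgroup.mem_subgroupOf] at h7
    have h8 : g ^ ((P : Subgroup G).relIndex (Subgroup.normalizer ((P : Subgroup G) : Set G))) ∈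
        (P : Subgroup G) := h7
    rw [Subgroup.mem_centralizer_iff]
    intro y hy
    exact hcomm y hy _ h8
  have hcop : Nat.Coprime (p ^ n)
      ((P : Subgroup G).relIndex (Subgroup.normalizer ((P : Subgroup G) : Set G))) := by
    apply Nat.Coprime.pow_left
    rw [Nat.Prime.coprime_iff_not_dvd hpp]
    intro hdiv
    apply P.not_dvd_index
    have h7 := Subgroup.relIndex_mul_index
      (Subgroup.le_normalizer : (P : Subgroup G) ≤ Subgroup.normalizer ((P : Subgroup G) : Set G))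
    rw [← h7]
    exact Dvd.dvd.mul_right hdiv _
  have hbez := Nat.gcd_eq_gcd_ab (p ^ n)
    ((P : Subgroup G).relIndex (Subgroup.normalizer ((P : Subgroup G) : Set G)))
  rw [hcop.gcd_eq_one] at hbez
  have hg : g = (g ^ (p ^ n)) ^ (Nat.gcdA (p ^ n)
      ((P : Subgroup G).relIndex (Subgroup.normalizer ((P : Subgroup G) : Set G)))) *
      (g ^ ((P : Subgroup G).relIndex (Subgroup.normalizer ((P : Subgroup G) : Set G)))) ^
      (Nat.gcdB (p ^ n)
      ((P : Subgroup G).relIndex (Subgroup.normalizer ((P : Subgroup G) : Set G)))) := by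
    rw [← zpow_natCast g (p ^ n), ← zpow_natCast g ((P : Subgroup G).relIndex _), ← zpow_mul,
      ← zpow_mul, ← zpow_add, ← hbez]
    simp
  rw [hg]
  exact Subgroup.mul_mem _ (Subgroup.zpow_mem _ hC1 _) (Subgroup.zpow_mem _ hC2 _)

open Cfsg.Agent.Helper7 in
theorem result {G : Type*} [Group G] [Finite G] (p : ℕ) [Fact p.Prime] (P : Sylow p G) (hcyc : IsCyclic ↥(P : Subgroup G)) : (∀ g : G, g ∉ Subgroup.normalizer ((P : Subgroup G) : Set G) → (P : Subgroup G) ⊓ (MulAut.conj g • (P : Subgroup G)) = ⊥) ↔ ∀ x : G, x ∈ (P : Subgroup G) → x ≠ 1 → Subgroup.centralizer ({x} : Set G) = Subgroup.centralizer ((P : Subgroup G) : Set G) := by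
  haveI := hcyc
  have hcomm : ∀ y ∈ (P : Subgroup G), ∀ z ∈ (P : Subgroup G), y * z = z * y := by
    intro y hy z hz
    have h1 := mul_comm_of_isCyclic (G := (P : Subgroup G)) ⟨y, hy⟩ ⟨z, hz⟩
    exact congrArg Subtype.val h1
  constructor
  · intro hTI x hx hx1
    apply le_antisymm
    · intro g hg
      rw [Subgroup.mem_centralizer_iff] at hg
      have hgx : g * x = x * g := (hg x rfl).symm
      have hgN : g ∈ Subgroup.normalizer ((P : Subgroup G) : Set G) := by
        by_contra hcon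
        have h1 := hTI g hcon
        have h2 : x ∈ (P : Subgroup G) ⊓ (MulAut.conj g • (P : Subgroup G)) := by
          rw [Subgroup.mem_inf, mem_conj_smul_iff]
          refine ⟨hx, ?_⟩
          have e : g⁻¹ * x * g = x := by
            rw [mul_assoc, ← hgx, inv_mul_cancel_left]
          rw [e]
          exact hx
        rw [h1, Subgroup.mem_bot] at h2
        exact hx1 h2
      exact mem_centralizer_of_cyclic_sylow P hcyc g hgN x hx hx1 hgx
    · intro g hg
      rw [Subgroup.mem_centralizer_iff] at hg ⊢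
      intro y hy
      rw [Set.mem_singleton_iff] at hy
      subst hy
      exact hg y hx
  · intro hC g hg
    rw [eq_bot_iff]
    intro x hx
    rw [Subgroup.mem_inf, mem_conj_smul_iff] at hx
    rw [Subgroup.mem_bot]
    by_contra hx1
    apply hg
    have hx1' : g⁻¹ * x * g ≠ 1 := by
      intro h
      apply hx1
      have e : x = g * (g⁻¹ * x * g) * g⁻¹ := by group
      rw [e, h]
      group
    have hC2 := hC _ hx.2 hx1'
    -- g⁻¹ • P ≤ C(P)
    have hle : ((g⁻¹ • P : Sylow p G) : Subgroup G) ≤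
        Subgroup.centralizer ((P : Subgroup G) : Set G) := by
      intro y hy
      have h1 : g * y * g⁻¹ ∈ P := by
        have h2 := (mem_smul_sylow_iff g⁻¹ y P).1 hy
        rwa [inv_inv] at h2
      rw [← hC2, Subgroup.mem_centralizer_iff]
      intro z hz
      rw [Set.mem_singleton_iff] at hz
      subst hz
      have h3 := hcomm _ h1 x hx.1
      calc g⁻¹ * x * g * y = g⁻¹ * (x * (g * y * g⁻¹)) * g := by group
        _ = g⁻¹ * ((g * y * g⁻¹) * x) * g := by rw [h3]
        _ = y * (g⁻¹ * x * g) := by group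
    have h4 := (g⁻¹ • P).2.inf_normalizer_sylow P
    have h5 : ((g⁻¹ • P : Sylow p G) : Subgroup G) ≤ P := by
      have h6 : ((g⁻¹ • P : Sylow p G) : Subgroup G) ≤
          ((g⁻¹ • P : Sylow p G) : Subgroup G) ⊓ Subgroup.normalizer ((P : Subgroup G) : Set G) :=
        le_inf le_rfl (hle.trans (Subgroup.centralizer_le_normalizer _))
      exact (h6.trans h4.le).trans inf_le_right
    have h6 : g⁻¹ • P = P := (sylow_eq_of_le (g⁻¹ • P) P h5).symm
    have h7 : g⁻¹ ∈ Subgroup.normalizer ((P : Subgroup G) : Set G) :=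
      Sylow.smul_eq_iff_mem_normalizer.1 h6
    have h8 := Subgroup.inv_mem _ h7
    rwa [inv_inv] at h8

end Cfsg.Agent.S3985
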