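import Cfsg.Statements.S3986
import Mathlib
import Cfsg.Agent.Helper7.SylowLemmas
import Cfsg.Agent.Helper7.SylowMore

set_option autoImplicit false
open Cfsg

namespace Cfsg.Agent.S3986

open Cfsg.Agent.Helper7 in
theorem commute_of_coprime {G : Type*} [Group G] [Finite G] (p : ℕ) (hp : p.Prime)
    (hcomm : ∀ x y : G, (∃ a : ℕ, orderOf x = p ^ a) →
      (∃ q b : ℕ, q.Prime ∧ q ≠ p ∧ orderOf y = q ^ b) → x * y = y * x)
    (x : G) (hx : ∃ a : ℕ, orderOf x = p ^ a) :
    ∀ (n : ℕ) (y : G), orderOf y = n → (orderOf y).Coprime p → x * y = y * x := by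
  intro n
  induction n using Nat.strong_induction_on with
  | _ n ih =>
    intro y hyn hyp
    by_cases h1 : orderOf y = 1
    · rw [orderOf_eq_one_iff.1 h1, mul_one, one_mul]
    obtain ⟨q, hq, hqy⟩ := Nat.exists_prime_and_dvd h1
    have hqp : q ≠ p := by
      rintro rfl
      have h2 := Nat.dvd_gcd hqy (dvd_refl q)
      rw [hyp] at h2
      exact hq.one_lt.ne' (Nat.dvd_one.1 h2)
    obtain ⟨u, v, a, hyuv, huv, hu, hv, huz, hvz⟩ := exists_pPart_mul q hq y
    have hu' : ∃ b : ℕ, orderOf u = q ^ b := by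
      obtain ⟨b, -, hb⟩ := (Nat.dvd_prime_pow hq).1 (orderOf_dvd_of_pow_eq_one hu)
      exact ⟨b, hb⟩
    obtain ⟨b, hb⟩ := hu'
    have hxu : x * u = u * x := hcomm x u hx ⟨q, b, hq, hqp, hb⟩
    have hvdvd : orderOf v ∣ orderOf y := by
      have h2 := Subgroup.orderOf_dvd_natCard (Subgroup.zpowers y) hvz
      rwa [Nat.card_zpowers] at h2
    have hvlt : orderOf v < n := by
      rw [← hyn]
      apply lt_of_le_of_ne (Nat.le_of_dvd (orderOf_pos y) hvdvd)
      intro h
      rw [h] at hv
      have h2 := Nat.dvd_gcd hqy (dvd_refl q)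
      rw [hv] at h2
      exact hq.one_lt.ne' (Nat.dvd_one.1 h2)
    have hxv : x * v = v * x := ih _ hvlt v rfl (Nat.Coprime.coprime_dvd_left hvdvd hyp)
    rw [hyuv, ← mul_assoc, hxu, mul_assoc, hxv, ← mul_assoc]

open Cfsg.Agent.Helper7 in
theorem result {G : Type*} [Group G] [Finite G] (p : ℕ) [Fact p.Prime] : (∃ (P : Sylow p G) (K : Subgroup G), (P : Subgroup G).Normal ∧ K.Normal ∧ (P : Subgroup G) ⊓ K = ⊥ ∧ (P : Subgroup G) ⊔ K = ⊤) ↔ ∀ x y : G, (∃ a : ℕ, orderOf x = p ^ a) → (∃ q b : ℕ, q.Prime ∧ q ≠ p ∧ orderOf y = q ^ b) → x * y = y * x := by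
  have hpp : p.Prime := Fact.out
  constructor
  · rintro ⟨P, K, hPn, hKn, hPK, hPKtop⟩ x y ⟨a, ha⟩ ⟨q, b, hq, hqp, hb⟩
    haveI := hPn
    haveI := hKn
    have hxP : x ∈ (P : Subgroup G) := by
      obtain ⟨P', hP'⟩ := exists_sylow_mem_of_orderOf_eq_prime_pow (p := p) x a ha
      obtain ⟨g, hg⟩ := MulAction.exists_smul_eq G P P'
      rw [Sylow.smul_eq_of_normal] at hg
      rw [hg]
      exact hP'
    have hyPK : y ∈ (P : Subgroup G) ⊔ K := by
      rw [hPKtop]
      exact Subgroup.mem_top y
    obtain ⟨u, hu, k, hk, rfl⟩ := Subgroup.mem_sup_of_normal_right.1 hyPK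
    have hdis : Disjoint (P : Subgroup G) K := disjoint_iff.2 hPK
    have huk : Commute u k := Subgroup.commute_of_normal_of_disjoint _ _ hPn hKn hdis u k hu hk
    have h1 : (u * k) ^ (q ^ b) = 1 := by
      rw [← hb]
      exact pow_orderOf_eq_one _
    rw [huk.mul_pow] at h1
    have h2 : u ^ (q ^ b) ∈ (P : Subgroup G) ⊓ K := by
      rw [Subgroup.mem_inf]
      refine ⟨Subgroup.pow_mem _ hu _, ?_⟩
      have h3 : u ^ (q ^ b) = (k ^ (q ^ b))⁻¹ := eq_inv_of_mul_eq_one_left h1
      rw [h3]
      exact Subgroup.inv_mem _ (Subgroup.pow_mem _ hk _)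
    rw [hPK, Subgroup.mem_bot] at h2
    obtain ⟨i, hi⟩ := orderOf_eq_prime_pow_of_mem_sylow P u hu
    have h3 : orderOf u ∣ q ^ b := orderOf_dvd_of_pow_eq_one h2
    have hu1 : u = 1 := by
      rw [← orderOf_eq_one_iff]
      rw [hi] at h3 ⊢
      by_contra hne
      have hi0 : i ≠ 0 := by
        rintro rfl
        exact hne (pow_zero p)
      have h4 : p ∣ q ^ b := (dvd_pow_self p hi0).trans h3
      have h5 := (Nat.prime_dvd_prime_iff_eq hpp hq).1 (hpp.dvd_of_dvd_pow h4)
      exact hqp h5.symm
    rw [hu1, one_mul]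
    have hdis' := Subgroup.commute_of_normal_of_disjoint _ _ hPn hKn hdis x k hxP hk
    exact hdis'.eq
  · intro hcomm
    let P : Sylow p G := default
    -- P is normal
    have hN : Subgroup.normalizer ((P : Subgroup G) : Set G) = ⊤ := by
      rw [← Subgroup.card_eq_iff_eq_top]
      apply Nat.dvd_antisymm (Subgroup.card_subgroup_dvd_card _)
      rw [Nat.dvd_iff_prime_pow_dvd_dvd]
      intro q k hq hqk
      haveI := Fact.mk hq
      have hk : k ≤ (Nat.card G).factorization q :=
        (hq.pow_dvd_iff_le_factorization Nat.card_pos.ne').1 hqk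
      by_cases hqp : q = p
      · subst hqp
        have h1 : Nat.card (P : Subgroup G) ∣
            Nat.card (Subgroup.normalizer ((P : Subgroup G) : Set G)) :=
          Subgroup.card_dvd_of_le Subgroup.le_normalizer
        rw [P.card_eq_multiplicity] at h1
        exact (pow_dvd_pow q hk).trans h1
      · let Q : Sylow q G := default
        have hQC : (Q : Subgroup G) ≤ Subgroup.centralizer ((P : Subgroup G) : Set G) := by
          intro y hy
          rw [Subgroup.mem_centralizer_iff]
          intro x hx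
          obtain ⟨a, ha⟩ := orderOf_eq_prime_pow_of_mem_sylow P x hx
          obtain ⟨b, hb⟩ := orderOf_eq_prime_pow_of_mem_sylow Q y hy
          exact hcomm x y ⟨a, ha⟩ ⟨q, b, hq, hqp, hb⟩
        have h1 : Nat.card (Q : Subgroup G) ∣
            Nat.card (Subgroup.normalizer ((P : Subgroup G) : Set G)) :=
          Subgroup.card_dvd_of_le (hQC.trans (Subgroup.centralizer_le_normalizer _))
        rw [Q.card_eq_multiplicity] at h1
        exact (pow_dvd_pow q hk).trans h1
    have hPn : (P : Subgroup G).Normal := Subgroup.normalizer_eq_top_iff.1 hN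
    haveI := hPn
    have hcop : Nat.Coprime (Nat.card (P : Subgroup G)) (P : Subgroup G).index := by
      rw [P.card_eq_multiplicity]
      apply Nat.Coprime.pow_left
      rw [Nat.Prime.coprime_iff_not_dvd hpp]
      exact P.not_dvd_index
    obtain ⟨H, hH⟩ := Subgroup.exists_right_complement'_of_coprime hcop
    have hHcard : Nat.card H = (P : Subgroup G).index := by
      have h1 := hH.card_mul_card
      have h2 := Subgroup.card_mul_index (P : Subgroup G)
      have hpos : 0 < Nat.card (P : Subgroup G) := Nat.card_pos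
      exact Nat.eq_of_mul_eq_mul_left hpos (h1.trans h2.symm)
    have hHP : ∀ x ∈ (P : Subgroup G), ∀ h ∈ H, x * h = h * x := by
      intro x hx h hh
      obtain ⟨a, ha⟩ := orderOf_eq_prime_pow_of_mem_sylow P x hx
      apply commute_of_coprime p hpp hcomm x ⟨a, ha⟩ _ h rfl
      have h1 : orderOf h ∣ (P : Subgroup G).index := by
        rw [← hHcard]
        exact Subgroup.orderOf_dvd_natCard H hh
      apply Nat.Coprime.coprime_dvd_left h1
      rw [Nat.coprime_comm, Nat.Prime.coprime_iff_not_dvd hpp]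
      exact P.not_dvd_index
    have hHn : H.Normal := by
      rw [← Subgroup.normalizer_eq_top_iff, eq_top_iff, ← hH.sup_eq_top]
      apply sup_le
      · intro x hx
        rw [Subgroup.mem_normalizer_iff]
        intro h
        constructor
        · intro hh
          rw [hHP x hx h hh, mul_inv_cancel_right]
          exact hh
        · intro hh
          have h1 := hHP x hx _ hh
          have h2 : h = x * h * x⁻¹ := by
            calc h = x⁻¹ * ((x * h * x⁻¹) * x) := by group
              _ = x⁻¹ * (x * (x * h * x⁻¹)) := by rw [h1]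
              _ = x * h * x⁻¹ := by group
          rw [h2]
          exact hh
      · exact Subgroup.le_normalizer
    exact ⟨P, H, hPn, hHn, disjoint_iff.1 hH.disjoint, hH.sup_eq_top⟩

end Cfsg.Agent.S3986
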