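import Cfsg.Statements.S3987
import Mathlib
import Cfsg.Agent.S3986
import Cfsg.Agent.Lead.Hall
import Cfsg.Agent.Helper7.Basic
import Cfsg.Agent.Helper7.Hypercenter
import Cfsg.Agent.Helper7.SylowQuot2

set_option autoImplicit false
open Cfsg

namespace Cfsg.Agent.S3987

universe u

/-- If the class of `a * b` has size `|a^G| * |b^G|` for all conjugates `a` of `x` and `b` of
`y`, then `x` and `y` commute. -/
theorem commute_of_class_mul {G : Type u} [Group G] [Finite G] (x y : G)
    (h : (Subgroup.centralizer ({x * y} : Set G)).index =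
      (Subgroup.centralizer ({x} : Set G)).index * (Subgroup.centralizer ({y} : Set G)).index) :
    x * y = y * x := by
  classical
  haveI : Fintype G := Fintype.ofFinite G
  have hcard : ∀ z : G, (Finset.univ.filter (fun a => IsConj z a)).card =
      (Subgroup.centralizer ({z} : Set G)).index := by
    intro z
    rw [← Cfsg.Agent.Helper7.card_isConj_eq_index_centralizer z, Nat.card_eq_fintype_card,
      Fintype.card_subtype]
  have hsub : Finset.univ.filter (fun a => IsConj (x * y) a) ⊆
      ((Finset.univ.filter (fun a => IsConj x a)) ×ˢ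
        (Finset.univ.filter (fun a => IsConj y a))).image (fun ab : G × G => ab.1 * ab.2) := by
    intro s hs
    rw [Finset.mem_filter] at hs
    obtain ⟨g, hg⟩ := isConj_iff.1 hs.2
    rw [Finset.mem_image]
    refine ⟨(g * x * g⁻¹, g * y * g⁻¹), ?_, ?_⟩
    · rw [Finset.mem_product, Finset.mem_filter, Finset.mem_filter]
      exact ⟨⟨Finset.mem_univ _, isConj_iff.2 ⟨g, rfl⟩⟩, ⟨Finset.mem_univ _, isConj_iff.2 ⟨g, rfl⟩⟩⟩
    · show g * x * g⁻¹ * (g * y * g⁻¹) = s
      rw [← hg]
      group
  have h1 := Finset.card_le_card hsub
  have h2 : (((Finset.univ.filter (fun a => IsConj x a)) ×ˢ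
        (Finset.univ.filter (fun a => IsConj y a))).image (fun ab : G × G => ab.1 * ab.2)).card ≤
      ((Finset.univ.filter (fun a => IsConj x a)) ×ˢ
        (Finset.univ.filter (fun a => IsConj y a))).card := Finset.card_image_le
  have h3 : ((Finset.univ.filter (fun a => IsConj x a)) ×ˢ
        (Finset.univ.filter (fun a => IsConj y a))).card =
      (Finset.univ.filter (fun a => IsConj (x * y) a)).card := by
    rw [Finset.card_product, hcard, hcard, hcard, h]
  have h4 : Set.InjOn (fun ab : G × G => ab.1 * ab.2)
      (((Finset.univ.filter (fun a => IsConj x a)) ×ˢ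
        (Finset.univ.filter (fun a => IsConj y a)) : Finset (G × G)) : Set (G × G)) := by
    rw [← Finset.card_image_iff]
    omega
  have hm1 : ((x, x⁻¹ * y * x) : G × G) ∈
      (((Finset.univ.filter (fun a => IsConj x a)) ×ˢ
        (Finset.univ.filter (fun a => IsConj y a)) : Finset (G × G)) : Set (G × G)) := by
    rw [Finset.mem_coe, Finset.mem_product, Finset.mem_filter, Finset.mem_filter]
    exact ⟨⟨Finset.mem_univ _, IsConj.refl x⟩, ⟨Finset.mem_univ _,
      isConj_iff.2 ⟨x⁻¹, by group⟩⟩⟩
  have hm2 : ((y * x * y⁻¹, y) : G × G) ∈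
      (((Finset.univ.filter (fun a => IsConj x a)) ×ˢ
        (Finset.univ.filter (fun a => IsConj y a)) : Finset (G × G)) : Set (G × G)) := by
    rw [Finset.mem_coe, Finset.mem_product, Finset.mem_filter, Finset.mem_filter]
    exact ⟨⟨Finset.mem_univ _, isConj_iff.2 ⟨y, rfl⟩⟩, ⟨Finset.mem_univ _, IsConj.refl y⟩⟩
  have h5 := h4 hm1 hm2 (by show x * (x⁻¹ * y * x) = y * x * y⁻¹ * y; group)
  have h6 : x = y * x * y⁻¹ := congrArg Prod.fst h5
  calc x * y = (y * x * y⁻¹) * y := by rw [← h6]
    _ = y * x := by group

/-- Let p be a prime and G a finite group. Then some Sylow p-subgroup of G is a direct factor of G (normal with a normal complement) if and only if for every element x of p-power order and every element y whose order is a power of a prime other than p, the conjugacy class of x y has as many elements as the product of the sizes of the classes of x and of y. -/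
theorem result {G : Type*} [Group G] [Finite G] (p : ℕ) [Fact p.Prime] : (∃ (P : Sylow p G) (K : Subgroup G), (P : Subgroup G).Normal ∧ K.Normal ∧ (P : Subgroup G) ⊓ K = ⊥ ∧ (P : Subgroup G) ⊔ K = ⊤) ↔ ∀ x y : G, (∃ a : ℕ, orderOf x = p ^ a) → (∃ q b : ℕ, q.Prime ∧ q ≠ p ∧ orderOf y = q ^ b) → (Subgroup.centralizer ({x * y} : Set G)).index = (Subgroup.centralizer ({x} : Set G)).index * (Subgroup.centralizer ({y} : Set G)).index := by
  have hpp : p.Prime := Fact.out
  constructor
  · intro hex x y ⟨a, ha⟩ ⟨q, b, hq, hqp, hb⟩
    have hcomm := (Cfsg.Agent.S3986.result (G := G) p).1 hex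
    obtain ⟨P, K, hPn, hKn, hPK, hPKtop⟩ := hex
    haveI := hPn
    haveI := hKn
    have hxy : x * y = y * x := hcomm x y ⟨a, ha⟩ ⟨q, b, hq, hqp, hb⟩
    -- `P ≤ C(y)`
    have hPy : (P : Subgroup G) ≤ Subgroup.centralizer ({y} : Set G) := by
      intro u hu
      rw [Subgroup.mem_centralizer_singleton_iff]
      obtain ⟨i, hi⟩ := (IsPGroup.iff_orderOf.1 P.isPGroup') ⟨u, hu⟩
      rw [Subgroup.orderOf_mk] at hi
      exact hcomm u y ⟨i, hi⟩ ⟨q, b, hq, hqp, hb⟩
    -- `K ≤ C(x)`
    have hKcard : ¬ p ∣ Nat.card K := by
      have h1 := Lead.card_sup_of_inf_eq_bot K (P : Subgroup G) (by rw [inf_comm]; exact hPK)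
      rw [sup_comm, hPKtop] at h1
      have h2 := Subgroup.card_mul_index (P : Subgroup G)
      have h3 : Nat.card (⊤ : Subgroup G) = Nat.card G := Nat.card_congr Subgroup.topEquiv.toEquiv
      have h4 : Nat.card K = (P : Subgroup G).index := by
        have h5 : Nat.card K * Nat.card (P : Subgroup G) =
            (P : Subgroup G).index * Nat.card (P : Subgroup G) := by
          rw [← h1, h3, ← h2, mul_comm]
        exact Nat.eq_of_mul_eq_mul_right Nat.card_pos h5
      rw [h4]
      exact P.not_dvd_index
    have hKx : K ≤ Subgroup.centralizer ({x} : Set G) := by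
      intro k hk
      by_contra hkC
      obtain ⟨r, j, e, hr, hoe, hkj⟩ :=
        Cfsg.Agent.Helper7.exists_prime_pow_power_notMem (Subgroup.centralizer ({x} : Set G)) _ k
          rfl hkC
      have he : e ≠ 0 := by
        rintro rfl
        rw [pow_zero, orderOf_eq_one_iff] at hoe
        rw [hoe] at hkj
        exact hkj (Subgroup.one_mem _)
      have hrp : r ≠ p := by
        rintro rfl
        apply hKcard
        have h1 : orderOf (k ^ j) ∣ Nat.card K := by
          have := orderOf_dvd_natCard (⟨k ^ j, Subgroup.pow_mem _ hk j⟩ : K)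
          rwa [Subgroup.orderOf_mk] at this
        rw [hoe] at h1
        exact (dvd_pow_self r he).trans h1
      apply hkj
      rw [Subgroup.mem_centralizer_singleton_iff]
      exact (hcomm x (k ^ j) ⟨a, ha⟩ ⟨r, e, hr, hrp, hoe⟩).symm
    -- `C(xy) = C(x) ⊓ C(y)`
    have hcop : Nat.Coprime (orderOf x) (orderOf y) := by
      rw [ha, hb]
      exact Nat.Coprime.pow _ _ ((Nat.coprime_primes hpp hq).2 (Ne.symm hqp))
    have hCxy : Subgroup.centralizer ({x * y} : Set G) =
        Subgroup.centralizer ({x} : Set G) ⊓ Subgroup.centralizer ({y} : Set G) := by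
      apply le_antisymm
      · intro g hg
        rw [Subgroup.mem_centralizer_singleton_iff] at hg
        have hgc : Commute g (x * y) := hg
        constructor
        · show g ∈ Subgroup.centralizer ({x} : Set G)
          rw [Subgroup.mem_centralizer_singleton_iff]
          have h1 : (x * y) ^ orderOf y = x ^ orderOf y := by
            rw [(show Commute x y from hxy).mul_pow, pow_orderOf_eq_one, mul_one]
          obtain ⟨m, hm⟩ := exists_pow_eq_self_of_coprime hcop.symm
          have h2 : Commute g x := by
            rw [← hm, ← h1]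
            exact (hgc.pow_right _).pow_right _
          exact h2.eq
        · show g ∈ Subgroup.centralizer ({y} : Set G)
          rw [Subgroup.mem_centralizer_singleton_iff]
          have h1 : (x * y) ^ orderOf x = y ^ orderOf x := by
            rw [(show Commute x y from hxy).mul_pow, pow_orderOf_eq_one, one_mul]
          obtain ⟨m, hm⟩ := exists_pow_eq_self_of_coprime hcop
          have h2 : Commute g y := by
            rw [← hm, ← h1]
            exact (hgc.pow_right _).pow_right _
          exact h2.eq
      · rintro g ⟨hg1, hg2⟩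
        have hg1' : g ∈ Subgroup.centralizer ({x} : Set G) := hg1
        have hg2' : g ∈ Subgroup.centralizer ({y} : Set G) := hg2
        rw [Subgroup.mem_centralizer_singleton_iff] at hg1' hg2' ⊢
        calc g * (x * y) = (g * x) * y := by group
          _ = x * (g * y) := by rw [hg1']; group
          _ = x * y * g := by rw [hg2']; group
    -- index computation
    have hidx : (Subgroup.centralizer ({y} : Set G)).relIndex (Subgroup.centralizer ({x} : Set G)) =
        (Subgroup.centralizer ({y} : Set G)).index := by
      have h1 := Cfsg.Agent.Helper7.relIndex_sup_eq_relIndex_of_le_normalizer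
        (Subgroup.centralizer ({y} : Set G)) K Subgroup.le_normalizer_of_normal
      have h2 : Subgroup.centralizer ({y} : Set G) ⊔ K = ⊤ := by
        rw [eq_top_iff, ← hPKtop]
        exact sup_le_sup_right hPy K
      rw [h2, Subgroup.relIndex_top_right] at h1
      have h3 : (Subgroup.centralizer ({y} : Set G)).relIndex K ≤
          (Subgroup.centralizer ({y} : Set G)).relIndex (Subgroup.centralizer ({x} : Set G)) := by
        apply Subgroup.relIndex_le_of_le_right hKx
        intro h0
        have := Subgroup.relIndex_dvd_card (Subgroup.centralizer ({y} : Set G))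
          (Subgroup.centralizer ({x} : Set G))
        rw [h0, zero_dvd_iff] at this
        exact Nat.card_pos.ne' this
      have h4 : (Subgroup.centralizer ({y} : Set G)).relIndex (Subgroup.centralizer ({x} : Set G)) ≤
          (Subgroup.centralizer ({y} : Set G)).relIndex ⊤ :=
        Subgroup.relIndex_le_of_le_right le_top (by
          rw [Subgroup.relIndex_top_right]
          exact Subgroup.index_ne_zero_of_finite)
      rw [Subgroup.relIndex_top_right] at h4
      omega
    rw [hCxy, ← Subgroup.relIndex_mul_index (inf_le_left :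
      Subgroup.centralizer ({x} : Set G) ⊓ Subgroup.centralizer ({y} : Set G) ≤ _),
      Subgroup.inf_relIndex_left, hidx, mul_comm]
  · intro h
    apply (Cfsg.Agent.S3986.result (G := G) p).2
    intro x y hx hy
    exact commute_of_class_mul x y (h x y hx hy)

end Cfsg.Agent.S3987
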