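import Cfsg.Statements.S4377
import Mathlib

set_option autoImplicit false
open Cfsg

namespace Cfsg.Agent.S4377

theorem card_pow_eq_sum {G : Type*} [Group G] [Finite G] (n : ℕ) (hn : n ≠ 0) :
    Nat.card {g : G // g ^ n = 1} = ∑ d ∈ Nat.divisors n, Nat.card {g : G // orderOf g = d} := by
  classical
  letI : Fintype G := Fintype.ofFinite G
  have h := sum_card_orderOf_eq_card_pow_eq_one (G := G) hn
  have h1 : Nat.card {g : G // g ^ n = 1} = (Finset.univ.filter (fun x : G => x ^ n = 1)).card := by
    rw [Nat.card_eq_fintype_card, Fintype.card_subtype]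
  have h2 : ∀ d : ℕ, Nat.card {g : G // orderOf g = d}
      = (Finset.univ.filter (fun x : G => orderOf x = d)).card := by
    intro d
    rw [Nat.card_eq_fintype_card, Fintype.card_subtype]
  rw [h1, Finset.sum_congr rfl (fun d _ => h2 d)]
  convert h.symm

theorem card_pow_zero {G : Type*} [Group G] [Finite G] :
    Nat.card {g : G // g ^ 0 = 1} = Nat.card G := by
  apply Nat.card_congr
  exact Equiv.subtypeUnivEquiv (fun g => pow_zero g)

theorem card_pow_big {G : Type*} [Group G] [Finite G] (m : ℕ) :
    Nat.card {g : G // g ^ (Nat.card G * m) = 1} = Nat.card G := by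
  apply Nat.card_congr
  exact Equiv.subtypeUnivEquiv (fun g => by rw [pow_mul, pow_card_eq_one', one_pow])

theorem card_orderOf_zero {G : Type*} [Group G] [Finite G] :
    Nat.card {g : G // orderOf g = 0} = 0 := by
  haveI : IsEmpty {g : G // orderOf g = 0} := ⟨fun g => (orderOf_pos g.1).ne' g.2⟩
  exact Nat.card_of_isEmpty

theorem result {G H : Type*} [Group G] [Finite G] [Group H] [Finite H] :
    (∀ n : ℕ, Nat.card {g : G // orderOf g = n} = Nat.card {h : H // orderOf h = n}) ↔
      ∀ n : ℕ, Nat.card {g : G // g ^ n = 1} = Nat.card {h : H // h ^ n = 1} := by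
  constructor
  · intro h
    have hne : ∀ n : ℕ, n ≠ 0 →
        Nat.card {g : G // g ^ n = 1} = Nat.card {h : H // h ^ n = 1} := by
      intro n hn
      rw [card_pow_eq_sum n hn, card_pow_eq_sum n hn]
      exact Finset.sum_congr rfl (fun d _ => h d)
    intro n
    rcases Nat.eq_zero_or_pos n with hn | hn
    · subst hn
      have hN : Nat.card G * Nat.card H ≠ 0 :=
        Nat.mul_ne_zero Nat.card_pos.ne' Nat.card_pos.ne'
      have h1 := hne _ hN
      rw [card_pow_big (G := G) (Nat.card H), mul_comm, card_pow_big (G := H) (Nat.card G)] at h1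
      rw [card_pow_zero, card_pow_zero]
      exact h1
    · exact hne n hn.ne'
  · intro h n
    induction n using Nat.strong_induction_on with
    | _ n ih =>
      rcases Nat.eq_zero_or_pos n with hn | hn
      · subst hn
        rw [card_orderOf_zero, card_orderOf_zero]
      · have h1 := h n
        rw [card_pow_eq_sum n hn.ne', card_pow_eq_sum n hn.ne',
          ← Nat.insert_self_properDivisors hn.ne',
          Finset.sum_insert Nat.self_notMem_properDivisors,
          Finset.sum_insert Nat.self_notMem_properDivisors] at h1
        have h2 : ∑ d ∈ n.properDivisors, Nat.card {g : G // orderOf g = d}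
            = ∑ d ∈ n.properDivisors, Nat.card {h : H // orderOf h = d} := by
          apply Finset.sum_congr rfl
          intro d hd
          exact ih d (Nat.mem_properDivisors.1 hd).2
        rw [h2] at h1
        exact Nat.add_right_cancel h1

end Cfsg.Agent.S4377
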