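import Cfsg.Statements.S3997
import Mathlib
import Cfsg.Agent.S4377
import Cfsg.Agent.Helper7.SylowLemmas

set_option autoImplicit false
open Cfsg

namespace Cfsg.Agent.S3997

open Cfsg.Agent.Helper7 in
theorem card_pow_card_sylow_of_normal {G : Type*} [Group G] [Finite G] (p : ℕ) [Fact p.Prime]
    (P : Sylow p G) [hP : (P : Subgroup G).Normal] :
    Nat.card {g : G // g ^ Nat.card (P : Subgroup G) = 1} = Nat.card (P : Subgroup G) := by
  apply Nat.card_congr
  refine Equiv.subtypeEquivRight ?_
  intro x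
  constructor
  · intro hx
    have hd : orderOf x ∣ Nat.card (P : Subgroup G) := orderOf_dvd_of_pow_eq_one hx
    rw [P.card_eq_multiplicity] at hd
    obtain ⟨k, _, hk⟩ := (Nat.dvd_prime_pow Fact.out).1 hd
    obtain ⟨P', hP'⟩ := exists_sylow_mem_of_orderOf_eq_prime_pow x k hk
    obtain ⟨g, hg⟩ := MulAction.exists_smul_eq G P P'
    rw [Sylow.smul_eq_of_normal] at hg
    rw [hg]
    exact hP'
  · intro hx
    have h1 : (⟨x, hx⟩ : (P : Subgroup G)) ^ Nat.card (P : Subgroup G) = 1 := pow_card_eq_one'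
    have h2 := congrArg Subtype.val h1
    rw [Subgroup.coe_pow] at h2
    exact h2

theorem result {G H : Type*} [Group G] [Finite G] [Group H] [Finite H] (hT : (∀ m : ℕ, Nat.card {g : G // orderOf g = m} = Nat.card {h : H // orderOf h = m})) (hG : Group.IsNilpotent G) :
    Group.IsNilpotent H := by
  haveI := hG
  have hpow := (Cfsg.Agent.S4377.result (G := G) (H := H)).1 hT
  have hcard : Nat.card G = Nat.card H := by
    have := hpow 0
    rw [Cfsg.Agent.S4377.card_pow_zero, Cfsg.Agent.S4377.card_pow_zero] at this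
    exact this
  apply ((Group.isNilpotent_of_finite_tfae (G := H)).out 0 3).2
  intro p hp Q
  haveI := hp
  obtain ⟨P⟩ : Nonempty (Sylow p G) := inferInstance
  have hN : Nat.card (Q : Subgroup H) = Nat.card (P : Subgroup G) := by
    rw [Q.card_eq_multiplicity, P.card_eq_multiplicity, hcard]
  have h1 : Nat.card {h : H // h ^ Nat.card (Q : Subgroup H) = 1} = Nat.card (Q : Subgroup H) := by
    rw [hN, ← hpow, card_pow_card_sylow_of_normal p P]
  have hsub : ((Q : Subgroup H) : Set H) ⊆ {h : H | h ^ Nat.card (Q : Subgroup H) = 1} := by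
    intro x hx
    have h1 : (⟨x, hx⟩ : (Q : Subgroup H)) ^ Nat.card (Q : Subgroup H) = 1 := pow_card_eq_one'
    have h2 := congrArg Subtype.val h1
    rw [Subgroup.coe_pow] at h2
    exact h2
  have heq : ((Q : Subgroup H) : Set H) = {h : H | h ^ Nat.card (Q : Subgroup H) = 1} := by
    apply Set.eq_of_subset_of_ncard_le hsub ?_ (Set.toFinite _)
    rw [← Nat.card_coe_set_eq, ← Nat.card_coe_set_eq]
    exact le_of_eq h1
  constructor
  intro n hn g
  have hn' : n ∈ ((Q : Subgroup H) : Set H) := hn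
  rw [heq] at hn'
  show g * n * g⁻¹ ∈ ((Q : Subgroup H) : Set H)
  rw [heq]
  show (g * n * g⁻¹) ^ _ = 1
  have hn'' : n ^ Nat.card (Q : Subgroup H) = 1 := hn'
  rw [conj_pow, hn'']
  simp

end Cfsg.Agent.S3997
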