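import Cfsg.Statements.S4013
import Mathlib
import Cfsg.Agent.Helper7.Basic

set_option autoImplicit false
open Cfsg

namespace Cfsg.Agent.S4013

theorem arith (p a b c : ℕ) (hp : p.Prime) (hc0 : c ≠ 0) (h : p ^ a + p ^ b = p ^ c * p ^ b) :
    p = 2 ∧ p ^ c = 2 := by
  have hba : b ≤ a := by
    rw [← Nat.pow_dvd_pow_iff_le_right hp.one_lt]
    have h1 : p ^ b ∣ p ^ a + p ^ b := by rw [h]; exact dvd_mul_left _ _
    exact (Nat.dvd_add_left (dvd_refl _)).1 h1
  obtain ⟨d, rfl⟩ := Nat.exists_eq_add_of_le hba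
  have h2 : p ^ b * (p ^ d + 1) = p ^ b * p ^ c := by
    rw [mul_add, mul_one, ← pow_add, h, mul_comm]
  have h3 : p ^ d + 1 = p ^ c := Nat.eq_of_mul_eq_mul_left (pow_pos hp.pos b) h2
  have hd : d = 0 := by
    by_contra hd
    have h4 : p ∣ p ^ d := dvd_pow_self p hd
    have h5 : p ∣ p ^ d + 1 := by rw [h3]; exact dvd_pow_self p hc0
    have h6 : p ∣ 1 := (Nat.dvd_add_right h4).1 h5
    exact hp.one_lt.ne' (Nat.dvd_one.1 h6)
  subst hd
  have h7 : p ^ c = 2 := by rw [← h3]; norm_num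
  have h8 : p ∣ 2 := by rw [← h7]; exact dvd_pow_self p hc0
  exact ⟨(Nat.prime_dvd_prime_iff_eq hp Nat.prime_two).1 h8, h7⟩

theorem result {G : Type*} [Group G] [Finite G] (p : ℕ) [Fact p.Prime] (hG : IsPGroup p G) (N M : Subgroup G) [N.Normal] [M.Normal] (hNM : N < M) (g : G) (hgM : g ∈ M) (hgN : g ∉ N) (hcl : {h : G | IsConj g h} = (M : Set G) \ (N : Set G)) : p = 2 ∧ N.relIndex M = 2 := by
  have hp : p.Prime := Fact.out
  obtain ⟨n, hn⟩ := IsPGroup.iff_card.1 hG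
  have h1 : Nat.card {h : G // IsConj g h} ∣ p ^ n := by
    rw [Cfsg.Agent.Helper7.card_isConj_eq_index_centralizer, ← hn]
    exact Subgroup.index_dvd_card _
  obtain ⟨a, _, ha⟩ := (Nat.dvd_prime_pow hp).1 h1
  have h2 : Nat.card {h : G // IsConj g h} + Nat.card N = Nat.card M := by
    have e1 : Nat.card {h : G // IsConj g h} = ((M : Set G) \ (N : Set G)).ncard := by
      rw [← hcl, ← Nat.card_coe_set_eq]
      rfl
    have e2 := Set.ncard_sdiff_add_ncard_of_subset (s := (N : Set G)) (t := (M : Set G))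
      hNM.le (Set.toFinite _)
    rw [e1]
    exact e2
  have h3 : N.relIndex M * Nat.card N = Nat.card M := by
    have h := Subgroup.card_mul_index (N.subgroupOf M)
    rw [Nat.card_congr (Subgroup.subgroupOfEquivOfLe hNM.le).toEquiv] at h
    rw [mul_comm]
    exact h
  have hNcard : Nat.card N ∣ p ^ n := hn ▸ Subgroup.card_subgroup_dvd_card N
  obtain ⟨b, _, hb⟩ := (Nat.dvd_prime_pow hp).1 hNcard
  have hr : N.relIndex M ∣ p ^ n :=
    (Subgroup.relIndex_dvd_card N M).trans (hn ▸ Subgroup.card_subgroup_dvd_card M)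
  obtain ⟨c, _, hc⟩ := (Nat.dvd_prime_pow hp).1 hr
  have hc0 : c ≠ 0 := by
    rintro rfl
    rw [pow_zero, Subgroup.relIndex_eq_one] at hc
    exact (not_le_of_gt hNM) hc
  have h4 : p ^ a + p ^ b = p ^ c * p ^ b := by
    rw [← ha, ← hb, ← hc, h2, h3]
  obtain ⟨hp2, hpc⟩ := arith p a b c hp hc0 h4
  exact ⟨hp2, by rw [hc, hpc]⟩

end Cfsg.Agent.S4013
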