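import Cfsg.Statements.S4023
import Mathlib
import Cfsg.Agent.Helper7.EqOrdP3

set_option autoImplicit false
open Cfsg

namespace Cfsg.Agent.S4023

/-- Let p be a prime and G a finite group in which any two p-subgroups of the same order are conjugate, with Sylow p-subgroup P. Then P is cyclic, or elementary abelian, or p = 2 and P is a quaternion group of order 8, or p is odd and P is non-abelian of order p³ and exponent p. -/
theorem result {G : Type*} [Group G] [Finite G]
    {p : ℕ} [Fact p.Prime] (hC : ∀ H K : Subgroup G, IsPGroup p H → IsPGroup p K → Nat.card H = Nat.card K →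
      ∃ g : G, K = H.map (MulAut.conj g).toMonoidHom) (P : Sylow p G) :
    IsCyclic P ∨ Cfsg.IsElementaryAbelian p (P : Subgroup G) ∨
      (p = 2 ∧ Nonempty ((P : Subgroup G) ≃* QuaternionGroup 2)) ∨
      (p ≠ 2 ∧ ¬ IsMulCommutative P ∧ Nat.card P = p ^ 3 ∧ Monoid.exponent P = p) := by
  have hp : p.Prime := Fact.out
  have hiso : Cfsg.Agent.Helper7.IsoProp ↥(P : Subgroup G) := by
    intro H K hc
    have hH : IsPGroup p (H.map (P : Subgroup G).subtype) :=
      P.2.to_le (by rintro _ ⟨x, -, rfl⟩; exact x.2)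
    have hK : IsPGroup p (K.map (P : Subgroup G).subtype) :=
      P.2.to_le (by rintro _ ⟨x, -, rfl⟩; exact x.2)
    have hc' : Nat.card (H.map (P : Subgroup G).subtype)
        = Nat.card (K.map (P : Subgroup G).subtype) := by
      rw [Subgroup.card_map_of_injective (P : Subgroup G).subtype_injective,
        Subgroup.card_map_of_injective (P : Subgroup G).subtype_injective, hc]
    obtain ⟨g, hg⟩ := hC _ _ hH hK hc'
    have e1 : H ≃* H.map (P : Subgroup G).subtype :=
      H.equivMapOfInjective _ (P : Subgroup G).subtype_injective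
    have e2 : (H.map (P : Subgroup G).subtype) ≃*
        (H.map (P : Subgroup G).subtype).map (MulAut.conj g).toMonoidHom :=
      Subgroup.equivMapOfInjective _ _ (MulAut.conj g).injective
    have e3 : K ≃* K.map (P : Subgroup G).subtype :=
      K.equivMapOfInjective _ (P : Subgroup G).subtype_injective
    exact ⟨e1.trans (e2.trans ((MulEquiv.subgroupCongr hg.symm).trans e3.symm))⟩
  rcases Cfsg.Agent.Helper7.isoProp_structure P.2 hiso with hc | ⟨hcomm, hexp⟩ | ⟨hp2, hq⟩ |
    ⟨hp2, hna, hcard, hexp⟩
  · exact Or.inl hc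
  · refine Or.inr (Or.inl ⟨⟨⟨fun a b => hcomm a b⟩⟩, fun a ha => ?_⟩)
    have h1 := hexp ⟨a, ha⟩
    exact congrArg Subtype.val h1
  · exact Or.inr (Or.inr (Or.inl ⟨hp2, hq⟩))
  · refine Or.inr (Or.inr (Or.inr ⟨hp2, ?_, hcard, ?_⟩))
    · intro hc
      exact hna (fun x y => hc.is_comm.comm x y)
    · have h1 : Monoid.exponent ↥(P : Subgroup G) ∣ p :=
        Monoid.exponent_dvd_of_forall_pow_eq_one hexp
      rcases (Nat.dvd_prime hp).1 h1 with h2 | h2
      · exfalso
        haveI : Subsingleton ↥(P : Subgroup G) := Monoid.exp_eq_one_iff.1 h2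
        exact hna (fun x y => Subsingleton.elim _ _)
      · exact h2

end Cfsg.Agent.S4023
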