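import Cfsg.Statements.S4024
import Mathlib
import Cfsg.Agent.Helper7.EqOrdP3
import Cfsg.Agent.Helper4.PLength

set_option autoImplicit false
open Cfsg

namespace Cfsg.Agent.S4024

/-- `O_{p',p}` is invariant under automorphisms. -/
theorem pPrimePCore_equiv_mem {A : Type*} [Group A] (p : ℕ) (e : A ≃* A) {x : A}
    (hx : x ∈ pPrimePCore p A) : e x ∈ pPrimePCore p A := by
  haveI hN : (pPrimeCore p A).Normal := Cfsg.Agent.Helper5.pPrimeCore_normal' p A
  have hmap : (pPrimeCore p A).map (e : A →* A) = pPrimeCore p A :=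
    Cfsg.Agent.Helper4.pl_pPrimeCore_map p e
  show QuotientGroup.mk' (pPrimeCore p A) (e x) ∈ pCore p (A ⧸ pPrimeCore p A)
  have h1 : (QuotientGroup.mk' (pPrimeCore p A) (e x)) =
      (QuotientGroup.congr (pPrimeCore p A) (pPrimeCore p A) e hmap)
        (QuotientGroup.mk' (pPrimeCore p A) x) :=
    (QuotientGroup.congr_mk _ _ e hmap x).symm
  rw [h1, ← Cfsg.Agent.Helper4.pl_pCore_map p
    (QuotientGroup.congr (pPrimeCore p A) (pPrimeCore p A) e hmap)]
  exact Subgroup.mem_map_of_mem _ hx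

theorem pPrimeCore_equiv_mem {A : Type*} [Group A] (p : ℕ) (e : A ≃* A) {x : A}
    (hx : x ∈ pPrimeCore p A) : e x ∈ pPrimeCore p A := by
  rw [← Cfsg.Agent.Helper4.pl_pPrimeCore_map p e]
  exact Subgroup.mem_map_of_mem _ hx

theorem comm_of_cyc {α : Type*} [Group α] (h : IsCyclic α) (a b : α) : a * b = b * a := by
  obtain ⟨g, hg⟩ := h.exists_generator
  obtain ⟨s, rfl⟩ := Subgroup.mem_zpowers_iff.1 (hg a)
  obtain ⟨t, rfl⟩ := Subgroup.mem_zpowers_iff.1 (hg b)
  rw [← zpow_add, ← zpow_add, add_comm]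

/-- Let p be an odd prime and G a finite group in which any two p-subgroups of the same order are conjugate, with Sylow p-subgroup P. If H is a normal p-solvable subgroup of G whose order is divisible by p, then P is abelian, and either P ≤ H or P is cyclic. -/
theorem result {G : Type*} [Group G] [Finite G]
    {p : ℕ} [Fact p.Prime] (hp : p ≠ 2) (hC : ∀ H K : Subgroup G, IsPGroup p H → IsPGroup p K → Nat.card H = Nat.card K →
      ∃ g : G, K = H.map (MulAut.conj g).toMonoidHom) (P : Sylow p G)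
    (H : Subgroup G) [H.Normal] (hsolv : Cfsg.IsPSolvable p H) (hdiv : p ∣ Nat.card H) :
    IsMulCommutative P ∧ ((P : Subgroup G) ≤ H ∨ IsCyclic P) := by
  have hpp : p.Prime := Fact.out
  have hHn : H.Normal := inferInstance
  have hiso : Cfsg.Agent.Helper7.IsoProp ↥(P : Subgroup G) := by
    intro H K hc
    have hH : IsPGroup p (H.map (P : Subgroup G).subtype) :=
      P.2.to_le (by rintro _ ⟨x, -, rfl⟩; exact x.2)
    have hK : IsPGroup p (K.map (P : Subgroup G).subtype) :=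
      P.2.to_le (by rintro _ ⟨x, -, rfl⟩; exact x.2)
    have hc' : Nat.card (H.map (P : Subgroup G).subtype)
        = Nat.card (K.map (P : Subgroup G).subtype) := by
      rw [Subgroup.card_map_of_injective (P : Subgroup G).subtype_injective,
        Subgroup.card_map_of_injective (P : Subgroup G).subtype_injective, hc]
    obtain ⟨g, hg⟩ := hC _ _ hH hK hc'
    have e1 : H ≃* H.map (P : Subgroup G).subtype :=
      H.equivMapOfInjective _ (P : Subgroup G).subtype_injective
    have e2 : (H.map (P : Subgroup G).subtype) ≃*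
        (H.map (P : Subgroup G).subtype).map (MulAut.conj g).toMonoidHom :=
      Subgroup.equivMapOfInjective _ _ (MulAut.conj g).injective
    have e3 : K ≃* K.map (P : Subgroup G).subtype :=
      K.equivMapOfInjective _ (P : Subgroup G).subtype_injective
    exact ⟨e1.trans (e2.trans ((MulEquiv.subgroupCongr hg.symm).trans e3.symm))⟩
  -- conjugacy of subgroups of order p, elementwise
  have hord : ∀ x y : G, orderOf x = p → orderOf y = p → ∃ (g : G) (k : ℤ),
      x = g * y ^ k * g⁻¹ := by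
    intro x y hx hy
    have hcx : Nat.card (Subgroup.zpowers x) = p := by rw [Nat.card_zpowers, hx]
    have hcy : Nat.card (Subgroup.zpowers y) = p := by rw [Nat.card_zpowers, hy]
    have hpx : IsPGroup p (Subgroup.zpowers x) :=
      IsPGroup.of_card (n := 1) (by rw [hcx, pow_one])
    have hpy : IsPGroup p (Subgroup.zpowers y) :=
      IsPGroup.of_card (n := 1) (by rw [hcy, pow_one])
    obtain ⟨g, hg⟩ := hC _ _ hpy hpx (by rw [hcx, hcy])
    have h2 : x ∈ (Subgroup.zpowers y).map (MulAut.conj g).toMonoidHom := by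
      rw [← hg]; exact Subgroup.mem_zpowers x
    obtain ⟨w, hw, hwx⟩ := h2
    obtain ⟨k, rfl⟩ := Subgroup.mem_zpowers_iff.1 hw
    exact ⟨g, k, hwx.symm⟩
  have hordP : (∀ x : ↥(P : Subgroup G), x ^ p = 1) → ∀ x ∈ (P : Subgroup G), x ≠ 1 →
      orderOf x = p := by
    intro hexp x hx hx1
    have h1 : x ^ p = 1 := congrArg Subtype.val (hexp ⟨x, hx⟩)
    exact orderOf_eq_prime h1 hx1
  -- exponent p forces P ≤ H
  have hle : (∀ x : ↥(P : Subgroup G), x ^ p = 1) → (P : Subgroup G) ≤ H := by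
    intro hexp x hx
    by_cases hx1 : x = 1
    · rw [hx1]; exact H.one_mem
    obtain ⟨y, hy⟩ := exists_prime_orderOf_dvd_card' p hdiv
    have hy' : orderOf (y : G) = p := by rw [Subgroup.orderOf_coe]; exact hy
    obtain ⟨g, k, rfl⟩ := hord x y (hordP hexp x hx hx1) hy'
    exact hHn.conj_mem _ (H.zpow_mem y.2 k) g
  rcases Cfsg.Agent.Helper7.isoProp_structure P.2 hiso with hc | ⟨hcomm, hexp⟩ | ⟨hp2, hq⟩ |
    ⟨hp2, hna, hcard, hexp⟩
  · exact ⟨⟨⟨fun a b => comm_of_cyc hc a b⟩⟩, Or.inr hc⟩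
  · exact ⟨⟨⟨fun a b => hcomm a b⟩⟩, Or.inl (hle hexp)⟩
  · exact absurd hp2 hp
  · exfalso
    have hPH := hle hexp
    haveI hNn : (pPrimeCore p ↥H).Normal := Cfsg.Agent.Helper5.pPrimeCore_normal' p ↥H
    -- (a) central elements of P lie in M
    have hZM : ∀ z : G, ∀ (hz : z ∈ (P : Subgroup G)),
        (∀ s ∈ (P : Subgroup G), z * s = s * z) →
        (⟨z, hPH hz⟩ : ↥H) ∈ pPrimePCore p ↥H := by
      intro z hz hcz
      apply Cfsg.Agent.Helper4.center_sylow_le_pPrimePCore hsolv (P.subtype hPH)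
      intro s hs
      have hs' : (s : G) ∈ (P : Subgroup G) := by
        rw [Sylow.coe_subtype] at hs
        exact Subgroup.mem_subgroupOf.1 hs
      exact Subtype.ext (hcz _ hs')
    -- (b) invariance under conjugation
    have hMconj : ∀ (g : G) (y : ↥H), y ∈ pPrimePCore p ↥H →
        (MulAut.conjNormal g y : ↥H) ∈ pPrimePCore p ↥H :=
      fun g y hy => pPrimePCore_equiv_mem p (MulAut.conjNormal g) hy
    have hNconj : ∀ (g : G) (y : ↥H), y ∈ pPrimeCore p ↥H →
        (MulAut.conjNormal g y : ↥H) ∈ pPrimeCore p ↥H :=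
      fun g y hy => pPrimeCore_equiv_mem p (MulAut.conjNormal g) hy
    -- (c) a nontrivial central element
    haveI : Nontrivial ↥(P : Subgroup G) := by
      rw [← Finite.one_lt_card_iff_nontrivial, hcard]
      exact Nat.one_lt_pow (by norm_num) hpp.one_lt
    haveI := IsPGroup.center_nontrivial (P.2 : IsPGroup p ↥(P : Subgroup G))
    obtain ⟨⟨z, hzc⟩, hz1⟩ := exists_ne (1 : Subgroup.center ↥(P : Subgroup G))
    have hz1' : (z : G) ≠ 1 := by
      intro h
      apply hz1
      apply Subtype.ext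
      apply Subtype.ext
      exact h
    have hzo : orderOf (z : G) = p := hordP hexp _ z.2 hz1'
    have hzcomm : ∀ k : ℤ, ∀ s ∈ (P : Subgroup G), (z : G) ^ k * s = s * (z : G) ^ k := by
      intro k s hs
      have h1 : z * ⟨s, hs⟩ = ⟨s, hs⟩ * z := (Subgroup.mem_center_iff.1 hzc ⟨s, hs⟩).symm
      have h2 : (z : G) * s = s * (z : G) := congrArg Subtype.val h1
      exact ((Commute.zpow_left (show Commute (z : G) s from h2) k)).eq
    have hconj : ∀ u ∈ (P : Subgroup G), u ≠ 1 → ∃ (g : G) (z' : G), z' ∈ (P : Subgroup G) ∧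
        (∀ s ∈ (P : Subgroup G), z' * s = s * z') ∧ u = g * z' * g⁻¹ := by
      intro u hu hu1
      obtain ⟨g, k, hk⟩ := hord u z (hordP hexp u hu hu1) hzo
      exact ⟨g, (z : G) ^ k, (P : Subgroup G).zpow_mem z.2 k, hzcomm k, hk⟩
    -- (d) P ≤ M
    have hPM : ∀ x : G, ∀ (hx : x ∈ (P : Subgroup G)),
        (⟨x, hPH hx⟩ : ↥H) ∈ pPrimePCore p ↥H := by
      intro x hx
      by_cases hx1 : x = 1
      · subst hx1
        exact Subgroup.one_mem _
      obtain ⟨g, z', hz'P, hz'c, hxe⟩ := hconj x hx hx1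
      have h1 := hMconj g _ (hZM z' hz'P hz'c)
      have h2 : (MulAut.conjNormal g (⟨z', hPH hz'P⟩ : ↥H) : ↥H) = ⟨x, hPH hx⟩ := by
        apply Subtype.ext
        rw [MulAut.conjNormal_apply]
        exact hxe.symm
      rwa [h2] at h1
    -- (e) M ≤ P N
    have hRP : pCore p (↥H ⧸ pPrimeCore p ↥H) ≤
        ((P.subtype hPH : Sylow p ↥H) : Subgroup ↥H).map
          (QuotientGroup.mk' (pPrimeCore p ↥H)) := by
      have h0 := Cfsg.Agent.Helper5.pCore_le_sylow
        ((P.subtype hPH).mapSurjective (QuotientGroup.mk'_surjective (pPrimeCore p ↥H)))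
      rwa [Sylow.coe_mapSurjective] at h0
    have hMSN : ∀ y : ↥H, y ∈ pPrimePCore p ↥H →
        ∃ s : ↥H, (s : G) ∈ (P : Subgroup G) ∧ s⁻¹ * y ∈ pPrimeCore p ↥H := by
      intro y hy
      have hy' : QuotientGroup.mk' (pPrimeCore p ↥H) y ∈ pCore p (↥H ⧸ pPrimeCore p ↥H) := hy
      obtain ⟨s, hs, hsy⟩ := Subgroup.mem_map.1 (hRP hy')
      refine ⟨s, ?_, ?_⟩
      · rw [Sylow.coe_subtype] at hs
        exact Subgroup.mem_subgroupOf.1 hs
      · exact QuotientGroup.eq.1 hsy
    -- (f) P ∩ N = 1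
    have hPN : ∀ c : ↥H, (c : G) ∈ (P : Subgroup G) → c ∈ pPrimeCore p ↥H → c = 1 := by
      intro c hcP hcN
      have h1 : orderOf c ∣ Nat.card (pPrimeCore p ↥H) := by
        have := orderOf_dvd_natCard (⟨c, hcN⟩ : ↥(pPrimeCore p ↥H))
        rwa [Subgroup.orderOf_mk] at this
      have h2 : orderOf c ∣ p ^ 3 := by
        have := orderOf_dvd_natCard (⟨(c : G), hcP⟩ : ↥(P : Subgroup G))
        rw [Subgroup.orderOf_mk, hcard, Subgroup.orderOf_coe] at this
        exact this
      have hcop : (Nat.card (pPrimeCore p ↥H)).Coprime (p ^ 3) :=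
        Nat.Coprime.pow_right 3 (Cfsg.Agent.Helper3.pPrimeCore_coprime p ↥H)
      have h3 : orderOf c = 1 := Nat.eq_one_of_dvd_coprimes hcop h1 h2
      exact orderOf_eq_one_iff.1 h3
    -- (g) every element of P is central in P
    have hcentral : ∀ u ∈ (P : Subgroup G), ∀ x ∈ (P : Subgroup G), u * x = x * u := by
      intro u hu x hx
      by_cases hu1 : u = 1
      · rw [hu1, one_mul, mul_one]
      obtain ⟨g, z', hz'P, hz'c, hue⟩ := hconj u hu hu1
      have hy := hMconj g⁻¹ ⟨x, hPH hx⟩ (hPM x hx)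
      obtain ⟨s, hsP, hsn⟩ := hMSN _ hy
      set y : ↥H := MulAut.conjNormal g⁻¹ (⟨x, hPH hx⟩ : ↥H) with hydef
      set ζ : ↥H := ⟨z', hPH hz'P⟩ with hζdef
      have hζs : ζ * s = s * ζ := Subtype.ext (hz'c _ hsP)
      have hd : ζ * y * ζ⁻¹ * y⁻¹ ∈ pPrimeCore p ↥H := by
        have e1 : ζ * y * ζ⁻¹ * y⁻¹ = s * ((ζ * (s⁻¹ * y) * ζ⁻¹) * (s⁻¹ * y)⁻¹) * s⁻¹ := by
          have e2 : ζ * y * ζ⁻¹ * y⁻¹ = (ζ * s) * (s⁻¹ * y) * ζ⁻¹ * (s⁻¹ * y)⁻¹ * s⁻¹ := by group
          rw [e2, hζs]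
          group
        rw [e1]
        exact hNn.conj_mem _ (Subgroup.mul_mem _ (hNn.conj_mem _ hsn ζ) (inv_mem hsn)) s
      have hc := hNconj g _ hd
      have hcG : ((MulAut.conjNormal g (ζ * y * ζ⁻¹ * y⁻¹) : ↥H) : G) = u * x * u⁻¹ * x⁻¹ := by
        rw [MulAut.conjNormal_apply]
        simp only [Subgroup.coe_mul, Subgroup.coe_inv, hydef, MulAut.conjNormal_apply, hζdef, hue]
        group
      have hc1 := hPN _ (by
        rw [hcG]
        exact Subgroup.mul_mem _ (Subgroup.mul_mem _ (Subgroup.mul_mem _ hu hx) (inv_mem hu))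
          (inv_mem hx)) hc
      have hc2 : u * x * u⁻¹ * x⁻¹ = 1 := by
        rw [← hcG, hc1]; rfl
      calc u * x = (u * x * u⁻¹ * x⁻¹) * (x * u) := by group
        _ = x * u := by rw [hc2, one_mul]
    exact hna (fun a b => Subtype.ext (hcentral a a.2 b b.2))

end Cfsg.Agent.S4024
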