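import Cfsg.Statements.S4028
import Cfsg.Agent.Helper4.CycNorm
import Cfsg.Agent.Helper4.Basic

set_option autoImplicit false
open Cfsg

namespace Cfsg.Agent.S4028

/-- Let G be a finite group with Sylow 2-subgroup P. Then N_G(⟨x⟩) = C_G(x) holds for every 2-element x of G if and only if N_P(⟨y⟩) = C_P(y) holds for every y ∈ P (computed inside P). -/
theorem result {G : Type*} [Group G] [Finite G] (P : Sylow 2 G) :
    (∀ x : G, (∀ r : ℕ, r.Prime → r ∣ orderOf x → r = 2) →
      Subgroup.normalizer ((Subgroup.zpowers x : Subgroup G) : Set G) ≤ Subgroup.centralizer {x}) ↔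
    (∀ y : ↥(P : Subgroup G), Subgroup.normalizer ((Subgroup.zpowers y : Subgroup ↥(P : Subgroup G)) : Set ↥(P : Subgroup G)) ≤
        Subgroup.centralizer {y}) := by
  classical
  constructor
  · intro h y t ht
    have hy2 : ∀ r : ℕ, r.Prime → r ∣ orderOf (y : G) → r = 2 := by
      intro r hr hdvd
      obtain ⟨k, hk⟩ := P.isPGroup' y
      have h1 : (y : G) ^ (2 ^ k) = 1 := by
        have h2 := congrArg Subtype.val hk
        simpa using h2
      have hd := orderOf_dvd_of_pow_eq_one h1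
      have h3 := hr.dvd_of_dvd_pow (hdvd.trans hd)
      exact (Nat.prime_dvd_prime_iff_eq hr Nat.prime_two).mp h3
    have ht' : (t : G) ∈ Subgroup.normalizer ((Subgroup.zpowers (y : G) : Subgroup G) : Set G) := by
      apply Subgroup.mem_normalizer_fintype
      intro n hn
      obtain ⟨k, rfl⟩ := Subgroup.mem_zpowers_iff.mp hn
      have h1 := (Subgroup.mem_normalizer_iff.mp ht (y ^ k)).mp (Subgroup.zpow_mem_zpowers y k)
      obtain ⟨j, hj⟩ := Subgroup.mem_zpowers_iff.mp h1
      refine Subgroup.mem_zpowers_iff.mpr ⟨j, ?_⟩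
      have h2 := congrArg Subtype.val hj
      simpa using h2
    have h3 := h (y : G) hy2 ht'
    rw [Subgroup.mem_centralizer_iff] at h3 ⊢
    intro z hz
    rw [Set.mem_singleton_iff] at hz
    subst hz
    exact Subtype.ext (h3 _ rfl)
  · intro h x hx g hg
    have hordx : orderOf x = 2 ^ (orderOf x).primeFactorsList.length :=
      Nat.eq_prime_pow_of_unique_prime_dvd (orderOf_pos x).ne' (fun {d} hd hdvd => hx d hd hdvd)
    have hxP : IsPGroup 2 (Subgroup.zpowers x) := by
      apply IsPGroup.of_card (n := (orderOf x).primeFactorsList.length)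
      rw [Nat.card_zpowers]; exact hordx
    -- every `2`-element of the normalizer centralizes `x`
    have hstep3 : ∀ u : G, u ∈ Subgroup.normalizer ((Subgroup.zpowers x : Subgroup G) : Set G) →
        (∃ e : ℕ, u ^ (2 ^ e) = 1) → u ∈ Subgroup.centralizer ({x} : Set G) := by
      intro u hun ⟨e, hu2⟩
      have huP : IsPGroup 2 (Subgroup.zpowers u) := by
        have hd := orderOf_dvd_of_pow_eq_one hu2
        obtain ⟨i, _, hi⟩ := (Nat.dvd_prime_pow Nat.prime_two).mp hd
        apply IsPGroup.of_card (n := i)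
        rw [Nat.card_zpowers]; exact hi
      have hK : IsPGroup 2 (Subgroup.zpowers u ⊔ Subgroup.zpowers x : Subgroup G) :=
        IsPGroup.to_sup_of_normal_right' huP hxP (Subgroup.zpowers_le.mpr hun)
      obtain ⟨c, hc⟩ := Helper4.exists_conj_mem_sylow P _ hK
      have hd : ∀ k ∈ (Subgroup.zpowers u ⊔ Subgroup.zpowers x : Subgroup G),
          c⁻¹ * k * c⁻¹⁻¹ ∈ (P : Subgroup G) := by
        intro k hk
        rw [inv_inv]; exact hc k hk
      have hxK : x ∈ (Subgroup.zpowers u ⊔ Subgroup.zpowers x : Subgroup G) :=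
        Subgroup.mem_sup_right (Subgroup.mem_zpowers x)
      have huK : u ∈ (Subgroup.zpowers u ⊔ Subgroup.zpowers x : Subgroup G) :=
        Subgroup.mem_sup_left (Subgroup.mem_zpowers u)
      have ht : (⟨c⁻¹ * u * c⁻¹⁻¹, hd u huK⟩ : (P : Subgroup G)) ∈ Subgroup.normalizer
          ((Subgroup.zpowers (⟨c⁻¹ * x * c⁻¹⁻¹, hd x hxK⟩ : (P : Subgroup G)) :
            Subgroup (P : Subgroup G)) : Set (P : Subgroup G)) := by
        apply Subgroup.mem_normalizer_fintype
        intro n hn
        obtain ⟨k, rfl⟩ := Subgroup.mem_zpowers_iff.mp hn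
        have h1 : u * x ^ k * u⁻¹ ∈ Subgroup.zpowers x :=
          (Subgroup.mem_normalizer_iff.mp hun (x ^ k)).mp (Subgroup.zpow_mem_zpowers x k)
        obtain ⟨j, hj⟩ := Subgroup.mem_zpowers_iff.mp h1
        refine Subgroup.mem_zpowers_iff.mpr ⟨j, ?_⟩
        apply Subtype.ext
        push_cast
        rw [conj_zpow, conj_zpow, hj]
        group
      have h3 := h _ ht
      rw [Subgroup.mem_centralizer_iff] at h3
      have h4 := congrArg Subtype.val (h3 _ rfl)
      have h5 : (c⁻¹ * x * c⁻¹⁻¹) * (c⁻¹ * u * c⁻¹⁻¹) = (c⁻¹ * u * c⁻¹⁻¹) * (c⁻¹ * x * c⁻¹⁻¹) := h4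
      rw [Subgroup.mem_centralizer_iff]
      intro z hz
      rw [Set.mem_singleton_iff] at hz
      subst hz
      have h6 : z * u = c * ((c⁻¹ * z * c⁻¹⁻¹) * (c⁻¹ * u * c⁻¹⁻¹)) * c⁻¹ := by group
      rw [h6, h5]; group
    -- split `g`
    have hordg : orderOf g ≠ 0 := (orderOf_pos g).ne'
    obtain ⟨e, m, hm, hgeq⟩ := Nat.exists_eq_pow_mul_and_not_dvd hordg 2 (by norm_num)
    have hNpow : ∀ i : ℕ, g ^ i ∈ Subgroup.normalizer ((Subgroup.zpowers x : Subgroup G) : Set G) :=
      fun i => Subgroup.pow_mem _ hg i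
    have hu : g ^ m ∈ Subgroup.centralizer ({x} : Set G) := by
      apply hstep3 _ (hNpow m)
      refine ⟨e, ?_⟩
      rw [← pow_mul, mul_comm, ← hgeq, pow_orderOf_eq_one]
    have hv : g ^ (2 ^ e) ∈ Subgroup.centralizer ({x} : Set G) := by
      have h1 := Helper4.pow_totient_commute x (g ^ (2 ^ e)) (hNpow _)
      have htot : ∃ b : ℕ, Nat.totient (orderOf x) = 2 ^ b := by
        rw [hordx]
        by_cases h0 : (orderOf x).primeFactorsList.length = 0
        · rw [h0, pow_zero, Nat.totient_one]; exact ⟨0, rfl⟩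
        · rw [Nat.totient_prime_pow Nat.prime_two (Nat.pos_of_ne_zero h0)]
          exact ⟨(orderOf x).primeFactorsList.length - 1, by norm_num⟩
      obtain ⟨b, hb⟩ := htot
      rw [hb] at h1
      have h2 : (g ^ (2 ^ e)) ^ (2 ^ b) ∈ Subgroup.centralizer ({x} : Set G) := by
        rw [Subgroup.mem_centralizer_iff]
        intro z hz
        rw [Set.mem_singleton_iff] at hz
        subst hz
        exact h1.symm
      have h3 : (g ^ (2 ^ e)) ^ m ∈ Subgroup.centralizer ({x} : Set G) := by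
        rw [← pow_mul, ← hgeq, pow_orderOf_eq_one]; exact Subgroup.one_mem _
      have hcop : Nat.Coprime (2 ^ b) m :=
        Nat.Coprime.pow_left b ((Nat.Prime.coprime_iff_not_dvd Nat.prime_two).mpr hm)
      exact Helper4.mem_of_pow_mem_of_coprime _ _ _ _ hcop h2 h3
    have hcop2 : Nat.Coprime (2 ^ e) m :=
      Nat.Coprime.pow_left e ((Nat.Prime.coprime_iff_not_dvd Nat.prime_two).mpr hm)
    exact Helper4.mem_of_pow_mem_of_coprime _ _ _ _ hcop2 hv hu

end Cfsg.Agent.S4028
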