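import Cfsg.Statements.S4029
import Mathlib
import Cfsg.Agent.Helper7.PiDecomp
import Cfsg.Agent.Lead.PGroupFrattini

set_option autoImplicit false
open Cfsg

namespace Cfsg.Agent.S4029

open Cfsg.Agent.Helper7

theorem natCard_subtype_eq {α : Type*} [Fintype α] (Q : α → Prop) [DecidablePred Q] :
    Nat.card {x // Q x} = (Finset.univ.filter Q).card := by
  rw [Nat.card_eq_fintype_card, Fintype.card_subtype]

theorem sq_mem_frattini {P : Type*} [Group P] [Finite P] (hP : IsPGroup 2 P) (y : P) :
    y ^ 2 ∈ frattini P := by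
  haveI : Fact (Nat.Prime 2) := ⟨Nat.prime_two⟩
  rw [frattini, Order.radical]
  simp only [Subgroup.mem_iInf]
  intro M hM
  exact Subgroup.sq_mem_of_index_two (Cfsg.Agent.Lead.coatom_index_of_isPGroup 2 hP M hM) y

/-- `x` inverts `g`. -/
abbrev Rel {P : Type*} [Group P] (x g : P) : Prop := x * g * x⁻¹ = g⁻¹

/-- the number of square roots. -/
noncomputable def rootCount {P : Type*} [Group P] (t : P) : ℕ := Nat.card {y : P // y ^ 2 = t}

theorem rel_iff {P : Type*} [Group P] (x g : P) : x * g * x⁻¹ = g⁻¹ ↔ (x * g) ^ 2 = x ^ 2 := by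
  constructor
  · intro h
    have h1 : g * x * g = x := by
      have : x * g = g⁻¹ * x := by rw [← h]; group
      calc g * x * g = g * (x * g) := by group
        _ = g * (g⁻¹ * x) := by rw [this]
        _ = x := by group
    calc (x * g) ^ 2 = x * (g * x * g) := by rw [pow_two]; simp only [mul_assoc]
      _ = x ^ 2 := by rw [h1, pow_two]
  · intro h
    have h1 : g * x * g = x := by
      have : x * (g * x * g) = x * x := by
        calc x * (g * x * g) = (x * g) ^ 2 := by rw [pow_two]; simp only [mul_assoc]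
          _ = x * x := by rw [h, pow_two]
      exact mul_left_cancel this
    calc x * g * x⁻¹ = g⁻¹ * (g * x * g) * x⁻¹ := by group
      _ = g⁻¹ := by rw [h1]; group

theorem count_by_g {P : Type*} [Group P] [Finite P]
    (hirr : ∀ y : P, Subgroup.normalizer ((Subgroup.zpowers y : Subgroup P) : Set P) ≤ Subgroup.centralizer {y})
    (g : P) [Decidable (g ^ 2 = 1)] :
    Nat.card {x : P // Rel x g} =
      if g ^ 2 = 1 then Nat.card (Subgroup.centralizer {g} : Subgroup P) else 0 := by
  by_cases hg : g ^ 2 = 1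
  · rw [if_pos hg]
    have hginv : g⁻¹ = g := by
      rw [inv_eq_iff_mul_eq_one, ← pow_two]; exact hg
    apply Nat.card_congr
    apply Equiv.subtypeEquivRight
    intro x
    show x * g * x⁻¹ = g⁻¹ ↔ x ∈ Subgroup.centralizer {g}
    rw [Subgroup.mem_centralizer_singleton_iff, hginv, mul_inv_eq_iff_eq_mul]
  · rw [if_neg hg]
    rw [Nat.card_eq_zero]
    left
    constructor
    rintro ⟨x, hx⟩
    apply hg
    have hx' : x * g * x⁻¹ = g⁻¹ := hx
    have hxN : x ∈ Subgroup.normalizer ((Subgroup.zpowers g : Subgroup P) : Set P) := by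
      apply Subgroup.mem_normalizer_fintype
      intro n hn
      obtain ⟨k, rfl⟩ := Subgroup.mem_zpowers_iff.1 hn
      have e : x * g ^ k * x⁻¹ = (g⁻¹) ^ k := by rw [← conj_zpow, hx']
      rw [e]
      exact Subgroup.zpow_mem _ (Subgroup.inv_mem _ (Subgroup.mem_zpowers g)) k
    have hxC := hirr g hxN
    rw [Subgroup.mem_centralizer_singleton_iff] at hxC
    rw [hxC, mul_inv_cancel_right] at hx'
    have h2 : g * g = 1 := by
      nth_rewrite 2 [hx']
      exact mul_inv_cancel g
    rw [pow_two]
    exact h2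

theorem count_by_x {P : Type*} [Group P] [Finite P] (x : P) :
    Nat.card {g : P // Rel x g} = rootCount (x ^ 2) := by
  unfold rootCount
  apply Nat.card_congr
  exact (Equiv.mulLeft x).subtypeEquiv (fun g => rel_iff x g)

/-- Let P be a finite 2-group in which N_P(⟨y⟩) = C_P(y) for every y ∈ P. If s is the number of conjugacy classes of involutions of P, then #(P/Φ(P)) ≤ s + 1; in particular the subgroup generated by the involutions of P has order at least #(P/Φ(P)). -/
theorem result {P : Type*} [Group P] [Finite P] (hP : IsPGroup 2 P)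
    (hirr : ∀ y : P, Subgroup.normalizer ((Subgroup.zpowers y : Subgroup P) : Set P) ≤ Subgroup.centralizer {y}) :
    Nat.card (P ⧸ frattini P) ≤ Nat.card {c : ConjClasses P // ∃ y : P, ConjClasses.mk y = c ∧ orderOf y = 2} + 1 ∧
    Nat.card (P ⧸ frattini P) ≤ Nat.card (Subgroup.closure {y : P | orderOf y = 2}) := by
  classical
  haveI : Fintype P := Fintype.ofFinite P
  haveI : Fact (Nat.Prime 2) := ⟨Nat.prime_two⟩
  have hQiff : ∀ x : P, (∃ y : P, ConjClasses.mk y = ConjClasses.mk x ∧ orderOf y = 2) ↔ orderOf x = 2 := by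
    intro x
    constructor
    · rintro ⟨y, hy, hy2⟩
      obtain ⟨c, hc⟩ := isConj_iff.1 (ConjClasses.mk_eq_mk_iff_isConj.1 hy)
      rw [← hc, ← hy2]
      exact (MulAut.conj c).orderOf_eq y
    · intro h
      exact ⟨x, rfl, h⟩
  -- (A)
  have hA : ∑ x : P, (if orderOf x = 2 then Nat.card (Subgroup.centralizer {x} : Subgroup P) else 0)
      = Nat.card {c : ConjClasses P // ∃ y : P, ConjClasses.mk y = c ∧ orderOf y = 2} * Nat.card P := by
    rw [← sum_card_centralizer_eq (fun c : ConjClasses P => ∃ y : P, ConjClasses.mk y = c ∧ orderOf y = 2)]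
    apply Finset.sum_congr rfl
    intro x _
    by_cases h : orderOf x = 2
    · rw [if_pos h, if_pos ((hQiff x).2 h)]
    · rw [if_neg h, if_neg (fun h' => h ((hQiff x).1 h'))]
  -- (B)
  have hB : ∑ g : P, (if g ^ 2 = 1 then Nat.card (Subgroup.centralizer {g} : Subgroup P) else 0)
      = ∑ x : P, rootCount (x ^ 2) := by
    have h1 := pair_sum_left (fun x g : P => Rel x g)
    have h2 := pair_sum_right (fun x g : P => Rel x g)
    rw [h1] at h2
    rw [Finset.sum_congr rfl (fun g _ => (count_by_g hirr g).symm),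
      Finset.sum_congr rfl (fun x _ => (count_by_x x).symm)]
    exact h2.symm
  -- (C)
  have hC : ∑ x : P, rootCount (x ^ 2) = ∑ t : P, rootCount t ^ 2 := by
    rw [← Finset.sum_fiberwise Finset.univ (fun x : P => x ^ 2) (fun x => rootCount (x ^ 2))]
    apply Finset.sum_congr rfl
    intro t _
    have h1 : ∀ x ∈ Finset.univ.filter (fun x : P => x ^ 2 = t), rootCount (x ^ 2) = rootCount t := by
      intro x hx
      rw [(Finset.mem_filter.1 hx).2]
    rw [Finset.sum_congr rfl h1, Finset.sum_const, smul_eq_mul, pow_two]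
    congr 1
    exact (natCard_subtype_eq (fun x : P => x ^ 2 = t)).symm
  -- (D)
  have hD : ∑ g : P, (if g ^ 2 = 1 then Nat.card (Subgroup.centralizer {g} : Subgroup P) else 0)
      = Nat.card P + Nat.card {c : ConjClasses P // ∃ y : P, ConjClasses.mk y = c ∧ orderOf y = 2} * Nat.card P := by
    rw [← hA]
    have h1 : ∀ g : P, (if g ^ 2 = 1 then Nat.card (Subgroup.centralizer {g} : Subgroup P) else 0) =
        (if g = 1 then Nat.card P else 0) +
          (if orderOf g = 2 then Nat.card (Subgroup.centralizer {g} : Subgroup P) else 0) := by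
      intro g
      by_cases hg1 : g = 1
      · subst hg1
        have h2 : orderOf (1 : P) ≠ 2 := by rw [orderOf_one]; norm_num
        rw [if_pos (one_pow 2), if_pos rfl, if_neg h2, add_zero]
        have hc : Subgroup.centralizer ({1} : Set P) = ⊤ := by
          rw [eq_top_iff]; intro x _; rw [Subgroup.mem_centralizer_singleton_iff]; simp
        rw [hc, Subgroup.card_top]
      · rw [if_neg hg1, zero_add]
        by_cases hg2 : g ^ 2 = 1
        · have h2 : orderOf g = 2 := orderOf_eq_prime hg2 hg1
          rw [if_pos hg2, if_pos h2]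
        · have h2 : orderOf g ≠ 2 := fun h => hg2 (by rw [← h]; exact pow_orderOf_eq_one g)
          rw [if_neg hg2, if_neg h2]
    rw [Finset.sum_congr rfl (fun g _ => h1 g), Finset.sum_add_distrib]
    congr 1
    simp
  -- total count
  have hsum : ∑ t : P, rootCount t = Nat.card P := by
    have h1 := pair_sum_left (fun y t : P => y ^ 2 = t)
    have h2 := pair_sum_right (fun y t : P => y ^ 2 = t)
    rw [h1] at h2
    have h3 : ∑ y : P, Nat.card {t : P // y ^ 2 = t} = Nat.card P := by
      have : ∀ y : P, Nat.card {t : P // y ^ 2 = t} = 1 := by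
        intro y
        rw [Nat.card_eq_one_iff_unique]
        exact ⟨⟨fun a b => Subtype.ext (a.2.symm.trans b.2)⟩, ⟨⟨y ^ 2, rfl⟩⟩⟩
      rw [Finset.sum_congr rfl (fun y _ => this y)]
      simp [Nat.card_eq_fintype_card]
    rw [h3] at h2
    exact h2.symm
  -- support in frattini
  have hsupp : ∀ t : P, t ∉ frattini P → rootCount t = 0 := by
    intro t ht
    unfold rootCount
    rw [Nat.card_eq_zero]
    left
    constructor
    rintro ⟨y, hy⟩
    exact ht (hy ▸ sq_mem_frattini hP y)
  set ΦF : Finset P := Finset.univ.filter (fun t => t ∈ frattini P) with hΦF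
  have hΦcard : ΦF.card = Nat.card (frattini P) :=
    (natCard_subtype_eq (fun t : P => t ∈ frattini P)).symm
  have hsumΦ : ∑ t ∈ ΦF, rootCount t = Nat.card P := by
    rw [← hsum]
    apply Finset.sum_subset (Finset.subset_univ _)
    intro t _ ht
    apply hsupp
    intro h
    exact ht (Finset.mem_filter.2 ⟨Finset.mem_univ _, h⟩)
  have hCS : (∑ t ∈ ΦF, rootCount t) ^ 2 ≤ ΦF.card * ∑ t ∈ ΦF, rootCount t ^ 2 := by
    have := sq_sum_le_card_mul_sum_sq (s := ΦF) (f := fun t : P => rootCount t)
    simpa using this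
  have hle2 : ∑ t ∈ ΦF, rootCount t ^ 2 ≤ ∑ t : P, rootCount t ^ 2 :=
    Finset.sum_le_sum_of_subset (Finset.subset_univ _)
  set s := Nat.card {c : ConjClasses P // ∃ y : P, ConjClasses.mk y = c ∧ orderOf y = 2} with hs
  have htot : ∑ t : P, rootCount t ^ 2 = (s + 1) * Nat.card P := by
    rw [← hC, ← hB, hD]
    ring
  have hmain : Nat.card P * Nat.card P ≤ (Nat.card (frattini P) * (s + 1)) * Nat.card P := by
    calc Nat.card P * Nat.card P = (∑ t ∈ ΦF, rootCount t) ^ 2 := by rw [hsumΦ, pow_two]
      _ ≤ ΦF.card * ∑ t ∈ ΦF, rootCount t ^ 2 := hCS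
      _ ≤ ΦF.card * ∑ t : P, rootCount t ^ 2 := Nat.mul_le_mul_left _ hle2
      _ = (Nat.card (frattini P) * (s + 1)) * Nat.card P := by rw [hΦcard, htot]; ring
  have hPpos : 0 < Nat.card P := Nat.card_pos
  have h3 : Nat.card P ≤ Nat.card (frattini P) * (s + 1) := Nat.le_of_mul_le_mul_right hmain hPpos
  have h4 : Nat.card (frattini P) * (frattini P).index = Nat.card P := Subgroup.card_mul_index _
  have h5 : (frattini P).index ≤ s + 1 := by
    rw [← h4] at h3
    exact Nat.le_of_mul_le_mul_left h3 Nat.card_pos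
  have hpart1 : Nat.card (P ⧸ frattini P) ≤ s + 1 := h5
  refine ⟨hpart1, hpart1.trans ?_⟩
  -- s + 1 ≤ card of closure of involutions
  rw [← Finite.card_option]
  have hex : ∀ c : {c : ConjClasses P // ∃ y : P, ConjClasses.mk y = c ∧ orderOf y = 2},
      ∃ y : P, ConjClasses.mk y = c.1 ∧ orderOf y = 2 := fun c => c.2
  choose rep hrep1 hrep2 using hex
  let f : Option {c : ConjClasses P // ∃ y : P, ConjClasses.mk y = c ∧ orderOf y = 2} →
      Subgroup.closure {y : P | orderOf y = 2} := fun o =>
    match o with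
    | none => 1
    | some c => ⟨rep c, Subgroup.subset_closure (hrep2 c)⟩
  apply Nat.card_le_card_of_injective f
  intro o1 o2 h
  cases o1 with
  | none =>
    cases o2 with
    | none => rfl
    | some c =>
      exfalso
      have h1 : (1 : P) = rep c := congrArg Subtype.val h
      have h2 := hrep2 c
      rw [← h1, orderOf_one] at h2
      exact absurd h2 (by norm_num)
  | some c =>
    cases o2 with
    | none =>
      exfalso
      have h1 : rep c = (1 : P) := congrArg Subtype.val h
      have h2 := hrep2 c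
      rw [h1, orderOf_one] at h2
      exact absurd h2 (by norm_num)
    | some c' =>
      have h1 : rep c = rep c' := congrArg Subtype.val h
      congr 1
      apply Subtype.ext
      rw [← hrep1 c, ← hrep1 c', h1]

end Cfsg.Agent.S4029
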