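import Cfsg.Statements.S4032
import Cfsg.Agent.Helper4.Pronormal
import Cfsg.Agent.Helper3.SchurZ
import Cfsg.Agent.Helper8.GroupFusion

set_option autoImplicit false
open Cfsg

namespace Cfsg.Agent.S4032

/-- Let π be a set of primes and G a finite group in which N_G(⟨x⟩) = C_G(x) for every π-element x. If N is a normal subgroup of G whose order is divisible by no prime of π, then G/N has the same property: N_{G/N}(⟨y⟩) = C_{G/N}(y) for every π-element y of G/N. -/
theorem result {G : Type*} [Group G] [Finite G] (π : Set ℕ)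
    (hirr : ∀ x : G, (∀ r : ℕ, r.Prime → r ∣ orderOf x → r ∈ π) →
      Subgroup.normalizer ((Subgroup.zpowers x : Subgroup G) : Set G) ≤ Subgroup.centralizer {x})
    (N : Subgroup G) [N.Normal] (hN : ∀ r : ℕ, r.Prime → r ∣ Nat.card N → r ∉ π) :
    ∀ y : G ⧸ N, (∀ r : ℕ, r.Prime → r ∣ orderOf y → r ∈ π) →
      Subgroup.normalizer ((Subgroup.zpowers y : Subgroup (G ⧸ N)) : Set (G ⧸ N)) ≤ Subgroup.centralizer {y} := by
  classical
  intro y hy zbar hz
  -- a lift of `y` of minimal order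
  have hex : ∃ k, ∃ x : G, (x : G ⧸ N) = y ∧ orderOf x = k := by
    obtain ⟨x, hx⟩ := QuotientGroup.mk_surjective y
    exact ⟨_, x, hx, rfl⟩
  obtain ⟨x, hxy, hxk⟩ := Nat.find_spec hex
  have hxpi : ∀ r : ℕ, r.Prime → r ∣ orderOf x → r ∈ π := by
    intro r hr hdvd
    by_contra hrpi
    have hry : ¬ r ∣ orderOf y := fun h => hrpi (hy r hr h)
    have hopos : 0 < orderOf x := orderOf_pos x
    have hlt : orderOf x / r < orderOf x := Nat.div_lt_self hopos hr.one_lt
    by_cases hy1 : orderOf y = 1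
    · have h1 : y = 1 := orderOf_eq_one_iff.mp hy1
      have h2 : Nat.find hex ≤ orderOf (1 : G) :=
        Nat.find_min' hex ⟨1, by rw [h1]; rfl, rfl⟩
      rw [orderOf_one] at h2
      rw [hxk] at hdvd
      have h3 : Nat.find hex = 1 := by
        have h4 : 0 < Nat.find hex := by rw [← hxk]; exact hopos
        omega
      rw [h3] at hdvd
      exact hr.one_lt.ne' (Nat.dvd_one.mp hdvd)
    · have hy1' : 1 < orderOf y := by
        have h4 : 0 < orderOf y := orderOf_pos y
        omega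
      have hcop : Nat.Coprime r (orderOf y) := (Nat.Prime.coprime_iff_not_dvd hr).mpr hry
      obtain ⟨r', _, hr'⟩ := Nat.exists_mul_mod_eq_one_of_coprime hcop hy1'
      have hx' : ((x ^ (r * r') : G) : G ⧸ N) = y := by
        rw [QuotientGroup.mk_pow, hxy, ← pow_mod_orderOf, hr', pow_one]
      have hord' : orderOf (x ^ (r * r')) ∣ orderOf x / r := by
        apply orderOf_dvd_of_pow_eq_one
        rw [← pow_mul]
        have h5 : r * r' * (orderOf x / r) = orderOf x * r' := by
          rw [mul_comm r r', mul_assoc, Nat.mul_div_cancel' hdvd, mul_comm]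
        rw [h5, pow_mul, pow_orderOf_eq_one, one_pow]
      have hle : orderOf (x ^ (r * r')) ≤ orderOf x / r :=
        Nat.le_of_dvd (Nat.div_pos (Nat.le_of_dvd hopos hdvd) hr.pos) hord'
      have h2 : Nat.find hex ≤ orderOf (x ^ (r * r')) := Nat.find_min' hex ⟨_, hx', rfl⟩
      rw [← hxk] at h2
      omega
  obtain ⟨z, rfl⟩ := QuotientGroup.mk_surjective zbar
  subst hxy
  -- coprimality
  have hcop : (Nat.card N).Coprime (Nat.card (Subgroup.zpowers x)) := by
    rw [Nat.card_zpowers]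
    exact Nat.coprime_of_dvd fun k hk hkN hkx => hN k hk hkN (hxpi k hk hkx)
  have hNH : N ⊓ Subgroup.zpowers x = ⊥ := (Subgroup.disjoint_of_coprime_natCard hcop).eq_bot
  have hcardK : Nat.card ((Subgroup.zpowers x).map (MulAut.conj z).toMonoidHom) =
      Nat.card (Subgroup.zpowers x) := Subgroup.card_map_of_injective (MulAut.conj z).injective
  have hNK : N ⊓ (Subgroup.zpowers x).map (MulAut.conj z).toMonoidHom = ⊥ :=
    (Subgroup.disjoint_of_coprime_natCard (by rw [hcardK]; exact hcop)).eq_bot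
  -- `z` normalizes `⟨x⟩ N`
  have hconj : ∀ w : G, (w : G ⧸ N) ∈ Subgroup.normalizer
      ((Subgroup.zpowers (x : G ⧸ N) : Subgroup (G ⧸ N)) : Set (G ⧸ N)) →
      w * x * w⁻¹ ∈ N ⊔ Subgroup.zpowers x := by
    intro w hw
    have h1 := (Subgroup.mem_normalizer_iff.mp hw (x : G ⧸ N)).mp (Subgroup.mem_zpowers _)
    obtain ⟨k, hk⟩ := Subgroup.mem_zpowers_iff.mp h1
    have h2 : ((x ^ k : G) : G ⧸ N) = ((w * x * w⁻¹ : G) : G ⧸ N) := by
      rw [QuotientGroup.mk_zpow, hk]; rfl
    have h3 : (x ^ k)⁻¹ * (w * x * w⁻¹) ∈ N := QuotientGroup.eq.mp h2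
    have h4 : w * x * w⁻¹ = x ^ k * ((x ^ k)⁻¹ * (w * x * w⁻¹)) := by group
    rw [h4]
    exact Subgroup.mul_mem _ (Subgroup.mem_sup_right (Subgroup.zpow_mem_zpowers x k))
      (Subgroup.mem_sup_left h3)
  have hNnorm : ∀ (L : Subgroup G) (w : G), N ≤ L → w ∈ L → ∀ v ∈ L, w * v * w⁻¹ ∈ L :=
    fun L w _ hw v hv => L.mul_mem (L.mul_mem hw hv) (L.inv_mem hw)
  have hsup : N ⊔ Subgroup.zpowers x = N ⊔ (Subgroup.zpowers x).map (MulAut.conj z).toMonoidHom := by
    apply le_antisymm
    · apply sup_le le_sup_left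
      rw [Subgroup.zpowers_le]
      -- `x = z (z⁻¹ x z) z⁻¹`
      have h1 := hconj z⁻¹ (Subgroup.inv_mem _ hz)
      rw [inv_inv] at h1
      -- z⁻¹ x z = n * x^k
      have hnormal : (Subgroup.zpowers x) ≤ Subgroup.normalizer (N : Set G) := by
        rw [Subgroup.normalizer_eq_top]; exact le_top
      have h1' : z⁻¹ * x * z ∈ Subgroup.zpowers x ⊔ N := by rw [sup_comm]; exact h1
      obtain ⟨a, ha, b, hb, hab⟩ := Helper8.mem_sup_of_le_normalizer hnormal h1'
      have h2 : x = (z * a * z⁻¹) * (z * b * z⁻¹) := by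
        have h3 : (z * a * z⁻¹) * (z * b * z⁻¹) = z * (a * b) * z⁻¹ := by group
        rw [h3, ← hab]; group
      have hmem : (z * a * z⁻¹) * (z * b * z⁻¹) ∈
          N ⊔ (Subgroup.zpowers x).map (MulAut.conj z).toMonoidHom :=
        Subgroup.mul_mem _ (Subgroup.mem_sup_right ⟨a, ha, rfl⟩)
          (Subgroup.mem_sup_left ((inferInstance : N.Normal).conj_mem b hb z))
      rw [← h2] at hmem
      exact hmem
    · apply sup_le le_sup_left
      rintro _ ⟨a, ha, rfl⟩
      obtain ⟨k, rfl⟩ := Subgroup.mem_zpowers_iff.mp ha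
      have h1 := hconj z hz
      have h2 : (MulAut.conj z).toMonoidHom (x ^ k) = (z * x * z⁻¹) ^ k := by
        show z * x ^ k * z⁻¹ = (z * x * z⁻¹) ^ k
        rw [conj_zpow]
      rw [h2]
      exact Subgroup.zpow_mem _ h1 k
  have hHN : Subgroup.zpowers x ≤ Subgroup.normalizer (N : Set G) := by
    rw [Subgroup.normalizer_eq_top]; exact le_top
  have hsol : Group.IsSolvable N ∨ Group.IsSolvable (Subgroup.zpowers x) := by
    right
    apply Group.isSolvable_of_comm
    rintro ⟨a, ha⟩ ⟨b, hb⟩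
    obtain ⟨i, rfl⟩ := Subgroup.mem_zpowers_iff.mp ha
    obtain ⟨j, rfl⟩ := Subgroup.mem_zpowers_iff.mp hb
    apply Subtype.ext
    show x ^ i * x ^ j = x ^ j * x ^ i
    rw [← zpow_add, ← zpow_add, add_comm]
  obtain ⟨n, hn, hnK⟩ := Helper3.sz_conj_rel N (Subgroup.zpowers x)
    ((Subgroup.zpowers x).map (MulAut.conj z).toMonoidHom) hHN hNH hNK hsup hcop hsol
  have hnz : n⁻¹ * z ∈ Subgroup.normalizer ((Subgroup.zpowers x : Subgroup G) : Set G) := by
    rw [Helper4.mem_normalizer_iff_map_conj, Helper4.map_conj_mul, ← hnK, ← Helper4.map_conj_mul,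
      inv_mul_cancel, Helper4.map_conj_one]
  have hc := hirr x hxpi hnz
  rw [Subgroup.mem_centralizer_iff] at hc ⊢
  intro w hw
  rw [Set.mem_singleton_iff] at hw
  subst hw
  have h1 := hc x rfl
  have h2 := congrArg (fun g : G => (g : G ⧸ N)) h1
  simp only [QuotientGroup.mk_mul, QuotientGroup.mk_inv] at h2
  rw [(QuotientGroup.eq_one_iff n).mpr hn] at h2
  simpa using h2

end Cfsg.Agent.S4032
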