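import Cfsg.Statements.S4034
import Mathlib
import Cfsg.Agent.Helper7.PRegClass2

set_option autoImplicit false
open Cfsg

namespace Cfsg.Agent.S4034

theorem result {G : Type*} [Group G] [Finite G] {p : ℕ} (hp : p.Prime) :
    (∀ x : G, (orderOf x).Coprime p → ∃ k : ℕ, (ConjClasses.mk x).carrier.ncard = p ^ k) ↔
    (∃ H : Subgroup G, IsMulCommutative H ∧ ¬ p ∣ Nat.card H ∧ ∃ k : ℕ, H.index = p ^ k) := by
  constructor
  · intro h
    have h' : Cfsg.Agent.Helper7.PRegPow p G := by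
      intro x hx
      obtain ⟨k, hk⟩ := h x hx
      rw [Cfsg.Agent.Helper7.ncard_conjClasses_carrier] at hk
      exact ⟨k, hk⟩
    exact h'.exists_abelian_pComplement hp
  · rintro ⟨H, hHc, -, k, hk⟩ x hx
    obtain ⟨g, hg⟩ := Cfsg.Agent.Helper7.exists_conj_mem_abelian_pComplement p hp _ G rfl H hHc
      ⟨k, hk⟩ x hx
    have hconj : ConjClasses.mk x = ConjClasses.mk (g * x * g⁻¹) := by
      rw [ConjClasses.mk_eq_mk_iff_isConj, isConj_iff]
      exact ⟨g, rfl⟩
    rw [hconj, Cfsg.Agent.Helper7.ncard_conjClasses_carrier]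
    have hHC : H ≤ Subgroup.centralizer ({g * x * g⁻¹} : Set G) := by
      intro h hh
      rw [Subgroup.mem_centralizer_singleton_iff]
      have := hHc.is_comm.comm (⟨h, hh⟩ : H) ⟨g * x * g⁻¹, hg⟩
      exact congrArg Subtype.val this
    have h1 := Subgroup.index_dvd_of_le hHC
    rw [hk] at h1
    obtain ⟨k', -, hk'⟩ := (Nat.dvd_prime_pow hp).1 h1
    exact ⟨k', hk'⟩

end Cfsg.Agent.S4034
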