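import Cfsg.Statements.S4035
import Cfsg.Agent.Helper7.Basic
import Cfsg.Agent.Helper7.Conj
import Cfsg.Agent.Helper7.SylowMore

set_option autoImplicit false
open Cfsg

namespace Cfsg.Agent.S4035

theorem result {G : Type*} [Group G] [Finite G] {p : ℕ} [Fact p.Prime]
    (h : ∀ x : G, (orderOf x).Coprime p → ¬ p ∣ (ConjClasses.mk x).carrier.ncard) (P : Sylow p G) :
    (P : Subgroup G).Normal ∧ ∃ H : Subgroup G, H.Normal ∧ ¬ p ∣ Nat.card H ∧
      (P : Subgroup G) ⊓ H = ⊥ ∧ (P : Subgroup G) ⊔ H = ⊤ := by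
  have hp : p.Prime := Fact.out
  -- class sizes are centralizer indices
  have h' : ∀ x : G, (orderOf x).Coprime p →
      ¬ p ∣ (Subgroup.centralizer ({x} : Set G)).index := by
    intro x hx
    have h1 := h x hx
    rw [← Cfsg.Agent.Helper7.card_isConj_eq_index_centralizer]
    have h2 : (ConjClasses.mk x).carrier = {y : G | IsConj x y} := by
      ext y
      rw [ConjClasses.mem_carrier_iff_mk_eq, ConjClasses.mk_eq_mk_iff_isConj, isConj_comm]
      rfl
    rw [h2, ← Nat.card_coe_set_eq] at h1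
    exact h1
  -- `P C_G(P)` is everything
  have hM : (P : Subgroup G) ⊔ Subgroup.centralizer (P : Set G) = ⊤ := by
    by_contra hne
    obtain ⟨y, hy⟩ := Cfsg.Agent.Helper7.exists_forall_conj_notMem _ hne
    obtain ⟨u, v, a, hyuv, hcomm, hu, hv, -, -⟩ := Cfsg.Agent.Helper7.exists_pPart_mul p hp y
    have huC : u ∈ Subgroup.centralizer ({v} : Set G) := by
      rw [Subgroup.mem_centralizer_iff]
      intro z hz
      rw [Set.mem_singleton_iff] at hz
      rw [hz]
      exact hcomm.eq.symm
    obtain ⟨Q, hQC, huQ⟩ := Cfsg.Agent.Helper7.exists_sylow_le_of_not_dvd_index _ (h' v hv) u huC a hu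
    obtain ⟨g, hg⟩ := MulAction.exists_smul_eq G P Q
    apply hy g
    have h1 : g⁻¹ * u * g ∈ (P : Subgroup G) := by
      rw [← hg] at huQ
      exact (Cfsg.Agent.Helper7.mem_smul_sylow_iff g u P).1 huQ
    have h2 : g⁻¹ * v * g ∈ Subgroup.centralizer (P : Set G) := by
      rw [Subgroup.mem_centralizer_iff]
      intro z hz
      have h3 : g * z * g⁻¹ ∈ Q := by
        rw [← hg, Cfsg.Agent.Helper7.mem_smul_sylow_iff]
        have e : g⁻¹ * (g * z * g⁻¹) * g = z := by group
        rw [e]
        exact hz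
      have h4 := hQC h3
      rw [Subgroup.mem_centralizer_iff] at h4
      have h5 := h4 v rfl
      calc z * (g⁻¹ * v * g) = g⁻¹ * (g * z * g⁻¹ * v) * g := by group
        _ = g⁻¹ * (v * (g * z * g⁻¹)) * g := by rw [h5]
        _ = g⁻¹ * v * g * z := by group
    have h3 : g⁻¹ * y * g = (g⁻¹ * u * g) * (g⁻¹ * v * g) := by
      rw [hyuv]
      group
    rw [h3]
    exact Subgroup.mul_mem _ (Subgroup.mem_sup_left h1) (Subgroup.mem_sup_right h2)
  have hPn : (P : Subgroup G).Normal := by
    rw [← Subgroup.normalizer_eq_top_iff, eq_top_iff, ← hM]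
    exact sup_le Subgroup.le_normalizer (Subgroup.centralizer_le_normalizer _)
  refine ⟨hPn, ?_⟩
  haveI := hPn
  obtain ⟨H, hH⟩ := Subgroup.exists_right_complement'_of_coprime (N := (P : Subgroup G))
    P.card_coprime_index
  have hHcard : Nat.card H = (P : Subgroup G).index := by
    have h1 := hH.card_mul_card
    have h2 := Subgroup.card_mul_index (P : Subgroup G)
    rw [← h2] at h1
    exact Nat.eq_of_mul_eq_mul_left Nat.card_pos h1
  have hHp : ¬ p ∣ Nat.card H := by
    rw [hHcard]
    exact P.not_dvd_index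
  -- `H` centralizes `P`
  have hHcent : ∀ c ∈ H, ∀ z ∈ (P : Subgroup G), z * c = c * z := by
    intro c hc z hz
    have hcop : (orderOf c).Coprime p := by
      have h1 : orderOf c ∣ Nat.card H := Subgroup.orderOf_dvd_natCard H hc
      have h2 : Nat.Coprime (Nat.card H) p :=
        ((Nat.Prime.coprime_iff_not_dvd hp).2 hHp).symm
      exact Nat.Coprime.coprime_dvd_left h1 h2
    obtain ⟨Q, hQC, -⟩ := Cfsg.Agent.Helper7.exists_sylow_le_of_not_dvd_index _ (h' c hcop) 1
      (one_mem _) 0 (one_pow _)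
    have h1 : (P : Subgroup G) ≤ Q :=
      Cfsg.Agent.Helper7.normal_pGroup_le_sylow (P : Subgroup G) P.isPGroup' Q
    have h2 := hQC (h1 hz)
    rw [Subgroup.mem_centralizer_iff] at h2
    exact (h2 c rfl).symm
  have hHn : H.Normal := by
    rw [← Subgroup.normalizer_eq_top_iff, eq_top_iff, ← hH.sup_eq_top]
    refine sup_le ?_ Subgroup.le_normalizer
    intro z hz
    rw [Subgroup.mem_normalizer_iff]
    intro c
    have key : ∀ c ∈ H, z * c * z⁻¹ = c := by
      intro c hc
      rw [hHcent c hc z hz, mul_inv_cancel_right]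
    constructor
    · intro hc
      rw [key c hc]
      exact hc
    · intro hc
      have h1 := key _ hc
      have h2 : c = z⁻¹ * (z * c * z⁻¹) * z := by group
      have h3 : z⁻¹ * (z * c * z⁻¹) * z = z * c * z⁻¹ := by
        have h4 := hHcent _ hc z hz
        calc z⁻¹ * (z * c * z⁻¹) * z = z⁻¹ * ((z * c * z⁻¹) * z) := by group
          _ = z⁻¹ * (z * (z * c * z⁻¹)) := by rw [h4]
          _ = z * c * z⁻¹ := by group
      rw [h2, h3]
      exact hc
  exact ⟨H, hHn, hHp, hH.disjoint.eq_bot, hH.sup_eq_top⟩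

end Cfsg.Agent.S4035
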