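import Cfsg.Statements.S4036
import Mathlib

set_option autoImplicit false
open Cfsg

namespace Cfsg.Agent.S4036

theorem result {P : Type*} [CommGroup P] [Finite P] {p : ℕ}
    [Fact p.Prime] (hP : IsPGroup p P) (K : Subgroup (MulAut P)) (hK : p ∣ Nat.card K)
    (hfix : ∀ x y : MulAut P, x ∈ K → y ∈ K → x ≠ 1 → y ≠ 1 → ∀ v : P, x v = v ↔ y v = v) :
    ∀ N : Subgroup ↥K, N.Normal → ¬ p ∣ Nat.card N → N = ⊥ := by
  classical
  intro N hN hpN
  have hp : p.Prime := Fact.out
  haveI : Finite (MulAut P) := MulEquiv.finite_left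
  letI : Fintype N := Fintype.ofFinite N
  let τ : P →* P := ∏ n : N, (n.1.1 : P ≃* P).toMonoidHom
  have hτ : ∀ v : P, τ v = ∏ n : N, n.1.1 v := by
    intro v
    simp only [τ, MonoidHom.finset_prod_apply]
    rfl
  have hτN : ∀ (n₀ : N) (v : P), τ (n₀.1.1 v) = τ v := by
    intro n₀ v
    rw [hτ, hτ]
    have h1 := Equiv.prod_comp (Equiv.mulRight n₀) (fun n : N => n.1.1 v)
    rw [← h1]
    apply Finset.prod_congr rfl
    intro n _
    rfl
  by_contra hNbot
  have hW : τ.ker ≠ ⊥ := by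
    intro hker
    apply hNbot
    rw [Subgroup.eq_bot_iff_forall]
    intro n hn
    have hinj : Function.Injective τ := (MonoidHom.ker_eq_bot_iff τ).1 hker
    have h1 : (n.1 : MulAut P) = 1 := by
      apply MulEquiv.ext
      intro v
      exact hinj (hτN ⟨n, hn⟩ v)
    exact Subtype.ext h1
  have hinv : ∀ (k : K) (v : P), v ∈ τ.ker → k.1 v ∈ τ.ker := by
    intro k v hv
    rw [MonoidHom.mem_ker] at hv ⊢
    rw [hτ]
    have e := Equiv.prod_comp (MulAut.conjNormal (H := N) k⁻¹).toEquiv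
      (fun n : N => k.1 (n.1.1 v))
    have e2 : ∏ n : N, n.1.1 (k.1 v)
        = ∏ n : N, k.1 (((MulAut.conjNormal (H := N) k⁻¹) n).1.1 v) := by
      apply Finset.prod_congr rfl
      intro n _
      have h3 : (((MulAut.conjNormal (H := N) k⁻¹) n : N) : K) = k⁻¹ * n.1 * k⁻¹⁻¹ :=
        MulAut.conjNormal_apply _ _
      rw [h3]
      simp [MulAut.mul_apply]
    rw [e2]
    have e' : ∏ n : N, k.1 (((MulAut.conjNormal (H := N) k⁻¹) n).1.1 v)
        = ∏ n : N, k.1 (n.1.1 v) := e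
    rw [e', ← map_prod, ← hτ, hv, map_one]
  obtain ⟨x₀, hx₀⟩ := exists_prime_orderOf_dvd_card' p hK
  have hx₀1 : (x₀.1 : MulAut P) ≠ 1 := by
    intro h
    have h1 : x₀ = 1 := Subtype.ext h
    rw [h1, orderOf_one] at hx₀
    exact hp.one_lt.ne hx₀
  have hx₀p : (x₀.1 : MulAut P) ^ p = 1 := by
    have h1 := pow_orderOf_eq_one x₀
    rw [hx₀] at h1
    have h2 := congrArg Subtype.val h1
    simpa using h2
  letI : Fintype τ.ker := Fintype.ofFinite τ.ker
  let f : Function.End τ.ker := fun w => ⟨x₀.1 w.1, hinv x₀ w.1 w.2⟩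
  have hfn : ∀ (n : ℕ) (w : τ.ker), ((f ^ n) w : P) = (x₀.1 ^ n) w.1 := by
    intro n
    induction n with
    | zero =>
      intro w
      rw [pow_zero, pow_zero]
      rfl
    | succ n ih =>
      intro w
      rw [pow_succ]
      show (((f ^ n) (f w) : τ.ker) : P) = _
      rw [ih, pow_succ, MulAut.mul_apply]
  have hfp : f ^ p ^ 1 = 1 := by
    funext w
    apply Subtype.ext
    rw [pow_one, hfn, hx₀p]
    rfl
  have hmod := Equiv.Perm.card_fixedPoints_modEq (p := p) (n := 1) hfp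
  have hWcard : p ∣ Fintype.card τ.ker := by
    obtain ⟨j, hj⟩ := IsPGroup.iff_card.1 (hP.to_subgroup τ.ker)
    rw [← Nat.card_eq_fintype_card, hj]
    apply dvd_pow_self
    rintro rfl
    rw [pow_zero] at hj
    exact hW (Subgroup.card_eq_one.1 hj)
  have h0 : p ∣ Fintype.card (Function.fixedPoints f) :=
    (Nat.modEq_zero_iff_dvd.1 (hmod.symm.trans (Nat.modEq_zero_iff_dvd.2 hWcard)))
  have hone : (1 : τ.ker) ∈ Function.fixedPoints f := by
    show f 1 = 1
    apply Subtype.ext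
    show x₀.1 (1 : P) = 1
    exact map_one _
  have hpos : 0 < Fintype.card (Function.fixedPoints f) := Fintype.card_pos_iff.2 ⟨⟨_, hone⟩⟩
  have h1lt : 1 < Fintype.card (Function.fixedPoints f) := by
    have h2 := Nat.le_of_dvd hpos h0
    have h3 := hp.two_le
    omega
  obtain ⟨⟨w, hw⟩, hne⟩ := Fintype.exists_ne_of_one_lt_card h1lt ⟨_, hone⟩
  have hw1 : (w : P) ≠ 1 := by
    intro h
    apply hne
    apply Subtype.ext
    exact Subtype.ext h
  have hwfix : x₀.1 (w : P) = w := congrArg Subtype.val hw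
  have hall : ∀ n : N, n.1.1 (w : P) = w := by
    intro n
    by_cases hn1 : (n.1.1 : MulAut P) = 1
    · rw [hn1]; rfl
    · exact (hfix x₀.1 n.1.1 x₀.2 n.1.2 hx₀1 hn1 w).1 hwfix
  have hτw : τ (w : P) = (w : P) ^ Fintype.card N := by
    rw [hτ, Finset.prod_congr rfl (fun n _ => hall n), Finset.prod_const, Finset.card_univ]
  have hw2 : (w : P) ^ Fintype.card N = 1 := by
    rw [← hτw]
    exact w.2
  obtain ⟨e, he⟩ := hP (w : P)
  have hd1 : orderOf (w : P) ∣ Fintype.card N := orderOf_dvd_of_pow_eq_one hw2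
  have hd2 : orderOf (w : P) ∣ p ^ e := orderOf_dvd_of_pow_eq_one he
  have hcop : Nat.Coprime (Fintype.card N) (p ^ e) := by
    apply Nat.Coprime.pow_right
    rw [Nat.coprime_comm, Nat.Prime.coprime_iff_not_dvd hp, ← Nat.card_eq_fintype_card]
    exact hpN
  have hord : orderOf (w : P) = 1 := Nat.eq_one_of_dvd_coprimes hcop hd1 hd2
  exact hw1 (orderOf_eq_one_iff.1 hord)

end Cfsg.Agent.S4036
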