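import Cfsg.Statements.S4051
import Mathlib
import Cfsg.Agent.Helper7.PiClosed2

set_option autoImplicit false
open Cfsg

namespace Cfsg.Agent.S4051

open Cfsg.Agent.Helper7

theorem pi_closed_extension {G : Type*} [Group G] [Finite G] (π : Set ℕ)
    (hhom : ∀ H : Subgroup G, H ≠ ⊥ → (∀ p : ℕ, p.Prime → p ∣ Nat.card ↥H → p ∉ π) →
        ∀ p : ℕ, p.Prime → p ∣ (Subgroup.centralizer (H : Set G)).relIndex
          (Subgroup.normalizer (H : Set G)) → p ∉ π)
    (K : Subgroup G) [K.Normal]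
    (hK : ∃ L : Subgroup ↥K, ∀ x : ↥K, x ∈ L ↔ PiNum π (orderOf x))
    (hQ : ∃ L : Subgroup (G ⧸ K), ∀ x : G ⧸ K, x ∈ L ↔ PiNum π (orderOf x)) :
    ∃ T : Subgroup G, ∀ x : G, x ∈ T ↔ PiNum π (orderOf x) := by
  obtain ⟨L₀, hL₀⟩ := hK
  obtain ⟨LQ, hLQ⟩ := hQ
  have hLmem : ∀ x : G, x ∈ L₀.map K.subtype ↔ x ∈ K ∧ PiNum π (orderOf x) := by
    intro x
    constructor
    · rintro ⟨l₀, hl₀, rfl⟩
      refine ⟨l₀.2, ?_⟩
      have := (hL₀ l₀).1 hl₀
      rwa [← Subgroup.orderOf_coe] at this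
    · rintro ⟨hxK, hx⟩
      refine ⟨⟨x, hxK⟩, (hL₀ _).2 ?_, rfl⟩
      rwa [Subgroup.orderOf_mk]
  haveI hLn : (L₀.map K.subtype).Normal := by
    refine ⟨fun l hl g => ?_⟩
    rw [hLmem] at hl ⊢
    refine ⟨‹K.Normal›.conj_mem l hl.1 g, ?_⟩
    have h1 : orderOf (g * l * g⁻¹) = orderOf l := (MulAut.conj g).orderOf_eq l
    rw [h1]
    exact hl.2
  have hLcard : PiNum π (Nat.card ↥(L₀.map K.subtype)) := by
    intro p' hp' hd
    haveI : Fact p'.Prime := ⟨hp'⟩
    obtain ⟨l, hl⟩ := exists_prime_orderOf_dvd_card' p' hd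
    have h1 := ((hLmem (l : G)).1 l.2).2
    rw [Subgroup.orderOf_coe, hl] at h1
    exact h1 p' hp' dvd_rfl
  have hker : ∀ y : G, QuotientGroup.mk' (L₀.map K.subtype) y = 1 ↔ y ∈ L₀.map K.subtype := by
    intro y
    rw [QuotientGroup.mk'_apply, QuotientGroup.eq_one_iff]
  have hKbar : PiNum' π (Nat.card ↥(K.map (QuotientGroup.mk' (L₀.map K.subtype)))) := by
    intro p' hp' hd hπ'
    haveI : Fact p'.Prime := ⟨hp'⟩
    obtain ⟨kb, hkb⟩ := exists_prime_orderOf_dvd_card' p' hd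
    obtain ⟨k, hk, hkq⟩ := kb.2
    have h1 : (QuotientGroup.mk' (L₀.map K.subtype) k) ^ p' = 1 := by
      rw [hkq, ← Subgroup.coe_pow, ← hkb, pow_orderOf_eq_one]
      rfl
    rw [← map_pow, hker] at h1
    have h2 := ((hLmem _).1 h1).2
    have h3 : orderOf k ∣ p' * orderOf (k ^ p') := by
      apply orderOf_dvd_of_pow_eq_one
      rw [pow_mul, pow_orderOf_eq_one]
    have h4 : PiNum π (orderOf k) :=
      PiNum.of_dvd (PiNum.mul (fun r hr hrd => by
        rw [(Nat.prime_dvd_prime_iff_eq hr hp').1 hrd]; exact hπ') h2) h3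
    have h5 : k ∈ L₀.map K.subtype := (hLmem k).2 ⟨hk, h4⟩
    rw [← hker, hkq] at h5
    have h6 : kb = 1 := Subtype.ext h5
    rw [h6, orderOf_one] at hkb
    exact hp'.one_lt.ne hkb
  have hcent : ∀ x : G, PiNum π (orderOf x) → x ∈
      (Subgroup.centralizer (K.map (QuotientGroup.mk' (L₀.map K.subtype)) : Set (G ⧸ L₀.map K.subtype))).comap
        (QuotientGroup.mk' (L₀.map K.subtype)) := by
    apply piElement_mem_of_pElements
    intro p hp hpπ x a hx
    rw [Subgroup.mem_comap, Subgroup.mem_centralizer_iff]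
    intro k hk
    exact (pElement_centralizes_quot π hhom K (L₀.map K.subtype) hKbar p hp hpπ x a hx k hk).symm
  have hKM : K ≤ LQ.comap (QuotientGroup.mk' K) := by
    intro k hk
    rw [Subgroup.mem_comap, QuotientGroup.mk'_apply, (QuotientGroup.eq_one_iff k).2 hk]
    exact LQ.one_mem
  have hπM : ∀ x : G, PiNum π (orderOf x) → x ∈ LQ.comap (QuotientGroup.mk' K) := by
    intro x hx
    rw [Subgroup.mem_comap, hLQ]
    exact hx.of_dvd (orderOf_map_dvd _ x)
  -- the subgroups X and Z of the quotient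
  set q := QuotientGroup.mk' (L₀.map K.subtype) with hq
  set X : Subgroup (G ⧸ L₀.map K.subtype) :=
    Subgroup.centralizer (K.map q : Set (G ⧸ L₀.map K.subtype)) ⊓
      (LQ.comap (QuotientGroup.mk' K)).map q with hX
  set Z : Subgroup (G ⧸ L₀.map K.subtype) :=
    K.map q ⊓ Subgroup.centralizer (K.map q : Set (G ⧸ L₀.map K.subtype)) with hZ
  have hZc : Z.subgroupOf X ≤ Subgroup.center ↥X := by
    intro z hz
    rw [Subgroup.mem_center_iff]
    intro g
    apply Subtype.ext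
    have h1 := Subgroup.mem_centralizer_iff.1 g.2.1 (z : G ⧸ L₀.map K.subtype)
      (Subgroup.mem_subgroupOf.1 hz).1
    exact h1.symm
  haveI hZn : (Z.subgroupOf X).Normal := by
    refine ⟨fun z hz g => ?_⟩
    have h1 := Subgroup.mem_center_iff.1 (hZc hz) g
    have h2 : g * z * g⁻¹ = z := by rw [h1]; group
    rw [h2]; exact hz
  obtain ⟨f, hf⟩ := pow_index_hom (Z.subgroupOf X) hZc
  have he : PiNum π (Z.subgroupOf X).index := by
    intro p' hp' hd
    haveI : Fact p'.Prime := ⟨hp'⟩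
    rw [Subgroup.index_eq_card] at hd
    obtain ⟨yb, hyb⟩ := exists_prime_orderOf_dvd_card' p' hd
    obtain ⟨y, rfl⟩ := QuotientGroup.mk_surjective yb
    obtain ⟨m₀, hm₀, hm₀y⟩ := y.2.2
    have hf₀ : PiNum π (orderOf (QuotientGroup.mk' K m₀)) := (hLQ _).1 hm₀
    have h1 : m₀ ^ orderOf (QuotientGroup.mk' K m₀) ∈ K := by
      rw [← QuotientGroup.eq_one_iff, ← QuotientGroup.mk'_apply, map_pow, pow_orderOf_eq_one]
    have h2 : y ^ orderOf (QuotientGroup.mk' K m₀) ∈ Z.subgroupOf X := by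
      rw [Subgroup.mem_subgroupOf]
      refine ⟨?_, (y ^ orderOf (QuotientGroup.mk' K m₀)).2.1⟩
      rw [Subgroup.coe_pow, ← hm₀y, ← map_pow]
      exact Subgroup.mem_map_of_mem q h1
    have h3 : (y : ↥X ⧸ Z.subgroupOf X) ^ orderOf (QuotientGroup.mk' K m₀) = 1 := by
      rw [← QuotientGroup.mk_pow]
      exact (QuotientGroup.eq_one_iff _).2 h2
    have h4 : p' ∣ orderOf (QuotientGroup.mk' K m₀) := hyb ▸ orderOf_dvd_of_pow_eq_one h3
    exact hf₀ p' hp' h4
  refine ⟨(f.ker.map X.subtype).comap q, fun x => ⟨?_, ?_⟩⟩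
  · intro hx
    obtain ⟨y, hy, hyx⟩ := hx
    have h1 : y ^ (Z.subgroupOf X).index = 1 := by
      rw [← hf y]; exact hy
    have h2 : (q x) ^ (Z.subgroupOf X).index = 1 := by
      have h3 := congrArg (X.subtype) h1
      rw [map_pow, map_one, hyx] at h3
      exact h3
    rw [← map_pow, hq, hker] at h2
    have h4 := ((hLmem _).1 h2).2
    have h5 : orderOf x ∣ (Z.subgroupOf X).index * orderOf (x ^ (Z.subgroupOf X).index) := by
      apply orderOf_dvd_of_pow_eq_one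
      rw [pow_mul, pow_orderOf_eq_one]
    exact (he.mul h4).of_dvd h5
  · intro hx
    have hqX : q x ∈ X := ⟨hcent x hx, Subgroup.mem_map_of_mem q (hπM x hx)⟩
    refine ⟨⟨q x, hqX⟩, ?_, rfl⟩
    show f ⟨q x, hqX⟩ = 1
    rw [hf]
    -- the order of y^e is both a π-number and a π'-number
    have hmemZ : (⟨q x, hqX⟩ : ↥X) ^ (Z.subgroupOf X).index ∈ Z.subgroupOf X :=
      Subgroup.pow_index_mem _ _
    have hd1 : PiNum π (orderOf ((⟨q x, hqX⟩ : ↥X) ^ (Z.subgroupOf X).index)) := by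
      apply hx.of_dvd
      have h1 : orderOf ((⟨q x, hqX⟩ : ↥X) ^ (Z.subgroupOf X).index) ∣
          orderOf (⟨q x, hqX⟩ : ↥X) := orderOf_pow_dvd _
      have h2 : orderOf (⟨q x, hqX⟩ : ↥X) = orderOf (q x) := Subgroup.orderOf_mk _ _
      rw [h2] at h1
      exact h1.trans (orderOf_map_dvd _ x)
    have hd2 : PiNum' π (orderOf ((⟨q x, hqX⟩ : ↥X) ^ (Z.subgroupOf X).index)) := by
      apply hKbar.of_dvd
      have hmemK : (((⟨q x, hqX⟩ : ↥X) ^ (Z.subgroupOf X).index : ↥X) : G ⧸ L₀.map K.subtype) ∈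
          K.map q := (Subgroup.mem_subgroupOf.1 hmemZ).1
      have h1 := orderOf_dvd_natCard (⟨_, hmemK⟩ : ↥(K.map q))
      rw [Subgroup.orderOf_mk, Subgroup.orderOf_coe] at h1
      exact h1
    exact orderOf_eq_one_iff.1 (eq_one_of_piNum_piNum' hd1 hd2)

/-- Let π be a set of primes and G a finite group such that N_G(H)/C_G(H) is a π'-group for every nontrivial π'-subgroup H of G. If K is a normal subgroup of G such that the π-elements of K form a subgroup and the π-elements of G/K form a subgroup, then the π-elements of G form a subgroup. -/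
theorem result {G : Type*} [Group G] [Finite G] (π : Set ℕ)
    (hπ : ∀ p ∈ π, p.Prime) (hhom : (∀ H : Subgroup G, H ≠ ⊥ → (∀ p : ℕ, p.Prime → p ∣ Nat.card ↥H → p ∉ π) →
        ∀ p : ℕ, p.Prime → p ∣ (Subgroup.centralizer (H : Set G)).relIndex (Subgroup.normalizer (H : Set G)) → p ∉ π))
    (K : Subgroup G) [K.Normal]
    (hK : ∃ L : Subgroup ↥K, ∀ x : ↥K, x ∈ L ↔ ∀ p : ℕ, p.Prime → p ∣ orderOf x → p ∈ π)
    (hQ : ∃ L : Subgroup (G ⧸ K), ∀ x : G ⧸ K, x ∈ L ↔ ∀ p : ℕ, p.Prime → p ∣ orderOf x → p ∈ π) :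
    (∃ K : Subgroup G, ∀ x : G, x ∈ K ↔ ∀ p : ℕ, p.Prime → p ∣ orderOf x → p ∈ π) :=
  pi_closed_extension π hhom K hK hQ

end Cfsg.Agent.S4051
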