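import Cfsg.Statements.S4050
import Mathlib
import Cfsg.Agent.S4051

set_option autoImplicit false
open Cfsg

namespace Cfsg.Agent.S4050

open Cfsg.Agent.Helper7

/-- The homogeneity hypothesis passes to subgroups. -/
theorem hhom_subgroup {G : Type*} [Group G] [Finite G] (π : Set ℕ)
    (hhom : ∀ H : Subgroup G, H ≠ ⊥ → (∀ p : ℕ, p.Prime → p ∣ Nat.card ↥H → p ∉ π) →
        ∀ p : ℕ, p.Prime → p ∣ (Subgroup.centralizer (H : Set G)).relIndex
          (Subgroup.normalizer (H : Set G)) → p ∉ π)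
    (Γ : Subgroup G) :
    ∀ H : Subgroup ↥Γ, H ≠ ⊥ → (∀ p : ℕ, p.Prime → p ∣ Nat.card ↥H → p ∉ π) →
        ∀ p : ℕ, p.Prime → p ∣ (Subgroup.centralizer (H : Set ↥Γ)).relIndex
          (Subgroup.normalizer (H : Set ↥Γ)) → p ∉ π := by
  intro H hH hHπ
  have hH'' : H.map Γ.subtype ≠ ⊥ := by
    rw [Ne, Subgroup.map_eq_bot_iff_of_injective H Γ.subtype_injective]
    exact hH
  have hcard : Nat.card ↥(H.map Γ.subtype) = Nat.card ↥H :=
    Subgroup.card_map_of_injective Γ.subtype_injective
  have ht := hhom (H.map Γ.subtype) hH'' (by rw [hcard]; exact hHπ)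
  have hmemN : ∀ n : ↥(Subgroup.normalizer (H : Set ↥Γ)),
      (Γ.subtype.comp (Subgroup.normalizer (H : Set ↥Γ)).subtype) n ∈
        Subgroup.normalizer ((H.map Γ.subtype : Subgroup G) : Set G) := by
    intro n
    apply Subgroup.mem_normalizer_fintype
    rintro _ ⟨h, hh, rfl⟩
    have h1 := (Subgroup.mem_normalizer_iff.1 n.2 h).1 hh
    exact ⟨_, h1, rfl⟩
  set ψ : ↥(Subgroup.normalizer (H : Set ↥Γ)) →*
      ↥(Subgroup.normalizer ((H.map Γ.subtype : Subgroup G) : Set G)) ⧸
        (Subgroup.centralizer ((H.map Γ.subtype : Subgroup G) : Set G)).subgroupOf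
          (Subgroup.normalizer ((H.map Γ.subtype : Subgroup G) : Set G)) :=
    (QuotientGroup.mk' _).comp (MonoidHom.codRestrict
      (Γ.subtype.comp (Subgroup.normalizer (H : Set ↥Γ)).subtype) _ hmemN) with hψ
  have hker : ψ.ker = (Subgroup.centralizer (H : Set ↥Γ)).subgroupOf
      (Subgroup.normalizer (H : Set ↥Γ)) := by
    ext n
    rw [MonoidHom.mem_ker, hψ, MonoidHom.comp_apply, QuotientGroup.mk'_apply,
      QuotientGroup.eq_one_iff, Subgroup.mem_subgroupOf, Subgroup.mem_subgroupOf,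
      Subgroup.mem_centralizer_iff, Subgroup.mem_centralizer_iff]
    constructor
    · intro h1 h hh
      have h2 := h1 (h : G) ⟨h, hh, rfl⟩
      exact Subtype.ext h2
    · rintro h1 _ ⟨h, hh, rfl⟩
      have h2 := h1 h hh
      exact congrArg Subtype.val h2
  have hdvd : (Subgroup.centralizer (H : Set ↥Γ)).relIndex (Subgroup.normalizer (H : Set ↥Γ)) ∣
      (Subgroup.centralizer ((H.map Γ.subtype : Subgroup G) : Set G)).relIndex
        (Subgroup.normalizer ((H.map Γ.subtype : Subgroup G) : Set G)) := by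
    show ((Subgroup.centralizer (H : Set ↥Γ)).subgroupOf (Subgroup.normalizer (H : Set ↥Γ))).index ∣
      ((Subgroup.centralizer ((H.map Γ.subtype : Subgroup G) : Set G)).subgroupOf
        (Subgroup.normalizer ((H.map Γ.subtype : Subgroup G) : Set G))).index
    rw [← hker, Subgroup.index_ker, Subgroup.index_eq_card]
    exact Subgroup.card_subgroup_dvd_card _
  intro p hp hd
  exact ht p hp (hd.trans hdvd)

theorem normal_of_pi {G : Type*} [Group G] (π : Set ℕ) (T : Subgroup G)
    (hT : ∀ x : G, x ∈ T ↔ PiNum π (orderOf x)) : T.Normal := by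
  refine ⟨fun l hl g => ?_⟩
  rw [hT] at hl ⊢
  have h1 : orderOf (g * l * g⁻¹) = orderOf l := (MulAut.conj g).orderOf_eq l
  rw [h1]
  exact hl

theorem card_pi {G : Type*} [Group G] [Finite G] (π : Set ℕ) (T : Subgroup G)
    (hT : ∀ x : G, x ∈ T ↔ PiNum π (orderOf x)) : PiNum π (Nat.card ↥T) := by
  intro p' hp' hd
  haveI : Fact p'.Prime := ⟨hp'⟩
  obtain ⟨l, hl⟩ := exists_prime_orderOf_dvd_card' p' hd
  have h1 := (hT (l : G)).1 l.2
  rw [Subgroup.orderOf_coe, hl] at h1
  exact h1 p' hp' dvd_rfl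

theorem index_pi' {G : Type*} [Group G] [Finite G] (π : Set ℕ) (T : Subgroup G)
    (hT : ∀ x : G, x ∈ T ↔ PiNum π (orderOf x)) : PiNum' π T.index := by
  haveI := normal_of_pi π T hT
  intro p' hp' hd hπ'
  haveI : Fact p'.Prime := ⟨hp'⟩
  rw [Subgroup.index_eq_card] at hd
  obtain ⟨kb, hkb⟩ := exists_prime_orderOf_dvd_card' p' hd
  obtain ⟨k, rfl⟩ := QuotientGroup.mk_surjective kb
  have h1 : ((k ^ p' : G) : G ⧸ T) = 1 := by
    rw [QuotientGroup.mk_pow, ← hkb, pow_orderOf_eq_one]
  rw [QuotientGroup.eq_one_iff, hT] at h1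
  have h3 : orderOf k ∣ p' * orderOf (k ^ p') := by
    apply orderOf_dvd_of_pow_eq_one
    rw [pow_mul, pow_orderOf_eq_one]
  have h4 : PiNum π (orderOf k) :=
    PiNum.of_dvd (PiNum.mul (fun r hr hrd => by
      rw [(Nat.prime_dvd_prime_iff_eq hr hp').1 hrd]; exact hπ') h1) h3
  have h5 : k ∈ T := (hT k).2 h4
  have h6 : (k : G ⧸ T) = 1 := (QuotientGroup.eq_one_iff k).2 h5
  rw [h6, orderOf_one] at hkb
  exact hp'.one_lt.ne hkb

/-- Let π be a set of primes and G a finite group. The π-elements of G (elements whose order is divisible only by primes of π) form a subgroup if and only if G is π-separable (it has a chain of normal subgroups from 1 to G with each successive index divisible only by primes in π or only by primes outside π) and N_G(H)/C_G(H) is a π'-group for every nontrivial π'-subgroup H of G. -/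
theorem result {G : Type*} [Group G] [Finite G] (π : Set ℕ)
    (hπ : ∀ p ∈ π, p.Prime) :
    (∃ K : Subgroup G, ∀ x : G, x ∈ K ↔ ∀ p : ℕ, p.Prime → p ∣ orderOf x → p ∈ π) ↔
    ((∃ (n : ℕ) (H : Fin (n + 1) → Subgroup G), H 0 = ⊥ ∧ H (Fin.last n) = ⊤ ∧ Monotone H ∧ (∀ i, (H i).Normal) ∧
      ∀ i : Fin n, (∀ q : ℕ, q.Prime → q ∣ (H i.castSucc).relIndex (H i.succ) → q ∈ π) ∨
        (∀ q : ℕ, q.Prime → q ∣ (H i.castSucc).relIndex (H i.succ) → q ∉ π)) ∧
     (∀ H : Subgroup G, H ≠ ⊥ → (∀ p : ℕ, p.Prime → p ∣ Nat.card ↥H → p ∉ π) →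
        ∀ p : ℕ, p.Prime → p ∣ (Subgroup.centralizer (H : Set G)).relIndex (Subgroup.normalizer (H : Set G)) → p ∉ π)) := by
  constructor
  · rintro ⟨T, hT⟩
    have hT' : ∀ x : G, x ∈ T ↔ PiNum π (orderOf x) := hT
    haveI hTn := normal_of_pi π T hT'
    have hc := card_pi π T hT'
    have hi := index_pi' π T hT'
    refine ⟨⟨2, ![⊥, T, ⊤], rfl, rfl, ?_, ?_, ?_⟩, ?_⟩
    · rw [Fin.monotone_iff_le_succ]
      intro i
      fin_cases i
      · exact bot_le
      · exact le_top
    · intro i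
      fin_cases i
      · exact Subgroup.normal_bot
      · exact hTn
      · exact Subgroup.normal_top
    · intro i
      fin_cases i
      · left
        intro q hq hd
        have h1 : (⊥ : Subgroup G).relIndex T = Nat.card ↥T := Subgroup.relIndex_bot_left T
        exact hc q hq (h1 ▸ hd)
      · right
        intro q hq hd
        have h1 : T.relIndex ⊤ = T.index := Subgroup.relIndex_top_right T
        exact hi q hq (h1 ▸ hd)
    · intro H hH hHπ p hp hd
      -- T ⊓ N ≤ C
      have hle : T ⊓ Subgroup.normalizer (H : Set G) ≤ Subgroup.centralizer (H : Set G) := by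
        rintro y ⟨hyT, hyN⟩
        rw [Subgroup.mem_centralizer_iff]
        intro h hh
        have h1 : y * h * y⁻¹ * h⁻¹ ∈ H :=
          H.mul_mem ((Subgroup.mem_normalizer_iff.1 hyN h).1 hh) (H.inv_mem hh)
        have h2 : y * h * y⁻¹ * h⁻¹ ∈ T := by
          have e : y * h * y⁻¹ * h⁻¹ = y * (h * y⁻¹ * h⁻¹) := by group
          rw [e]
          exact T.mul_mem hyT (hTn.conj_mem _ (T.inv_mem hyT) h)
        have h3 : PiNum π (orderOf (y * h * y⁻¹ * h⁻¹)) := (hT' _).1 h2
        have h4 : PiNum' π (orderOf (y * h * y⁻¹ * h⁻¹)) := by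
          intro r hr hrd
          apply hHπ r hr
          have h5 := orderOf_dvd_natCard (⟨_, h1⟩ : ↥H)
          rw [Subgroup.orderOf_mk] at h5
          exact hrd.trans h5
        have h6 : y * h * y⁻¹ * h⁻¹ = 1 := orderOf_eq_one_iff.1 (eq_one_of_piNum_piNum' h3 h4)
        calc h * y = (y * h * y⁻¹ * h⁻¹)⁻¹ * (y * h) := by group
          _ = y * h := by rw [h6, inv_one, one_mul]
      have h1 : (Subgroup.centralizer (H : Set G)).relIndex (Subgroup.normalizer (H : Set G)) ∣
          (T ⊓ Subgroup.normalizer (H : Set G)).relIndex (Subgroup.normalizer (H : Set G)) :=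
        Subgroup.relIndex_dvd_of_le_left _ hle
      rw [Subgroup.inf_relIndex_right] at h1
      exact hi p hp ((hd.trans h1).trans (Subgroup.relIndex_dvd_index_of_normal T _))
  · rintro ⟨⟨n, H, h0, hlast, hmono, hnorm, hfac⟩, hhom⟩
    have key : ∀ k : ℕ, ∀ hk : k < n + 1, ∃ T : Subgroup G,
        ∀ x : G, x ∈ T ↔ x ∈ H ⟨k, hk⟩ ∧ PiNum π (orderOf x) := by
      intro k
      induction k with
      | zero =>
        intro hk
        refine ⟨⊥, fun x => ?_⟩
        have e : H ⟨0, hk⟩ = ⊥ := h0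
        rw [e, Subgroup.mem_bot]
        constructor
        · rintro rfl
          refine ⟨rfl, ?_⟩
          rw [orderOf_one]
          intro p hp hd
          exact absurd (Nat.le_of_dvd one_pos hd) (not_le.2 hp.one_lt)
        · exact fun h => h.1
      | succ k ih =>
        intro hk
        have hk0 : k < n + 1 := by omega
        obtain ⟨T, hT⟩ := ih hk0
        -- the two consecutive terms
        have hk' : k < n := by omega
        have e1 : (⟨k, hk'⟩ : Fin n).castSucc = ⟨k, hk0⟩ := rfl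
        have e2 : (⟨k, hk'⟩ : Fin n).succ = ⟨k + 1, hk⟩ := rfl
        have hle : H ⟨k, hk0⟩ ≤ H ⟨k + 1, hk⟩ := by
          apply hmono
          rw [Fin.le_def]
          simp
        have hfac' := hfac ⟨k, hk'⟩
        rw [e1, e2] at hfac'
        haveI hn1 : (H ⟨k, hk0⟩).Normal := hnorm _
        haveI hn2 : ((H ⟨k, hk0⟩).subgroupOf (H ⟨k + 1, hk⟩)).Normal := inferInstance
        -- hypotheses for the extension theorem in the group H (k+1)
        have hK : ∃ L : Subgroup ↥((H ⟨k, hk0⟩).subgroupOf (H ⟨k + 1, hk⟩)),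
            ∀ x : ↥((H ⟨k, hk0⟩).subgroupOf (H ⟨k + 1, hk⟩)),
              x ∈ L ↔ PiNum π (orderOf x) := by
          refine ⟨T.comap ((H ⟨k + 1, hk⟩).subtype.comp
            ((H ⟨k, hk0⟩).subgroupOf (H ⟨k + 1, hk⟩)).subtype), fun x => ?_⟩
          rw [Subgroup.mem_comap, hT]
          have hx : ((x : ↥(H ⟨k + 1, hk⟩)) : G) ∈ H ⟨k, hk0⟩ := Subgroup.mem_subgroupOf.1 x.2
          have ho : orderOf (((x : ↥(H ⟨k + 1, hk⟩)) : G)) = orderOf x := by
            rw [Subgroup.orderOf_coe, Subgroup.orderOf_coe]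
          constructor
          · intro h
            rw [← ho]; exact h.2
          · intro h
            refine ⟨hx, ?_⟩
            rw [← ho] at h; exact h
        have hQ : ∃ L : Subgroup (↥(H ⟨k + 1, hk⟩) ⧸ (H ⟨k, hk0⟩).subgroupOf (H ⟨k + 1, hk⟩)),
            ∀ x : ↥(H ⟨k + 1, hk⟩) ⧸ (H ⟨k, hk0⟩).subgroupOf (H ⟨k + 1, hk⟩),
              x ∈ L ↔ PiNum π (orderOf x) := by
          have hcardq : Nat.card (↥(H ⟨k + 1, hk⟩) ⧸ (H ⟨k, hk0⟩).subgroupOf (H ⟨k + 1, hk⟩)) =
              (H ⟨k, hk0⟩).relIndex (H ⟨k + 1, hk⟩) := by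
            rw [← Subgroup.index_eq_card]; rfl
          rcases hfac' with hf | hf
          · refine ⟨⊤, fun x => ⟨fun _ => ?_, fun _ => Subgroup.mem_top _⟩⟩
            intro q hq hd
            apply hf q hq
            rw [← hcardq]
            exact hd.trans (orderOf_dvd_natCard x)
          · refine ⟨⊥, fun x => ?_⟩
            rw [Subgroup.mem_bot]
            constructor
            · rintro rfl
              rw [orderOf_one]
              intro p hp hd
              exact absurd (Nat.le_of_dvd one_pos hd) (not_le.2 hp.one_lt)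
            · intro h
              have h' : PiNum' π (orderOf x) := by
                intro q hq hd
                apply hf q hq
                rw [← hcardq]
                exact hd.trans (orderOf_dvd_natCard x)
              exact orderOf_eq_one_iff.1 (eq_one_of_piNum_piNum' h h')
        obtain ⟨T', hT'⟩ := Cfsg.Agent.S4051.pi_closed_extension π
          (hhom_subgroup π hhom (H ⟨k + 1, hk⟩)) _ hK hQ
        refine ⟨T'.map (H ⟨k + 1, hk⟩).subtype, fun x => ?_⟩
        constructor
        · rintro ⟨y, hy, rfl⟩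
          refine ⟨y.2, ?_⟩
          have := (hT' y).1 hy
          rwa [← Subgroup.orderOf_coe] at this
        · rintro ⟨hx1, hx2⟩
          refine ⟨⟨x, hx1⟩, (hT' _).2 ?_, rfl⟩
          rwa [Subgroup.orderOf_mk]
    obtain ⟨T, hT⟩ := key n (by omega)
    refine ⟨T, fun x => ?_⟩
    rw [hT]
    have e : H ⟨n, by omega⟩ = ⊤ := hlast
    rw [e]
    exact ⟨fun h => h.2, fun h => ⟨Subgroup.mem_top _, h⟩⟩

end Cfsg.Agent.S4050
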