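import Cfsg.Statements.S4056
import Cfsg.Agent.Helper4.Class2

set_option autoImplicit false
open Cfsg

namespace Cfsg.Agent.S4056

/-- In a finite 2-group of nilpotency class at most 2 and exponent dividing 4, the Frattini subgroup lies in the centre and is elementary abelian. -/
theorem result {P : Type*} [Group P] [Finite P] (hP : IsPGroup 2 P)
    (hcl : Group.nilpotencyClass P ≤ 2) (hexp : Monoid.exponent P ∣ 4) :
    frattini P ≤ Subgroup.center P ∧ Cfsg.IsElementaryAbelian 2 (frattini P) := by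
  classical
  have hnil : Group.IsNilpotent P := hP.isNilpotent
  have hucs : Subgroup.upperCentralSeries P 2 = ⊤ :=
    Subgroup.upperCentralSeries_eq_top_iff_nilpotencyClass_le.mpr hcl
  have hc : ∀ x y : P, x * y * x⁻¹ * y⁻¹ ∈ Subgroup.center P := by
    intro x y
    have h1 : x ∈ Subgroup.upperCentralSeries P (1 + 1) := by rw [hucs]; trivial
    rw [Subgroup.mem_upperCentralSeries_succ_iff] at h1
    have h2 := h1 y
    rwa [Subgroup.upperCentralSeries_one] at h2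
  have h4 : ∀ x : P, x ^ 4 = 1 := fun x => Monoid.exponent_dvd_iff_forall_pow_eq_one.mp hexp x
  have hcomm2 : ∀ a b : P, (a * b * a⁻¹ * b⁻¹) ^ 2 = 1 := by
    intro a b
    have hw : ∀ g : P, (a * b * a⁻¹ * b⁻¹) * g = g * (a * b * a⁻¹ * b⁻¹) :=
      fun g => ((Subgroup.mem_center_iff.mp (hc a b)) g).symm
    have h : a⁻¹ * b⁻¹ = b⁻¹ * a⁻¹ * (a * b * a⁻¹ * b⁻¹) := by group
    have h5 := Helper4.c2_fourth b⁻¹ a⁻¹ (a * b * a⁻¹ * b⁻¹) h hw
    rw [h4, h4, h4, one_mul, one_mul] at h5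
    have h6 : (a * b * a⁻¹ * b⁻¹) ^ 6 = (a * b * a⁻¹ * b⁻¹) ^ 4 * (a * b * a⁻¹ * b⁻¹) ^ 2 := by
      rw [← pow_add]
    rw [h6, h4, one_mul] at h5
    exact h5.symm
  have hsqc : ∀ x g : P, g * x ^ 2 = x ^ 2 * g := by
    intro x g
    have hw : ∀ k : P, (g⁻¹ * x⁻¹ * g⁻¹⁻¹ * x⁻¹⁻¹) * k = k * (g⁻¹ * x⁻¹ * g⁻¹⁻¹ * x⁻¹⁻¹) :=
      fun k => ((Subgroup.mem_center_iff.mp (hc g⁻¹ x⁻¹)) k).symm
    have h : g * x = x * g * (g⁻¹ * x⁻¹ * g⁻¹⁻¹ * x⁻¹⁻¹) := by group
    have h5 := Helper4.c2_s g x _ h hw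
    rw [hcomm2, mul_one] at h5
    exact h5
  let E : Subgroup P :=
    { carrier := {g | g ∈ Subgroup.center P ∧ g ^ 2 = 1}
      mul_mem' := by
        rintro a b ⟨ha, ha2⟩ ⟨hb, hb2⟩
        refine ⟨Subgroup.mul_mem _ ha hb, ?_⟩
        have hcab : Commute a b := ((Subgroup.mem_center_iff.mp ha) b).symm
        rw [hcab.mul_pow, ha2, hb2, one_mul]
      one_mem' := ⟨Subgroup.one_mem _, one_pow 2⟩
      inv_mem' := by
        rintro a ⟨ha, ha2⟩
        exact ⟨Subgroup.inv_mem _ ha, by rw [inv_pow, ha2, inv_one]⟩ }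
  have hEmem : ∀ g : P, g ∈ E ↔ (g ∈ Subgroup.center P ∧ g ^ 2 = 1) := fun g => Iff.rfl
  have hEn : E.Normal := by
    refine ⟨fun g hg k => ?_⟩
    have h1 : k * g * k⁻¹ = g := by
      rw [(Subgroup.mem_center_iff.mp ((hEmem g).mp hg).1) k]; group
    rw [h1]; exact hg
  have hle : frattini P ≤ E := by
    apply Helper4.frattini_le_of_squares E hEn
    · intro x
      rw [hEmem]
      refine ⟨?_, ?_⟩
      · rw [Subgroup.mem_center_iff]
        intro g
        exact hsqc x g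
      · rw [← pow_mul]; exact h4 x
    · intro x y
      rw [hEmem]
      exact ⟨hc x y, hcomm2 x y⟩
  refine ⟨fun g hg => ((hEmem g).mp (hle hg)).1, ⟨⟨fun a b => ?_⟩⟩, fun a ha => ((hEmem a).mp (hle ha)).2⟩
  apply Subtype.ext
  have h1 := ((hEmem _).mp (hle a.2)).1
  exact ((Subgroup.mem_center_iff.mp h1) b).symm

end Cfsg.Agent.S4056
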