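import Cfsg.Statements.S4066
import Mathlib
import Cfsg.Agent.Helper7.SylowLemmas
import Cfsg.Agent.Helper7.RelSylow
import Cfsg.Agent.Helper7.CoprimeAct

set_option autoImplicit false
open Cfsg

namespace Cfsg.Agent.S4066

theorem exists_central {G : Type*} [Group G] [Finite G] {p : ℕ} [Fact p.Prime] (R : Sylow p G)
    (hR : (R : Subgroup G) ≠ ⊥) : ∃ z ∈ (R : Subgroup G), z ≠ 1 ∧ ∀ x ∈ (R : Subgroup G), x * z = z * x := by
  haveI : Nontrivial (R : Subgroup G) := (Subgroup.nontrivial_iff_ne_bot _).2 hR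
  haveI := R.2.center_nontrivial
  obtain ⟨z', hz'⟩ := (Subgroup.ne_bot_iff_exists_ne_one
    (H := Subgroup.center (R : Subgroup G))).1 ((Subgroup.nontrivial_iff_ne_bot _).1 inferInstance)
  refine ⟨((z' : (R : Subgroup G)) : G), (z' : (R : Subgroup G)).2, ?_, ?_⟩
  · intro h
    apply hz'
    apply Subtype.ext
    apply Subtype.ext
    exact h
  · intro x hx
    have h1 := Subgroup.mem_center_iff.1 z'.2 ⟨x, hx⟩
    exact congrArg Subtype.val h1

open Cfsg.Agent.Helper7 in
theorem result {G : Type*} [Group G] [Finite G] (hTI : ∀ x : G, Cfsg.IsTISubset (Subgroup.centralizer ({x} : Set G) : Set G))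
    {p : ℕ} [Fact p.Prime] (P Q : Sylow p G) (hPQ : P ≠ Q) : (P : Subgroup G) ⊓ (Q : Subgroup G) = ⊥ := by
  have hpp : p.Prime := Fact.out
  have hmemC : ∀ a b : G, a * b = b * a → a ∈ Subgroup.centralizer ({b} : Set G) := by
    intro a b hab
    rw [Subgroup.mem_centralizer_iff]
    intro w hw
    rw [Set.mem_singleton_iff] at hw
    subst hw
    exact hab.symm
  have hCmem : ∀ a b : G, a ∈ Subgroup.centralizer ({b} : Set G) → a * b = b * a := by
    intro a b hab
    rw [Subgroup.mem_centralizer_iff] at hab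
    exact (hab b rfl).symm
  have K : ∀ a b : G, a ≠ 1 → a * b = b * a → Subgroup.centralizer ({a} : Set G) ≤
      Subgroup.normalizer ((Subgroup.centralizer ({b} : Set G) : Subgroup G) : Set G) := by
    intro a b ha hab g hg
    by_contra hcon
    apply ha
    refine hTI b g hcon a (hmemC a b hab) ?_
    have h1 : g * a * g⁻¹ = a := by
      rw [hCmem g a hg, mul_inv_cancel_right]
    rw [h1]
    exact hmemC a b hab
  have S : ∀ (c : G) (R : Sylow p G), (R : Subgroup G) ≤ Subgroup.centralizer ({c} : Set G) →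
      ∀ H : Subgroup G, IsPGroup p H →
      H ≤ Subgroup.normalizer ((Subgroup.centralizer ({c} : Set G) : Subgroup G) : Set G) →
      H ≤ Subgroup.centralizer ({c} : Set G) := by
    intro c R hRC H hH hHN
    have hidx : ¬ p ∣ (R : Subgroup G).relIndex
        (Subgroup.normalizer ((Subgroup.centralizer ({c} : Set G) : Subgroup G) : Set G)) := by
      intro hdiv
      apply R.not_dvd_index
      have h1 := Subgroup.relIndex_mul_index (hRC.trans Subgroup.le_normalizer)
      rw [← h1]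
      exact Dvd.dvd.mul_right hdiv _
    obtain ⟨c', hc'N, hc'⟩ := exists_conj_le_of_not_dvd_relIndex _ (R : Subgroup G) H R.2 hidx hH hHN
    intro x hx
    exact (Subgroup.mem_normalizer_iff.1 hc'N x).2 (hRC (hc' x hx))
  by_contra hne
  obtain ⟨y, hyPQ, hy1⟩ : ∃ y ∈ (P : Subgroup G) ⊓ (Q : Subgroup G), y ≠ 1 := by
    obtain ⟨a, ha⟩ := (Subgroup.ne_bot_iff_exists_ne_one
      (H := (P : Subgroup G) ⊓ (Q : Subgroup G))).1 hne
    exact ⟨a.1, a.2, fun h => ha (Subtype.ext h)⟩
  rw [Subgroup.mem_inf] at hyPQ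
  have hPbot : (P : Subgroup G) ≠ ⊥ := by
    intro h
    have h1 := hyPQ.1
    rw [h, Subgroup.mem_bot] at h1
    exact hy1 h1
  have hQbot : (Q : Subgroup G) ≠ ⊥ := by
    intro h
    have h1 := hyPQ.2
    rw [h, Subgroup.mem_bot] at h1
    exact hy1 h1
  obtain ⟨z, hzP, hz1, hzc⟩ := exists_central P hPbot
  obtain ⟨w, hwQ, hw1, hwc⟩ := exists_central Q hQbot
  have hPz : (P : Subgroup G) ≤ Subgroup.centralizer ({z} : Set G) :=
    fun x hx => hmemC x z (hzc x hx)
  have hQw : (Q : Subgroup G) ≤ Subgroup.centralizer ({w} : Set G) :=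
    fun x hx => hmemC x w (hwc x hx)
  -- `w` commutes with `z`
  have hwN : w ∈ Subgroup.normalizer ((Subgroup.centralizer ({z} : Set G) : Subgroup G) : Set G) :=
    K y z hy1 (hzc y hyPQ.1) (hmemC w y (hwc y hyPQ.2).symm)
  have hwp : IsPGroup p (Subgroup.zpowers w) := by
    obtain ⟨k, hk⟩ := orderOf_eq_prime_pow_of_mem_sylow Q w hwQ
    apply IsPGroup.of_card (n := k)
    rw [Nat.card_zpowers, hk]
  have hwz : w * z = z * w :=
    hCmem w z (S z P hPz (Subgroup.zpowers w) hwp (Subgroup.zpowers_le.2 hwN)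
      (Subgroup.mem_zpowers w))
  have hQz : (Q : Subgroup G) ≤ Subgroup.centralizer ({z} : Set G) :=
    S z P hPz (Q : Subgroup G) Q.2 (hQw.trans (K w z hw1 hwz))
  -- `P ≤ Q`
  apply hPQ
  refine (sylow_eq_of_le P Q ?_).symm
  intro u hu
  by_cases hu1 : u = 1
  · rw [hu1]
    exact Subgroup.one_mem _
  have hQu : (Q : Subgroup G) ≤
      Subgroup.normalizer ((Subgroup.centralizer ({u} : Set G) : Subgroup G) : Set G) :=
    hQz.trans (K z u hz1 (hzc u hu).symm)
  have hconj : ∀ g ∈ (Q : Subgroup G), u * (g * u * g⁻¹) = (g * u * g⁻¹) * u := by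
    intro g hg
    have h1 := (Subgroup.mem_normalizer_iff.1 (hQu hg) u).1 (hmemC u u rfl)
    exact (hCmem _ u h1).symm
  have hgen : ∀ x ∈ {x : G | ∃ q ∈ (Q : Subgroup G), x = q * u * q⁻¹},
      ∀ x' ∈ {x : G | ∃ q ∈ (Q : Subgroup G), x = q * u * q⁻¹}, x' * x = x * x' := by
    rintro x ⟨q, hq, rfl⟩ x' ⟨q', hq', rfl⟩
    have h1 := hconj (q'⁻¹ * q) (Subgroup.mul_mem _ (Subgroup.inv_mem _ hq') hq)
    calc q' * u * q'⁻¹ * (q * u * q⁻¹)
        = q' * (u * ((q'⁻¹ * q) * u * (q'⁻¹ * q)⁻¹)) * q'⁻¹ := by group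
      _ = q' * (((q'⁻¹ * q) * u * (q'⁻¹ * q)⁻¹) * u) * q'⁻¹ := by rw [h1]
      _ = q * u * q⁻¹ * (q' * u * q'⁻¹) := by group
  have hBC : Subgroup.closure {x : G | ∃ q ∈ (Q : Subgroup G), x = q * u * q⁻¹} ≤
      Subgroup.centralizer {x : G | ∃ q ∈ (Q : Subgroup G), x = q * u * q⁻¹} := by
    rw [Subgroup.closure_le]
    intro x hx
    rw [SetLike.mem_coe, Subgroup.mem_centralizer_iff]
    intro x' hx'
    exact hgen x hx x' hx'
  have hBcomm : ∀ x ∈ Subgroup.closure {x : G | ∃ q ∈ (Q : Subgroup G), x = q * u * q⁻¹},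
      ∀ x' ∈ Subgroup.closure {x : G | ∃ q ∈ (Q : Subgroup G), x = q * u * q⁻¹},
      x' * x = x * x' := by
    intro x hx x' hx'
    have h1 := hBC hx
    rw [← Subgroup.centralizer_closure, Subgroup.mem_centralizer_iff] at h1
    exact h1 x' hx'
  have hBp : IsPGroup p (Subgroup.closure {x : G | ∃ q ∈ (Q : Subgroup G), x = q * u * q⁻¹}) := by
    have h1 : ∀ x ∈ Subgroup.closure {x : G | ∃ q ∈ (Q : Subgroup G), x = q * u * q⁻¹},
        ∃ k : ℕ, x ^ (p ^ k) = 1 := by
      intro x hx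
      induction hx using Subgroup.closure_induction with
      | mem x hx =>
        obtain ⟨q, hq, rfl⟩ := hx
        obtain ⟨k, hk⟩ := orderOf_eq_prime_pow_of_mem_sylow P u hu
        refine ⟨k, ?_⟩
        rw [← hk, conj_pow, pow_orderOf_eq_one]
        group
      | one => exact ⟨0, one_pow _⟩
      | mul x x' hx hx' h1 h2 =>
        obtain ⟨k, hk⟩ := h1
        obtain ⟨k', hk'⟩ := h2
        refine ⟨k + k', ?_⟩
        have hc : Commute x x' := (hBcomm x hx x' hx').symm
        rw [hc.mul_pow, pow_add, pow_mul, hk, one_pow, one_mul, mul_comm (p ^ k), pow_mul, hk',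
          one_pow]
      | inv x _ h1 =>
        obtain ⟨k, hk⟩ := h1
        exact ⟨k, by rw [inv_pow, hk, inv_one]⟩
    intro g
    obtain ⟨k, hk⟩ := h1 g.1 g.2
    exact ⟨k, Subtype.ext hk⟩
  have hQB : (Q : Subgroup G) ≤ Subgroup.normalizer
      ((Subgroup.closure {x : G | ∃ q ∈ (Q : Subgroup G), x = q * u * q⁻¹} : Subgroup G) : Set G) := by
    apply le_normalizer_of_forall_conj_mem
    intro g hg x hx
    induction hx using Subgroup.closure_induction with
    | mem x hx =>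
      obtain ⟨q, hq, rfl⟩ := hx
      apply Subgroup.subset_closure
      exact ⟨g * q, Subgroup.mul_mem _ hg hq, by group⟩
    | one =>
      rw [mul_one, mul_inv_cancel]
      exact Subgroup.one_mem _
    | mul x x' _ _ h1 h2 =>
      have e : g * (x * x') * g⁻¹ = (g * x * g⁻¹) * (g * x' * g⁻¹) := by group
      rw [e]
      exact Subgroup.mul_mem _ h1 h2
    | inv x _ h1 =>
      have e : g * x⁻¹ * g⁻¹ = (g * x * g⁻¹)⁻¹ := by group
      rw [e]
      exact Subgroup.inv_mem _ h1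
  have hsup := IsPGroup.to_sup_of_normal_left' hBp Q.2 hQB
  have heq := Q.3 hsup le_sup_right
  have huB : u ∈ Subgroup.closure {x : G | ∃ q ∈ (Q : Subgroup G), x = q * u * q⁻¹} :=
    Subgroup.subset_closure ⟨1, Subgroup.one_mem _, by group⟩
  have h2 : u ∈ Subgroup.closure {x : G | ∃ q ∈ (Q : Subgroup G), x = q * u * q⁻¹} ⊔
      (Q : Subgroup G) := Subgroup.mem_sup_left huB
  rw [heq] at h2
  exact h2

end Cfsg.Agent.S4066
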