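import Cfsg.Statements.S4072
import Mathlib
import Cfsg.Agent.Helper7.SelfNorm3

set_option autoImplicit false
open Cfsg

namespace Cfsg.Agent.S4072

open Cfsg.Agent.Helper7

universe u

theorem main : ∀ (n : ℕ) (G : Type u) [Group G] [Finite G], Nat.card G = n → SN G →
    Group.IsSolvable G ∨ IsSimpleGroup G := by
  intro n
  induction n using Nat.strong_induction_on with
  | _ n ih =>
    intro G _ _ hn hSN
    by_contra hcon
    push Not at hcon
    obtain ⟨hns, hnsim⟩ := hcon
    haveI : Nontrivial G := by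
      by_contra h
      rw [not_nontrivial_iff_subsingleton] at h
      exact hns inferInstance
    have hex : ∃ N : Subgroup G, N.Normal ∧ N ≠ ⊥ ∧ N ≠ ⊤ := by
      by_contra h
      push Not at h
      apply hnsim
      exact ⟨fun H hH => by
        by_cases h1 : H = ⊥
        · left; exact h1
        · right; exact h H hH h1⟩
    obtain ⟨N, hNn, hN1, hN2⟩ := hex
    have hexV : ∃ k : ℕ, ∃ V : Subgroup G, V.Normal ∧ V ≠ ⊥ ∧ Nat.card V = k :=
      ⟨_, N, hNn, hN1, rfl⟩
    classical
    obtain ⟨V, hVn, hV1, hVk⟩ := Nat.find_spec hexV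
    have hVminc : ∀ K : Subgroup G, K.Normal → K ≠ ⊥ → Nat.card V ≤ Nat.card K := by
      intro K hK hK1
      rw [hVk]
      exact Nat.find_min' hexV ⟨K, hK, hK1, rfl⟩
    have hVmin : ∀ K : Subgroup G, K.Normal → K ≠ ⊥ → K ≤ V → K = V :=
      fun K hK hK1 hKV => Subgroup.eq_of_le_of_card_ge hKV (hVminc K hK hK1)
    have hVtop : V ≠ ⊤ := by
      intro h
      have h1 := hVminc N hNn hN1
      rw [h, Subgroup.card_top] at h1
      exact hN2 (Subgroup.eq_top_of_card_eq N (le_antisymm (Subgroup.card_le_card_group N) h1))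
    haveI := hVn
    have hVab := hSN.comm_of_normal V hVtop
    have hV1' : 1 < Nat.card V := (Subgroup.one_lt_card_iff_ne_bot V).2 hV1
    have hp : (Nat.card V).minFac.Prime := Nat.minFac_prime hV1'.ne'
    haveI : Fact (Nat.card V).minFac.Prime := ⟨hp⟩
    obtain ⟨z0, hz0⟩ := exists_prime_orderOf_dvd_card' (G := V) (Nat.card V).minFac
      (Nat.minFac_dvd _)
    obtain ⟨p, hpdef⟩ : ∃ p : ℕ, p = (Nat.card V).minFac := ⟨_, rfl⟩
    rw [← hpdef] at hp hz0
    haveI : Fact p.Prime := ⟨hp⟩
    let K : Subgroup G :=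
      { carrier := {v | v ∈ V ∧ v ^ p = 1}
        mul_mem' := by
          intro a b ha hb
          refine ⟨V.mul_mem ha.1 hb.1, ?_⟩
          have hc : Commute a b := hVab a ha.1 b hb.1
          rw [hc.mul_pow, ha.2, hb.2, one_mul]
        one_mem' := ⟨V.one_mem, one_pow p⟩
        inv_mem' := by
          intro a ha
          refine ⟨V.inv_mem ha.1, ?_⟩
          rw [inv_pow, ha.2, inv_one] }
    have hKn : K.Normal := by
      constructor
      intro n hn g
      refine ⟨hVn.conj_mem n hn.1 g, ?_⟩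
      rw [conj_pow, hn.2]
      group
    have hK1 : K ≠ ⊥ := by
      intro h
      have hz : (z0 : G) ∈ K := by
        refine ⟨z0.2, ?_⟩
        have : z0 ^ p = 1 := by rw [← hz0]; exact pow_orderOf_eq_one z0
        exact congrArg Subtype.val this
      rw [h, Subgroup.mem_bot] at hz
      have h1 : z0 = 1 := Subtype.ext hz
      rw [h1, orderOf_one] at hz0
      exact hp.one_lt.ne' hz0.symm
    have hKle : K ≤ V := fun v hv => hv.1
    have hKV : K = V := hVmin K hKn hK1 hKle
    have hVp : ∀ v ∈ V, v ^ p = 1 := by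
      intro v hv
      have : v ∈ K := by rw [hKV]; exact hv
      exact this.2
    have ih' : ∀ (G' : Type u) [Group G'] [Finite G'], Nat.card G' < Nat.card G → SN G' →
        Group.IsSolvable G' ∨ IsSimpleGroup G' :=
      fun G' _ _ hlt hSN' => ih (Nat.card G') (hn ▸ hlt) G' rfl hSN'
    by_cases hA : ∃ (q : ℕ) (_ : Fact q.Prime) (Q : Sylow q G) (x v : G),
        q ≠ p ∧ x ∈ Q ∧ v ∈ V ∧ x * v ≠ v * x
    · obtain ⟨q, hqf, Q, x, v, hqp, hx, hv, hxv⟩ := hA
      exact hns (hSN.caseA V p hp hVp q hqp Q x v hx hv hxv)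
    · apply hns
      apply hSN.caseB ih' V hV1 hVmin p hVp
      intro q hqf Q hqp x hx v hv
      by_contra h
      exact hA ⟨q, hqf, Q, x, v, hqp, hx, hv, h⟩

/-- A finite group in which every non-abelian subgroup is self-normalizing is solvable or simple. -/
theorem result {G : Type*} [Group G] [Finite G] (hS : ∀ H : Subgroup G, ¬ IsMulCommutative H → Subgroup.normalizer (H : Set G) = H) :
    Group.IsSolvable G ∨ IsSimpleGroup G := by
  exact main (Nat.card G) G rfl hS

end Cfsg.Agent.S4072
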