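import Cfsg.Statements.S4074
import Mathlib
import Cfsg.Agent.Helper7.SelfNorm4

set_option autoImplicit false
open Cfsg

namespace Cfsg.Agent.S4074

open Cfsg.Agent.Helper7 DihedralGroup

/-- The rotation subgroup. -/
def rot (n : ℕ) : Subgroup (DihedralGroup n) where
  carrier := {g | ∃ i : ZMod n, g = r i}
  mul_mem' := by
    rintro _ _ ⟨i, rfl⟩ ⟨j, rfl⟩
    exact ⟨i + j, r_mul_r i j⟩
  one_mem' := ⟨0, one_def⟩
  inv_mem' := by
    rintro _ ⟨i, rfl⟩
    exact ⟨-i, inv_r i⟩

theorem sn_odd (n : ℕ) (hn : Odd n) : SN (DihedralGroup n) := by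
  haveI : NeZero n := ⟨by rintro rfl; exact absurd hn (by decide)⟩
  have hAn : (rot n).Normal := by
    constructor
    rintro _ ⟨i, rfl⟩ g
    cases g with
    | r j => exact ⟨i, by rw [r_mul_r, inv_r, r_mul_r]; congr 1; ring⟩
    | sr j => exact ⟨-i, by rw [sr_mul_r, inv_sr, sr_mul_sr]; congr 1; ring⟩
  have hAc : ∀ a ∈ rot n, ∀ b ∈ rot n, a * b = b * a := by
    rintro _ ⟨i, rfl⟩ _ ⟨j, rfl⟩
    rw [r_mul_r, r_mul_r, add_comm]
  have hcardA : Nat.card (rot n) = n := by
    have : Nat.card (rot n) = Nat.card (ZMod n) := by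
      apply Nat.card_congr
      refine (Equiv.ofBijective (fun i : ZMod n => (⟨r i, ⟨i, rfl⟩⟩ : rot n)) ⟨?_, ?_⟩).symm
      · intro i j h
        have h1 : (r i : DihedralGroup n) = r j := congrArg Subtype.val h
        exact r.inj h1
      · rintro ⟨_, ⟨i, rfl⟩⟩
        exact ⟨i, rfl⟩
    rw [this, Nat.card_zmod]
  have hcompl : (Subgroup.zpowers (sr 0 : DihedralGroup n)).IsComplement' (rot n) := by
    apply Subgroup.isComplement'_of_coprime
    · rw [Nat.card_zpowers, orderOf_sr, hcardA, DihedralGroup.nat_card]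
    · rw [Nat.card_zpowers, orderOf_sr, hcardA]
      exact Odd.coprime_two_left hn
  apply sn_of_structure (sr 0) (rot n) 2 Nat.prime_two hAn hAc 1
  · rw [orderOf_sr, pow_one]
  · exact hcompl
  · rw [pow_two, sr_mul_self]
    exact Subgroup.one_mem _
  · rintro _ ⟨i, rfl⟩ hne h
    rw [sr_mul_r, inv_sr, sr_mul_sr] at h
    have h1 : (0 : ZMod n) - (0 + i) = i := r.inj h
    apply hne
    have h2 : (2 : ZMod n) * i = 0 := by linear_combination (-1 : ZMod n) * h1
    have h3 : ((2 * i.val : ℕ) : ZMod n) = 0 := by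
      rw [Nat.cast_mul, ZMod.natCast_zmod_val]
      exact_mod_cast h2
    rw [ZMod.natCast_eq_zero_iff] at h3
    have h4 : n ∣ i.val := (Nat.Coprime.dvd_mul_left (Odd.coprime_two_right hn)).1 h3
    have h5 : i.val = 0 := Nat.eq_zero_of_dvd_of_lt h4 (ZMod.val_lt i)
    have h6 : i = 0 := (ZMod.val_eq_zero i).1 h5
    rw [h6, one_def]

theorem sn_four : SN (DihedralGroup 4) := by
  intro H hH
  have hcard : Nat.card (DihedralGroup 4) = 8 := by rw [DihedralGroup.nat_card]
  have hdvd : Nat.card H ∣ 8 := hcard ▸ Subgroup.card_subgroup_dvd_card H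
  have hle : Nat.card H ≤ 8 := Nat.le_of_dvd (by norm_num) hdvd
  have hpos : 0 < Nat.card H := Nat.card_pos
  have htop : H = ⊤ := by
    by_contra hne
    apply hH
    have h8 : Nat.card H ≠ 8 := by
      intro h
      apply hne
      exact Subgroup.eq_top_of_card_eq H (h.trans hcard.symm)
    have hcases : Nat.card H = 1 ∨ Nat.card H = 2 ∨ Nat.card H = 4 := by
      interval_cases (Nat.card H) <;> simp_all
    rcases hcases with h | h | h
    · haveI : Subsingleton H := (Nat.card_eq_one_iff_unique.1 h).1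
      exact ⟨⟨fun a b => Subsingleton.elim _ _⟩⟩
    · haveI : Fact (Nat.Prime 2) := ⟨Nat.prime_two⟩
      haveI : IsCyclic H := isCyclic_of_prime_card h
      exact ⟨⟨fun a b => comm_of_isCyclic a b⟩⟩
    · haveI : Fact (Nat.Prime 2) := ⟨Nat.prime_two⟩
      have h' : Nat.card H = 2 ^ 2 := h
      exact IsPGroup.isMulCommutative_of_card_eq_prime_sq h'
  rw [htop]
  exact Subgroup.normalizer_eq_top_iff.2 inferInstance

/-- The subgroup `⟨r², s⟩` for even `n`. -/
def evenSub (n : ℕ) : Subgroup (DihedralGroup n) where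
  carrier := {g | ∃ j : ZMod n, g = r (2 * j) ∨ g = sr (2 * j)}
  mul_mem' := by
    rintro _ _ ⟨i, rfl | rfl⟩ ⟨j, rfl | rfl⟩
    · exact ⟨i + j, Or.inl (by rw [r_mul_r]; congr 1; ring)⟩
    · exact ⟨j - i, Or.inr (by rw [r_mul_sr]; congr 1; ring)⟩
    · exact ⟨i + j, Or.inr (by rw [sr_mul_r]; congr 1; ring)⟩
    · exact ⟨j - i, Or.inl (by rw [sr_mul_sr]; congr 1; ring)⟩
  one_mem' := ⟨0, Or.inl (by rw [one_def, mul_zero])⟩
  inv_mem' := by
    rintro _ ⟨i, rfl | rfl⟩
    · exact ⟨-i, Or.inl (by rw [inv_r]; congr 1; ring)⟩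
    · exact ⟨i, Or.inr (inv_sr _)⟩

/-- For n > 2, every non-abelian subgroup of the dihedral group of order 2n is self-normalizing if and only if n = 4 or n is odd. -/
theorem result (n : ℕ) (hn : 2 < n) :
    (∀ H : Subgroup (DihedralGroup n), ¬ IsMulCommutative H → Subgroup.normalizer (H : Set (DihedralGroup n)) = H) ↔
    (n = 4 ∨ Odd n) := by
  constructor
  · intro hSN
    by_contra hcon
    push Not at hcon
    obtain ⟨hn4, hodd⟩ := hcon
    have heven : Even n := Nat.not_odd_iff_even.1 hodd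
    have h2n : 2 ∣ n := heven.two_dvd
    have hn6 : 6 ≤ n := by
      obtain ⟨m, hm⟩ := h2n
      omega
    haveI : NeZero n := ⟨by omega⟩
    -- the subgroup is non-abelian
    have h4 : (4 : ZMod n) ≠ 0 := by
      intro h
      have h' : ((4 : ℕ) : ZMod n) = 0 := by exact_mod_cast h
      rw [ZMod.natCast_eq_zero_iff] at h'
      have := Nat.le_of_dvd (by norm_num) h'
      omega
    have hr2 : (r 2 : DihedralGroup n) ∈ evenSub n := ⟨1, Or.inl (by rw [mul_one])⟩
    have hs0 : (sr 0 : DihedralGroup n) ∈ evenSub n := ⟨0, Or.inr (by rw [mul_zero])⟩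
    have hnc : (r 2 : DihedralGroup n) * sr 0 ≠ sr 0 * r 2 := by
      rw [r_mul_sr, sr_mul_r]
      intro h
      have h1 : (0 : ZMod n) - 2 = 0 + 2 := sr.inj h
      apply h4
      linear_combination (-1 : ZMod n) * h1
    have hN := hSN (evenSub n) (not_isMulCommutative_of hr2 hs0 hnc)
    -- r 1 normalizes it
    have hconj : ∀ (t : ZMod n) (g : DihedralGroup n), g ∈ evenSub n → r t * g * (r t)⁻¹ ∈ evenSub n := by
      rintro t _ ⟨j, rfl | rfl⟩
      · exact ⟨j, Or.inl (by rw [r_mul_r, inv_r, r_mul_r]; congr 1; ring)⟩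
      · exact ⟨j - t, Or.inr (by rw [r_mul_sr, inv_r, sr_mul_r]; congr 1; ring)⟩
    have hr1N : (r 1 : DihedralGroup n) ∈ Subgroup.normalizer ((evenSub n : Subgroup (DihedralGroup n)) : Set (DihedralGroup n)) := by
      rw [Subgroup.mem_normalizer_iff]
      intro g
      constructor
      · exact hconj 1 g
      · intro hg
        have := hconj (-1) _ hg
        have e : r (-1 : ZMod n) * (r 1 * g * (r 1)⁻¹) * (r (-1 : ZMod n))⁻¹ = g := by
          rw [inv_r, inv_r, neg_neg]
          have h1 : (r (-1 : ZMod n) : DihedralGroup n) * r 1 = 1 := by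
            rw [r_mul_r, neg_add_cancel, one_def]
          have h2 : (r (-1 : ZMod n) : DihedralGroup n) * (r 1 * g * r (-1)) * r 1 =
              (r (-1) * r 1) * g * (r (-1) * r 1) := by group
          rw [h2, h1, one_mul, mul_one]
        rw [e] at this
        exact this
    rw [hN] at hr1N
    obtain ⟨j, h | h⟩ := hr1N
    · have h1 : (1 : ZMod n) = 2 * j := r.inj h
      have h2 := congrArg (ZMod.castHom h2n (ZMod 2)) h1
      rw [map_one, map_mul] at h2
      have h3 : (ZMod.castHom h2n (ZMod 2)) 2 = 0 := by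
        rw [map_ofNat]
        rfl
      rw [h3, zero_mul] at h2
      exact absurd h2 (by decide)
    · exact absurd h (by simp)
  · rintro (rfl | hodd)
    · exact sn_four
    · exact sn_odd n hodd

end Cfsg.Agent.S4074
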