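import Cfsg.Statements.S4075
import Mathlib

set_option autoImplicit false
open Cfsg

namespace Cfsg.Agent.S4075

theorem result {G : Type*} [Group G] [Finite G]
    [Group.IsNilpotent G] :
    (∀ H : Subgroup G, ¬ IsMulCommutative H → Subgroup.normalizer (H : Set G) = H) ↔
    (IsMulCommutative G ∨ (IsPrimePow (Nat.card G) ∧ ¬ IsMulCommutative G ∧ ∀ H : Subgroup G, H ≠ ⊤ → IsMulCommutative H)) := by
  constructor
  · intro h
    by_cases hG : IsMulCommutative G
    · exact Or.inl hG
    right
    have hproper : ∀ H : Subgroup G, H ≠ ⊤ → IsMulCommutative H := by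
      intro H hH
      by_contra hHc
      have h1 := h H hHc
      have h2 := Group.normalizerCondition_of_isNilpotent (G := G) H (lt_top_iff_ne_top.2 hH)
      rw [h1] at h2
      exact lt_irrefl _ h2
    refine ⟨?_, hG, hproper⟩
    obtain ⟨e⟩ := ((Group.isNilpotent_of_finite_tfae (G := G)).out 0 4).1 ‹Group.IsNilpotent G›
    by_cases hex : ∃ (p : (Nat.card G).primeFactors) (P : Sylow p G), (P : Subgroup G) = ⊤
    · obtain ⟨p, P, hP⟩ := hex
      haveI : Fact (p : ℕ).Prime := ⟨Nat.prime_of_mem_primeFactors p.2⟩
      obtain ⟨k, hk⟩ := IsPGroup.iff_card.1 P.isPGroup'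
      rw [hP, Subgroup.card_top] at hk
      rw [isPrimePow_nat_iff]
      refine ⟨p, k, Nat.prime_of_mem_primeFactors p.2, ?_, hk.symm⟩
      apply Nat.pos_of_ne_zero
      rintro rfl
      rw [pow_zero] at hk
      apply hG
      haveI : Subsingleton G := (Nat.card_eq_one_iff_unique.1 hk).1
      rw [isMulCommutative_iff]
      intro a b
      exact Subsingleton.elim _ _
    · exfalso
      apply hG
      push Not at hex
      rw [isMulCommutative_iff]
      intro a b
      have key : ∀ f g : (∀ p : (Nat.card G).primeFactors, ∀ P : Sylow p G, (↑P : Subgroup G)),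
          f * g = g * f := by
        intro f g
        funext p P
        exact isMulCommutative_iff.1 (hproper _ (hex p P)) (f p P) (g p P)
      have h3 := key (e.symm a) (e.symm b)
      have h4 := congrArg e h3
      rw [map_mul, map_mul, MulEquiv.apply_symm_apply, MulEquiv.apply_symm_apply] at h4
      exact h4
  · rintro (hG | ⟨_, hG, hproper⟩) H hH
    · exfalso
      apply hH
      rw [isMulCommutative_iff]
      intro a b
      apply Subtype.ext
      exact isMulCommutative_iff.1 hG a.1 b.1
    · have hHtop : H = ⊤ := by
        by_contra hne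
        exact hH (hproper H hne)
      rw [hHtop]
      exact Subgroup.normalizer_eq_top_iff.2 Subgroup.normal_top

end Cfsg.Agent.S4075
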