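import Cfsg.Statements.S4080
import Mathlib

set_option autoImplicit false
open Cfsg

namespace Cfsg.Agent.S4080

theorem key {M : Type*} [AddCommGroup M] [Finite M] {p : ℕ} (hpp : p.Prime) (hp : 3 < p)
    (h1 : ∀ m : M, (p ^ 2) • m = 0)
    (h2 : ∀ m : M, p • m = 0 → ∃ m' : M, m = p • m')
    (h3 : Nat.card M = p ^ 4)
    (f : M →+ M) (hf : ∀ m : M, (⇑f)^[p] m = m) :
    ∀ m : M, p • m = 0 → f m = m := by
  classical
  obtain ⟨φ, hφ⟩ : ∃ φ : M →+ M, ∀ m, φ m = p • m := ⟨nsmulAddMonoidHom p, fun m => rfl⟩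
  obtain ⟨N, hN⟩ : ∃ N : AddSubgroup M, N = φ.ker := ⟨_, rfl⟩
  have hmemN : ∀ m, m ∈ N ↔ p • m = 0 := by
    intro m; rw [hN, AddMonoidHom.mem_ker, hφ]
  have hrange : φ.range = φ.ker := by
    ext m
    rw [AddMonoidHom.mem_range, AddMonoidHom.mem_ker]
    constructor
    · rintro ⟨m', rfl⟩
      rw [hφ, hφ, ← mul_nsmul, ← sq]
      exact h1 m'
    · intro h
      rw [hφ] at h
      obtain ⟨m', hm'⟩ := h2 m h
      exact ⟨m', by rw [hφ, ← hm']⟩
  have hcardN : Nat.card N = p ^ 2 := by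
    have e1 : Nat.card φ.ker * φ.ker.index = Nat.card M := AddSubgroup.card_mul_index _
    have e2 : φ.ker.index = Nat.card φ.range := AddSubgroup.index_ker φ
    rw [e2, hrange, ← hN, h3] at e1
    have e3 : (Nat.card N) ^ 2 = (p ^ 2) ^ 2 := by rw [sq, e1]; ring
    exact Nat.pow_left_injective (by norm_num : (2:ℕ) ≠ 0) e3
  obtain ⟨F, hF⟩ : ∃ F : AddMonoid.End M, ∀ m, F m = f m := ⟨f, fun m => rfl⟩
  obtain ⟨δ, hδF⟩ : ∃ δ : AddMonoid.End M, δ + 1 = F := ⟨F - 1, sub_add_cancel F 1⟩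
  have hδ : ∀ m, δ m = f m - m := by
    intro m
    have h : δ m + m = F m := congrArg (fun g : AddMonoid.End M => g m) hδF
    rw [hF] at h
    exact eq_sub_of_add_eq h
  have hFp : F ^ p = 1 := by
    apply AddMonoidHom.ext
    intro m
    have hfun : (⇑F : M → M) = ⇑f := funext hF
    show (F ^ p) m = m
    rw [AddMonoid.End.coe_pow, hfun]
    exact hf m
  have hB : ∀ n ∈ N, (δ ^ p) n = 0 := by
    intro n hn
    have hcomm : Commute δ (1 : AddMonoid.End M) := Commute.one_right δ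
    obtain ⟨r, hr⟩ := hcomm.exists_add_pow_prime_eq hpp
    rw [hδF, hFp, one_pow] at hr
    have h4 : n = (δ ^ p) n + n + ((p : AddMonoid.End M) * δ * 1 * r) n :=
      congrArg (fun g : AddMonoid.End M => g n) hr
    have h5 : ((p : AddMonoid.End M) * δ * 1 * r) n = 0 := by
      have e1 : p • δ (r n) = δ (r (p • n)) := by
        rw [map_nsmul r, map_nsmul δ]
      have e2 : δ (r (p • n)) = 0 := by rw [(hmemN n).mp hn, map_zero, map_zero]
      exact e1.trans e2
    rw [h5, add_zero] at h4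
    have h7 : (δ ^ p) n + n = 0 + n := by rw [zero_add]; exact h4.symm
    exact add_right_cancel h7
  have hδN : ∀ n ∈ N, δ n ∈ N := by
    intro n hn
    rw [hmemN] at hn ⊢
    rw [← map_nsmul, hn, map_zero]
  have hiter : ∀ (X : AddSubgroup M), X ≤ N → (∀ x ∈ X, δ x ∈ X) →
      (∀ x ∈ X, ∃ y ∈ X, δ y = x) → X = ⊥ := by
    intro X hXN hinv hsurj
    have hk : ∀ k : ℕ, ∀ x ∈ X, ∃ y ∈ X, (δ ^ k) y = x := by
      intro k
      induction k with
      | zero => intro x hx; exact ⟨x, hx, by rw [pow_zero]; rfl⟩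
      | succ k ih =>
        intro x hx
        obtain ⟨y, hy, hyx⟩ := hsurj x hx
        obtain ⟨z, hz, hzy⟩ := ih y hy
        refine ⟨z, hz, ?_⟩
        rw [pow_succ']
        show δ ((δ ^ k) z) = x
        rw [hzy, hyx]
    rw [eq_bot_iff]
    intro x hx
    obtain ⟨y, hy, hyx⟩ := hk p x hx
    rw [← hyx, hB y (hXN hy)]
    exact AddSubgroup.zero_mem _
  obtain ⟨N₁, hN₁⟩ : ∃ N₁ : AddSubgroup M, ∀ y, y ∈ N₁ ↔ ∃ x ∈ N, δ x = y :=
    ⟨AddSubgroup.map δ N, fun y => AddSubgroup.mem_map⟩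
  obtain ⟨N₂, hN₂⟩ : ∃ N₂ : AddSubgroup M, ∀ y, y ∈ N₂ ↔ ∃ x ∈ N₁, δ x = y :=
    ⟨AddSubgroup.map δ N₁, fun y => AddSubgroup.mem_map⟩
  have hN₁N : N₁ ≤ N := by
    intro y hy
    obtain ⟨x, hx, rfl⟩ := (hN₁ y).mp hy
    exact hδN x hx
  have hN₂N₁ : N₂ ≤ N₁ := by
    intro y hy
    obtain ⟨x, hx, rfl⟩ := (hN₂ y).mp hy
    exact (hN₁ _).mpr ⟨x, hN₁N hx, rfl⟩
  have hp2 : 2 ≤ p := hpp.two_le
  have hsq : p ^ 2 = p * p := sq p
  have hNbot : N ≠ ⊥ := by
    intro h
    rw [h, AddSubgroup.card_bot] at hcardN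
    nlinarith
  have hN₁ne : N₁ ≠ N := by
    intro h
    apply hNbot
    apply hiter N le_rfl hδN
    intro x hx
    rw [← h] at hx
    exact (hN₁ x).mp hx
  have hcardN₁ : Nat.card N₁ = 1 ∨ Nat.card N₁ = p := by
    have hdvd : Nat.card N₁ ∣ p ^ 2 := by rw [← hcardN]; exact AddSubgroup.card_dvd_of_le hN₁N
    obtain ⟨i, hi2, hi⟩ := (Nat.dvd_prime_pow hpp).mp hdvd
    have hi2' : i ≠ 2 := by
      intro h2i
      apply hN₁ne
      exact AddSubgroup.eq_of_le_of_card_ge hN₁N (le_of_eq (by rw [hcardN, hi, h2i]))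
    interval_cases i
    · left; rw [hi, pow_zero]
    · right; rw [hi, pow_one]
    · exact absurd rfl hi2'
  have hC : ∀ n ∈ N, δ (δ n) = 0 := by
    intro n hn
    have hn1 : δ n ∈ N₁ := (hN₁ _).mpr ⟨n, hn, rfl⟩
    rcases hcardN₁ with hc | hc
    · have hbot : N₁ = ⊥ := AddSubgroup.eq_bot_of_card_eq (h := hc)
      rw [hbot, AddSubgroup.mem_bot] at hn1
      rw [hn1, map_zero]
    · have hN₁inv : ∀ x ∈ N₁, δ x ∈ N₁ := fun x hx => (hN₁ _).mpr ⟨x, hN₁N hx, rfl⟩
      have hN₁bot : N₁ ≠ ⊥ := by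
        intro h
        rw [h, AddSubgroup.card_bot] at hc
        exact hpp.one_lt.ne hc
      have hN₂ne : N₂ ≠ N₁ := by
        intro h
        apply hN₁bot
        apply hiter N₁ hN₁N hN₁inv
        intro x hx
        rw [← h] at hx
        exact (hN₂ x).mp hx
      have hdvd : Nat.card N₂ ∣ p := by rw [← hc]; exact AddSubgroup.card_dvd_of_le hN₂N₁
      have hcard2 : Nat.card N₂ = 1 := by
        rcases (Nat.dvd_prime hpp).mp hdvd with h | h
        · exact h
        · exact absurd (AddSubgroup.eq_of_le_of_card_ge hN₂N₁ (le_of_eq (by rw [hc, h]))) hN₂ne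
      have hbot : N₂ = ⊥ := AddSubgroup.eq_bot_of_card_eq (h := hcard2)
      have hn2 : δ (δ n) ∈ N₂ := (hN₂ _).mpr ⟨δ n, hn1, rfl⟩
      rw [hbot, AddSubgroup.mem_bot] at hn2
      exact hn2
  have hD : ∀ m : M, p • δ (δ m) = 0 := by
    intro m
    have hpm : p • m ∈ N := by rw [hmemN, ← mul_nsmul, ← sq]; exact h1 m
    have h := hC (p • m) hpm
    rw [map_nsmul, map_nsmul] at h
    exact h
  have hδ4 : ∀ m : M, δ (δ (δ (δ m))) = 0 := by
    intro m
    exact hC (δ (δ m)) ((hmemN _).mpr (hD m))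
  have hfm : ∀ y : M, f y = y + δ y := by intro y; rw [hδ]; abel
  have hform : ∀ (k : ℕ) (m : M), (⇑f)^[k] m
      = m + k • δ m + (k.choose 2) • δ (δ m) + (k.choose 3) • δ (δ (δ m)) := by
    intro k
    induction k with
    | zero =>
      intro m
      simp [show Nat.choose 0 2 = 0 from rfl, show Nat.choose 0 3 = 0 from rfl]
    | succ k ih =>
      intro m
      have c2 : (k + 1).choose 2 = k + k.choose 2 := by
        have h := Nat.choose_succ_succ k 1
        rw [Nat.choose_one_right] at h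
        exact h
      have c3 : (k + 1).choose 3 = k.choose 2 + k.choose 3 := Nat.choose_succ_succ k 2
      rw [Function.iterate_succ_apply', ih m, hfm, map_add, map_add, map_add, map_nsmul,
        map_nsmul, map_nsmul, hδ4 m, smul_zero, c2, c3]
      simp only [add_nsmul, one_nsmul]
      abel
  have hE : ∀ m : M, p • δ m = 0 := by
    intro m
    have h := hform p m
    rw [hf m] at h
    obtain ⟨c2, hc2⟩ := hpp.dvd_choose_self (by norm_num : (2:ℕ) ≠ 0) (by omega : 2 < p)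
    obtain ⟨c3, hc3⟩ := hpp.dvd_choose_self (by norm_num : (3:ℕ) ≠ 0) (by omega : 3 < p)
    have t2 : (p.choose 2) • δ (δ m) = 0 := by rw [hc2, mul_nsmul, hD m, smul_zero]
    have t3 : (p.choose 3) • δ (δ (δ m)) = 0 := by rw [hc3, mul_nsmul, hD (δ m), smul_zero]
    rw [t2, t3, add_zero, add_zero] at h
    have h' : m + p • δ m = m + 0 := by rw [add_zero]; exact h.symm
    exact add_left_cancel h'
  intro m hm
  obtain ⟨m', rfl⟩ := h2 m hm
  have h : δ (p • m') = 0 := by rw [map_nsmul, hE m']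
  rw [hδ] at h
  exact sub_eq_zero.mp h

/-- Let p > 3 be a prime and L the direct product of two cyclic groups of order p². Every automorphism of L of order p fixes every element of order p of L. -/
theorem result {p : ℕ} [Fact p.Prime] (hp : 3 < p)
    (a : MulAut (Multiplicative (ZMod (p ^ 2) × ZMod (p ^ 2)))) (ha : orderOf a = p)
    (x : Multiplicative (ZMod (p ^ 2) × ZMod (p ^ 2))) (hx : orderOf x = p) : a x = x := by
  have hpp : p.Prime := Fact.out
  haveI : NeZero p := ⟨hpp.ne_zero⟩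
  haveI : NeZero (p ^ 2) := ⟨pow_ne_zero 2 hpp.ne_zero⟩
  have h1 : ∀ m : ZMod (p ^ 2) × ZMod (p ^ 2), (p ^ 2) • m = 0 := by
    intro m
    refine Prod.ext ?_ ?_
    · show (p ^ 2) • m.1 = 0
      rw [nsmul_eq_mul, ZMod.natCast_self, zero_mul]
    · show (p ^ 2) • m.2 = 0
      rw [nsmul_eq_mul, ZMod.natCast_self, zero_mul]
  have hz : ∀ x : ZMod (p ^ 2), p • x = 0 → ∃ x' : ZMod (p ^ 2), x = p • x' := by
    intro x hx
    have hx' : ((p * x.val : ℕ) : ZMod (p ^ 2)) = 0 := by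
      rw [Nat.cast_mul, ZMod.natCast_zmod_val, ← nsmul_eq_mul]; exact hx
    have hdvd : p ^ 2 ∣ p * x.val := (ZMod.natCast_eq_zero_iff _ _).mp hx'
    have hdvd2 : p * p ∣ p * x.val := dvd_trans (dvd_of_eq (sq p).symm) hdvd
    have hdvd' : p ∣ x.val := Nat.dvd_of_mul_dvd_mul_left hpp.pos hdvd2
    obtain ⟨c, hc⟩ := hdvd'
    refine ⟨(c : ZMod (p ^ 2)), ?_⟩
    rw [nsmul_eq_mul, ← Nat.cast_mul, ← hc, ZMod.natCast_zmod_val]
  have h2 : ∀ m : ZMod (p ^ 2) × ZMod (p ^ 2), p • m = 0 →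
      ∃ m' : ZMod (p ^ 2) × ZMod (p ^ 2), m = p • m' := by
    intro m hm
    have hm1 : p • m.1 = 0 := congrArg Prod.fst hm
    have hm2 : p • m.2 = 0 := congrArg Prod.snd hm
    obtain ⟨a', ha'⟩ := hz m.1 hm1
    obtain ⟨b', hb'⟩ := hz m.2 hm2
    exact ⟨(a', b'), Prod.ext ha' hb'⟩
  have h3 : Nat.card (ZMod (p ^ 2) × ZMod (p ^ 2)) = p ^ 4 := by
    rw [Nat.card_prod, Nat.card_zmod]; ring
  obtain ⟨f, hfdef⟩ : ∃ f : (ZMod (p ^ 2) × ZMod (p ^ 2)) →+ (ZMod (p ^ 2) × ZMod (p ^ 2)),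
      ∀ m, f m = Multiplicative.toAdd (a (Multiplicative.ofAdd m)) :=
    ⟨AddMonoidHom.mk' (fun m => Multiplicative.toAdd (a (Multiplicative.ofAdd m)))
      (fun m m' => by
        show Multiplicative.toAdd (a (Multiplicative.ofAdd (m + m')))
          = Multiplicative.toAdd (a (Multiplicative.ofAdd m))
            + Multiplicative.toAdd (a (Multiplicative.ofAdd m'))
        rw [ofAdd_add, map_mul, toAdd_mul]), fun m => rfl⟩
  have hiter : ∀ (k : ℕ) (m : ZMod (p ^ 2) × ZMod (p ^ 2)),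
      (⇑f)^[k] m = Multiplicative.toAdd ((a ^ k) (Multiplicative.ofAdd m)) := by
    intro k
    induction k with
    | zero => intro m; rw [pow_zero]; rfl
    | succ k ih =>
      intro m
      rw [Function.iterate_succ_apply', ih m, hfdef, pow_succ' a k]
      rfl
  have hap : a ^ p = 1 := by
    have h := pow_orderOf_eq_one a
    rw [ha] at h
    exact h
  have hf : ∀ m, (⇑f)^[p] m = m := by
    intro m
    rw [hiter, hap]
    rfl
  have hx1 : p • Multiplicative.toAdd x = 0 := by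
    have h := pow_orderOf_eq_one x
    rw [hx] at h
    have h' := congrArg Multiplicative.toAdd h
    rw [toAdd_pow] at h'
    exact h'
  have hres := key hpp hp h1 h2 h3 f hf (Multiplicative.toAdd x) hx1
  rw [hfdef] at hres
  exact Multiplicative.toAdd.injective hres


end Cfsg.Agent.S4080
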