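import Cfsg.Statements.S4084
import Mathlib

set_option autoImplicit false
open Cfsg

namespace Cfsg.Agent.S4084

/-- the double centralizer of an element -/
def dc {G : Type*} [Group G] (g : G) : Subgroup G :=
  Subgroup.centralizer (Subgroup.centralizer ({g} : Set G) : Set G)

theorem mem_dc {G : Type*} [Group G] (g x : G) :
    x ∈ dc g ↔ ∀ y : G, Commute y g → Commute y x := by
  unfold dc
  rw [Subgroup.mem_centralizer_iff]
  constructor
  · intro h y hy
    apply h y
    show y ∈ Subgroup.centralizer ({g} : Set G)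
    rw [Subgroup.mem_centralizer_iff]
    intro k hk
    rw [Set.mem_singleton_iff] at hk
    subst hk
    exact hy.eq.symm
  · intro h y hy
    have hy' : y ∈ Subgroup.centralizer ({g} : Set G) := hy
    rw [Subgroup.mem_centralizer_iff] at hy'
    exact (h y (hy' g rfl).symm).eq

theorem forward {G H : Type*} [Group G] [Finite G] [Group H] [Finite H] (e : G ≃ H)
    (he : ∀ x y : G, Commute x y ↔ Commute (e x) (e y))
    {p q : ℕ} (hp : p.Prime) (hq : q.Prime) (hpq : p ≠ q) :
    (∃ g : G, orderOf g = p * q) → (∃ h : H, orderOf h = p * q) := by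
  rintro ⟨g, hg⟩
  haveI : Fact p.Prime := ⟨hp⟩
  haveI : Fact q.Prime := ⟨hq⟩
  have hgD : g ∈ dc g := by
    rw [mem_dc]
    intro y hy
    exact hy
  have h1 : p * q ∣ Nat.card (dc g) := by
    rw [← hg]
    exact Subgroup.orderOf_dvd_natCard _ hgD
  have hcard : Nat.card (dc g) = Nat.card (dc (e g)) := by
    apply Nat.card_congr
    refine e.subtypeEquiv ?_
    intro x
    rw [mem_dc, mem_dc]
    constructor
    · intro h y' hy'
      obtain ⟨y, rfl⟩ := e.surjective y'
      rw [← he] at hy' ⊢
      exact h y hy'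
    · intro h y hy
      rw [he] at hy ⊢
      exact h _ hy
  rw [hcard] at h1
  obtain ⟨a, ha⟩ := exists_prime_orderOf_dvd_card' (G := dc (e g)) p (dvd_of_mul_right_dvd h1)
  obtain ⟨b, hb⟩ := exists_prime_orderOf_dvd_card' (G := dc (e g)) q (dvd_of_mul_left_dvd h1)
  have hegD : e g ∈ dc (e g) := by
    rw [mem_dc]
    intro y hy
    exact hy
  have ha' := (mem_dc (e g) a.1).1 a.2
  have hb' := (mem_dc (e g) b.1).1 b.2
  have hag : Commute (a : H) (e g) := (ha' (e g) (Commute.refl _)).symm
  have hab : Commute (a : H) (b : H) := hb' a hag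
  refine ⟨(a : H) * (b : H), ?_⟩
  rw [hab.orderOf_mul_eq_mul_orderOf_of_coprime, Subgroup.orderOf_coe, Subgroup.orderOf_coe,
    ha, hb]
  rw [Subgroup.orderOf_coe, Subgroup.orderOf_coe, ha, hb]
  exact (Nat.coprime_primes hp hq).2 hpq

theorem result {G H : Type*} [Group G] [Finite G] [Group H] [Finite H] (e : G ≃ H)
    (he : ∀ x y : G, Commute x y ↔ Commute (e x) (e y))
    {p q : ℕ} (hp : p.Prime) (hq : q.Prime) (hpq : p ≠ q) :
    (∃ g : G, orderOf g = p * q) ↔ (∃ h : H, orderOf h = p * q) := by
  constructor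
  · exact forward e he hp hq hpq
  · apply forward e.symm ?_ hp hq hpq
    intro x y
    rw [he (e.symm x) (e.symm y), Equiv.apply_symm_apply, Equiv.apply_symm_apply]

end Cfsg.Agent.S4084
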