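import Cfsg.Statements.S4089
import Mathlib
import Cfsg.Agent.Helper4.WielandtZip
import Cfsg.Agent.Helper3.Cores
import Cfsg.Agent.S0010

set_option autoImplicit false
open Cfsg

namespace Cfsg.Agent.S4089

universe u

theorem s4089_L1 {G : Type u} [Group G] [Finite G] (p : ℕ) [Fact p.Prime] (H R : Subgroup G)
    (hR : IsPGroup p R) (hHR : H ≤ R) (g : G) (hg : g ∈ Subgroup.normalizer (R : Set G)) :
    (H.subgroupOf (H ⊔ Subgroup.zpowers g)).IsSubnormal := by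
  obtain ⟨K, hK⟩ : ∃ K : Subgroup G, K = H ⊔ Subgroup.zpowers g := ⟨_, rfl⟩
  rw [← hK]
  have hKN : K ≤ Subgroup.normalizer (R : Set G) := by
    rw [hK]; exact sup_le (hHR.trans Subgroup.le_normalizer) (Subgroup.zpowers_le.mpr hg)
  have hRn : (R.subgroupOf K).Normal := Subgroup.normal_subgroupOf_of_le_normalizer hKN
  have hRp : IsPGroup p ↥(R.subgroupOf K) := hR.comap_subtype
  haveI : Group.IsNilpotent ↥(R.subgroupOf K) := hRp.isNilpotent
  have h1 : ((H.subgroupOf K).subgroupOf (R.subgroupOf K)).IsSubnormal :=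
    Cfsg.Agent.Helper4.isSubnormal_of_nilpotent' _
  have h2 := h1.trans' hRn.isSubnormal
  have h3 : ((H.subgroupOf K).subgroupOf (R.subgroupOf K)).map (R.subgroupOf K).subtype =
      H.subgroupOf K := by
    rw [Subgroup.subgroupOf_map_subtype]
    exact inf_eq_left.mpr (fun x hx => Subgroup.mem_subgroupOf.mpr (hHR (Subgroup.mem_subgroupOf.mp hx)))
  rw [← h3]; exact h2

theorem s4089_L2 {G : Type u} [Group G] [Finite G] (p : ℕ) [Fact p.Prime] (H : Subgroup G)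
    (hH : IsPGroup p H) (g : G) (hsn : (H.subgroupOf (H ⊔ Subgroup.zpowers g)).IsSubnormal) :
    ∃ R : Subgroup G, IsPGroup p R ∧ H ≤ R ∧ g ∈ Subgroup.normalizer (R : Set G) := by
  obtain ⟨K, hK⟩ : ∃ K : Subgroup G, K = H ⊔ Subgroup.zpowers g := ⟨_, rfl⟩
  rw [← hK] at hsn
  have hHK : H ≤ K := by rw [hK]; exact le_sup_left
  have hgK : g ∈ K := by
    rw [hK]; exact (le_sup_right : Subgroup.zpowers g ≤ H ⊔ Subgroup.zpowers g) (Subgroup.mem_zpowers g)
  refine ⟨(Cfsg.pCore p ↥K).map K.subtype, (Cfsg.Agent.Helper3.pCore_isPGroup p ↥K).map _, ?_, ?_⟩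
  · intro h hh
    have h1 : (⟨h, hHK hh⟩ : ↥K) ∈ Cfsg.pCore p ↥K :=
      Cfsg.Agent.Helper3.subnormal_isPGroup_le_pCore (H.subgroupOf K) hsn hH.comap_subtype
        (Subgroup.mem_subgroupOf.mpr hh)
    exact ⟨⟨h, hHK hh⟩, h1, rfl⟩
  · haveI : (Cfsg.pCore p ↥K).Characteristic := Cfsg.Agent.Helper3.pCore_characteristic p _
    have hn : (Cfsg.pCore p ↥K).Normal := inferInstance
    have h1 := Subgroup.le_normalizer_map (H := Cfsg.pCore p ↥K) K.subtype
    rw [Subgroup.normalizer_eq_top_iff.mpr hn] at h1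
    exact h1 ⟨⟨g, hgK⟩, Subgroup.mem_top _, rfl⟩

theorem s4089_L3 {G : Type u} [Group G] [Finite G] (p : ℕ) [Fact p.Prime] (H R0 : Subgroup G)
    (hR0 : IsPGroup p R0) (hHR0 : H ≤ R0) (g : G) (hg : g ∈ Subgroup.normalizer (R0 : Set G)) :
    ∃ R : Subgroup G, H ≤ R ∧ (Cfsg.pCore p (Subgroup.normalizer (R : Set G))).map
      (Subgroup.normalizer (R : Set G)).subtype = R ∧ g ∈ Subgroup.normalizer (R : Set G) := by
  let S : Set (Subgroup G) := {R | IsPGroup p R ∧ H ≤ R ∧ g ∈ Subgroup.normalizer (R : Set G)}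
  obtain ⟨R, hRS, hRmax⟩ := (wellFounded_gt (α := Subgroup G)).has_min S ⟨R0, hR0, hHR0, hg⟩
  obtain ⟨hRp, hHR, hgR⟩ := hRS
  obtain ⟨N, hN⟩ : ∃ N : Subgroup G, N = Subgroup.normalizer (R : Set G) := ⟨_, rfl⟩
  rw [← hN] at hgR
  have hRN : R ≤ N := hN ▸ Subgroup.le_normalizer
  have hle : R ≤ (Cfsg.pCore p ↥N).map N.subtype := by
    intro r hr
    haveI : (R.subgroupOf N).Normal := by
      rw [hN]
      exact (Subgroup.normal_subgroupOf_iff_le_normalizer Subgroup.le_normalizer).mpr le_rfl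
    have h1 : (⟨r, hRN hr⟩ : ↥N) ∈ Cfsg.pCore p ↥N :=
      Cfsg.Agent.Helper3.le_pCore (R.subgroupOf N) hRp.comap_subtype (Subgroup.mem_subgroupOf.mpr hr)
    exact ⟨⟨r, hRN hr⟩, h1, rfl⟩
  have hmem : (Cfsg.pCore p ↥N).map N.subtype ∈ S := by
    refine ⟨(Cfsg.Agent.Helper3.pCore_isPGroup p ↥N).map _, hHR.trans hle, ?_⟩
    haveI : (Cfsg.pCore p ↥N).Characteristic := Cfsg.Agent.Helper3.pCore_characteristic p _
    have hn : (Cfsg.pCore p ↥N).Normal := inferInstance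
    have h1 := Subgroup.le_normalizer_map (H := Cfsg.pCore p ↥N) N.subtype
    rw [Subgroup.normalizer_eq_top_iff.mpr hn] at h1
    exact h1 ⟨⟨g, hgR⟩, Subgroup.mem_top _, rfl⟩
  have heq : (Cfsg.pCore p ↥N).map N.subtype = R := by
    by_contra hne
    exact hRmax _ hmem (lt_of_le_of_ne hle (Ne.symm hne))
  refine ⟨R, hHR, ?_, ?_⟩
  · rw [← hN]; exact heq
  · rw [← hN]; exact hgR

theorem s4089_L4 {G : Type u} [Group G] [Finite G] (p : ℕ) [Fact p.Prime] (H R : Subgroup G)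
    (hHR : H ≤ R)
    (hrad : (Cfsg.pCore p (Subgroup.normalizer (R : Set G))).map
      (Subgroup.normalizer (R : Set G)).subtype = R) :
    sInf {K : Subgroup G | ∃ Q : Sylow p G, H ≤ (Q : Subgroup G) ∧ K = (Q : Subgroup G)} ≤ R := by
  have hRp : IsPGroup p R := by
    rw [← hrad]; exact (Cfsg.Agent.Helper3.pCore_isPGroup p _).map _
  obtain ⟨D, hD⟩ : ∃ D : Subgroup G,
      D = sInf {K : Subgroup G | ∃ Q : Sylow p G, R ≤ (Q : Subgroup G) ∧ K = (Q : Subgroup G)} :=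
    ⟨_, rfl⟩
  have hHD : sInf {K : Subgroup G | ∃ Q : Sylow p G, H ≤ (Q : Subgroup G) ∧ K = (Q : Subgroup G)}
      ≤ D := by
    rw [hD]
    apply sInf_le_sInf
    rintro K ⟨Q, hQ, rfl⟩
    exact ⟨Q, hHR.trans hQ, rfl⟩
  refine hHD.trans ?_
  have hRD : R ≤ D := by
    rw [hD]
    apply le_sInf
    rintro K ⟨Q, hQ, rfl⟩
    exact hQ
  obtain ⟨Q0, hQ0⟩ := hRp.exists_le_sylow
  have hDQ : ∀ Q : Sylow p G, R ≤ (Q : Subgroup G) → D ≤ (Q : Subgroup G) := by
    intro Q hQ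
    rw [hD]
    exact sInf_le ⟨Q, hQ, rfl⟩
  have hDp : IsPGroup p D := Q0.isPGroup'.to_le (hDQ Q0 hQ0)
  by_contra hDR
  have hlt : R.subgroupOf D < ⊤ := by
    rw [lt_top_iff_ne_top]
    intro h
    exact hDR (Subgroup.subgroupOf_eq_top.mp h)
  haveI : Group.IsNilpotent ↥D := hDp.isNilpotent
  have h1 := Group.normalizerCondition_of_isNilpotent (R.subgroupOf D) hlt
  obtain ⟨x, hxN, hxR⟩ := SetLike.exists_of_lt h1
  rw [← Subgroup.subgroupOf_normalizer_eq hRD, Subgroup.mem_subgroupOf] at hxN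
  apply hxR
  rw [Subgroup.mem_subgroupOf]
  obtain ⟨N, hN⟩ : ∃ N : Subgroup G, N = Subgroup.normalizer (R : Set G) := ⟨_, rfl⟩
  rw [← hN] at hxN hrad
  have hRN : R ≤ N := hN ▸ Subgroup.le_normalizer
  rw [← hrad]
  refine ⟨⟨(x : G), hxN⟩, ?_, rfl⟩
  rw [SetLike.mem_coe, Cfsg.Agent.S0010.result, Subgroup.mem_iInf]
  intro T
  have hRT : R.subgroupOf N ≤ (T : Subgroup ↥N) := by
    haveI : (R.subgroupOf N).Normal := by
      rw [hN]
      exact (Subgroup.normal_subgroupOf_iff_le_normalizer Subgroup.le_normalizer).mpr le_rfl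
    have h2 : R.subgroupOf N ≤ Cfsg.pCore p ↥N :=
      Cfsg.Agent.Helper3.le_pCore (R.subgroupOf N) hRp.comap_subtype
    rw [Cfsg.Agent.S0010.result] at h2
    exact h2.trans (iInf_le _ T)
  obtain ⟨Q, hQ⟩ := (T.isPGroup'.map N.subtype).exists_le_sylow
  have hRQ : R ≤ (Q : Subgroup G) := by
    intro r hr
    exact hQ ⟨⟨r, hRN hr⟩, hRT (Subgroup.mem_subgroupOf.mpr hr), rfl⟩
  have hxQ : (x : G) ∈ (Q : Subgroup G) := hDQ Q hRQ x.2
  have hT'p : IsPGroup p ↥(((Q : Subgroup G) ⊓ N).subgroupOf N) :=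
    (Q.isPGroup'.to_le inf_le_left).comap_subtype
  have hTle : (T : Subgroup ↥N) ≤ ((Q : Subgroup G) ⊓ N).subgroupOf N := by
    intro t ht
    rw [Subgroup.mem_subgroupOf]
    exact ⟨hQ ⟨t, ht, rfl⟩, t.2⟩
  have hEq := T.is_maximal' hT'p hTle
  rw [← hEq, Subgroup.mem_subgroupOf]
  exact ⟨hxQ, hxN⟩


/-- Let G be a finite group, p a prime and H a p-subgroup of G. Then the set of elements g of G such that H is subnormal in the subgroup generated by H and g is the union of the normalizers N_G(R) over the subgroups R of G containing H with R = O_p(N_G(R)); and this set does not change when H is replaced by the intersection of all Sylow p-subgroups of G containing H. -/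
theorem result {G : Type*} [Group G] [Finite G] (p : ℕ) [Fact p.Prime]
    (H : Subgroup G) (hH : IsPGroup p H) :
    {g : G | ((H).subgroupOf (H ⊔ Subgroup.zpowers g)).IsSubnormal} =
      {g : G | ∃ R : Subgroup G, H ≤ R ∧ (Cfsg.pCore p (Subgroup.normalizer (R : Set G))).map (Subgroup.normalizer (R : Set G)).subtype = R ∧ g ∈ Subgroup.normalizer (R : Set G)} ∧
    ∀ g : G, (((H).subgroupOf (H ⊔ Subgroup.zpowers g)).IsSubnormal ↔
      (((sInf {K : Subgroup G | ∃ Q : Sylow p G, H ≤ (Q : Subgroup G) ∧ K = (Q : Subgroup G)})).subgroupOf ((sInf {K : Subgroup G | ∃ Q : Sylow p G, H ≤ (Q : Subgroup G) ∧ K = (Q : Subgroup G)}) ⊔ Subgroup.zpowers g)).IsSubnormal) := by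
  have hfwd : ∀ g : G, ((H).subgroupOf (H ⊔ Subgroup.zpowers g)).IsSubnormal →
      ∃ R : Subgroup G, H ≤ R ∧ (Cfsg.pCore p (Subgroup.normalizer (R : Set G))).map
        (Subgroup.normalizer (R : Set G)).subtype = R ∧ g ∈ Subgroup.normalizer (R : Set G) := by
    intro g hsn
    obtain ⟨R0, hR0, hHR0, hg0⟩ := s4089_L2 p H hH g hsn
    exact s4089_L3 p H R0 hR0 hHR0 g hg0
  have hbwd : ∀ g : G, (∃ R : Subgroup G, H ≤ R ∧ (Cfsg.pCore p (Subgroup.normalizer (R : Set G))).map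
        (Subgroup.normalizer (R : Set G)).subtype = R ∧ g ∈ Subgroup.normalizer (R : Set G)) →
      ((H).subgroupOf (H ⊔ Subgroup.zpowers g)).IsSubnormal := by
    rintro g ⟨R, hHR, hrad, hg⟩
    have hRp : IsPGroup p R := by
      rw [← hrad]; exact (Cfsg.Agent.Helper3.pCore_isPGroup p _).map _
    exact s4089_L1 p H R hRp hHR g hg
  refine ⟨?_, ?_⟩
  · ext g
    exact ⟨hfwd g, hbwd g⟩
  · intro g
    obtain ⟨Q0, hQ0⟩ := hH.exists_le_sylow
    have hHt : H ≤ sInf {K : Subgroup G | ∃ Q : Sylow p G, H ≤ (Q : Subgroup G) ∧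
        K = (Q : Subgroup G)} := by
      apply le_sInf
      rintro K ⟨Q, hQ, rfl⟩
      exact hQ
    have hHtp : IsPGroup p ↥(sInf {K : Subgroup G | ∃ Q : Sylow p G, H ≤ (Q : Subgroup G) ∧
        K = (Q : Subgroup G)}) := Q0.isPGroup'.to_le (sInf_le ⟨Q0, hQ0, rfl⟩)
    constructor
    · intro hsn
      obtain ⟨R, hHR, hrad, hg⟩ := hfwd g hsn
      have hRp : IsPGroup p R := by
        rw [← hrad]; exact (Cfsg.Agent.Helper3.pCore_isPGroup p _).map _
      exact s4089_L1 p _ R hRp (s4089_L4 p H R hHR hrad) g hg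
    · intro hsn
      obtain ⟨R, hRp, hle, hg⟩ := s4089_L2 p _ hHtp g hsn
      exact s4089_L1 p H R hRp (hHt.trans hle) g hg

end Cfsg.Agent.S4089
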