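import Cfsg.Statements.S4106
import Mathlib
import Cfsg.Agent.Helper7.PiClasses

set_option autoImplicit false
open Cfsg

namespace Cfsg.Agent.S4106

/-- Let G be a finite group, π a set of primes and m the π-part of the order of G. Then the number of conjugacy classes of G consisting of π-elements (elements whose order is divisible only by primes in π) is at most m. -/
theorem result {G : Type*} [Group G] [Finite G]
    (π : Set ℕ) (hπ : ∀ q ∈ π, q.Prime)
    (m : ℕ) (hm : m ∣ Nat.card G) (hmπ : ∀ q : ℕ, q.Prime → q ∣ m → q ∈ π)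
    (hm' : ∀ q ∈ π, ¬ q ∣ Nat.card G / m) :
    Nat.card {C : ConjClasses G // ∀ q : ℕ, q.Prime → (∃ g : G, ConjClasses.mk g = C ∧ q ∣ orderOf g) → q ∈ π} ≤ m := by
  classical
  have hG0 : Nat.card G ≠ 0 := Nat.card_pos.ne'
  have hm0 : m ≠ 0 := by
    rintro rfl
    exact hG0 (Nat.eq_zero_of_zero_dvd hm)
  have hGm : Nat.card G = m * (Nat.card G / m) := (Nat.mul_div_cancel' hm).symm
  have hd0 : Nat.card G / m ≠ 0 := by
    intro h
    rw [h, mul_zero] at hGm
    exact hG0 hGm
  set σ : Finset ℕ := m.primeFactors with hσ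
  have hσp : ∀ q ∈ σ, q.Prime := fun q hq => Nat.prime_of_mem_primeFactors hq
  have key := Cfsg.Agent.Helper7.card_piClasses_le σ hσp (⊤ : Subgroup G)
  rw [Subgroup.card_top] at key
  -- the π-part equals m
  have hpart : Cfsg.Agent.Helper7.piPart σ (Nat.card G) = m := by
    unfold Cfsg.Agent.Helper7.piPart
    have h1 : ∀ q ∈ σ, q ^ (Nat.card G).factorization q = q ^ m.factorization q := by
      intro q hq
      have hqp : q.Prime := hσp q hq
      have hqm : q ∣ m := Nat.dvd_of_mem_primeFactors hq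
      have hqπ : q ∈ π := hmπ q hqp hqm
      have h2 : (Nat.card G / m).factorization q = 0 :=
        Nat.factorization_eq_zero_of_not_dvd (hm' q hqπ)
      have h3 : (Nat.card G).factorization q = m.factorization q + (Nat.card G / m).factorization q := by
        conv_lhs => rw [hGm]
        rw [Nat.factorization_mul hm0 hd0]
        rfl
      rw [h3, h2, add_zero]
    rw [Finset.prod_congr rfl h1]
    have h4 := Nat.prod_factorization_pow_eq_self hm0
    rw [Finsupp.prod, Nat.support_factorization] at h4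
    exact h4
  rw [hpart] at key
  refine le_trans ?_ key
  -- injection of the classes
  have hcl : ∀ C : {C : ConjClasses G // ∀ q : ℕ, q.Prime →
      (∃ g : G, ConjClasses.mk g = C ∧ q ∣ orderOf g) → q ∈ π},
      C.1.carrier ∈ Cfsg.Agent.Helper7.piClasses σ (⊤ : Subgroup G) := by
    rintro ⟨C, hC⟩
    obtain ⟨g, rfl⟩ := ConjClasses.exists_rep C
    refine ⟨g, Subgroup.mem_top g, ?_, ?_⟩
    · intro q hq hqd
      have hqπ : q ∈ π := hC q hq ⟨g, rfl, hqd⟩
      have hqG : q ∣ Nat.card G := hqd.trans (orderOf_dvd_natCard g)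
      have hqm : q ∣ m := by
        rw [hGm] at hqG
        rcases (Nat.Prime.dvd_mul hq).1 hqG with h | h
        · exact h
        · exact absurd h (hm' q hqπ)
      rw [hσ, Nat.mem_primeFactors]
      exact ⟨hq, hqm, hm0⟩
    · ext y
      show y ∈ (ConjClasses.mk g).carrier ↔ _
      rw [ConjClasses.mem_carrier_iff_mk_eq, ConjClasses.mk_eq_mk_iff_isConj, isConj_comm, isConj_iff]
      constructor
      · rintro ⟨c, hc⟩
        exact ⟨c, Subgroup.mem_top c, hc.symm⟩
      · rintro ⟨c, -, hc⟩
        exact ⟨c, hc.symm⟩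
  apply Nat.card_le_card_of_injective (fun C => (⟨C.1.carrier, hcl C⟩ :
    Cfsg.Agent.Helper7.piClasses σ (⊤ : Subgroup G)))
  rintro ⟨C, hC⟩ ⟨C', hC'⟩ h
  have h1 : C.carrier = C'.carrier := congrArg Subtype.val h
  apply Subtype.ext
  show C = C'
  obtain ⟨g, rfl⟩ := ConjClasses.exists_rep C
  have h2 : g ∈ (ConjClasses.mk g).carrier := ConjClasses.mem_carrier_mk
  rw [h1, ConjClasses.mem_carrier_iff_mk_eq] at h2
  exact h2

end Cfsg.Agent.S4106
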