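import Cfsg.Statements.S4116
import Cfsg.Agent.Helper7.TICount
import Cfsg.Agent.Helper7.Conj
import Cfsg.Agent.Helper7.SylowMore

set_option autoImplicit false
open Cfsg

namespace Cfsg.Agent.S4116

theorem result {G : Type*} [Group G] [Finite G] (H : Subgroup G)
    (hHall : (Nat.card H).Coprime H.index) (hTI : Cfsg.IsTISubset (H : Set G))
    (K : Subgroup G) (hK : ∀ q : ℕ, q.Prime → q ∣ Nat.card K → q ∣ Nat.card H) :
    ∃ g : G, K ≤ H.map (MulAut.conj g).toMonoidHom := by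
  classical
  have hmap : ∀ (g y : G), y ∈ H.map (MulAut.conj g).toMonoidHom ↔ g⁻¹ * y * g ∈ H := by
    intro g y
    rw [Subgroup.mem_map]
    constructor
    · rintro ⟨y₀, hy₀, rfl⟩
      show g⁻¹ * (g * y₀ * g⁻¹) * g ∈ H
      have h1 : g⁻¹ * (g * y₀ * g⁻¹) * g = y₀ := by group
      rw [h1]
      exact hy₀
    · intro h
      refine ⟨g⁻¹ * y * g, h, ?_⟩
      show g * (g⁻¹ * y * g) * g⁻¹ = y
      group
  -- `π`-elements of the normalizer lie in `H`
  have hnorm : ∀ x : G, x ∈ Subgroup.normalizer (H : Set G) →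
      (∀ q : ℕ, q.Prime → q ∣ orderOf x → q ∣ Nat.card H) → x ∈ H := by
    intro x hxN hx
    have h1 : orderOf (QuotientGroup.mk' (H.subgroupOf (Subgroup.normalizer (H : Set G)))
        (⟨x, hxN⟩ : Subgroup.normalizer (H : Set G))) ∣ orderOf x := by
      have h2 := orderOf_map_dvd (QuotientGroup.mk' (H.subgroupOf (Subgroup.normalizer (H : Set G))))
        (⟨x, hxN⟩ : Subgroup.normalizer (H : Set G))
      rwa [Subgroup.orderOf_mk] at h2
    have h3 : orderOf (QuotientGroup.mk' (H.subgroupOf (Subgroup.normalizer (H : Set G)))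
        (⟨x, hxN⟩ : Subgroup.normalizer (H : Set G))) ∣ H.index := by
      have h4 : orderOf (QuotientGroup.mk' (H.subgroupOf (Subgroup.normalizer (H : Set G)))
          (⟨x, hxN⟩ : Subgroup.normalizer (H : Set G))) ∣
          (H.subgroupOf (Subgroup.normalizer (H : Set G))).index := orderOf_dvd_natCard _
      have h5 : (H.subgroupOf (Subgroup.normalizer (H : Set G))).index * (Subgroup.normalizer (H : Set G)).index = H.index :=
        Subgroup.relIndex_mul_index Subgroup.le_normalizer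
      exact h4.trans (Dvd.intro _ h5)
    have h6 : orderOf (QuotientGroup.mk' (H.subgroupOf (Subgroup.normalizer (H : Set G)))
        (⟨x, hxN⟩ : Subgroup.normalizer (H : Set G))) = 1 := by
      by_contra hne
      obtain ⟨q, hq, hqd⟩ := Nat.exists_prime_and_dvd hne
      have h7 : q ∣ Nat.card H := hx q hq (hqd.trans h1)
      have h8 : q ∣ H.index := hqd.trans h3
      have h9 := Nat.dvd_gcd h7 h8
      rw [hHall] at h9
      exact hq.one_lt.ne' (Nat.dvd_one.1 h9)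
    rw [orderOf_eq_one_iff] at h6
    have h10 : (⟨x, hxN⟩ : Subgroup.normalizer (H : Set G)) ∈
        H.subgroupOf (Subgroup.normalizer (H : Set G)) := (QuotientGroup.eq_one_iff _).1 h6
    exact Subgroup.mem_subgroupOf.1 h10
  have hTI0 : ∀ t x : G, x ∈ H → x ≠ 1 → t * x * t⁻¹ ∈ H → t ∈ Subgroup.normalizer (H : Set G) := by
    intro t x hx hx1 htx
    by_contra hnot
    exact hx1 (hTI t hnot x hx htx)
  have hA : ∀ (a x y : G), (∀ q : ℕ, q.Prime → q ∣ orderOf x → q ∣ Nat.card H) → y ≠ 1 →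
      a⁻¹ * y * a ∈ H → a⁻¹ * (x * y * x⁻¹) * a ∈ H → a⁻¹ * x * a ∈ H := by
    intro a x y hx hy1 hy hxy
    have h1 : a⁻¹ * y * a ≠ 1 := by
      intro h
      apply hy1
      have h2 : y = a * (a⁻¹ * y * a) * a⁻¹ := by group
      rw [h2, h]
      group
    have h2 : (a⁻¹ * x * a) * (a⁻¹ * y * a) * (a⁻¹ * x * a)⁻¹ = a⁻¹ * (x * y * x⁻¹) * a := by group
    have h3 := hTI0 (a⁻¹ * x * a) (a⁻¹ * y * a) hy h1 (h2 ▸ hxy)
    apply hnorm _ h3
    have h4 : orderOf (a⁻¹ * x * a) = orderOf x := by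
      have h5 := (MulAut.conj a⁻¹).orderOf_eq x
      rw [MulAut.conj_apply, inv_inv] at h5
      exact h5
    rw [h4]
    exact hx
  have hTI' : ∀ a b z : G, z ≠ 1 → a⁻¹ * z * a ∈ H → b⁻¹ * z * b ∈ H →
      ∀ w : G, a⁻¹ * w * a ∈ H → b⁻¹ * w * b ∈ H := by
    intro a b z hz ha hb w hw
    have h1 : a⁻¹ * z * a ≠ 1 := by
      intro h
      apply hz
      have h2 : z = a * (a⁻¹ * z * a) * a⁻¹ := by group
      rw [h2, h]
      group
    have h2 : (b⁻¹ * a) * (a⁻¹ * z * a) * (b⁻¹ * a)⁻¹ = b⁻¹ * z * b := by group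
    have h3 := hTI0 (b⁻¹ * a) (a⁻¹ * z * a) ha h1 (h2 ▸ hb)
    rw [Subgroup.mem_normalizer_iff] at h3
    have h4 := (h3 (a⁻¹ * w * a)).1 hw
    have h5 : (b⁻¹ * a) * (a⁻¹ * w * a) * (b⁻¹ * a)⁻¹ = b⁻¹ * w * b := by group
    rwa [h5] at h4
  have hSyl : ∀ (r : ℕ), r.Prime → r ∣ Nat.card H → ∀ y : G, orderOf y = r →
      ∃ a : G, a⁻¹ * y * a ∈ H := by
    intro r hr hrH y hy
    haveI := Fact.mk hr
    have h1 : ¬ r ∣ H.index := by
      intro h
      have h2 := Nat.dvd_gcd hrH h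
      rw [hHall] at h2
      exact hr.one_lt.ne' (Nat.dvd_one.1 h2)
    obtain ⟨Q, hQH, -⟩ := Cfsg.Agent.Helper7.exists_sylow_le_of_not_dvd_index H h1 1
      (one_mem _) 0 (one_pow _)
    obtain ⟨Q', hyQ'⟩ := Cfsg.Agent.Helper7.exists_sylow_mem_of_orderOf_eq_prime_pow (p := r) y 1
      (by rw [pow_one]; exact hy)
    obtain ⟨g, hg⟩ := MulAction.exists_smul_eq G Q Q'
    rw [← hg, Cfsg.Agent.Helper7.mem_smul_sylow_iff] at hyQ'
    exact ⟨g, hQH hyQ'⟩
  by_cases hKbot : K = ⊥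
  · exact ⟨1, by rw [hKbot]; exact bot_le⟩
  have hKord : ∀ x ∈ K, ∀ q : ℕ, q.Prime → q ∣ orderOf x → q ∣ Nat.card H :=
    fun x hx q hq hqx => hK q hq (hqx.trans (Subgroup.orderOf_dvd_natCard K hx))
  have hKcard : Nat.card K ≠ 1 := by
    have := (Subgroup.one_lt_card_iff_ne_bot K).2 hKbot
    omega
  obtain ⟨q, hq, hqK⟩ := Nat.exists_prime_and_dvd hKcard
  haveI := Fact.mk hq
  obtain ⟨y₀, hy₀⟩ := exists_prime_orderOf_dvd_card' (G := K) q hqK
  have hy₀' : orderOf (y₀ : G) = q := by rw [Subgroup.orderOf_coe, hy₀]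
  obtain ⟨a, ha⟩ := hSyl q hq (hK q hq hqK) y₀ hy₀'
  refine ⟨a, ?_⟩
  by_contra hnot
  have hMtop : (H.map (MulAut.conj a).toMonoidHom).subgroupOf K ≠ ⊤ := by
    intro h
    exact hnot (Subgroup.subgroupOf_eq_top.1 h)
  have hMbot : (H.map (MulAut.conj a).toMonoidHom).subgroupOf K ≠ ⊥ := by
    intro h
    have h1 : y₀ ∈ (H.map (MulAut.conj a).toMonoidHom).subgroupOf K := by
      rw [Subgroup.mem_subgroupOf, hmap]
      exact ha
    rw [h, Subgroup.mem_bot] at h1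
    rw [h1, orderOf_one] at hy₀
    exact hq.one_lt.ne' hy₀.symm
  have hMTI : ∀ b : G, ∀ k : K, k ∉ (H.map (MulAut.conj b).toMonoidHom).subgroupOf K →
      ∀ y ∈ (H.map (MulAut.conj b).toMonoidHom).subgroupOf K,
      k * y * k⁻¹ ∈ (H.map (MulAut.conj b).toMonoidHom).subgroupOf K → y = 1 := by
    intro b k hk y hy hky
    by_contra hy1
    apply hk
    rw [Subgroup.mem_subgroupOf, hmap] at hy hky ⊢
    have hy1' : (y : G) ≠ 1 := fun h => hy1 (Subtype.ext h)
    exact hA b k y (hKord k k.2) hy1' hy hky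
  obtain ⟨x, hx⟩ := Cfsg.Agent.Helper7.exists_forall_conj_notMem _ hMtop
  have hx1 : x ≠ 1 := by
    rintro rfl
    apply hx 1
    rw [inv_one, one_mul, mul_one]
    exact one_mem _
  have hx1' : (x : G) ≠ 1 := fun h => hx1 (Subtype.ext h)
  have hox : orderOf (x : G) ≠ 1 := fun h => hx1' (orderOf_eq_one_iff.1 h)
  obtain ⟨r, hr, hrx⟩ := Nat.exists_prime_and_dvd hox
  have hxr : orderOf ((x : G) ^ (orderOf (x : G) / r)) = r :=
    orderOf_pow_orderOf_div (orderOf_pos (x : G)).ne' hrx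
  obtain ⟨b, hb⟩ := hSyl r hr (hKord x x.2 r hr hrx) _ hxr
  have hxr1 : (x : G) ^ (orderOf (x : G) / r) ≠ 1 := by
    intro h
    rw [h, orderOf_one] at hxr
    exact hr.one_lt.ne' hxr.symm
  have hxb : b⁻¹ * (x : G) * b ∈ H := by
    apply hA b x _ (hKord x x.2) hxr1 hb
    have h1 : (x : G) * (x : G) ^ (orderOf (x : G) / r) * (x : G)⁻¹ =
        (x : G) ^ (orderOf (x : G) / r) := by
      rw [← pow_succ', pow_succ, mul_inv_cancel_right]
    rw [h1]
    exact hb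
  have hM'bot : (H.map (MulAut.conj b).toMonoidHom).subgroupOf K ≠ ⊥ := by
    intro h
    have h1 : x ∈ (H.map (MulAut.conj b).toMonoidHom).subgroupOf K := by
      rw [Subgroup.mem_subgroupOf, hmap]
      exact hxb
    rw [h, Subgroup.mem_bot] at h1
    exact hx1 h1
  have c1 := Cfsg.Agent.Helper7.card_le_two_mul_card_conj_of_TI _ hMbot (hMTI a)
  have c2 := Cfsg.Agent.Helper7.card_le_two_mul_card_conj_of_TI _ hM'bot (hMTI b)
  have hdisj : ∀ z : K, z ≠ 1 →
      (∃ k : K, k⁻¹ * z * k ∈ (H.map (MulAut.conj a).toMonoidHom).subgroupOf K) →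
      (∃ k : K, k⁻¹ * z * k ∈ (H.map (MulAut.conj b).toMonoidHom).subgroupOf K) → False := by
    rintro z hz ⟨k, hk⟩ ⟨k', hk'⟩
    rw [Subgroup.mem_subgroupOf, hmap] at hk hk'
    have hz' : (z : G) ≠ 1 := fun h => hz (Subtype.ext h)
    have e1 : ((k' : G) * b)⁻¹ * (z : G) * ((k' : G) * b) ∈ H := by
      have e : ((k' : G) * b)⁻¹ * (z : G) * ((k' : G) * b) = b⁻¹ * ((k' : G)⁻¹ * z * k') * b := by
        group
      rw [e]
      exact hk'
    have e2 : ((k : G) * a)⁻¹ * (z : G) * ((k : G) * a) ∈ H := by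
      have e : ((k : G) * a)⁻¹ * (z : G) * ((k : G) * a) = a⁻¹ * ((k : G)⁻¹ * z * k) * a := by
        group
      rw [e]
      exact hk
    have h1 := hTI' ((k' : G) * b) ((k : G) * a) z hz' e1 e2 ((k' : G) * x * (k' : G)⁻¹) (by
      have e : ((k' : G) * b)⁻¹ * ((k' : G) * x * (k' : G)⁻¹) * ((k' : G) * b) = b⁻¹ * (x : G) * b := by
        group
      rw [e]
      exact hxb)
    apply hx (k'⁻¹ * k)
    rw [Subgroup.mem_subgroupOf, hmap]
    have e : a⁻¹ * (((k'⁻¹ * k)⁻¹ * x * (k'⁻¹ * k) : K) : G) * a =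
        ((k : G) * a)⁻¹ * ((k' : G) * x * (k' : G)⁻¹) * ((k : G) * a) := by
      simp only [Subgroup.coe_mul, Subgroup.coe_inv]
      group
    rw [e]
    exact h1
  have c3 : Nat.card {z : K // z ≠ 1 ∧ ∃ k : K, k⁻¹ * z * k ∈
      (H.map (MulAut.conj a).toMonoidHom).subgroupOf K} +
      Nat.card {z : K // z ≠ 1 ∧ ∃ k : K, k⁻¹ * z * k ∈
      (H.map (MulAut.conj b).toMonoidHom).subgroupOf K} + 1 ≤ Nat.card K := by
    have hu : Nat.card Unit = 1 := Nat.card_unique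
    rw [← Nat.card_sum, ← hu, ← Nat.card_sum]
    apply Nat.card_le_card_of_injective
      (fun s : ({z : K // z ≠ 1 ∧ ∃ k : K, k⁻¹ * z * k ∈
        (H.map (MulAut.conj a).toMonoidHom).subgroupOf K} ⊕
        {z : K // z ≠ 1 ∧ ∃ k : K, k⁻¹ * z * k ∈
        (H.map (MulAut.conj b).toMonoidHom).subgroupOf K}) ⊕ Unit =>
        Sum.elim (Sum.elim (fun z => z.1) (fun z => z.1)) (fun _ => (1 : K)) s)
    rintro ((s | s) | s) ((t | t) | t) hst
    · have h1 : s.1 = t.1 := hst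
      rw [Subtype.ext h1]
    · have h1 : s.1 = t.1 := hst
      exact (hdisj s.1 s.2.1 s.2.2 (h1 ▸ t.2.2)).elim
    · have h1 : s.1 = 1 := hst
      exact (s.2.1 h1).elim
    · have h1 : s.1 = t.1 := hst
      exact (hdisj t.1 t.2.1 t.2.2 (h1 ▸ s.2.2)).elim
    · have h1 : s.1 = t.1 := hst
      rw [Subtype.ext h1]
    · have h1 : s.1 = 1 := hst
      exact (s.2.1 h1).elim
    · have h1 : (1 : K) = t.1 := hst
      exact (t.2.1 h1.symm).elim
    · have h1 : (1 : K) = t.1 := hst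
      exact (t.2.1 h1.symm).elim
    · rfl
  omega

end Cfsg.Agent.S4116
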