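import Cfsg.Statements.S4126
import Mathlib
import Cfsg.Agent.Helper6.Coprime
import Cfsg.Agent.Lead.Index
-- import your own Cfsg.Agent.* helpers here

set_option autoImplicit false
open Cfsg

namespace Cfsg.Agent.S4126

/-- Let G be a finite group and p a prime. Suppose every element of order p, and when p = 2 also every element of order 4, has a conjugacy class of p-power size. Then G has a normal p-complement. -/
theorem result {G : Type*} [Group G] [Finite G] (p : ℕ) [Fact p.Prime]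
    (h : ∀ x : G, (orderOf x = p ∨ (p = 2 ∧ orderOf x = 4)) → ∃ a : ℕ, (Subgroup.centralizer ({x} : Set G)).index = p ^ a) :
    Cfsg.HasNormalPComplement p G := by
  apply Cfsg.Agent.Helper6.hasNormalPComplement_of_frobCond
  obtain ⟨P⟩ : Nonempty (Sylow p G) := inferInstance
  apply Cfsg.Agent.Helper6.frobCond_of_fusion_omega P
  intro a ha hord g hga
  by_cases ha1 : a = 1
  · exact ⟨1, one_mem _, by rw [ha1]; group⟩
  have hord' : orderOf a = p ∨ (p = 2 ∧ orderOf a = 4) := by
    rcases hord with h1 | ⟨h2, h1⟩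
    · left; exact orderOf_eq_prime h1 ha1
    · have hd : orderOf a ∣ 2 ^ 2 := orderOf_dvd_of_pow_eq_one (by norm_num; exact h1)
      obtain ⟨j, hj, hj2⟩ := (Nat.dvd_prime_pow Nat.prime_two).mp hd
      have hj0 : j ≠ 0 := by
        rintro rfl
        rw [pow_zero, orderOf_eq_one_iff] at hj2
        exact ha1 hj2
      have hj12 : j = 1 ∨ j = 2 := by omega
      rcases hj12 with rfl | rfl
      · left; rw [hj2, h2]; norm_num
      · right; exact ⟨h2, by rw [hj2]; norm_num⟩
  obtain ⟨k, hk⟩ := h a hord'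
  obtain ⟨C, hCdef⟩ : ∃ C : Subgroup G, C = Subgroup.centralizer ({a} : Set G) := ⟨_, rfl⟩
  rw [← hCdef] at hk
  have h1 : (C ⊓ (P : Subgroup G)).relIndex (P : Subgroup G) * (P : Subgroup G).index
      = (C ⊓ (P : Subgroup G)).index := Subgroup.relIndex_mul_index inf_le_right
  have h2 : (C ⊓ (P : Subgroup G)).relIndex C * C.index = (C ⊓ (P : Subgroup G)).index :=
    Subgroup.relIndex_mul_index inf_le_left
  rw [Subgroup.inf_relIndex_right] at h1
  have h3 : p ^ k ∣ C.relIndex (P : Subgroup G) * (P : Subgroup G).index := by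
    rw [h1, ← h2, hk]; exact dvd_mul_left _ _
  have h4 : p ^ k ∣ C.relIndex (P : Subgroup G) :=
    Nat.Coprime.dvd_of_dvd_mul_right
      (Nat.Coprime.pow_left k ((Nat.Prime.coprime_iff_not_dvd Fact.out).mpr P.not_dvd_index)) h3
  have hpos : 0 < C.relIndex (P : Subgroup G) := by
    have h0 : (C.subgroupOf (P : Subgroup G)).index ≠ 0 := Subgroup.index_ne_zero_of_finite
    have h0' : C.relIndex (P : Subgroup G) ≠ 0 := h0
    omega
  have h5 : p ^ k ≤ C.relIndex (P : Subgroup G) := Nat.le_of_dvd hpos h4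
  have hcard : Nat.card (G ⧸ C) ≤ Nat.card (↥(P : Subgroup G) ⧸ C.subgroupOf (P : Subgroup G)) := by
    have e1 : Nat.card (G ⧸ C) = C.index := (Subgroup.index_eq_card C).symm
    have e2 : Nat.card (↥(P : Subgroup G) ⧸ C.subgroupOf (P : Subgroup G))
        = C.relIndex (P : Subgroup G) := (Subgroup.index_eq_card _).symm
    rw [e1, e2, hk]; exact h5
  have hbij := (Cfsg.Agent.Lead.quotMapOfSubgroup_injective (P : Subgroup G) C).bijective_of_nat_card_le hcard
  obtain ⟨q, hq⟩ := hbij.2 (QuotientGroup.mk g : G ⧸ C)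
  obtain ⟨u, rfl⟩ := QuotientGroup.mk_surjective q
  have h6 : ((u : G) : G ⧸ C) = (g : G ⧸ C) := hq
  rw [QuotientGroup.eq] at h6
  have h7 : a * ((u : G)⁻¹ * g) = ((u : G)⁻¹ * g) * a := by
    rw [hCdef, Subgroup.mem_centralizer_iff] at h6
    exact h6 a rfl
  refine ⟨u, u.2, ?_⟩
  calc g * a * g⁻¹ = (u : G) * (((u : G)⁻¹ * g) * a) * ((u : G)⁻¹ * g)⁻¹ * (u : G)⁻¹ := by group
    _ = (u : G) * (a * ((u : G)⁻¹ * g)) * ((u : G)⁻¹ * g)⁻¹ * (u : G)⁻¹ := by rw [h7]
    _ = (u : G) * a * (u : G)⁻¹ := by group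

end Cfsg.Agent.S4126
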