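import Cfsg.Statements.S4127
import Mathlib
import Cfsg.Agent.Helper4.ClassSize
import Cfsg.Agent.Helper3.AxB

set_option autoImplicit false
open Cfsg

namespace Cfsg.Agent.S4127

/-- Let G be a finite group, p a prime and p^a the largest power of p dividing the size of any conjugacy class of G. If some element of p-power order has a conjugacy class of size exactly p^a, then G has a normal p-complement. -/
theorem result {G : Type*} [Group G] [Finite G] (p : ℕ) [Fact p.Prime]
    (a : ℕ) (hmax : ∀ y : G, ¬ p ^ (a + 1) ∣ (Subgroup.centralizer ({y} : Set G)).index)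
    (hx : ∃ x : G, (∃ k : ℕ, orderOf x = p ^ k) ∧ (Subgroup.centralizer ({x} : Set G)).index = p ^ a) :
    Cfsg.HasNormalPComplement p G := by
  classical
  have hp : p.Prime := Fact.out
  obtain ⟨x, ⟨k, hk⟩, hidx⟩ := hx
  set C := Subgroup.centralizer ({x} : Set G) with hCdef
  have hxC : ∀ c ∈ C, c * x = x * c := by
    intro c hc
    rw [hCdef, Subgroup.mem_centralizer_iff] at hc
    exact (hc x rfl).symm
  -- hypothesis of the relative lemma
  have hrel : ∀ y ∈ C, (orderOf y).Coprime p →
      ¬ p ∣ (Subgroup.centralizer ({y} : Set G)).relIndex C := by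
    intro y hy hco hdvd
    have hcomm : Commute x y := (hxC y hy).symm
    have hco' : (orderOf x).Coprime (orderOf y) := by
      rw [hk]
      exact (Nat.Coprime.pow_right k hco).symm
    have h1 := Cfsg.Agent.Helper4.centralizer_mul_le_of_coprime x y hcomm hco'
    have h2 : (C ⊓ Subgroup.centralizer ({y} : Set G)).index ∣
        (Subgroup.centralizer ({x * y} : Set G)).index := Subgroup.index_dvd_of_le h1
    have h3 : (Subgroup.centralizer ({y} : Set G)).relIndex C * C.index =
        (C ⊓ Subgroup.centralizer ({y} : Set G)).index := by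
      rw [← Subgroup.inf_relIndex_right, inf_comm]
      exact Subgroup.relIndex_mul_index inf_le_left
    apply hmax (x * y)
    refine dvd_trans ?_ h2
    rw [← h3, hidx, pow_succ, mul_comm]
    exact Nat.mul_dvd_mul_right hdvd _
  obtain ⟨W, hWC, hWnC, hWcop, ⟨n, hWn⟩, hWp⟩ := Cfsg.Agent.Helper4.pprime_normal_rel p C hrel
  -- a Sylow subgroup containing x
  have hxp : IsPGroup p (Subgroup.zpowers x) := by
    rw [IsPGroup.iff_card, Nat.card_zpowers]
    exact ⟨k, hk⟩
  obtain ⟨P, hP⟩ := hxp.exists_le_sylow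
  have hxP : x ∈ (P : Subgroup G) := hP (Subgroup.mem_zpowers x)
  -- cardinalities
  have hWidx : W.index = p ^ (n + a) := by
    rw [← Subgroup.relIndex_mul_index hWC, hWn, hidx, pow_add]
  have hcardG : Nat.card W * p ^ (n + a) = Nat.card G := by
    rw [← hWidx]; exact Subgroup.card_mul_index W
  have hWpos : Nat.card W ≠ 0 := Nat.card_pos.ne'
  have hWndvd : ¬ p ∣ Nat.card W := fun hd =>
    hp.one_lt.ne' (Nat.Coprime.eq_one_of_dvd hWcop.symm hd)
  have hfac : (Nat.card G).factorization p = n + a := by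
    rw [← hcardG, Nat.factorization_mul hWpos (pow_pos hp.pos _).ne']
    simp [Nat.factorization_eq_zero_of_not_dvd hWndvd, hp.factorization_pow]
  have hPcard : Nat.card (P : Subgroup G) = p ^ (n + a) := by
    rw [Sylow.card_eq_multiplicity, hfac]
  have hcompl : Subgroup.IsComplement' W (P : Subgroup G) := by
    apply Subgroup.isComplement'_of_coprime
    · rw [hPcard]; exact hcardG
    · rw [hPcard]; exact Nat.Coprime.pow_right _ hWcop
  -- all conjugates of x lie in P
  have hconjP : ∀ g : G, g * x * g⁻¹ ∈ (P : Subgroup G) := by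
    intro g
    obtain ⟨⟨⟨w, hw⟩, ⟨u, hu⟩⟩, hwu⟩ := hcompl.2 g⁻¹
    simp only at hwu
    have hg : g = u⁻¹ * w⁻¹ := by
      have : g⁻¹ = w * u := hwu.symm
      rw [← inv_inv g, this]; group
    have hwx : w⁻¹ * x * w = x := by
      have := hxC w (hWC hw)
      rw [mul_assoc, ← this]; group
    have e : g * x * g⁻¹ = u⁻¹ * (w⁻¹ * x * w) * u := by rw [hg]; group
    rw [e, hwx]
    exact (P : Subgroup G).mul_mem ((P : Subgroup G).mul_mem ((P : Subgroup G).inv_mem hu) hxP) hu
  set X := Subgroup.normalClosure ({x} : Set G) with hXdef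
  have hXP : X ≤ (P : Subgroup G) := by
    rw [hXdef, Subgroup.normalClosure, Subgroup.closure_le]
    intro z hz
    rw [Group.mem_conjugatesOfSet_iff] at hz
    obtain ⟨a', ha', hconj⟩ := hz
    rw [Set.mem_singleton_iff] at ha'
    subst ha'
    rw [isConj_iff] at hconj
    obtain ⟨c, rfl⟩ := hconj
    exact hconjP c
  have hXp : IsPGroup p X := P.2.to_le hXP
  have hXn : X.Normal := Subgroup.normalClosure_normal
  have hxX : x ∈ X := Subgroup.subset_normalClosure (Set.mem_singleton x)
  -- Thompson A×B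
  have hAB : ⁅W, Subgroup.zpowers x⁆ = ⊥ := by
    rw [Subgroup.commutator_eq_bot_iff_le_centralizer]
    intro w hw
    rw [Subgroup.mem_centralizer_iff]
    intro z hz
    obtain ⟨j, rfl⟩ := Subgroup.mem_zpowers_iff.mp hz
    have hc : Commute x w := (hxC w (hWC hw)).symm
    exact (hc.zpow_left j).eq
  have hWX : W ⊓ X = ⊥ := by
    apply Disjoint.eq_bot
    apply Subgroup.disjoint_of_coprime_natCard
    obtain ⟨j, hj⟩ := IsPGroup.iff_card.mp hXp
    rw [hj]
    exact Nat.Coprime.pow_right _ hWcop
  have hCent : X ⊓ Subgroup.centralizer (Subgroup.zpowers x : Set G) ≤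
      Subgroup.centralizer (W : Set G) := by
    intro u hu
    obtain ⟨huX, huc⟩ := Subgroup.mem_inf.mp hu
    rw [Subgroup.mem_centralizer_iff] at huc
    have hux : x * u = u * x := huc x (Subgroup.mem_zpowers x)
    have huC : u ∈ C := by
      rw [hCdef, Subgroup.mem_centralizer_iff]
      intro z hz
      rw [Set.mem_singleton_iff] at hz
      subst hz
      exact hux
    rw [Subgroup.mem_centralizer_iff]
    intro w hw
    have h1 : w * u * w⁻¹ * u⁻¹ ∈ W := by
      have h2 : u * w⁻¹ * u⁻¹ ∈ W := hWnC u huC _ (W.inv_mem hw)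
      have e : w * u * w⁻¹ * u⁻¹ = w * (u * w⁻¹ * u⁻¹) := by group
      rw [e]; exact W.mul_mem hw h2
    have h2 : w * u * w⁻¹ * u⁻¹ ∈ X := X.mul_mem (hXn.conj_mem u huX w) (X.inv_mem huX)
    have h3 : w * u * w⁻¹ * u⁻¹ ∈ W ⊓ X := Subgroup.mem_inf.mpr ⟨h1, h2⟩
    rw [hWX, Subgroup.mem_bot] at h3
    have e : w * u = (w * u * w⁻¹ * u⁻¹) * (u * w) := by group
    rw [e, h3, one_mul]
  have hXW : X ≤ Subgroup.centralizer (W : Set G) :=
    Cfsg.Agent.Helper3.thompson_AxB p X W (Subgroup.zpowers x) hXp hWcop hxp hAB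
      (by rw [Subgroup.normalizer_eq_top]; exact le_top)
      (by rw [Subgroup.normalizer_eq_top]; exact le_top) hCent
  -- W is normal in G
  have hWnormal : W.Normal := by
    constructor
    intro w hw g
    apply hWp
    · -- g w g⁻¹ centralizes x
      rw [hCdef, Subgroup.mem_centralizer_iff]
      intro z hz
      rw [Set.mem_singleton_iff] at hz
      subst hz
      have h1 : g⁻¹ * z * g ∈ X := by
        have := hXn.conj_mem z hxX g⁻¹
        simpa using this
      have h2 := hXW h1
      rw [Subgroup.mem_centralizer_iff] at h2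
      have h3 : w * (g⁻¹ * z * g) = (g⁻¹ * z * g) * w := h2 w hw
      have e1 : z * (g * w * g⁻¹) = g * ((g⁻¹ * z * g) * w) * g⁻¹ := by group
      have e2 : g * w * g⁻¹ * z = g * (w * (g⁻¹ * z * g)) * g⁻¹ := by group
      rw [e1, e2, h3]
    · have h1 : orderOf (g * w * g⁻¹) = orderOf w :=
        MulEquiv.orderOf_eq (MulAut.conj g) w
      rw [h1]
      have h2 : orderOf w ∣ Nat.card W := by
        have := orderOf_dvd_natCard (⟨w, hw⟩ : W)
        rwa [Subgroup.orderOf_mk] at this
      exact Nat.Coprime.coprime_dvd_left h2 hWcop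
  exact ⟨P, W, hWnormal, hcompl⟩

end Cfsg.Agent.S4127
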