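import Cfsg.Statements.S4134
import Mathlib
import Cfsg.Agent.Helper4.TwoClass5

set_option autoImplicit false
open Cfsg

namespace Cfsg.Agent.S4134

/-- Let G be a finite group whose conjugacy classes have exactly two sizes, 1 and n > 1. Then n is a power of a prime p and G is the direct product of a p-group and an abelian group of order prime to p: its Sylow p-subgroup P is normal with an abelian normal complement centralizing it; moreover P has an abelian normal subgroup A with P/A of exponent dividing p. -/
theorem result {G : Type*} [Group G] [Finite G] (n : ℕ) (hn : 1 < n)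
    (h : ∀ x : G, (Subgroup.centralizer ({x} : Set G)).index = 1 ∨ (Subgroup.centralizer ({x} : Set G)).index = n) (hex : ∃ x : G, (Subgroup.centralizer ({x} : Set G)).index = n) :
    ∃ (p : ℕ) (_ : Fact p.Prime) (a : ℕ), n = p ^ a ∧ ∀ P : Sylow p G, (P : Subgroup G).Normal ∧
      (∃ N : Subgroup G, N.Normal ∧ N.IsComplement' (P : Subgroup G) ∧ IsMulCommutative N ∧
        ∀ x ∈ N, ∀ y ∈ (P : Subgroup G), x * y = y * x) ∧
      ∃ A : Subgroup (P : Subgroup G), A.Normal ∧ IsMulCommutative A ∧ ∀ y : (P : Subgroup G), y ^ p ∈ A := by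
  classical
  obtain ⟨p, a, hp, hna⟩ := Cfsg.Agent.Helper4.tc_prime_power hn h hex
  haveI hpf : Fact p.Prime := ⟨hp⟩
  refine ⟨p, hpf, a, hna, ?_⟩
  have hrcent : ∀ r : ℕ, r.Prime → r ≠ p → ∀ (y : G) (k : ℕ), y ^ (r ^ k) = 1 →
      y ∈ Subgroup.center G := by
    intro r hr hrp y k hy
    haveI : Fact r.Prime := ⟨hr⟩
    apply Cfsg.Agent.Helper4.central_of_not_dvd_index r _ hy
    intro x hdvd
    rcases h x with h1 | h1
    · rw [h1] at hdvd; exact hr.one_lt.ne' (Nat.dvd_one.mp hdvd)
    · rw [h1, hna] at hdvd
      exact hrp ((Nat.prime_dvd_prime_iff_eq hr hp).mp (hr.dvd_of_dvd_pow hdvd))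
  have hpcent := Cfsg.Agent.Helper4.pprime_central p hrcent
  obtain ⟨W, hWn, hWcop, ⟨m, hWm⟩, hWp⟩ :=
    Cfsg.Agent.Helper4.pprime_normal_of_class_sizes (H := G) p (by
      intro y hy hdvd
      have := (Cfsg.Agent.Helper4.cent_index_eq_one_iff y).mpr (hpcent y hy)
      rw [this] at hdvd
      exact hp.one_lt.ne' (Nat.dvd_one.mp hdvd))
  have hWcent : ∀ w ∈ W, w ∈ Subgroup.center G := by
    intro w hw
    apply hpcent
    have h2 : orderOf w ∣ Nat.card W := by
      have := orderOf_dvd_natCard (⟨w, hw⟩ : W)
      rwa [Subgroup.orderOf_mk] at this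
    exact Nat.Coprime.coprime_dvd_left h2 hWcop
  intro P
  have hcompl := Cfsg.Agent.Helper4.isComplement'_of_coprime_index_pow W hWcop hWm P
  have hdec : ∀ g : G, ∃ w ∈ W, ∃ u ∈ (P : Subgroup G), g = w * u := by
    intro g
    obtain ⟨⟨⟨w, hw⟩, ⟨u, hu⟩⟩, hwu⟩ := hcompl.2 g
    exact ⟨w, hw, u, hu, hwu.symm⟩
  have hPn : (P : Subgroup G).Normal := by
    constructor
    intro y hy g
    obtain ⟨w, hw, u, hu, rfl⟩ := hdec g
    have hwc := Subgroup.mem_center_iff.mp (hWcent w hw)
    have e : w * u * y * (w * u)⁻¹ = (w * (u * y * u⁻¹)) * w⁻¹ := by group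
    rw [e, ← hwc (u * y * u⁻¹), mul_inv_cancel_right]
    exact (P : Subgroup G).mul_mem ((P : Subgroup G).mul_mem hu hy) ((P : Subgroup G).inv_mem hu)
  refine ⟨hPn, ⟨W, hWn, hcompl, ⟨⟨fun a b => Subtype.ext ?_⟩⟩, ?_⟩, ?_⟩
  · exact Subgroup.mem_center_iff.mp (hWcent b b.2) a
  · intro x hx y hy
    exact (Subgroup.mem_center_iff.mp (hWcent x hx) y).symm
  · have hPp : IsPGroup p (P : Subgroup G) := P.2
    have hmin : ∀ y y' : (P : Subgroup G), y ∉ Subgroup.center (P : Subgroup G) →
        y' ∉ Subgroup.center (P : Subgroup G) →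
        Subgroup.centralizer ({y} : Set (P : Subgroup G)) ≤
          Subgroup.centralizer ({y'} : Set (P : Subgroup G)) →
        Subgroup.centralizer ({y} : Set (P : Subgroup G)) =
          Subgroup.centralizer ({y'} : Set (P : Subgroup G)) := by
      intro y y' hy hy' hle
      have hnc : ∀ z : (P : Subgroup G), z ∉ Subgroup.center (P : Subgroup G) →
          (z : G) ∉ Subgroup.center G := by
        intro z hz hc
        apply hz
        rw [Subgroup.mem_center_iff]
        intro g
        apply Subtype.ext
        exact Subgroup.mem_center_iff.mp hc (g : G)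
      have hyG := hnc y hy
      have hy'G := hnc y' hy'
      have hleG : Subgroup.centralizer ({(y : G)} : Set G) ≤
          Subgroup.centralizer ({(y' : G)} : Set G) := by
        intro g hg
        obtain ⟨w, hw, u, hu, rfl⟩ := hdec g
        rw [Subgroup.mem_centralizer_singleton_iff] at hg ⊢
        have hwc := Subgroup.mem_center_iff.mp (hWcent w hw)
        have hu1 : u * (y : G) = (y : G) * u := by
          have h1 : w * (u * (y : G)) = w * ((y : G) * u) := by
            calc w * (u * (y : G)) = w * u * (y : G) := (mul_assoc _ _ _).symm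
              _ = (y : G) * (w * u) := hg
              _ = (y : G) * w * u := (mul_assoc _ _ _).symm
              _ = w * (y : G) * u := by rw [hwc (y : G)]
              _ = w * ((y : G) * u) := mul_assoc _ _ _
          exact mul_left_cancel h1
        have hu2 : (⟨u, hu⟩ : (P : Subgroup G)) ∈
            Subgroup.centralizer ({y} : Set (P : Subgroup G)) := by
          rw [Subgroup.mem_centralizer_singleton_iff]; exact Subtype.ext hu1
        have hu3 := hle hu2
        rw [Subgroup.mem_centralizer_singleton_iff] at hu3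
        have hu4 : u * (y' : G) = (y' : G) * u := congrArg Subtype.val hu3
        calc w * u * (y' : G) = w * (u * (y' : G)) := mul_assoc _ _ _
          _ = w * ((y' : G) * u) := by rw [hu4]
          _ = w * (y' : G) * u := (mul_assoc _ _ _).symm
          _ = (y' : G) * w * u := by rw [hwc (y' : G)]
          _ = (y' : G) * (w * u) := mul_assoc _ _ _
      have heqG := Cfsg.Agent.Helper4.tc_cent_eq_of_le h hyG hy'G hleG
      apply le_antisymm hle
      intro c hc
      rw [Subgroup.mem_centralizer_singleton_iff] at hc ⊢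
      have hc' : (c : G) ∈ Subgroup.centralizer ({(y' : G)} : Set G) := by
        rw [Subgroup.mem_centralizer_singleton_iff]; exact congrArg Subtype.val hc
      rw [← heqG, Subgroup.mem_centralizer_singleton_iff] at hc'
      exact Subtype.ext hc'
    exact Cfsg.Agent.Helper4.two_class_pgroup hPp hmin

end Cfsg.Agent.S4134
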