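import Cfsg.Statements.S4143
import Mathlib
import Cfsg.Agent.S0112

set_option autoImplicit false
open Cfsg

namespace Cfsg.Agent.S4143

open Subgroup

/-- Let X be a finite p-group of order p^n containing a non-abelian subgroup B of order p³ with C_X(B) ≤ B. Then X has nilpotency class n − 1 (maximal class). -/
theorem result {X : Type*} [Group X] [Finite X] {p : ℕ} [Fact p.Prime] (n : ℕ) (hX : Nat.card X = p ^ n)
    (B : Subgroup X) (hB : Nat.card B = p ^ 3) (hBna : ¬ IsMulCommutative B) (hC : Subgroup.centralizer (B : Set X) ≤ B) :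
    Group.nilpotencyClass X = n - 1 := by
  classical
  have hpp : p.Prime := Fact.out
  have hXp : IsPGroup p X := IsPGroup.of_card hX
  haveI hnil : Group.IsNilpotent X := hXp.isNilpotent
  have hn3 : 3 ≤ n := by
    have h1 := Subgroup.card_le_card_group B
    rw [hB, hX] at h1
    exact (Nat.pow_le_pow_iff_right hpp.one_lt).mp h1
  haveI hnt : Nontrivial X := by
    apply Finite.one_lt_card_iff_nontrivial.mp
    rw [hX]; exact Nat.one_lt_pow (by omega) hpp.one_lt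
  obtain ⟨ZB, hZB⟩ : ∃ ZB : Subgroup X, ZB = Subgroup.centralizer (B : Set X) := ⟨_, rfl⟩
  have hZBB : ZB ≤ B := by rw [hZB]; exact hC
  have hZBmem : ∀ x : X, x ∈ ZB ↔ ∀ b ∈ B, b * x = x * b := by
    intro x; rw [hZB]; exact Subgroup.mem_centralizer_iff
  have hZle : Subgroup.center X ≤ ZB := by
    intro z hz
    rw [Subgroup.mem_center_iff] at hz
    rw [hZBmem]
    intro b _
    exact hz b
  have hZne : Subgroup.center X ≠ ⊥ := by
    intro h0
    have h1 := hXp.center_nontrivial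
    exact (Subgroup.nontrivial_iff_ne_bot _).mp h1 h0
  have hBnc : ¬ ∀ a ∈ B, ∀ b ∈ B, a * b = b * a := by
    intro h0
    exact hBna ⟨⟨fun a b => Subtype.ext (h0 a a.2 b b.2)⟩⟩
  have hBp : ∀ T : Subgroup X, ∃ t, Nat.card T = p ^ t :=
    fun T => (hXp.to_subgroup T).exists_card_eq
  -- Fact F
  have hF : ∀ b ∈ B, b ∉ ZB → Subgroup.zpowers b ⊔ ZB ≠ B := by
    intro b hb hbZ hT
    apply hbZ
    rw [hZBmem]
    intro c hc
    have hTc : Subgroup.zpowers b ⊔ ZB ≤ Subgroup.centralizer ({b} : Set X) := by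
      refine sup_le ?_ ?_
      · rw [Subgroup.zpowers_le, Subgroup.mem_centralizer_iff]
        intro h hh
        rw [Set.mem_singleton_iff] at hh
        rw [hh]
      · intro z hz
        rw [Subgroup.mem_centralizer_iff]
        intro h hh
        rw [Set.mem_singleton_iff] at hh
        rw [hh]
        exact (hZBmem z).mp hz b hb
    have hc' : c ∈ Subgroup.zpowers b ⊔ ZB := by rw [hT]; exact hc
    exact (Subgroup.mem_centralizer_iff.mp (hTc hc') b (Set.mem_singleton b)).symm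
  obtain ⟨b₁, hb₁, hb₁Z⟩ : ∃ b₁ ∈ B, b₁ ∉ ZB := by
    by_contra hno
    push_neg at hno
    apply hBnc
    intro a ha b hb
    exact ((hZBmem a).mp (hno a ha) b hb).symm
  obtain ⟨T₁, hT₁⟩ : ∃ T₁ : Subgroup X, T₁ = Subgroup.zpowers b₁ ⊔ ZB := ⟨_, rfl⟩
  have hT₁B : T₁ ≤ B := by
    rw [hT₁]; exact sup_le (by rw [Subgroup.zpowers_le]; exact hb₁) hZBB
  have hZT₁ : ZB ≤ T₁ := by rw [hT₁]; exact le_sup_right
  have hb₁T₁ : b₁ ∈ T₁ := by
    rw [hT₁]; exact (le_sup_left : Subgroup.zpowers b₁ ≤ _) (Subgroup.mem_zpowers b₁)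
  have hT₁ne : T₁ ≠ B := by rw [hT₁]; exact hF b₁ hb₁ hb₁Z
  obtain ⟨j, hj⟩ := hBp ZB
  obtain ⟨t₁, ht₁⟩ := hBp T₁
  have hj0 : j ≠ 0 := by
    rintro rfl
    rw [pow_zero] at hj
    have h1 := Subgroup.eq_bot_of_card_eq _ hj
    rw [h1] at hZle
    exact hZne (le_bot_iff.mp hZle)
  have hjt : j < t₁ := by
    have h5 : p ^ j ≤ p ^ t₁ := by rw [← ht₁, ← hj]; exact Subgroup.card_le_of_le hZT₁
    have h6 : j ≤ t₁ := (Nat.pow_le_pow_iff_right hpp.one_lt).mp h5
    have h7 : t₁ ≠ j := by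
      rintro rfl
      have h8 := Subgroup.eq_of_le_of_card_ge hZT₁ (by rw [ht₁, hj])
      exact hb₁Z (by rw [h8]; exact hb₁T₁)
    omega
  have ht3 : t₁ < 3 := by
    have h3 : p ^ t₁ ≤ p ^ 3 := by rw [← ht₁, ← hB]; exact Subgroup.card_le_of_le hT₁B
    have h4 : t₁ ≤ 3 := (Nat.pow_le_pow_iff_right hpp.one_lt).mp h3
    have h5 : t₁ ≠ 3 := by
      rintro rfl
      exact hT₁ne (Subgroup.eq_of_le_of_card_ge hT₁B (by rw [ht₁, hB]))
    omega
  have hj1 : j = 1 := by omega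
  have ht₁2 : t₁ = 2 := by omega
  subst hj1
  subst ht₁2
  rw [pow_one] at hj
  have hZeq : Subgroup.center X = ZB := by
    obtain ⟨t, ht⟩ := hBp (Subgroup.center X)
    have ht0 : t ≠ 0 := by
      rintro rfl
      rw [pow_zero] at ht
      exact hZne (Subgroup.eq_bot_of_card_eq _ ht)
    apply Subgroup.eq_of_le_of_card_ge hZle
    rw [hj, ht]
    calc p = p ^ 1 := (pow_one p).symm
      _ ≤ p ^ t := Nat.pow_le_pow_right hpp.pos (by omega)
  have hZcard : Nat.card (Subgroup.center X) = p := by rw [hZeq]; exact hj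
  have hZBcen : ∀ z ∈ ZB, ∀ g : X, g * z = z * g := by
    intro z hz
    rw [← hZeq] at hz
    exact Subgroup.mem_center_iff.mp hz
  obtain ⟨b₂, hb₂, hb₂T⟩ : ∃ b₂ ∈ B, b₂ ∉ T₁ := by
    by_contra hno
    push_neg at hno
    exact hT₁ne (le_antisymm hT₁B hno)
  have hgenB : ∀ x : X, b₁ * x = x * b₁ → b₂ * x = x * b₂ → x ∈ ZB := by
    intro x h1 h2
    obtain ⟨T₂, hT₂⟩ : ∃ T₂ : Subgroup X, T₂ = Subgroup.zpowers b₂ ⊔ T₁ := ⟨_, rfl⟩
    have hT₂B : T₂ ≤ B := by
      rw [hT₂]; exact sup_le (by rw [Subgroup.zpowers_le]; exact hb₂) hT₁B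
    have hT₁T₂ : T₁ ≤ T₂ := by rw [hT₂]; exact le_sup_right
    have hb₂T₂ : b₂ ∈ T₂ := by
      rw [hT₂]; exact (le_sup_left : Subgroup.zpowers b₂ ≤ _) (Subgroup.mem_zpowers b₂)
    obtain ⟨t₂, ht₂⟩ := hBp T₂
    have ht₂3 : t₂ = 3 := by
      have h3 : p ^ t₂ ≤ p ^ 3 := by rw [← ht₂, ← hB]; exact Subgroup.card_le_of_le hT₂B
      have h4 : t₂ ≤ 3 := (Nat.pow_le_pow_iff_right hpp.one_lt).mp h3
      have h5 : p ^ 2 ≤ p ^ t₂ := by rw [← ht₂, ← ht₁]; exact Subgroup.card_le_of_le hT₁T₂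
      have h6 : 2 ≤ t₂ := (Nat.pow_le_pow_iff_right hpp.one_lt).mp h5
      have h7 : t₂ ≠ 2 := by
        rintro rfl
        have h8 := Subgroup.eq_of_le_of_card_ge hT₁T₂ (by rw [ht₂, ht₁])
        exact hb₂T (by rw [h8]; exact hb₂T₂)
      omega
    have hT₂eq : T₂ = B := Subgroup.eq_of_le_of_card_ge hT₂B (by rw [ht₂, hB, ht₂3])
    have hT₂c : T₂ ≤ Subgroup.centralizer ({x} : Set X) := by
      rw [hT₂, hT₁]
      refine sup_le ?_ (sup_le ?_ ?_)
      · rw [Subgroup.zpowers_le, Subgroup.mem_centralizer_iff]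
        intro h hh
        rw [Set.mem_singleton_iff] at hh
        rw [hh]; exact h2.symm
      · rw [Subgroup.zpowers_le, Subgroup.mem_centralizer_iff]
        intro h hh
        rw [Set.mem_singleton_iff] at hh
        rw [hh]; exact h1.symm
      · intro z hz
        rw [Subgroup.mem_centralizer_iff]
        intro h hh
        rw [Set.mem_singleton_iff] at hh
        rw [hh]; exact hZBcen z hz x
    rw [hZBmem]
    intro b hb
    have hb' : b ∈ T₂ := by rw [hT₂eq]; exact hb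
    exact (Subgroup.mem_centralizer_iff.mp (hT₂c hb') x (Set.mem_singleton x)).symm
  -- quotient
  obtain ⟨π, hπ⟩ : ∃ π : X →* X ⧸ Subgroup.center X,
    π = QuotientGroup.mk' (Subgroup.center X) := ⟨_, rfl⟩
  have hπs : Function.Surjective π := by rw [hπ]; exact QuotientGroup.mk'_surjective _
  have hker : π.ker = Subgroup.center X := by rw [hπ]; exact QuotientGroup.ker_mk' _
  have hkermem : ∀ x : X, π x = 1 ↔ x ∈ ZB := by
    intro x
    rw [← MonoidHom.mem_ker, hker, hZeq]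
  have hXbar : Nat.card (X ⧸ Subgroup.center X) = p ^ (n - 1) := by
    have h1 := Subgroup.card_eq_card_quotient_mul_card_subgroup (Subgroup.center X)
    rw [hX, hZcard] at h1
    have h2 : p ^ n = p ^ (n - 1) * p := by
      rw [← pow_succ]; congr 1; omega
    exact Nat.eq_of_mul_eq_mul_right hpp.pos (h1.symm.trans h2)
  obtain ⟨Bb, hBb⟩ : ∃ Bb : Subgroup (X ⧸ Subgroup.center X), Bb = B.map π := ⟨_, rfl⟩
  have hcomap : Bb.comap π = B := by
    rw [hBb, Subgroup.comap_map_eq, hker, hZeq]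
    exact sup_eq_left.mpr hZBB
  have hBbcard : Nat.card Bb = p ^ 2 := by
    have h1 : Bb.index = B.index := by
      rw [← hcomap]; exact (Subgroup.index_comap_of_surjective Bb hπs).symm
    have h2 := Subgroup.card_mul_index Bb
    have h3 := Subgroup.card_mul_index B
    rw [h1, hXbar] at h2
    rw [hB, hX] at h3
    have hidx : 0 < B.index := Nat.pos_of_ne_zero Subgroup.index_ne_zero_of_finite
    have h4 : Nat.card Bb * p * B.index = p ^ 2 * p * B.index := by
      calc Nat.card Bb * p * B.index = (Nat.card Bb * B.index) * p := by ring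
        _ = p ^ (n - 1) * p := by rw [h2]
        _ = p ^ n := by rw [← pow_succ]; congr 1; omega
        _ = p ^ 3 * B.index := h3.symm
        _ = p ^ 2 * p * B.index := by ring
    have h5 := Nat.eq_of_mul_eq_mul_right hidx h4
    exact Nat.eq_of_mul_eq_mul_right hpp.pos h5
  have hBbcomm : ∀ a b : Bb, a * b = b * a := IsPGroup.commutative_of_card_eq_prime_sq hBbcard
  have hBcomm : ∀ b ∈ B, ∀ c ∈ B, b * c * b⁻¹ * c⁻¹ ∈ ZB := by
    intro b hb c hc
    rw [← hkermem]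
    have h1 := hBbcomm ⟨π b, by rw [hBb]; exact Subgroup.mem_map_of_mem π hb⟩
      ⟨π c, by rw [hBb]; exact Subgroup.mem_map_of_mem π hc⟩
    have h2 : π b * π c = π c * π b := congrArg Subtype.val h1
    rw [map_mul, map_mul, map_mul, map_inv, map_inv, h2]
    group
  obtain ⟨D, hD⟩ : ∃ D : Subgroup X,
    D = (Subgroup.centralizer (Bb : Set (X ⧸ Subgroup.center X))).comap π := ⟨_, rfl⟩
  have hDmem : ∀ x : X, x ∈ D ↔ ∀ b ∈ B, x * b * x⁻¹ * b⁻¹ ∈ ZB := by
    intro x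
    rw [hD, Subgroup.mem_comap, Subgroup.mem_centralizer_iff]
    constructor
    · intro h b hb
      have h1 := h (π b) (by rw [hBb]; exact Subgroup.mem_map_of_mem π hb)
      rw [← hkermem, map_mul, map_mul, map_mul, map_inv, map_inv, ← h1]
      group
    · intro h y hy
      rw [hBb] at hy
      obtain ⟨b, hb, rfl⟩ := hy
      have h1 := (hkermem _).mpr (h b hb)
      rw [map_mul, map_mul, map_mul, map_inv, map_inv] at h1
      have h2 : π x * π b = (π x * π b * (π x)⁻¹ * (π b)⁻¹) * π b * π x := by group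
      rw [h2, h1, one_mul]
  have hBD : B ≤ D := fun b hb => (hDmem b).mpr (fun c hc => hBcomm b hb c hc)
  have hθmul : ∀ x y b : X, y * b * y⁻¹ * b⁻¹ ∈ ZB →
      (x * y) * b * (x * y)⁻¹ * b⁻¹ = (x * b * x⁻¹ * b⁻¹) * (y * b * y⁻¹ * b⁻¹) := by
    intro x y b hy
    have hc := hZBcen _ hy
    calc (x * y) * b * (x * y)⁻¹ * b⁻¹
        = x * (y * b * y⁻¹ * b⁻¹) * (b * x⁻¹ * b⁻¹) := by group
      _ = (y * b * y⁻¹ * b⁻¹) * x * (b * x⁻¹ * b⁻¹) := by rw [hc x]
      _ = (y * b * y⁻¹ * b⁻¹) * (x * b * x⁻¹ * b⁻¹) := by group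
      _ = (x * b * x⁻¹ * b⁻¹) * (y * b * y⁻¹ * b⁻¹) := (hc _).symm
  let Θ : D →* (ZB × ZB) := MonoidHom.mk'
    (fun x => (⟨(x : X) * b₁ * (x : X)⁻¹ * b₁⁻¹, (hDmem x).mp x.2 b₁ hb₁⟩,
      ⟨(x : X) * b₂ * (x : X)⁻¹ * b₂⁻¹, (hDmem x).mp x.2 b₂ hb₂⟩)) (by
    intro x y
    refine Prod.ext (Subtype.ext ?_) (Subtype.ext ?_)
    · exact hθmul x y b₁ ((hDmem y).mp y.2 b₁ hb₁)
    · exact hθmul x y b₂ ((hDmem y).mp y.2 b₂ hb₂))
  have hkerZ : ∀ x : D, x ∈ Θ.ker → (x : X) ∈ ZB := by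
    intro x hx
    have h0 : Θ x = 1 := MonoidHom.mem_ker.mp hx
    have h1 : (x : X) * b₁ * (x : X)⁻¹ * b₁⁻¹ = 1 :=
      congrArg (fun q : ZB × ZB => (q.1 : X)) h0
    have h2 : (x : X) * b₂ * (x : X)⁻¹ * b₂⁻¹ = 1 :=
      congrArg (fun q : ZB × ZB => (q.2 : X)) h0
    apply hgenB
    · have e : b₁ * (x : X) = ((x : X) * b₁ * (x : X)⁻¹ * b₁⁻¹)⁻¹ * ((x : X) * b₁) := by group
      rw [e, h1, inv_one, one_mul]
    · have e : b₂ * (x : X) = ((x : X) * b₂ * (x : X)⁻¹ * b₂⁻¹)⁻¹ * ((x : X) * b₂) := by group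
      rw [e, h2, inv_one, one_mul]
  have hDcard : Nat.card D ≤ p ^ 3 := by
    have hc1 := Subgroup.card_mul_index Θ.ker
    have hc2 : Θ.ker.index ≤ p * p := by
      rw [Subgroup.index_ker]
      have h1 := Subgroup.card_le_card_group Θ.range
      rw [Nat.card_prod, hj] at h1
      exact h1
    have hc3 : Nat.card Θ.ker ≤ p := by
      have h1 : Nat.card (Θ.ker.map D.subtype) = Nat.card Θ.ker :=
        Subgroup.card_map_of_injective D.subtype_injective
      have h2 : Θ.ker.map D.subtype ≤ ZB := by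
        rintro _ ⟨x, hx, rfl⟩
        exact hkerZ x hx
      have h3 := Subgroup.card_le_of_le h2
      rw [h1, hj] at h3
      exact h3
    calc Nat.card D = Nat.card Θ.ker * Θ.ker.index := hc1.symm
      _ ≤ p * (p * p) := Nat.mul_le_mul hc3 hc2
      _ = p ^ 3 := by ring
  have hDB : D = B := (Subgroup.eq_of_le_of_card_ge hBD (by rw [hB]; exact hDcard)).symm
  have hcent : Subgroup.centralizer (Bb : Set (X ⧸ Subgroup.center X)) = Bb := by
    have h1 := Subgroup.map_comap_eq_self_of_surjective hπs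
      (Subgroup.centralizer (Bb : Set (X ⧸ Subgroup.center X)))
    rw [← hD, hDB, ← hBb] at h1
    exact h1.symm
  have hcl := Cfsg.Agent.S0112.result (n - 1) hXbar Bb hBbcard hcent
  rw [Group.nilpotencyClass_eq_quotient_center_plus_one, hcl]
  omega


end Cfsg.Agent.S4143
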