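import Cfsg.Statements.S4145
import Mathlib
import Cfsg.Agent.Helper6.Tate
import Cfsg.Agent.Helper6.CyclicSylow
-- import your own Cfsg.Agent.* helpers here

set_option autoImplicit false
open Cfsg

namespace Cfsg.Agent.S4145

/-- Let G be a finite group with a cyclic Sylow p-subgroup and H a normal subgroup such that p divides both the order of H and the index of H. Then H has a normal p-complement and G is p-solvable. -/
theorem result {G : Type*} [Group G] [Finite G] (p : ℕ) [Fact p.Prime]
    (P : Sylow p G) (hP : IsCyclic (P : Subgroup G)) (H : Subgroup G) [H.Normal] (h1 : p ∣ Nat.card H) (h2 : p ∣ H.index) :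
    Cfsg.HasNormalPComplement p H ∧ Cfsg.IsPSolvable p G := by
  have hc : IsCyclic (P : Subgroup G) := hP
  have hnpc : Cfsg.HasNormalPComplement p H := by
    apply Cfsg.Agent.Helper6.tate_theorem P H
    have hA : (H ⊓ (P : Subgroup G)).subgroupOf (P : Subgroup G) ≠ ⊤ := by
      intro h
      rw [Subgroup.subgroupOf_eq_top] at h
      have hPH : (P : Subgroup G) ≤ H := h.trans inf_le_left
      have h3 := Subgroup.index_dvd_of_le hPH
      exact P.not_dvd_index (h2.trans h3)
    have h4 := Cfsg.Agent.Helper6.le_frattini_of_isCyclic_of_ne_top P.isPGroup' _ hA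
    intro x hx
    exact ⟨⟨x, (Subgroup.mem_inf.mp hx).2⟩,
      h4 (by rw [Subgroup.mem_subgroupOf]; exact hx), rfl⟩
  exact ⟨hnpc, Cfsg.Agent.Helper6.isPSolvable_of_cyclic_sylow p P hP H h1 hnpc⟩

end Cfsg.Agent.S4145
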