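import Cfsg.Statements.S4200
import Mathlib
import Cfsg.Agent.Helper7.PElemCount2

set_option autoImplicit false
open Cfsg

namespace Cfsg.Agent.S4200

theorem dc_sum {α β : Type*} [Fintype α] [Fintype β] (R : α → β → Prop) :
    ∑ a, Nat.card {b // R a b} = ∑ b, Nat.card {a // R a b} := by
  classical
  have h1 : Nat.card {p : α × β // R p.1 p.2} = ∑ a, Nat.card {b // R a b} := by
    rw [Nat.card_congr (Equiv.subtypeProdEquivSigmaSubtype R), Nat.card_sigma]
  have h2 : Nat.card {p : α × β // R p.1 p.2} = ∑ b, Nat.card {a // R a b} := by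
    rw [← Nat.card_sigma]
    apply Nat.card_congr
    exact ((Equiv.prodComm α β).subtypeEquiv (fun p => Iff.rfl)).trans
      (Equiv.subtypeProdEquivSigmaSubtype (fun b a => R a b))
  rw [← h1, h2]

theorem pair_sum {α : Type*} [Fintype α] (R : α → α → Prop) :
    Nat.card {p : α × α // R p.1 p.2} = ∑ a, Nat.card {b // R a b} := by
  rw [Nat.card_congr (Equiv.subtypeProdEquivSigmaSubtype R), Nat.card_sigma]

/-- Orbit sizes: the `Y`-class of `g` is contained in the `X`-class. -/
theorem cent_le_aux {X : Type*} [Group X] [Finite X] (Y : Subgroup X) (g : X) :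
    Nat.card (Subgroup.centralizer {g} : Subgroup X) ≤
      Y.index * Nat.card (Y ⊓ Subgroup.centralizer {g} : Subgroup X) ∧
    (∀ x : X, g ∈ Y → x * g * x⁻¹ ∉ Y → Nat.card (Subgroup.centralizer {g} : Subgroup X) <
      Y.index * Nat.card (Y ⊓ Subgroup.centralizer {g} : Subgroup X)) := by
  have h1 := Cfsg.Agent.Helper7.card_conj_orbit Y g
  have h2 := Cfsg.Agent.Helper7.card_conj_orbit (⊤ : Subgroup X) g
  rw [top_inf_eq, Subgroup.card_top] at h2
  have d1 : Nat.card (Y ⊓ Subgroup.centralizer {g} : Subgroup X) ∣ Nat.card Y :=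
    Subgroup.card_dvd_of_le inf_le_left
  have d2 : Nat.card (Subgroup.centralizer {g} : Subgroup X) ∣ Nat.card X :=
    Subgroup.card_subgroup_dvd_card _
  have e1 : Nat.card Y = Nat.card {y : X // ∃ n ∈ Y, y = n * g * n⁻¹} *
      Nat.card (Y ⊓ Subgroup.centralizer {g} : Subgroup X) := by
    rw [h1, Nat.div_mul_cancel d1]
  have e2 : Nat.card X = Nat.card {y : X // ∃ n ∈ (⊤ : Subgroup X), y = n * g * n⁻¹} *
      Nat.card (Subgroup.centralizer {g} : Subgroup X) := by
    rw [h2, Nat.div_mul_cancel d2]
  have hXY : Nat.card X = Y.index * Nat.card Y := (Y.index_mul_card).symm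
  set a := Nat.card {y : X // ∃ n ∈ Y, y = n * g * n⁻¹} with ha
  set b := Nat.card {y : X // ∃ n ∈ (⊤ : Subgroup X), y = n * g * n⁻¹} with hb
  set c := Nat.card (Subgroup.centralizer {g} : Subgroup X) with hc
  set d := Nat.card (Y ⊓ Subgroup.centralizer {g} : Subgroup X) with hd
  have hsub : {y : X | ∃ n ∈ Y, y = n * g * n⁻¹} ⊆ {y : X | ∃ n ∈ (⊤ : Subgroup X), y = n * g * n⁻¹} := by
    rintro y ⟨n, -, rfl⟩
    exact ⟨n, Subgroup.mem_top n, rfl⟩
  have hab : a ≤ b := by
    have := Set.ncard_le_ncard hsub (Set.toFinite _)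
    rw [← Nat.card_coe_set_eq, ← Nat.card_coe_set_eq] at this
    exact this
  have hb0 : 0 < b := by
    rcases Nat.eq_zero_or_pos b with h | h
    · rw [h, zero_mul] at e2
      exact absurd e2 Nat.card_pos.ne'
    · exact h
  have hkey : b * c = Y.index * a * d := by
    rw [← e2, hXY, e1, mul_assoc]
  constructor
  · have h3 : b * c ≤ b * (Y.index * d) := by
      rw [hkey]
      calc Y.index * a * d = a * (Y.index * d) := by ring
        _ ≤ b * (Y.index * d) := Nat.mul_le_mul_right _ hab
    exact Nat.le_of_mul_le_mul_left h3 hb0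
  · intro x hg hx
    have hlt : a < b := by
      have hne : {y : X | ∃ n ∈ Y, y = n * g * n⁻¹} ⊂ {y : X | ∃ n ∈ (⊤ : Subgroup X), y = n * g * n⁻¹} := by
        refine ⟨hsub, ?_⟩
        intro hsup
        obtain ⟨n, hn, hn2⟩ := hsup ⟨x, Subgroup.mem_top x, rfl⟩
        apply hx
        rw [hn2]
        exact Y.mul_mem (Y.mul_mem hn hg) (Y.inv_mem hn)
      have := Set.ncard_lt_ncard hne (Set.toFinite _)
      rw [← Nat.card_coe_set_eq, ← Nat.card_coe_set_eq] at this
      exact this
    have hd0 : 0 < d := Nat.card_pos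
    have hi0 : 0 < Y.index := Nat.pos_of_ne_zero Subgroup.index_ne_zero_of_finite
    have h3 : b * c < b * (Y.index * d) := by
      rw [hkey]
      calc Y.index * a * d = a * (Y.index * d) := by ring
        _ < b * (Y.index * d) := Nat.mul_lt_mul_of_pos_right hlt (Nat.mul_pos hi0 hd0)
    exact Nat.lt_of_mul_lt_mul_left h3

/-- Let Y be a subgroup of the finite group X, of index m. Then the numbers of conjugacy classes satisfy k(Y) ≤ m·k(X) and k(X) ≤ m·k(Y), and the second inequality is strict unless Y is normal in X. -/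
theorem result {X : Type*} [Group X] [Finite X] (Y : Subgroup X) : Nat.card (ConjClasses Y) ≤ Y.index * Nat.card (ConjClasses X) ∧ Nat.card (ConjClasses X) ≤ Y.index * Nat.card (ConjClasses Y) ∧ (¬ Y.Normal → Nat.card (ConjClasses X) < Y.index * Nat.card (ConjClasses Y)) := by
  classical
  haveI : Fintype X := Fintype.ofFinite X
  haveI : Fintype Y := Fintype.ofFinite Y
  have hXY : Nat.card X = Y.index * Nat.card Y := (Y.index_mul_card).symm
  have hY0 : 0 < Nat.card Y := Nat.card_pos
  have hX0 : 0 < Nat.card X := Nat.card_pos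
  have hm0 : 0 < Y.index := Nat.pos_of_ne_zero Subgroup.index_ne_zero_of_finite
  have kX := card_comm_eq_card_conjClasses_mul_card X
  have kY := card_comm_eq_card_conjClasses_mul_card Y
  -- pointwise identifications
  have E1 : ∀ x : X, Nat.card {z : X // Commute x z} =
      Nat.card (Subgroup.centralizer {x} : Subgroup X) := by
    intro x
    apply Nat.card_congr
    apply Equiv.subtypeEquivRight
    intro z
    rw [Subgroup.mem_centralizer_singleton_iff]
    exact ⟨fun h => h.eq.symm, fun h => h.symm⟩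
  have E2 : ∀ x : X, Nat.card {y : Y // Commute x (y : X)} =
      Nat.card (Y ⊓ Subgroup.centralizer {x} : Subgroup X) := by
    intro x
    apply Nat.card_congr
    refine ⟨fun y => ⟨y.1.1, y.1.2, ?_⟩, fun c => ⟨⟨c.1, c.2.1⟩, ?_⟩, fun y => rfl, fun c => rfl⟩
    · show (y.1 : X) ∈ Subgroup.centralizer {x}
      rw [Subgroup.mem_centralizer_singleton_iff]
      exact y.2.eq.symm
    · have h : (c : X) ∈ Subgroup.centralizer {x} := c.2.2
      rw [Subgroup.mem_centralizer_singleton_iff] at h
      exact h.symm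
  have E3 : ∀ y : Y, Nat.card {x : X // Commute x (y : X)} =
      Nat.card (Subgroup.centralizer {(y : X)} : Subgroup X) := by
    intro y
    apply Nat.card_congr
    apply Equiv.subtypeEquivRight
    intro z
    rw [Subgroup.mem_centralizer_singleton_iff]
    exact ⟨fun h => h.eq, fun h => h⟩
  have E4 : ∀ y : Y, Nat.card {z : Y // Commute y z} =
      Nat.card (Y ⊓ Subgroup.centralizer {(y : X)} : Subgroup X) := by
    intro y
    apply Nat.card_congr
    refine ⟨fun z => ⟨z.1.1, z.1.2, ?_⟩, fun c => ⟨⟨c.1, c.2.1⟩, ?_⟩, fun y => rfl, fun c => rfl⟩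
    · show (z.1 : X) ∈ Subgroup.centralizer {(y : X)}
      rw [Subgroup.mem_centralizer_singleton_iff]
      have := z.2.eq
      exact (congrArg Subtype.val this).symm
    · have h : (c : X) ∈ Subgroup.centralizer {(y : X)} := c.2.2
      rw [Subgroup.mem_centralizer_singleton_iff] at h
      apply Subtype.ext
      exact h.symm
  have P1 : ∀ x : X, Nat.card {z : X // Commute x z} ≤
      Y.index * Nat.card {y : Y // Commute x (y : X)} := by
    intro x
    rw [E1, E2]
    exact (cent_le_aux Y x).1
  have P2 : ∀ y : Y, Nat.card {x : X // Commute x (y : X)} ≤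
      Y.index * Nat.card {z : Y // Commute y z} := by
    intro y
    rw [E3, E4]
    exact (cent_le_aux Y y).1
  have S1 : Nat.card (ConjClasses X) * Nat.card X = ∑ x : X, Nat.card {z : X // Commute x z} := by
    rw [← kX]
    exact pair_sum (fun a b : X => Commute a b)
  have S3 : Nat.card (ConjClasses Y) * Nat.card Y = ∑ y : Y, Nat.card {z : Y // Commute y z} := by
    rw [← kY]
    exact pair_sum (fun a b : Y => Commute a b)
  have S2 : ∑ x : X, Nat.card {y : Y // Commute x (y : X)} =
      ∑ y : Y, Nat.card {x : X // Commute x (y : X)} :=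
    dc_sum (fun (x : X) (y : Y) => Commute x (y : X))
  have step1 : Nat.card (ConjClasses X) * Nat.card X ≤
      Y.index * ∑ y : Y, Nat.card {x : X // Commute x (y : X)} := by
    rw [S1, ← S2, Finset.mul_sum]
    exact Finset.sum_le_sum (fun x _ => P1 x)
  have fin : ∀ K : ℕ, Nat.card (ConjClasses X) * Nat.card X ≤
      Y.index * (Y.index * (Nat.card (ConjClasses Y) * Nat.card Y)) →
      Nat.card (ConjClasses X) ≤ Y.index * Nat.card (ConjClasses Y) := by
    intro _ h
    have h2 : Nat.card (ConjClasses X) * Nat.card X ≤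
        (Y.index * Nat.card (ConjClasses Y)) * Nat.card X := by
      rw [hXY] at h ⊢
      calc Nat.card (ConjClasses X) * (Y.index * Nat.card Y)
          ≤ Y.index * (Y.index * (Nat.card (ConjClasses Y) * Nat.card Y)) := h
        _ = (Y.index * Nat.card (ConjClasses Y)) * (Y.index * Nat.card Y) := by ring
    exact Nat.le_of_mul_le_mul_right h2 hX0
  refine ⟨?_, ?_, ?_⟩
  · -- k(Y) ≤ m k(X)
    have h1 : Nat.card {p : Y × Y // Commute p.1 p.2} ≤ Nat.card {p : X × X // Commute p.1 p.2} := by
      apply Nat.card_le_card_of_injective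
        (fun p : {p : Y × Y // Commute p.1 p.2} =>
          (⟨((p.1.1 : X), (p.1.2 : X)), congrArg Subtype.val p.2.eq⟩ :
            {p : X × X // Commute p.1 p.2}))
      intro p q h
      simpa only [Subtype.ext_iff, Prod.ext_iff] using h
    rw [kX, kY, hXY] at h1
    have h2 : Nat.card (ConjClasses Y) * Nat.card Y ≤
        (Y.index * Nat.card (ConjClasses X)) * Nat.card Y := by
      calc Nat.card (ConjClasses Y) * Nat.card Y
          ≤ Nat.card (ConjClasses X) * (Y.index * Nat.card Y) := h1
        _ = (Y.index * Nat.card (ConjClasses X)) * Nat.card Y := by ring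
    exact Nat.le_of_mul_le_mul_right h2 hY0
  · apply fin 0
    refine step1.trans ?_
    apply Nat.mul_le_mul_left
    rw [S3, Finset.mul_sum]
    exact Finset.sum_le_sum (fun y _ => P2 y)
  · intro hn
    have hex : ∃ y : Y, ∃ x : X, x * (y : X) * x⁻¹ ∉ Y := by
      by_contra hcon
      push Not at hcon
      exact hn ⟨fun n hn g => hcon ⟨n, hn⟩ g⟩
    obtain ⟨y0, x0, hx0⟩ := hex
    have hlt : ∑ y : Y, Nat.card {x : X // Commute x (y : X)} <
        Y.index * (Nat.card (ConjClasses Y) * Nat.card Y) := by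
      rw [S3, Finset.mul_sum]
      apply Finset.sum_lt_sum (fun y _ => P2 y)
      refine ⟨y0, Finset.mem_univ _, ?_⟩
      rw [E3, E4]
      exact (cent_le_aux Y y0).2 x0 y0.2 hx0
    have h1 : Nat.card (ConjClasses X) * Nat.card X <
        Y.index * (Y.index * (Nat.card (ConjClasses Y) * Nat.card Y)) :=
      lt_of_le_of_lt step1 (Nat.mul_lt_mul_of_pos_left hlt hm0)
    have h2 : Nat.card (ConjClasses X) * Nat.card X <
        (Y.index * Nat.card (ConjClasses Y)) * Nat.card X := by
      rw [hXY] at h1 ⊢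
      calc Nat.card (ConjClasses X) * (Y.index * Nat.card Y)
          < Y.index * (Y.index * (Nat.card (ConjClasses Y) * Nat.card Y)) := h1
        _ = (Y.index * Nat.card (ConjClasses Y)) * (Y.index * Nat.card Y) := by ring
    exact Nat.lt_of_mul_lt_mul_right h2

end Cfsg.Agent.S4200
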