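import Cfsg.Statements.S4201
import Mathlib
import Cfsg.Agent.S4200

set_option autoImplicit false
open Cfsg

namespace Cfsg.Agent.S4201

theorem card_cent_le {X : Type*} [Group X] [Finite X] (N : Subgroup X) [N.Normal] (g : X) :
    Nat.card (Subgroup.centralizer {g} : Subgroup X) ≤
      Nat.card (Subgroup.centralizer {(QuotientGroup.mk g : X ⧸ N)} : Subgroup (X ⧸ N)) *
      Nat.card (N ⊓ Subgroup.centralizer {g} : Subgroup X) := by
  set C := Subgroup.centralizer {g} with hC
  have h1 : N.relIndex C = Nat.card (C.map (QuotientGroup.mk' N)) := by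
    have := Subgroup.relIndex_ker (QuotientGroup.mk' N) (K := C)
    rw [QuotientGroup.ker_mk'] at this
    exact this
  have h2 : Nat.card ((N ⊓ C).subgroupOf C) * ((N ⊓ C).subgroupOf C).index = Nat.card C :=
    Subgroup.card_mul_index _
  have h3 : Nat.card ((N ⊓ C).subgroupOf C) = Nat.card (N ⊓ C : Subgroup X) :=
    Nat.card_congr (Subgroup.subgroupOfEquivOfLe inf_le_right).toEquiv
  have h4 : ((N ⊓ C).subgroupOf C).index = N.relIndex C := by
    rw [Subgroup.inf_subgroupOf_right]
    rfl
  have h5 : C.map (QuotientGroup.mk' N) ≤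
      Subgroup.centralizer {(QuotientGroup.mk g : X ⧸ N)} := by
    rintro _ ⟨c, hc, rfl⟩
    have hc' : c ∈ Subgroup.centralizer {g} := hc
    rw [Subgroup.mem_centralizer_singleton_iff] at hc'
    rw [Subgroup.mem_centralizer_singleton_iff]
    show (QuotientGroup.mk c : X ⧸ N) * QuotientGroup.mk g = QuotientGroup.mk g * QuotientGroup.mk c
    rw [← QuotientGroup.mk_mul, ← QuotientGroup.mk_mul, hc']
  have h6 := Subgroup.card_le_of_le h5
  rw [← h2, h3, h4, h1, mul_comm]
  exact Nat.mul_le_mul_right _ h6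

/-- If N is a normal subgroup of the finite group X then k(X) ≤ k(N)·k(X ⧸ N), where k denotes the number of conjugacy classes. -/
theorem result {X : Type*} [Group X] [Finite X] (N : Subgroup X) [N.Normal] : Nat.card (ConjClasses X) ≤ Nat.card (ConjClasses N) * Nat.card (ConjClasses (X ⧸ N)) := by
  classical
  haveI : Fintype X := Fintype.ofFinite X
  haveI : Fintype N := Fintype.ofFinite N
  haveI : Fintype (X ⧸ N) := Fintype.ofFinite _
  have kX := card_comm_eq_card_conjClasses_mul_card X
  have kN := card_comm_eq_card_conjClasses_mul_card N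
  have kQ := card_comm_eq_card_conjClasses_mul_card (X ⧸ N)
  have hcard : Nat.card X = Nat.card (X ⧸ N) * Nat.card N := by
    rw [← Subgroup.index_eq_card, Subgroup.index_mul_card]
  have hX0 : 0 < Nat.card X := Nat.card_pos
  have S1 : Nat.card (ConjClasses X) * Nat.card X = ∑ x : X, Nat.card {z : X // Commute x z} := by
    rw [← kX]
    exact Cfsg.Agent.S4200.pair_sum (fun a b : X => Commute a b)
  have SQ : Nat.card (ConjClasses (X ⧸ N)) * Nat.card (X ⧸ N) =
      ∑ q : X ⧸ N, Nat.card {r : X ⧸ N // Commute q r} := by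
    rw [← kQ]
    exact Cfsg.Agent.S4200.pair_sum (fun a b : X ⧸ N => Commute a b)
  have SN : Nat.card (ConjClasses N) * Nat.card N = ∑ n : N, Nat.card {n' : N // Commute n n'} := by
    rw [← kN]
    exact Cfsg.Agent.S4200.pair_sum (fun a b : N => Commute a b)
  have P1 : ∀ g : X, Nat.card {z : X // Commute g z} ≤
      Nat.card {r : X ⧸ N // Commute (QuotientGroup.mk g : X ⧸ N) r} *
        Nat.card {n : N // Commute g (n : X)} := by
    intro g
    have E1 : Nat.card {z : X // Commute g z} =
        Nat.card (Subgroup.centralizer {g} : Subgroup X) := by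
      apply Nat.card_congr
      apply Equiv.subtypeEquivRight
      intro z
      rw [Subgroup.mem_centralizer_singleton_iff]
      exact ⟨fun h => h.eq.symm, fun h => h.symm⟩
    have E2 : Nat.card {n : N // Commute g (n : X)} =
        Nat.card (N ⊓ Subgroup.centralizer {g} : Subgroup X) := by
      apply Nat.card_congr
      refine ⟨fun y => ⟨y.1.1, y.1.2, ?_⟩, fun c => ⟨⟨c.1, c.2.1⟩, ?_⟩, fun y => rfl, fun c => rfl⟩
      · show (y.1 : X) ∈ Subgroup.centralizer {g}
        rw [Subgroup.mem_centralizer_singleton_iff]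
        exact y.2.eq.symm
      · have h : (c : X) ∈ Subgroup.centralizer {g} := c.2.2
        rw [Subgroup.mem_centralizer_singleton_iff] at h
        exact h.symm
    have E3 : Nat.card {r : X ⧸ N // Commute (QuotientGroup.mk g : X ⧸ N) r} =
        Nat.card (Subgroup.centralizer {(QuotientGroup.mk g : X ⧸ N)} : Subgroup (X ⧸ N)) := by
      apply Nat.card_congr
      apply Equiv.subtypeEquivRight
      intro z
      rw [Subgroup.mem_centralizer_singleton_iff]
      exact ⟨fun h => h.eq.symm, fun h => h.symm⟩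
    rw [E1, E2, E3]
    exact card_cent_le N g
  have P2 : ∀ q : X ⧸ N,
      ∑ g ∈ Finset.univ.filter (fun g : X => (QuotientGroup.mk g : X ⧸ N) = q),
        Nat.card {n : N // Commute g (n : X)} ≤ Nat.card (ConjClasses N) * Nat.card N := by
    intro q
    have hsub := Finset.sum_subtype (Finset.univ.filter (fun g : X => (QuotientGroup.mk g : X ⧸ N) = q))
      (p := fun g : X => (QuotientGroup.mk g : X ⧸ N) = q) (F := inferInstance) (by intro x; simp)
      (fun g => Nat.card {n : N // Commute g (n : X)})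
    rw [hsub]
    rw [Cfsg.Agent.S4200.dc_sum (fun (g : {g : X // (QuotientGroup.mk g : X ⧸ N) = q}) (n : N) =>
      Commute (g : X) (n : X)), SN]
    apply Finset.sum_le_sum
    intro n _
    by_cases hne : Nonempty {g : {g : X // (QuotientGroup.mk g : X ⧸ N) = q} //
        Commute (g : X) (n : X)}
    · obtain ⟨g₀⟩ := hne
      have hmem : ∀ g : {g : {g : X // (QuotientGroup.mk g : X ⧸ N) = q} //
          Commute (g : X) (n : X)}, (g₀.1.1)⁻¹ * g.1.1 ∈ N := by
        intro g
        rw [← QuotientGroup.eq, g₀.1.2, g.1.2]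
      have hcomm : ∀ g : {g : {g : X // (QuotientGroup.mk g : X ⧸ N) = q} //
          Commute (g : X) (n : X)}, Commute n (⟨(g₀.1.1)⁻¹ * g.1.1, hmem g⟩ : N) := by
        intro g
        have h1 : g₀.1.1 * (n : X) = n * g₀.1.1 := g₀.2.eq
        have h2 : g.1.1 * (n : X) = n * g.1.1 := g.2.eq
        apply Subtype.ext
        show (n : X) * ((g₀.1.1)⁻¹ * g.1.1) = (g₀.1.1)⁻¹ * g.1.1 * n
        have h3 : (n : X) * (g₀.1.1)⁻¹ = (g₀.1.1)⁻¹ * n := by
          calc (n : X) * (g₀.1.1)⁻¹ = (g₀.1.1)⁻¹ * (g₀.1.1 * n) * (g₀.1.1)⁻¹ := by group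
            _ = (g₀.1.1)⁻¹ * (n * g₀.1.1) * (g₀.1.1)⁻¹ := by rw [h1]
            _ = (g₀.1.1)⁻¹ * n := by group
        calc (n : X) * ((g₀.1.1)⁻¹ * g.1.1) = ((n : X) * (g₀.1.1)⁻¹) * g.1.1 := by group
          _ = (g₀.1.1)⁻¹ * (n * g.1.1) := by rw [h3]; group
          _ = (g₀.1.1)⁻¹ * (g.1.1 * n) := by rw [h2]
          _ = (g₀.1.1)⁻¹ * g.1.1 * n := by group
      apply Nat.card_le_card_of_injective
        (fun g => (⟨⟨(g₀.1.1)⁻¹ * g.1.1, hmem g⟩, hcomm g⟩ : {n' : N // Commute n n'}))
      intro g g' h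
      have h1 : (g₀.1.1)⁻¹ * g.1.1 = (g₀.1.1)⁻¹ * g'.1.1 := congrArg (fun z => (z.1 : X)) h
      exact Subtype.ext (Subtype.ext (mul_left_cancel h1))
    · rw [not_nonempty_iff] at hne
      rw [Nat.card_of_isEmpty]
      exact Nat.zero_le _
  have step : Nat.card (ConjClasses X) * Nat.card X ≤
      (Nat.card (ConjClasses (X ⧸ N)) * Nat.card (X ⧸ N)) *
        (Nat.card (ConjClasses N) * Nat.card N) := by
    rw [S1]
    calc ∑ x : X, Nat.card {z : X // Commute x z}
        ≤ ∑ g : X, Nat.card {r : X ⧸ N // Commute (QuotientGroup.mk g : X ⧸ N) r} *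
            Nat.card {n : N // Commute g (n : X)} := Finset.sum_le_sum (fun g _ => P1 g)
      _ = ∑ q : X ⧸ N, ∑ g ∈ Finset.univ.filter (fun g : X => (QuotientGroup.mk g : X ⧸ N) = q),
            Nat.card {r : X ⧸ N // Commute (QuotientGroup.mk g : X ⧸ N) r} *
            Nat.card {n : N // Commute g (n : X)} :=
          (Finset.sum_fiberwise Finset.univ (fun g : X => (QuotientGroup.mk g : X ⧸ N)) _).symm
      _ = ∑ q : X ⧸ N, Nat.card {r : X ⧸ N // Commute q r} *
            ∑ g ∈ Finset.univ.filter (fun g : X => (QuotientGroup.mk g : X ⧸ N) = q),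
              Nat.card {n : N // Commute g (n : X)} := by
          apply Finset.sum_congr rfl
          intro q _
          rw [Finset.mul_sum]
          apply Finset.sum_congr rfl
          intro g hg
          rw [(Finset.mem_filter.1 hg).2]
      _ ≤ ∑ q : X ⧸ N, Nat.card {r : X ⧸ N // Commute q r} *
            (Nat.card (ConjClasses N) * Nat.card N) :=
          Finset.sum_le_sum (fun q _ => Nat.mul_le_mul_left _ (P2 q))
      _ = (Nat.card (ConjClasses (X ⧸ N)) * Nat.card (X ⧸ N)) *
            (Nat.card (ConjClasses N) * Nat.card N) := by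
          rw [← Finset.sum_mul, ← SQ]
  have h2 : Nat.card (ConjClasses X) * Nat.card X ≤
      (Nat.card (ConjClasses N) * Nat.card (ConjClasses (X ⧸ N))) * Nat.card X := by
    calc Nat.card (ConjClasses X) * Nat.card X
        ≤ (Nat.card (ConjClasses (X ⧸ N)) * Nat.card (X ⧸ N)) *
          (Nat.card (ConjClasses N) * Nat.card N) := step
      _ = (Nat.card (ConjClasses N) * Nat.card (ConjClasses (X ⧸ N))) * Nat.card X := by
          rw [hcard]
          ring
  exact Nat.le_of_mul_le_mul_right h2 hX0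

end Cfsg.Agent.S4201
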