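import Cfsg.Statements.S4152
import Mathlib
import Cfsg.Agent.Helper7.PiDecomp
import Cfsg.Agent.S4201

set_option autoImplicit false
open Cfsg

namespace Cfsg.Agent.S4152

open Cfsg.Agent.Helper7

theorem commute_of_mem_zpowers {G : Type*} [Group G] {x n z : G} (h : Commute x n)
    (hz : z ∈ Subgroup.zpowers n) : Commute x z := by
  obtain ⟨k, rfl⟩ := Subgroup.mem_zpowers_iff.1 hz
  exact h.zpow_right k

/-- The number of commuting pairs (π-element of a coset, element of `N`) is at most
`k_π(N) |N|`. -/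
theorem coset_bound {G : Type*} [Group G] [Finite G] (N : Subgroup G) [N.Normal] (π : Set ℕ)
    (q : G ⧸ N) :
    Nat.card {p : G × N // (QuotientGroup.mk p.1 : G ⧸ N) = q ∧ IsPiEl π p.1 ∧
        Commute p.1 (p.2 : G)} ≤
    Nat.card {C : ConjClasses N // ∀ q : ℕ, q.Prime →
        (∃ g : N, ConjClasses.mk g = C ∧ q ∣ orderOf g) → q ∈ π} * Nat.card N := by
  classical
  haveI : Fintype N := Fintype.ofFinite N
  have hdec := fun y : G => exists_piPart_mul π y
  choose u v huv hu hv hPu hPv using hdec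
  have hzN : ∀ n : N, Subgroup.zpowers (n : G) ≤ N := fun n => by
    rw [Subgroup.zpowers_le]
    exact n.2
  have hcuv : ∀ n : G, Commute (v n) (u n) := by
    intro n
    have h1 : Commute n (v n) := commute_of_mem_zpowers (Commute.refl n) (hv n)
    exact commute_of_mem_zpowers h1.symm (hu n)
  -- A ↪ B
  have hAB : Nat.card {p : G × N // (QuotientGroup.mk p.1 : G ⧸ N) = q ∧ IsPiEl π p.1 ∧
        Commute p.1 (p.2 : G)} ≤
      Nat.card {p : G × N // (QuotientGroup.mk p.1 : G ⧸ N) = q ∧ IsPiEl π (p.2 : G) ∧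
        Commute p.1 (p.2 : G)} := by
    have hmap : ∀ p : {p : G × N // (QuotientGroup.mk p.1 : G ⧸ N) = q ∧ IsPiEl π p.1 ∧
        Commute p.1 (p.2 : G)},
        (QuotientGroup.mk (p.1.1 * v (p.1.2 : G)) : G ⧸ N) = q ∧ IsPiEl π (u (p.1.2 : G)) ∧
          Commute (p.1.1 * v (p.1.2 : G)) (u (p.1.2 : G)) := by
      rintro ⟨⟨x, n⟩, h1, h2, h3⟩
      refine ⟨?_, hPu _, ?_⟩
      · show (QuotientGroup.mk (x * v (n : G)) : G ⧸ N) = q
        rw [QuotientGroup.mk_mul, (QuotientGroup.eq_one_iff _).2 (hzN n (hv _)), mul_one]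
        exact h1
      · show Commute (x * v (n : G)) (u (n : G))
        have h4 : Commute x (u (n : G)) := commute_of_mem_zpowers h3 (hu _)
        exact h4.mul_left (hcuv _)
    apply Nat.card_le_card_of_injective
      (fun p => (⟨(p.1.1 * v (p.1.2 : G), ⟨u (p.1.2 : G), hzN _ (hu _)⟩), hmap p⟩ :
        {p : G × N // (QuotientGroup.mk p.1 : G ⧸ N) = q ∧ IsPiEl π (p.2 : G) ∧
          Commute p.1 (p.2 : G)}))
    rintro ⟨⟨x, n⟩, h1, h2, h3⟩ ⟨⟨x', n'⟩, h1', h2', h3'⟩ h
    have e1 : x * v (n : G) = x' * v (n' : G) := congrArg (fun z => z.1.1) h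
    have e2 : u (n : G) = u (n' : G) := congrArg (fun z => (z.1.2 : G)) h
    have h4 : Commute x (v (n : G)) := commute_of_mem_zpowers h3 (hv _)
    have h4' : Commute x' (v (n' : G)) := commute_of_mem_zpowers h3' (hv _)
    obtain ⟨hxx, hvv⟩ := piPart_unique π x (v n) x' (v n') h2 (hPv _) h2' (hPv _) h4 h4' e1
    have hnn : (n : G) = (n' : G) := by
      rw [huv (n : G), huv (n' : G), e2, hvv]
    apply Subtype.ext
    exact Prod.ext hxx (Subtype.ext hnn)
  refine hAB.trans ?_
  rw [pair_sum_right (fun (x : G) (n : N) => (QuotientGroup.mk x : G ⧸ N) = q ∧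
    IsPiEl π (n : G) ∧ Commute x (n : G)), ← sum_card_centralizer_pi]
  apply Finset.sum_le_sum
  intro n _
  have hiff : IsPiEl π (n : G) ↔ IsPiEl π n := by
    unfold IsPiEl
    rw [Subgroup.orderOf_coe]
  by_cases hn : IsPiEl π n
  · rw [if_pos hn]
    by_cases hne : Nonempty {x : G // (QuotientGroup.mk x : G ⧸ N) = q ∧
        IsPiEl π (n : G) ∧ Commute x (n : G)}
    · obtain ⟨g₀⟩ := hne
      have hmem : ∀ g : {x : G // (QuotientGroup.mk x : G ⧸ N) = q ∧
          IsPiEl π (n : G) ∧ Commute x (n : G)}, (g₀.1)⁻¹ * g.1 ∈ N := by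
        intro g
        rw [← QuotientGroup.eq, g₀.2.1, g.2.1]
      have hcomm : ∀ g : {x : G // (QuotientGroup.mk x : G ⧸ N) = q ∧
          IsPiEl π (n : G) ∧ Commute x (n : G)},
          (⟨(g₀.1)⁻¹ * g.1, hmem g⟩ : N) ∈ Subgroup.centralizer {n} := by
        intro g
        rw [Subgroup.mem_centralizer_singleton_iff]
        have h1 : g₀.1 * (n : G) = n * g₀.1 := g₀.2.2.2.eq
        have h2 : g.1 * (n : G) = n * g.1 := g.2.2.2.eq
        apply Subtype.ext
        show (g₀.1)⁻¹ * g.1 * (n : G) = n * ((g₀.1)⁻¹ * g.1)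
        have h3 : (n : G) * (g₀.1)⁻¹ = (g₀.1)⁻¹ * n := by
          calc (n : G) * (g₀.1)⁻¹ = (g₀.1)⁻¹ * (g₀.1 * n) * (g₀.1)⁻¹ := by group
            _ = (g₀.1)⁻¹ * (n * g₀.1) * (g₀.1)⁻¹ := by rw [h1]
            _ = (g₀.1)⁻¹ * n := by group
        calc (g₀.1)⁻¹ * g.1 * (n : G) = (g₀.1)⁻¹ * (g.1 * n) := by group
          _ = (g₀.1)⁻¹ * (n * g.1) := by rw [h2]
          _ = ((g₀.1)⁻¹ * n) * g.1 := by group
          _ = ((n : G) * (g₀.1)⁻¹) * g.1 := by rw [h3]
          _ = n * ((g₀.1)⁻¹ * g.1) := by group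
      apply Nat.card_le_card_of_injective
        (fun g => (⟨⟨(g₀.1)⁻¹ * g.1, hmem g⟩, hcomm g⟩ :
          (Subgroup.centralizer {n} : Subgroup N)))
      intro g g' h
      have h1 : (g₀.1)⁻¹ * g.1 = (g₀.1)⁻¹ * g'.1 := congrArg (fun z => ((z.1 : N) : G)) h
      exact Subtype.ext (mul_left_cancel h1)
    · rw [not_nonempty_iff] at hne
      rw [Nat.card_of_isEmpty]
      exact Nat.zero_le _
  · rw [if_neg hn]
    haveI : IsEmpty {x : G // (QuotientGroup.mk x : G ⧸ N) = q ∧
        IsPiEl π (n : G) ∧ Commute x (n : G)} := ⟨fun x => hn (hiff.1 x.2.2.1)⟩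
    rw [Nat.card_of_isEmpty]

/-- Let G be a finite group, N a normal subgroup and π a set of primes. Then the number of conjugacy classes of π-elements of G (elements whose order is divisible only by primes in π) is at most the number of conjugacy classes of π-elements of N (under conjugation by N) times the number of conjugacy classes of π-elements of G/N. -/
theorem result {G : Type*} [Group G] [Finite G] (N : Subgroup G) [N.Normal] (π : Set ℕ) :
    Nat.card {C : ConjClasses G // ∀ q : ℕ, q.Prime → (∃ g : G, ConjClasses.mk g = C ∧ q ∣ orderOf g) → q ∈ π} ≤ Nat.card {C : ConjClasses N // ∀ q : ℕ, q.Prime → (∃ g : N, ConjClasses.mk g = C ∧ q ∣ orderOf g) → q ∈ π} * Nat.card {C : ConjClasses (G ⧸ N) // ∀ q : ℕ, q.Prime → (∃ g : (G ⧸ N), ConjClasses.mk g = C ∧ q ∣ orderOf g) → q ∈ π} := by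
  classical
  haveI : Fintype G := Fintype.ofFinite G
  haveI : Fintype N := Fintype.ofFinite N
  haveI : Fintype (G ⧸ N) := Fintype.ofFinite _
  set KG := Nat.card {C : ConjClasses G // ∀ q : ℕ, q.Prime →
    (∃ g : G, ConjClasses.mk g = C ∧ q ∣ orderOf g) → q ∈ π} with hKG
  set KN := Nat.card {C : ConjClasses N // ∀ q : ℕ, q.Prime →
    (∃ g : N, ConjClasses.mk g = C ∧ q ∣ orderOf g) → q ∈ π} with hKN
  set KQ := Nat.card {C : ConjClasses (G ⧸ N) // ∀ q : ℕ, q.Prime →
    (∃ g : (G ⧸ N), ConjClasses.mk g = C ∧ q ∣ orderOf g) → q ∈ π} with hKQ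
  have hcard : Nat.card G = Nat.card (G ⧸ N) * Nat.card N := by
    rw [← Subgroup.index_eq_card, Subgroup.index_mul_card]
  have hG0 : 0 < Nat.card G := Nat.card_pos
  have BG : ∑ x : G, (if IsPiEl π x then Nat.card (Subgroup.centralizer {x} : Subgroup G) else 0)
      = KG * Nat.card G := sum_card_centralizer_pi π
  have BQ : ∑ x : G ⧸ N, (if IsPiEl π x then
      Nat.card (Subgroup.centralizer {x} : Subgroup (G ⧸ N)) else 0)
      = KQ * Nat.card (G ⧸ N) := sum_card_centralizer_pi π
  -- termwise bound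
  have P1 : ∀ x : G, (if IsPiEl π x then Nat.card (Subgroup.centralizer {x} : Subgroup G) else 0) ≤
      Nat.card (Subgroup.centralizer {(QuotientGroup.mk x : G ⧸ N)} : Subgroup (G ⧸ N)) *
        (if IsPiEl π x then Nat.card {n : N // Commute x (n : G)} else 0) := by
    intro x
    by_cases hx : IsPiEl π x
    · rw [if_pos hx, if_pos hx]
      have E2 : Nat.card {n : N // Commute x (n : G)} =
          Nat.card (N ⊓ Subgroup.centralizer {x} : Subgroup G) := by
        apply Nat.card_congr
        refine ⟨fun y => ⟨y.1.1, y.1.2, ?_⟩, fun c => ⟨⟨c.1, c.2.1⟩, ?_⟩, fun y => rfl, fun c => rfl⟩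
        · show (y.1 : G) ∈ Subgroup.centralizer {x}
          rw [Subgroup.mem_centralizer_singleton_iff]
          exact y.2.eq.symm
        · have h : (c : G) ∈ Subgroup.centralizer {x} := c.2.2
          rw [Subgroup.mem_centralizer_singleton_iff] at h
          exact h.symm
      rw [E2]
      exact Cfsg.Agent.S4201.card_cent_le N x
    · rw [if_neg hx, if_neg hx]
      exact Nat.zero_le _
  -- fiber sums as pair counts
  have fiber_sum : ∀ q : G ⧸ N,
      ∑ x ∈ Finset.univ.filter (fun x : G => (QuotientGroup.mk x : G ⧸ N) = q),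
        (if IsPiEl π x then Nat.card {n : N // Commute x (n : G)} else 0) =
      Nat.card {p : G × N // (QuotientGroup.mk p.1 : G ⧸ N) = q ∧ IsPiEl π p.1 ∧
        Commute p.1 (p.2 : G)} := by
    intro q
    rw [pair_sum_left (fun (x : G) (n : N) => (QuotientGroup.mk x : G ⧸ N) = q ∧ IsPiEl π x ∧
      Commute x (n : G)), Finset.sum_filter]
    apply Finset.sum_congr rfl
    intro x _
    by_cases h1 : (QuotientGroup.mk x : G ⧸ N) = q
    · rw [if_pos h1]
      by_cases h2 : IsPiEl π x
      · rw [if_pos h2]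
        apply Nat.card_congr
        exact Equiv.subtypeEquivRight (fun n => ⟨fun h => ⟨h1, h2, h⟩, fun h => h.2.2⟩)
      · rw [if_neg h2]
        haveI : IsEmpty {n : N // (QuotientGroup.mk x : G ⧸ N) = q ∧ IsPiEl π x ∧
            Commute x (n : G)} := ⟨fun n => h2 n.2.2.1⟩
        rw [Nat.card_of_isEmpty]
    · rw [if_neg h1]
      haveI : IsEmpty {n : N // (QuotientGroup.mk x : G ⧸ N) = q ∧ IsPiEl π x ∧
          Commute x (n : G)} := ⟨fun n => h1 n.2.1⟩
      rw [Nat.card_of_isEmpty]
  have P2 : ∀ q : G ⧸ N,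
      ∑ x ∈ Finset.univ.filter (fun x : G => (QuotientGroup.mk x : G ⧸ N) = q),
        (if IsPiEl π x then Nat.card {n : N // Commute x (n : G)} else 0) ≤
      if IsPiEl π q then KN * Nat.card N else 0 := by
    intro q
    by_cases hq : IsPiEl π q
    · rw [if_pos hq, fiber_sum q]
      exact coset_bound N π q
    · rw [if_neg hq]
      apply le_of_eq
      apply Finset.sum_eq_zero
      intro x hx
      have hxq : (QuotientGroup.mk x : G ⧸ N) = q := (Finset.mem_filter.1 hx).2
      have hnx : ¬ IsPiEl π x := by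
        intro hPx
        apply hq
        intro r hr hrd
        rw [← hxq] at hrd
        exact hPx r hr (hrd.trans (orderOf_map_dvd (QuotientGroup.mk' N) x))
      rw [if_neg hnx]
  have step : KG * Nat.card G ≤ (KQ * Nat.card (G ⧸ N)) * (KN * Nat.card N) := by
    rw [← BG]
    calc ∑ x : G, (if IsPiEl π x then Nat.card (Subgroup.centralizer {x} : Subgroup G) else 0)
        ≤ ∑ x : G, Nat.card (Subgroup.centralizer {(QuotientGroup.mk x : G ⧸ N)} :
            Subgroup (G ⧸ N)) *
            (if IsPiEl π x then Nat.card {n : N // Commute x (n : G)} else 0) :=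
          Finset.sum_le_sum (fun x _ => P1 x)
      _ = ∑ q : G ⧸ N, ∑ x ∈ Finset.univ.filter (fun x : G => (QuotientGroup.mk x : G ⧸ N) = q),
            Nat.card (Subgroup.centralizer {(QuotientGroup.mk x : G ⧸ N)} : Subgroup (G ⧸ N)) *
            (if IsPiEl π x then Nat.card {n : N // Commute x (n : G)} else 0) :=
          (Finset.sum_fiberwise Finset.univ (fun x : G => (QuotientGroup.mk x : G ⧸ N)) _).symm
      _ = ∑ q : G ⧸ N, Nat.card (Subgroup.centralizer {q} : Subgroup (G ⧸ N)) *
            ∑ x ∈ Finset.univ.filter (fun x : G => (QuotientGroup.mk x : G ⧸ N) = q),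
              (if IsPiEl π x then Nat.card {n : N // Commute x (n : G)} else 0) := by
          apply Finset.sum_congr rfl
          intro q _
          rw [Finset.mul_sum]
          apply Finset.sum_congr rfl
          intro x hx
          rw [(Finset.mem_filter.1 hx).2]
      _ ≤ ∑ q : G ⧸ N, Nat.card (Subgroup.centralizer {q} : Subgroup (G ⧸ N)) *
            (if IsPiEl π q then KN * Nat.card N else 0) :=
          Finset.sum_le_sum (fun q _ => Nat.mul_le_mul_left _ (P2 q))
      _ = ∑ q : G ⧸ N, (if IsPiEl π q then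
            Nat.card (Subgroup.centralizer {q} : Subgroup (G ⧸ N)) else 0) * (KN * Nat.card N) := by
          apply Finset.sum_congr rfl
          intro q _
          by_cases hq : IsPiEl π q
          · rw [if_pos hq, if_pos hq]
          · rw [if_neg hq, if_neg hq, mul_zero, zero_mul]
      _ = (KQ * Nat.card (G ⧸ N)) * (KN * Nat.card N) := by
          rw [← Finset.sum_mul, BQ]
  have h2 : KG * Nat.card G ≤ (KN * KQ) * Nat.card G := by
    calc KG * Nat.card G ≤ (KQ * Nat.card (G ⧸ N)) * (KN * Nat.card N) := step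
      _ = (KN * KQ) * Nat.card G := by
          rw [hcard]
          ring
  exact Nat.le_of_mul_le_mul_right h2 hG0

end Cfsg.Agent.S4152
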