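import Cfsg.Statements.S4154
import Mathlib

set_option autoImplicit false
open Cfsg

namespace Cfsg.Agent.S4154

theorem result {G : Type*} [Group G] [Finite G] (α : MulAut G)
    (hccp : ∀ x : G, ∃ c g : G, α c = c ∧ x = c * (g⁻¹ * α g))
    (N : Subgroup G) [N.Normal] (hN : ∀ n ∈ N, α n ∈ N) :
    (∀ x : G, ∃ c g : G, c⁻¹ * α c ∈ N ∧ x⁻¹ * (c * (g⁻¹ * α g)) ∈ N) ∧
    (∀ x : G, x⁻¹ * α x ∈ N → ∃ c : G, α c = c ∧ c⁻¹ * x ∈ N) := by
  constructor
  · intro x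
    obtain ⟨c, g, hc, hx⟩ := hccp x
    refine ⟨c, g, ?_, ?_⟩
    · rw [hc, inv_mul_cancel]; exact N.one_mem
    · rw [← hx, inv_mul_cancel]; exact N.one_mem
  · let β : G ⧸ N →* G ⧸ N := QuotientGroup.map N N α.toMonoidHom (fun n hn => hN n hn)
    have hβ : ∀ g : G, β (g : G ⧸ N) = ((α g : G) : G ⧸ N) := fun g => rfl
    let Cb : Subgroup (G ⧸ N) := β.eqLocus (MonoidHom.id _)
    let D : Set (G ⧸ N) := Set.range (fun c : {c : G // α c = c} => ((c.1 : G) : G ⧸ N))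
    have hDC : D ⊆ (Cb : Set (G ⧸ N)) := by
      rintro _ ⟨c, rfl⟩
      show β _ = _
      rw [hβ, c.2]
      rfl
    let s : D × ((G ⧸ N) ⧸ Cb) → G ⧸ N := fun z => z.1.1 * (z.2.out * (β z.2.out)⁻¹)
    have hs : Function.Surjective s := by
      intro q
      obtain ⟨x, rfl⟩ := QuotientGroup.mk_surjective q
      obtain ⟨c, g, hc, hx⟩ := hccp x
      refine ⟨(⟨(c : G ⧸ N), ⟨⟨c, hc⟩, rfl⟩⟩, QuotientGroup.mk ((g⁻¹ : G) : G ⧸ N)), ?_⟩
      show ((c : G ⧸ N)) * (_ * _) = _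
      set a : G ⧸ N := ((g⁻¹ : G) : G ⧸ N) with ha
      set o : G ⧸ N := (QuotientGroup.mk a : (G ⧸ N) ⧸ Cb).out with ho
      have hout : a⁻¹ * o ∈ Cb := by
        rw [← QuotientGroup.eq]
        exact (QuotientGroup.out_eq' _).symm
      have hfix : β (a⁻¹ * o) = a⁻¹ * o := hout
      have e1 : o * (β o)⁻¹ = a * (β a)⁻¹ := by
        have h0 : β o = β a * (a⁻¹ * o) := by
          rw [← hfix, map_mul, map_inv]; group
        rw [h0]; group
      rw [e1, hx, ha, hβ]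
      simp [QuotientGroup.mk_mul, QuotientGroup.mk_inv]
    have h1 : Nat.card (G ⧸ N) ≤ Nat.card (D × ((G ⧸ N) ⧸ Cb)) :=
      Nat.card_le_card_of_surjective s hs
    rw [Nat.card_prod] at h1
    have h2 : Nat.card Cb * Cb.index = Nat.card (G ⧸ N) := Subgroup.card_mul_index Cb
    have h3 : Nat.card Cb ≤ Nat.card D := by
      have hpos : 0 < Cb.index := Nat.pos_of_ne_zero Subgroup.index_ne_zero_of_finite
      have h4 : Nat.card Cb * Cb.index ≤ Nat.card D * Cb.index := by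
        rw [h2]; exact h1
      exact Nat.le_of_mul_le_mul_right h4 hpos
    have hDeq : D = (Cb : Set (G ⧸ N)) :=
      Set.eq_of_subset_of_ncard_le hDC
        (by rw [← Nat.card_coe_set_eq, ← Nat.card_coe_set_eq]; exact h3) (Set.toFinite _)
    intro x hx
    have hxC : (x : G ⧸ N) ∈ (Cb : Set (G ⧸ N)) := by
      show β (x : G ⧸ N) = (x : G ⧸ N)
      rw [hβ]
      symm
      rw [QuotientGroup.eq]
      exact hx
    rw [← hDeq] at hxC
    obtain ⟨c, hc⟩ := hxC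
    refine ⟨c.1, c.2, ?_⟩
    have hc' : ((c.1 : G) : G ⧸ N) = (x : G ⧸ N) := hc
    rw [QuotientGroup.eq] at hc'
    exact hc'

end Cfsg.Agent.S4154
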