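import Cfsg.Statements.S4160
import Mathlib

set_option autoImplicit false
open Cfsg

namespace Cfsg.Agent.S4160

/-- If `p ∤ [G : C(x)]` then `x` centralizes a Sylow `p`-subgroup. -/
private lemma exists_sylow_centralizing {G : Type*} [Group G] [Finite G] (p : ℕ) [Fact p.Prime]
    (x : G) (hx : ¬ p ∣ (Subgroup.centralizer ({x} : Set G)).index) :
    ∃ P' : Sylow p G, x ∈ Subgroup.centralizer (P' : Set G) := by
  classical
  set C := Subgroup.centralizer ({x} : Set G) with hC
  obtain ⟨R⟩ := (inferInstance : Nonempty (Sylow p C))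
  have hRp : IsPGroup p ((R : Subgroup C).map C.subtype) := R.2.map C.subtype
  obtain ⟨P', hP'⟩ := hRp.exists_le_sylow
  have hcardR : Nat.card ((R : Subgroup C).map C.subtype) = Nat.card (R : Subgroup C) :=
    Subgroup.card_map_of_injective C.subtype_injective
  have h1 : Nat.card (R : Subgroup C) = p ^ (Nat.card C).factorization p :=
    Sylow.card_eq_multiplicity R
  have h2 : Nat.card (P' : Subgroup G) = p ^ (Nat.card G).factorization p :=
    Sylow.card_eq_multiplicity P'
  have h3 : Nat.card C * C.index = Nat.card G := Subgroup.card_mul_index C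
  have hCpos : Nat.card C ≠ 0 := Nat.card_pos.ne'
  have hipos : C.index ≠ 0 := Subgroup.index_ne_zero_of_finite
  have h4 : (Nat.card G).factorization p = (Nat.card C).factorization p := by
    rw [← h3, Nat.factorization_mul hCpos hipos]
    simp [Nat.factorization_eq_zero_of_not_dvd hx]
  have heq : (R : Subgroup C).map C.subtype = (P' : Subgroup G) := by
    apply Subgroup.eq_of_le_of_card_ge hP'
    rw [hcardR, h1, h2, h4]
  refine ⟨P', ?_⟩
  rw [Subgroup.mem_centralizer_iff]
  intro y hy
  have hy' : y ∈ (R : Subgroup C).map C.subtype := by rw [heq]; exact hy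
  obtain ⟨c, -, rfl⟩ := hy'
  have hc : (c : G) ∈ Subgroup.centralizer ({x} : Set G) := c.2
  exact ((Subgroup.mem_centralizer_iff.mp hc) x rfl).symm

/-- Union bound for the centralizers of the Sylow `p`-subgroups. -/
private lemma sylow_union_bound {G : Type*} [Group G] [Finite G] (p : ℕ) [Fact p.Prime]
    (hno : ∀ P' : Sylow p G,
      ¬ Subgroup.normalizer (P' : Set G) ≤ Subgroup.centralizer (P' : Set G)) :
    2 * (⋃ P' : Sylow p G, ((Subgroup.centralizer (P' : Set G) : Set G) \ {1})).ncard + 2
      ≤ Nat.card G := by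
  classical
  haveI : Fintype (Sylow p G) := Fintype.ofFinite _
  have hle := Set.ncard_iUnion_le_of_fintype
    (fun P' : Sylow p G => ((Subgroup.centralizer (P' : Set G) : Set G) \ {1}))
  have hterm : ∀ P' : Sylow p G,
      (2 * ((Subgroup.centralizer (P' : Set G) : Set G) \ {1}).ncard + 2) *
        Nat.card (Sylow p G) ≤ Nat.card G := by
    intro P'
    have hCN : Subgroup.centralizer (P' : Set G) ≤ Subgroup.normalizer (P' : Set G) :=
      Subgroup.centralizer_le_normalizer _
    have hlt : Subgroup.centralizer (P' : Set G) < Subgroup.normalizer (P' : Set G) :=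
      lt_of_le_of_ne hCN (fun h => hno P' h.ge)
    have hdvd : Nat.card (Subgroup.centralizer (P' : Set G)) ∣
        Nat.card (Subgroup.normalizer (P' : Set G)) := Subgroup.card_dvd_of_le hCN
    have hcl : Nat.card (Subgroup.centralizer (P' : Set G)) <
        Nat.card (Subgroup.normalizer (P' : Set G)) := lt_of_le_of_ne (Subgroup.card_le_of_le hCN)
        (fun he => hlt.ne (Subgroup.eq_of_le_of_card_ge hCN he.ge))
    have h2 : 2 * Nat.card (Subgroup.centralizer (P' : Set G)) ≤
        Nat.card (Subgroup.normalizer (P' : Set G)) := by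
      obtain ⟨k, hk⟩ := hdvd
      rw [hk] at hcl ⊢
      have hk2 : 2 ≤ k := by
        by_contra hk'
        have : k = 0 ∨ k = 1 := by omega
        rcases this with rfl | rfl <;> simp at hcl
      calc 2 * Nat.card (Subgroup.centralizer (P' : Set G))
          = Nat.card (Subgroup.centralizer (P' : Set G)) * 2 := by ring
        _ ≤ Nat.card (Subgroup.centralizer (P' : Set G)) * k := Nat.mul_le_mul_left _ hk2
    have h3 : ((Subgroup.centralizer (P' : Set G) : Set G) \ {1}).ncard + 1 =
        Nat.card (Subgroup.centralizer (P' : Set G)) := by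
      rw [Set.ncard_sdiff_singleton_add_one (one_mem _) (Set.toFinite _)]
      rfl
    have h4 : Nat.card (Subgroup.normalizer (P' : Set G)) * Nat.card (Sylow p G) = Nat.card G := by
      rw [Sylow.card_eq_index_normalizer P']
      exact Subgroup.card_mul_index _
    calc (2 * ((Subgroup.centralizer (P' : Set G) : Set G) \ {1}).ncard + 2) * Nat.card (Sylow p G)
        = (2 * Nat.card (Subgroup.centralizer (P' : Set G))) * Nat.card (Sylow p G) := by
          rw [← h3]; ring
      _ ≤ Nat.card (Subgroup.normalizer (P' : Set G)) * Nat.card (Sylow p G) :=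
          Nat.mul_le_mul_right _ h2
      _ = Nat.card G := h4
  have hn : 0 < Nat.card (Sylow p G) := Nat.card_pos
  have hsum : ∑ P' : Sylow p G,
      (2 * ((Subgroup.centralizer (P' : Set G) : Set G) \ {1}).ncard + 2) * Nat.card (Sylow p G)
      ≤ ∑ _P' : Sylow p G, Nat.card G := Finset.sum_le_sum (fun P' _ => hterm P')
  rw [← Finset.sum_mul, Finset.sum_const, Finset.card_univ, ← Nat.card_eq_fintype_card,
    smul_eq_mul, mul_comm (Nat.card (Sylow p G)) (Nat.card G)] at hsum
  have hsum' := Nat.le_of_mul_le_mul_right hsum hn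
  rw [Finset.sum_add_distrib, ← Finset.mul_sum, Finset.sum_const, Finset.card_univ,
    ← Nat.card_eq_fintype_card, smul_eq_mul] at hsum'
  have : 2 * (⋃ P' : Sylow p G,
      ((Subgroup.centralizer (P' : Set G) : Set G) \ {1})).ncard ≤
      2 * ∑ P' : Sylow p G, ((Subgroup.centralizer (P' : Set G) : Set G) \ {1}).ncard :=
    Nat.mul_le_mul_left _ hle
  nlinarith

/-- Let G be a finite group and p ≠ q primes each dividing the size of some conjugacy class of G, such that no conjugacy class size is divisible by pq. Then G has a normal p-complement or a normal q-complement. -/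
theorem result {G : Type*} [Group G] [Finite G] (p q : ℕ) (hp : p.Prime) (hq : q.Prime) (hpq : p ≠ q)
    (hp' : ∃ x : G, p ∣ (Subgroup.centralizer ({x} : Set G)).index) (hq' : ∃ x : G, q ∣ (Subgroup.centralizer ({x} : Set G)).index) (h : ∀ x : G, ¬ p * q ∣ (Subgroup.centralizer ({x} : Set G)).index) :
    Cfsg.HasNormalPComplement p G ∨ Cfsg.HasNormalPComplement q G := by
  classical
  haveI : Fact p.Prime := ⟨hp⟩
  haveI : Fact q.Prime := ⟨hq⟩
  have hcop : Nat.Coprime p q := (Nat.coprime_primes hp hq).mpr hpq
  have key : ∀ x : G, ¬ p ∣ (Subgroup.centralizer ({x} : Set G)).index ∨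
      ¬ q ∣ (Subgroup.centralizer ({x} : Set G)).index := by
    intro x
    by_contra hcon
    push Not at hcon
    exact h x (Nat.Coprime.mul_dvd_of_dvd_of_dvd hcop hcon.1 hcon.2)
  by_cases hP : ∃ P' : Sylow p G,
      Subgroup.normalizer (P' : Set G) ≤ Subgroup.centralizer (P' : Set G)
  · obtain ⟨P', hP'⟩ := hP
    left
    exact ⟨P', (MonoidHom.transferSylow P' hP').ker, inferInstance,
      MonoidHom.ker_transferSylow_isComplement' P' hP'⟩
  by_cases hQ : ∃ Q' : Sylow q G,
      Subgroup.normalizer (Q' : Set G) ≤ Subgroup.centralizer (Q' : Set G)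
  · obtain ⟨Q', hQ'⟩ := hQ
    right
    exact ⟨Q', (MonoidHom.transferSylow Q' hQ').ker, inferInstance,
      MonoidHom.ker_transferSylow_isComplement' Q' hQ'⟩
  exfalso
  push Not at hP hQ
  have hA := sylow_union_bound p hP
  have hB := sylow_union_bound q hQ
  set A := ⋃ P' : Sylow p G, ((Subgroup.centralizer (P' : Set G) : Set G) \ {1}) with hAdef
  set B := ⋃ Q' : Sylow q G, ((Subgroup.centralizer (Q' : Set G) : Set G) \ {1}) with hBdef
  have hcov : (Set.univ : Set G) ⊆ ({1} ∪ A) ∪ B := by
    intro x _
    by_cases hx1 : x = 1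
    · left; left; exact hx1
    rcases key x with hx | hx
    · obtain ⟨P', hxP⟩ := exists_sylow_centralizing p x hx
      left; right
      exact Set.mem_iUnion.mpr ⟨P', hxP, hx1⟩
    · obtain ⟨Q', hxQ⟩ := exists_sylow_centralizing q x hx
      right
      exact Set.mem_iUnion.mpr ⟨Q', hxQ, hx1⟩
  have hcard : Nat.card G ≤ (({1} ∪ A) ∪ B : Set G).ncard := by
    rw [← Set.ncard_univ]
    exact Set.ncard_le_ncard hcov (Set.toFinite _)
  have h1 : (({1} ∪ A) ∪ B : Set G).ncard ≤ 1 + A.ncard + B.ncard := by
    calc (({1} ∪ A) ∪ B : Set G).ncard ≤ (({1} : Set G) ∪ A).ncard + B.ncard :=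
          Set.ncard_union_le _ _
      _ ≤ (({1} : Set G).ncard + A.ncard) + B.ncard :=
          Nat.add_le_add_right (Set.ncard_union_le _ _) _
      _ = 1 + A.ncard + B.ncard := by rw [Set.ncard_singleton]
  omega

end Cfsg.Agent.S4160
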