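import Cfsg.Statements.S4163
import Mathlib
import Cfsg.Agent.Helper6.Isaacs
-- import your own Cfsg.Agent.* helpers here

set_option autoImplicit false
open Cfsg

namespace Cfsg.Agent.S4163

/-- Let G be a finite group with a normal abelian subgroup A satisfying C_G(A) = A. Suppose some conjugacy class of G has size greater than 1, let m be the smallest such size, and let M be the subgroup generated by the elements whose class has size 1 or m. Then M is nilpotent of class at most 3. -/
theorem result {G : Type*} [Group G] [Finite G]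
    (A : Subgroup G) [A.Normal] (hA : IsMulCommutative A) (hCA : Subgroup.centralizer (A : Set G) = A)
    (m : ℕ) (hm1 : 1 < m) (hm : ∃ x : G, (Subgroup.centralizer ({x} : Set G)).index = m) (hmin : ∀ x : G, 1 < (Subgroup.centralizer ({x} : Set G)).index → m ≤ (Subgroup.centralizer ({x} : Set G)).index) :
    Subgroup.upperCentralSeries ↥(Subgroup.closure {x : G | (Subgroup.centralizer ({x} : Set G)).index = 1 ∨ (Subgroup.centralizer ({x} : Set G)).index = m}) 3 = ⊤ := by
  classical
  have hAc : ∀ a ∈ A, ∀ b ∈ A, a * b = b * a := by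
    intro a ha b hb
    have h1 := (isMulCommutative_iff.1 hA) ⟨a, ha⟩ ⟨b, hb⟩
    exact congrArg Subtype.val h1
  have hCA' : ∀ g : G, (∀ a ∈ A, g * a = a * g) → g ∈ A := by
    intro g hg
    rw [← hCA, Subgroup.mem_centralizer_iff]
    intro a ha
    exact (hg a ha).symm
  have hgen : ∀ x : G, ((Subgroup.centralizer ({x} : Set G)).index = 1 ∨
      (Subgroup.centralizer ({x} : Set G)).index = m) →
      ∀ a ∈ A, a * x * a⁻¹ * x⁻¹ ∈ Subgroup.center G := by
    intro x hx a ha
    by_contra hn
    have hy : a * x * a⁻¹ * x⁻¹ ≠ 1 := by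
      intro h1; apply hn; rw [h1]; exact Subgroup.one_mem _
    have hlt := Cfsg.Agent.Helper6.Isaacs.index_lt A hAc x a ha hy
    have hle : (Subgroup.centralizer ({x} : Set G)).index ≤ m := by
      rcases hx with h1 | h1 <;> omega
    have hpos : (Subgroup.centralizer ({a * x * a⁻¹ * x⁻¹} : Set G)).index ≠ 0 :=
      Subgroup.index_ne_zero_of_finite
    have h1 : (Subgroup.centralizer ({a * x * a⁻¹ * x⁻¹} : Set G)).index = 1 := by
      by_contra h1
      have := hmin (a * x * a⁻¹ * x⁻¹) (by omega)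
      omega
    apply hn
    rw [Subgroup.index_eq_one, Subgroup.centralizer_eq_top_iff_subset] at h1
    exact h1 (Set.mem_singleton _)
  generalize hMdef : Subgroup.closure {x : G | (Subgroup.centralizer ({x} : Set G)).index = 1 ∨
      (Subgroup.centralizer ({x} : Set G)).index = m} = M
  have hM : ∀ g ∈ M, ∀ a ∈ A, a * g * a⁻¹ * g⁻¹ ∈ Subgroup.center G := by
    intro g hg
    rw [← hMdef] at hg
    induction hg using Subgroup.closure_induction with
    | mem x hx => exact hgen x hx
    | one => intro a ha; simp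
    | mul x y hx hy ihx ihy =>
      intro a ha
      have c := (Subgroup.mem_center_iff.1 (ihy a ha)) x⁻¹
      have e : a * (x * y) * a⁻¹ * (x * y)⁻¹ = (a * x * a⁻¹ * x⁻¹) * (a * y * a⁻¹ * y⁻¹) := by
        calc a * (x * y) * a⁻¹ * (x * y)⁻¹
            = a * x * a⁻¹ * (x⁻¹ * (a * y * a⁻¹ * y⁻¹)) := by rw [c]; group
          _ = _ := by group
      rw [e]
      exact Subgroup.mul_mem _ (ihx a ha) (ihy a ha)
    | inv x hx ih =>
      intro a ha
      have hz := ih a ha
      have c := (Subgroup.mem_center_iff.1 (Subgroup.inv_mem _ hz)) x⁻¹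
      have e : a * x⁻¹ * a⁻¹ * x⁻¹⁻¹ = (a * x * a⁻¹ * x⁻¹)⁻¹ := by
        calc a * x⁻¹ * a⁻¹ * x⁻¹⁻¹ = x⁻¹ * (a * x * a⁻¹ * x⁻¹)⁻¹ * x := by group
          _ = (a * x * a⁻¹ * x⁻¹)⁻¹ * x⁻¹ * x := by rw [c]
          _ = _ := by group
      rw [e]
      exact Subgroup.inv_mem _ hz
  have hcore := Cfsg.Agent.Helper6.Isaacs.core A hCA' M hM
  rw [eq_top_iff]
  intro u _
  show u ∈ Subgroup.upperCentralSeries ↥M (2 + 1)
  rw [Subgroup.mem_upperCentralSeries_succ_iff]
  intro v
  show _ ∈ Subgroup.upperCentralSeries ↥M (1 + 1)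
  rw [Subgroup.mem_upperCentralSeries_succ_iff]
  intro w
  rw [Subgroup.upperCentralSeries_one, Subgroup.mem_center_iff]
  intro t
  apply Subtype.ext
  have h1 := hcore u.1 u.2 v.1 v.2 w.1 w.2
  have h2 := (Subgroup.mem_center_iff.1 h1) t.1
  simp only [commutatorElement_def, Subgroup.coe_mul, Subgroup.coe_inv]
  exact h2

end Cfsg.Agent.S4163
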