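import Cfsg.Statements.S4168
import Mathlib

set_option autoImplicit false
open Cfsg
open scoped commutatorElement

namespace Cfsg.Agent.S4168

/-- In a perfect finite group every element has order dividing the index of the centre
(the transfer into the centre is trivial). -/
theorem pow_index_center_eq_one_of_perfect {L : Type*} [Group L] [Finite L]
    (hperf : Group.IsPerfect L) (g : L) : g ^ (Subgroup.center L).index = 1 := by
  have hk : MonoidHom.transferCenterPow L g = 1 := by
    have hg : g ∈ commutator L := by rw [hperf.commutator_eq_top]; trivial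
    rw [commutator_eq_closure] at hg
    refine Subgroup.closure_induction
      (p := fun g _ => MonoidHom.transferCenterPow L g = 1) ?_ ?_ ?_ ?_ hg
    · rintro _ ⟨a, b, rfl⟩
      rw [map_commutatorElement, commutatorElement_eq_one_iff_mul_comm]
      apply Subtype.ext
      rw [Subgroup.coe_mul, Subgroup.coe_mul]
      exact Subgroup.mem_center_iff.1 (MonoidHom.transferCenterPow L b).2 _
    · exact map_one _
    · intro x y _ _ hx hy
      rw [map_mul, hx, hy, one_mul]
    · intro x _ hx
      rw [map_inv, hx, inv_one]
  have := congrArg Subtype.val hk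
  rw [MonoidHom.transferCenterPow_apply] at this
  exact this

theorem result {L : Type*} [Group L] [Finite L] (hL : Cfsg.IsQuasisimple L)
    (p : ℕ) (hp : p.Prime) (hdiv : p ∣ Nat.card (Subgroup.center L)) : p ∣ (Subgroup.center L).index := by
  haveI : Fact p.Prime := ⟨hp⟩
  obtain ⟨hperf, _⟩ := hL
  obtain ⟨z, hz⟩ := exists_prime_orderOf_dvd_card' p hdiv
  have h2 : (z : L) ^ (Subgroup.center L).index = 1 :=
    pow_index_center_eq_one_of_perfect hperf (z : L)
  have h3 : orderOf (z : L) ∣ (Subgroup.center L).index := orderOf_dvd_of_pow_eq_one h2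
  rw [Subgroup.orderOf_coe, hz] at h3
  exact h3

end Cfsg.Agent.S4168
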