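import Cfsg.Statements.S4169
import Mathlib
import Cfsg.Agent.Helper6.Isaacs
import Cfsg.Agent.S0015
-- import your own Cfsg.Agent.* helpers here

set_option autoImplicit false
open Cfsg

namespace Cfsg.Agent.S4169

/-- Let P be a finite p-group whose conjugacy classes have exactly two sizes (1 and one other value). Then P has nilpotency class at most 3. -/
theorem result {P : Type*} [Group P] [Finite P] {p : ℕ} [Fact p.Prime] (hP : IsPGroup p P)
    (m : ℕ) (hm : 1 < m) (h : ∀ x : P, (Subgroup.centralizer ({x} : Set P)).index = 1 ∨ (Subgroup.centralizer ({x} : Set P)).index = m) :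
    upperCentralSeries P 3 = ⊤ := by
  classical
  haveI : Group.IsNilpotent P := hP.isNilpotent
  haveI : Nonempty {N : Subgroup P // N.Normal ∧ IsMulCommutative ↥N} :=
    ⟨⟨⊥, inferInstance, ⟨⟨fun a b => Subtype.ext (by
      rw [Subgroup.coe_mul, Subgroup.coe_mul, Subgroup.mem_bot.1 a.2, Subgroup.mem_bot.1 b.2])⟩⟩⟩⟩
  obtain ⟨⟨N, hNn, hNc⟩, hmax⟩ := Finite.exists_max
    (fun N : {N : Subgroup P // N.Normal ∧ IsMulCommutative ↥N} => Nat.card ↥N.1)
  haveI := hNn
  haveI := hNc
  have hCN : Subgroup.centralizer (N : Set P) = N := by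
    apply Cfsg.Agent.S0015.result N
    intro M hMn hMc hNM
    have h1 := hmax ⟨M, hMn, hMc⟩
    exact (Subgroup.eq_of_le_of_card_ge hNM h1).symm
  have hNc' : ∀ a ∈ N, ∀ b ∈ N, a * b = b * a := by
    intro a ha b hb
    have h1 := (isMulCommutative_iff.1 hNc) ⟨a, ha⟩ ⟨b, hb⟩
    exact congrArg Subtype.val h1
  have hCA' : ∀ g : P, (∀ a ∈ N, g * a = a * g) → g ∈ N := by
    intro g hg
    rw [← hCN, Subgroup.mem_centralizer_iff]
    intro a ha
    exact (hg a ha).symm
  have hM : ∀ g ∈ (⊤ : Subgroup P), ∀ a ∈ N, a * g * a⁻¹ * g⁻¹ ∈ Subgroup.center P := by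
    intro g _ a ha
    by_contra hn
    have hy : a * g * a⁻¹ * g⁻¹ ≠ 1 := by
      intro h1; apply hn; rw [h1]; exact Subgroup.one_mem _
    have hlt := Cfsg.Agent.Helper6.Isaacs.index_lt N hNc' g a ha hy
    have hpos : (Subgroup.centralizer ({a * g * a⁻¹ * g⁻¹} : Set P)).index ≠ 0 :=
      Subgroup.index_ne_zero_of_finite
    have h1 : (Subgroup.centralizer ({a * g * a⁻¹ * g⁻¹} : Set P)).index = 1 := by
      rcases h g with hg1 | hg1 <;> rcases h (a * g * a⁻¹ * g⁻¹) with hy1 | hy1 <;> omega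
    apply hn
    rw [Subgroup.index_eq_one, Subgroup.centralizer_eq_top_iff_subset] at h1
    exact h1 (Set.mem_singleton _)
  have hcore := Cfsg.Agent.Helper6.Isaacs.core N hCA' ⊤ hM
  rw [eq_top_iff]
  intro u _
  show u ∈ Subgroup.upperCentralSeries P (2 + 1)
  rw [Subgroup.mem_upperCentralSeries_succ_iff]
  intro v
  show _ ∈ Subgroup.upperCentralSeries P (1 + 1)
  rw [Subgroup.mem_upperCentralSeries_succ_iff]
  intro w
  rw [Subgroup.upperCentralSeries_one]
  simp only [commutatorElement_def]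
  exact hcore u (Subgroup.mem_top _) v (Subgroup.mem_top _) w (Subgroup.mem_top _)

end Cfsg.Agent.S4169
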