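import Cfsg.Statements.S4177
import Mathlib

set_option autoImplicit false
open Cfsg

namespace Cfsg.Agent.S4177

theorem relIndex_eq_index_of_coprime' {G : Type*} [Group G] [Finite G] (H K : Subgroup G)
    (hcop : H.index.Coprime K.index) : K.relIndex H = K.index := by
  have h1 : (H ⊓ K).relIndex H * H.index = (H ⊓ K).index := Subgroup.relIndex_mul_index inf_le_left
  rw [Subgroup.inf_relIndex_left] at h1
  have h2 : K.index ∣ (H ⊓ K).index := Subgroup.index_dvd_of_le inf_le_right
  rw [← h1] at h2
  have h3 : K.index ∣ K.relIndex H := (Nat.Coprime.dvd_mul_right hcop.symm).mp h2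
  have h4 : K.relIndex H ≤ K.index := by
    have := Subgroup.relIndex_le_of_le_right (H := K) (le_top : H ≤ ⊤)
      (by rw [Subgroup.relIndex_top_right]; exact Subgroup.index_ne_zero_of_finite)
    rwa [Subgroup.relIndex_top_right] at this
  have h5 : K.relIndex H ≠ 0 := Subgroup.index_ne_zero_of_finite
  exact le_antisymm h4 (Nat.le_of_dvd (Nat.pos_of_ne_zero h5) h3)

theorem mul_eq_univ_of_relIndex_eq' {G : Type*} [Group G] [Finite G] (H K : Subgroup G)
    (h : K.relIndex H = K.index) : ∀ g : G, ∃ x ∈ H, ∃ y ∈ K, g = x * y := by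
  let f : H ⧸ K.subgroupOf H → G ⧸ K := Quotient.map' (fun x : H => (x : G)) (by
    intro a b hab
    rw [QuotientGroup.leftRel_apply] at hab ⊢
    exact Subgroup.mem_subgroupOf.mp hab)
  have hinj : Function.Injective f := by
    intro q₁ q₂
    induction q₁ using Quotient.inductionOn' with
    | h a =>
      induction q₂ using Quotient.inductionOn' with
      | h b =>
        intro hab
        have h1 : (QuotientGroup.mk (a : G) : G ⧸ K) = QuotientGroup.mk (b : G) := hab
        rw [QuotientGroup.eq] at h1
        exact QuotientGroup.eq.mpr (Subgroup.mem_subgroupOf.mpr h1)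
  have hbij : Function.Bijective f := (Nat.bijective_iff_injective_and_card f).mpr ⟨hinj, h⟩
  intro g
  obtain ⟨q, hq⟩ := hbij.2 (QuotientGroup.mk g)
  induction q using Quotient.inductionOn' with
  | h x =>
    have h1 : (QuotientGroup.mk (x : G) : G ⧸ K) = QuotientGroup.mk g := hq
    rw [QuotientGroup.eq] at h1
    exact ⟨x, x.2, (x : G)⁻¹ * g, h1, by group⟩


/-- Let k be a field whose characteristic does not divide the order of the finite group H (for instance a field of characteristic zero), and ρ a k-linear representation of H on V. Let a be a vector whose H-orbit spans V. Then the space of H-fixed vectors has dimension at most 1, and every vector b whose H-orbit has size coprime to the size of the orbit of a is fixed by H. -/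
theorem result {k V H : Type*} [Field k] [AddCommGroup V] [Module k V] [Group H] [Finite H]
    (hchar : ¬ ringChar k ∣ Nat.card H) (ρ : Representation k H V) (a : V)
    (hspan : Submodule.span k {u : V | ∃ h : H, ρ h a = u} = ⊤) :
    Module.finrank k ρ.invariants ≤ 1 ∧
    ∀ b : V, (Nat.card {u : V | ∃ h : H, ρ h a = u}).Coprime (Nat.card {u : V | ∃ h : H, ρ h b = u}) → ∀ h : H, ρ h b = b := by
  classical
  haveI : Fintype H := Fintype.ofFinite H
  have hdvd0 : ∀ n : ℕ, n ∣ Nat.card H → (n : k) ≠ 0 := by
    intro n hn h0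
    exact hchar (((ringChar.spec k n).mp h0).trans hn)
  have hsum_fix : ∀ (T : Subgroup H) [Fintype T] (v : V), (∀ t ∈ T, ρ t v = v) →
      (∑ t : T, ρ (t : H)) v = (Nat.card T : k) • v := by
    intro T _ v hv
    rw [LinearMap.sum_apply]
    rw [Finset.sum_congr rfl (fun t _ => hv t.1 t.2), Finset.sum_const, Finset.card_univ,
      Nat.card_eq_fintype_card, Nat.cast_smul_eq_nsmul]
  have hsum_inv : ∀ (T : Subgroup H) [Fintype T] (t : H) (ht : t ∈ T) (v : V),
      (∑ t : T, ρ (t : H)) (ρ t v) = (∑ t : T, ρ (t : H)) v := by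
    intro T _ t ht v
    rw [LinearMap.sum_apply, LinearMap.sum_apply]
    apply Fintype.sum_equiv (Equiv.mulRight (⟨t, ht⟩ : T))
    intro x
    show ρ (x : H) (ρ t v) = ρ ((x * ⟨t, ht⟩ : T) : H) v
    rw [Subgroup.coe_mul, map_mul]; rfl
  have hmap : ∀ L : V →ₗ[k] V, (∀ h, L (ρ h a) = L a) → ∀ v, L v ∈ Submodule.span k {L a} := by
    intro L hL v
    have hv : v ∈ Submodule.span k {u : V | ∃ h : H, ρ h a = u} := by rw [hspan]; trivial
    induction hv using Submodule.span_induction with
    | mem x hx => obtain ⟨h, rfl⟩ := hx; rw [hL]; exact Submodule.mem_span_singleton_self _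
    | zero => rw [map_zero]; exact Submodule.zero_mem _
    | add x y _ _ hx hy => rw [map_add]; exact Submodule.add_mem _ hx hy
    | smul c x _ hx => rw [map_smul]; exact Submodule.smul_mem _ c hx
  refine ⟨?_, ?_⟩
  · haveI : Fintype (⊤ : Subgroup H) := Fintype.ofFinite _
    have hle : ρ.invariants ≤ Submodule.span k {(∑ t : (⊤ : Subgroup H), ρ (t : H)) a} := by
      intro v hv
      have h1 := hsum_fix ⊤ v (fun t _ => (Representation.mem_invariants ρ v).mp hv t)
      have h2 := hmap (∑ t : (⊤ : Subgroup H), ρ (t : H))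
        (fun h => hsum_inv ⊤ h (Subgroup.mem_top h) a) v
      rw [h1] at h2
      have h3 : v = (Nat.card (⊤ : Subgroup H) : k)⁻¹ • ((Nat.card (⊤ : Subgroup H) : k) • v) := by
        rw [smul_smul, inv_mul_cancel₀ (hdvd0 _ (Subgroup.card_subgroup_dvd_card _)), one_smul]
      rw [h3]; exact Submodule.smul_mem _ _ h2
    calc Module.finrank k ρ.invariants
        ≤ Module.finrank k (Submodule.span k {(∑ t : (⊤ : Subgroup H), ρ (t : H)) a}) :=
          Submodule.finrank_mono hle
      _ ≤ 1 := by
          refine (finrank_span_le_card _).trans ?_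
          simp
  · intro b hcop h
    letI act : MulAction H V := MulAction.compHom V (ρ : H →* (V →ₗ[k] V))
    have hact : ∀ (g : H) (v : V), g • v = ρ g v := fun g v => rfl
    set S := MulAction.stabilizer H a with hS
    set T := MulAction.stabilizer H b with hT
    have hSi : S.index = Nat.card {u : V | ∃ h : H, ρ h a = u} := by
      rw [MulAction.index_stabilizer, ← Nat.card_coe_set_eq]; rfl
    have hTi : T.index = Nat.card {u : V | ∃ h : H, ρ h b = u} := by
      rw [MulAction.index_stabilizer, ← Nat.card_coe_set_eq]; rfl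
    have hcop' : T.index.Coprime S.index := by rw [hSi, hTi]; exact hcop.symm
    have hprod := mul_eq_univ_of_relIndex_eq' T S
      (relIndex_eq_index_of_coprime' T S hcop')
    haveI : Fintype T := Fintype.ofFinite T
    set ST : V →ₗ[k] V := ∑ t : T, ρ (t : H) with hST
    obtain ⟨O, hO⟩ : ∃ O : Finset V, O = Finset.univ.image (fun h : H => ρ h a) := ⟨_, rfl⟩
    have hOmem : ∀ w, w ∈ O ↔ ∃ h : H, ρ h a = w := by
      intro w; rw [hO]; simp
    set d : V := ∑ w ∈ O, w with hd
    have hd_inv : ∀ g : H, ρ g d = d := by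
      intro g
      rw [hd, map_sum]
      have himg : O.image (ρ g) = O := by
        ext w
        rw [Finset.mem_image, hOmem]
        constructor
        · rintro ⟨u, hu, rfl⟩
          obtain ⟨h', rfl⟩ := (hOmem u).mp hu
          exact ⟨g * h', by rw [map_mul]; rfl⟩
        · rintro ⟨h', rfl⟩
          exact ⟨ρ (g⁻¹ * h') a, (hOmem _).mpr ⟨g⁻¹ * h', rfl⟩, by
            rw [← Module.End.mul_apply, ← map_mul, mul_inv_cancel_left]⟩
      calc ∑ w ∈ O, ρ g w = ∑ w ∈ O.image (ρ g), w := by
            refine (Finset.sum_image (s := O) (g := fun w => ρ g w) (f := fun w => w) ?_).symm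
            intro x _ y _ hxy
            have := congrArg (ρ g⁻¹) hxy
            simpa [← Module.End.mul_apply, ← map_mul] using this
        _ = ∑ w ∈ O, w := by rw [himg]
    have hSTw : ∀ w ∈ O, ST w = ST a := by
      intro w hw
      obtain ⟨g, rfl⟩ := (hOmem w).mp hw
      obtain ⟨t, ht, s, hs, rfl⟩ := hprod g
      have hsa : ρ s a = a := hs
      show ST (ρ (t * s) a) = ST a
      rw [map_mul, Module.End.mul_apply, hsa]
      exact hsum_inv T t ht a
    have h1 : ST d = (O.card : k) • ST a := by
      rw [hd, map_sum, Finset.sum_congr rfl hSTw, Finset.sum_const, Nat.cast_smul_eq_nsmul]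
    have h2 : ST d = (Nat.card T : k) • d := hsum_fix T d (fun t _ => hd_inv t)
    have h3 : ST b = (Nat.card T : k) • b := hsum_fix T b (fun t ht => ht)
    have h4 : ST b ∈ Submodule.span k {ST a} :=
      hmap ST (fun g => hSTw _ ((hOmem _).mpr ⟨g, rfl⟩)) b
    obtain ⟨c, hc⟩ := Submodule.mem_span_singleton.mp h4
    have hO0 : (O.card : k) ≠ 0 := by
      apply hdvd0
      have : O.card = S.index := by
        rw [hSi, Nat.card_coe_set_eq, ← Set.ncard_coe_finset]
        congr 1
        ext w
        rw [Finset.mem_coe, hOmem]; rfl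
      rw [this]; exact Subgroup.index_dvd_card S
    have hT0 : (Nat.card T : k) ≠ 0 := hdvd0 _ (Subgroup.card_subgroup_dvd_card T)
    have h5 : ρ h (ST a) = ST a := by
      have e1 : (O.card : k) • ρ h (ST a) = (O.card : k) • ST a := by
        rw [← map_smul, ← h1, h2, map_smul, hd_inv]
      exact smul_right_injective V hO0 e1
    have e2 : (Nat.card T : k) • ρ h b = (Nat.card T : k) • b := by
      rw [← map_smul, ← h3, ← hc, map_smul, h5]
    exact smul_right_injective V hT0 e2

end Cfsg.Agent.S4177
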