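import Cfsg.Statements.S4178
import Mathlib

set_option autoImplicit false
open Cfsg

namespace Cfsg.Agent.S4178

theorem index_le_of_action {Γ X : Type*} [Group Γ] [Finite Γ] [MulAction Γ X] (R : Subgroup Γ)
    (x : X) (hst : MulAction.stabilizer Γ x ≤ R) (s : Set X) (hs : s.Finite)
    (horb : MulAction.orbit Γ x ⊆ s) : R.index ≤ s.ncard := by
  have h1 : R.index ∣ (MulAction.stabilizer Γ x).index := Subgroup.index_dvd_of_le hst
  have h2 : (MulAction.stabilizer Γ x).index ≠ 0 := Subgroup.index_ne_zero_of_finite
  have h3 : R.index ≤ (MulAction.stabilizer Γ x).index := Nat.le_of_dvd (Nat.pos_of_ne_zero h2) h1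
  rw [MulAction.index_stabilizer] at h3
  exact h3.trans (Set.ncard_le_ncard horb hs)

theorem card_submodule {F V : Type*} [Field F] [Fintype F] [AddCommGroup V] [Module F V]
    [FiniteDimensional F V] (W : Submodule F V) :
    ((W : Set V) \ {0}).ncard = Fintype.card F ^ Module.finrank F W - 1 := by
  haveI : Finite V := Module.finite_of_finite F
  rw [Set.ncard_sdiff_singleton_of_mem (show (0 : V) ∈ (W : Set V) from W.zero_mem)]
  congr 1
  haveI : Fintype ↥W := Fintype.ofFinite _
  rw [← Module.card_eq_pow_finrank (K := F) (V := ↥W), ← Nat.card_eq_fintype_card]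
  exact (Nat.card_coe_set_eq (W : Set V)).symm

/-- Let F be a finite field with q elements, V a non-zero finite-dimensional F-space of dimension d, H a group of invertible linear maps of V, and R the subgroup of H generated by the elements of H that fix some non-zero vector (have eigenvalue 1). Then the index of R in H is at most q^d − 1; and if H leaves invariant some proper non-zero subspace, the index is at most q^(d/2) − 1. -/
theorem result {F V : Type*} [Field F] [Fintype F] [AddCommGroup V] [Module F V] [FiniteDimensional F V] [Nontrivial V]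
    (H : Subgroup (V ≃ₗ[F] V)) :
    (Subgroup.closure {h : ↥H | ∃ v : V, v ≠ 0 ∧ (h : V ≃ₗ[F] V) v = v}).index ≤ Fintype.card F ^ Module.finrank F V - 1 ∧
    ((∃ W : Submodule F V, W ≠ ⊥ ∧ W ≠ ⊤ ∧ ∀ h ∈ H, ∀ w ∈ W, h w ∈ W) →
      ((Subgroup.closure {h : ↥H | ∃ v : V, v ≠ 0 ∧ (h : V ≃ₗ[F] V) v = v}).index : ℝ) ≤ Real.sqrt ((Fintype.card F : ℝ) ^ Module.finrank F V) - 1) := by
  haveI : Finite V := Module.finite_of_finite F
  haveI : Finite (V ≃ₗ[F] V) :=
    Finite.of_injective (fun e : V ≃ₗ[F] V => (e : V → V)) DFunLike.coe_injective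
  have hq : 1 ≤ Fintype.card F := Fintype.card_pos
  -- the natural action: stabilizers of nonzero vectors lie in R
  have hstab : ∀ v : V, v ≠ 0 → MulAction.stabilizer ↥H v ≤
      Subgroup.closure {h : ↥H | ∃ v : V, v ≠ 0 ∧ (h : V ≃ₗ[F] V) v = v} := by
    intro v hv h hh
    apply Subgroup.subset_closure
    exact ⟨v, hv, MulAction.mem_stabilizer_iff.1 hh⟩
  have hW : ∀ W : Submodule F V, W ≠ ⊥ → (∀ h ∈ H, ∀ w ∈ W, h w ∈ W) →
      (Subgroup.closure {h : ↥H | ∃ v : V, v ≠ 0 ∧ (h : V ≃ₗ[F] V) v = v}).index ≤
        Fintype.card F ^ Module.finrank F W - 1 := by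
    intro W hW0 hinv
    obtain ⟨v, hvW, hv0⟩ := Submodule.exists_mem_ne_zero_of_ne_bot hW0
    rw [← card_submodule W]
    apply index_le_of_action _ v (hstab v hv0) _ (Set.toFinite _)
    rintro _ ⟨h, rfl⟩
    refine ⟨hinv h h.2 v hvW, ?_⟩
    intro h0
    apply hv0
    have h1 : (h : V ≃ₗ[F] V) v = 0 := h0
    exact (LinearEquiv.map_eq_zero_iff _).1 h1
  refine ⟨?_, ?_⟩
  · have h1 := hW ⊤ top_ne_bot (fun h _ w _ => Submodule.mem_top)
    rwa [finrank_top] at h1
  · rintro ⟨W, hW0, hWtop, hinv⟩
    -- reduce to: index ≤ q^e - 1 with 2e ≤ d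
    have key : ∃ e : ℕ, 2 * e ≤ Module.finrank F V ∧
        (Subgroup.closure {h : ↥H | ∃ v : V, v ≠ 0 ∧ (h : V ≃ₗ[F] V) v = v}).index ≤
          Fintype.card F ^ e - 1 := by
      have hsum := Subspace.finrank_add_finrank_dualAnnihilator_eq W
      by_cases hcase : 2 * Module.finrank F W ≤ Module.finrank F V
      · exact ⟨_, hcase, hW W hW0 hinv⟩
      · refine ⟨Module.finrank F W.dualAnnihilator, by omega, ?_⟩
        -- dual action
        letI act : MulAction ↥H (Module.Dual F V) :=
          { smul := fun h φ => φ.comp ((h : V ≃ₗ[F] V).symm : V →ₗ[F] V)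
            one_smul := fun φ => by
              apply LinearMap.ext
              intro v
              rfl
            mul_smul := fun g h φ => by
              apply LinearMap.ext
              intro v
              rfl }
        have hsmul : ∀ (h : ↥H) (φ : Module.Dual F V) (v : V),
            (h • φ) v = φ ((h : V ≃ₗ[F] V).symm v) := fun h φ v => rfl
        have hlt : Module.finrank F W < Module.finrank F V := by
          exact Submodule.finrank_lt hWtop
        have hne : W.dualAnnihilator ≠ ⊥ := by
          intro h0
          rw [h0, finrank_bot] at hsum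
          omega
        obtain ⟨φ, hφW, hφ0⟩ := Submodule.exists_mem_ne_zero_of_ne_bot hne
        haveI : Finite (Module.Dual F V) := Module.finite_of_finite F
        rw [← card_submodule W.dualAnnihilator]
        refine index_le_of_action (Γ := ↥H) (X := Module.Dual F V) _ φ ?_ _ (Set.toFinite _) ?_
        · -- stabilizer of φ lies in R
          intro h hh
          apply Subgroup.subset_closure
          have h1 : h • φ = φ := MulAction.mem_stabilizer_iff.1 hh
          -- the map h.symm - 1 is not surjective, hence not injective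
          by_contra hcon
          have hinj : Function.Injective
              ((((h : V ≃ₗ[F] V).symm : V →ₗ[F] V) - (LinearMap.id : V →ₗ[F] V) : V →ₗ[F] V) :
                V → V) := by
            rw [← LinearMap.ker_eq_bot, LinearMap.ker_eq_bot']
            intro v hv
            by_contra hv0
            apply hcon
            refine ⟨v, hv0, ?_⟩
            have h2 : (h : V ≃ₗ[F] V).symm v = v := by
              have h3 : (h : V ≃ₗ[F] V).symm v - v = 0 := hv
              exact sub_eq_zero.1 h3
            rw [← h2, LinearEquiv.apply_symm_apply, h2]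
          have hsurj := LinearMap.injective_iff_surjective.1 hinj
          apply hφ0
          apply LinearMap.ext
          intro w
          obtain ⟨v, rfl⟩ := hsurj w
          have h4 := hsmul h φ v
          rw [h1] at h4
          show φ ((h : V ≃ₗ[F] V).symm v - v) = 0
          rw [map_sub, ← h4, sub_self]
        · rintro _ ⟨h, rfl⟩
          refine ⟨?_, ?_⟩
          · show h • φ ∈ W.dualAnnihilator
            rw [Submodule.mem_dualAnnihilator]
            intro w hw
            rw [hsmul]
            have h5 : (h : V ≃ₗ[F] V).symm w ∈ W := by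
              have := hinv (h⁻¹ : ↥H) (h⁻¹ : ↥H).2 w hw
              exact this
            exact (Submodule.mem_dualAnnihilator φ).1 hφW _ h5
          · intro h0
            apply hφ0
            have h6 : h • φ = 0 := h0
            apply LinearMap.ext
            intro w
            have h7 := hsmul h φ ((h : V ≃ₗ[F] V) w)
            rw [h6, LinearEquiv.symm_apply_apply] at h7
            exact h7.symm
    obtain ⟨e, he, hidx⟩ := key
    have h1 : ((Subgroup.closure {h : ↥H | ∃ v : V, v ≠ 0 ∧ (h : V ≃ₗ[F] V) v = v}).index : ℝ) ≤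
        ((Fintype.card F ^ e - 1 : ℕ) : ℝ) := by exact_mod_cast hidx
    have h2 : ((Fintype.card F ^ e - 1 : ℕ) : ℝ) = (Fintype.card F : ℝ) ^ e - 1 := by
      have h3 : 1 ≤ Fintype.card F ^ e := Nat.one_le_pow _ _ hq
      rw [Nat.cast_sub h3]
      push_cast
      ring
    have h4 : (Fintype.card F : ℝ) ^ e ≤ Real.sqrt ((Fintype.card F : ℝ) ^ Module.finrank F V) := by
      rw [Real.le_sqrt (by positivity) (by positivity), ← pow_mul]
      apply pow_le_pow_right₀
      · exact_mod_cast hq
      · rw [mul_comm]; exact he
    linarith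

end Cfsg.Agent.S4178
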