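import Cfsg.Statements.S4186
import Mathlib

set_option autoImplicit false
open Cfsg

namespace Cfsg.Agent.S4186

theorem result {G : Type*} [Group G] (T X : Subgroup G) [Finite ↥T] (hT : IsPGroup 2 ↥T) (hTN : T ≤ Subgroup.normalizer (X : Set G)) (hTC : ¬ T ≤ Subgroup.centralizer (X : Set G)) : ∃ t ∈ T, ∃ x ∈ X, x ≠ 1 ∧ t * x * t⁻¹ = x⁻¹ := by
  classical
  have hex : ∃ n : ℕ, ∃ t ∈ T, t ∉ Subgroup.centralizer (X : Set G) ∧ orderOf t = n := by
    rw [SetLike.not_le_iff_exists] at hTC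
    obtain ⟨t, ht, htc⟩ := hTC
    exact ⟨orderOf t, t, ht, htc, rfl⟩
  obtain ⟨t, ht, htc, hord⟩ := Nat.find_spec hex
  have hmin : ∀ s ∈ T, orderOf s < orderOf t → s ∈ Subgroup.centralizer (X : Set G) := by
    intro s hs hlt
    by_contra hsc
    have := Nat.find_min' hex ⟨s, hs, hsc, rfl⟩
    omega
  -- order of t is a power of 2
  obtain ⟨k, hk⟩ := hT ⟨t, ht⟩
  have hk' : t ^ (2 ^ k) = 1 := by
    have := congrArg Subtype.val hk
    simpa using this
  have hdvd : orderOf t ∣ 2 ^ k := orderOf_dvd_of_pow_eq_one hk'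
  obtain ⟨j, hj, hj2⟩ := (Nat.dvd_prime_pow Nat.prime_two).1 hdvd
  have ht1 : t ≠ 1 := by
    rintro rfl
    exact htc (Subgroup.one_mem _)
  have hj0 : j ≠ 0 := by
    rintro rfl
    rw [pow_zero, orderOf_eq_one_iff] at hj2
    exact ht1 hj2
  have h2dvd : 2 ∣ orderOf t := by
    rw [hj2]
    exact dvd_pow_self 2 hj0
  have hord2 : orderOf (t ^ 2) = orderOf t / 2 := orderOf_pow_of_dvd (by norm_num) h2dvd
  have hpos : 0 < orderOf t := by rw [hj2]; positivity
  have ht2 : t ^ 2 ∈ Subgroup.centralizer (X : Set G) := by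
    apply hmin _ (Subgroup.pow_mem _ ht 2)
    rw [hord2]
    omega
  rw [Subgroup.mem_centralizer_iff] at htc
  push Not at htc
  obtain ⟨y, hy, hyt⟩ := htc
  have hy' : y ∈ X := hy
  have htn := hTN ht
  rw [Subgroup.mem_normalizer_iff] at htn
  have hc : t * y * t⁻¹ ∈ X := (htn y).1 hy'
  refine ⟨t, ht, y⁻¹ * (t * y * t⁻¹), X.mul_mem (X.inv_mem hy') hc, ?_, ?_⟩
  · intro h
    apply hyt
    have h3 : t * y * t⁻¹ = y := by
      have := congrArg (fun z => y * z) h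
      simpa using this
    rw [mul_inv_eq_iff_eq_mul] at h3
    exact h3.symm
  · have h4 : y * t ^ 2 = t ^ 2 * y := (Subgroup.mem_centralizer_iff.1 ht2) y hy
    have h5 : t * (t * y * t⁻¹) * t⁻¹ = y := by
      have : t * (t * y * t⁻¹) * t⁻¹ = t ^ 2 * y * (t ^ 2)⁻¹ := by
        rw [pow_two]; group
      rw [this, ← h4]
      group
    have h6 : t * (y⁻¹ * (t * y * t⁻¹)) * t⁻¹ = (t * y * t⁻¹)⁻¹ * (t * (t * y * t⁻¹) * t⁻¹) := by
      group
    rw [h6, h5]
    group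

end Cfsg.Agent.S4186
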