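import Cfsg.Statements.S4196
import Mathlib
import Cfsg.Agent.S4195

set_option autoImplicit false
open Cfsg

namespace Cfsg.Agent.S4196

theorem result {G : Type*} [Group G] [Finite G] (P : Sylow 2 G) :
    (IsMulCommutative (P : Subgroup G) ∧ ∀ x ∈ (P : Subgroup G), x ^ 2 = 1) ↔
      ∀ x : G, (∃ k : ℕ, orderOf x = 2 ^ k) → (∃ Q : Sylow 2 G, (Q : Subgroup G) ≤ Subgroup.centralizer ({x} : Set G)) ∧ IsConj x x⁻¹ := by
  haveI : Fact (Nat.Prime 2) := ⟨Nat.prime_two⟩
  constructor
  · rintro ⟨hcomm, hexp⟩ x ⟨k, hk⟩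
    have hpg : IsPGroup 2 (Subgroup.zpowers x) := by
      rw [IsPGroup.iff_card, Nat.card_zpowers]
      exact ⟨k, hk⟩
    obtain ⟨Q, hQ⟩ := hpg.exists_le_sylow
    have hxQ : x ∈ (Q : Subgroup G) := hQ (Subgroup.mem_zpowers x)
    let e : (Q : Subgroup G) ≃* (P : Subgroup G) := Sylow.equiv Q P
    have hcommP : ∀ a b : (P : Subgroup G), a * b = b * a := isMulCommutative_iff.1 hcomm
    have hcommQ : ∀ a b : (Q : Subgroup G), a * b = b * a := by
      intro a b
      apply e.injective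
      rw [map_mul, map_mul]
      exact hcommP _ _
    have hexpQ : ∀ a : (Q : Subgroup G), a ^ 2 = 1 := by
      intro a
      apply e.injective
      rw [map_pow, map_one]
      apply Subtype.ext
      rw [Subgroup.coe_pow]
      exact hexp _ (e a).2
    refine ⟨⟨Q, ?_⟩, ?_⟩
    · intro q hq
      rw [Subgroup.mem_centralizer_iff]
      intro h hh
      rw [Set.mem_singleton_iff] at hh
      subst hh
      have := hcommQ ⟨h, hxQ⟩ ⟨q, hq⟩
      exact congrArg Subtype.val this
    · have hx2 : x ^ 2 = 1 := by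
        have := hexpQ ⟨x, hxQ⟩
        exact congrArg Subtype.val this
      have hxinv : x⁻¹ = x := by
        rw [inv_eq_iff_mul_eq_one, ← pow_two]
        exact hx2
      rw [hxinv]
  · intro h
    have hexp : ∀ x ∈ (P : Subgroup G), x ^ 2 = 1 := by
      intro x hx
      by_cases hx1 : x = 1
      · rw [hx1]; simp
      · obtain ⟨k, hk⟩ := (IsPGroup.iff_orderOf.1 P.isPGroup') ⟨x, hx⟩
        rw [Subgroup.orderOf_mk] at hk
        obtain ⟨⟨Q, hQ⟩, hreal⟩ := h x ⟨k, hk⟩
        have := Cfsg.Agent.S4195.result x hx1 Q hQ hreal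
        rw [← this]
        exact pow_orderOf_eq_one x
    refine ⟨?_, hexp⟩
    rw [isMulCommutative_iff]
    intro a b
    apply Subtype.ext
    rw [Subgroup.coe_mul, Subgroup.coe_mul]
    have ha := hexp a a.2
    have hb := hexp b b.2
    have hab := hexp (a * b) ((P : Subgroup G).mul_mem a.2 b.2)
    have h1 : (a : G) * b = ((a : G) * b)⁻¹ := by
      rw [eq_inv_iff_mul_eq_one, ← pow_two]; exact hab
    have h2 : (a : G)⁻¹ = a := by
      rw [inv_eq_iff_mul_eq_one, ← pow_two]; exact ha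
    have h3 : (b : G)⁻¹ = b := by
      rw [inv_eq_iff_mul_eq_one, ← pow_two]; exact hb
    rw [h1, mul_inv_rev, h2, h3]

end Cfsg.Agent.S4196
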