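import Cfsg.Statements.S4207
import Cfsg.Agent.Helper7.PGroupGen
import Cfsg.Agent.Helper7.Wielandt

set_option autoImplicit false
open Cfsg

namespace Cfsg.Agent.S4207

theorem result {P : Type*} [Group P] [Finite P] {p n r : ℕ} [Fact p.Prime] (hP : Nat.card P = p ^ n) (hr : (frattini P).index = p ^ r) (A : Subgroup (MulAut P)) (hA : ∀ α ∈ A, ∀ x : P, α x * x⁻¹ ∈ frattini P) : Nat.card A ∣ p ^ (r * (n - r)) := by
  have hp : p.Prime := Fact.out
  have hQ : Nat.card (P ⧸ frattini P) = p ^ r := hr
  obtain ⟨xb, hxb⟩ := Cfsg.Agent.Helper7.exists_generators_of_card_eq_prime_pow p r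
    (P ⧸ frattini P) hQ
  have hlift : ∀ i, ∃ y : P, (y : P ⧸ frattini P) = xb i :=
    fun i => QuotientGroup.mk_surjective (xb i)
  choose x hx using hlift
  have hgen : ∀ f : Fin r → P, (∀ i, f i * (x i)⁻¹ ∈ frattini P) →
      Subgroup.closure (Set.range f) = ⊤ := by
    intro f hf
    apply frattini_nongenerating
    have hmk : ∀ i, ((f i : P) : P ⧸ frattini P) = xb i := by
      intro i
      have h1 : ((f i * (x i)⁻¹ : P) : P ⧸ frattini P) = 1 := (QuotientGroup.eq_one_iff _).2 (hf i)
      rw [QuotientGroup.mk_mul, QuotientGroup.mk_inv, hx i, mul_inv_eq_one] at h1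
      exact h1
    have h1 : (Subgroup.closure (Set.range f)).map (QuotientGroup.mk' (frattini P)) = ⊤ := by
      rw [MonoidHom.map_closure, ← hxb]
      congr 1
      ext q
      constructor
      · rintro ⟨_, ⟨i, rfl⟩, rfl⟩
        exact ⟨i, (hmk i).symm⟩
      · rintro ⟨i, rfl⟩
        exact ⟨f i, ⟨i, rfl⟩, hmk i⟩
    rw [eq_top_iff]
    intro g _
    have h2 : QuotientGroup.mk' (frattini P) g ∈
        (Subgroup.closure (Set.range f)).map (QuotientGroup.mk' (frattini P)) := by
      rw [h1]
      trivial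
    obtain ⟨k, hk, hkg⟩ := h2
    have h3 : k⁻¹ * g ∈ frattini P := QuotientGroup.eq.1 hkg
    have h4 : g = k * (k⁻¹ * g) := by group
    rw [h4]
    exact Subgroup.mul_mem _ (Subgroup.mem_sup_left hk) (Subgroup.mem_sup_right h3)
  -- the set of generating tuples in the given Frattini cosets
  let Ω := {f : Fin r → P // ∀ i, f i * (x i)⁻¹ ∈ frattini P}
  letI : MulAction A Ω :=
    { smul := fun α f => ⟨fun i => (α : MulAut P) (f.1 i), fun i => by
        have h1 : (α : MulAut P) (f.1 i) * (x i)⁻¹ =
            ((α : MulAut P) (f.1 i) * (f.1 i)⁻¹) * (f.1 i * (x i)⁻¹) := by group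
        rw [h1]
        exact Subgroup.mul_mem _ (hA α.1 α.2 (f.1 i)) (f.2 i)⟩
      one_smul := fun f => Subtype.ext (funext fun i => rfl)
      mul_smul := fun α β f => Subtype.ext (funext fun i => rfl) }
  have hsmul : ∀ (α : A) (f : Ω) (i : Fin r), (α • f).1 i = (α : MulAut P) (f.1 i) :=
    fun _ _ _ => rfl
  have hcardΩ : Nat.card Ω = Nat.card (frattini P) ^ r := by
    have e : Ω ≃ (Fin r → frattini P) :=
      { toFun := fun f i => ⟨f.1 i * (x i)⁻¹, f.2 i⟩
        invFun := fun u => ⟨fun i => (u i : P) * x i, fun i => by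
          rw [mul_inv_cancel_right]
          exact (u i).2⟩
        left_inv := fun f => Subtype.ext (funext fun i => by
          show f.1 i * (x i)⁻¹ * x i = f.1 i
          rw [inv_mul_cancel_right])
        right_inv := fun u => funext fun i => Subtype.ext (by
          show (u i : P) * x i * (x i)⁻¹ = (u i : P)
          rw [mul_inv_cancel_right]) }
    rw [Nat.card_congr e, Nat.card_fun, Nat.card_fin]
  have hΦ : Nat.card (frattini P) = p ^ (n - r) := by
    have h1 := Subgroup.card_mul_index (frattini P)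
    rw [hr, hP] at h1
    have h2 : r ≤ n := by
      have h3 : p ^ r ∣ p ^ n := by
        rw [← hr, ← hP]
        exact Subgroup.index_dvd_card _
      exact (Nat.pow_dvd_pow_iff_le_right hp.one_lt).1 h3
    have h4 : p ^ n = p ^ (n - r) * p ^ r := by
      rw [← pow_add, Nat.sub_add_cancel h2]
    rw [h4] at h1
    exact Nat.eq_of_mul_eq_mul_right (pow_pos hp.pos r) h1
  have hfree : ∀ f : Ω, MulAction.stabilizer A f = ⊥ := by
    intro f
    rw [eq_bot_iff]
    intro α hα
    rw [MulAction.mem_stabilizer_iff] at hα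
    rw [Subgroup.mem_bot]
    apply Subtype.ext
    have h1 : ∀ i, (α : MulAut P) (f.1 i) = f.1 i := by
      intro i
      rw [← hsmul, hα]
    have h2 : Set.EqOn ((α : MulAut P) : P ≃* P).toMonoidHom (MonoidHom.id P)
        (Subgroup.closure (Set.range f.1)) := by
      apply MonoidHom.eqOn_closure
      rintro _ ⟨i, rfl⟩
      exact h1 i
    rw [hgen f.1 f.2] at h2
    show (α : MulAut P) = 1
    ext g
    exact h2 (Subgroup.mem_top g)
  have hdvd : Nat.card A ∣ Nat.card Ω := by
    refine Cfsg.Agent.Helper7.dvd_card_of_forall_dvd_index_stabilizer (G := A) (X := Ω)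
      (Nat.card A) ?_
    intro f
    rw [hfree f, Subgroup.index_bot]
  rw [hcardΩ, hΦ, ← pow_mul, mul_comm] at hdvd
  exact hdvd

end Cfsg.Agent.S4207
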