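import Cfsg.Statements.S4230
import Mathlib

set_option autoImplicit false
open Cfsg

namespace Cfsg.Agent.S4230

open Polynomial in
theorem cast_eval (p f : ℕ) (q : ℤ) :
    (((Polynomial.cyclotomic f ℤ).eval q : ℤ) : ZMod p)
      = (Polynomial.cyclotomic f (ZMod p)).eval (q : ZMod p) := by
  rw [← Polynomial.map_cyclotomic f (Int.castRingHom (ZMod p)), Polynomial.eval_map]
  have := Polynomial.eval₂_at_apply (p := Polynomial.cyclotomic f ℤ) (Int.castRingHom (ZMod p)) q
  simpa using this.symm

theorem lemmaA (p q n j : ℕ) (hp : p.Prime) (hn : ¬ p ∣ n) :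
    ((p : ℤ) ∣ (Polynomial.cyclotomic (p ^ j * n) ℤ).eval (q : ℤ)) ↔
      orderOf (q : ZMod p) = n := by
  haveI : Fact p.Prime := ⟨hp⟩
  have hn0 : 0 < n := by
    rcases Nat.eq_zero_or_pos n with h | h
    · exact absurd (h ▸ dvd_zero p) hn
    · exact h
  haveI : NeZero ((n : ℕ) : ZMod p) := ⟨by
    rw [Ne, ZMod.natCast_eq_zero_iff]
    exact hn⟩
  rw [← ZMod.intCast_zmod_eq_zero_iff_dvd, cast_eval]
  have hroot : (Polynomial.cyclotomic n (ZMod p)).eval (((q : ℕ) : ℤ) : ZMod p) = 0 ↔
      orderOf (q : ZMod p) = n := by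
    have h1 : (((q : ℕ) : ℤ) : ZMod p) = (q : ZMod p) := by simp
    rw [h1]
    have h2 := Polynomial.isRoot_cyclotomic_iff (n := n) (R := ZMod p) (μ := (q : ZMod p))
    rw [Polynomial.IsRoot.def] at h2
    rw [h2]
    constructor
    · intro h; exact h.eq_orderOf.symm
    · intro h; rw [← h]; exact IsPrimitiveRoot.orderOf _
  rcases Nat.eq_zero_or_pos j with hj | hj
  · subst hj
    rw [pow_zero, one_mul]
    exact hroot
  · rw [Polynomial.cyclotomic_mul_prime_pow_eq (ZMod p) hn hj, Polynomial.eval_pow,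
      pow_eq_zero_iff]
    · exact hroot
    · have : p ^ (j - 1) < p ^ j := Nat.pow_lt_pow_right hp.one_lt (by omega)
      omega

theorem result (p q f : ℕ) (hp : p.Prime) (hp2 : p ≠ 2) (hpq : ¬ p ∣ q) :
    ((p : ℤ) ∣ (Polynomial.cyclotomic f ℤ).eval (q : ℤ)) ↔ ∃ j : ℕ, f = orderOf (q : ZMod p) * p ^ j := by
  haveI : Fact p.Prime := ⟨hp⟩
  have hq0 : (q : ZMod p) ≠ 0 := by
    rw [Ne, ZMod.natCast_eq_zero_iff]
    exact hpq
  have he : orderOf (q : ZMod p) ∣ p - 1 := ZMod.orderOf_dvd_card_sub_one hq0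
  have hepos : 0 < orderOf (q : ZMod p) := by
    apply Nat.pos_of_ne_zero
    intro h0
    rw [h0] at he
    have := Nat.eq_zero_of_zero_dvd he
    have := hp.two_le
    omega
  have hpe : ¬ p ∣ orderOf (q : ZMod p) := by
    intro h
    have h1 : p ∣ p - 1 := h.trans he
    have h2 := Nat.le_of_dvd (by have := hp.two_le; omega) h1
    have := hp.two_le
    omega
  rcases Nat.eq_zero_or_pos f with hf | hf
  · subst hf
    rw [Polynomial.cyclotomic_zero, Polynomial.eval_one]
    constructor
    · intro h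
      exfalso
      have h1 : (p : ℤ) ∣ ((1 : ℕ) : ℤ) := by simpa using h
      rw [Int.natCast_dvd_natCast, Nat.dvd_one] at h1
      exact hp.one_lt.ne' h1
    · rintro ⟨j, hj⟩
      exfalso
      have := hp.pos
      have h2 : 0 < orderOf (q : ZMod p) * p ^ j := Nat.mul_pos hepos (by positivity)
      omega
  · obtain ⟨j, n, hn, rfl⟩ := Nat.exists_eq_pow_mul_and_not_dvd hf.ne' p hp.one_lt.ne'
    rw [lemmaA p q n j hp hn]
    constructor
    · intro h
      exact ⟨j, by rw [h, mul_comm]⟩
    · rintro ⟨j', hj'⟩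
      rcases Nat.le_total j j' with hle | hle
      · obtain ⟨d, rfl⟩ := Nat.exists_eq_add_of_le hle
        rw [pow_add, ← mul_assoc, mul_comm (orderOf (q : ZMod p)) (p ^ j), mul_assoc] at hj'
        have h3 := Nat.eq_of_mul_eq_mul_left (pow_pos hp.pos j) hj'
        rcases Nat.eq_zero_or_pos d with hd | hd
        · subst hd
          rw [pow_zero, mul_one] at h3
          exact h3.symm
        · exfalso
          apply hn
          rw [h3]
          exact Dvd.dvd.mul_left (dvd_pow_self p hd.ne') _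
      · obtain ⟨d, rfl⟩ := Nat.exists_eq_add_of_le hle
        rw [pow_add, mul_comm (orderOf (q : ZMod p)) (p ^ j'), mul_assoc] at hj'
        have h3 := Nat.eq_of_mul_eq_mul_left (pow_pos hp.pos j') hj'
        rcases Nat.eq_zero_or_pos d with hd | hd
        · subst hd
          rw [pow_zero, one_mul] at h3
          exact h3.symm
        · exfalso
          apply hpe
          rw [← h3]
          exact Dvd.dvd.mul_right (dvd_pow_self p hd.ne') _

end Cfsg.Agent.S4230
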