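import Cfsg.Statements.S4244
import Mathlib

set_option autoImplicit false
open Cfsg

namespace Cfsg.Agent.S4244

theorem relIndex_dvd_index_of_normal_right {G : Type*} [Group G] [Finite G]
    (N K : Subgroup G) [N.Normal] : K.relIndex N ∣ K.index := by
  have h1 : K.relIndex N * N.index = (N ⊓ K).index := by
    rw [← Subgroup.inf_relIndex_left N K]
    exact Subgroup.relIndex_mul_index inf_le_left
  have h2 : N.relIndex K * K.index = (N ⊓ K).index := by
    rw [← Subgroup.inf_relIndex_right N K]
    exact Subgroup.relIndex_mul_index inf_le_right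
  obtain ⟨t, ht⟩ := Subgroup.relIndex_dvd_index_of_normal N K
  have hb : N.relIndex K ≠ 0 := by
    unfold Subgroup.relIndex
    exact Subgroup.index_ne_zero_of_finite
  refine ⟨t, ?_⟩
  have h3 : N.relIndex K * K.index = N.relIndex K * (K.relIndex N * t) := by
    rw [h2, ← h1, ht]; ring
  exact Nat.eq_of_mul_eq_mul_left (Nat.pos_of_ne_zero hb) h3

theorem result {G : Type*} [Group G] [Finite G] (H : Subgroup G) (hH : H.IsSubnormal) (K : Subgroup G) :
    (H ⊓ K).relIndex H ∣ K.index := by
  induction hH with
  | top =>
    rw [top_inf_eq, Subgroup.relIndex_top_right]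
  | step H M h_le hSubn hN ih =>
    refine dvd_trans ?_ ih
    rw [Subgroup.inf_relIndex_left, Subgroup.inf_relIndex_left]
    have h1 := relIndex_dvd_index_of_normal_right (H.subgroupOf M) (K.subgroupOf M)
    rw [Subgroup.relIndex_subgroupOf h_le] at h1
    exact h1

end Cfsg.Agent.S4244
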