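import Cfsg.Statements.S4250
import Cfsg.Agent.Helper4.Alperin2

set_option autoImplicit false
open Cfsg

namespace Cfsg.Agent.S4250

/-- Let P be a Sylow p-subgroup of a finite group G. Call an intersection H = P ∩ Q with a Sylow p-subgroup Q tame when N_P(H) and N_Q(H) are Sylow p-subgroups of N_G(H). Then P ∩ G′ is generated by [P, N_G(P)] together with the commutator subgroups [P ∩ Q, ⟨x⟩] for all tame intersections P ∩ Q and all p-elements x of N_G(P ∩ Q). -/
theorem result {G : Type*} [Group G] [Finite G] (p : ℕ) [Fact p.Prime] (P : Sylow p G) :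
    (P : Subgroup G) ⊓ commutator G =
      ⁅(P : Subgroup G), Subgroup.normalizer ((P : Subgroup G) : Set G)⁆ ⊔
        ⨆ (Q : Sylow p G) (_ : (¬ p ∣ ((P : Subgroup G) ⊓ Subgroup.normalizer (((P : Subgroup G) ⊓ (Q : Subgroup G) : Subgroup G) : Set G)).relIndex (Subgroup.normalizer (((P : Subgroup G) ⊓ (Q : Subgroup G) : Subgroup G) : Set G)) ∧ ¬ p ∣ ((Q : Subgroup G) ⊓ Subgroup.normalizer (((P : Subgroup G) ⊓ (Q : Subgroup G) : Subgroup G) : Set G)).relIndex (Subgroup.normalizer (((P : Subgroup G) ⊓ (Q : Subgroup G) : Subgroup G) : Set G))))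
          (x : G) (_ : x ∈ Subgroup.normalizer (((P : Subgroup G) ⊓ (Q : Subgroup G) : Subgroup G) : Set G) ∧ ∃ k : ℕ, orderOf x = p ^ k),
          ⁅(P : Subgroup G) ⊓ (Q : Subgroup G), Subgroup.zpowers x⁆ := by
  classical
  apply le_antisymm
  · -- ≤ : focal subgroup theorem + Alperin
    have hfoc := Subgroup.commutator_inf_eq_focalSubgroup P
    rw [inf_comm, hfoc, Subgroup.focalSubgroup_def, Subgroup.closure_le]
    rintro g ⟨hgP, a, haP, u, rfl⟩
    rw [commutatorElement_def] at hgP ⊢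
    have hA : ({a⁻¹} : Set G) ⊆ ((P : Subgroup G) : Set G) :=
      Set.singleton_subset_iff.mpr (inv_mem haP)
    have hAg : Helper4.rconj ({a⁻¹} : Set G) u⁻¹ ⊆ ((P : Subgroup G) : Set G) := by
      rintro _ ⟨b, hb, rfl⟩
      rw [Set.mem_singleton_iff] at hb
      subst hb
      have e : (u⁻¹)⁻¹ * a⁻¹ * u⁻¹ = a⁻¹ * (a * u * a⁻¹ * u⁻¹) := by group
      show (u⁻¹)⁻¹ * a⁻¹ * u⁻¹ ∈ (P : Subgroup G)
      rw [e]
      exact mul_mem (inv_mem haP) hgP
    have hc := Helper4.alperin_tame P _ u⁻¹ hA hAg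
    have key : ∀ (A : Set G) (w : G), Helper4.TChain p P A w → ∀ b ∈ A,
        b⁻¹ * (w⁻¹ * b * w) ∈
        ⁅(P : Subgroup G), Subgroup.normalizer ((P : Subgroup G) : Set G)⁆ ⊔
        ⨆ (Q : Sylow p G) (_ : (¬ p ∣ ((P : Subgroup G) ⊓ Subgroup.normalizer (((P : Subgroup G) ⊓ (Q : Subgroup G) : Subgroup G) : Set G)).relIndex (Subgroup.normalizer (((P : Subgroup G) ⊓ (Q : Subgroup G) : Subgroup G) : Set G)) ∧ ¬ p ∣ ((Q : Subgroup G) ⊓ Subgroup.normalizer (((P : Subgroup G) ⊓ (Q : Subgroup G) : Subgroup G) : Set G)).relIndex (Subgroup.normalizer (((P : Subgroup G) ⊓ (Q : Subgroup G) : Subgroup G) : Set G))))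
          (x : G) (_ : x ∈ Subgroup.normalizer (((P : Subgroup G) ⊓ (Q : Subgroup G) : Subgroup G) : Set G) ∧ ∃ k : ℕ, orderOf x = p ^ k),
          ⁅(P : Subgroup G) ⊓ (Q : Subgroup G), Subgroup.zpowers x⁆ := by
      intro A w h
      induction h with
      | nil A =>
        intro b _
        have e : b⁻¹ * ((1 : G)⁻¹ * b * 1) = 1 := by group
        rw [e]
        exact Subgroup.one_mem _
      | cons A Q x g ht hx hor hA _ ih =>
        intro b hb
        have hbD : b ∈ (P : Subgroup G) ⊓ (Q : Subgroup G) := hA hb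
        have h1 := ih (x⁻¹ * b * x) ⟨b, hb, rfl⟩
        have e0 : b⁻¹ * (x⁻¹ * b * x) = b⁻¹ * x⁻¹ * (b⁻¹)⁻¹ * (x⁻¹)⁻¹ := by group
        have h2 : b⁻¹ * (x⁻¹ * b * x) ∈
            ⁅(P : Subgroup G), Subgroup.normalizer ((P : Subgroup G) : Set G)⁆ ⊔
            ⨆ (Q : Sylow p G) (_ : (¬ p ∣ ((P : Subgroup G) ⊓ Subgroup.normalizer (((P : Subgroup G) ⊓ (Q : Subgroup G) : Subgroup G) : Set G)).relIndex (Subgroup.normalizer (((P : Subgroup G) ⊓ (Q : Subgroup G) : Subgroup G) : Set G)) ∧ ¬ p ∣ ((Q : Subgroup G) ⊓ Subgroup.normalizer (((P : Subgroup G) ⊓ (Q : Subgroup G) : Subgroup G) : Set G)).relIndex (Subgroup.normalizer (((P : Subgroup G) ⊓ (Q : Subgroup G) : Subgroup G) : Set G))))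
              (x : G) (_ : x ∈ Subgroup.normalizer (((P : Subgroup G) ⊓ (Q : Subgroup G) : Subgroup G) : Set G) ∧ ∃ k : ℕ, orderOf x = p ^ k),
              ⁅(P : Subgroup G) ⊓ (Q : Subgroup G), Subgroup.zpowers x⁆ := by
          rcases hor with hQP | ⟨k, hk⟩
          · have hxN : x ∈ Subgroup.normalizer ((P : Subgroup G) : Set G) := by
              rw [hQP, inf_idem] at hx; exact hx
            have hbP : b ∈ (P : Subgroup G) := (Subgroup.mem_inf.mp hbD).1
            have h3 := Subgroup.commutator_mem_commutator (inv_mem hbP) (inv_mem hxN)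
            rw [commutatorElement_def] at h3
            rw [e0]
            exact Subgroup.mem_sup_left h3
          · have h3 := Subgroup.commutator_mem_commutator (inv_mem hbD)
              (inv_mem (Subgroup.mem_zpowers x))
            rw [commutatorElement_def] at h3
            rw [e0]
            apply Subgroup.mem_sup_right
            exact Subgroup.mem_iSup_of_mem Q (Subgroup.mem_iSup_of_mem ht
              (Subgroup.mem_iSup_of_mem x (Subgroup.mem_iSup_of_mem ⟨hx, k, hk⟩ h3)))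
        have e : b⁻¹ * ((x * g)⁻¹ * b * (x * g)) =
            (b⁻¹ * (x⁻¹ * b * x)) * ((x⁻¹ * b * x)⁻¹ * (g⁻¹ * (x⁻¹ * b * x) * g)) := by group
        rw [e]
        exact mul_mem h2 h1
    have h3 := key _ _ hc a⁻¹ rfl
    have e : (a⁻¹)⁻¹ * ((u⁻¹)⁻¹ * a⁻¹ * u⁻¹) = a * u * a⁻¹ * u⁻¹ := by group
    rw [e] at h3
    exact h3
  · -- ≥
    apply sup_le
    · rw [Subgroup.commutator_le]
      intro a ha n hn
      refine Subgroup.mem_inf.mpr ⟨?_, Subgroup.commutator_mem_commutator (Subgroup.mem_top a) (Subgroup.mem_top n)⟩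
      have h1 : n * a⁻¹ * n⁻¹ ∈ (P : Subgroup G) :=
        (Subgroup.mem_normalizer_iff.mp hn a⁻¹).mp (inv_mem ha)
      have e : a * n * a⁻¹ * n⁻¹ = a * (n * a⁻¹ * n⁻¹) := by group
      rw [commutatorElement_def, e]
      exact mul_mem ha h1
    · apply iSup_le; intro Q
      apply iSup_le; intro ht
      apply iSup_le; intro x
      apply iSup_le; rintro ⟨hx, k, hk⟩
      rw [Subgroup.commutator_le]
      intro d hd z hz
      refine Subgroup.mem_inf.mpr ⟨?_, Subgroup.commutator_mem_commutator (Subgroup.mem_top d) (Subgroup.mem_top z)⟩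
      have hzN : z ∈ Subgroup.normalizer (((P : Subgroup G) ⊓ (Q : Subgroup G) : Subgroup G) : Set G) :=
        (Subgroup.zpowers_le.mpr hx) hz
      have h1 : z * d⁻¹ * z⁻¹ ∈ (P : Subgroup G) ⊓ (Q : Subgroup G) :=
        (Subgroup.mem_normalizer_iff.mp hzN d⁻¹).mp (inv_mem hd)
      have e : d * z * d⁻¹ * z⁻¹ = d * (z * d⁻¹ * z⁻¹) := by group
      rw [commutatorElement_def, e]
      exact (Subgroup.mem_inf.mp (mul_mem hd h1)).1

end Cfsg.Agent.S4250
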