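import Cfsg.Statements.S4251
import Mathlib
import Cfsg.Agent.Helper6.Tame
-- import your own Cfsg.Agent.* helpers here

set_option autoImplicit false
open Cfsg

namespace Cfsg.Agent.S4251

/-- Let P be a Sylow p-subgroup of a finite group G. Call an intersection H = P ∩ Q with a Sylow p-subgroup Q tame when N_P(H) and N_Q(H) are Sylow p-subgroups of N_G(H). If N_G(H)/C_G(H) is a p-group for every nontrivial tame intersection H = P ∩ Q, then G has a normal p-complement. -/
theorem result {G : Type*} [Group G] [Finite G] (p : ℕ) [Fact p.Prime] (P : Sylow p G)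
    (h : ∀ Q : Sylow p G, (P : Subgroup G) ⊓ (Q : Subgroup G) ≠ ⊥ → (¬ p ∣ ((P : Subgroup G) ⊓ Subgroup.normalizer (((P : Subgroup G) ⊓ (Q : Subgroup G) : Subgroup G) : Set G)).relIndex (Subgroup.normalizer (((P : Subgroup G) ⊓ (Q : Subgroup G) : Subgroup G) : Set G)) ∧ ¬ p ∣ ((Q : Subgroup G) ⊓ Subgroup.normalizer (((P : Subgroup G) ⊓ (Q : Subgroup G) : Subgroup G) : Set G)).relIndex (Subgroup.normalizer (((P : Subgroup G) ⊓ (Q : Subgroup G) : Subgroup G) : Set G))) →
      IsPGroup p (Subgroup.normalizer (((P : Subgroup G) ⊓ (Q : Subgroup G) : Subgroup G) : Set G) ⧸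
        (Subgroup.centralizer (((P : Subgroup G) ⊓ (Q : Subgroup G) : Subgroup G) : Set G)).subgroupOf
          (Subgroup.normalizer (((P : Subgroup G) ⊓ (Q : Subgroup G) : Subgroup G) : Set G)))) :
    Cfsg.HasNormalPComplement p G := by
  have hfac : ∀ (Q : Sylow p G) (D : Subgroup G), D = (P : Subgroup G) ⊓ (Q : Subgroup G) →
      D ≠ ⊥ →
      ¬ p ∣ ((P : Subgroup G) ⊓ Subgroup.normalizer (D : Set G)).relIndex
        (Subgroup.normalizer (D : Set G)) →
      ¬ p ∣ ((Q : Subgroup G) ⊓ Subgroup.normalizer (D : Set G)).relIndex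
        (Subgroup.normalizer (D : Set G)) →
      ∀ (S : Sylow p ↥(Subgroup.normalizer (D : Set G)))
        (n : ↥(Subgroup.normalizer (D : Set G))),
        ∃ c ∈ Subgroup.centralizer (D : Set G), ∃ s ∈ S, (n : G) = c * (s : G) := by
    intro Q D hD hDbot ht1 ht2 S n
    subst hD
    have hQ := h Q hDbot ⟨ht1, ht2⟩
    obtain ⟨c, hc, s, hs, hn⟩ := Cfsg.Agent.Helper6.exists_mul_of_quot_isPGroup p _ hQ S n
    exact ⟨c, hc, s, hs, by rw [hn]; rfl⟩
  apply Cfsg.Agent.Helper6.hasNormalPComplement_of_frobCond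
  apply Cfsg.Agent.Helper6.frobCond_of_fusion_omega P
  intro x hx _ g hgx
  by_cases hPbot : (P : Subgroup G) = ⊥
  · have hx1 : x = 1 := by rw [hPbot] at hx; exact Subgroup.mem_bot.mp hx
    exact ⟨1, one_mem _, by rw [hx1]; group⟩
  apply Cfsg.Agent.Helper6.fusion_of_conj_factor P
    (fun Q => Cfsg.Agent.Helper6.sylow_conj_centralizer_tame P hfac _ Q rfl) ?_ x g hx hgx
  intro n hn
  have hPP : (P : Subgroup G) = (P : Subgroup G) ⊓ (P : Subgroup G) := (inf_idem _).symm
  have htame : ¬ p ∣ ((P : Subgroup G) ⊓ Subgroup.normalizer ((P : Subgroup G) : Set G)).relIndex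
      (Subgroup.normalizer ((P : Subgroup G) : Set G)) := by
    apply Cfsg.Agent.Helper6.not_dvd_relIndex_of_sylow_le _ (P : Subgroup G)
      (P.subtype Subgroup.le_normalizer)
    intro s hs
    have h0 : s ∈ ((P.subtype Subgroup.le_normalizer : Sylow p _) : Subgroup _) := hs
    rw [Sylow.coe_subtype, Subgroup.mem_subgroupOf] at h0
    exact h0
  obtain ⟨c', hc', s, hs, hfac'⟩ := hfac P (P : Subgroup G) hPP hPbot htame htame
    (P.subtype Subgroup.le_normalizer) ⟨n, hn⟩
  have hsP : (s : G) ∈ (P : Subgroup G) := by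
    have h0 : s ∈ ((P.subtype Subgroup.le_normalizer : Sylow p _) : Subgroup _) := hs
    rw [Sylow.coe_subtype, Subgroup.mem_subgroupOf] at h0
    exact h0
  exact ⟨c', hc', s, hsP, hfac'⟩

end Cfsg.Agent.S4251
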