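import Cfsg.Statements.S4252
-- import your own Cfsg.Agent.* helpers here

set_option autoImplicit false
open Cfsg

namespace Cfsg.Agent.S4252

/-- Let a finite group G act on a finite set Ω with more than one point, transitively but not regularly, so that no non-identity element of G fixes two distinct points. Then the stabilizer H of any point is a Frobenius complement in G (nontrivial, proper, meeting its other conjugates trivially), and the Frobenius kernel of G with respect to H (the identity together with the elements lying in no conjugate of H) is exactly the set consisting of the identity and the elements fixing no point. -/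
theorem result {G Ω : Type*} [Group G] [Finite G] [Fintype Ω] [MulAction G Ω] (hΩ : 1 < Fintype.card Ω)
    (htrans : ∀ α β : Ω, ∃ g : G, g • α = β) (hnreg : ∃ g : G, g ≠ 1 ∧ ∃ α : Ω, g • α = α)
    (hfix : ∀ g : G, g ≠ 1 → ∀ α β : Ω, g • α = α → g • β = β → α = β) (α : Ω) :
    Cfsg.IsFrobeniusComplement (MulAction.stabilizer G α) ∧
      Cfsg.frobeniusKernel (MulAction.stabilizer G α) = {g : G | g = 1 ∨ ∀ ω : Ω, g • ω ≠ ω} := by
  classical
  open scoped Pointwise in
  have hmem : ∀ (g x : G) (K : Subgroup G), K = MulAction.stabilizer G α →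
      (x ∈ MulAut.conj g • K ↔ x • (g • α) = g • α) := by
    intro g x K hK
    rw [Subgroup.mem_pointwise_smul_iff_inv_smul_mem, hK, MulAction.mem_stabilizer_iff]
    have e : (MulAut.conj g)⁻¹ • x = g⁻¹ * x * g := by
      simp [MulAut.smul_def, MulAut.conj_apply]
    rw [e, mul_smul, mul_smul, inv_smul_eq_iff]
  refine ⟨⟨?_, ?_, ?_⟩, ?_⟩
  · obtain ⟨g, hg1, β, hgβ⟩ := hnreg
    obtain ⟨u, hu⟩ := htrans β α
    intro hbot
    have h1 : u * g * u⁻¹ ∈ MulAction.stabilizer G α := by
      rw [MulAction.mem_stabilizer_iff, mul_smul, mul_smul, ← hu, inv_smul_smul, hgβ]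
    rw [hbot, Subgroup.mem_bot] at h1
    apply hg1
    have e : g = u⁻¹ * (u * g * u⁻¹) * u := by group
    rw [e, h1]
    group
  · obtain ⟨β, hβ⟩ := Fintype.exists_ne_of_one_lt_card hΩ α
    obtain ⟨g, hg⟩ := htrans α β
    intro htop
    have h1 : g ∈ MulAction.stabilizer G α := by rw [htop]; exact Subgroup.mem_top g
    rw [MulAction.mem_stabilizer_iff, hg] at h1
    exact hβ h1
  · intro g hg
    rw [eq_bot_iff]
    intro x hx
    obtain ⟨hx1, hx2⟩ := Subgroup.mem_inf.mp hx
    rw [hmem g x _ rfl] at hx2
    rw [MulAction.mem_stabilizer_iff] at hx1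
    rw [Subgroup.mem_bot]
    by_contra hne
    have h1 := hfix x hne α (g • α) hx1 hx2
    exact hg (MulAction.mem_stabilizer_iff.mpr h1.symm)
  · ext x
    unfold Cfsg.frobeniusKernel
    simp only [Set.mem_setOf_eq]
    constructor
    · rintro (h | h)
      · exact Or.inl h
      · right
        intro ω hω
        obtain ⟨g, hg⟩ := htrans α ω
        apply h g
        rw [hmem g x _ rfl, hg]
        exact hω
    · rintro (h | h)
      · exact Or.inl h
      · right
        intro g hg
        rw [hmem g x _ rfl] at hg
        exact h _ hg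

end Cfsg.Agent.S4252
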