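import Cfsg.Statements.S4253
-- import your own Cfsg.Agent.* helpers here

set_option autoImplicit false
open Cfsg

namespace Cfsg.Agent.S4253

/-- Let H be a Frobenius complement in a finite group G (a nontrivial proper subgroup meeting each conjugate gHg⁻¹ with g outside H trivially). Then in the action of G on the left cosets of H by left multiplication, no non-identity element of G fixes two distinct cosets. -/
theorem result {G : Type*} [Group G] [Finite G] (H : Subgroup G) (hH : Cfsg.IsFrobeniusComplement H)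
    (g : G) (hg : g ≠ 1) (a b : G ⧸ H) (ha : g • a = a) (hb : g • b = b) : a = b := by
  classical
  obtain ⟨-, -, hF⟩ := hH
  induction a using QuotientGroup.induction_on with
  | H x =>
  induction b using QuotientGroup.induction_on with
  | H y =>
  by_contra hne
  have hx : x⁻¹ * g * x ∈ H := by
    have h1 : ((g * x : G) : G ⧸ H) = (x : G ⧸ H) := ha
    rw [QuotientGroup.eq] at h1
    have h2 := H.inv_mem h1
    have e : ((g * x)⁻¹ * x)⁻¹ = x⁻¹ * g * x := by group
    rwa [e] at h2
  have hy : y⁻¹ * g * y ∈ H := by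
    have h1 : ((g * y : G) : G ⧸ H) = (y : G ⧸ H) := hb
    rw [QuotientGroup.eq] at h1
    have h2 := H.inv_mem h1
    have e : ((g * y)⁻¹ * y)⁻¹ = y⁻¹ * g * y := by group
    rwa [e] at h2
  have hc : x⁻¹ * y ∉ H := by
    intro h
    apply hne
    exact QuotientGroup.eq.mpr h
  have h3 := hF (x⁻¹ * y) hc
  have h5 : x⁻¹ * g * x ∈ (⊥ : Subgroup G) := by
    rw [← h3]
    refine Subgroup.mem_inf.mpr ⟨hx, ?_⟩
    rw [Subgroup.mem_pointwise_smul_iff_inv_smul_mem]
    have e : (MulAut.conj (x⁻¹ * y))⁻¹ • (x⁻¹ * g * x) = y⁻¹ * g * y := by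
      simp [MulAut.smul_def, MulAut.conj_apply, mul_assoc]
    rw [e]
    exact hy
  rw [Subgroup.mem_bot] at h5
  apply hg
  have e : g = x * (x⁻¹ * g * x) * x⁻¹ := by group
  rw [e, h5]
  group

end Cfsg.Agent.S4253
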