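import Cfsg.Statements.S4260
import Mathlib

set_option autoImplicit false
open Cfsg

namespace Cfsg.Agent.S4260

theorem result {G : Type*} [Group G] [Finite G] (H : Subgroup G) (hHall : (Nat.card H).Coprime H.index)
    (hexp : ∀ x : G, x ^ H.index ∈ H) : H.Normal := by
  have key : ∀ x : G, x ∈ H ↔ x ^ (Nat.card H) = 1 := by
    intro x
    constructor
    · intro hx
      have h1 : (⟨x, hx⟩ : H) ^ (Nat.card H) = 1 := pow_card_eq_one'
      have h2 := congrArg Subtype.val h1
      rw [Subgroup.coe_pow] at h2
      exact h2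
    · intro hx
      have hd : orderOf x ∣ Nat.card H := orderOf_dvd_of_pow_eq_one hx
      have hcop : Nat.Coprime H.index (orderOf x) :=
        (Nat.Coprime.coprime_dvd_left hd hHall).symm
      obtain ⟨k, hk⟩ := exists_pow_eq_self_of_coprime hcop
      rw [← hk]
      exact H.pow_mem (hexp x) k
  constructor
  intro n hn g
  rw [key] at hn ⊢
  rw [conj_pow, hn]
  simp

end Cfsg.Agent.S4260
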