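import Cfsg.Statements.S4263
import Mathlib
import Cfsg.Agent.Helper7.NilpPow
import Cfsg.Agent.Lead.Fitting
import Cfsg.Agent.S0010
import Cfsg.Agent.Helper4.Cores

namespace Cfsg.Agent.S4263

open Cfsg

theorem result {G : Type*} [Group G] [Finite G] (x : G) :
    x ∈ Cfsg.fittingSubgroup G ↔ ∀ H : Subgroup G, x ^ H.index ∈ H := by
  classical
  haveI hFn : (Cfsg.fittingSubgroup G).Normal := Cfsg.Agent.Helper4.fittingSubgroup_normal G
  constructor
  · intro hx H
    exact Cfsg.Agent.Helper7.pow_index_mem_of_mem_normal_nilpotent (Cfsg.fittingSubgroup G)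
      Cfsg.Agent.Lead.fitting_isNilpotent H x hx
  · intro h
    rw [← QuotientGroup.eq_one_iff, ← orderOf_eq_one_iff]
    by_contra hne
    obtain ⟨p, hp, hpd⟩ := Nat.exists_prime_and_dvd hne
    haveI : Fact p.Prime := ⟨hp⟩
    obtain ⟨P₀⟩ : Nonempty (Sylow p G) := inferInstance
    have hidx : ∀ Q : Sylow p G, (Q : Subgroup G).index = (P₀ : Subgroup G).index := by
      intro Q
      have h1 := Subgroup.card_mul_index (Q : Subgroup G)
      have h2 := Subgroup.card_mul_index (P₀ : Subgroup G)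
      rw [Sylow.card_eq_multiplicity] at h1 h2
      have hpos : 0 < p ^ (Nat.card G).factorization p := pow_pos hp.pos _
      exact Nat.eq_of_mul_eq_mul_left hpos (h1.trans h2.symm)
    have hmem : x ^ (P₀ : Subgroup G).index ∈ Cfsg.pCore p G := by
      rw [Cfsg.Agent.S0010.result, Subgroup.mem_iInf]
      intro Q
      rw [← hidx Q]
      exact h Q
    have hle : Cfsg.pCore p G ≤ Cfsg.fittingSubgroup G := by
      rw [Cfsg.Agent.Lead.fitting_eq_iSup_pCore]
      exact le_iSup (fun q : Nat.Primes => Cfsg.pCore (q : ℕ) G) (⟨p, hp⟩ : Nat.Primes)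
    have h3 : ((x : G ⧸ Cfsg.fittingSubgroup G)) ^ (P₀ : Subgroup G).index = 1 := by
      rw [← QuotientGroup.mk_pow, QuotientGroup.eq_one_iff]
      exact hle hmem
    have h4 := orderOf_dvd_of_pow_eq_one h3
    exact P₀.not_dvd_index (hpd.trans h4)

end Cfsg.Agent.S4263
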