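import Cfsg.Statements.S4269
import Cfsg.Agent.Helper4.Pronormal
import Cfsg.Agent.Helper8.GroupFusion

set_option autoImplicit false
open Cfsg

namespace Cfsg.Agent.S4269

/-- Let G be a finite group, V an abelian normal subgroup and H a subgroup with HV = G. Then H is pronormal in G (H and gHg⁻¹ are conjugate inside the subgroup they generate, for every g) if and only if every H-invariant subgroup U of V satisfies U = N_U(H)·[H, U], that is, U is the join of U ∩ N_G(H) and the commutator subgroup [H, U]. -/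
theorem result {G : Type*} [Group G] [Finite G]
    (V : Subgroup G) [V.Normal] (hV : IsMulCommutative ↥V) (H : Subgroup G) (hHV : H ⊔ V = ⊤) :
    Cfsg.IsPronormal H ↔
      ∀ U : Subgroup G, U ≤ V → (∀ h ∈ H, U.map (MulAut.conj h).toMonoidHom = U) →
        U = (U ⊓ Subgroup.normalizer (H : Set G)) ⊔ ⁅H, U⁆ := by
  classical
  have hcomm : ∀ a ∈ V, ∀ b ∈ V, a * b = b * a := by
    intro a ha b hb
    have h1 := hV.is_comm.comm ⟨a, ha⟩ ⟨b, hb⟩
    exact congrArg Subtype.val h1
  have hVn : ∀ (g v : G), v ∈ V → g * v * g⁻¹ ∈ V := fun g v hv =>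
    (inferInstance : V.Normal).conj_mem v hv g
  have hHself : ∀ h ∈ H, H.map (MulAut.conj h).toMonoidHom = H := fun h hh =>
    (Helper4.mem_normalizer_iff_map_conj H h).mp (Subgroup.le_normalizer hh)
  constructor
  · intro hpro U hUV hUH
    have hHU : ∀ h ∈ H, ∀ u ∈ U, h * u * h⁻¹ ∈ U := by
      intro h hh u hu
      have h1 : h * u * h⁻¹ ∈ U.map (MulAut.conj h).toMonoidHom := ⟨u, hu, rfl⟩
      rwa [hUH h hh] at h1
    have hcomHU : ⁅H, U⁆ ≤ U := by
      rw [Subgroup.commutator_le]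
      intro h hh u hu
      rw [commutatorElement_def]
      exact U.mul_mem (hHU h hh u hu) (U.inv_mem hu)
    have hnorm : H ≤ Subgroup.normalizer ((⁅H, U⁆ : Subgroup G) : Set G) := by
      intro h hh
      rw [Helper4.mem_normalizer_iff_map_conj, Subgroup.map_commutator, hHself h hh, hUH h hh]
    apply le_antisymm
    · intro u hu
      obtain ⟨x, hx, hHx⟩ := hpro u
      have h1 : H.map (MulAut.conj u).toMonoidHom ≤ H ⊔ ⁅H, U⁆ := by
        intro y hy
        rw [Helper4.mem_map_conj_iff] at hy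
        have h3 : y = (u * (u⁻¹ * y * u) * u⁻¹ * (u⁻¹ * y * u)⁻¹) * (u⁻¹ * y * u) := by group
        rw [h3]
        refine Subgroup.mul_mem _ (Subgroup.mem_sup_right ?_) (Subgroup.mem_sup_left hy)
        have h4 := Subgroup.inv_mem _ (Subgroup.commutator_mem_commutator hy hu)
        rw [commutatorElement_def] at h4
        have h5 : u * (u⁻¹ * y * u) * u⁻¹ * (u⁻¹ * y * u)⁻¹
            = ((u⁻¹ * y * u) * u * (u⁻¹ * y * u)⁻¹ * u⁻¹)⁻¹ := by group
        rw [h5]
        exact h4
      have hx' : x ∈ H ⊔ ⁅H, U⁆ := (sup_le le_sup_left h1) hx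
      obtain ⟨a, ha, b, hb, hxab⟩ := Helper8.mem_sup_of_le_normalizer hnorm hx'
      have hn : x⁻¹ * u ∈ Subgroup.normalizer (H : Set G) := by
        rw [Helper4.mem_normalizer_iff_map_conj, Helper4.map_conj_mul, hHx, ← Helper4.map_conj_mul,
          inv_mul_cancel, Helper4.map_conj_one]
      have hb' : a * b * a⁻¹ ∈ ⁅H, U⁆ := (Subgroup.mem_normalizer_iff.mp (hnorm ha) b).mp hb
      have hn2 : (a * b * a⁻¹)⁻¹ * u ∈ Subgroup.normalizer (H : Set G) := by
        have h3 : (a * b * a⁻¹)⁻¹ * u = a * (x⁻¹ * u) := by rw [hxab]; group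
        rw [h3]
        exact Subgroup.mul_mem _ (Subgroup.le_normalizer ha) hn
      have h5 : u = (a * b * a⁻¹) * ((a * b * a⁻¹)⁻¹ * u) := by group
      rw [h5]
      exact Subgroup.mul_mem _ (Subgroup.mem_sup_right hb') (Subgroup.mem_sup_left
        (Subgroup.mem_inf.mpr ⟨U.mul_mem (U.inv_mem (hcomHU hb')) hu, hn2⟩))
    · exact sup_le inf_le_left hcomHU
  · intro hcond g
    have hg : g ∈ V ⊔ H := by rw [sup_comm, hHV]; trivial
    open scoped Pointwise in
    have hg' : ∃ v ∈ V, ∃ h ∈ H, v * h = g := by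
      have hset : ((V ⊔ H : Subgroup G) : Set G) = (V : Set G) * (H : Set G) := Subgroup.normal_mul V H
      have hg'' : g ∈ (V : Set G) * (H : Set G) := by
        rw [← hset]; exact hg
      exact Set.mem_mul.mp hg''
    obtain ⟨v, hv, h, hh, rfl⟩ := hg'
    have hHg : H.map (MulAut.conj (v * h)).toMonoidHom = H.map (MulAut.conj v).toMonoidHom := by
      rw [Helper4.map_conj_mul, hHself h hh]
    rw [hHg]
    have hXnorm : ((H ⊔ H.map (MulAut.conj v).toMonoidHom) ⊓ V).Normal := by
      rw [← Subgroup.normalizer_eq_top_iff, eq_top_iff, ← hHV]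
      apply sup_le
      · intro h' hh'
        apply Subgroup.mem_normalizer_fintype
        intro x hx
        obtain ⟨hxL, hxV⟩ := Subgroup.mem_inf.mp hx
        exact Subgroup.mem_inf.mpr ⟨Subgroup.mul_mem _ (Subgroup.mul_mem _ (Subgroup.mem_sup_left hh') hxL)
          (Subgroup.inv_mem _ (Subgroup.mem_sup_left hh')), hVn h' x hxV⟩
      · intro w hw
        apply Subgroup.mem_normalizer_fintype
        intro x hx
        have hxV := (Subgroup.mem_inf.mp hx).2
        have h3 : w * x * w⁻¹ = x := by rw [hcomm w hw x hxV]; group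
        rw [h3]; exact hx
    have hXinst := hXnorm
    have hUV : Subgroup.normalClosure ({v} : Set G) ≤ V :=
      Subgroup.normalClosure_le_normal (by simpa using hv)
    have hUinv : ∀ h ∈ H, (Subgroup.normalClosure ({v} : Set G)).map (MulAut.conj h).toMonoidHom
        = Subgroup.normalClosure ({v} : Set G) := by
      intro h' _
      exact (Helper4.mem_normalizer_iff_map_conj _ h').mp (by
        rw [Subgroup.normalizer_eq_top]; trivial)
    have hU := hcond _ hUV hUinv
    have hvU : v ∈ Subgroup.normalClosure ({v} : Set G) :=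
      Subgroup.subset_normalClosure (Set.mem_singleton v)
    -- the key: commutators land in X
    have hkey : ∀ y : G, v * y * v⁻¹ * y⁻¹ ∈ (H ⊔ H.map (MulAut.conj v).toMonoidHom) ⊓ V := by
      intro y
      have hy : y ∈ V ⊔ H := by rw [sup_comm, hHV]; trivial
      open scoped Pointwise in
      have hy' : ∃ w ∈ V, ∃ h' ∈ H, w * h' = y := by
        have hset : ((V ⊔ H : Subgroup G) : Set G) = (V : Set G) * (H : Set G) := Subgroup.normal_mul V H
        have hy'' : y ∈ (V : Set G) * (H : Set G) := by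
          rw [← hset]; exact hy
        exact Set.mem_mul.mp hy''
      obtain ⟨w, hw, h', hh', rfl⟩ := hy'
      have h3 : v * (w * h') * v⁻¹ * (w * h')⁻¹ = w * (v * h' * v⁻¹ * h'⁻¹) * w⁻¹ := by
        have h4 : v * w = w * v := hcomm v hv w hw
        calc v * (w * h') * v⁻¹ * (w * h')⁻¹ = (v * w) * h' * v⁻¹ * h'⁻¹ * w⁻¹ := by group
          _ = (w * v) * h' * v⁻¹ * h'⁻¹ * w⁻¹ := by rw [h4]
          _ = w * (v * h' * v⁻¹ * h'⁻¹) * w⁻¹ := by group
      rw [h3]
      apply hXnorm.conj_mem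
      refine Subgroup.mem_inf.mpr ⟨?_, ?_⟩
      · exact Subgroup.mul_mem _ (Subgroup.mem_sup_right ⟨h', hh', rfl⟩)
          (Subgroup.mem_sup_left (H.inv_mem hh'))
      · have h5 : v * h' * v⁻¹ * h'⁻¹ = v * (h' * v⁻¹ * h'⁻¹) := by group
        rw [h5]
        exact V.mul_mem hv (hVn h' v⁻¹ (V.inv_mem hv))
    have hUD : Subgroup.normalClosure ({v} : Set G) ≤
        (Subgroup.center (G ⧸ ((H ⊔ H.map (MulAut.conj v).toMonoidHom) ⊓ V))).comap
          (QuotientGroup.mk' ((H ⊔ H.map (MulAut.conj v).toMonoidHom) ⊓ V)) := by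
      apply Subgroup.normalClosure_le_normal
      rw [Set.singleton_subset_iff]
      show QuotientGroup.mk' ((H ⊔ H.map (MulAut.conj v).toMonoidHom) ⊓ V) v ∈ Subgroup.center _
      rw [Subgroup.mem_center_iff]
      intro ybar
      obtain ⟨y, rfl⟩ := QuotientGroup.mk'_surjective ((H ⊔ H.map (MulAut.conj v).toMonoidHom) ⊓ V) ybar
      rw [← map_mul, ← map_mul]
      show ((y * v : G) : G ⧸ ((H ⊔ H.map (MulAut.conj v).toMonoidHom) ⊓ V)) = ((v * y : G) : G ⧸ _)
      rw [QuotientGroup.eq]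
      have h3 : (y * v)⁻¹ * (v * y) = (y * v)⁻¹ * (v * y * v⁻¹ * y⁻¹) * (y * v)⁻¹⁻¹ := by group
      rw [h3]
      exact hXnorm.conj_mem _ (hkey y) _
    have hcomX : ⁅H, Subgroup.normalClosure ({v} : Set G)⁆ ≤
        (H ⊔ H.map (MulAut.conj v).toMonoidHom) ⊓ V := by
      rw [Subgroup.commutator_le]
      intro h' hh' u hu
      have h1 := hUD hu
      have h2 : QuotientGroup.mk' ((H ⊔ H.map (MulAut.conj v).toMonoidHom) ⊓ V) u ∈ Subgroup.center _ := h1
      rw [Subgroup.mem_center_iff] at h2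
      have h3 := h2 (QuotientGroup.mk' _ h')
      rw [← map_mul, ← map_mul] at h3
      have h4 : ((h' * u : G) : G ⧸ ((H ⊔ H.map (MulAut.conj v).toMonoidHom) ⊓ V)) = ((u * h' : G) : G ⧸ _) := h3
      have h5 := QuotientGroup.eq.mp h4.symm
      rw [commutatorElement_def]
      have h6 : h' * u * h'⁻¹ * u⁻¹ = (u * h') * ((u * h')⁻¹ * (h' * u)) * (u * h')⁻¹ := by group
      rw [h6]
      exact hXnorm.conj_mem _ h5 _
    have hnorm2 : ⁅H, Subgroup.normalClosure ({v} : Set G)⁆ ≤ Subgroup.normalizer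
        ((Subgroup.normalClosure ({v} : Set G) ⊓ Subgroup.normalizer (H : Set G) : Subgroup G) : Set G) := by
      intro c hc
      have hcV : c ∈ V := (Subgroup.mem_inf.mp (hcomX hc)).2
      apply Subgroup.mem_normalizer_fintype
      intro x hx
      have hxV : x ∈ V := hUV (Subgroup.mem_inf.mp hx).1
      have h3 : c * x * c⁻¹ = x := by rw [hcomm c hcV x hxV]; group
      rw [h3]; exact hx
    have hv2 : v ∈ ⁅H, Subgroup.normalClosure ({v} : Set G)⁆ ⊔
        (Subgroup.normalClosure ({v} : Set G) ⊓ Subgroup.normalizer (H : Set G)) := by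
      rw [sup_comm, ← hU]; exact hvU
    obtain ⟨b, hb, n, hn, hvbn⟩ := Helper8.mem_sup_of_le_normalizer hnorm2 hv2
    refine ⟨b, (Subgroup.mem_inf.mp (hcomX hb)).1, ?_⟩
    have hHn : H.map (MulAut.conj n).toMonoidHom = H :=
      (Helper4.mem_normalizer_iff_map_conj H n).mp (Subgroup.mem_inf.mp hn).2
    rw [hvbn, Helper4.map_conj_mul, hHn]

end Cfsg.Agent.S4269
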