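import Cfsg.Statements.S4299
import Mathlib
import Cfsg.Agent.S4252

set_option autoImplicit false
open Cfsg

namespace Cfsg.Agent.S4299

/-- The group of affine maps `x ↦ v * x + b` of `ZMod p` with `v` a power of `u`. -/
def affSub (p : ℕ) [Fact p.Prime] (u : (ZMod p)ˣ) : Subgroup (Equiv.Perm (ZMod p)) where
  carrier := {σ | ∃ v ∈ Subgroup.zpowers u, ∃ b : ZMod p, ∀ x, σ x = (v : ZMod p) * x + b}
  mul_mem' := by
    rintro σ τ ⟨v, hv, b, hσ⟩ ⟨w, hw, c, hτ⟩
    refine ⟨v * w, Subgroup.mul_mem _ hv hw, (v : ZMod p) * c + b, fun x => ?_⟩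
    rw [Equiv.Perm.mul_apply, hτ, hσ, Units.val_mul]
    ring
  one_mem' := ⟨1, Subgroup.one_mem _, 0, fun x => by simp⟩
  inv_mem' := by
    rintro σ ⟨v, hv, b, hσ⟩
    refine ⟨v⁻¹, Subgroup.inv_mem _ hv, -(((v⁻¹ : (ZMod p)ˣ) : ZMod p) * b), fun x => ?_⟩
    rw [Equiv.Perm.inv_eq_iff_eq, hσ]
    have h1 : (v : ZMod p) * ((v⁻¹ : (ZMod p)ˣ) : ZMod p) = 1 := Units.mul_inv v
    calc x = ((v : ZMod p) * ((v⁻¹ : (ZMod p)ˣ) : ZMod p)) * x -
          ((v : ZMod p) * ((v⁻¹ : (ZMod p)ˣ) : ZMod p)) * b + b := by rw [h1]; ring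
      _ = (v : ZMod p) * (((v⁻¹ : (ZMod p)ˣ) : ZMod p) * x +
          -(((v⁻¹ : (ZMod p)ˣ) : ZMod p) * b)) + b := by ring

theorem affSub_smul (p : ℕ) [Fact p.Prime] (u : (ZMod p)ˣ) (g : affSub p u) (x : ZMod p) :
    g • x = (g : Equiv.Perm (ZMod p)) x := rfl

theorem stab_apply (p : ℕ) [Fact p.Prime] (u : (ZMod p)ˣ)
    (g : affSub p u) (hg : g • (0 : ZMod p) = 0) (x : ZMod p) :
    (g : Equiv.Perm (ZMod p)) x = (g : Equiv.Perm (ZMod p)) 1 * x := by
  obtain ⟨v, hv, b, hσ⟩ := g.2
  rw [affSub_smul, hσ, mul_zero, zero_add] at hg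
  rw [hσ, hσ, hg, mul_one, add_zero, add_zero]

/-- Every nontrivial finite cyclic group occurs as a Frobenius complement of some finite Frobenius group. -/
theorem result {C : Type*} [Group C] [Finite C] [IsCyclic C] [Nontrivial C] :
    ∃ (L : Type) (_ : Group L) (_ : Finite L) (H : Subgroup L), Cfsg.IsFrobeniusComplement H ∧ Nonempty (C ≃* H) := by
  have hn2 : 1 < Nat.card C := Finite.one_lt_card
  obtain ⟨p, hp, -, hpn⟩ := Nat.exists_prime_gt_modEq_one (k := Nat.card C) 0 (by omega)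
  haveI := Fact.mk hp
  have hdvd : Nat.card C ∣ p - 1 := (Nat.modEq_iff_dvd' hp.one_lt.le).1 hpn.symm
  obtain ⟨g, hg⟩ := IsCyclic.exists_ofOrder_eq_natCard (α := (ZMod p)ˣ)
  have hcardU : Nat.card (ZMod p)ˣ = p - 1 := by
    rw [Nat.card_units, Nat.card_zmod]
  rw [hcardU] at hg
  have hp1 : p - 1 ≠ 0 := by have := hp.two_le; omega
  obtain ⟨u, hu⟩ : ∃ u : (ZMod p)ˣ, orderOf u = Nat.card C := by
    refine ⟨g ^ ((p - 1) / Nat.card C), ?_⟩
    have h1 : (p - 1) / Nat.card C ∣ orderOf g := by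
      rw [hg]
      exact Nat.div_dvd_of_dvd hdvd
    have h2 : (p - 1) / Nat.card C ≠ 0 := by
      intro h0
      rw [h0, zero_dvd_iff] at h1
      rw [hg] at h1
      exact hp1 h1
    rw [orderOf_pow_of_dvd h2 h1, hg]
    exact Nat.div_div_self hdvd hp1
  have hu1 : u ≠ 1 := by
    rintro rfl
    rw [orderOf_one] at hu
    omega
  -- the Frobenius action
  have hfrob := (Cfsg.Agent.S4252.result (G := affSub p u) (Ω := ZMod p)
    (by rw [ZMod.card]; exact hp.one_lt)
    (by
      intro α β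
      refine ⟨⟨Equiv.addRight (β - α), ⟨1, Subgroup.one_mem _, β - α, fun x => by simp⟩⟩, ?_⟩
      rw [affSub_smul]
      simp)
    (by
      refine ⟨⟨Units.mulLeft u, ⟨u, Subgroup.mem_zpowers u, 0, fun x => by simp⟩⟩, ?_, 0, ?_⟩
      · intro h1
        have h2 := congrArg (fun g : affSub p u => (g : Equiv.Perm (ZMod p)) 1) h1
        simp only [Units.mulLeft_apply, mul_one, OneMemClass.coe_one, Equiv.Perm.coe_one, id_eq] at h2
        exact hu1 (Units.ext h2)
      · rw [affSub_smul]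
        simp)
    (by
      intro g hg1 α β hα hβ
      by_contra hne
      apply hg1
      obtain ⟨v, hv, b, hσ⟩ := g.2
      rw [affSub_smul, hσ] at hα hβ
      have h1 : ((v : ZMod p) - 1) * (α - β) = 0 := by
        calc ((v : ZMod p) - 1) * (α - β) = ((v : ZMod p) * α + b) - ((v : ZMod p) * β + b) - (α - β) := by
              ring
          _ = 0 := by rw [hα, hβ]; ring
      have h2 : (v : ZMod p) = 1 := by
        rcases mul_eq_zero.1 h1 with h | h
        · exact sub_eq_zero.1 h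
        · exact absurd (sub_eq_zero.1 h) hne
      have h3 : b = 0 := by
        rw [h2, one_mul] at hα
        exact add_eq_left.1 hα
      apply Subtype.ext
      apply Equiv.ext
      intro x
      rw [hσ, h2, h3]
      simp)
    (0 : ZMod p)).1
  -- the stabilizer is cyclic of the right order
  let ψ : MulAction.stabilizer (affSub p u) (0 : ZMod p) →* ZMod p :=
    { toFun := fun g => ((g : affSub p u) : Equiv.Perm (ZMod p)) 1
      map_one' := rfl
      map_mul' := by
        intro g h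
        show ((g : affSub p u) : Equiv.Perm (ZMod p)) (((h : affSub p u) : Equiv.Perm (ZMod p)) 1) = _
        rw [stab_apply p u g g.2] }
  have hψ : Function.Injective ψ := by
    intro g h hgh
    apply Subtype.ext
    apply Subtype.ext
    apply Equiv.ext
    intro x
    rw [stab_apply p u g g.2, stab_apply p u h h.2]
    have : ((g : affSub p u) : Equiv.Perm (ZMod p)) 1 = ((h : affSub p u) : Equiv.Perm (ZMod p)) 1 :=
      hgh
    rw [this]
  haveI hcyc : IsCyclic (MulAction.stabilizer (affSub p u) (0 : ZMod p)) :=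
    isCyclic_of_injective_ringHom ψ hψ
  have hcard : Nat.card (MulAction.stabilizer (affSub p u) (0 : ZMod p)) = Nat.card C := by
    rw [← hu, ← Nat.card_zpowers]
    symm
    apply Nat.card_congr
    refine Equiv.ofBijective (fun v => ⟨⟨Units.mulLeft (v : (ZMod p)ˣ),
      ⟨v, v.2, 0, fun x => by simp⟩⟩, by
        rw [MulAction.mem_stabilizer_iff, affSub_smul]
        simp⟩) ⟨?_, ?_⟩
    · intro v w hvw
      have h1 := congrArg (fun g : MulAction.stabilizer (affSub p u) (0 : ZMod p) =>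
        ((g : affSub p u) : Equiv.Perm (ZMod p)) 1) hvw
      simp only [Units.mulLeft_apply, mul_one] at h1
      exact Subtype.ext (Units.ext h1)
    · intro g
      obtain ⟨v, hv, b, hσ⟩ := (g : affSub p u).2
      have hb : b = 0 := by
        have h0 := g.2
        rw [MulAction.mem_stabilizer_iff, affSub_smul, hσ, mul_zero, zero_add] at h0
        exact h0
      refine ⟨⟨v, hv⟩, ?_⟩
      apply Subtype.ext
      apply Subtype.ext
      apply Equiv.ext
      intro x
      rw [hσ, hb]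
      simp
  exact ⟨affSub p u, inferInstance, inferInstance, MulAction.stabilizer (affSub p u) (0 : ZMod p),
    hfrob, ⟨mulEquivOfCyclicCardEq hcard.symm⟩⟩

end Cfsg.Agent.S4299
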