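import Cfsg.Statements.S4341
import Mathlib
import Cfsg.Agent.Helper7.SylowQuot2

set_option autoImplicit false
open Cfsg

namespace Cfsg.Agent.S4341

open Cfsg.Agent.Helper7 in
theorem result {G : Type*} [Group G] [Finite G]
    (p : ℕ) [Fact p.Prime] (K : Subgroup G) [K.Normal] (P : Sylow p G) (N : Subgroup G)
    (hN : N = ((P : Subgroup G) ⊔ K) ⊓ Subgroup.normalizer (((P : Subgroup G) ⊓ K : Subgroup G) : Set G))
    [hn : (((P : Subgroup G) ⊓ K).subgroupOf N).Normal] :
    Nat.card (Sylow p G) =
      Nat.card (Sylow p (G ⧸ K)) * Nat.card (Sylow p K) * Nat.card (Sylow p (N ⧸ ((P : Subgroup G) ⊓ K).subgroupOf N)) := by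
  -- basic containments
  have hNPM : Subgroup.normalizer ((P : Subgroup G) : Set G) ≤
      Subgroup.normalizer (((P : Subgroup G) ⊓ K : Subgroup G) : Set G) := by
    intro g hg
    rw [Subgroup.mem_normalizer_iff] at hg ⊢
    intro x
    rw [Subgroup.mem_inf, Subgroup.mem_inf, ← hg x]
    have hK : x ∈ K ↔ g * x * g⁻¹ ∈ K := by
      constructor
      · intro hx
        exact Subgroup.Normal.conj_mem inferInstance x hx g
      · intro hx
        have h1 := Subgroup.Normal.conj_mem (inferInstance : K.Normal) _ hx g⁻¹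
        have e : g⁻¹ * (g * x * g⁻¹) * g⁻¹⁻¹ = x := by group
        rwa [e] at h1
    rw [hK]
  have hPM : (P : Subgroup G) ≤
      Subgroup.normalizer (((P : Subgroup G) ⊓ K : Subgroup G) : Set G) :=
    Subgroup.le_normalizer.trans hNPM
  have hPN : (P : Subgroup G) ≤ N := by
    rw [hN]
    exact le_inf le_sup_left hPM
  have hNM : N ≤ Subgroup.normalizer (((P : Subgroup G) ⊓ K : Subgroup G) : Set G) := by
    rw [hN]
    exact inf_le_right
  -- (F1)
  have F1 : Nat.card (Sylow p G) = Nat.card (Sylow p (G ⧸ K)) *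
      (Subgroup.normalizer ((P : Subgroup G) : Set G)).relIndex K := by
    rw [card_sylow_eq_card_sylow_quotient_mul p K P,
      relIndex_sup_eq_relIndex_of_le_normalizer _ K Subgroup.le_normalizer_of_normal]
  -- (F2)
  have F2 : Nat.card (Sylow p K) =
      (Subgroup.normalizer (((P : Subgroup G) ⊓ K : Subgroup G) : Set G)).relIndex K := by
    have hD : IsPGroup p (((P : Subgroup G) ⊓ K).subgroupOf K) :=
      (P.2.to_le inf_le_left).comap_of_injective K.subtype K.subtype_injective
    have hidx : ¬ p ∣ (((P : Subgroup G) ⊓ K).subgroupOf K).index := by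
      intro hdiv
      apply P.not_dvd_index
      have h1 : (((P : Subgroup G) ⊓ K).subgroupOf K).index = (P : Subgroup G).relIndex K :=
        Subgroup.inf_relIndex_right _ _
      have h2 := relIndex_sup_eq_relIndex_of_le_normalizer (P : Subgroup G) K
        Subgroup.le_normalizer_of_normal
      have h3 := Subgroup.relIndex_mul_index
        (le_sup_left : (P : Subgroup G) ≤ (P : Subgroup G) ⊔ K)
      rw [← h3, h2, ← h1]
      exact Dvd.dvd.mul_right hdiv _
    rw [(hD.toSylow hidx).card_eq_index_normalizer]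
    show (Subgroup.normalizer ((((P : Subgroup G) ⊓ K).subgroupOf K : Subgroup K) : Set K)).index = _
    rw [← Subgroup.subgroupOf_normalizer_eq inf_le_right]
    rfl
  -- (F3)
  have F3 : Nat.card (Sylow p (N ⧸ ((P : Subgroup G) ⊓ K).subgroupOf N)) =
      (Subgroup.normalizer ((P : Subgroup G) : Set G)).relIndex N := by
    have hA := card_sylow_eq_card_sylow_quotient_mul p (((P : Subgroup G) ⊓ K).subgroupOf N)
      (P.subtype hPN)
    have hle : ((P : Subgroup G) ⊓ K).subgroupOf N ≤
        Subgroup.normalizer (((P.subtype hPN : Sylow p N) : Subgroup N) : Set N) := by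
      refine le_trans ?_ Subgroup.le_normalizer
      intro x hx
      exact (Subgroup.mem_inf.1 (Subgroup.mem_subgroupOf.1 hx)).1
    rw [sup_of_le_left hle, Subgroup.relIndex_self, mul_one] at hA
    rw [← hA, (P.subtype hPN).card_eq_index_normalizer]
    show (Subgroup.normalizer (((P : Subgroup G).subgroupOf N : Subgroup N) : Set N)).index = _
    rw [← Subgroup.subgroupOf_normalizer_eq hPN]
    rfl
  -- (F4)
  have hBN : Subgroup.normalizer (((P : Subgroup G) ⊓ K : Subgroup G) : Set G) ⊓ K ≤ N := by
    rw [hN]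
    exact le_inf (inf_le_right.trans le_sup_right) inf_le_left
  have hMB : Subgroup.normalizer (((P : Subgroup G) ⊓ K : Subgroup G) : Set G) ≤
      Subgroup.normalizer ((Subgroup.normalizer (((P : Subgroup G) ⊓ K : Subgroup G) : Set G) ⊓ K :
        Subgroup G) : Set G) := by
    intro g hg
    rw [Subgroup.mem_normalizer_iff]
    intro x
    rw [Subgroup.mem_inf, Subgroup.mem_inf]
    have hK : x ∈ K ↔ g * x * g⁻¹ ∈ K := by
      constructor
      · intro hx
        exact Subgroup.Normal.conj_mem inferInstance x hx g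
      · intro hx
        have h1 := Subgroup.Normal.conj_mem (inferInstance : K.Normal) _ hx g⁻¹
        have e : g⁻¹ * (g * x * g⁻¹) * g⁻¹⁻¹ = x := by group
        rwa [e] at h1
    have hM : x ∈ Subgroup.normalizer (((P : Subgroup G) ⊓ K : Subgroup G) : Set G) ↔
        g * x * g⁻¹ ∈ Subgroup.normalizer (((P : Subgroup G) ⊓ K : Subgroup G) : Set G) := by
      constructor
      · intro hx
        exact Subgroup.mul_mem _ (Subgroup.mul_mem _ hg hx) (Subgroup.inv_mem _ hg)
      · intro hx
        have h1 := Subgroup.mul_mem _ (Subgroup.mul_mem _ (Subgroup.inv_mem _ hg) hx) hg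
        have e : g⁻¹ * (g * x * g⁻¹) * g = x := by group
        rwa [e] at h1
    rw [hK, hM]
  have hsup : (Subgroup.normalizer ((P : Subgroup G) : Set G) ⊓ N) ⊔
      (Subgroup.normalizer (((P : Subgroup G) ⊓ K : Subgroup G) : Set G) ⊓ K) = N := by
    apply le_antisymm
    · exact sup_le inf_le_right hBN
    · intro x hx
      have hx' := hx
      rw [hN, Subgroup.mem_inf] at hx'
      obtain ⟨u, hu, k, hk, rfl⟩ := Subgroup.mem_sup_of_normal_right.1 hx'.1
      have hkM : k ∈ Subgroup.normalizer (((P : Subgroup G) ⊓ K : Subgroup G) : Set G) := by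
        have h1 := Subgroup.mul_mem _ (Subgroup.inv_mem _ (hPM hu)) hx'.2
        rwa [inv_mul_cancel_left] at h1
      exact Subgroup.mul_mem_sup (Subgroup.mem_inf.2 ⟨Subgroup.le_normalizer hu, hPN hu⟩)
        (Subgroup.mem_inf.2 ⟨hkM, hk⟩)
  have F4 : (Subgroup.normalizer ((P : Subgroup G) : Set G)).relIndex N =
      (Subgroup.normalizer ((P : Subgroup G) : Set G)).relIndex
        (Subgroup.normalizer (((P : Subgroup G) ⊓ K : Subgroup G) : Set G) ⊓ K) := by
    have h1 := relIndex_sup_eq_relIndex_of_le_normalizer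
      (Subgroup.normalizer ((P : Subgroup G) : Set G) ⊓ N)
      (Subgroup.normalizer (((P : Subgroup G) ⊓ K : Subgroup G) : Set G) ⊓ K)
      ((inf_le_right.trans hNM).trans hMB)
    rw [hsup, Subgroup.inf_relIndex_right] at h1
    rw [h1, ← Subgroup.inf_relIndex_right (Subgroup.normalizer ((P : Subgroup G) : Set G) ⊓ N),
      inf_assoc, inf_eq_right.2 hBN, Subgroup.inf_relIndex_right]
  -- (F5)
  have F5 : (Subgroup.normalizer ((P : Subgroup G) : Set G)).relIndex
        (Subgroup.normalizer (((P : Subgroup G) ⊓ K : Subgroup G) : Set G) ⊓ K) *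
      (Subgroup.normalizer (((P : Subgroup G) ⊓ K : Subgroup G) : Set G)).relIndex K =
      (Subgroup.normalizer ((P : Subgroup G) : Set G)).relIndex K := by
    rw [Subgroup.relIndex_inf_mul_relIndex, inf_eq_left.2 hNPM]
  rw [F1, F2, F3, F4, ← F5]
  ring

end Cfsg.Agent.S4341
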