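import Cfsg.Statements.S4303
import Mathlib
import Cfsg.Agent.S4341
import Cfsg.Agent.Helper7.CoprimeAct

set_option autoImplicit false
universe u
open Cfsg

namespace Cfsg.Agent.S4303

theorem aux (n : ℕ) : ∀ (G : Type u) [Group G] [Finite G], Nat.card G = n →
    ∀ (p : ℕ) [Fact p.Prime],
    ∃ l : List ℕ, l.prod = Nat.card (Sylow p G) ∧
      ∀ m ∈ l, (IsPrimePow m ∧ m % p = 1) ∨
        ∃ (S : Type u) (_ : Group S) (_ : Finite S), IsSimpleGroup S ∧ m = Nat.card (Sylow p S) := by
  induction n using Nat.strong_induction_on with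
  | _ n ih =>
    intro G _ _ hGn p _
    have hpp : p.Prime := Fact.out
    by_cases hsimple : IsSimpleGroup G
    · refine ⟨[Nat.card (Sylow p G)], by simp, ?_⟩
      intro m hm
      rw [List.mem_singleton] at hm
      exact Or.inr ⟨G, inferInstance, inferInstance, hsimple, hm⟩
    by_cases hnt : Nontrivial G
    · -- a proper nontrivial normal subgroup
      obtain ⟨K, hKn, hKbot, hKtop⟩ : ∃ K : Subgroup G, K.Normal ∧ K ≠ ⊥ ∧ K ≠ ⊤ := by
        by_contra hcon
        push Not at hcon
        apply hsimple
        exact ⟨fun H hH => by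
          by_cases h : H = ⊥
          · exact Or.inl h
          · exact Or.inr (hcon H hH h)⟩
      haveI := hKn
      let P : Sylow p G := default
      have hNle : ((P : Subgroup G) ⊔ K) ⊓
          Subgroup.normalizer (((P : Subgroup G) ⊓ K : Subgroup G) : Set G) ≤
          Subgroup.normalizer (((P : Subgroup G) ⊓ K : Subgroup G) : Set G) := inf_le_right
      have hDle : (P : Subgroup G) ⊓ K ≤ ((P : Subgroup G) ⊔ K) ⊓
          Subgroup.normalizer (((P : Subgroup G) ⊓ K : Subgroup G) : Set G) :=
        le_inf (inf_le_left.trans le_sup_left) Subgroup.le_normalizer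
      haveI hnorm : (((P : Subgroup G) ⊓ K).subgroupOf (((P : Subgroup G) ⊔ K) ⊓
          Subgroup.normalizer (((P : Subgroup G) ⊓ K : Subgroup G) : Set G))).Normal :=
        (Subgroup.normal_subgroupOf_iff_le_normalizer hDle).2 hNle
      have hformula := Cfsg.Agent.S4341.result p K P _ rfl
      have hcardK : 1 < Nat.card K := (Subgroup.one_lt_card_iff_ne_bot K).2 hKbot
      have hlt1 : Nat.card (G ⧸ K) < n := by
        have h1 := Subgroup.card_eq_card_quotient_mul_card_subgroup K
        rw [hGn] at h1
        have h2 : 0 < Nat.card (G ⧸ K) := Nat.card_pos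
        nlinarith
      have hlt2 : Nat.card K < n := by
        rw [← hGn]
        apply lt_of_le_of_ne (Subgroup.card_le_card_group K)
        intro h
        exact hKtop ((Subgroup.card_eq_iff_eq_top K).1 h)
      obtain ⟨l₁, hl₁, hl₁'⟩ := ih _ hlt1 (G ⧸ K) rfl p
      obtain ⟨l₂, hl₂, hl₂'⟩ := ih _ hlt2 K rfl p
      by_cases hlt3 : Nat.card ((((P : Subgroup G) ⊔ K) ⊓
          Subgroup.normalizer (((P : Subgroup G) ⊓ K : Subgroup G) : Set G) : Subgroup G) ⧸
          ((P : Subgroup G) ⊓ K).subgroupOf (((P : Subgroup G) ⊔ K) ⊓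
          Subgroup.normalizer (((P : Subgroup G) ⊓ K : Subgroup G) : Set G))) < n
      · obtain ⟨l₃, hl₃, hl₃'⟩ := ih _ hlt3 _ rfl p
        refine ⟨l₁ ++ l₂ ++ l₃, ?_, ?_⟩
        · rw [List.prod_append, List.prod_append, hl₁, hl₂, hl₃, hformula]
        · intro m hm
          rw [List.mem_append, List.mem_append] at hm
          rcases hm with (hm | hm) | hm
          · exact hl₁' m hm
          · exact hl₂' m hm
          · exact hl₃' m hm
      · -- the coprime case
        have h1 := Subgroup.card_eq_card_quotient_mul_card_subgroup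
          (((P : Subgroup G) ⊓ K).subgroupOf (((P : Subgroup G) ⊔ K) ⊓
          Subgroup.normalizer (((P : Subgroup G) ⊓ K : Subgroup G) : Set G)))
        have h2 : Nat.card (((P : Subgroup G) ⊔ K) ⊓
          Subgroup.normalizer (((P : Subgroup G) ⊓ K : Subgroup G) : Set G) : Subgroup G) ≤ n := by
          rw [← hGn]
          exact Subgroup.card_le_card_group _
        have h3 : 0 < Nat.card (((P : Subgroup G) ⊓ K).subgroupOf (((P : Subgroup G) ⊔ K) ⊓
          Subgroup.normalizer (((P : Subgroup G) ⊓ K : Subgroup G) : Set G))) := Nat.card_pos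
        have h4 : Nat.card (((P : Subgroup G) ⊓ K).subgroupOf (((P : Subgroup G) ⊔ K) ⊓
          Subgroup.normalizer (((P : Subgroup G) ⊓ K : Subgroup G) : Set G))) = 1 := by
          by_contra hne
          have h5 : 2 ≤ Nat.card (((P : Subgroup G) ⊓ K).subgroupOf (((P : Subgroup G) ⊔ K) ⊓
            Subgroup.normalizer (((P : Subgroup G) ⊓ K : Subgroup G) : Set G))) := by omega
          have h6 : 0 < n := hGn ▸ Nat.card_pos
          nlinarith
        have h5 : Nat.card (((P : Subgroup G) ⊔ K) ⊓
          Subgroup.normalizer (((P : Subgroup G) ⊓ K : Subgroup G) : Set G) : Subgroup G) =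
            Nat.card G := by
          rw [h4, mul_one] at h1
          omega
        have hNtop : ((P : Subgroup G) ⊔ K) ⊓
            Subgroup.normalizer (((P : Subgroup G) ⊓ K : Subgroup G) : Set G) = ⊤ :=
          (Subgroup.card_eq_iff_eq_top _).1 h5
        have hPK : (P : Subgroup G) ⊔ K = ⊤ := by
          rw [eq_top_iff, ← hNtop]
          exact inf_le_left
        have hDbot : (P : Subgroup G) ⊓ K = ⊥ := by
          have h6 := Subgroup.card_eq_one.1 h4
          rw [Subgroup.subgroupOf_eq_bot] at h6
          have h7 := h6.eq_bot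
          rwa [inf_eq_left.2 hDle] at h7
        have hKp : ¬ p ∣ Nat.card K := by
          intro hdiv
          apply P.not_dvd_index
          have h6 := Cfsg.Agent.Helper7.relIndex_sup_eq_relIndex_of_le_normalizer
            (P : Subgroup G) K Subgroup.le_normalizer_of_normal
          rw [hPK, Subgroup.relIndex_top_right] at h6
          have h7 := Subgroup.card_mul_index ((P : Subgroup G).subgroupOf K)
          have h8 : Nat.card ((P : Subgroup G).subgroupOf K) = 1 := by
            rw [Subgroup.card_eq_one, Subgroup.subgroupOf_eq_bot, disjoint_iff]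
            exact hDbot
          rw [h8, one_mul] at h7
          rw [h6]
          show p ∣ ((P : Subgroup G).subgroupOf K).index
          rw [h7]
          exact hdiv
        have hCA := Cfsg.Agent.Helper7.pow_factorization_card_sylow_modEq_one p K P hPK hKp
        have hne : Nat.card (Sylow p G) ≠ 0 := Nat.card_pos.ne'
        refine ⟨(Nat.card (Sylow p G)).primeFactors.toList.map
          (fun q => q ^ (Nat.card (Sylow p G)).factorization q), ?_, ?_⟩
        · rw [Finset.prod_map_toList]
          exact Nat.prod_factorization_pow_eq_self hne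
        · intro m hm
          rw [List.mem_map] at hm
          obtain ⟨q, hq, rfl⟩ := hm
          rw [Finset.mem_toList] at hq
          have hqp : q.Prime := Nat.prime_of_mem_primeFactors hq
          have hqd : q ∣ Nat.card (Sylow p G) := Nat.dvd_of_mem_primeFactors hq
          left
          constructor
          · refine ⟨q, (Nat.card (Sylow p G)).factorization q, hqp.prime, ?_, rfl⟩
            exact hqp.factorization_pos_of_dvd hne hqd
          · have h6 := hCA q hqp
            have h7 : (q ^ (Nat.card (Sylow p G)).factorization q) % p = 1 % p := h6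
            rw [h7]
            exact Nat.mod_eq_of_lt hpp.one_lt
    · rw [not_nontrivial_iff_subsingleton] at hnt
      refine ⟨[], ?_, by simp⟩
      have h2 : Nat.card (Sylow p G) ∣ Nat.card G :=
        ((default : Sylow p G).card_dvd_index).trans (Subgroup.index_dvd_card _)
      rw [Nat.card_of_subsingleton (1 : G)] at h2
      rw [List.prod_nil]
      exact (Nat.dvd_one.1 h2).symm

theorem result {G : Type u} [Group G] [Finite G]
    (p : ℕ) [Fact p.Prime] :
    ∃ l : List ℕ, l.prod = Nat.card (Sylow p G) ∧
      ∀ m ∈ l, (IsPrimePow m ∧ m % p = 1) ∨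
        ∃ (S : Type u) (_ : Group S) (_ : Finite S), IsSimpleGroup S ∧ m = Nat.card (Sylow p S) :=
  aux (Nat.card G) G rfl p

end Cfsg.Agent.S4303
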