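import Cfsg.Statements.S4314
import Mathlib
import Cfsg.Agent.Helper6.MaxCent2
-- import your own Cfsg.Agent.* helpers here

set_option autoImplicit false
open Cfsg

namespace Cfsg.Agent.S4314

/-- Let `G` be a finite group every conjugacy class of which has size 1 or a prime. Then either `G` is nilpotent of class at most 2, or `G/Z(G)` is a non-abelian group of order `pq` for distinct primes `p, q` (a Frobenius group of order `pq`). -/
theorem result {G : Type*} [Group G] [Finite G]
    (h : ∀ x : G, (Subgroup.centralizer ({x} : Set G)).index = 1 ∨ ((Subgroup.centralizer ({x} : Set G)).index).Prime) :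
    Subgroup.upperCentralSeries G 2 = ⊤ ∨
      ∃ p q : ℕ, p.Prime ∧ q.Prime ∧ p ≠ q ∧ Nat.card (G ⧸ Subgroup.center G) = p * q ∧ ¬ IsMulCommutative (G ⧸ Subgroup.center G) := by
  classical
  have hnc : ∀ g : G, g ∉ Subgroup.center G →
      (Subgroup.centralizer ({g} : Set G)).index ≠ 1 := by
    intro g hg h1
    exact hg (Subgroup.centralizer_eq_top_iff_subset.mp (Subgroup.index_eq_one.mp h1)
      (Set.mem_singleton g))
  have hpr : ∀ g : G, g ∉ Subgroup.center G →
      ((Subgroup.centralizer ({g} : Set G)).index).Prime := by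
    intro g hg
    rcases h g with h1 | h1
    · exact absurd h1 (hnc g hg)
    · exact h1
  have hco : ∀ g : G, g ∉ Subgroup.center G → IsCoatom (Subgroup.centralizer ({g} : Set G)) :=
    fun g hg => Cfsg.Agent.Helper6.MaxCent2.isCoatom_of_index_prime _ (hpr g hg)
  have hleft : (∀ a b : G, a * b * a⁻¹ * b⁻¹ ∈ Subgroup.center G) →
      Subgroup.upperCentralSeries G 2 = ⊤ := by
    intro hc
    rw [eq_top_iff]
    intro a _
    show a ∈ Subgroup.upperCentralSeries G (1 + 1)
    rw [Subgroup.mem_upperCentralSeries_succ_iff]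
    intro b
    rw [Subgroup.upperCentralSeries_one]
    exact hc a b
  have hquot : ∀ (N : Subgroup G) [N.Normal], IsMulCommutative (G ⧸ N) →
      ∀ a b : G, a * b * a⁻¹ * b⁻¹ ∈ N := by
    intro N _ hQ a b
    rw [← QuotientGroup.eq_one_iff, QuotientGroup.mk_mul, QuotientGroup.mk_mul,
      QuotientGroup.mk_mul, QuotientGroup.mk_inv, QuotientGroup.mk_inv,
      hQ.is_comm.comm (↑a) (↑b)]
    group
  by_cases hex : ∃ y : G, y ∉ Subgroup.center G ∧
      IsMulCommutative ↥(Subgroup.centralizer ({y} : Set G))
  · obtain ⟨y, hy, hyab⟩ := hex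
    obtain ⟨k, hk, hkn, hkab⟩ := Cfsg.Agent.Helper6.MaxCent2.exists_normal_abelian hco y hy
      (fun a ha b hb => congrArg Subtype.val (hyab.is_comm.comm ⟨a, ha⟩ ⟨b, hb⟩))
    obtain ⟨g, hg⟩ : ∃ g : G, g ∉ Subgroup.centralizer ({k} : Set G) := by
      by_contra hcon
      push Not at hcon
      exact (hco k hk).1 (eq_top_iff.mpr fun g _ => hcon g)
    have hgZ : g ∉ Subgroup.center G := fun hgz => hg (Subgroup.center_le_centralizer _ hgz)
    have hinf := Cfsg.Agent.Helper6.MaxCent2.inf_cent_eq_center hco k hk hkab g hg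
    have hr := hpr k hk
    have hs := hpr g hgZ
    have hsup : Subgroup.centralizer ({g} : Set G) ⊔ Subgroup.centralizer ({k} : Set G) = ⊤ := by
      apply (hco k hk).2
      refine lt_of_le_of_ne le_sup_right ?_
      intro heq
      apply hg
      rw [heq]
      exact Subgroup.mem_sup_left (Subgroup.mem_centralizer_singleton_iff.mpr rfl)
    haveI := hkn
    have h1 : (Subgroup.centralizer ({k} : Set G)).relIndex (Subgroup.centralizer ({g} : Set G)) =
        (Subgroup.centralizer ({k} : Set G)).index := by
      rw [← Subgroup.relIndex_sup_right (H := Subgroup.centralizer ({g} : Set G))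
        (K := Subgroup.centralizer ({k} : Set G)), hsup, Subgroup.relIndex_top_right]
    have h2 : (Subgroup.center G).index = (Subgroup.centralizer ({k} : Set G)).index *
        (Subgroup.centralizer ({g} : Set G)).index := by
      rw [← hinf, ← Subgroup.relIndex_mul_index
        (inf_le_right : Subgroup.centralizer ({k} : Set G) ⊓ Subgroup.centralizer ({g} : Set G) ≤
          Subgroup.centralizer ({g} : Set G)), Subgroup.inf_relIndex_right, h1]
    by_cases hQ : IsMulCommutative (G ⧸ Subgroup.center G)
    · left
      exact hleft (hquot _ hQ)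
    · right
      refine ⟨_, _, hr, hs, ?_, ?_, hQ⟩
      · intro heq
        apply hQ
        haveI := Fact.mk hr
        exact IsPGroup.isMulCommutative_of_card_eq_prime_sq
          (by rw [← Subgroup.index_eq_card, h2, ← heq, sq])
      · rw [← Subgroup.index_eq_card, h2]
  · push Not at hex
    left
    obtain ⟨p, hp, hq⟩ := Cfsg.Agent.Helper6.MaxCent2.quot_pgroup hco hex
    haveI := Cfsg.Agent.Helper6.MaxCent2.nilpotent_of_quot hp hq
    apply hleft
    intro a b
    rw [Subgroup.mem_center_iff]
    intro x
    by_cases hx : x ∈ Subgroup.center G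
    · exact (Subgroup.mem_center_iff.mp hx _).symm
    · haveI hN := Cfsg.Agent.Helper6.MaxCent2.coatom_normal _ (hco x hx)
      haveI := Fact.mk (hpr x hx)
      haveI hcyc : IsCyclic (G ⧸ Subgroup.centralizer ({x} : Set G)) :=
        isCyclic_of_prime_card (by rw [← Subgroup.index_eq_card])
      have h1 := hquot (Subgroup.centralizer ({x} : Set G)) inferInstance a b
      rw [Subgroup.mem_centralizer_singleton_iff] at h1
      exact h1.symm

end Cfsg.Agent.S4314
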