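import Cfsg.Statements.S4332
import Mathlib
import Cfsg.Agent.Helper7.Sym8Brute
import Cfsg.Agent.Helper8.Basic

set_option autoImplicit false
open Pointwise
open Cfsg

namespace Cfsg.Agent.S4332

open Equiv

/-- A permutation supported inside the support of a 3-cycle `σ` normalizes `⟨σ⟩`. -/
theorem mem_normalizer_of_support_subset (σ τ : Perm (Fin 8)) (hσ : σ.IsThreeCycle)
    (hτ : τ.support ⊆ σ.support) :
    τ ∈ Subgroup.normalizer (Subgroup.zpowers σ : Set (Perm (Fin 8))) := by
  set B : Subgroup (Perm (Fin 8)) :=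
    (Equiv.Perm.ofSubtype : Perm {x // x ∈ σ.support} →* Perm (Fin 8)).range with hB
  have hmem : ∀ θ : Perm (Fin 8), θ.support ⊆ σ.support → θ ∈ B := by
    intro θ hθ
    have h₁ : ∀ x, θ x ∈ σ.support ↔ x ∈ σ.support := by
      intro x
      by_cases hx : x ∈ θ.support
      · exact ⟨fun _ => hθ hx, fun _ => hθ (Equiv.Perm.apply_mem_support.2 hx)⟩
      · rw [Equiv.Perm.notMem_support.1 hx]
    have h₂ : ∀ x, θ x ≠ x → x ∈ σ.support := fun x hx => hθ (Equiv.Perm.mem_support.2 hx)
    exact ⟨θ.subtypePerm h₁, Equiv.Perm.ofSubtype_subtypePerm h₁ h₂⟩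
  have hcardB : Nat.card B = 6 := by
    have e := (MonoidHom.ofInjective
      (Equiv.Perm.ofSubtype_injective (p := fun x => x ∈ σ.support))).toEquiv
    rw [hB, ← Nat.card_congr e, Nat.card_eq_fintype_card, Fintype.card_perm, Fintype.card_coe,
      hσ.card_support]
    rfl
  have hAB : Subgroup.zpowers σ ≤ B := by
    rw [Subgroup.zpowers_le]
    exact hmem σ (le_refl _)
  have hcardA : Nat.card (Subgroup.zpowers σ) = 3 := by
    rw [Nat.card_zpowers, hσ.orderOf]
  have hidx : ((Subgroup.zpowers σ).subgroupOf B).index = 2 := by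
    have h1 := Subgroup.card_mul_index ((Subgroup.zpowers σ).subgroupOf B)
    rw [Nat.card_congr (Subgroup.subgroupOfEquivOfLe hAB).toEquiv, hcardA, hcardB] at h1
    omega
  have hn : ((Subgroup.zpowers σ).subgroupOf B).Normal := Subgroup.normal_of_index_eq_two hidx
  exact (Subgroup.normal_subgroupOf_iff_le_normalizer hAB).1 hn (hmem τ hτ)

/-- In the symmetric group of degree 8, let A be the subgroup generated by a 3-cycle. Then every conjugacy class contains an element g for which A is subnormal in the subgroup generated by A and its conjugate by g, although O_3 of the symmetric group of degree 8 is trivial. -/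
theorem result
    (σ : Equiv.Perm (Fin 8)) (hσ : σ.IsThreeCycle) :
    (∀ c : Equiv.Perm (Fin 8), ∃ g : Equiv.Perm (Fin 8), IsConj c g ∧
      ((Subgroup.zpowers σ).subgroupOf (Subgroup.zpowers σ ⊔ MulAut.conj g • Subgroup.zpowers σ)).IsSubnormal) ∧
    Cfsg.pCore 3 (Equiv.Perm (Fin 8)) = ⊥ := by
  refine ⟨?_, ?_⟩
  · intro c
    obtain ⟨i, j, k, hij, hjk, hcase⟩ := Cfsg.Agent.Helper7.Sym8.exists_triple c c.injective
    obtain ⟨p, q, r, hpq, hpr, hqr, hT⟩ := Finset.card_eq_three.1 hσ.card_support
    have nij : i ≠ j := ne_of_lt hij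
    have njk : j ≠ k := ne_of_lt hjk
    have nik : i ≠ k := ne_of_lt (lt_trans hij hjk)
    -- a permutation carrying (i, j, k) to (p, q, r)
    obtain ⟨h, hhi, hhj, hhk⟩ : ∃ h : Perm (Fin 8), h i = p ∧ h j = q ∧ h k = r := by
      have x_inj : Function.Injective ![i, j, k] := by
        intro a b hab
        fin_cases a <;> fin_cases b <;>
          simp_all [Matrix.cons_val_zero, Matrix.cons_val_one, nij.symm, njk.symm, nik.symm]
      have y_inj : Function.Injective ![p, q, r] := by
        intro a b hab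
        fin_cases a <;> fin_cases b <;>
          simp_all [Matrix.cons_val_zero, Matrix.cons_val_one, hpq.symm, hpr.symm, hqr.symm]
      obtain ⟨h, hh⟩ := (MulAction.isMultiplyPretransitive_iff.1
        (Equiv.Perm.isMultiplyPretransitive (Fin 8) 3)) ⟨![i, j, k], x_inj⟩ ⟨![p, q, r], y_inj⟩
      refine ⟨h, ?_, ?_, ?_⟩
      · have := DFunLike.congr_fun hh 0
        simpa using this
      · have := DFunLike.congr_fun hh 1
        simpa using this
      · have := DFunLike.congr_fun hh 2
        simpa using this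
    have hcase' : (∀ a ∈ ({i, j, k} : Finset (Fin 8)), c a ∈ ({i, j, k} : Finset (Fin 8))) ∨
        (∀ a ∈ ({i, j, k} : Finset (Fin 8)), c a ∉ ({i, j, k} : Finset (Fin 8))) := by
      rcases hcase with ⟨h1, h2, h3⟩ | ⟨h1, h2, h3⟩
      · left
        intro a ha
        simp only [Finset.mem_insert, Finset.mem_singleton] at ha ⊢
        rcases ha with rfl | rfl | rfl
        · exact h1
        · exact h2
        · exact h3
      · right
        intro a ha
        simp only [Finset.mem_insert, Finset.mem_singleton, not_or] at ha ⊢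
        rcases ha with rfl | rfl | rfl
        · exact h1
        · exact h2
        · exact h3
    have hT' : ∀ x, x ∈ σ.support ↔ ∃ a ∈ ({i, j, k} : Finset (Fin 8)), h a = x := by
      intro x
      rw [hT]
      simp only [Finset.mem_insert, Finset.mem_singleton, exists_eq_or_imp, exists_eq_left,
        hhi, hhj, hhk]
      constructor
      · rintro (rfl | rfl | rfl)
        · exact Or.inl rfl
        · exact Or.inr (Or.inl rfl)
        · exact Or.inr (Or.inr rfl)
      · rintro (rfl | rfl | rfl)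
        · exact Or.inl rfl
        · exact Or.inr (Or.inl rfl)
        · exact Or.inr (Or.inr rfl)
    refine ⟨h * c * h⁻¹, isConj_iff.2 ⟨h, rfl⟩, ?_⟩
    have hgh : ∀ a, (h * c * h⁻¹) (h a) = h (c a) := fun a => by simp
    have hsupp : ∀ x, x ∈ ((h * c * h⁻¹) * σ * (h * c * h⁻¹)⁻¹).support ↔
        ∃ a ∈ ({i, j, k} : Finset (Fin 8)), h (c a) = x := by
      intro x
      rw [Equiv.Perm.support_conj, Finset.mem_map]
      constructor
      · rintro ⟨y, hy, rfl⟩
        obtain ⟨a, ha, rfl⟩ := (hT' y).1 hy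
        exact ⟨a, ha, (hgh a).symm⟩
      · rintro ⟨a, ha, rfl⟩
        exact ⟨h a, (hT' _).2 ⟨a, ha, rfl⟩, hgh a⟩
    have hconj_mem : (h * c * h⁻¹) * σ * (h * c * h⁻¹)⁻¹ ∈
        Subgroup.normalizer (Subgroup.zpowers σ : Set (Perm (Fin 8))) := by
      rcases hcase' with hinv | hdis
      · apply mem_normalizer_of_support_subset σ _ hσ
        intro x hx
        obtain ⟨a, ha, rfl⟩ := (hsupp x).1 hx
        exact (hT' _).2 ⟨c a, hinv a ha, rfl⟩
      · apply Subgroup.centralizer_le_normalizer
        rw [Subgroup.mem_centralizer_iff]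
        intro y hy
        obtain ⟨m, rfl⟩ := Subgroup.mem_zpowers_iff.1 hy
        have hdisj : Equiv.Perm.Disjoint σ ((h * c * h⁻¹) * σ * (h * c * h⁻¹)⁻¹) := by
          rw [Equiv.Perm.disjoint_iff_disjoint_support, Finset.disjoint_left]
          intro x hx hx'
          obtain ⟨b, hb, rfl⟩ := (hT' x).1 hx
          obtain ⟨a, ha, hab⟩ := (hsupp _).1 hx'
          have : c a = b := h.injective hab
          exact hdis a ha (this ▸ hb)
        exact (hdisj.commute.zpow_left m).eq
    have hnorm : Subgroup.zpowers σ ⊔ MulAut.conj (h * c * h⁻¹) • Subgroup.zpowers σ ≤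
        Subgroup.normalizer (Subgroup.zpowers σ : Set (Perm (Fin 8))) := by
      apply sup_le Subgroup.le_normalizer
      intro x hx
      obtain ⟨s, hs, rfl⟩ := (Subgroup.mem_smul_pointwise_iff_exists _ _ _).1 hx
      obtain ⟨n, rfl⟩ := Subgroup.mem_zpowers_iff.1 hs
      have e1 : MulAut.conj (h * c * h⁻¹) • (σ ^ n) =
          ((h * c * h⁻¹) * σ * (h * c * h⁻¹)⁻¹) ^ n := by
        rw [MulAut.smul_def, MulAut.conj_apply, conj_zpow]
      rw [e1]
      exact Subgroup.zpow_mem _ hconj_mem n
    have hn : ((Subgroup.zpowers σ).subgroupOf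
        (Subgroup.zpowers σ ⊔ MulAut.conj (h * c * h⁻¹) • Subgroup.zpowers σ)).Normal :=
      (Subgroup.normal_subgroupOf_iff_le_normalizer le_sup_left).2 hnorm
    exact hn.isSubnormal
  · have hN : (pCore 3 (Perm (Fin 8))).Normal := Cfsg.Agent.Helper8.pCore_normal 3 _
    have hP : IsPGroup 3 (pCore 3 (Perm (Fin 8))) := Cfsg.Agent.Helper8.pCore_isPGroup 3 _
    have h2 : ∀ x ∈ pCore 3 (Perm (Fin 8)), x ^ 2 = 1 → x = 1 := by
      intro x hx hx2
      obtain ⟨k, hk⟩ := hP ⟨x, hx⟩
      have hk' : x ^ (3 ^ k) = 1 := congrArg Subtype.val hk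
      have h3 : orderOf x ∣ Nat.gcd 2 (3 ^ k) :=
        Nat.dvd_gcd (orderOf_dvd_of_pow_eq_one hx2) (orderOf_dvd_of_pow_eq_one hk')
      have hg : Nat.gcd 2 (3 ^ k) = 1 := Nat.Coprime.pow_right k (by norm_num)
      rw [hg, Nat.dvd_one] at h3
      exact orderOf_eq_one_iff.1 h3
    haveI : IsSimpleGroup (alternatingGroup (Fin 8)) :=
      alternatingGroup.isSimpleGroup (by rw [Nat.card_fin]; norm_num)
    haveI := hN
    have hsub : ((pCore 3 (Perm (Fin 8))).subgroupOf (alternatingGroup (Fin 8))).Normal :=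
      inferInstance
    rcases hsub.eq_bot_or_eq_top with hb | ht
    · rw [eq_bot_iff]
      intro x hx
      have hx2 : x ^ 2 = 1 := by
        have h1 : x ^ 2 ∈ alternatingGroup (Fin 8) := by
          rw [Equiv.Perm.mem_alternatingGroup, map_pow]
          exact Int.units_sq _
        have h3 : (⟨x ^ 2, h1⟩ : alternatingGroup (Fin 8)) ∈
            (pCore 3 (Perm (Fin 8))).subgroupOf (alternatingGroup (Fin 8)) := by
          rw [Subgroup.mem_subgroupOf]
          exact Subgroup.pow_mem _ hx 2
        rw [hb, Subgroup.mem_bot] at h3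
        exact congrArg Subtype.val h3
      rw [Subgroup.mem_bot]
      exact h2 x hx hx2
    · exfalso
      have hxA : (swap (0 : Fin 8) 1 * swap (2 : Fin 8) 3) ∈ alternatingGroup (Fin 8) := by
        rw [Equiv.Perm.mem_alternatingGroup, map_mul, Equiv.Perm.sign_swap (by decide),
          Equiv.Perm.sign_swap (by decide)]
        rfl
      have hxN : (swap (0 : Fin 8) 1 * swap (2 : Fin 8) 3) ∈ pCore 3 (Perm (Fin 8)) := by
        have h3 : (⟨_, hxA⟩ : alternatingGroup (Fin 8)) ∈
            (pCore 3 (Perm (Fin 8))).subgroupOf (alternatingGroup (Fin 8)) := by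
          rw [ht]; exact Subgroup.mem_top _
        exact Subgroup.mem_subgroupOf.1 h3
      have hx1 := h2 _ hxN (by decide)
      exact absurd hx1 (by decide)

end Cfsg.Agent.S4332
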