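import Cfsg.Statements.S4333
import Cfsg.Agent.Helper4.WielandtCrit

set_option autoImplicit false
open Pointwise
open Cfsg

namespace Cfsg.Agent.S4333

universe u

open scoped Pointwise in
theorem s4333_isCoatom_smul {G : Type*} [Group G] (c : MulAut G) (M : Subgroup G)
    (hM : IsCoatom M) : IsCoatom (c • M) := by
  have : c • M = MulEquiv.mapSubgroup c M := rfl
  rw [this, OrderIso.isCoatom_iff]
  exact hM

open scoped Pointwise in
open Cfsg.Agent.Helper4 in
theorem s4333_aux : ∀ (n : ℕ) {G : Type u} [Group G] [Finite G],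
    Nat.card G = n → ∀ (A : Subgroup G),
    (∀ a ∈ A, ∀ g : G, (A.subgroupOf (A ⊔ MulAut.conj (g⁻¹ * a * g) • A)).IsSubnormal) →
    A.IsSubnormal := by
  intro n
  induction n using Nat.strong_induction_on with
  | _ n ih =>
    intro G _ _ hn A h
    by_contra hns
    have hP : ∀ H : Subgroup G, A ≤ H → H ≠ ⊤ → (A.subgroupOf H).IsSubnormal := by
      intro H hAH hH
      have hcard : Nat.card H < n := by
        rw [← hn, ← Subgroup.card_top (G := G)]
        exact card_lt_of_lt (lt_top_iff_ne_top.mpr hH)
      apply ih (Nat.card H) hcard rfl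
      intro a ha g
      rw [smul_subgroupOf_eq]
      have ha' : (a : G) ∈ A := ha
      have hgA : MulAut.conj ((g⁻¹ * a * g : H) : G) • A ≤ H :=
        smul_le_of_le_of_mem H A hAH _ (g⁻¹ * a * g).2
      rw [← Subgroup.subgroupOf_sup hAH hgA]
      exact isSubnormal_subgroupOf_subgroupOf (sup_le hAH hgA) (h (a : G) ha' (g : G))
    have hAtop : A ≠ ⊤ := fun h0 => hns (h0 ▸ Subgroup.IsSubnormal.top)
    obtain ⟨M, hM, hAM⟩ := (eq_top_or_exists_le_coatom A).resolve_left hAtop
    have hzip := zipper_unique_coatom A hP hns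
    have hMnn : ¬ M.Normal := fun hMn => hns ((hP M hAM hM.1).trans hAM hMn.isSubnormal)
    have hNM : Subgroup.normalizer (M : Set G) = M := by
      rcases hM.le_iff.mp (Subgroup.le_normalizer (H := M)) with h1 | h1
      · exact absurd (Subgroup.normalizer_eq_top_iff.mp h1) hMnn
      · exact h1
    have hx : ∀ a ∈ A, ∀ g : G, g⁻¹ * a * g ∈ M := by
      intro a ha g
      have hconj : MulAut.conj (g⁻¹ * a * g) • A ≤ M := by
        rcases eq_top_or_exists_le_coatom (A ⊔ MulAut.conj (g⁻¹ * a * g) • A) with
          htop | ⟨K, hK, hTK⟩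
        · exfalso
          apply hns
          have h1 := h a ha g
          exact h1.trans le_sup_left (htop ▸ Subgroup.IsSubnormal.top)
        · have hKM := hzip K M hK hM (le_sup_left.trans hTK) hAM
          rw [← hKM]
          exact le_sup_right.trans hTK
      have hA2 : A ≤ (MulAut.conj (g⁻¹ * a * g))⁻¹ • M := by
        rw [Subgroup.subset_pointwise_smul_iff, inv_inv]
        exact hconj
      have hco := s4333_isCoatom_smul (MulAut.conj (g⁻¹ * a * g))⁻¹ M hM
      have heq := hzip _ M hco hM hA2 hAM
      have hmem : (g⁻¹ * a * g)⁻¹ ∈ Subgroup.normalizer (M : Set G) := by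
        apply mem_normalizer_of_conj_mem_finite
        intro s hs
        have h5 := Subgroup.smul_mem_pointwise_smul s (MulAut.conj (g⁻¹ * a * g))⁻¹ M hs
        rw [heq, ← map_inv, MulAut.smul_def, MulAut.conj_apply] at h5
        exact h5
      rw [hNM] at hmem
      have := M.inv_mem hmem
      rwa [inv_inv] at this
    have hAcore : A ≤ Subgroup.normalCore M := by
      intro a ha
      show ∀ b : G, b * a * b⁻¹ ∈ M
      intro b
      have := hx a ha b⁻¹
      rwa [inv_inv] at this
    have hcore_ne : Subgroup.normalCore M ≠ ⊤ := fun h0 =>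
      hM.1 (top_le_iff.mp (h0 ▸ Subgroup.normalCore_le M))
    exact hns ((hP _ hAcore hcore_ne).trans hAcore (Subgroup.normalCore_normal M).isSubnormal)


/-- Let A be a subgroup of a finite group G. If A is subnormal in the subgroup generated by A and its conjugate by g⁻¹ a g, for every a ∈ A and every g ∈ G, then A is subnormal in G. (A sharpening of Wielandt's subnormality criterion: only conjugates of A by conjugates of elements of A are needed.) -/
theorem result {G : Type*} [Group G] [Finite G]
    (A : Subgroup G)
    (h : ∀ a ∈ A, ∀ g : G, (A.subgroupOf (A ⊔ MulAut.conj (g⁻¹ * a * g) • A)).IsSubnormal) :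
    A.IsSubnormal := by
  exact s4333_aux (Nat.card G) rfl A h

end Cfsg.Agent.S4333
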