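import Cfsg.Statements.S4337
import Mathlib
import Cfsg.Agent.S0144

set_option autoImplicit false
open Cfsg

namespace Cfsg.Agent.S4337

theorem perm_solvable_of_card_le_four (β : Type*) [Fintype β] [DecidableEq β]
    (h : Fintype.card β ≤ 4) : Group.IsSolvable (Equiv.Perm β) := by
  apply Cfsg.Agent.S0144.solvable_of_two_primes 2 3 Nat.prime_two Nat.prime_three
    (Nat.card (Equiv.Perm β)) (Equiv.Perm β) rfl
  intro r hr hrd
  rw [Nat.card_eq_fintype_card, Fintype.card_perm] at hrd
  have h1 : r ≤ Fintype.card β := (Nat.Prime.dvd_factorial hr).1 hrd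
  have h2 : r ≤ 4 := h1.trans h
  have h3 : 2 ≤ r := hr.two_le
  interval_cases r
  · left; rfl
  · right; rfl
  · exact absurd hr (by norm_num)

theorem closure_solvable_of_support {α : Type*} [Fintype α] [DecidableEq α] (T : Finset α)
    (hT : T.card ≤ 4) (S : Set (Equiv.Perm α)) (hS : ∀ σ ∈ S, ∀ x, x ∉ T → σ x = x) :
    Group.IsSolvable (Subgroup.closure S) := by
  haveI : Group.IsSolvable (Equiv.Perm {x // x ∈ T}) :=
    perm_solvable_of_card_le_four _ (by rw [Fintype.card_coe]; exact hT)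
  have hle : Subgroup.closure S ≤
      (Equiv.Perm.ofSubtype : Equiv.Perm {x // x ∈ T} →* Equiv.Perm α).range := by
    rw [Subgroup.closure_le]
    intro σ hσ
    rw [SetLike.mem_coe, Equiv.Perm.mem_range_ofSubtype_iff]
    intro x hx
    by_contra hxT
    rw [Finset.mem_coe, Equiv.Perm.mem_support] at hx
    exact hx (hS σ hσ x hxT)
  haveI : Group.IsSolvable
      (Equiv.Perm.ofSubtype : Equiv.Perm {x // x ∈ T} →* Equiv.Perm α).range :=
    Group.isSolvable_of_surjective
      (Equiv.Perm.ofSubtype : Equiv.Perm {x // x ∈ T} →* Equiv.Perm α).rangeRestrict_surjective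
  exact Group.isSolvable_of_isSolvable_injective (Subgroup.inclusion_injective hle)

theorem swap_fix {α : Type*} [DecidableEq α] (x y z : α) (h : z ∉ ({x, y} : Finset α)) :
    Equiv.swap x y z = z := by
  rw [Finset.mem_insert, Finset.mem_singleton] at h
  push Not at h
  exact Equiv.swap_apply_of_ne_of_ne h.1 h.2

theorem third {α : Type*} [Fintype α] [DecidableEq α] (x₁ y₁ x₂ y₂ x₃ y₃ : α)
    (hd : Disjoint ({x₃, y₃} : Finset α) ({x₁, y₁} ∪ {x₂, y₂})) :
    Group.IsSolvable (Subgroup.closure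
      ({Equiv.swap x₁ y₁, Equiv.swap x₂ y₂, Equiv.swap x₃ y₃} : Set (Equiv.Perm α))) := by
  set a := Equiv.swap x₁ y₁ with ha
  set b := Equiv.swap x₂ y₂ with hb
  set c := Equiv.swap x₃ y₃ with hc
  have hcard : (({x₁, y₁} : Finset α) ∪ {x₂, y₂}).card ≤ 4 := by
    calc (({x₁, y₁} : Finset α) ∪ {x₂, y₂}).card
        ≤ ({x₁, y₁} : Finset α).card + ({x₂, y₂} : Finset α).card := Finset.card_union_le _ _
      _ ≤ 2 + 2 := Nat.add_le_add Finset.card_le_two Finset.card_le_two
  haveI hK : Group.IsSolvable (Subgroup.closure ({a, b} : Set (Equiv.Perm α))) := by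
    apply closure_solvable_of_support (({x₁, y₁} : Finset α) ∪ {x₂, y₂}) hcard
    intro σ hσ x hx
    rw [Finset.mem_union, not_or] at hx
    rcases hσ with rfl | hσ
    · exact swap_fix _ _ _ hx.1
    · rw [Set.mem_singleton_iff] at hσ
      rw [hσ]
      exact swap_fix _ _ _ hx.2
  -- c commutes with a and b
  have hdis : ∀ z : α, c z = z ∨ (a z = z ∧ b z = z) := by
    intro z
    by_cases hz : z ∈ ({x₃, y₃} : Finset α)
    · right
      have hz' : z ∉ (({x₁, y₁} : Finset α) ∪ {x₂, y₂}) := Finset.disjoint_left.1 hd hz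
      rw [Finset.mem_union, not_or] at hz'
      exact ⟨swap_fix _ _ _ hz'.1, swap_fix _ _ _ hz'.2⟩
    · left
      exact swap_fix _ _ _ hz
  have hca : Commute a c := by
    have : Equiv.Perm.Disjoint a c := fun z => (hdis z).elim Or.inr (fun h => Or.inl h.1)
    exact this.commute
  have hcb : Commute b c := by
    have : Equiv.Perm.Disjoint b c := fun z => (hdis z).elim Or.inr (fun h => Or.inl h.2)
    exact this.commute
  have hKc : ∀ k ∈ Subgroup.closure ({a, b} : Set (Equiv.Perm α)), Commute k c := by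
    have hle : Subgroup.closure ({a, b} : Set (Equiv.Perm α)) ≤ Subgroup.centralizer {c} := by
      rw [Subgroup.closure_le]
      intro σ hσ
      rw [SetLike.mem_coe, Subgroup.mem_centralizer_singleton_iff]
      rcases hσ with rfl | hσ
      · exact hca.eq
      · rw [Set.mem_singleton_iff] at hσ
        rw [hσ]
        exact hcb.eq
    intro k hk
    have := hle hk
    rw [Subgroup.mem_centralizer_singleton_iff] at this
    exact this
  have comm : ∀ (k : Subgroup.closure ({a, b} : Set (Equiv.Perm α))) (z : Subgroup.zpowers c),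
      Commute ((Subgroup.closure ({a, b} : Set (Equiv.Perm α))).subtype k)
        ((Subgroup.zpowers c).subtype z) := by
    intro k z
    obtain ⟨j, hj⟩ := Subgroup.mem_zpowers_iff.1 z.2
    show Commute (k : Equiv.Perm α) (z : Equiv.Perm α)
    rw [← hj]
    exact (hKc k k.2).zpow_right j
  haveI : Group.IsSolvable (Subgroup.zpowers c) := by
    apply Group.isSolvable_of_comm
    intro u v
    obtain ⟨i, hi⟩ := Subgroup.mem_zpowers_iff.1 u.2
    obtain ⟨j, hj⟩ := Subgroup.mem_zpowers_iff.1 v.2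
    apply Subtype.ext
    show (u : Equiv.Perm α) * v = v * u
    rw [← hi, ← hj, ← zpow_add, ← zpow_add, add_comm]
  set φ := MonoidHom.noncommCoprod (Subgroup.closure ({a, b} : Set (Equiv.Perm α))).subtype
    (Subgroup.zpowers c).subtype comm with hφ
  have hle : Subgroup.closure ({a, b, c} : Set (Equiv.Perm α)) ≤ φ.range := by
    rw [Subgroup.closure_le]
    intro σ hσ
    rcases hσ with rfl | rfl | hσ
    · refine ⟨(⟨a, Subgroup.subset_closure (Set.mem_insert _ _)⟩, 1), ?_⟩
      rw [hφ, MonoidHom.noncommCoprod_apply]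
      simp
    · refine ⟨(⟨b, Subgroup.subset_closure (Set.mem_insert_of_mem _ rfl)⟩, 1), ?_⟩
      rw [hφ, MonoidHom.noncommCoprod_apply]
      simp
    · rw [Set.mem_singleton_iff] at hσ
      refine ⟨(1, ⟨c, Subgroup.mem_zpowers c⟩), ?_⟩
      rw [hφ, MonoidHom.noncommCoprod_apply, hσ]
      simp
  haveI : Group.IsSolvable φ.range := Group.isSolvable_of_surjective φ.rangeRestrict_surjective
  exact Group.isSolvable_of_isSolvable_injective (Subgroup.inclusion_injective hle)

theorem card_union_succ_le {α : Type*} [DecidableEq α] (X Y : Finset α) (h : ¬ Disjoint X Y) :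
    (X ∪ Y).card + 1 ≤ X.card + Y.card := by
  rw [← Finset.card_union_add_card_inter X Y]
  apply Nat.add_le_add_left
  rw [Finset.not_disjoint_iff_nonempty_inter] at h
  exact Finset.card_pos.2 h

/-- In a finite symmetric group, any three transpositions generate a solvable subgroup. -/
theorem result (n : ℕ) (a b c : Equiv.Perm (Fin n))
    (ha : a.IsSwap) (hb : b.IsSwap) (hc : c.IsSwap) :
    Group.IsSolvable (Subgroup.closure ({a, b, c} : Set (Equiv.Perm (Fin n)))) := by
  obtain ⟨x₁, y₁, -, rfl⟩ := ha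
  obtain ⟨x₂, y₂, -, rfl⟩ := hb
  obtain ⟨x₃, y₃, -, rfl⟩ := hc
  by_cases h1 : Disjoint ({x₃, y₃} : Finset (Fin n)) ({x₁, y₁} ∪ {x₂, y₂})
  · exact third x₁ y₁ x₂ y₂ x₃ y₃ h1
  by_cases h2 : Disjoint ({x₂, y₂} : Finset (Fin n)) ({x₁, y₁} ∪ {x₃, y₃})
  · have := third x₁ y₁ x₃ y₃ x₂ y₂ h2
    have hset : ({Equiv.swap x₁ y₁, Equiv.swap x₂ y₂, Equiv.swap x₃ y₃} : Set (Equiv.Perm (Fin n)))
        = {Equiv.swap x₁ y₁, Equiv.swap x₃ y₃, Equiv.swap x₂ y₂} := by
      ext σ
      simp only [Set.mem_insert_iff, Set.mem_singleton_iff]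
      tauto
    rw [hset]
    exact this
  by_cases h3 : Disjoint ({x₁, y₁} : Finset (Fin n)) ({x₂, y₂} ∪ {x₃, y₃})
  · have := third x₂ y₂ x₃ y₃ x₁ y₁ h3
    have hset : ({Equiv.swap x₁ y₁, Equiv.swap x₂ y₂, Equiv.swap x₃ y₃} : Set (Equiv.Perm (Fin n)))
        = {Equiv.swap x₂ y₂, Equiv.swap x₃ y₃, Equiv.swap x₁ y₁} := by
      ext σ
      simp only [Set.mem_insert_iff, Set.mem_singleton_iff]
      tauto
    rw [hset]
    exact this
  -- connected case: at most four points
  have hcard : (({x₁, y₁} : Finset (Fin n)) ∪ {x₂, y₂} ∪ {x₃, y₃}).card ≤ 4 := by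
    have hA : ({x₁, y₁} : Finset (Fin n)).card ≤ 2 := Finset.card_le_two
    have hB : ({x₂, y₂} : Finset (Fin n)).card ≤ 2 := Finset.card_le_two
    have hC : ({x₃, y₃} : Finset (Fin n)).card ≤ 2 := Finset.card_le_two
    rw [Finset.disjoint_union_right, not_and_or] at h3
    rcases h3 with h3 | h3
    · have e1 := card_union_succ_le _ _ h3
      have e2 := card_union_succ_le _ _ h1
      rw [Finset.union_comm ({x₃, y₃} : Finset (Fin n))] at e2
      omega
    · have e1 := card_union_succ_le _ _ h3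
      have e2 := card_union_succ_le _ _ h2
      have e3 : ({x₂, y₂} : Finset (Fin n)) ∪ ({x₁, y₁} ∪ {x₃, y₃}) =
          ({x₁, y₁} : Finset (Fin n)) ∪ {x₂, y₂} ∪ {x₃, y₃} := by
        ext z
        simp only [Finset.mem_union]
        tauto
      rw [e3] at e2
      omega
  apply closure_solvable_of_support _ hcard
  intro σ hσ x hx
  rw [Finset.mem_union, Finset.mem_union, not_or, not_or] at hx
  rcases hσ with rfl | rfl | hσ
  · exact swap_fix _ _ _ hx.1.1
  · exact swap_fix _ _ _ hx.1.2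
  · rw [Set.mem_singleton_iff] at hσ
    rw [hσ]
    exact swap_fix _ _ _ hx.2

end Cfsg.Agent.S4337
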