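import Cfsg.Statements.S4342
import Mathlib
import Cfsg.Agent.Helper7.SylowQuot
import Cfsg.Agent.Helper7.SylowMore

set_option autoImplicit false
open Cfsg

namespace Cfsg.Agent.S4342

open Cfsg.Agent.Helper7 in
theorem result {G : Type*} [Group G] [Finite G]
    (p : ℕ) [Fact p.Prime] (H : Subgroup G) [H.Normal] (hp : ¬ p ∣ H.index) :
    Nat.card (Sylow p (H ⧸ Subgroup.center H)) = Nat.card (Sylow p G) := by
  obtain ⟨P, hPH, -⟩ := exists_sylow_le_of_not_dvd_index (p := p) H hp 1 (one_mem _) 0 (one_pow _)
  -- n_p(G) = n_p(H)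
  have hN : Nat.card (Sylow p H) =
      (Subgroup.normalizer ((P : Subgroup G) : Set G)).relIndex H := by
    rw [(P.subtype hPH).card_eq_index_normalizer]
    show (Subgroup.normalizer (((P : Subgroup G).subgroupOf H : Subgroup H) : Set H)).index = _
    rw [← Subgroup.subgroupOf_normalizer_eq hPH]
    rfl
  have hfr : Subgroup.normalizer ((P : Subgroup G) : Set G) ⊔ H = ⊤ :=
    Sylow.normalizer_sup_eq_top' P hPH
  have hB := relIndex_sup_mul_card_inf (Subgroup.normalizer ((P : Subgroup G) : Set G)) H
  rw [hfr, Subgroup.relIndex_top_right] at hB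
  have hB' : (Subgroup.normalizer ((P : Subgroup G) : Set G)).relIndex H *
      Nat.card (Subgroup.normalizer ((P : Subgroup G) : Set G) ⊓ H : Subgroup G) = Nat.card H := by
    have h1 := Subgroup.card_mul_index
      ((Subgroup.normalizer ((P : Subgroup G) : Set G)).subgroupOf H)
    have h2 : Nat.card ((Subgroup.normalizer ((P : Subgroup G) : Set G)).subgroupOf H) =
        Nat.card (Subgroup.normalizer ((P : Subgroup G) : Set G) ⊓ H : Subgroup G) := by
      rw [← Subgroup.inf_subgroupOf_right]
      exact Nat.card_congr (Subgroup.subgroupOfEquivOfLe inf_le_right).toEquiv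
    rw [h2, mul_comm] at h1
    exact h1
  have hpos : 0 < Nat.card (Subgroup.normalizer ((P : Subgroup G) : Set G) ⊓ H : Subgroup G) :=
    Nat.card_pos
  have hGH : Nat.card (Sylow p G) = Nat.card (Sylow p H) := by
    rw [hN, P.card_eq_index_normalizer]
    exact Nat.eq_of_mul_eq_mul_right hpos (hB.trans hB'.symm)
  -- n_p(H) = n_p(H / Z(H))
  have hA := card_sylow_eq_card_sylow_quotient_mul p (Subgroup.center H) (P.subtype hPH)
  have hle : Subgroup.center H ≤
      Subgroup.normalizer (((P.subtype hPH : Sylow p H) : Subgroup H) : Set H) := by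
    intro z hz
    rw [Subgroup.mem_normalizer_iff]
    intro x
    rw [Subgroup.mem_center_iff] at hz
    have e : z * x * z⁻¹ = x := by
      rw [← hz x, mul_inv_cancel_right]
    rw [e]
  rw [sup_of_le_left hle, Subgroup.relIndex_self, mul_one] at hA
  rw [hGH, hA]

end Cfsg.Agent.S4342
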