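import Cfsg.Statements.S4343
import Mathlib
import Cfsg.Agent.Helper7.RelSylow

set_option autoImplicit false
open Cfsg

namespace Cfsg.Agent.S4343

open Cfsg.Agent.Helper7 in
theorem result {S : Type*} [Group S] [Finite S]
    [IsSimpleGroup S] (hS : ¬ IsMulCommutative S) (p : ℕ) [Fact p.Prime] (hp : p ∣ Nat.card S)
    (hn : Nat.card (Sylow p S) < p ^ 2) (P : Sylow p S) : Nat.card P = p := by
  classical
  have hpp : p.Prime := Fact.out
  have hnottop : ∀ A : Sylow p S, (A : Subgroup S) ≠ ⊤ := by
    intro A hA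
    have h1 : IsPGroup p S := by
      intro g
      obtain ⟨k, hk⟩ := A.2 ⟨g, hA ▸ Subgroup.mem_top g⟩
      exact ⟨k, congrArg Subtype.val hk⟩
    haveI := h1.center_nontrivial
    have h2 : Subgroup.center S ≠ ⊥ := (Subgroup.nontrivial_iff_ne_bot _).1 inferInstance
    have h3 : Subgroup.center S = ⊤ := by
      rcases (inferInstance : (Subgroup.center S).Normal).eq_bot_or_eq_top with h | h
      · exact absurd h h2
      · exact h
    apply hS
    rw [isMulCommutative_iff]
    intro a b
    have h4 : a ∈ Subgroup.center S := h3 ▸ Subgroup.mem_top a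
    rw [Subgroup.mem_center_iff] at h4
    exact (h4 b).symm
  have hcardP : ∀ A : Sylow p S, ∃ v, v ≠ 0 ∧ Nat.card A = p ^ v := by
    intro A
    refine ⟨(Nat.card S).factorization p, ?_, A.card_eq_multiplicity⟩
    exact (Nat.Prime.factorization_pos_of_dvd hpp Nat.card_pos.ne' hp).ne'
  have key : ∀ A B : Sylow p S, A ≠ B → (B : Subgroup S).relIndex A = p := by
    intro A B hAB
    have h1 : (MulAction.stabilizer (A : Subgroup S) B).index =
        (MulAction.orbit (A : Subgroup S) B).ncard := MulAction.index_stabilizer _ _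
    have h2 : MulAction.stabilizer (A : Subgroup S) B =
        (Subgroup.normalizer ((B : Subgroup S) : Set S)).subgroupOf A := by
      ext a
      rw [MulAction.mem_stabilizer_iff, Subgroup.mem_subgroupOf]
      show (a : S) • B = B ↔ _
      exact Sylow.smul_eq_iff_mem_normalizer
    have h3 : (Subgroup.normalizer ((B : Subgroup S) : Set S)).relIndex A =
        (B : Subgroup S).relIndex A := by
      have e := A.2.inf_normalizer_sylow B
      calc (Subgroup.normalizer ((B : Subgroup S) : Set S)).relIndex A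
          = ((A : Subgroup S) ⊓ Subgroup.normalizer ((B : Subgroup S) : Set S)).relIndex A :=
            (Subgroup.inf_relIndex_left _ _).symm
        _ = ((A : Subgroup S) ⊓ (B : Subgroup S)).relIndex A :=
            congrArg (fun X : Subgroup S => X.relIndex A) e
        _ = (B : Subgroup S).relIndex A := Subgroup.inf_relIndex_left _ _
    have h4 : (MulAction.orbit (A : Subgroup S) B).ncard ≤ Nat.card (Sylow p S) := by
      rw [← Nat.card_coe_set_eq]
      exact Nat.card_le_card_of_injective _ Subtype.val_injective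
    have h5 : (B : Subgroup S).relIndex A < p ^ 2 := by
      rw [← h3]
      show ((Subgroup.normalizer ((B : Subgroup S) : Set S)).subgroupOf A).index < _
      rw [← h2, h1]
      exact lt_of_le_of_lt h4 hn
    have h6 : (B : Subgroup S).relIndex A ∣ Nat.card A := Subgroup.relIndex_dvd_card _ _
    obtain ⟨v, hv0, hv⟩ := hcardP A
    rw [hv] at h6
    obtain ⟨j, hj, hj'⟩ := (Nat.dvd_prime_pow hpp).1 h6
    have hj2 : j < 2 := by
      by_contra hcon
      push Not at hcon
      have := Nat.pow_le_pow_right hpp.pos hcon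
      rw [← hj'] at this
      omega
    have hj0 : j ≠ 0 := by
      rintro rfl
      rw [pow_zero, Subgroup.relIndex_eq_one] at hj'
      exact hAB (sylow_eq_of_le A B hj').symm
    have hj1 : j = 1 := by omega
    rw [hj', hj1, pow_one]
  have hex : ∃ Q : Sylow p S, Q ≠ P := by
    by_contra hcon
    push Not at hcon
    haveI : Subsingleton (Sylow p S) := ⟨fun a b => (hcon a).trans (hcon b).symm⟩
    have hnorm : (P : Subgroup S).Normal := Sylow.normal_of_subsingleton P
    rcases hnorm.eq_bot_or_eq_top with h | h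
    · exact P.ne_bot_of_dvd_card hp h
    · exact hnottop P h
  obtain ⟨Q, hQP⟩ := hex
  have hDP : ((P : Subgroup S) ⊓ Q).relIndex P = p := by
    rw [Subgroup.inf_relIndex_left]
    exact key P Q (Ne.symm hQP)
  have hDQ : ((P : Subgroup S) ⊓ Q).relIndex Q = p := by
    rw [Subgroup.inf_relIndex_right]
    exact key Q P hQP
  have hPN : (P : Subgroup S) ≤
      Subgroup.normalizer (((P : Subgroup S) ⊓ Q : Subgroup S) : Set S) := by
    rw [← Subgroup.normal_subgroupOf_iff_le_normalizer inf_le_left]
    apply Subgroup.normal_of_index_eq_minFac_card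
    obtain ⟨v, hv0, hv⟩ := hcardP P
    rw [hv, Nat.pow_minFac hv0, hpp.minFac_eq]
    exact hDP
  have hQN : (Q : Subgroup S) ≤
      Subgroup.normalizer (((P : Subgroup S) ⊓ Q : Subgroup S) : Set S) := by
    rw [← Subgroup.normal_subgroupOf_iff_le_normalizer inf_le_right]
    apply Subgroup.normal_of_index_eq_minFac_card
    obtain ⟨v, hv0, hv⟩ := hcardP Q
    rw [hv, Nat.pow_minFac hv0, hpp.minFac_eq]
    exact hDQ
  have hcardD : ∀ X : Subgroup S, X ≤ Q → X.relIndex Q = p → Nat.card X * p = Nat.card Q := by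
    intro X hX hXp
    have h1 := Subgroup.card_mul_index (X.subgroupOf Q)
    have h2 : Nat.card (X.subgroupOf Q) = Nat.card X :=
      Nat.card_congr (Subgroup.subgroupOfEquivOfLe hX).toEquiv
    rw [h2] at h1
    rw [← h1]
    congr 1
    exact hXp.symm
  have hD : ∀ R : Sylow p S, (P : Subgroup S) ⊓ Q ≤ R := by
    intro R
    have hidx : ¬ p ∣ (P : Subgroup S).relIndex
        (Subgroup.normalizer (((P : Subgroup S) ⊓ Q : Subgroup S) : Set S)) := by
      intro hdiv
      apply P.not_dvd_index
      have h1 := Subgroup.relIndex_mul_index hPN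
      rw [← h1]
      exact Dvd.dvd.mul_right hdiv _
    obtain ⟨c, hcN, hc⟩ := exists_conj_le_of_not_dvd_relIndex
      (Subgroup.normalizer (((P : Subgroup S) ⊓ Q : Subgroup S) : Set S)) (P : Subgroup S)
      ((R : Subgroup S) ⊓ Subgroup.normalizer (((P : Subgroup S) ⊓ Q : Subgroup S) : Set S))
      P.2 hidx (R.2.to_le inf_le_left) inf_le_right
    have hmem : ∀ t : S, t ∈ (c • R : Sylow p S) → t ∈ Q → t ∈ P := by
      intro t ht htQ
      have h1 : c⁻¹ * t * c ∈ R := (mem_smul_sylow_iff c t R).1 ht
      have h2 : c⁻¹ * t * c ∈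
          Subgroup.normalizer (((P : Subgroup S) ⊓ Q : Subgroup S) : Set S) :=
        Subgroup.mul_mem _ (Subgroup.mul_mem _ (Subgroup.inv_mem _ hcN) (hQN htQ)) hcN
      have h3 := hc _ (Subgroup.mem_inf.2 ⟨h1, h2⟩)
      have e : c * (c⁻¹ * t * c) * c⁻¹ = t := by group
      rwa [e] at h3
    by_cases hcRQ : c • R = Q
    · exfalso
      apply hQP
      exact (sylow_eq_of_le Q P (fun t ht => hmem t (hcRQ ▸ ht) ht)).symm
    · have h1 : ((c • R : Sylow p S) : Subgroup S) ⊓ Q ≤ (P : Subgroup S) ⊓ Q := by
        intro t ht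
        rw [Subgroup.mem_inf] at ht ⊢
        exact ⟨hmem t ht.1 ht.2, ht.2⟩
      have h2 : (((c • R : Sylow p S) : Subgroup S) ⊓ Q).relIndex Q = p := by
        rw [Subgroup.inf_relIndex_right]
        exact key Q (c • R) (Ne.symm hcRQ)
      have h3 : ((c • R : Sylow p S) : Subgroup S) ⊓ Q = (P : Subgroup S) ⊓ Q := by
        apply Subgroup.eq_of_le_of_card_ge h1
        have e1 := hcardD _ inf_le_right h2
        have e2 := hcardD _ inf_le_right hDQ
        have e3 : Nat.card ((P : Subgroup S) ⊓ Q : Subgroup S) * p =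
            Nat.card (((c • R : Sylow p S) : Subgroup S) ⊓ Q : Subgroup S) * p := by
          rw [e1, e2]
        exact (Nat.eq_of_mul_eq_mul_right hpp.pos e3).le
      intro d hd
      have h4 : c * d * c⁻¹ ∈ (P : Subgroup S) ⊓ Q := by
        have h5 := (Subgroup.mem_normalizer_iff.1 hcN d).1 hd
        exact h5
      rw [← h3] at h4
      have h6 := (mem_smul_sylow_iff c _ R).1 (Subgroup.mem_inf.1 h4).1
      have e : c⁻¹ * (c * d * c⁻¹) * c = d := by group
      rwa [e] at h6
  have hDcore : (P : Subgroup S) ⊓ Q ≤ (P : Subgroup S).normalCore := by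
    intro d hd b
    have h1 := hD (b⁻¹ • P) hd
    have h2 := (mem_smul_sylow_iff b⁻¹ d P).1 h1
    rw [inv_inv] at h2
    exact h2
  have hcore : (P : Subgroup S).normalCore = ⊥ := by
    rcases (Subgroup.normalCore_normal (P : Subgroup S)).eq_bot_or_eq_top with h | h
    · exact h
    · exfalso
      apply hnottop P
      rw [eq_top_iff, ← h]
      exact Subgroup.normalCore_le _
  have hDbot : (P : Subgroup S) ⊓ Q = ⊥ := by
    rw [eq_bot_iff, ← hcore]
    exact hDcore
  rw [hDbot, Subgroup.relIndex_bot_left] at hDP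
  exact hDP

end Cfsg.Agent.S4343
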