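import Cfsg.Statements.S4345
import Mathlib
import Cfsg.Agent.Helper7.SylowQuot
import Cfsg.Agent.Helper7.Solvable

set_option autoImplicit false
open Cfsg

namespace Cfsg.Agent.S4345

universe u

theorem aux (n : ℕ) : ∀ (G : Type u) [Group G] [Finite G], Nat.card G = n → Group.IsSolvable G →
    ∀ (p ℓ : ℕ) [Fact p.Prime], ℓ.Prime →
    ℓ ^ (Nat.card (Sylow p G)).factorization ℓ ≡ 1 [MOD p] := by
  induction n using Nat.strong_induction_on with
  | _ n ih =>
    intro G _ _ hGn hG p ℓ _ hℓ
    have hpp : p.Prime := Fact.out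
    by_cases hnt : Nontrivial G
    · haveI := hG
      obtain ⟨q, K, hq, hKn, hKbot, hKexp, -⟩ :=
        Cfsg.Agent.Helper7.exists_normal_exponent_prime (G := G)
      haveI := hKn
      have hKcard : 1 < Nat.card K := (Subgroup.one_lt_card_iff_ne_bot K).2 hKbot
      have hlt : Nat.card (G ⧸ K) < n := by
        have h1 := Subgroup.card_eq_card_quotient_mul_card_subgroup K
        rw [hGn] at h1
        have h2 : 0 < Nat.card (G ⧸ K) := Nat.card_pos
        nlinarith
      have hIH := ih (Nat.card (G ⧸ K)) hlt (G ⧸ K) rfl inferInstance p ℓ hℓ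
      have hKp : IsPGroup q K := by
        intro x
        refine ⟨1, ?_⟩
        rw [pow_one]
        exact Subtype.ext (hKexp x.1 x.2)
      haveI := Fact.mk hq
      obtain ⟨k, hk⟩ := IsPGroup.iff_card.1 hKp
      let P : Sylow p G := default
      have hA := Cfsg.Agent.Helper7.card_sylow_eq_card_sylow_quotient_mul p K P
      have hB := Cfsg.Agent.Helper7.relIndex_sup_mul_card_inf
        (Subgroup.normalizer ((P : Subgroup G) : Set G)) K
      have hX : (Subgroup.normalizer ((P : Subgroup G) : Set G)).relIndex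
          (Subgroup.normalizer ((P : Subgroup G) : Set G) ⊔ K) ∣ q ^ k := by
        rw [← hk]
        exact Dvd.intro _ hB
      obtain ⟨c, hc, hXc⟩ := (Nat.dvd_prime_pow hq).1 hX
      rw [hXc] at hA
      have h1 : Nat.card (Sylow p G) ≡ 1 [MOD p] := card_sylow_modEq_one p G
      have h2 : Nat.card (Sylow p (G ⧸ K)) ≡ 1 [MOD p] := card_sylow_modEq_one p (G ⧸ K)
      have h3 : q ^ c ≡ 1 [MOD p] := by
        have h4 : 1 * q ^ c ≡ Nat.card (Sylow p (G ⧸ K)) * q ^ c [MOD p] := h2.symm.mul_right _
        rw [one_mul, ← hA] at h4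
        exact h4.trans h1
      have hne1 : Nat.card (Sylow p (G ⧸ K)) ≠ 0 := Nat.card_pos.ne'
      have hne2 : q ^ c ≠ 0 := (pow_pos hq.pos c).ne'
      rw [hA, Nat.factorization_mul hne1 hne2, Finsupp.add_apply, pow_add]
      have h5 : ℓ ^ (q ^ c).factorization ℓ ≡ 1 [MOD p] := by
        rw [Nat.factorization_pow, Finsupp.smul_apply, smul_eq_mul, hq.factorization]
        by_cases hℓq : ℓ = q
        · subst hℓq
          rw [Finsupp.single_eq_same, mul_one]
          exact h3
        · rw [Finsupp.single_eq_of_ne hℓq, mul_zero, pow_zero]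
      have h6 := hIH.mul h5
      rwa [mul_one] at h6
    · rw [not_nontrivial_iff_subsingleton] at hnt
      have h1 : Nat.card (Sylow p G) = 1 := by
        have h2 : Nat.card (Sylow p G) ∣ Nat.card G :=
          ((default : Sylow p G).card_dvd_index).trans (Subgroup.index_dvd_card _)
        rw [Nat.card_of_subsingleton (1 : G)] at h2
        exact Nat.dvd_one.1 h2
      rw [h1, Nat.factorization_one, Finsupp.zero_apply, pow_zero]

theorem result {G : Type*} [Group G] [Finite G]
    (hG : Group.IsSolvable G) (p ℓ : ℕ) [Fact p.Prime] (hℓ : ℓ.Prime) :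
    ℓ ^ (Nat.card (Sylow p G)).factorization ℓ ≡ 1 [MOD p] :=
  aux (Nat.card G) G rfl hG p ℓ hℓ

end Cfsg.Agent.S4345
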