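import Cfsg.Statements.S4354
import Mathlib
import Cfsg.Agent.Helper7.AbelSylowRed

set_option autoImplicit false
open Cfsg

namespace Cfsg.Agent.S4354

theorem result {G : Type*} [Group G] [Finite G]
    (p : ℕ) [Fact p.Prime] (h : ((∃ P : Sylow p G, ¬ IsMulCommutative P) ∧ ∀ x : G, (∃ k : ℕ, orderOf x = p ^ k) → ¬ p ∣ (Subgroup.centralizer ({x} : Set G)).index))
    (hmin : ∀ (N : Subgroup G) [N.Normal], N ≠ ⊥ → N ≠ ⊤ →
      ¬ ((∃ P : Sylow p N, ¬ IsMulCommutative P) ∧ ∀ x : N, (∃ k : ℕ, orderOf x = p ^ k) → ¬ p ∣ (Subgroup.centralizer ({x} : Set N)).index) ∧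
      ¬ ((∃ P : Sylow p (G ⧸ N), ¬ IsMulCommutative P) ∧ ∀ x : (G ⧸ N), (∃ k : ℕ, orderOf x = p ^ k) → ¬ p ∣ (Subgroup.centralizer ({x} : Set (G ⧸ N))).index)) :
    IsSimpleGroup G := by
  obtain ⟨⟨P, hP⟩, hcl⟩ := h
  have hcl' : Cfsg.Agent.Helper7.PClassCoprime p G := hcl
  haveI : Nontrivial G := by
    by_contra hnt
    rw [not_nontrivial_iff_subsingleton] at hnt
    apply hP
    exact ⟨⟨fun a b => Subsingleton.elim _ _⟩⟩
  refine ⟨?_⟩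
  intro N hNn
  haveI := hNn
  by_contra hne
  push Not at hne
  obtain ⟨h1, h2⟩ := hmin N hne.1 hne.2
  have hN : ∀ S : Sylow p N, IsMulCommutative S := by
    intro S
    by_contra hS
    exact h1 ⟨⟨S, hS⟩, hcl'.normal N⟩
  have hQ : ∀ S : Sylow p (G ⧸ N), IsMulCommutative S := by
    intro S
    by_contra hS
    exact h2 ⟨⟨S, hS⟩, hcl'.quotient Fact.out N⟩
  apply hP
  refine ⟨⟨?_⟩⟩
  rintro ⟨a, ha⟩ ⟨b, hb⟩
  apply Subtype.ext
  exact Cfsg.Agent.Helper7.sylow_comm_of_normal_of_quotient p hcl' N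
    (fun S a ha b hb => congrArg Subtype.val ((hN S).is_comm.comm ⟨a, ha⟩ ⟨b, hb⟩))
    (fun S a ha b hb => congrArg Subtype.val ((hQ S).is_comm.comm ⟨a, ha⟩ ⟨b, hb⟩))
    P a ha b hb

end Cfsg.Agent.S4354
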