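import Cfsg.Statements.S4365
import Mathlib
-- import your own Cfsg.Agent.* helpers here

set_option autoImplicit false
open Cfsg

namespace Cfsg.Agent.S4365

theorem hughes {M : Type*} [AddCommGroup M] (p : ℕ) [Fact p.Prime] (s t : AddMonoid.End M)
    (hst : Commute s t) (ht : t ^ p = 1) (u : M)
    (h : ∀ j < p, t ((∑ i ∈ Finset.range p, (s * t ^ j) ^ i) u) = (∑ i ∈ Finset.range p, (s * t ^ j) ^ i) u) :
    t (p • u) = p • u := by
  have hp := (Fact.out : p.Prime)
  have hN : ∀ i, 0 < i → i < p → (∑ j ∈ Finset.range p, (t ^ i) ^ j) * (t - 1) = 0 := by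
    intro i hi0 hip
    have hcop : Nat.Coprime i p :=
      Nat.Coprime.symm ((Nat.Prime.coprime_iff_not_dvd hp).2 (Nat.not_dvd_of_pos_of_lt hi0 hip))
    obtain ⟨k, -, hk⟩ := Nat.exists_mul_mod_eq_one_of_coprime hcop hp.one_lt
    have htk : (t ^ i) ^ k = t := by
      rw [← pow_mul, pow_eq_pow_mod (i * k) ht, hk, pow_one]
    have hr : (t ^ i) ^ p = 1 := by rw [← pow_mul, mul_comm, pow_mul, ht, one_pow]
    have h1 : t - 1 = (t ^ i - 1) * ∑ l ∈ Finset.range k, (t ^ i) ^ l := by
      rw [mul_geom_sum, htk]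
    rw [h1, ← mul_assoc, geom_sum_mul, hr, sub_self, zero_mul]
  have key : (∑ j ∈ Finset.range p, ∑ i ∈ Finset.range p, (s * t ^ j) ^ i) * (t - 1)
      = (p : AddMonoid.End M) * (t - 1) := by
    rw [Finset.sum_comm, Finset.sum_mul]
    have hterm : ∀ i ∈ Finset.range p, (∑ j ∈ Finset.range p, (s * t ^ j) ^ i) * (t - 1)
        = if i = 0 then (p : AddMonoid.End M) * (t - 1) else 0 := by
      intro i hi
      have e1 : ∀ j, (s * t ^ j) ^ i = s ^ i * (t ^ i) ^ j := by
        intro j
        rw [(hst.pow_right j).mul_pow, ← pow_mul, mul_comm j i, pow_mul]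
      simp only [e1]
      rw [← Finset.mul_sum, mul_assoc]
      split_ifs with h0
      · subst h0; simp
      · rw [hN i (Nat.pos_of_ne_zero h0) (Finset.mem_range.mp hi), mul_zero]
    rw [Finset.sum_congr rfl hterm]
    simp [hp.pos]
  have hsub : ∀ w : M, (t - 1) w = t w - w := fun w => rfl
  have hsum : ∀ (F : ℕ → AddMonoid.End M) (w : M),
      (∑ j ∈ Finset.range p, F j) w = ∑ j ∈ Finset.range p, F j w :=
    fun F w => AddMonoidHom.finsetSum_apply F (Finset.range p) w
  have hT : ∀ j < p, (∑ i ∈ Finset.range p, (s * t ^ j) ^ i) ((t - 1) u) = 0 := by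
    intro j hj
    have hc : Commute (∑ i ∈ Finset.range p, (s * t ^ j) ^ i) t := by
      apply Commute.sum_left
      intro i _
      exact ((hst.mul_left (Commute.pow_left (Commute.refl t) j)).pow_left i)
    have e : (∑ i ∈ Finset.range p, (s * t ^ j) ^ i) (t u)
        = t ((∑ i ∈ Finset.range p, (s * t ^ j) ^ i) u) := by
      have := congrArg (fun f : AddMonoid.End M => f u) hc.eq
      simpa using this
    rw [hsub, map_sub, e, h j hj, sub_self]
  have hfin : (p : AddMonoid.End M) ((t - 1) u) = 0 := by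
    have := congrArg (fun f : AddMonoid.End M => f u) key
    simp only [AddMonoid.End.coe_mul, Function.comp_apply] at this
    rw [← this, hsum]
    exact Finset.sum_eq_zero (fun j hj => hT j (Finset.mem_range.mp hj))
  rw [AddMonoid.End.natCast_apply, hsub, smul_sub, sub_eq_zero] at hfin
  rw [map_nsmul]; exact hfin

/-- Let P be a finite p-group whose conjugacy class sizes are exactly 1 and pᵃ for some a ≥ 1. Then every element of P has its p-th power in the center of P (P/Z(P) has exponent p). -/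
theorem result {P : Type*} [Group P] [Finite P] (p : ℕ) [Fact p.Prime]
    (hP : IsPGroup p P) (a : ℕ) (ha : 1 ≤ a)
    (hcs : {k : ℕ | ∃ x : P, (Subgroup.centralizer ({x} : Set P)).index = k} = {1, p ^ a}) (x : P) :
    x ^ p ∈ Subgroup.center P := by
  classical
  have hp := (Fact.out : p.Prime)
  have hpa : p ^ a ≠ 1 := by
    have : 1 < p ^ a := Nat.one_lt_pow (by omega) hp.one_lt
    omega
  have hmem : ∀ g h : P, h ∈ Subgroup.centralizer ({g} : Set P) ↔ h * g = g * h :=
    fun g h => Subgroup.mem_centralizer_singleton_iff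
  have hcen : ∀ z ∈ Subgroup.center P, ∀ g : P, g * z = z * g :=
    fun z hz g => (Subgroup.mem_center_iff.1 hz) g
  have hidx : ∀ g : P, g ∉ Subgroup.center P →
      (Subgroup.centralizer ({g} : Set P)).index = p ^ a := by
    intro g hg
    have h0 : (Subgroup.centralizer ({g} : Set P)).index ∈ ({1, p ^ a} : Set ℕ) := by
      rw [← hcs]; exact ⟨g, rfl⟩
    rcases h0 with h1 | h1
    · exfalso; apply hg
      rw [Subgroup.index_eq_one] at h1
      rw [Subgroup.mem_center_iff]
      intro h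
      have h2 : h ∈ Subgroup.centralizer ({g} : Set P) := by rw [h1]; trivial
      exact (hmem g h).1 h2
    · exact h1
  have F1 : ∀ u v : P, u ∉ Subgroup.center P → v ∉ Subgroup.center P →
      Subgroup.centralizer ({u} : Set P) ≤ Subgroup.centralizer ({v} : Set P) →
      Subgroup.centralizer ({v} : Set P) ≤ Subgroup.centralizer ({u} : Set P) := by
    intro u v hu hv hle
    have h1 := Subgroup.relIndex_mul_index hle
    rw [hidx u hu, hidx v hv] at h1
    have h2 : (Subgroup.centralizer ({u} : Set P)).relIndex (Subgroup.centralizer ({v} : Set P)) = 1 := by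
      have hpos : 0 < p ^ a := pow_pos hp.pos a
      exact Nat.eq_of_mul_eq_mul_right hpos (by rw [h1, one_mul])
    exact Subgroup.relIndex_eq_one.1 h2
  have K : ∀ g v : P, g ^ p * v = v * g ^ p → g ^ p ∉ Subgroup.center P → g * v = v * g := by
    intro g v hc hn
    have hgn : g ∉ Subgroup.center P := fun hg => hn (Subgroup.pow_mem _ hg p)
    have hle : Subgroup.centralizer ({g} : Set P) ≤ Subgroup.centralizer ({g ^ p} : Set P) := by
      intro h hh
      rw [hmem] at hh ⊢
      exact (Commute.pow_right hh p)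
    have h1 := F1 g (g ^ p) hgn hn hle
    have hv : v ∈ Subgroup.centralizer ({g ^ p} : Set P) := by rw [hmem]; exact hc.symm
    have h2 := h1 hv
    rw [hmem] at h2
    exact h2.symm
  have hex : ∃ x1 : P, x1 ∉ Subgroup.center P := by
    have h0 : p ^ a ∈ {k : ℕ | ∃ x : P, (Subgroup.centralizer ({x} : Set P)).index = k} := by
      rw [hcs]; simp
    obtain ⟨x1, hx1⟩ := h0
    refine ⟨x1, fun hc => hpa ?_⟩
    rw [← hx1, Subgroup.index_eq_one, Subgroup.centralizer_eq_top_iff_subset]
    simpa using hc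
  obtain ⟨x', hx'n, hx'p, hx'c⟩ : ∃ x' : P, x' ∉ Subgroup.center P ∧ x' ^ p ∈ Subgroup.center P ∧
      ∀ g : P, x' * g * x'⁻¹ * g⁻¹ ∈ Subgroup.center P := by
    obtain ⟨x1, hx1⟩ := hex
    haveI : Nontrivial (P ⧸ Subgroup.center P) := by
      refine ⟨⟨(x1 : P ⧸ Subgroup.center P), 1, ?_⟩⟩
      intro h
      exact hx1 ((QuotientGroup.eq_one_iff x1).1 h)
    have hQ : IsPGroup p (P ⧸ Subgroup.center P) := hP.to_quotient _
    haveI := hQ.center_nontrivial
    have hQc : IsPGroup p (Subgroup.center (P ⧸ Subgroup.center P)) := hQ.to_subgroup _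
    obtain ⟨n, hn0, hn⟩ := (hQc.nontrivial_iff_card).1 inferInstance
    have hdvd : p ∣ Nat.card (Subgroup.center (P ⧸ Subgroup.center P)) := by
      rw [hn]; exact dvd_pow_self p (by omega)
    obtain ⟨q, hq⟩ := exists_prime_orderOf_dvd_card'
      (G := Subgroup.center (P ⧸ Subgroup.center P)) p hdvd
    obtain ⟨x', hx'⟩ := QuotientGroup.mk_surjective (q : P ⧸ Subgroup.center P)
    have hq1 : (q : P ⧸ Subgroup.center P) ≠ 1 := by
      intro h
      have h1 : q = 1 := Subtype.ext h
      rw [h1, orderOf_one] at hq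
      exact hp.one_lt.ne hq
    have hqp : (q : P ⧸ Subgroup.center P) ^ p = 1 := by
      have h1 := pow_orderOf_eq_one q
      rw [hq] at h1
      have h2 := congrArg Subtype.val h1
      simpa using h2
    refine ⟨x', ?_, ?_, ?_⟩
    · intro h; apply hq1; rw [← hx']; exact (QuotientGroup.eq_one_iff x').2 h
    · rw [← QuotientGroup.eq_one_iff, QuotientGroup.mk_pow, hx']; exact hqp
    · intro g
      rw [← QuotientGroup.eq_one_iff]
      have hcq := q.2
      rw [Subgroup.mem_center_iff] at hcq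
      have h1 := hcq (g : P ⧸ Subgroup.center P)
      simp only [QuotientGroup.mk_mul, QuotientGroup.mk_inv, hx']
      rw [← h1, mul_inv_cancel_right, mul_inv_cancel]
  obtain ⟨C1, hC1⟩ : ∃ C1 : Subgroup P, C1 = Subgroup.centralizer ({x'} : Set P) := ⟨_, rfl⟩
  have hC1mem : ∀ h : P, h ∈ C1 ↔ h * x' = x' * h := fun h => by rw [hC1]; exact hmem x' h
  have hC1idx : C1.index = p ^ a := by rw [hC1]; exact hidx x' hx'n
  have hpowC1 : ∀ g : P, g ^ p ∈ C1 := by
    intro g
    obtain ⟨z, hz⟩ : ∃ z : P, z = x' * g * x'⁻¹ * g⁻¹ := ⟨_, rfl⟩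
    have hzm : z ∈ Subgroup.center P := by rw [hz]; exact hx'c g
    have hzc := hcen z hzm
    have e1 : x' * g * x'⁻¹ = z * g := by rw [hz]; group
    have e2 : ∀ k : ℕ, x' ^ k * g * (x' ^ k)⁻¹ = z ^ k * g := by
      intro k
      induction k with
      | zero => simp
      | succ k ih =>
        have h1 : x' ^ (k + 1) * g * (x' ^ (k + 1))⁻¹ = x' * (x' ^ k * g * (x' ^ k)⁻¹) * x'⁻¹ := by
          rw [pow_succ']; group
        rw [h1, ih, pow_succ]
        have hzk : x' * z ^ k = z ^ k * x' := hcen (z ^ k) (Subgroup.pow_mem _ hzm k) x'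
        calc x' * (z ^ k * g) * x'⁻¹ = (x' * z ^ k) * g * x'⁻¹ := by group
          _ = z ^ k * (x' * g * x'⁻¹) := by rw [hzk]; group
          _ = z ^ k * z * g := by rw [e1]; group
    have e3 : z ^ p = 1 := by
      have h1 := e2 p
      have h2 : x' ^ p * g = g * x' ^ p := (hcen _ hx'p g).symm
      rw [h2, mul_inv_cancel_right] at h1
      have h3 := congrArg (· * g⁻¹) h1
      simp only [mul_inv_cancel, mul_inv_cancel_right] at h3
      exact h3.symm
    have e4 : x' * g ^ p * x'⁻¹ = g ^ p := by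
      have h1 : x' * g ^ p * x'⁻¹ = (x' * g * x'⁻¹) ^ p := (conj_pow).symm
      rw [h1, e1, (show Commute z g from (show Commute g z from hzc g).symm).mul_pow, e3, one_mul]
    rw [hC1mem]
    exact (mul_inv_eq_iff_eq_mul.1 e4).symm
  have hpowZ : ∀ g : P, g ∉ C1 → g ^ p ∈ Subgroup.center P := by
    intro g hg
    by_contra hn
    apply hg
    rw [hC1mem]
    exact K g x' ((hC1mem _).1 (hpowC1 g)) hn
  have h3 : ∀ x0 ∈ C1, x0 ^ p ∉ Subgroup.center P → ∀ y : P, y * x0 = x0 * y → y ∈ C1 := by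
    intro x0 hx0 hx0p y hy
    by_contra hyn
    apply hx0p
    have h1 : (x0 * y) ^ p ∈ Subgroup.center P := hpowZ _ (fun h => hyn (by
      have h2 := C1.mul_mem (C1.inv_mem hx0) h
      simpa using h2))
    have h2 := hpowZ y hyn
    have h4 : (x0 * y) ^ p = x0 ^ p * y ^ p := (show Commute x0 y from hy.symm).mul_pow p
    rw [h4] at h1
    have h5 := (Subgroup.center P).mul_mem h1 ((Subgroup.center P).inv_mem h2)
    simpa using h5
  have h3' : ∀ x0 ∈ C1, x0 ^ p ∉ Subgroup.center P → ∀ y ∈ C1, y * x0 = x0 * y := by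
    intro x0 hx0 hx0p y hy
    have hx0n : x0 ∉ Subgroup.center P := fun h => hx0p (Subgroup.pow_mem _ h p)
    have hle : Subgroup.centralizer ({x0} : Set P) ≤ Subgroup.centralizer ({x'} : Set P) := by
      intro y hy; rw [← hC1]; exact h3 x0 hx0 hx0p y ((hmem x0 y).1 hy)
    have h1 := F1 x0 x' hx0n hx'n hle (by rw [← hC1]; exact hy)
    exact (hmem x0 y).1 h1
  by_contra hxp
  have hxC1 : x ∈ C1 := by
    by_contra h; exact hxp (hpowZ x h)
  have hxn : x ∉ Subgroup.center P := fun h => hxp (Subgroup.pow_mem _ h p)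
  have hab : ∀ g ∈ C1, ∀ h ∈ C1, g * h = h * g := by
    intro g hg h hh
    by_cases hgp : g ^ p ∈ Subgroup.center P
    · have hxg : g * x = x * g := h3' x hxC1 hxp g hg
      have hxgp : (x * g) ^ p ∉ Subgroup.center P := by
        rw [(show Commute x g from hxg.symm).mul_pow]
        intro hc
        apply hxp
        have h5 := (Subgroup.center P).mul_mem hc ((Subgroup.center P).inv_mem hgp)
        simpa using h5
      have e1 : h * (x * g) = (x * g) * h := h3' (x * g) (C1.mul_mem hxC1 hg) hxgp h hh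
      have e2 : h * x = x * h := h3' x hxC1 hxp h hh
      have e3 : x * (h * g) = x * (g * h) := by
        rw [← mul_assoc, ← e2, mul_assoc, e1, mul_assoc]
      exact (mul_left_cancel e3).symm
    · exact (h3' g hg hgp h hh).symm
  have h6 : ∀ u ∈ C1, u ∉ Subgroup.center P → ∀ y : P, y * u = u * y → y ∈ C1 := by
    intro u hu hun y hy
    have hle : Subgroup.centralizer ({x'} : Set P) ≤ Subgroup.centralizer ({u} : Set P) := by
      intro h hh; rw [hmem]; exact hab h (by rw [hC1]; exact hh) u hu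
    have h1 := F1 x' u hx'n hun hle ((hmem u y).2 hy)
    rw [hC1]; exact h1
  have hζmul : ∀ g h : P, x' * (g * h) * x'⁻¹ * (g * h)⁻¹
      = (x' * g * x'⁻¹ * g⁻¹) * (x' * h * x'⁻¹ * h⁻¹) := by
    intro g h
    have c := hcen _ (hx'c h) g⁻¹
    calc x' * (g * h) * x'⁻¹ * (g * h)⁻¹
        = x' * g * x'⁻¹ * (g⁻¹ * (x' * h * x'⁻¹ * h⁻¹)) := by rw [c]; group
      _ = _ := by group
  obtain ⟨f, hf⟩ : ∃ f : P →* P, ∀ g, f g = x' * g * x'⁻¹ * g⁻¹ :=
    ⟨MonoidHom.mk' (fun g => x' * g * x'⁻¹ * g⁻¹) hζmul, fun g => rfl⟩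
  have hker : ∀ w : P, w ∈ C1 ↔ f w = 1 := by
    intro w
    rw [hC1mem, hf, mul_inv_eq_one, mul_inv_eq_iff_eq_mul]
    exact eq_comm
  have hnorm : C1.Normal := by
    have : C1 = f.ker := by ext w; rw [hker, MonoidHom.mem_ker]
    rw [this]; infer_instance
  have hcomm : ∀ y1 y2 : P, y1 * y2 * y1⁻¹ * y2⁻¹ ∈ C1 := by
    intro y1 y2
    rw [hker, map_mul, map_mul, map_mul, map_inv, map_inv]
    have c : f y2 * f y1 = f y1 * f y2 := hcen (f y1) (by rw [hf]; exact hx'c y1) (f y2)
    rw [← c, mul_inv_cancel_right, mul_inv_cancel]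
  by_cases hI : ∃ y1 y2 : P, y2 ∉ C1 ∧ ∀ j < p, y1 * y2 ^ j ∉ C1
  · obtain ⟨y1, y2, hy2, hy12⟩ := hI
    letI : CommGroup ↥C1 := { (inferInstance : Group ↥C1) with
      mul_comm := fun u v => Subtype.ext (hab u.1 u.2 v.1 v.2) }
    let ψ : P → AddMonoid.End (Additive ↥C1) := fun g =>
      AddMonoidHom.mk' (fun u => Additive.ofMul
        (⟨g * ((Additive.toMul u : ↥C1) : P) * g⁻¹, hnorm.conj_mem _ (Additive.toMul u).2 g⟩ : ↥C1))
        (by
          intro u v
          apply congrArg Additive.ofMul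
          apply Subtype.ext
          show g * (((Additive.toMul u : ↥C1) : P) * ((Additive.toMul v : ↥C1) : P)) * g⁻¹
            = (g * ((Additive.toMul u : ↥C1) : P) * g⁻¹) * (g * ((Additive.toMul v : ↥C1) : P) * g⁻¹)
          group)
    have hψ : ∀ (g : P) (u : Additive ↥C1),
        ((Additive.toMul (ψ g u) : ↥C1) : P) = g * ((Additive.toMul u : ↥C1) : P) * g⁻¹ :=
      fun g u => rfl
    have hadd : ∀ (A B : AddMonoid.End (Additive ↥C1)) (w : Additive ↥C1), (A + B) w = A w + B w :=
      fun _ _ _ => rfl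
    have ψ_mul : ∀ g h : P, ψ (g * h) = ψ g * ψ h := by
      intro g h
      refine DFunLike.ext _ _ (fun u => ?_)
      apply Additive.toMul.injective
      apply Subtype.ext
      rw [hψ]
      show _ = ((Additive.toMul (ψ g (ψ h u)) : ↥C1) : P)
      rw [hψ, hψ]; group
    have ψ_one : ∀ c ∈ C1, ψ c = 1 := by
      intro c hc
      refine DFunLike.ext _ _ (fun u => ?_)
      apply Additive.toMul.injective
      apply Subtype.ext
      rw [hψ]
      show _ = ((Additive.toMul u : ↥C1) : P)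
      rw [hab c hc _ (Additive.toMul u).2, mul_inv_cancel_right]
    have ψ_pow : ∀ (g : P) (n : ℕ), ψ (g ^ n) = (ψ g) ^ n := by
      intro g n
      induction n with
      | zero => rw [pow_zero, pow_zero]; exact ψ_one 1 C1.one_mem
      | succ n ih => rw [pow_succ, pow_succ, ψ_mul, ih]
    have hlink : ∀ (g : P) (u : Additive ↥C1) (n : ℕ),
        (((Additive.toMul u : ↥C1) : P) * g) ^ n =
          ((Additive.toMul ((∑ i ∈ Finset.range n, (ψ g) ^ i) u) : ↥C1) : P) * g ^ n := by
      intro g u n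
      induction n with
      | zero =>
        rw [Finset.range_zero, Finset.sum_empty, pow_zero, pow_zero, mul_one]
        rfl
      | succ n ih =>
        rw [Finset.sum_range_succ, pow_succ, ih, hadd, ← ψ_pow]
        have e : ((Additive.toMul ((∑ i ∈ Finset.range n, (ψ g) ^ i) u + ψ (g ^ n) u) : ↥C1) : P)
            = ((Additive.toMul ((∑ i ∈ Finset.range n, (ψ g) ^ i) u) : ↥C1) : P)
              * (g ^ n * ((Additive.toMul u : ↥C1) : P) * (g ^ n)⁻¹) := rfl
        rw [e, pow_succ]
        group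
    obtain ⟨u0, hu0⟩ : ∃ u0 : Additive ↥C1, ((Additive.toMul u0 : ↥C1) : P) = x :=
      ⟨Additive.ofMul (⟨x, hxC1⟩ : ↥C1), rfl⟩
    have hst : Commute (ψ y1) (ψ y2) := by
      show ψ y1 * ψ y2 = ψ y2 * ψ y1
      rw [← ψ_mul, ← ψ_mul]
      have e : y1 * y2 = (y1 * y2 * y1⁻¹ * y2⁻¹) * (y2 * y1) := by group
      rw [e, ψ_mul, ψ_one _ (hcomm y1 y2), one_mul]
    have ht : (ψ y2) ^ p = 1 := by rw [← ψ_pow]; exact ψ_one _ (hpowC1 y2)
    have hfix : ∀ j < p, (ψ y2) ((∑ i ∈ Finset.range p, (ψ y1 * (ψ y2) ^ j) ^ i) u0)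
        = (∑ i ∈ Finset.range p, (ψ y1 * (ψ y2) ^ j) ^ i) u0 := by
      intro j hj
      have hg : y1 * y2 ^ j ∉ C1 := hy12 j hj
      rw [← ψ_pow, ← ψ_mul]
      have h1 := hlink (y1 * y2 ^ j) u0 p
      rw [hu0] at h1
      have hz1 : (x * (y1 * y2 ^ j)) ^ p ∈ Subgroup.center P := hpowZ _ (fun hc => hg (by
        have h2 := C1.mul_mem (C1.inv_mem hxC1) hc
        simpa using h2))
      have hz2 := hpowZ _ hg
      have hS : ((Additive.toMul ((∑ i ∈ Finset.range p, (ψ (y1 * y2 ^ j)) ^ i) u0) : ↥C1) : P)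
          ∈ Subgroup.center P := by
        have e : ((Additive.toMul ((∑ i ∈ Finset.range p, (ψ (y1 * y2 ^ j)) ^ i) u0) : ↥C1) : P)
            = (x * (y1 * y2 ^ j)) ^ p * ((y1 * y2 ^ j) ^ p)⁻¹ := by
          rw [h1, mul_inv_cancel_right]
        rw [e]
        exact (Subgroup.center P).mul_mem hz1 ((Subgroup.center P).inv_mem hz2)
      apply Additive.toMul.injective
      apply Subtype.ext
      rw [hψ]
      have h5 := hcen _ hS y2
      rw [h5, mul_inv_cancel_right]
    have hres := hughes p (ψ y1) (ψ y2) hst ht u0 hfix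
    have e1 : ((Additive.toMul (p • u0) : ↥C1) : P) = x ^ p := by
      rw [← hu0]; rfl
    have e2 := hψ y2 (p • u0)
    rw [hres, e1] at e2
    have e3 : y2 * x ^ p = x ^ p * y2 := mul_inv_eq_iff_eq_mul.1 e2.symm
    exact hy2 (h6 (x ^ p) (C1.pow_mem hxC1 p) hxp y2 e3)
  · push Not at hI
    obtain ⟨y, hy⟩ : ∃ y : P, y ∉ C1 := by
      by_contra hall
      push Not at hall
      apply hx'n
      rw [Subgroup.mem_center_iff]
      intro g
      exact (hC1mem g).1 (hall g)
    have hidxle : C1.index ≤ p := by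
      have hsurj : Function.Surjective (fun j : Fin p => ((y ^ (j : ℕ) : P) : P ⧸ C1)) := by
        intro q
        obtain ⟨g, rfl⟩ := QuotientGroup.mk_surjective q
        obtain ⟨j, hj, hjm⟩ := hI g⁻¹ y hy
        refine ⟨⟨j, hj⟩, ?_⟩
        show ((y ^ j : P) : P ⧸ C1) = (g : P ⧸ C1)
        rw [eq_comm, QuotientGroup.eq]
        exact hjm
      have h1 := Nat.card_le_card_of_surjective _ hsurj
      rw [Nat.card_fin] at h1
      exact h1
    have hDZ : C1 ⊓ Subgroup.centralizer ({y} : Set P) ≤ Subgroup.center P := by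
      intro u hu
      by_contra hun
      exact hy (h6 u hu.1 hun y ((hmem y u).1 hu.2).symm)
    have hyn : y ∉ Subgroup.center P := by
      intro hc; apply hy; rw [hC1mem]; exact (hcen y hc x').symm
    have h1 : (Subgroup.center P).index ≤ p ^ a * p ^ a := by
      have hdvd := Subgroup.index_dvd_of_le hDZ
      have hle := Subgroup.index_inf_le (H := C1) (K := Subgroup.centralizer ({y} : Set P))
      rw [hC1idx, hidx y hyn] at hle
      have hpos : 0 < (C1 ⊓ Subgroup.centralizer ({y} : Set P)).index :=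
        Nat.pos_of_ne_zero Subgroup.index_ne_zero_of_finite
      exact (Nat.le_of_dvd hpos hdvd).trans hle
    have hC1Z : Subgroup.center P ≤ C1 := by
      intro z hz; rw [hC1mem]; exact (hcen z hz x').symm
    have h2 := Subgroup.relIndex_mul_index hC1Z
    rw [hC1idx] at h2
    have h4 : (Subgroup.center P).relIndex C1 ≤ p := by
      have hpos : 0 < p ^ a := pow_pos hp.pos a
      have h5 : (Subgroup.center P).relIndex C1 * p ^ a ≤ p ^ a * p ^ a := by rw [h2]; exact h1
      have h6' := Nat.le_of_mul_le_mul_right h5 hpos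
      have hle : p ^ a ≤ p := by rw [← hC1idx]; exact hidxle
      exact h6'.trans hle
    have hrel : (Subgroup.center P).relIndex C1 = 1 ∨ (Subgroup.center P).relIndex C1 = p := by
      have hd1 : (Subgroup.center P).relIndex C1 ∣ Nat.card P :=
        (Subgroup.relIndex_dvd_card (Subgroup.center P) C1).trans (Subgroup.card_subgroup_dvd_card C1)
      obtain ⟨n, hn⟩ := IsPGroup.iff_card.1 hP
      rw [hn] at hd1
      obtain ⟨k, hk, hk2⟩ := (Nat.dvd_prime_pow hp).1 hd1
      rw [hk2] at h4 ⊢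
      have hk1 : k ≤ 1 := by
        by_contra hk1
        have h7 : p ^ 2 ≤ p ^ k := Nat.pow_le_pow_right hp.pos (by omega)
        nlinarith [hp.one_lt]
      interval_cases k
      · left; simp
      · right; simp
    apply hxp
    have hpowmem : (⟨x, hxC1⟩ : ↥C1) ^ ((Subgroup.center P).subgroupOf C1).index
        ∈ (Subgroup.center P).subgroupOf C1 := Subgroup.pow_index_mem _ _
    rw [Subgroup.mem_subgroupOf] at hpowmem
    have hidx' : ((Subgroup.center P).subgroupOf C1).index = (Subgroup.center P).relIndex C1 := rfl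
    rw [hidx'] at hpowmem
    rcases hrel with h1' | hp'
    · rw [h1', pow_one] at hpowmem
      exact Subgroup.pow_mem _ hpowmem p
    · rw [hp'] at hpowmem
      simpa using hpowmem

end Cfsg.Agent.S4365
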