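import Cfsg.Statements.S4370
import Mathlib
import Cfsg.Agent.Helper7.EqOrdSylow
import Cfsg.Agent.Helper3.Cores
import Cfsg.Agent.Helper4.Cores
import Cfsg.Agent.S0016

set_option autoImplicit false
open Cfsg

namespace Cfsg.Agent.S4370

theorem comm_of_isCyclic {α : Type*} [Group α] (h : IsCyclic α) (a b : α) : a * b = b * a := by
  obtain ⟨g, hg⟩ := h.exists_generator
  obtain ⟨s, rfl⟩ := Subgroup.mem_zpowers_iff.1 (hg a)
  obtain ⟨t, rfl⟩ := Subgroup.mem_zpowers_iff.1 (hg b)
  rw [← zpow_add, ← zpow_add, add_comm]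

/-- Elements of two normal subgroups with trivial intersection commute. -/
theorem commute_of_normal_inf_bot {G : Type*} [Group G] (P O : Subgroup G) [hP : P.Normal]
    [hO : O.Normal] (hinf : P ⊓ O = ⊥) (a b : G) (ha : a ∈ P) (hb : b ∈ O) : a * b = b * a := by
  have h1 : a * b * a⁻¹ * b⁻¹ ∈ P ⊓ O := by
    refine ⟨?_, ?_⟩
    · have e : a * b * a⁻¹ * b⁻¹ = a * (b * a⁻¹ * b⁻¹) := by group
      rw [e]
      exact P.mul_mem ha (hP.conj_mem _ (P.inv_mem ha) _)
    · exact O.mul_mem (hO.conj_mem _ hb _) (O.inv_mem hb)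
  rw [hinf, Subgroup.mem_bot] at h1
  calc a * b = (a * b * a⁻¹ * b⁻¹) * (b * a) := by group
    _ = b * a := by rw [h1, one_mul]

/-- Internal direct product of two normal subgroups. -/
theorem exists_mulEquiv_prod {G : Type*} [Group G] (P O : Subgroup G) [hP : P.Normal]
    [hO : O.Normal] (hinf : P ⊓ O = ⊥) (hsup : P ⊔ O = ⊤) : Nonempty (G ≃* P × O) := by
  have hcomm : ∀ (a : P) (b : O), Commute (P.subtype a) (O.subtype b) := fun a b =>
    commute_of_normal_inf_bot P O hinf a b a.2 b.2
  let φ : P × O →* G := MonoidHom.noncommCoprod P.subtype O.subtype hcomm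
  have hφ : ∀ x : P × O, φ x = (x.1 : G) * (x.2 : G) := fun x => rfl
  have hinj : Function.Injective φ := by
    rw [injective_iff_map_eq_one]
    rintro ⟨a, b⟩ h
    rw [hφ] at h
    have ha : (a : G) ∈ P ⊓ O :=
      ⟨a.2, by rw [eq_inv_of_mul_eq_one_left h]; exact O.inv_mem b.2⟩
    rw [hinf, Subgroup.mem_bot] at ha
    have hb : (b : G) = 1 := by
      simp only at h
      rw [ha, one_mul] at h
      exact h
    exact Prod.ext (Subtype.ext ha) (Subtype.ext hb)
  have hsurj : Function.Surjective φ := by
    intro g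
    have hg : g ∈ ((P ⊔ O : Subgroup G) : Set G) := by rw [hsup]; trivial
    rw [Subgroup.normal_mul] at hg
    obtain ⟨a, ha, b, hb, rfl⟩ := Set.mem_mul.1 hg
    exact ⟨(⟨a, ha⟩, ⟨b, hb⟩), rfl⟩
  exact ⟨(MulEquiv.ofBijective φ ⟨hinj, hsurj⟩).symm⟩

/-- `d + d = 0` in `ZMod (2n)` forces `d = 0` or `d = n`. -/
theorem zmod_double {n : ℕ} [NeZero n] (d : ZMod (2 * n)) (h : d + d = 0) :
    d = 0 ∨ d = (n : ZMod (2 * n)) := by
  have hn : 0 < n := Nat.pos_of_ne_zero (NeZero.ne n)
  have h1 : ((d.val + d.val : ℕ) : ZMod (2 * n)) = 0 := by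
    rw [Nat.cast_add, ZMod.natCast_zmod_val, h]
  rw [ZMod.natCast_eq_zero_iff] at h1
  have h2 : d.val < 2 * n := ZMod.val_lt d
  obtain ⟨c, hc⟩ := h1
  have hc' : d.val = n * c := by
    have : 2 * d.val = 2 * (n * c) := by rw [← mul_assoc, ← hc]; ring
    omega
  have hc2 : c < 2 := by
    by_contra hcc
    have : n * 2 ≤ n * c := Nat.mul_le_mul_left n (by omega)
    omega
  interval_cases c
  · left
    rw [mul_zero] at hc'
    exact (ZMod.val_eq_zero d).1 hc'
  · right
    rw [mul_one] at hc'
    have h5 := ZMod.natCast_zmod_val d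
    rw [hc'] at h5
    exact h5.symm

/-- Centralizers of noncentral elements of dicyclic groups are cyclic. -/
theorem quat_centralizer_cyclic {n : ℕ} [NeZero n] (q : QuaternionGroup n)
    (hq : q ∉ Subgroup.center (QuaternionGroup n)) :
    IsCyclic (Subgroup.centralizer ({q} : Set (QuaternionGroup n))) := by
  have hnn : (n : ZMod (2 * n)) + (n : ZMod (2 * n)) = 0 := by
    rw [← Nat.cast_add, ← two_mul]; exact ZMod.natCast_self _
  rcases q with i | i
  · -- q = a i
    have hi : i + i ≠ 0 := by
      intro h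
      apply hq
      rw [Subgroup.mem_center_iff]
      have hneg : -i = i := by rw [neg_eq_iff_add_eq_zero]; exact h
      rintro (l | l)
      · rw [QuaternionGroup.a_mul_a, QuaternionGroup.a_mul_a, add_comm]
      · rw [QuaternionGroup.xa_mul_a, QuaternionGroup.a_mul_xa, sub_eq_add_neg, hneg]
    have hmem : (QuaternionGroup.a 1 : QuaternionGroup n)
        ∈ Subgroup.centralizer ({QuaternionGroup.a i} : Set (QuaternionGroup n)) := by
      rw [Subgroup.mem_centralizer_singleton_iff, QuaternionGroup.a_mul_a,
        QuaternionGroup.a_mul_a, add_comm]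
    refine ⟨⟨⟨QuaternionGroup.a 1, hmem⟩, ?_⟩⟩
    rintro ⟨w, hw⟩
    rw [Subgroup.mem_centralizer_singleton_iff] at hw
    rcases w with j | j
    · refine ⟨(j.val : ℤ), ?_⟩
      apply Subtype.ext
      simp only [zpow_natCast]
      show (QuaternionGroup.a 1 : QuaternionGroup n) ^ j.val = QuaternionGroup.a j
      rw [QuaternionGroup.a_one_pow, ZMod.natCast_zmod_val]
    · exfalso
      rw [QuaternionGroup.xa_mul_a, QuaternionGroup.a_mul_xa] at hw
      have h2 : j + i = j - i := by injection hw
      apply hi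
      have h3 : i = -i := by
        have := congrArg (fun t => t - j) h2
        simpa using this
      calc i + i = i + -i := by rw [← h3]
        _ = 0 := add_neg_cancel i
  · -- q = xa i
    have hmem : (QuaternionGroup.xa i : QuaternionGroup n)
        ∈ Subgroup.centralizer ({QuaternionGroup.xa i} : Set (QuaternionGroup n)) := by
      rw [Subgroup.mem_centralizer_singleton_iff]
    refine ⟨⟨⟨QuaternionGroup.xa i, hmem⟩, ?_⟩⟩
    rintro ⟨w, hw⟩
    rw [Subgroup.mem_centralizer_singleton_iff] at hw
    have hsq : (QuaternionGroup.xa i : QuaternionGroup n) ^ 2 = QuaternionGroup.a n :=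
      QuaternionGroup.xa_sq i
    rcases w with j | j
    · rw [QuaternionGroup.a_mul_xa, QuaternionGroup.xa_mul_a] at hw
      have h2 : i - j = i + j := by injection hw
      have h3 : j + j = 0 := by
        linear_combination (-1 : ZMod (2 * n)) * h2
      rcases zmod_double j h3 with rfl | rfl
      · refine ⟨0, ?_⟩
        apply Subtype.ext
        simp only [zpow_zero]
        show (1 : QuaternionGroup n) = QuaternionGroup.a 0
        exact QuaternionGroup.one_def
      · refine ⟨2, ?_⟩
        apply Subtype.ext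
        show (QuaternionGroup.xa i : QuaternionGroup n) ^ (2 : ℤ) = QuaternionGroup.a n
        rw [show (2 : ℤ) = ((2 : ℕ) : ℤ) by norm_num, zpow_natCast, hsq]
    · rw [QuaternionGroup.xa_mul_xa, QuaternionGroup.xa_mul_xa] at hw
      have h2 : (n : ZMod (2 * n)) + i - j = (n : ZMod (2 * n)) + j - i := by injection hw
      have h3 : (j - i) + (j - i) = 0 := by
        linear_combination (-1 : ZMod (2 * n)) * h2
      rcases zmod_double (j - i) h3 with h4 | h4
      · have hji : j = i := sub_eq_zero.1 h4
        subst hji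
        refine ⟨1, ?_⟩
        apply Subtype.ext
        show (QuaternionGroup.xa j : QuaternionGroup n) ^ (1 : ℤ) = QuaternionGroup.xa j
        rw [zpow_one]
      · have hji : j = i + (n : ZMod (2 * n)) := by rw [← h4]; ring
        subst hji
        refine ⟨3, ?_⟩
        apply Subtype.ext
        show (QuaternionGroup.xa i : QuaternionGroup n) ^ (3 : ℤ)
          = QuaternionGroup.xa (i + (n : ZMod (2 * n)))
        rw [show (3 : ℤ) = ((3 : ℕ) : ℤ) by norm_num, zpow_natCast, pow_succ, hsq,
          QuaternionGroup.a_mul_xa]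
        congr 1
        have hneg : -(n : ZMod (2 * n)) = (n : ZMod (2 * n)) := by
          rw [neg_eq_iff_add_eq_zero]; exact hnn
        rw [sub_eq_add_neg, hneg]

/-- Let G be a finite non-abelian nilpotent group. Then the centralizer of every non-central element of G is cyclic if and only if G is isomorphic to the direct product of a generalized quaternion group and a cyclic group of odd order. -/
theorem result {G : Type*} [Group G] [Finite G] (hG : Group.IsNilpotent G)
    (hna : ¬ IsMulCommutative G) :
    (∀ x : G, x ∉ Subgroup.center G → IsCyclic (Subgroup.centralizer ({x} : Set G))) ↔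
      ∃ (k m : ℕ), 1 ≤ k ∧ Odd m ∧ Nonempty (G ≃* QuaternionGroup (2 ^ k) × Multiplicative (ZMod m)) := by
  constructor
  · intro hcyc
    obtain ⟨x₀, hx₀⟩ : ∃ x₀ : G, x₀ ∉ Subgroup.center G := by
      by_contra h
      push_neg at h
      apply hna
      exact ⟨⟨fun a b => ((Subgroup.mem_center_iff.1 (h b)) a)⟩⟩
    have key : ∀ (A : Subgroup G) (x : G), x ∉ Subgroup.center G →
        A ≤ Subgroup.centralizer {x} → IsCyclic A := by
      intro A x hx hle
      haveI := hcyc x hx
      have e : A ≃* A.subgroupOf (Subgroup.centralizer {x}) :=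
        (Subgroup.subgroupOfEquivOfLe hle).symm
      exact isCyclic_of_surjective e.symm e.symm.surjective
    have hab : ∀ A : Subgroup G, (∀ x ∈ A, ∀ y ∈ A, x * y = y * x) → IsCyclic A := by
      intro A hA
      by_cases hAZ : A ≤ Subgroup.center G
      · apply key A x₀ hx₀
        intro a ha
        rw [Subgroup.mem_centralizer_singleton_iff]
        exact (Subgroup.mem_center_iff.1 (hAZ ha) x₀).symm
      · obtain ⟨a, ha, haZ⟩ := SetLike.not_le_iff_exists.1 hAZ
        apply key A a haZ
        intro b hb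
        rw [Subgroup.mem_centralizer_singleton_iff]
        exact hA b hb a ha
    have hsyl : ∀ (p : ℕ) [Fact p.Prime] (P : Sylow p G), IsCyclic ↥(P : Subgroup G) ∨
        (p = 2 ∧ ∃ n : ℕ, Nonempty (↥(P : Subgroup G) ≃* QuaternionGroup (2 ^ n))) := by
      intro p _ P
      have habP : ∀ E : Subgroup ↥(P : Subgroup G), (∀ x ∈ E, ∀ y ∈ E, x * y = y * x) →
          IsCyclic E := by
        intro E hE
        have h1 : IsCyclic (E.map (P : Subgroup G).subtype) := by
          apply hab
          rintro _ ⟨x, hx, rfl⟩ _ ⟨y, hy, rfl⟩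
          rw [← map_mul, ← map_mul, hE x hx y hy]
        have e : E ≃* E.map (P : Subgroup G).subtype :=
          E.equivMapOfInjective _ (P : Subgroup G).subtype_injective
        exact isCyclic_of_surjective e.symm e.symm.surjective
      exact Cfsg.Agent.S0016.result p P.2
        (Cfsg.Agent.Helper7.unique_subgroup_prime_of_abelian_cyclic p P.2 habP)
    have hnormal : ∀ (p : ℕ) (_ : Fact p.Prime) (P : Sylow p G), (P : Subgroup G).Normal :=
      (Group.isNilpotent_of_finite_tfae.out 0 3).1 hG
    haveI h2 : Fact (Nat.Prime 2) := ⟨Nat.prime_two⟩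
    obtain ⟨P₂⟩ : Nonempty (Sylow 2 G) := inferInstance
    haveI hP₂n : (P₂ : Subgroup G).Normal := hnormal 2 h2 P₂
    have hP₂ : ¬ IsCyclic ↥(P₂ : Subgroup G) := by
      intro hc
      apply hna
      obtain ⟨e⟩ := (Group.isNilpotent_of_finite_tfae.out 0 4).1 hG
      have hall : ∀ (p : (Nat.card G).primeFactors) (P : Sylow p G) (a b : ↥(P : Subgroup G)),
          a * b = b * a := by
        rintro ⟨p, hpm⟩ P a b
        haveI : Fact p.Prime := ⟨Nat.prime_of_mem_primeFactors hpm⟩
        have hPc : IsCyclic ↥(P : Subgroup G) := by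
          rcases hsyl p P with h | ⟨hp2, -⟩
          · exact h
          · subst hp2
            haveI := Sylow.unique_of_normal P₂ hP₂n
            have : P = P₂ := Subsingleton.elim _ _
            rw [this]
            exact hc
        exact comm_of_isCyclic hPc a b
      refine ⟨⟨fun x y => ?_⟩⟩
      have h3 : e.symm x * e.symm y = e.symm y * e.symm x := by
        funext p P
        exact hall p P _ _
      apply e.symm.injective
      rw [map_mul, map_mul, h3]
    obtain ⟨n, ⟨eQ⟩⟩ : ∃ n : ℕ, Nonempty (↥(P₂ : Subgroup G) ≃* QuaternionGroup (2 ^ n)) := by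
      rcases hsyl 2 P₂ with h | ⟨-, h⟩
      · exact absurd h hP₂
      · exact h
    have hn : 1 ≤ n := by
      by_contra h
      have hn0 : n = 0 := by omega
      subst hn0
      apply hP₂
      haveI : IsCyclic (QuaternionGroup (2 ^ 0)) := by
        rw [pow_zero]; exact QuaternionGroup.quaternionGroup_one_isCyclic
      exact isCyclic_of_surjective eQ.symm eQ.symm.surjective
    haveI hOn : (Cfsg.pPrimeCore 2 G).Normal := Cfsg.Agent.Helper4.pPrimeCore_normal 2 G
    have hOcop : (Nat.card (Cfsg.pPrimeCore 2 G)).Coprime 2 :=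
      Cfsg.Agent.Helper3.pPrimeCore_coprime 2 G
    have hinf : (P₂ : Subgroup G) ⊓ Cfsg.pPrimeCore 2 G = ⊥ := by
      apply Subgroup.inf_eq_bot_of_coprime
      obtain ⟨j, hj⟩ := IsPGroup.iff_card.1 P₂.2
      rw [hj]
      exact Nat.Coprime.pow_left _ hOcop.symm
    have hsup : (P₂ : Subgroup G) ⊔ Cfsg.pPrimeCore 2 G = ⊤ := by
      rw [← Subgroup.index_eq_one]
      by_contra hne
      obtain ⟨q, hq, hqd⟩ := Nat.exists_prime_and_dvd hne
      haveI hqf : Fact q.Prime := ⟨hq⟩
      obtain ⟨S⟩ : Nonempty (Sylow q G) := inferInstance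
      have hSle : (S : Subgroup G) ≤ (P₂ : Subgroup G) ⊔ Cfsg.pPrimeCore 2 G := by
        by_cases hq2 : q = 2
        · subst hq2
          haveI := Sylow.unique_of_normal P₂ hP₂n
          have : S = P₂ := Subsingleton.elim _ _
          rw [this]
          exact le_sup_left
        · haveI : (S : Subgroup G).Normal := hnormal q hqf S
          refine le_trans ?_ le_sup_right
          apply Cfsg.Agent.Helper3.le_pPrimeCore
          obtain ⟨j, hj⟩ := IsPGroup.iff_card.1 S.2
          rw [hj]
          apply Nat.Coprime.pow_left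
          exact (Nat.coprime_primes hq Nat.prime_two).2 hq2
      exact S.not_dvd_index (hqd.trans (Subgroup.index_dvd_of_le hSle))
    obtain ⟨e₁⟩ := exists_mulEquiv_prod (P₂ : Subgroup G) (Cfsg.pPrimeCore 2 G) hinf hsup
    -- the odd part is cyclic
    obtain ⟨x, hx, y, hy, hxy⟩ : ∃ x ∈ (P₂ : Subgroup G), ∃ y ∈ (P₂ : Subgroup G),
        x * y ≠ y * x := by
      by_contra h
      push_neg at h
      exact hP₂ (hab _ h)
    have hxZ : x ∉ Subgroup.center G := by
      intro hxc
      exact hxy ((Subgroup.mem_center_iff.1 hxc y).symm)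
    have hOc : IsCyclic ↥(Cfsg.pPrimeCore 2 G) := by
      apply key _ x hxZ
      intro b hb
      rw [Subgroup.mem_centralizer_singleton_iff]
      exact (commute_of_normal_inf_bot (P₂ : Subgroup G) (Cfsg.pPrimeCore 2 G) hinf x b hx hb).symm
    refine ⟨n, Nat.card ↥(Cfsg.pPrimeCore 2 G), hn, Nat.coprime_two_right.1 hOcop, ⟨?_⟩⟩
    exact e₁.trans (MulEquiv.prodCongr eQ (zmodCyclicMulEquiv hOc).symm)
  · rintro ⟨k, m, hk, hm, ⟨e⟩⟩ x hx
    haveI : NeZero (2 ^ k) := ⟨by positivity⟩
    have hq : (e x).1 ∉ Subgroup.center (QuaternionGroup (2 ^ k)) := by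
      intro hq
      apply hx
      rw [Subgroup.mem_center_iff]
      intro g
      apply e.injective
      rw [map_mul, map_mul]
      refine Prod.ext ?_ ?_
      · exact Subgroup.mem_center_iff.1 hq (e g).1
      · exact mul_comm _ _
    have hcq := quat_centralizer_cyclic (e x).1 hq
    haveI : IsCyclic (↥(Subgroup.centralizer ({(e x).1} : Set (QuaternionGroup (2 ^ k))))
        × Multiplicative (ZMod m)) := by
      rw [Group.isCyclic_prod_iff]
      refine ⟨hcq, inferInstance, ?_⟩
      have h1 : Nat.card ↥(Subgroup.centralizer ({(e x).1} : Set (QuaternionGroup (2 ^ k))))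
          ∣ 2 ^ (k + 2) := by
        have h2 := Subgroup.card_subgroup_dvd_card
          (Subgroup.centralizer ({(e x).1} : Set (QuaternionGroup (2 ^ k))))
        rw [Nat.card_eq_fintype_card (α := QuaternionGroup (2 ^ k)), QuaternionGroup.card] at h2
        have h3 : 4 * 2 ^ k = 2 ^ (k + 2) := by ring
        rwa [h3] at h2
      have h4 : Nat.card (Multiplicative (ZMod m)) = m := by
        rw [Nat.card_congr Multiplicative.toAdd, Nat.card_zmod]
      rw [h4]
      exact Nat.Coprime.coprime_dvd_left h1 (Nat.Coprime.pow_left _ (Nat.coprime_two_left.2 hm))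
    let ψ : ↥(Subgroup.centralizer ({(e x).1} : Set (QuaternionGroup (2 ^ k))))
        × Multiplicative (ZMod m) →* ↥(Subgroup.centralizer ({x} : Set G)) :=
      { toFun := fun z => ⟨e.symm ((z.1 : QuaternionGroup (2 ^ k)), z.2), by
          rw [Subgroup.mem_centralizer_singleton_iff]
          apply e.injective
          rw [map_mul, map_mul, MulEquiv.apply_symm_apply]
          refine Prod.ext ?_ ?_
          · exact Subgroup.mem_centralizer_singleton_iff.1 z.1.2
          · exact mul_comm _ _⟩
        map_one' := by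
          apply Subtype.ext
          show e.symm (1 : QuaternionGroup (2 ^ k) × Multiplicative (ZMod m)) = 1
          exact map_one _
        map_mul' := by
          intro z1 z2
          apply Subtype.ext
          show e.symm (((z1.1 : QuaternionGroup (2 ^ k)), z1.2) * ((z2.1 : QuaternionGroup (2 ^ k)), z2.2))
            = e.symm ((z1.1 : QuaternionGroup (2 ^ k)), z1.2) * e.symm ((z2.1 : QuaternionGroup (2 ^ k)), z2.2)
          exact map_mul _ _ _ }
    have hψ : Function.Surjective ψ := by
      rintro ⟨w, hw⟩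
      rw [Subgroup.mem_centralizer_singleton_iff] at hw
      have hw1 : (e w).1 ∈ Subgroup.centralizer ({(e x).1} : Set (QuaternionGroup (2 ^ k))) := by
        rw [Subgroup.mem_centralizer_singleton_iff]
        have h1 := congrArg (fun t => (e t).1) hw
        simpa using h1
      refine ⟨(⟨(e w).1, hw1⟩, (e w).2), ?_⟩
      apply Subtype.ext
      show e.symm ((e w).1, (e w).2) = w
      rw [Prod.mk.eta, MulEquiv.symm_apply_apply]
    exact isCyclic_of_surjective ψ hψ

end Cfsg.Agent.S4370
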