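import Cfsg.Statements.S4381
import Cfsg.Agent.Helper7.CoprimeExt

set_option autoImplicit false
open Pointwise
open Cfsg

namespace Cfsg.Agent.S4381

/-- Let the finite group A act by automorphisms on the finite group G with the orders of A and G coprime, and assume that A or G is solvable. Call a proper A-invariant subgroup of G maximal A-invariant when no A-invariant subgroup lies strictly between it and G. Then all maximal A-invariant subgroups of G are conjugate under elements of the fixed-point subgroup C_G(A) if and only if G is a p-group for some prime p and A leaves invariant no subgroup strictly between the Frattini subgroup of G and G. In that case, if G is nontrivial, the Frattini subgroup is the only maximal A-invariant subgroup (a trivial G has none). -/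
theorem result {A G : Type*} [Group A] [Finite A]
    [Group G] [Finite G] [MulDistribMulAction A G] (hcop : (Nat.card A).Coprime (Nat.card G)) (hsol : Group.IsSolvable A ∨ Group.IsSolvable G) :
    ((∀ M N : Subgroup G, (M ≠ ⊤ ∧ (∀ a : A, ∀ x ∈ M, a • x ∈ M) ∧ ∀ L : Subgroup G, M < L → (∀ a : A, ∀ x ∈ L, a • x ∈ L) → L = ⊤) → (N ≠ ⊤ ∧ (∀ a : A, ∀ x ∈ N, a • x ∈ N) ∧ ∀ L : Subgroup G, N < L → (∀ a : A, ∀ x ∈ L, a • x ∈ L) → L = ⊤) →
        ∃ c : G, (∀ a : A, a • c = c) ∧ N = MulAut.conj c • M) ↔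
      ((∃ p : ℕ, p.Prime ∧ IsPGroup p G) ∧ ∀ L : Subgroup G, frattini G < L → (∀ a : A, ∀ x ∈ L, a • x ∈ L) → L = ⊤)) ∧
    (((∃ p : ℕ, p.Prime ∧ IsPGroup p G) ∧ ∀ L : Subgroup G, frattini G < L → (∀ a : A, ∀ x ∈ L, a • x ∈ L) → L = ⊤) →
      ∀ M : Subgroup G, (M ≠ ⊤ ∧ (∀ a : A, ∀ x ∈ M, a • x ∈ M) ∧ ∀ L : Subgroup G, M < L → (∀ a : A, ∀ x ∈ L, a • x ∈ L) → L = ⊤) ↔ (M = frattini G ∧ M ≠ ⊤)) := by
  classical
  have hsupinv : ∀ L₁ L₂ : Subgroup G, (∀ a : A, ∀ x ∈ L₁, a • x ∈ L₁) →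
      (∀ a : A, ∀ x ∈ L₂, a • x ∈ L₂) → ∀ a : A, ∀ x ∈ L₁ ⊔ L₂, a • x ∈ L₁ ⊔ L₂ := by
    intro L₁ L₂ h₁ h₂ a x hx
    have hm : (L₁ ⊔ L₂).map (MulDistribMulAction.toMulAut A G a).toMonoidHom ≤ L₁ ⊔ L₂ := by
      rw [Subgroup.map_sup]
      apply sup_le_sup
      · rintro _ ⟨y, hy, rfl⟩; exact h₁ a y hy
      · rintro _ ⟨y, hy, rfl⟩; exact h₂ a y hy
    exact hm ⟨x, hx, rfl⟩
  have hfrinv : ∀ a : A, ∀ x ∈ frattini G, a • x ∈ frattini G :=
    fun a x hx => Cfsg.Agent.Helper7.frattini_smul_mem a x hx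
  have hF2 : ∀ M : Subgroup G, (M ≠ ⊤ ∧ (∀ a : A, ∀ x ∈ M, a • x ∈ M) ∧
      ∀ L : Subgroup G, M < L → (∀ a : A, ∀ x ∈ L, a • x ∈ L) → L = ⊤) → frattini G ≤ M := by
    rintro M ⟨hM1, hM2, hM3⟩
    by_contra hnot
    have hlt : M < M ⊔ frattini G := by
      refine lt_of_le_of_ne le_sup_left ?_
      intro heq
      apply hnot
      rw [heq]; exact le_sup_right
    have := hM3 _ hlt (hsupinv M _ hM2 hfrinv)
    exact hM1 (frattini_nongenerating this)
  have hF3 : (∀ L : Subgroup G, frattini G < L → (∀ a : A, ∀ x ∈ L, a • x ∈ L) → L = ⊤) →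
      ∀ M : Subgroup G, (M ≠ ⊤ ∧ (∀ a : A, ∀ x ∈ M, a • x ∈ M) ∧
        ∀ L : Subgroup G, M < L → (∀ a : A, ∀ x ∈ L, a • x ∈ L) → L = ⊤) ↔
        (M = frattini G ∧ M ≠ ⊤) := by
    intro hno M
    constructor
    · intro hM
      have hle := hF2 M hM
      refine ⟨?_, hM.1⟩
      by_contra hne
      exact hM.1 (hno M (lt_of_le_of_ne hle (Ne.symm hne)) hM.2.1)
    · rintro ⟨rfl, hne⟩
      exact ⟨hne, hfrinv, fun L hL hLinv => hno L hL hLinv⟩
  have hexmax : ∀ P : Subgroup G, P ≠ ⊤ → (∀ a : A, ∀ x ∈ P, a • x ∈ P) →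
      ∃ M : Subgroup G, P ≤ M ∧ (M ≠ ⊤ ∧ (∀ a : A, ∀ x ∈ M, a • x ∈ M) ∧
        ∀ L : Subgroup G, M < L → (∀ a : A, ∀ x ∈ L, a • x ∈ L) → L = ⊤) := by
    intro P hP hPinv
    haveI : Nonempty {L : Subgroup G // P ≤ L ∧ L ≠ ⊤ ∧ ∀ a : A, ∀ x ∈ L, a • x ∈ L} :=
      ⟨⟨P, le_refl _, hP, hPinv⟩⟩
    obtain ⟨⟨M, hPM, hM, hMinv⟩, hmax⟩ := Finite.exists_max
      (fun L : {L : Subgroup G // P ≤ L ∧ L ≠ ⊤ ∧ ∀ a : A, ∀ x ∈ L, a • x ∈ L} => Nat.card L.1)
    refine ⟨M, hPM, hM, hMinv, ?_⟩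
    intro L hML hLinv
    by_contra hL
    have h1 : Nat.card L ≤ Nat.card M := hmax ⟨L, hPM.trans hML.le, hL, hLinv⟩
    exact hML.ne (Subgroup.eq_of_le_of_card_ge hML.le h1)
  refine ⟨⟨?_, ?_⟩, fun h => hF3 h.2⟩
  · intro hC
    have hpg : ∃ p : ℕ, p.Prime ∧ IsPGroup p G := by
      by_contra hnp
      push_neg at hnp
      have hsyl : ∀ r : ℕ, r.Prime → ∃ M : Subgroup G, (M ≠ ⊤ ∧ (∀ a : A, ∀ x ∈ M, a • x ∈ M) ∧
          ∀ L : Subgroup G, M < L → (∀ a : A, ∀ x ∈ L, a • x ∈ L) → L = ⊤) ∧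
          r ^ (Nat.card G).factorization r ∣ Nat.card M := by
        intro r hr
        haveI := Fact.mk hr
        obtain ⟨P, hPinv⟩ := Cfsg.Agent.Helper7.exists_invariant_sylow_ext hcop hsol r
        have hPtop : (P : Subgroup G) ≠ ⊤ := by
          intro h
          apply hnp r hr
          have h2 := P.isPGroup'
          rw [h] at h2
          exact h2.of_equiv Subgroup.topEquiv
        obtain ⟨M, hPM, hM⟩ := hexmax P hPtop hPinv
        refine ⟨M, hM, ?_⟩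
        rw [← P.card_eq_multiplicity]; exact Subgroup.card_dvd_of_le hPM
      obtain ⟨M₀, hM₀, -⟩ := hsyl 2 Nat.prime_two
      have hdvd : Nat.card G ∣ Nat.card M₀ := by
        rw [Nat.dvd_iff_prime_pow_dvd_dvd]
        intro r k hr hk
        obtain ⟨M, hM, hd⟩ := hsyl r hr
        obtain ⟨c, -, hc⟩ := hC M₀ M hM₀ hM
        have hcard : Nat.card M = Nat.card M₀ := by
          rw [hc, Subgroup.pointwise_smul_def]
          exact Subgroup.card_map_of_injective (MulAut.conj c).injective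
        have hk' : k ≤ (Nat.card G).factorization r :=
          (hr.pow_dvd_iff_le_factorization Nat.card_pos.ne').mp hk
        rw [← hcard]
        exact (pow_dvd_pow r hk').trans hd
      have hcard : Nat.card M₀ = Nat.card G :=
        Nat.dvd_antisymm (Subgroup.card_subgroup_dvd_card M₀) hdvd
      exact hM₀.1 ((Subgroup.card_eq_iff_eq_top M₀).mp hcard)
    refine ⟨hpg, ?_⟩
    obtain ⟨p, hp, hG⟩ := hpg
    haveI := Fact.mk hp
    intro L hΦL hLinv
    by_contra hLtop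
    by_cases hpG : p ∣ Nat.card G
    · have hpA : ¬ p ∣ Nat.card A := by
        intro h
        have h1 : p ∣ Nat.gcd (Nat.card A) (Nat.card G) := Nat.dvd_gcd h hpG
        rw [Nat.Coprime.gcd_eq_one hcop] at h1
        exact hp.one_lt.ne' (Nat.dvd_one.mp h1)
      obtain ⟨L', hΦL', hL'inv, hinf, hsup⟩ :=
        Cfsg.Agent.Helper7.exists_invariant_compl_frattini p hG hpA L hLinv
      have hL'top : L' ≠ ⊤ := by
        intro h
        rw [h, inf_top_eq] at hinf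
        exact absurd hinf (not_le_of_gt hΦL)
      obtain ⟨M₁, hLM₁, hM₁⟩ := hexmax L hLtop hLinv
      obtain ⟨M₂, hLM₂, hM₂⟩ := hexmax L' hL'top hL'inv
      obtain ⟨c, -, hc⟩ := hC M₁ M₂ hM₁ hM₂
      haveI hM₁n : M₁.Normal := Subgroup.Normal.of_commutator_le G
        ((Cfsg.Agent.Lead.commutator_le_frattini_of_isPGroup p hG).trans (hF2 M₁ hM₁))
      have hM₂eq : M₂ = M₁ := by
        rw [hc]; exact Subgroup.Normal.conj_smul_eq_self c M₁
      have h1 : L ⊔ L' ≤ M₁ := sup_le hLM₁ (hM₂eq ▸ hLM₂)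
      rw [hsup] at h1
      exact hM₁.1 (top_le_iff.mp h1)
    · obtain ⟨n, hn⟩ := IsPGroup.iff_card.mp hG
      have hn0 : n = 0 := by
        by_contra h0
        apply hpG
        rw [hn]
        exact dvd_pow_self p h0
      rw [hn0, pow_zero] at hn
      haveI : Subsingleton G := (Nat.card_eq_one_iff_unique.mp hn).1
      exact hLtop ((Subgroup.eq_top_iff' L).mpr (fun x => by
        rw [Subsingleton.elim x 1]; exact L.one_mem))
  · rintro ⟨-, hno⟩ M N hM hN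
    have h1 := ((hF3 hno M).mp hM).1
    have h2 := ((hF3 hno N).mp hN).1
    refine ⟨1, fun a => smul_one a, ?_⟩
    rw [h1, h2, map_one, one_smul]

end Cfsg.Agent.S4381
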