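import Cfsg.Statements.S4387
import Mathlib
import Cfsg.Agent.Helper7.Conj

set_option autoImplicit false
open Pointwise
open Cfsg

namespace Cfsg.Agent.S4387

open Cfsg.Agent.Helper7 in
/-- Let G be a non-trivial finite group in which any two maximal subgroups are conjugate. Then G is cyclic of prime-power order. -/
theorem result {G : Type*} [Group G] [Finite G] [Nontrivial G]
    (h : ∀ M N : Subgroup G, IsCoatom M → IsCoatom N → ∃ g : G, N = MulAut.conj g • M) :
    IsCyclic G ∧ IsPrimePow (Nat.card G) := by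
  -- a maximal subgroup
  have hbt : (⊥ : Subgroup G) ≠ ⊤ := bot_ne_top
  obtain ⟨M, hM, -⟩ := (eq_top_or_exists_le_coatom (⊥ : Subgroup G)).resolve_left hbt
  obtain ⟨x, hx⟩ := exists_forall_conj_notMem M hM.1
  -- every proper subgroup is in a conjugate of M
  have hprop : ∀ H : Subgroup G, H ≠ ⊤ → ∃ g : G, ∀ y ∈ H, g⁻¹ * y * g ∈ M := by
    intro H hH
    obtain ⟨N, hN, hHN⟩ := (eq_top_or_exists_le_coatom H).resolve_left hH
    obtain ⟨g, hg⟩ := h M N hM hN
    refine ⟨g, fun y hy => ?_⟩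
    have hyN : y ∈ N := hHN hy
    rw [hg, mem_conj_smul_iff] at hyN
    exact hyN
  have hgen : Subgroup.zpowers x = ⊤ := by
    by_contra hne
    obtain ⟨g, hg⟩ := hprop _ hne
    exact hx g (hg x (Subgroup.mem_zpowers x))
  have hgen' : ∀ y : G, y ∈ Subgroup.zpowers x := by
    intro y
    rw [hgen]
    trivial
  haveI hcyc : IsCyclic G := ⟨⟨x, hgen'⟩⟩
  refine ⟨hcyc, ?_⟩
  -- every proper subgroup lies in M
  have hprop' : ∀ H : Subgroup G, H ≠ ⊤ → H ≤ M := by
    intro H hH y hy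
    obtain ⟨g, hg⟩ := hprop H hH
    have h1 := hg y hy
    have h2 : g⁻¹ * y * g = y := by
      rw [mul_comm_of_isCyclic (g⁻¹ * y) g]
      group
    rw [h2] at h1
    exact h1
  have hxM : x ∉ M := by
    have := hx 1
    simpa using this
  have hord : orderOf x = Nat.card G := orderOf_eq_card_of_forall_mem_zpowers hgen'
  have hn1 : Nat.card G ≠ 1 := Finite.one_lt_card.ne'
  have hn0 : Nat.card G ≠ 0 := Nat.card_pos.ne'
  obtain ⟨p, hp, hpn⟩ := Nat.exists_prime_and_dvd hn1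
  obtain ⟨k, m, hm, hnkm⟩ := Nat.exists_eq_pow_mul_and_not_dvd hn0 p hp.one_lt.ne'
  have hk : 0 < k := by
    rcases Nat.eq_zero_or_pos k with h0 | h0
    · exfalso
      subst h0
      rw [pow_zero, one_mul] at hnkm
      exact hm (hnkm ▸ hpn)
    · exact h0
  have hm0 : m ≠ 0 := by
    rintro rfl
    exact hm (dvd_zero p)
  rw [isPrimePow_nat_iff]
  by_cases hm1 : m = 1
  · exact ⟨p, k, hp, hk, by rw [hnkm, hm1, mul_one]⟩
  exfalso
  have hpk1 : 1 < p ^ k := Nat.one_lt_pow hk.ne' hp.one_lt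
  have hm2 : 1 < m := by omega
  have hx1 : orderOf (x ^ m) = p ^ k := by
    rw [orderOf_pow_of_dvd hm0 (by rw [hord, hnkm]; exact dvd_mul_left m _), hord, hnkm]
    exact Nat.mul_div_cancel _ (Nat.pos_of_ne_zero hm0)
  have hx2 : orderOf (x ^ (p ^ k)) = m := by
    rw [orderOf_pow_of_dvd (pow_pos hp.pos k).ne' (by rw [hord, hnkm]; exact dvd_mul_right _ m),
      hord, hnkm]
    exact Nat.mul_div_cancel_left _ (pow_pos hp.pos k)
  have hne_top : ∀ y : G, orderOf y ≠ Nat.card G → Subgroup.zpowers y ≠ ⊤ := by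
    intro y hy htop
    apply hy
    rw [← Nat.card_zpowers, htop, Subgroup.card_top]
  have h1 : x ^ m ∈ M := by
    apply hprop' (Subgroup.zpowers (x ^ m)) (hne_top _ _) (Subgroup.mem_zpowers _)
    rw [hx1, hnkm]
    intro heq
    have : p ^ k * 1 = p ^ k * m := by rw [mul_one]; exact heq
    have := Nat.eq_of_mul_eq_mul_left (pow_pos hp.pos k) this
    omega
  have h2 : x ^ (p ^ k) ∈ M := by
    apply hprop' (Subgroup.zpowers (x ^ (p ^ k))) (hne_top _ _) (Subgroup.mem_zpowers _)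
    rw [hx2, hnkm]
    intro heq
    have : 1 * m = p ^ k * m := by rw [one_mul]; exact heq
    have := Nat.eq_of_mul_eq_mul_right (Nat.pos_of_ne_zero hm0) this
    omega
  have hcop : Nat.gcd m (p ^ k) = 1 := by
    rw [← Nat.coprime_iff_gcd_eq_one]
    exact (Nat.Coprime.pow_left k ((Nat.Prime.coprime_iff_not_dvd hp).2 hm)).symm
  have e : x = (x ^ m) ^ (Nat.gcdA m (p ^ k)) * (x ^ (p ^ k)) ^ (Nat.gcdB m (p ^ k)) := by
    rw [← zpow_natCast x m, ← zpow_natCast x (p ^ k), ← zpow_mul, ← zpow_mul, ← zpow_add,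
      ← Nat.gcd_eq_gcd_ab, hcop, Nat.cast_one, zpow_one]
  apply hxM
  rw [e]
  exact M.mul_mem (M.zpow_mem h1 _) (M.zpow_mem h2 _)

end Cfsg.Agent.S4387
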