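import Cfsg.Statements.S4406
import Mathlib
-- import your own Cfsg.Agent.* helpers here

set_option autoImplicit false
open Cfsg

namespace Cfsg.Agent.S4406

abbrev A4 := ↥(alternatingGroup (Fin 4))
abbrev GG := A4 × A4

theorem d_inv : ∀ v : A4, v ^ 16 = 1 → v * v = 1 := by decide +kernel
theorem d_cube : ∀ b : A4, b ^ 9 = 1 → b * b * b = 1 := by decide +kernel
theorem d_comm : ∀ v w : A4, v * v = 1 → w * w = 1 → v * w = w * v := by decide +kernel
theorem d_L2 : ∀ a v : A4, a ≠ 1 → a * a * a = 1 → v ≠ 1 → v * v = 1 →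
    a * (a * v * a⁻¹) * a⁻¹ = v * (a * v * a⁻¹) := by decide +kernel
set_option synthInstance.maxSize 2048 in
set_option synthInstance.maxHeartbeats 400000 in
theorem d_L1 : ∀ a v v' : A4, a ≠ 1 → a * a * a = 1 → v ≠ 1 → v * v = 1 → v' ≠ 1 → v' * v' = 1 →
    v' ≠ v → (a * v * a⁻¹ = v' ∨ a⁻¹ * v * a = v') := by decide +kernel
theorem cardA4 : Nat.card A4 = 12 := by
  rw [Nat.card_eq_fintype_card]; decide +kernel

theorem cardGG : Nat.card GG = 144 := by
  rw [Nat.card_prod, cardA4]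

theorem card_syl2 (X : Sylow 2 GG) : Nat.card (X : Subgroup GG) = 16 := by
  obtain ⟨n, hn⟩ := (IsPGroup.iff_card).mp X.isPGroup'
  have h1 := Subgroup.card_mul_index (X : Subgroup GG)
  rw [cardGG, hn] at h1
  have h2 : ¬ 2 ∣ (X : Subgroup GG).index := X.not_dvd_index
  have hn7 : n ≤ 7 := by
    by_contra hlt
    push_neg at hlt
    have h3 : 2 ^ 8 ≤ 2 ^ n := Nat.pow_le_pow_right (by norm_num) hlt
    have hpos : 0 < (X : Subgroup GG).index := by
      rcases Nat.eq_zero_or_pos (X : Subgroup GG).index with h0 | h0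
      · rw [h0] at h1; simp at h1
      · exact h0
    nlinarith
  rw [hn]
  interval_cases n <;> first | rfl | (exfalso; omega)

theorem card_syl3 (Q : Sylow 3 GG) : Nat.card (Q : Subgroup GG) = 9 := by
  obtain ⟨n, hn⟩ := (IsPGroup.iff_card).mp Q.isPGroup'
  have h1 := Subgroup.card_mul_index (Q : Subgroup GG)
  rw [cardGG, hn] at h1
  have h2 : ¬ 3 ∣ (Q : Subgroup GG).index := Q.not_dvd_index
  have hn4 : n ≤ 4 := by
    by_contra hlt
    push_neg at hlt
    have h3 : 3 ^ 5 ≤ 3 ^ n := Nat.pow_le_pow_right (by norm_num) hlt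
    have hpos : 0 < (Q : Subgroup GG).index := by
      rcases Nat.eq_zero_or_pos (Q : Subgroup GG).index with h0 | h0
      · rw [h0] at h1; simp at h1
      · exact h0
    nlinarith
  rw [hn]
  interval_cases n <;> first | rfl | (exfalso; omega)

theorem exA (Q : Sylow 3 GG) :
    ∃ a : A4, a ≠ 1 ∧ a * a * a = 1 ∧ ((a, 1) : GG) ∈ (Q : Subgroup GG) := by
  let ψ : ↥(Q : Subgroup GG) →* A4 := (MonoidHom.snd A4 A4).comp (Q : Subgroup GG).subtype
  have hni : ¬ Function.Injective ψ := by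
    intro hinj
    have hd := Subgroup.card_dvd_of_injective ψ hinj
    rw [card_syl3, cardA4] at hd
    omega
  rw [injective_iff_map_eq_one] at hni
  push_neg at hni
  obtain ⟨q, hq1, hq2⟩ := hni
  have hq1' : (q : GG).2 = 1 := hq1
  have hq9 : q ^ 9 = 1 := by
    rw [← card_syl3 Q]; exact pow_card_eq_one'
  have hq9' : (q : GG).1 ^ 9 = 1 := by
    have h := congrArg (fun x : ↥(Q : Subgroup GG) => (x : GG).1) hq9
    simpa using h
  refine ⟨(q : GG).1, ?_, d_cube _ hq9', ?_⟩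
  · intro h
    apply hq2
    apply Subtype.ext
    exact Prod.ext h hq1'
  · have hq : ((q : GG).1, (1 : A4)) = (q : GG) := Prod.ext rfl hq1'.symm
    rw [hq]; exact q.2

theorem exB (Q : Sylow 3 GG) :
    ∃ b : A4, b ≠ 1 ∧ b * b * b = 1 ∧ ((1, b) : GG) ∈ (Q : Subgroup GG) := by
  let ψ : ↥(Q : Subgroup GG) →* A4 := (MonoidHom.fst A4 A4).comp (Q : Subgroup GG).subtype
  have hni : ¬ Function.Injective ψ := by
    intro hinj
    have hd := Subgroup.card_dvd_of_injective ψ hinj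
    rw [card_syl3, cardA4] at hd
    omega
  rw [injective_iff_map_eq_one] at hni
  push_neg at hni
  obtain ⟨q, hq1, hq2⟩ := hni
  have hq1' : (q : GG).1 = 1 := hq1
  have hq9 : q ^ 9 = 1 := by
    rw [← card_syl3 Q]; exact pow_card_eq_one'
  have hq9' : (q : GG).2 ^ 9 = 1 := by
    have h := congrArg (fun x : ↥(Q : Subgroup GG) => (x : GG).2) hq9
    simpa using h
  refine ⟨(q : GG).2, ?_, d_cube _ hq9', ?_⟩
  · intro h
    apply hq2
    apply Subtype.ext
    exact Prod.ext hq1' h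
  · have hq : ((1 : A4), (q : GG).2) = (q : GG) := Prod.ext hq1'.symm rfl
    rw [hq]; exact q.2

/-- an element of order 3 of `Q` in the first factor moving `v` to `v'` -/
theorem exA' (Q : Sylow 3 GG) (v v' : A4) (hv : v ≠ 1) (hv2 : v * v = 1) (hv' : v' ≠ 1)
    (hv'2 : v' * v' = 1) (hne : v' ≠ v) :
    ∃ a : A4, a ≠ 1 ∧ a * a * a = 1 ∧ ((a, 1) : GG) ∈ (Q : Subgroup GG) ∧ a * v * a⁻¹ = v' := by
  obtain ⟨a, ha1, ha3, haQ⟩ := exA Q
  rcases d_L1 a v v' ha1 ha3 hv hv2 hv' hv'2 hne with h | h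
  · exact ⟨a, ha1, ha3, haQ, h⟩
  · refine ⟨a⁻¹, by simpa using ha1, ?_, ?_, by simpa using h⟩
    · have : (a * a * a)⁻¹ = 1 := by rw [ha3, inv_one]
      simpa [mul_assoc] using this
    · have := (Q : Subgroup GG).inv_mem haQ
      simpa using this

theorem exB' (Q : Sylow 3 GG) (v v' : A4) (hv : v ≠ 1) (hv2 : v * v = 1) (hv' : v' ≠ 1)
    (hv'2 : v' * v' = 1) (hne : v' ≠ v) :
    ∃ b : A4, b ≠ 1 ∧ b * b * b = 1 ∧ ((1, b) : GG) ∈ (Q : Subgroup GG) ∧ b * v * b⁻¹ = v' := by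
  obtain ⟨a, ha1, ha3, haQ⟩ := exB Q
  rcases d_L1 a v v' ha1 ha3 hv hv2 hv' hv'2 hne with h | h
  · exact ⟨a, ha1, ha3, haQ, h⟩
  · refine ⟨a⁻¹, by simpa using ha1, ?_, ?_, by simpa using h⟩
    · have : (a * a * a)⁻¹ = 1 := by rw [ha3, inv_one]
      simpa [mul_assoc] using this
    · have := (Q : Subgroup GG).inv_mem haQ
      simpa using this

theorem main (X : Sylow 2 GG) (Q : Sylow 3 GG) (B : Subgroup GG) (hBX : B ≤ (X : Subgroup GG))
    (hB4 : Nat.card ↥B = 4)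
    (h1 : B ⊓ ((X : Subgroup GG) ⊓ Subgroup.prod ⊤ ⊥) = ⊥)
    (h2 : B ⊓ ((X : Subgroup GG) ⊓ Subgroup.prod ⊥ ⊤) = ⊥) :
    ∃ R : Subgroup GG, R ≤ (Q : Subgroup GG) ∧ Nat.card ↥R = 3 ∧
        R ≠ (Q : Subgroup GG) ⊓ Subgroup.prod ⊤ ⊥ ∧ R ≠ (Q : Subgroup GG) ⊓ Subgroup.prod ⊥ ⊤ ∧
        R ≤ Subgroup.normalizer (B : Set GG) := by
  -- elements of B are involutions
  have hsq : ∀ g ∈ B, g.1 * g.1 = 1 ∧ g.2 * g.2 = 1 := by
    intro g hg
    have h16 : (⟨g, hBX hg⟩ : ↥(X : Subgroup GG)) ^ 16 = 1 := by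
      rw [← card_syl2 X]; exact pow_card_eq_one'
    have h16' : g ^ 16 = 1 := by
      have h := congrArg (fun x : ↥(X : Subgroup GG) => (x : GG)) h16
      simpa using h
    have ha : g.1 ^ 16 = 1 := by
      have h := congrArg Prod.fst h16'
      simpa using h
    have hb : g.2 ^ 16 = 1 := by
      have h := congrArg Prod.snd h16'
      simpa using h
    exact ⟨d_inv _ ha, d_inv _ hb⟩
  have hfst : ∀ g ∈ B, g.2 = 1 → g = 1 := by
    intro g hg h
    have hm : g ∈ B ⊓ ((X : Subgroup GG) ⊓ Subgroup.prod ⊤ ⊥) :=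
      ⟨hg, hBX hg, Subgroup.mem_prod.mpr ⟨Subgroup.mem_top _, Subgroup.mem_bot.mpr h⟩⟩
    rw [h1] at hm
    exact Subgroup.mem_bot.mp hm
  have hsnd : ∀ g ∈ B, g.1 = 1 → g = 1 := by
    intro g hg h
    have hm : g ∈ B ⊓ ((X : Subgroup GG) ⊓ Subgroup.prod ⊥ ⊤) :=
      ⟨hg, hBX hg, Subgroup.mem_prod.mpr ⟨Subgroup.mem_bot.mpr h, Subgroup.mem_top _⟩⟩
    rw [h2] at hm
    exact Subgroup.mem_bot.mp hm
  -- two distinct nonidentity elements
  haveI : Finite ↥B := Nat.finite_of_card_ne_zero (by rw [hB4]; norm_num)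
  haveI : Fintype ↥B := Fintype.ofFinite _
  have hc : 2 < Fintype.card ↥B := by
    rw [← Nat.card_eq_fintype_card, hB4]; norm_num
  obtain ⟨x, y, z, hxy, hxz, hyz⟩ := Fintype.two_lt_card_iff.mp hc
  obtain ⟨b1, b2, hb1, hb2, hb12⟩ : ∃ b1 b2 : ↥B, b1 ≠ 1 ∧ b2 ≠ 1 ∧ b1 ≠ b2 := by
    by_cases hx : x = 1
    · exact ⟨y, z, fun h => hxy (hx.trans h.symm), fun h => hxz (hx.trans h.symm), hyz⟩
    · by_cases hy : y = 1
      · exact ⟨x, z, hx, fun h => hyz (hy.trans h.symm), hxz⟩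
      · exact ⟨x, y, hx, hy, hxy⟩
  have hb1' : (b1 : GG) ≠ 1 := fun h => hb1 (Subtype.ext h)
  have hb2' : (b2 : GG) ≠ 1 := fun h => hb2 (Subtype.ext h)
  have hb12' : (b1 : GG) ≠ (b2 : GG) := fun h => hb12 (Subtype.ext h)
  obtain ⟨hv1s, hw1s⟩ := hsq _ b1.2
  obtain ⟨hv2s, hw2s⟩ := hsq _ b2.2
  have hv1 : (b1 : GG).1 ≠ 1 := fun h => hb1' (hsnd _ b1.2 h)
  have hw1 : (b1 : GG).2 ≠ 1 := fun h => hb1' (hfst _ b1.2 h)
  have hv2 : (b2 : GG).1 ≠ 1 := fun h => hb2' (hsnd _ b2.2 h)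
  have hw2 : (b2 : GG).2 ≠ 1 := fun h => hb2' (hfst _ b2.2 h)
  have hb1sq : (b1 : GG) * (b1 : GG) = 1 := Prod.ext hv1s hw1s
  have hb2sq : (b2 : GG) * (b2 : GG) = 1 := Prod.ext hv2s hw2s
  have hmulB : (b1 : GG) * (b2 : GG) ∈ B := B.mul_mem b1.2 b2.2
  have hv21 : (b2 : GG).1 ≠ (b1 : GG).1 := by
    intro h
    have h3 : ((b1 : GG) * (b2 : GG)).1 = 1 := by
      show (b1 : GG).1 * (b2 : GG).1 = 1
      rw [h]; exact hv1s
    have h4 := hsnd _ hmulB h3
    apply hb12'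
    calc (b1 : GG) = (b1 : GG) * ((b2 : GG) * (b2 : GG)) := by rw [hb2sq, mul_one]
      _ = ((b1 : GG) * (b2 : GG)) * (b2 : GG) := by rw [mul_assoc]
      _ = (b2 : GG) := by rw [h4, one_mul]
  have hw21 : (b2 : GG).2 ≠ (b1 : GG).2 := by
    intro h
    have h3 : ((b1 : GG) * (b2 : GG)).2 = 1 := by
      show (b1 : GG).2 * (b2 : GG).2 = 1
      rw [h]; exact hw1s
    have h4 := hfst _ hmulB h3
    apply hb12'
    calc (b1 : GG) = (b1 : GG) * ((b2 : GG) * (b2 : GG)) := by rw [hb2sq, mul_one]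
      _ = ((b1 : GG) * (b2 : GG)) * (b2 : GG) := by rw [mul_assoc]
      _ = (b2 : GG) := by rw [h4, one_mul]
  obtain ⟨a, ha1, ha3, haQ, hav⟩ := exA' Q _ _ hv1 hv1s hv2 hv2s hv21
  obtain ⟨b, hb1n, hb3, hbQ, hbw⟩ := exB' Q _ _ hw1 hw1s hw2 hw2s hw21
  set r : GG := (a, b) with hr
  have hrQ : r ∈ (Q : Subgroup GG) := by
    have h := (Q : Subgroup GG).mul_mem haQ hbQ
    have e : ((a, 1) : GG) * ((1, b) : GG) = r := Prod.ext (mul_one a) (one_mul b)
    rw [e] at h; exact h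
  have hr3 : r * r * r = 1 := Prod.ext ha3 hb3
  have hrne : r ≠ 1 := fun h => ha1 (congrArg Prod.fst h)
  have hcomm : (b1 : GG) * (b2 : GG) = (b2 : GG) * (b1 : GG) :=
    Prod.ext (d_comm _ _ hv1s hv2s) (d_comm _ _ hw1s hw2s)
  have hc1 : r * (b1 : GG) * r⁻¹ = (b2 : GG) := Prod.ext hav hbw
  have hc2 : r * (b2 : GG) * r⁻¹ = (b1 : GG) * (b2 : GG) := by
    apply Prod.ext
    · show a * (b2 : GG).1 * a⁻¹ = (b1 : GG).1 * (b2 : GG).1
      rw [← hav]
      exact d_L2 a _ ha1 ha3 hv1 hv1s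
    · show b * (b2 : GG).2 * b⁻¹ = (b1 : GG).2 * (b2 : GG).2
      rw [← hbw]
      exact d_L2 b _ hb1n hb3 hw1 hw1s
  have hc3 : r * ((b1 : GG) * (b2 : GG)) * r⁻¹ = (b1 : GG) := by
    have e : r * ((b1 : GG) * (b2 : GG)) * r⁻¹ = (r * (b1 : GG) * r⁻¹) * (r * (b2 : GG) * r⁻¹) := by
      group
    rw [e, hc1, hc2, hcomm, ← mul_assoc, hb2sq, one_mul]
  -- the four elements of B
  have h4 : ∀ h ∈ B, h = 1 ∨ h = (b1 : GG) ∨ h = (b2 : GG) ∨ h = (b1 : GG) * (b2 : GG) := by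
    classical
    let b3 : ↥B := b1 * b2
    have hb31 : b3 ≠ 1 := by
      intro h
      apply hb12
      have h' : b1 * b2 = 1 := h
      have hb2sq' : b2 * b2 = 1 := Subtype.ext hb2sq
      calc b1 = b1 * (b2 * b2) := by rw [hb2sq', mul_one]
        _ = (b1 * b2) * b2 := by rw [mul_assoc]
        _ = b2 := by rw [h', one_mul]
    have hb3b1 : b3 ≠ b1 := by
      intro h
      apply hb2
      have h' : b1 * b2 = b1 := h
      exact mul_eq_left.mp h'
    have hb3b2 : b3 ≠ b2 := by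
      intro h
      apply hb1
      have h' : b1 * b2 = b2 := h
      exact mul_eq_right.mp h'
    have hcard : ({1, b1, b2, b3} : Finset ↥B).card = 4 := by
      rw [Finset.card_insert_of_notMem, Finset.card_insert_of_notMem, Finset.card_insert_of_notMem,
        Finset.card_singleton]
      · simpa using hb3b2.symm
      · simp only [Finset.mem_insert, Finset.mem_singleton, not_or]
        exact ⟨hb12, hb3b1.symm⟩
      · simp only [Finset.mem_insert, Finset.mem_singleton, not_or]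
        exact ⟨hb1.symm, hb2.symm, hb31.symm⟩
    have huniv : ({1, b1, b2, b3} : Finset ↥B) = Finset.univ :=
      Finset.eq_univ_of_card _ (by rw [hcard, ← Nat.card_eq_fintype_card, hB4])
    intro h hh
    have hmem : (⟨h, hh⟩ : ↥B) ∈ ({1, b1, b2, b3} : Finset ↥B) := by
      rw [huniv]; exact Finset.mem_univ _
    simp only [Finset.mem_insert, Finset.mem_singleton] at hmem
    rcases hmem with e | e | e | e
    · left; exact congrArg Subtype.val e
    · right; left; exact congrArg Subtype.val e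
    · right; right; left; exact congrArg Subtype.val e
    · right; right; right; exact congrArg Subtype.val e
  have hconj : ∀ h ∈ B, r * h * r⁻¹ ∈ B := by
    intro h hh
    rcases h4 h hh with rfl | rfl | rfl | rfl
    · simpa using B.one_mem
    · rw [hc1]; exact b2.2
    · rw [hc2]; exact hmulB
    · rw [hc3]; exact b1.2
  have hnorm : r ∈ Subgroup.normalizer (B : Set GG) := by
    rw [Subgroup.mem_normalizer_iff]
    intro h
    constructor
    · exact hconj h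
    · intro hh
      have h5 := hconj _ (hconj _ hh)
      have e : r * (r * (r * h * r⁻¹) * r⁻¹) * r⁻¹ = h := by
        have e1 : r * (r * (r * h * r⁻¹) * r⁻¹) * r⁻¹ = (r * r * r) * h * (r * r * r)⁻¹ := by group
        rw [e1, hr3]; simp
      rw [e] at h5; exact h5
  have hord : orderOf r = 3 := by
    haveI : Fact (Nat.Prime 3) := ⟨Nat.prime_three⟩
    refine orderOf_eq_prime ?_ hrne
    rw [pow_succ, pow_two]; exact hr3
  refine ⟨Subgroup.zpowers r, Subgroup.zpowers_le.mpr hrQ, ?_, ?_, ?_, Subgroup.zpowers_le.mpr hnorm⟩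
  · rw [Nat.card_zpowers, hord]
  · intro h
    have hm : r ∈ (Q : Subgroup GG) ⊓ Subgroup.prod ⊤ ⊥ := by
      rw [← h]; exact Subgroup.mem_zpowers r
    have hm2 := (Subgroup.mem_prod.mp hm.2).2
    exact hb1n (Subgroup.mem_bot.mp hm2)
  · intro h
    have hm : r ∈ (Q : Subgroup GG) ⊓ Subgroup.prod ⊥ ⊤ := by
      rw [← h]; exact Subgroup.mem_zpowers r
    have hm2 := (Subgroup.mem_prod.mp hm.2).1
    exact ha1 (Subgroup.mem_bot.mp hm2)

/-- In the direct product P = A₄ × A₄, let X be the Sylow 2-subgroup, X₁ and X₂ its intersections with the two direct factors, Q a Sylow 3-subgroup and Q₁, Q₂ its intersections with the two factors. Then every subgroup B of X of order 4 either meets X₁ or X₂ nontrivially, or is normalized by one of the two subgroups of Q of order 3 other than Q₁ and Q₂. -/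
theorem result
    (X : Sylow 2 (↥(alternatingGroup (Fin 4)) × ↥(alternatingGroup (Fin 4))))
    (Q : Sylow 3 (↥(alternatingGroup (Fin 4)) × ↥(alternatingGroup (Fin 4))))
    (B : Subgroup (↥(alternatingGroup (Fin 4)) × ↥(alternatingGroup (Fin 4)))) (hBX : B ≤ (X : Subgroup _)) (hB4 : Nat.card ↥B = 4) :
    B ⊓ ((X : Subgroup _) ⊓ Subgroup.prod ⊤ ⊥) ≠ ⊥ ∨ B ⊓ ((X : Subgroup _) ⊓ Subgroup.prod ⊥ ⊤) ≠ ⊥ ∨
      ∃ R : Subgroup (↥(alternatingGroup (Fin 4)) × ↥(alternatingGroup (Fin 4))), R ≤ (Q : Subgroup _) ∧ Nat.card ↥R = 3 ∧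
        R ≠ (Q : Subgroup _) ⊓ Subgroup.prod ⊤ ⊥ ∧ R ≠ (Q : Subgroup _) ⊓ Subgroup.prod ⊥ ⊤ ∧ R ≤ Subgroup.normalizer (B : Set _) := by
  by_cases h1 : B ⊓ ((X : Subgroup _) ⊓ Subgroup.prod ⊤ ⊥) = ⊥
  swap
  · left; exact h1
  by_cases h2 : B ⊓ ((X : Subgroup _) ⊓ Subgroup.prod ⊥ ⊤) = ⊥
  swap
  · right; left; exact h2
  right; right
  exact main X Q B hBX hB4 h1 h2

end Cfsg.Agent.S4406
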