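import Cfsg.Statements.S4420
import Mathlib

set_option autoImplicit false
open Cfsg

namespace Cfsg.Agent.S4420

theorem result {H : Type*} [Group H] [Finite H] (A : Subgroup H) (hA : A ≠ ⊤) (hD : ∀ x : H, x ∉ A → x ^ 2 = 1) :
    ∃ B : Subgroup H, B.Normal ∧ IsMulCommutative ↥B ∧ B.index = 2 ∧
      (∀ x : H, x ∉ B → x ^ 2 = 1 ∧ ∀ b ∈ B, x * b * x⁻¹ = b⁻¹) ∧
      (¬ (IsMulCommutative H ∧ ∀ x : H, x ^ 2 = 1) →
        ∀ B' : Subgroup H, B'.Normal → IsMulCommutative ↥B' → B'.index = 2 →
          (∀ x : H, x ∉ B' → x ^ 2 = 1 ∧ ∀ b ∈ B', x * b * x⁻¹ = b⁻¹) → B' = B) := by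
  obtain ⟨x₀, hx₀⟩ : ∃ x, x ∉ A := by
    by_contra h
    push Not at h
    exact hA (eq_top_iff.2 (fun x _ => h x))
  have hinvA : ∀ x : H, x ∉ A → ∀ a ∈ A, x * a * x⁻¹ = a⁻¹ := by
    intro x hx a ha
    have hxa : x * a ∉ A := fun h => hx (by
      have := A.mul_mem h (A.inv_mem ha)
      simpa using this)
    have h1 := hD x hx
    have h2 := hD (x * a) hxa
    have hxinv : x⁻¹ = x := by
      rw [inv_eq_iff_mul_eq_one, ← pow_two]
      exact h1
    rw [hxinv]
    rw [pow_two] at h2
    rw [eq_inv_iff_mul_eq_one, ← h2]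
    group
  by_cases hexp : ∀ a ∈ A, a ^ 2 = 1
  · have hall : ∀ x : H, x ^ 2 = 1 := fun x => by
      by_cases hx : x ∈ A
      · exact hexp x hx
      · exact hD x hx
    have hinv : ∀ x : H, x⁻¹ = x := fun x => by
      rw [inv_eq_iff_mul_eq_one, ← pow_two]
      exact hall x
    have hcomm : ∀ a b : H, a * b = b * a := by
      intro a b
      have h1 := hinv (a * b)
      rw [mul_inv_rev, hinv a, hinv b] at h1
      exact h1.symm
    haveI : Fact (Nat.Prime 2) := ⟨Nat.prime_two⟩
    have hpg : IsPGroup 2 H := fun x => ⟨1, by rw [pow_one]; exact hall x⟩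
    obtain ⟨n, hn⟩ := IsPGroup.iff_card.1 hpg
    have hn0 : n ≠ 0 := by
      rintro rfl
      rw [pow_zero] at hn
      haveI : Subsingleton H := (Nat.card_eq_one_iff_unique.1 hn).1
      exact hx₀ (by rw [Subsingleton.elim x₀ 1]; exact A.one_mem)
    obtain ⟨B, hB⟩ := Sylow.exists_subgroup_card_pow_prime (G := H) 2 (n := n - 1)
      (by rw [hn]; exact pow_dvd_pow 2 (by omega))
    have hBidx : B.index = 2 := by
      have h1 := B.card_mul_index
      rw [hB, hn] at h1
      have h2 : 2 ^ n = 2 ^ (n - 1) * 2 := by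
        rw [← pow_succ]
        congr 1
        omega
      rw [h2] at h1
      exact Nat.eq_of_mul_eq_mul_left (by positivity) h1
    refine ⟨B, ⟨fun b hb g => ?_⟩, ?_, hBidx, ?_, ?_⟩
    · rw [hcomm g b, mul_assoc, mul_inv_cancel, mul_one]
      exact hb
    · rw [isMulCommutative_iff]
      intro a b
      exact Subtype.ext (hcomm a.1 b.1)
    · intro x _
      refine ⟨hall x, fun b _ => ?_⟩
      rw [hcomm x b, mul_assoc, mul_inv_cancel, mul_one, hinv b]
    · intro hneg
      exfalso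
      exact hneg ⟨isMulCommutative_iff.2 hcomm, hall⟩
  · push Not at hexp
    obtain ⟨a₀, ha₀, ha₀2⟩ := hexp
    have hsq : ∀ a : H, a = a⁻¹ → a ^ 2 = 1 := by
      intro a h
      rw [pow_two]
      nth_rewrite 1 [h]
      exact inv_mul_cancel a
    have hprod : ∀ x y : H, x ∉ A → y ∉ A → x * y ∈ A := by
      intro x y hx hy
      by_contra hxy
      apply ha₀2
      have h1 := hinvA (x * y) hxy a₀ ha₀
      have h2 := hinvA y hy a₀ ha₀
      have h3 := hinvA x hx a₀⁻¹ (A.inv_mem ha₀)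
      have h4 : x * y * a₀ * (x * y)⁻¹ = x * (y * a₀ * y⁻¹) * x⁻¹ := by group
      rw [h4, h2, h3, inv_inv] at h1
      exact hsq a₀ h1
    have hAcomm : ∀ a b : H, a ∈ A → b ∈ A → a * b = b * a := by
      intro a b ha hb
      have h1 := hinvA x₀ hx₀ (a * b) (A.mul_mem ha hb)
      have h2 := hinvA x₀ hx₀ a ha
      have h3 := hinvA x₀ hx₀ b hb
      have h4 : x₀ * (a * b) * x₀⁻¹ = (x₀ * a * x₀⁻¹) * (x₀ * b * x₀⁻¹) := by group
      rw [h4, h2, h3, mul_inv_rev] at h1
      have h5 := congrArg (fun z => z⁻¹) h1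
      simp only [mul_inv_rev, inv_inv] at h5
      exact h5.symm
    have hAnormal : A.Normal := by
      constructor
      intro a ha g
      by_cases hg : g ∈ A
      · exact A.mul_mem (A.mul_mem hg ha) (A.inv_mem hg)
      · rw [hinvA g hg a ha]
        exact A.inv_mem ha
    have hAidx : A.index = 2 := by
      rw [Subgroup.index_eq_two_iff]
      refine ⟨x₀, fun b => ?_⟩
      by_cases hb : b ∈ A
      · right
        refine ⟨hb, fun h => hx₀ ?_⟩
        have := A.mul_mem (A.inv_mem hb) h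
        simpa using this
      · left
        exact ⟨hprod b x₀ hb hx₀, hb⟩
    refine ⟨A, hAnormal, ?_, hAidx, fun x hx => ⟨hD x hx, hinvA x hx⟩, ?_⟩
    · rw [isMulCommutative_iff]
      intro a b
      exact Subtype.ext (hAcomm a.1 b.1 a.2 b.2)
    · intro _ B' hB'n hB'c hB'i hB'
      have ha₀B' : a₀ ∈ B' := by
        by_contra h
        exact ha₀2 (hB' a₀ h).1
      have hB'comm : ∀ a b : H, a ∈ B' → b ∈ B' → a * b = b * a := by
        intro a b ha hb
        have h0 := isMulCommutative_iff.1 hB'c ⟨a, ha⟩ ⟨b, hb⟩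
        have h1 : a * b = b * a := congrArg Subtype.val h0
        exact h1
      apply le_antisymm
      · intro y hy
        by_contra hyA
        apply ha₀2
        have h1 := hinvA y hyA a₀ ha₀
        have h2 := hB'comm y a₀ hy ha₀B'
        rw [h2, mul_assoc, mul_inv_cancel, mul_one] at h1
        exact hsq a₀ h1
      · intro y hy
        by_contra hyB'
        apply ha₀2
        have h1 := (hB' y hyB').2 a₀ ha₀B'
        have h2 := hAcomm y a₀ hy ha₀
        rw [h2, mul_assoc, mul_inv_cancel, mul_one] at h1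
        exact hsq a₀ h1

end Cfsg.Agent.S4420
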