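import Cfsg.Statements.S4497
import Mathlib
import Cfsg.Agent.Helper7.SelfCentP2
import Cfsg.Agent.S4496
import Cfsg.Agent.Helper3.Cores
import Cfsg.Agent.Helper4.Cores

set_option autoImplicit false
open Cfsg

namespace Cfsg.Agent.S4497

open Cfsg.Agent.Helper7
open scoped commutatorElement

theorem core_not_dvd {G : Type*} [Group G] [Finite G] (p : ℕ) [Fact p.Prime] :
    ¬ p ∣ Nat.card (Cfsg.pPrimeCore p G) := by
  have hp : p.Prime := Fact.out
  have := Cfsg.Agent.Helper3.pPrimeCore_coprime p G
  exact (Nat.Prime.coprime_iff_not_dvd hp).1 this.symm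

theorem core_le_commutator {G : Type*} [Group G] [Finite G] (p : ℕ) [Fact p.Prime] (x : G)
    (hx : orderOf x = p) (hC : Subgroup.centralizer ({x} : Set G) = Subgroup.zpowers x) :
    Cfsg.pPrimeCore p G ≤ commutator G := by
  haveI := Cfsg.Agent.Helper4.pPrimeCore_normal p G
  intro k hk
  obtain ⟨s, -, hs⟩ := scp_fpf_surj p x hx hC (Cfsg.pPrimeCore p G) (core_not_dvd p) k hk
  rw [← hs, commutator_def]
  have e : x⁻¹ * s * x * s⁻¹ = ⁅x⁻¹, s⁆ := by rw [commutatorElement_def, inv_inv]
  rw [e]
  exact Subgroup.commutator_mem_commutator (Subgroup.mem_top _) (Subgroup.mem_top _)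

theorem simple_quot_aux {G : Type*} [Group G] [Finite G] (p : ℕ) [Fact p.Prime] (x : G)
    (hx : orderOf x = p) (hC : Subgroup.centralizer ({x} : Set G) = Subgroup.zpowers x)
    (D : Subgroup G) [hDn : D.Normal] (hxD : x ∈ D)
    (hmin : ∀ T : Subgroup G, T.Normal → x ∈ T → D ≤ T)
    (h : ((Cfsg.pPrimeCore p G).subgroupOf D).Normal) :
    IsSimpleGroup (↥D ⧸ (Cfsg.pPrimeCore p G).subgroupOf D) := by
  have hp : p.Prime := Fact.out
  have key : ∀ L : Subgroup D, L.Normal → (Cfsg.pPrimeCore p G).subgroupOf D ≤ L →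
      L = (Cfsg.pPrimeCore p G).subgroupOf D ∨ L = ⊤ := by
    intro L hLn hML
    by_cases hdiv : p ∣ Nat.card L
    · right
      obtain ⟨s, hs⟩ := exists_prime_orderOf_dvd_card' (G := L) p hdiv
      have hz : orderOf (((s : D) : G)) = p := by
        rw [Subgroup.orderOf_coe, Subgroup.orderOf_coe]; exact hs
      have hz1 : ((s : D) : G) ≠ 1 := by
        intro h0; rw [h0, orderOf_one] at hz; exact hp.one_lt.ne hz
      have hxL : (⟨x, hxD⟩ : D) ∈ L := by
        obtain ⟨g, hg⟩ := scp_conj p x hx hC _ hz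
        obtain ⟨l, hl, hn⟩ := scp_frattini p x hx hC D hxD g
        have hy' : l * ((s : D) : G) * l⁻¹ ∈ Subgroup.zpowers x := by
          have := (Subgroup.mem_normalizer_iff.1 hn (g⁻¹ * ((s : D) : G) * g)).1 hg
          have e : l * g * (g⁻¹ * ((s : D) : G) * g) * (l * g)⁻¹ = l * ((s : D) : G) * l⁻¹ := by
            group
          rwa [e] at this
        have hy'1 : l * ((s : D) : G) * l⁻¹ ≠ 1 := by
          have := scp_conj_ne_one l⁻¹ _ hz1
          rwa [inv_inv] at this
        have hxy' := Cfsg.Agent.Helper3.mem_zpowers_of_prime_order hp hx hy' hy'1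
        obtain ⟨k, hk⟩ := Subgroup.mem_zpowers_iff.1 hxy'
        have hmem : (⟨l, hl⟩ : D) * (s : D) * (⟨l, hl⟩ : D)⁻¹ ∈ L := hLn.conj_mem _ s.2 _
        have hmem2 := L.zpow_mem hmem k
        have e : ((⟨l, hl⟩ : D) * (s : D) * (⟨l, hl⟩ : D)⁻¹) ^ k = ⟨x, hxD⟩ := by
          apply Subtype.ext
          simp only [Subgroup.coe_zpow, Subgroup.coe_mul, Subgroup.coe_inv]
          exact hk
        rw [e] at hmem2
        exact hmem2
      have star : ∀ w : G, orderOf w = p → ∃ hw : w ∈ D, (⟨w, hw⟩ : D) ∈ L := by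
        intro w hw
        obtain ⟨g, hg⟩ := scp_conj p x hx hC w hw
        obtain ⟨l, hl, hn⟩ := scp_frattini p x hx hC D hxD g
        have hy' : l * w * l⁻¹ ∈ Subgroup.zpowers x := by
          have := (Subgroup.mem_normalizer_iff.1 hn (g⁻¹ * w * g)).1 hg
          have e : l * g * (g⁻¹ * w * g) * (l * g)⁻¹ = l * w * l⁻¹ := by group
          rwa [e] at this
        obtain ⟨k, hk⟩ := Subgroup.mem_zpowers_iff.1 hy'
        have hyL : (⟨x, hxD⟩ : D) ^ k ∈ L := L.zpow_mem hxL k
        have hconj : (⟨l, hl⟩ : D)⁻¹ * (⟨x, hxD⟩ : D) ^ k * (⟨l, hl⟩ : D)⁻¹⁻¹ ∈ L :=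
          hLn.conj_mem _ hyL _
        have hwD : w ∈ D := by
          have e : w = l⁻¹ * (l * w * l⁻¹) * l := by group
          rw [e, ← hk]
          exact D.mul_mem (D.mul_mem (D.inv_mem hl) (D.zpow_mem hxD k)) hl
        refine ⟨hwD, ?_⟩
        have e : (⟨l, hl⟩ : D)⁻¹ * (⟨x, hxD⟩ : D) ^ k * (⟨l, hl⟩ : D)⁻¹⁻¹ = ⟨w, hwD⟩ := by
          apply Subtype.ext
          simp only [Subgroup.coe_mul, Subgroup.coe_inv, Subgroup.coe_zpow, inv_inv]
          rw [hk]; group
        rw [e] at hconj
        exact hconj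
      have hT : D ≤ Subgroup.normalClosure ({x} : Set G) :=
        hmin _ inferInstance (Subgroup.subset_normalClosure (Set.mem_singleton x))
      have hle : Subgroup.normalClosure ({x} : Set G) ≤ L.map D.subtype := by
        show Subgroup.closure (Group.conjugatesOfSet {x}) ≤ _
        rw [Subgroup.closure_le]
        intro a ha
        rw [Group.mem_conjugatesOfSet_iff] at ha
        obtain ⟨b, hb, hab⟩ := ha
        rw [Set.mem_singleton_iff] at hb
        subst hb
        obtain ⟨c, hc⟩ := isConj_iff.1 hab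
        have hao : orderOf a = p := by rw [← hc, orderOf_conj_eq, hx]
        obtain ⟨haD, haL⟩ := star a hao
        exact ⟨⟨a, haD⟩, haL, rfl⟩
      rw [eq_top_iff]
      intro d _
      obtain ⟨d', hd'L, hd'⟩ := hle (hT d.2)
      have e : d' = d := Subtype.ext hd'
      rw [← e]; exact hd'L
    · left
      apply le_antisymm _ hML
      have hsub : (L.map D.subtype).IsSubnormal := by
        apply Subgroup.IsSubnormal.step (L.map D.subtype) D
        · rintro _ ⟨l, -, rfl⟩; exact l.2
        · exact Subgroup.Normal.isSubnormal hDn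
        · show ((L.map D.subtype).subgroupOf D).Normal
          have e : (L.map D.subtype).subgroupOf D = L :=
            Subgroup.comap_map_eq_self_of_injective D.subtype_injective L
          rw [e]; exact hLn
      have hcop : (Nat.card (L.map D.subtype)).Coprime p := by
        rw [← Nat.card_congr (L.equivMapOfInjective D.subtype D.subtype_injective).toEquiv]
        exact ((Nat.Prime.coprime_iff_not_dvd hp).2 hdiv).symm
      have hle := Cfsg.Agent.Helper3.subnormal_coprime_le_pPrimeCore (L.map D.subtype) hsub hcop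
      intro l hl
      exact Subgroup.mem_subgroupOf.2 (hle ⟨l, hl, rfl⟩)
  haveI := h
  refine { exists_pair_ne := ?_, eq_bot_or_eq_top_of_normal := ?_ }
  · refine ⟨(QuotientGroup.mk' ((Cfsg.pPrimeCore p G).subgroupOf D)) ⟨x, hxD⟩, 1, ?_⟩
    intro h1
    have h2 : (⟨x, hxD⟩ : D) ∈ (Cfsg.pPrimeCore p G).subgroupOf D := (QuotientGroup.eq_one_iff _).1 h1
    have h3 : x ∈ Cfsg.pPrimeCore p G := Subgroup.mem_subgroupOf.1 h2
    have h4 := Subgroup.orderOf_dvd_natCard _ h3
    rw [hx] at h4
    exact core_not_dvd p h4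
  · intro Hbar hHn
    have hsurj := QuotientGroup.mk'_surjective ((Cfsg.pPrimeCore p G).subgroupOf D)
    have hcomapN : (Hbar.comap (QuotientGroup.mk' ((Cfsg.pPrimeCore p G).subgroupOf D))).Normal :=
      hHn.comap _
    rcases key _ hcomapN (QuotientGroup.le_comap_mk' _ Hbar) with h1 | h1
    · left
      rw [← Subgroup.map_comap_eq_self_of_surjective hsurj Hbar, h1, Subgroup.map_eq_bot_iff,
        QuotientGroup.ker_mk']
    · right
      rw [← Subgroup.map_comap_eq_self_of_surjective hsurj Hbar, h1]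
      exact Subgroup.map_top_of_surjective _ hsurj

/-- Let the finite group G contain an element x of prime order p with C_G(x) = ⟨x⟩, let t be the number of conjugacy classes of elements of order p, and let S* = O_{p′}(G) be the largest normal subgroup of order prime to p. Then S* ≤ G′; if t ≠ p − 1 the quotient G′/S* is simple (in particular non-trivial); if t = p − 1 then G′ = S*. -/
theorem result {G : Type*} [Group G] [Finite G] (p : ℕ) (hp : p.Prime) (x : G) (hx : orderOf x = p) (hC : Subgroup.centralizer ({x} : Set G) = Subgroup.zpowers x) (t : ℕ) (ht : Nat.card {C : ConjClasses G // ∃ g ∈ C.carrier, orderOf g = p} = t) : Cfsg.pPrimeCore p G ≤ commutator G ∧ (t ≠ p - 1 → ∀ h : ((Cfsg.pPrimeCore p G).subgroupOf (commutator G)).Normal, IsSimpleGroup (↥(commutator G) ⧸ (Cfsg.pPrimeCore p G).subgroupOf (commutator G))) ∧ (t = p - 1 → commutator G = Cfsg.pPrimeCore p G) := by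
  haveI : Fact p.Prime := ⟨hp⟩
  have hcount := scp_count p x hx hC
  rw [ht] at hcount
  have hp1 : 0 < p - 1 := Nat.sub_pos_of_lt hp.one_lt
  have hcardP : Nat.card (Subgroup.zpowers x) = p := by rw [Nat.card_zpowers, hx]
  refine ⟨core_le_commutator p x hx hC, ?_, ?_⟩
  · intro htne h
    have hN : Subgroup.normalizer ((Subgroup.zpowers x : Subgroup G) : Set G) ≠ Subgroup.zpowers x := by
      intro h'
      rw [h', hcardP] at hcount
      apply htne
      have : p * t = p * (p - 1) := by rw [mul_comm]; exact hcount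
      exact Nat.eq_of_mul_eq_mul_left hp.pos this
    have hxG := scp_mem_commutator_of_normalizer_ne p x hx hC hN
    exact simple_quot_aux p x hx hC (commutator G) hxG
      (fun T hT hxT => by haveI := hT; exact Cfsg.Agent.S4496.part_a p x hx hC T hxT) h
  · intro hteq
    have hN : Subgroup.normalizer ((Subgroup.zpowers x : Subgroup G) : Set G) = Subgroup.zpowers x := by
      symm
      apply Subgroup.eq_of_le_of_card_ge Subgroup.le_normalizer
      rw [hcardP]
      rw [hteq] at hcount
      have : (p - 1) * Nat.card (Subgroup.normalizer ((Subgroup.zpowers x : Subgroup G) : Set G))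
          = (p - 1) * p := by rw [hcount, mul_comm]
      exact (Nat.eq_of_mul_eq_mul_left hp1 this).le
    have h1 := (scp_commutator_of_normalizer_eq p x hx hC hN).1
    apply le_antisymm
    · exact Cfsg.Agent.Helper3.le_pPrimeCore (commutator G)
        ((Nat.Prime.coprime_iff_not_dvd hp).2 h1).symm
    · exact core_le_commutator p x hx hC

end Cfsg.Agent.S4497
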