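import Cfsg.Statements.S4509
import Mathlib
import Cfsg.Agent.Helper7.SelfCentP3

set_option autoImplicit false
open Cfsg

namespace Cfsg.Agent.S4509

open Cfsg.Agent.Helper7
open scoped commutatorElement

/-- Let the finite group G contain an element x of prime order p with C_G(x) = ⟨x⟩; let t be the number of conjugacy classes of elements of order p and 1 + n·p the number of subgroups of order p. Then G has a normal subgroup of order 1 + n·p if and only if either t = p − 1, or t < p − 1 and G″ ≠ G′. Moreover, if t = p − 1 then G′ has order 1 + n·p and G/G′ is cyclic of order p; and if t < p − 1 and G″ ≠ G′ then G″ has order 1 + n·p and G′ has order p·(1 + n·p). -/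
theorem result {G : Type*} [Group G] [Finite G] (p : ℕ) (hp : p.Prime) (x : G) (hx : orderOf x = p) (hC : Subgroup.centralizer ({x} : Set G) = Subgroup.zpowers x) (t : ℕ) (ht : Nat.card {C : ConjClasses G // ∃ g ∈ C.carrier, orderOf g = p} = t) (n : ℕ) (hn : Nat.card {H : Subgroup G // Nat.card H = p} = 1 + n * p) : ((∃ S : Subgroup G, S.Normal ∧ Nat.card S = 1 + n * p) ↔ (t = p - 1 ∨ (t < p - 1 ∧ derivedSeries G 2 ≠ derivedSeries G 1))) ∧ (t = p - 1 → Nat.card (commutator G) = 1 + n * p ∧ IsCyclic (G ⧸ commutator G) ∧ (commutator G).index = p) ∧ (t < p - 1 → derivedSeries G 2 ≠ derivedSeries G 1 → Nat.card (derivedSeries G 2) = 1 + n * p ∧ Nat.card (commutator G) = p * (1 + n * p)) := by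
  haveI : Fact p.Prime := ⟨hp⟩
  have hcount := scp_count p x hx hC
  rw [ht] at hcount
  have hidx := scp_index_normalizer p x hx hC
  rw [hn] at hidx
  have hp1 : 0 < p - 1 := Nat.sub_pos_of_lt hp.one_lt
  have hcardP : Nat.card (Subgroup.zpowers x) = p := by rw [Nat.card_zpowers, hx]
  have hNcard : Nat.card (Subgroup.normalizer ((Subgroup.zpowers x : Subgroup G) : Set G)) *
      (1 + n * p) = Nat.card G := by
    rw [hidx]; exact Subgroup.card_mul_index _
  have hNeq : t = p - 1 →
      Subgroup.normalizer ((Subgroup.zpowers x : Subgroup G) : Set G) = Subgroup.zpowers x := by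
    intro hteq
    symm
    apply Subgroup.eq_of_le_of_card_ge Subgroup.le_normalizer
    rw [hcardP]
    rw [hteq] at hcount
    have : (p - 1) * Nat.card (Subgroup.normalizer ((Subgroup.zpowers x : Subgroup G) : Set G))
        = (p - 1) * p := by rw [hcount, mul_comm]
    exact (Nat.eq_of_mul_eq_mul_left hp1 this).le
  have hNne : t ≠ p - 1 →
      Subgroup.normalizer ((Subgroup.zpowers x : Subgroup G) : Set G) ≠ Subgroup.zpowers x := by
    intro htne h'
    rw [h', hcardP] at hcount
    apply htne
    have : p * t = p * (p - 1) := by rw [mul_comm]; exact hcount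
    exact Nat.eq_of_mul_eq_mul_left hp.pos this
  have htle : t ≤ p - 1 := by
    have h1 : p ≤ Nat.card (Subgroup.normalizer ((Subgroup.zpowers x : Subgroup G) : Set G)) := by
      rw [← hcardP]
      exact Nat.le_of_dvd Nat.card_pos (Subgroup.card_dvd_of_le Subgroup.le_normalizer)
    have h2 : t * p ≤ (p - 1) * p := by
      calc t * p ≤ t * Nat.card (Subgroup.normalizer ((Subgroup.zpowers x : Subgroup G) : Set G)) :=
            Nat.mul_le_mul_left _ h1
        _ = (p - 1) * p := by rw [hcount, mul_comm]
    exact Nat.le_of_mul_le_mul_right h2 hp.pos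
  have hcase1 : t = p - 1 → Nat.card (commutator G) = 1 + n * p ∧ IsCyclic (G ⧸ commutator G) ∧
      (commutator G).index = p := by
    intro hteq
    have hN := hNeq hteq
    obtain ⟨h1, h2⟩ := scp_commutator_of_normalizer_eq p x hx hC hN
    refine ⟨?_, ?_, h2⟩
    · have h3 : Nat.card (commutator G) * (commutator G).index = Nat.card G :=
        Subgroup.card_mul_index _
      rw [h2] at h3
      rw [hN, hcardP] at hNcard
      have : Nat.card (commutator G) * p = (1 + n * p) * p := by rw [h3, ← hNcard, mul_comm]
      exact Nat.eq_of_mul_eq_mul_right hp.pos this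
    · exact isCyclic_of_prime_card (p := p) h2
  have hcase2 : t < p - 1 → derivedSeries G 2 ≠ derivedSeries G 1 →
      Nat.card (derivedSeries G 2) = 1 + n * p ∧ Nat.card (commutator G) = p * (1 + n * p) := by
    intro htlt hne
    have hne' : (⁅commutator G, commutator G⁆ : Subgroup G) ≠ commutator G := hne
    have hN := hNne htlt.ne
    have hxG := scp_mem_commutator_of_normalizer_ne p x hx hC hN
    have h2not := scp_derived2_not_dvd p x hx hC hne'
    have hG' := scp_commutator_eq_sup p x hx hC hxG
    have hinf : Subgroup.zpowers x ⊓ (⁅commutator G, commutator G⁆ : Subgroup G) = ⊥ := by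
      rw [eq_bot_iff]
      rintro y ⟨hy1, hy2⟩
      rw [Subgroup.mem_bot]
      exact scp_inf_coprime p x hx _ h2not y hy1 hy2
    have hcardG' : Nat.card (commutator G) =
        p * Nat.card (⁅commutator G, commutator G⁆ : Subgroup G) := by
      have h3 := Cfsg.Agent.Lead.card_sup_of_inf_eq_bot (Subgroup.zpowers x)
        (⁅commutator G, commutator G⁆ : Subgroup G) hinf
      rw [sup_comm, ← hG', hcardP] at h3
      exact h3
    have hsupN : (⁅commutator G, commutator G⁆ : Subgroup G) ⊔
        Subgroup.normalizer ((Subgroup.zpowers x : Subgroup G) : Set G) = ⊤ := by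
      rw [eq_top_iff]
      intro g _
      obtain ⟨l, hl, hlg⟩ := scp_frattini p x hx hC (commutator G) hxG g
      have e : g = l⁻¹ * (l * g) := by group
      rw [e]
      apply Subgroup.mul_mem
      · have hl' : l⁻¹ ∈ commutator G := Subgroup.inv_mem _ hl
        rw [hG'] at hl'
        exact (sup_le_sup_left (Subgroup.le_normalizer) _) hl'
      · exact Subgroup.mem_sup_right hlg
    have hcardG'' := scp_card_normal_coprime p x hx hC _ h2not hsupN
    rw [← hidx] at hcardG''
    refine ⟨hcardG'', ?_⟩
    rw [hcardG', hcardG'']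
  refine ⟨⟨?_, ?_⟩, hcase1, hcase2⟩
  · rintro ⟨S, hSn, hScard⟩
    by_cases hteq : t = p - 1
    · left; exact hteq
    · right
      refine ⟨lt_of_le_of_ne htle hteq, ?_⟩
      intro heq
      haveI := hSn
      have hSp : ¬ p ∣ Nat.card S := by
        rw [hScard]
        intro h
        have h1 : p ∣ 1 := (Nat.dvd_add_iff_left (dvd_mul_left p n)).2 h
        exact hp.one_lt.ne' (Nat.dvd_one.1 h1)
      have hsup := scp_sup_eq_top_of_card p x hx hC S hSp (hScard.trans hidx)
      have hle := scp_derived2_le x hC S hsup
      have hxG := scp_mem_commutator_of_normalizer_ne p x hx hC (hNne hteq)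
      have heq' : (⁅commutator G, commutator G⁆ : Subgroup G) = commutator G := heq
      have hxS : x ∈ S := hle (heq'.symm ▸ hxG)
      have h2 := Subgroup.orderOf_dvd_natCard S hxS
      rw [hx] at h2
      exact hSp h2
  · rintro (hteq | ⟨htlt, hne⟩)
    · exact ⟨commutator G, inferInstance, (hcase1 hteq).1⟩
    · exact ⟨derivedSeries G 2, derivedSeries_normal G 2, (hcase2 htlt hne).1⟩

end Cfsg.Agent.S4509
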