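import Mathlib
import Cfsg.Agent.Helper2.GalAM2
import Cfsg.Statements.S4558

set_option autoImplicit false
open Cfsg

namespace Cfsg.Agent.S4558

/-- Let χ be a character of the finite group G and g an element of p-power order for the prime p. If χ g = 0, then p divides the degree of χ. -/
theorem result {G : Type*} [Group G] [Finite G] (p : ℕ) [Fact p.Prime] (χ : G → ℂ) (hχ : Cfsg.IsCharacter G χ) (g : G) (hg : ∃ j : ℕ, orderOf g = p ^ j) (h0 : χ g = 0) : p ∣ Cfsg.charDegree χ := by
  obtain ⟨j, hj⟩ := hg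
  rcases Nat.eq_zero_or_pos j with rfl | hjpos
  · rw [pow_zero, orderOf_eq_one_iff] at hj
    rw [hj] at h0
    unfold Cfsg.charDegree
    rw [h0]
    simp
  · obtain ⟨j', rfl⟩ : ∃ j', j = j' + 1 := ⟨j - 1, by omega⟩
    obtain ⟨z, hz⟩ := Cfsg.Agent.Helper2.GalAM.dvd_degree_of_vanish p hχ g j' hj h0
    unfold Cfsg.charDegree
    rw [hz]
    have hre : (((((p : ℤ) * z : ℤ)) : ℂ)).re = (((p : ℤ) * z : ℤ) : ℝ) := by
      simp
    rw [hre, ← Int.floor_toNat, Int.floor_intCast]
    rcases le_or_gt 0 z with hz0 | hz0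
    · have : ((p : ℤ) * z).toNat = p * z.toNat := by
        rw [Int.toNat_mul (by positivity) hz0]
        simp
      rw [this]
      exact dvd_mul_right _ _
    · have : ((p : ℤ) * z).toNat = 0 := by
        rw [Int.toNat_eq_zero]
        have hp : (0 : ℤ) < p := by exact_mod_cast (Fact.out : p.Prime).pos
        nlinarith
      rw [this]
      exact dvd_zero _


end Cfsg.Agent.S4558
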