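import Mathlib
import Cfsg.Agent.Lead.CharCenter
import Cfsg.Agent.Lead.CharLin2
import Cfsg.Agent.Lead.CharCore3
import Cfsg.Statements.S4566

set_option autoImplicit false
open Cfsg

namespace Cfsg.Agent.S4566

/-- Let N be a central subgroup of the finite group G, ψ a faithful irreducible (hence degree-one) character of N, and χ an irreducible character of G whose restriction to N contains ψ. If g ∈ G and some x ∈ G has commutator x⁻¹ g⁻¹ x g in N but different from 1, then χ g = 0. -/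
theorem result {G : Type*} [Group G] [Fintype G] (N : Subgroup G) [Fintype N] (hN : N ≤ Subgroup.center G) (ψ : Cfsg.IrrCharacter ↥N) (hfaith : ∀ n : ↥N, (ψ : ↥N → ℂ) n = (ψ : ↥N → ℂ) 1 → n = 1) (χ : Cfsg.IrrCharacter G) (hover : Cfsg.classInner (fun n : ↥N => (χ : G → ℂ) n) (ψ : ↥N → ℂ) ≠ 0) (g x : G) (hcomm : x⁻¹ * g⁻¹ * x * g ∈ N) (hne : x⁻¹ * g⁻¹ * x * g ≠ 1) : (χ : G → ℂ) g = 0 := by
  classical
  obtain ⟨d, ρ, hi, hρ⟩ := χ.2
  have hnt : Nontrivial (Fin d → ℂ) := ((Cfsg.Agent.Lead.isIrreducible_iff ρ).mp hi).1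
  have hid : (LinearMap.id : (Fin d → ℂ) →ₗ[ℂ] (Fin d → ℂ)) ≠ 0 := by
    intro h
    obtain ⟨v, hv⟩ := exists_ne (0 : Fin d → ℂ)
    have := LinearMap.congr_fun h v
    simp at this
    exact hv this
  have hsc : ∀ z : N, ∃ c : ℂ, ρ (z : G) = c • (LinearMap.id : (Fin d → ℂ) →ₗ[ℂ] (Fin d → ℂ)) :=
    fun z => Cfsg.Agent.Lead.rep_center_scalar ρ hi (hN z.2)
  choose c hc using hsc
  have hinj : ∀ a b : ℂ, a • (LinearMap.id : (Fin d → ℂ) →ₗ[ℂ] (Fin d → ℂ))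
      = b • (LinearMap.id : (Fin d → ℂ) →ₗ[ℂ] (Fin d → ℂ)) → a = b := by
    intro a b h
    have h2 : (a - b) • (LinearMap.id : (Fin d → ℂ) →ₗ[ℂ] (Fin d → ℂ)) = 0 := by
      have := sub_smul a b (LinearMap.id : (Fin d → ℂ) →ₗ[ℂ] (Fin d → ℂ))
      rw [this, h, sub_self]
    rcases smul_eq_zero.mp h2 with h3 | h3
    · exact sub_eq_zero.mp h3
    · exact absurd h3 hid
  have hc1 : c 1 = 1 := by
    apply hinj
    rw [← hc, one_smul]
    simp
    rfl
  have hcmul : ∀ a b : N, c (a * b) = c a * c b := by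
    intro a b
    apply hinj
    rw [← hc]
    have : ρ ((a * b : N) : G) = ρ (a : G) * ρ (b : G) := by
      rw [Subgroup.coe_mul, map_mul]
    rw [this, hc, hc, mul_smul]
    ext v
    simp
    ring
  have hchar : Cfsg.IsCharacter N c := Cfsg.Agent.Lead.isCharacter_of_mul c hc1 hcmul
  have hirr : Cfsg.IsIrrCharacter N c := Cfsg.Agent.Lead.isIrrCharacter_of_one hchar hc1
  have hmulz : ∀ (y : G) (z : N), (χ : G → ℂ) (y * z) = c z * (χ : G → ℂ) y := by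
    intro y z
    rw [← hρ]
    show LinearMap.trace ℂ _ (ρ (y * z)) = c z * LinearMap.trace ℂ _ (ρ y)
    have e : ρ (y * z) = c z • ρ y := by
      rw [map_mul, hc]
      ext v
      simp
    rw [e, map_smul, smul_eq_mul]
  have hres : (fun n : N => (χ : G → ℂ) n) = (χ : G → ℂ) 1 • c := by
    funext z
    have := hmulz 1 z
    rw [one_mul] at this
    rw [this, Pi.smul_apply, smul_eq_mul, mul_comm]
  have hlam : (⟨c, hirr⟩ : Cfsg.IrrCharacter N) = ψ := by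
    by_contra hneq
    apply hover
    rw [hres, Cfsg.Agent.Lead.classInner_smul_left]
    have := Cfsg.Agent.Lead.classInner_irr (⟨c, hirr⟩ : Cfsg.IrrCharacter N) ψ
    rw [if_neg hneq] at this
    rw [this, mul_zero]
  have hcψ : c = (ψ : N → ℂ) := congrArg Subtype.val hlam
  have hcne : c ⟨x⁻¹ * g⁻¹ * x * g, hcomm⟩ ≠ 1 := by
    intro h
    have h1 := hfaith ⟨x⁻¹ * g⁻¹ * x * g, hcomm⟩ (by rw [← hcψ, h, hc1])
    exact hne (congrArg Subtype.val h1)
  have hg : g = (x⁻¹ * g * x⁻¹⁻¹) * ((⟨x⁻¹ * g⁻¹ * x * g, hcomm⟩ : N) : G) := by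
    simp only [inv_inv]
    group
  have hcl : (χ : G → ℂ) (x⁻¹ * g * x⁻¹⁻¹) = (χ : G → ℂ) g :=
    Cfsg.Agent.Lead.isClassFunction_irr χ g x⁻¹
  have h5 := hmulz (x⁻¹ * g * x⁻¹⁻¹) ⟨x⁻¹ * g⁻¹ * x * g, hcomm⟩
  rw [← hg, hcl] at h5
  have h6 : (1 - c ⟨x⁻¹ * g⁻¹ * x * g, hcomm⟩) * (χ : G → ℂ) g = 0 := by
    rw [sub_mul, one_mul, ← h5, sub_self]
  rcases mul_eq_zero.mp h6 with h7 | h7
  · exact absurd (sub_eq_zero.mp h7).symm hcne
  · exact h7


end Cfsg.Agent.S4566
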