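import Mathlib
import Cfsg.Agent.Helper2.GalAM2
import Cfsg.Agent.Lead.CharCore
import Cfsg.Agent.Helper2.CharKer
import Cfsg.Statements.S4574

set_option autoImplicit false
open Cfsg

namespace Cfsg.Agent.S4574

/-- Let χ be an irreducible character of the finite group G, of degree d, and let Z(χ) be the set of elements g with |χ g| = d (the centre of χ). Then χ vanishes on at least (d ^ 2 - 1) · |Z(χ)| elements of G, with equality when every value |χ g| is 0, 1 or d. -/
theorem result {G : Type*} [Group G] [Fintype G] [DecidableEq G] (χ : G → ℂ) (hχ : Cfsg.IsIrrCharacter G χ) : (Cfsg.charDegree χ ^ 2 - 1) * (Finset.univ.filter (fun g : G => ‖χ g‖ = (Cfsg.charDegree χ : ℝ))).card ≤ (Finset.univ.filter (fun g : G => χ g = 0)).card ∧ ((∀ g : G, ‖χ g‖ = 0 ∨ ‖χ g‖ = 1 ∨ ‖χ g‖ = (Cfsg.charDegree χ : ℝ)) → (Cfsg.charDegree χ ^ 2 - 1) * (Finset.univ.filter (fun g : G => ‖χ g‖ = (Cfsg.charDegree χ : ℝ))).card = (Finset.univ.filter (fun g : G => χ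 g = 0)).card) := by
  classical
  have hchar := Cfsg.Agent.Lead.isCharacter_of_isIrrCharacter hχ
  obtain ⟨K, -, -, -, hdpos, hd1, -⟩ := Cfsg.Agent.Helper2.CharKer.exists_ker (⟨χ, hχ⟩ : Cfsg.IrrCharacter G)
  have hd1' : χ 1 = (Cfsg.charDegree χ : ℂ) := hd1
  set d := Cfsg.charDegree χ with hd
  have hn1 : ‖χ 1‖ = (d : ℝ) := by rw [hd1', Complex.norm_natCast]
  set S := Finset.univ.filter (fun g : G => ¬ ‖χ g‖ = (d : ℝ)) with hS
  set Zc := Finset.univ.filter (fun g : G => ‖χ g‖ = (d : ℝ)) with hZc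
  set Zs := Finset.univ.filter (fun g : G => χ g = 0) with hZs
  have hclosed : ∀ g ∈ S, ∀ i : ℕ, i.Coprime (Fintype.card G) → g ^ i ∈ S := by
    intro g hg i hi
    rw [hS, Finset.mem_filter] at hg ⊢
    refine ⟨Finset.mem_univ _, fun h => hg.2 ?_⟩
    have hc : i.Coprime (orderOf g) := Nat.Coprime.coprime_dvd_right (orderOf_dvd_card) hi
    obtain ⟨m, hm⟩ := exists_pow_eq_self_of_coprime hc
    have := Cfsg.Agent.Helper2.GalAM.center_pow_closed hχ (g ^ i) m (by rw [h, hn1])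
    rw [hm, hn1] at this
    exact this
  have h1 := Cfsg.Agent.Helper2.GalAM.sum_norm_sq_ge_card hchar S hclosed
  have h2 := Cfsg.Agent.Helper2.GalAM.sum_norm_sq_irr hχ
  have h3 : ∑ g : G, ‖χ g‖ ^ 2 = ∑ g ∈ Zc, ‖χ g‖ ^ 2 + ∑ g ∈ S, ‖χ g‖ ^ 2 :=
    (Finset.sum_filter_add_sum_filter_not Finset.univ (fun g : G => ‖χ g‖ = (d : ℝ)) _).symm
  have h4 : ∑ g ∈ Zc, ‖χ g‖ ^ 2 = (Zc.card : ℝ) * (d : ℝ) ^ 2 := by
    rw [Finset.sum_congr rfl (fun g hg => by rw [(Finset.mem_filter.mp hg).2] :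
      ∀ g ∈ Zc, ‖χ g‖ ^ 2 = (d : ℝ) ^ 2), Finset.sum_const, nsmul_eq_mul]
  have hsplit1 : Zc.card + S.card = Fintype.card G := by
    rw [hZc, hS, Finset.card_filter_add_card_filter_not, Finset.card_univ]
  have hsplit2 : (S.filter (fun g => χ g ≠ 0)).card + (S.filter (fun g => ¬ χ g ≠ 0)).card
      = S.card := Finset.card_filter_add_card_filter_not _
  have hZeq : S.filter (fun g => ¬ χ g ≠ 0) = Zs := by
    ext g
    simp only [hS, hZs, Finset.mem_filter, Finset.mem_univ, true_and, not_not]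
    constructor
    · exact fun h => h.2
    · intro h
      refine ⟨?_, h⟩
      rw [h, norm_zero]
      intro h0
      have : d = 0 := by exact_mod_cast h0.symm
      omega
  rw [hZeq] at hsplit2
  have e1 : (Zc.card : ℝ) + (S.card : ℝ) = (Fintype.card G : ℝ) := by exact_mod_cast hsplit1
  have e2 : ((S.filter (fun g => χ g ≠ 0)).card : ℝ) + (Zs.card : ℝ) = (S.card : ℝ) := by
    exact_mod_cast hsplit2
  have hd1R : (1 : ℝ) ≤ (d : ℝ) := by exact_mod_cast hdpos
  have hdsq : 1 ≤ d ^ 2 := Nat.one_le_pow _ _ hdpos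
  constructor
  · have : (((d ^ 2 - 1) * Zc.card : ℕ) : ℝ) ≤ (Zs.card : ℝ) := by
      rw [Nat.cast_mul, Nat.cast_sub hdsq]
      push_cast
      nlinarith
    exact_mod_cast this
  · intro hvals
    have h5 : ∑ g ∈ S, ‖χ g‖ ^ 2 = ((S.filter (fun g => χ g ≠ 0)).card : ℝ) := by
      rw [Finset.card_filter, Nat.cast_sum]
      refine Finset.sum_congr rfl (fun g hg => ?_)
      rw [hS, Finset.mem_filter] at hg
      rcases hvals g with h | h | h
      · have h0 : χ g = 0 := norm_eq_zero.mp h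
        rw [if_neg (by simp [h0]), h]; simp
      · have h0 : χ g ≠ 0 := by
          intro h0; rw [h0, norm_zero] at h; exact zero_ne_one h
        rw [if_pos h0, h]; simp
      · exact absurd h hg.2
    have : (((d ^ 2 - 1) * Zc.card : ℕ) : ℝ) = (Zs.card : ℝ) := by
      rw [Nat.cast_mul, Nat.cast_sub hdsq]
      push_cast
      nlinarith
    exact_mod_cast this


end Cfsg.Agent.S4574
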