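import Cfsg.Statements.S4602
import Cfsg.Agent.Helper4.HH123
import Cfsg.Agent.Helper4.SupIndex
import Cfsg.Agent.Helper5.Stability

set_option autoImplicit false
open Cfsg

namespace Cfsg.Agent.S4602

/-- Let G be a finite p-solvable group and q a prime different from p. Some Sylow p-subgroup of G normalizes some Sylow q-subgroup of G if and only if q does not divide the order of G/O_{p'}(G), the quotient by the largest normal subgroup of order prime to p. -/
theorem result {G : Type*} [Group G] [Finite G] (p q : ℕ) [Fact p.Prime] [Fact q.Prime] (hpq : p ≠ q) (hsolv : Cfsg.IsPSolvable p G) :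
    (∃ (P : Sylow p G) (Q : Sylow q G), (P : Subgroup G) ≤ Subgroup.normalizer ((Q : Subgroup G) : Set G)) ↔ ¬ q ∣ (Cfsg.pPrimeCore p G).index := by
  have hpp : p.Prime := Fact.out
  have hqq : q.Prime := Fact.out
  have hNn : (Cfsg.pPrimeCore p G).Normal := Cfsg.Agent.Helper5.pPrimeCore_normal' p G
  have hNc : (Nat.card (Cfsg.pPrimeCore p G)).Coprime p := Cfsg.Agent.Helper3.pPrimeCore_coprime p G
  have hqp : ∀ j : ℕ, (q ^ j).Coprime p := fun j =>
    Nat.Coprime.pow_left j ((Nat.coprime_primes hqq hpp).mpr (Ne.symm hpq))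
  constructor
  · rintro ⟨P, Q, hPQ⟩
    have hO : Cfsg.pPrimeCore p (G ⧸ Cfsg.pPrimeCore p G) = ⊥ :=
      Cfsg.Agent.Helper3.pPrimeCore_quotient_eq_bot p G
    have hhh := Cfsg.Agent.Helper4.hh123
      (Cfsg.Agent.Helper4.isPSolvable_quotient hsolv (Cfsg.pPrimeCore p G)) hO
    have hRn : (Cfsg.pCore p (G ⧸ Cfsg.pPrimeCore p G)).Normal := Cfsg.Agent.Helper5.pCore_normal p _
    have hRp : IsPGroup p (Cfsg.pCore p (G ⧸ Cfsg.pPrimeCore p G)) := Cfsg.Agent.Helper5.pCore_isPGroup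
    have hRP : Cfsg.pCore p (G ⧸ Cfsg.pPrimeCore p G) ≤
        (P : Subgroup G).map (QuotientGroup.mk' (Cfsg.pPrimeCore p G)) := by
      have h0 := Cfsg.Agent.Helper5.pCore_le_sylow
        (P.mapSurjective (QuotientGroup.mk'_surjective (Cfsg.pPrimeCore p G)))
      rwa [Sylow.coe_mapSurjective] at h0
    have hQN : (Q : Subgroup G) ≤ Cfsg.pPrimeCore p G := by
      intro x hx
      obtain ⟨j, hj⟩ := Q.2 ⟨x, hx⟩
      have hxj : x ^ q ^ j = 1 := by
        have h0 := congrArg Subtype.val hj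
        rwa [Subgroup.coe_pow] at h0
      have hcen : (QuotientGroup.mk' (Cfsg.pPrimeCore p G)) x ∈
          Subgroup.centralizer (Cfsg.pCore p (G ⧸ Cfsg.pPrimeCore p G) : Set (G ⧸ Cfsg.pPrimeCore p G)) := by
        rw [Subgroup.mem_centralizer_iff]
        intro r hr
        obtain ⟨u, hu, rfl⟩ := Subgroup.mem_map.mp (hRP hr)
        have h1 : u * x * u⁻¹ * x⁻¹ ∈ (Q : Subgroup G) :=
          Subgroup.mul_mem _ ((Subgroup.mem_normalizer_iff.mp (hPQ hu) x).mp hx) (Subgroup.inv_mem _ hx)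
        obtain ⟨i, hi⟩ := Q.2 ⟨_, h1⟩
        have h2 : (u * x * u⁻¹ * x⁻¹) ^ q ^ i = 1 := by
          have h0 := congrArg Subtype.val hi
          rwa [Subgroup.coe_pow] at h0
        have h3 : (QuotientGroup.mk' (Cfsg.pPrimeCore p G)) (u * x * u⁻¹ * x⁻¹) ∈
            Cfsg.pCore p (G ⧸ Cfsg.pPrimeCore p G) := by
          have h0 : (QuotientGroup.mk' (Cfsg.pPrimeCore p G)) (u * x * u⁻¹ * x⁻¹) =
              (QuotientGroup.mk' (Cfsg.pPrimeCore p G)) u *
              ((QuotientGroup.mk' (Cfsg.pPrimeCore p G)) x *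
                ((QuotientGroup.mk' (Cfsg.pPrimeCore p G)) u)⁻¹ *
                ((QuotientGroup.mk' (Cfsg.pPrimeCore p G)) x)⁻¹) := by
            rw [map_mul, map_mul, map_mul, map_inv, map_inv]; group
          rw [h0]
          exact Subgroup.mul_mem _ hr (hRn.conj_mem _ (Subgroup.inv_mem _ hr) _)
        have h4 : (QuotientGroup.mk' (Cfsg.pPrimeCore p G)) (u * x * u⁻¹ * x⁻¹) ^ q ^ i = 1 := by
          rw [← map_pow, h2, map_one]
        have h5 := Cfsg.Agent.Helper5.eq_one_of_pow_coprime _ hRp _ (hqp i) _ h3 h4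
        rw [map_mul, map_mul, map_mul, map_inv, map_inv] at h5
        have h6 : (QuotientGroup.mk' (Cfsg.pPrimeCore p G)) u * (QuotientGroup.mk' (Cfsg.pPrimeCore p G)) x =
            ((QuotientGroup.mk' (Cfsg.pPrimeCore p G)) u * (QuotientGroup.mk' (Cfsg.pPrimeCore p G)) x *
              ((QuotientGroup.mk' (Cfsg.pPrimeCore p G)) u)⁻¹ * ((QuotientGroup.mk' (Cfsg.pPrimeCore p G)) x)⁻¹) *
            ((QuotientGroup.mk' (Cfsg.pPrimeCore p G)) x * (QuotientGroup.mk' (Cfsg.pPrimeCore p G)) u) := by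
          group
        rw [h6, h5, one_mul]
      have h7 := hhh hcen
      have h8 : (QuotientGroup.mk' (Cfsg.pPrimeCore p G)) x ^ q ^ j = 1 := by
        rw [← map_pow, hxj, map_one]
      have h9 := Cfsg.Agent.Helper5.eq_one_of_pow_coprime _ hRp _ (hqp j) _ h7 h8
      exact (QuotientGroup.eq_one_iff _).mp h9
    intro hdvd
    exact Q.not_dvd_index (hdvd.trans (Subgroup.index_dvd_of_le hQN))
  · intro hq
    obtain ⟨Q⟩ : Nonempty (Sylow q G) := inferInstance
    have hQN : (Q : Subgroup G) ≤ Cfsg.pPrimeCore p G := by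
      intro x hx
      obtain ⟨j, hj⟩ := Q.2 ⟨x, hx⟩
      have hxj : x ^ q ^ j = 1 := by
        have h0 := congrArg Subtype.val hj
        rwa [Subgroup.coe_pow] at h0
      have h1 : x ^ (Cfsg.pPrimeCore p G).index ∈ Cfsg.pPrimeCore p G := Subgroup.pow_index_mem _ x
      have h2 : ((Cfsg.pPrimeCore p G).index).Coprime (q ^ j) :=
        Nat.Coprime.pow_right j ((Nat.Prime.coprime_iff_not_dvd hqq).mpr hq).symm
      exact Cfsg.Agent.Helper4.mem_of_pow_mem_of_coprime _ x _ _ h2 h1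
        (by rw [hxj]; exact Subgroup.one_mem _)
    have hfrat : Subgroup.normalizer ((Q : Subgroup G) : Set G) ⊔ Cfsg.pPrimeCore p G = ⊤ :=
      Sylow.normalizer_sup_eq_top' Q hQN
    have hidx : ¬ p ∣ (Subgroup.normalizer ((Q : Subgroup G) : Set G)).index := by
      have h1 := Cfsg.Agent.Helper4.relIndex_sup_dvd_card (Cfsg.pPrimeCore p G)
        (Subgroup.normalizer ((Q : Subgroup G) : Set G)) hNn
      rw [sup_comm, hfrat, Subgroup.relIndex_top_right] at h1
      intro h
      exact (Nat.Prime.coprime_iff_not_dvd hpp).mp hNc.symm (h.trans h1)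
    obtain ⟨P, hP⟩ := Cfsg.Agent.Helper4.exists_sylow_le_of_not_dvd_index _ hidx
    exact ⟨P, Q, hP⟩

end Cfsg.Agent.S4602
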