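import Mathlib
import Cfsg.Agent.Helper2.ClsSep
import Cfsg.Statements.S4754

set_option autoImplicit false
open Cfsg

namespace Cfsg.Agent.S4754

/-- For elements x, y of a finite group G, the conjugacy class of x y equals the set of all products of a conjugate of x with a conjugate of y if and only if χ(1) χ(a x a⁻¹ b y b⁻¹) = χ(x) χ(y) for all a, b ∈ G and every irreducible character χ. -/
theorem result {G : Type*} [Group G] [Finite G] (x y : G) : (∀ z : G, IsConj (x * y) z ↔ ∃ a b : G, z = a * x * a⁻¹ * (b * y * b⁻¹)) ↔ ∀ (a b : G) (χ : Cfsg.IrrCharacter G), (χ : G → ℂ) 1 * (χ : G → ℂ) (a * x * a⁻¹ * (b * y * b⁻¹)) = (χ : G → ℂ) x * (χ : G → ℂ) y := by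
  classical
  constructor
  · intro hcls a b χ
    have hχ : Cfsg.IsIrrCharacter G (χ : G → ℂ) := χ.2
    have hcf : Cfsg.IsClassFunction G (χ : G → ℂ) :=
      Cfsg.Agent.Lead.isCharacter_isClassFunction (Cfsg.Agent.Lead.isCharacter_of_isIrrCharacter hχ)
    have key : ∀ a b : G, (χ : G → ℂ) (a * x * a⁻¹ * (b * y * b⁻¹)) = (χ : G → ℂ) (x * y) := by
      intro a b
      have hc : IsConj (x * y) (a * x * a⁻¹ * (b * y * b⁻¹)) := (hcls _).2 ⟨a, b, rfl⟩
      exact (Cfsg.Agent.Lead.isClassFunction_apply_of_isConj hcf hc).symm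
    rw [key a b]
    apply Cfsg.Agent.Helper2.ClsSep.irr_const_prod hχ x y
    intro g
    have := key g 1
    simpa using this
  · intro hid z
    have key : ∀ (a b : G) (χ : Cfsg.IrrCharacter G),
        (χ : G → ℂ) (x * y) = (χ : G → ℂ) (a * x * a⁻¹ * (b * y * b⁻¹)) := by
      intro a b χ
      have h0 := Cfsg.Agent.Helper2.ClsSep.irr_one_ne_zero χ.2
      have h1 := hid a b χ
      have h2 := hid 1 1 χ
      simp only [one_mul, inv_one, mul_one] at h2
      exact mul_left_cancel₀ h0 (h2.trans h1.symm)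
    constructor
    · intro hz
      obtain ⟨g, hg⟩ := isConj_iff.mp hz
      refine ⟨g, g, ?_⟩
      rw [← hg]
      group
    · rintro ⟨a, b, rfl⟩
      exact Cfsg.Agent.Helper2.ClsSep.isConj_of_irr_eq (key a b)


end Cfsg.Agent.S4754
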