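import Mathlib
import Cfsg.Agent.Helper2.ClsSep
import Cfsg.Agent.Lead.CharLin2
import Cfsg.Statements.S4755

set_option autoImplicit false
open Cfsg

namespace Cfsg.Agent.S4755

/-- Let x, y be non-identity elements of the finite group G such that χ(x' y') = χ(x') χ(y') for all conjugates x' of x, y' of y and every irreducible character χ. Then the conjugacy class of x y is the set of all products of a conjugate of x with a conjugate of y; every irreducible character of degree greater than 1 vanishes at x y; and the conjugacy class of x y is the coset of the commutator subgroup containing x y. -/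
theorem result {G : Type*} [Group G] [Finite G] (x y : G) (hx : x ≠ 1) (hy : y ≠ 1) (h : ∀ (a b : G) (χ : Cfsg.IrrCharacter G), (χ : G → ℂ) (a * x * a⁻¹ * (b * y * b⁻¹)) = (χ : G → ℂ) (a * x * a⁻¹) * (χ : G → ℂ) (b * y * b⁻¹)) : (∀ z : G, IsConj (x * y) z ↔ ∃ a b : G, z = a * x * a⁻¹ * (b * y * b⁻¹)) ∧ (∀ χ : Cfsg.IrrCharacter G, (χ : G → ℂ) 1 ≠ 1 → (χ : G → ℂ) (x * y) = 0) ∧ (∀ z : G, IsConj (x * y) z ↔ (x * y)⁻¹ * z ∈ commutator G) := by
  classical
  have hcf : ∀ χ : Cfsg.IrrCharacter G, Cfsg.IsClassFunction G (χ : G → ℂ) := fun χ =>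
    Cfsg.Agent.Lead.isCharacter_isClassFunction (Cfsg.Agent.Lead.isCharacter_of_isIrrCharacter χ.2)
  have hconj : ∀ (χ : Cfsg.IrrCharacter G) (a g : G), (χ : G → ℂ) (a * g * a⁻¹) = (χ : G → ℂ) g := by
    intro χ a g
    exact (Cfsg.Agent.Lead.isClassFunction_apply_of_isConj (hcf χ) (isConj_iff.mpr ⟨a, rfl⟩)).symm
  have key : ∀ (a b : G) (χ : Cfsg.IrrCharacter G),
      (χ : G → ℂ) (a * x * a⁻¹ * (b * y * b⁻¹)) = (χ : G → ℂ) x * (χ : G → ℂ) y := by
    intro a b χ
    rw [h a b χ, hconj, hconj]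
  have key1 : ∀ χ : Cfsg.IrrCharacter G, (χ : G → ℂ) (x * y) = (χ : G → ℂ) x * (χ : G → ℂ) y := by
    intro χ
    have := key 1 1 χ
    simpa using this
  have hvan : ∀ χ : Cfsg.IrrCharacter G, (χ : G → ℂ) 1 ≠ 1 → (χ : G → ℂ) (x * y) = 0 := by
    intro χ h1
    have h2 := Cfsg.Agent.Helper2.ClsSep.irr_const_prod χ.2 x y ((χ : G → ℂ) x * (χ : G → ℂ) y)
      (fun g => by
        have := key g 1 χ
        simpa using this)
    rw [key1 χ]
    have h3 : ((χ : G → ℂ) 1 - 1) * ((χ : G → ℂ) x * (χ : G → ℂ) y) = 0 := by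
      linear_combination h2
    rcases mul_eq_zero.mp h3 with h4 | h4
    · exact absurd (sub_eq_zero.mp h4) h1
    · exact h4
  have hcls : ∀ z : G, IsConj (x * y) z ↔ ∃ a b : G, z = a * x * a⁻¹ * (b * y * b⁻¹) := by
    intro z
    constructor
    · intro hz
      obtain ⟨g, hg⟩ := isConj_iff.mp hz
      refine ⟨g, g, ?_⟩
      rw [← hg]
      group
    · rintro ⟨a, b, rfl⟩
      exact Cfsg.Agent.Helper2.ClsSep.isConj_of_irr_eq (fun χ => (key1 χ).trans (key a b χ).symm)
  refine ⟨hcls, hvan, ?_⟩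
  intro z
  constructor
  · intro hz
    obtain ⟨g, hg⟩ := isConj_iff.mp hz
    rw [← hg]
    have hm := Subgroup.commutator_mem_commutator (Subgroup.mem_top ((x * y)⁻¹))
      (Subgroup.mem_top g)
    rw [commutatorElement_def] at hm
    have he : (x * y)⁻¹ * (g * (x * y) * g⁻¹) = (x * y)⁻¹ * g * (x * y)⁻¹⁻¹ * g⁻¹ := by
      group
    rw [he]
    exact hm
  · intro hz
    by_contra hc
    have h1 := Cfsg.Agent.Lead.column_orth_of_not_isConj hc
    have h2 := Cfsg.Agent.Lead.column_orth_of_isConj (IsConj.refl (x * y))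
    have h3 : ∑ᶠ χ : Cfsg.IrrCharacter G, (χ : G → ℂ) (x * y) * (starRingEnd ℂ) ((χ : G → ℂ) z)
        = ∑ᶠ χ : Cfsg.IrrCharacter G, (χ : G → ℂ) (x * y) * (starRingEnd ℂ) ((χ : G → ℂ) (x * y)) := by
      apply finsum_congr
      intro χ
      by_cases hχ1 : (χ : G → ℂ) 1 = 1
      · rw [Cfsg.Agent.Lead.linear_eq_of_commutator
          (Cfsg.Agent.Lead.isCharacter_of_isIrrCharacter χ.2) hχ1 (x * y) z hz]
      · rw [hvan χ hχ1, zero_mul, zero_mul]
    rw [h3, h2] at h1
    have hpos : 0 < Nat.card (Subgroup.centralizer ({x * y} : Set G)) := Nat.card_pos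
    have : (Nat.card (Subgroup.centralizer ({x * y} : Set G)) : ℂ) ≠ 0 := by
      exact_mod_cast hpos.ne'
    exact this h1


end Cfsg.Agent.S4755
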