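import Mathlib
import Cfsg.Agent.Helper2.CharKer2
import Cfsg.Statements.S4797

set_option autoImplicit false
open Cfsg

namespace Cfsg.Agent.S4797

/-- The codegree of an irreducible complex character χ of a finite group G is [G : ker χ] / χ(1), where ker χ is the set of elements at which χ takes the value χ(1). A non-trivial finite group is perfect if and only if no irreducible complex character of it has prime codegree. -/
theorem result {G : Type*} [Group G] [Finite G] [Nontrivial G] : commutator G = ⊤ ↔ ∀ χ : Cfsg.IrrCharacter G, ¬ ((Nat.card G / (Nat.card {g : G // (χ : G → ℂ) g = (χ : G → ℂ) 1} * Cfsg.charDegree (χ : G → ℂ)))).Prime := by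
  constructor
  · intro hperf χ hprime
    obtain ⟨χ, n, ρ, hi, rfl⟩ := χ
    have hmem : ∀ g, ρ.character g = ρ.character 1 ↔ g ∈ MonoidHom.ker ρ := by
      intro g
      rw [Cfsg.Agent.Helper2.CharKer.character_eq_one_iff, MonoidHom.mem_ker]
    have hcardK : Nat.card {g : G // ρ.character g = ρ.character 1}
        = Nat.card (MonoidHom.ker ρ) :=
      Nat.card_congr (Equiv.subtypeEquivRight hmem)
    have hdeg : Cfsg.charDegree ρ.character = n := by
      simp [Cfsg.charDegree, Representation.char_one]
    have hdvd := Cfsg.Agent.Helper2.CharKer.degree_mul_card_ker_dvd ρ hi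
    rw [Module.finrank_fin_fun] at hdvd
    have hprime' : (Nat.card G / (Nat.card (MonoidHom.ker ρ) * n)).Prime := by
      have h0 : (Nat.card G / (Nat.card {g : G // ρ.character g = ρ.character 1}
          * Cfsg.charDegree ρ.character)).Prime := hprime
      rw [hcardK, hdeg] at h0
      exact h0
    apply Cfsg.Agent.Helper2.CharKer.perfect_not_prime_cod hperf ρ hi _ hprime'
    have hdvd' : Nat.card (MonoidHom.ker ρ) * n ∣ Nat.card G := by rwa [mul_comm]
    rw [mul_comm n]
    exact (Nat.div_mul_cancel hdvd').symm
  · intro hall
    by_contra hne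
    obtain ⟨χ, hχ⟩ := Cfsg.Agent.Helper2.CharKer.exists_prime_cod_of_not_perfect hne
    exact hall χ hχ


end Cfsg.Agent.S4797
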