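import Mathlib
import Cfsg.Agent.Helper2.CharKer
import Cfsg.Agent.Lead.CharOdd
import Cfsg.Agent.Lead.CharCore5
import Cfsg.Statements.S4801

set_option autoImplicit false
open Cfsg

namespace Cfsg.Agent.S4801

/-- The codegree of an irreducible complex character χ of a finite group G is [G : ker χ] / χ(1), where ker χ is the set of elements at which χ takes the value χ(1). Let S be a finite simple group and G a finite group such that every codegree of an irreducible character of S is a codegree of an irreducible character of G. Then the order of S divides the order of G. -/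
theorem result {S : Type*} [Group S] [Finite S] (hS : IsSimpleGroup S) {G : Type*} [Group G] [Finite G] (hsub : ∀ χ : Cfsg.IrrCharacter S, ∃ ψ : Cfsg.IrrCharacter G, (Nat.card S / (Nat.card {g : S // (χ : S → ℂ) g = (χ : S → ℂ) 1} * Cfsg.charDegree (χ : S → ℂ))) = (Nat.card G / (Nat.card {g : G // (ψ : G → ℂ) g = (ψ : G → ℂ) 1} * Cfsg.charDegree (ψ : G → ℂ)))) : Nat.card S ∣ Nat.card G := by
  classical
  haveI : Finite (Cfsg.IrrCharacter S) := Cfsg.Agent.Lead.finite_irrCharacter S
  haveI : Fintype (Cfsg.IrrCharacter S) := Fintype.ofFinite _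
  haveI : Fintype S := Fintype.ofFinite S
  have hSpos : Nat.card S ≠ 0 := Nat.card_pos.ne'
  have hGpos : Nat.card G ≠ 0 := Nat.card_pos.ne'
  rw [← Nat.factorization_le_iff_dvd hSpos hGpos, Finsupp.le_def]
  intro p
  by_cases hp : p.Prime
  swap
  · rw [Nat.factorization_eq_zero_of_not_prime _ hp]; exact Nat.zero_le _
  by_cases hpS : p ∣ Nat.card S
  swap
  · rw [Nat.factorization_eq_zero_of_not_dvd hpS]; exact Nat.zero_le _
  have hsum := Cfsg.Agent.Helper2.CharKer.sum_degree_sq (G := S)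
  let χ₀ : Cfsg.IrrCharacter S := ⟨fun _ => 1, Cfsg.Agent.Lead.isIrrCharacter_one⟩
  have hχ₀ : Cfsg.charDegree (χ₀ : S → ℂ) = 1 := by simp [χ₀, Cfsg.charDegree]
  obtain ⟨χ, hχne, hχp⟩ : ∃ χ : Cfsg.IrrCharacter S, χ ≠ χ₀ ∧
      ¬ p ∣ Cfsg.charDegree (χ : S → ℂ) := by
    by_contra hcon
    push_neg at hcon
    rw [← Finset.add_sum_erase Finset.univ _ (Finset.mem_univ χ₀), hχ₀] at hsum
    have h1 : p ∣ ∑ χ ∈ Finset.univ.erase χ₀, Cfsg.charDegree (χ : S → ℂ) ^ 2 := by
      apply Finset.dvd_sum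
      intro χ hχ
      exact dvd_pow (hcon χ (Finset.ne_of_mem_erase hχ)) two_ne_zero
    have h3 : p ∣ 1 ^ 2 + ∑ χ ∈ Finset.univ.erase χ₀, Cfsg.charDegree (χ : S → ℂ) ^ 2 := by
      rw [hsum]; exact hpS
    have h2 : p ∣ 1 ^ 2 := (Nat.dvd_add_left h1).mp h3
    rw [one_pow] at h2
    exact hp.one_lt.ne' (Nat.dvd_one.mp h2)
  obtain ⟨K, hKn, hKmem, hKcard, hdpos, hd1, hddvd⟩ := Cfsg.Agent.Helper2.CharKer.exists_ker χ
  have hKbot : K = ⊥ := by
    rcases hKn.eq_bot_or_eq_top with h | h
    · exact h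
    · exfalso
      apply hχne
      have hconst : ∀ g : S, (χ : S → ℂ) g = (Cfsg.charDegree (χ : S → ℂ) : ℂ) := by
        intro g
        rw [← hd1]
        exact (hKmem g).mp (by rw [h]; exact Subgroup.mem_top g)
      have hself := Cfsg.Agent.Lead.classInner_self_of_isIrrCharacter χ.2
      unfold Cfsg.classInner at hself
      have hSc : (Nat.card S : ℂ) ≠ 0 := by exact_mod_cast hSpos
      simp only [hconst, Complex.conj_natCast, Finset.sum_const, Finset.card_univ,
        nsmul_eq_mul, ← Nat.card_eq_fintype_card] at hself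
      have hdd : ((Cfsg.charDegree (χ : S → ℂ) * Cfsg.charDegree (χ : S → ℂ) : ℕ) : ℂ) = 1 := by
        push_cast
        field_simp at hself
        linear_combination hself
      have hdd' : Cfsg.charDegree (χ : S → ℂ) * Cfsg.charDegree (χ : S → ℂ) = 1 := by
        exact_mod_cast hdd
      have hd : Cfsg.charDegree (χ : S → ℂ) = 1 := Nat.eq_one_of_mul_eq_one_left hdd'
      apply Subtype.ext
      funext g
      show (χ : S → ℂ) g = 1
      rw [hconst g, hd]; simp
  have hK1 : Nat.card K = 1 := by rw [hKbot]; exact Subgroup.card_bot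
  obtain ⟨ψ, hψ⟩ := hsub χ
  rw [hKcard, hK1, one_mul] at hψ
  obtain ⟨L, hLn, hLmem, hLcard, hepos, he1, hedvd⟩ := Cfsg.Agent.Helper2.CharKer.exists_ker ψ
  rw [hLcard] at hψ
  have hdS : Cfsg.charDegree (χ : S → ℂ) ∣ Nat.card S := by
    rw [hK1, mul_one] at hddvd
    exact hddvd
  have h1 : (Nat.card S / Cfsg.charDegree (χ : S → ℂ)).factorization p
      = (Nat.card S).factorization p := by
    rw [Nat.factorization_div hdS]
    simp [Nat.factorization_eq_zero_of_not_dvd hχp]
  have hedvd' : Nat.card L * Cfsg.charDegree (ψ : G → ℂ) ∣ Nat.card G := by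
    rwa [mul_comm]
  have h2 : (Nat.card G / (Nat.card L * Cfsg.charDegree (ψ : G → ℂ))) ∣ Nat.card G :=
    Nat.div_dvd_of_dvd hedvd'
  have h3 : (Nat.card G / (Nat.card L * Cfsg.charDegree (ψ : G → ℂ))) ≠ 0 := by
    have hpos : 0 < Nat.card L * Cfsg.charDegree (ψ : G → ℂ) :=
      Nat.mul_pos Nat.card_pos hepos
    exact (Nat.div_pos (Nat.le_of_dvd Nat.card_pos hedvd') hpos).ne'
  calc (Nat.card S).factorization p
      = (Nat.card S / Cfsg.charDegree (χ : S → ℂ)).factorization p := h1.symm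
    _ = (Nat.card G / (Nat.card L * Cfsg.charDegree (ψ : G → ℂ))).factorization p := by rw [hψ]
    _ ≤ (Nat.card G).factorization p := (Nat.factorization_le_iff_dvd h3 hGpos).mpr h2 p


end Cfsg.Agent.S4801
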