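import Mathlib
import Cfsg.Agent.Helper2.CharN3
import Cfsg.Agent.Lead.CharCore4
import Cfsg.Statements.S4802

set_option autoImplicit false
open Cfsg

namespace Cfsg.Agent.S4802

/-- Let N < M be normal subgroups of the finite group G and g ∈ M ∖ N. Then the conjugacy class of g is exactly M ∖ N if and only if every irreducible complex character of G whose kernel contains N takes the same value at all elements of M ∖ N, and every irreducible complex character of G whose kernel does not contain N vanishes at g. -/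
theorem result {G : Type*} [Group G] [Finite G] (N M : Subgroup G) [N.Normal] [M.Normal] (hNM : N < M) (g : G) (hgM : g ∈ M) (hgN : g ∉ N) : {h : G | IsConj g h} = (M : Set G) \ (N : Set G) ↔ ((∀ χ : Cfsg.IrrCharacter G, (∀ x ∈ N, (χ : G → ℂ) x = (χ : G → ℂ) 1) → ∀ x ∈ M, x ∉ N → ∀ y ∈ M, y ∉ N → (χ : G → ℂ) x = (χ : G → ℂ) y) ∧ (∀ χ : Cfsg.IrrCharacter G, (∃ x ∈ N, (χ : G → ℂ) x ≠ (χ : G → ℂ) 1) → (χ : G → ℂ) g = 0)) := by
  classical
  haveI : Fintype G := Fintype.ofFinite G
  have hcf : ∀ χ : Cfsg.IrrCharacter G, Cfsg.IsClassFunction G (χ : G → ℂ) := fun χ =>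
    Cfsg.Agent.Lead.isCharacter_isClassFunction (Cfsg.Agent.Lead.isCharacter_of_isIrrCharacter χ.2)
  constructor
  · intro hcls
    have hmem : ∀ x : G, x ∈ M → x ∉ N → IsConj g x := by
      intro x hxM hxN
      have : x ∈ (M : Set G) \ (N : Set G) := ⟨hxM, hxN⟩
      rw [← hcls] at this
      exact this
    refine ⟨?_, ?_⟩
    · intro χ _ x hxM hxN y hyM hyN
      rw [← Cfsg.Agent.Lead.isClassFunction_apply_of_isConj (hcf χ) (hmem x hxM hxN),
        ← Cfsg.Agent.Lead.isClassFunction_apply_of_isConj (hcf χ) (hmem y hyM hyN)]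
    · rintro χ ⟨x, hxN, hx1⟩
      have hs := Cfsg.Agent.Helper2.CharN.sum_coset_irr N χ.2
      have hconst : ∀ n : N, (χ : G → ℂ) ((n : G) * g) = (χ : G → ℂ) g := by
        intro n
        have h1 : (n : G) * g ∈ M := M.mul_mem (hNM.le n.2) hgM
        have h2 : (n : G) * g ∉ N := by
          intro h3
          exact hgN ((Subgroup.mul_mem_cancel_left N n.2).mp h3)
        exact (Cfsg.Agent.Lead.isClassFunction_apply_of_isConj (hcf χ) (hmem _ h1 h2)).symm
      by_cases h0 : ∑ n : N, (χ : G → ℂ) n = 0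
      · have h4 := hs.2 h0 g
        rw [Finset.sum_congr rfl (fun n _ => hconst n), Finset.sum_const, Finset.card_univ,
          nsmul_eq_mul] at h4
        rcases mul_eq_zero.mp h4 with h5 | h5
        · exfalso
          have : (Fintype.card N : ℂ) ≠ 0 := by
            exact_mod_cast Fintype.card_ne_zero
          exact this h5
        · exact h5
      · exfalso
        have h4 := hs.1 h0 ⟨x, hxN⟩ 1
        simp only [mul_one] at h4
        exact hx1 h4
  · rintro ⟨hA, hB⟩
    ext z
    simp only [Set.mem_setOf_eq, Set.mem_diff, SetLike.mem_coe]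
    constructor
    · intro hz
      obtain ⟨c, hc⟩ := isConj_iff.mp hz
      rw [← hc]
      refine ⟨?_, ?_⟩
      · exact ‹M.Normal›.conj_mem g hgM c
      · intro h1
        apply hgN
        have := ‹N.Normal›.conj_mem _ h1 c⁻¹
        simpa [mul_assoc] using this
    · rintro ⟨hzM, hzN⟩
      by_contra hc
      have h1 := Cfsg.Agent.Lead.column_orth_of_not_isConj hc
      have h2 := Cfsg.Agent.Lead.column_orth_of_isConj (IsConj.refl g)
      have h3 : ∑ᶠ χ : Cfsg.IrrCharacter G, (χ : G → ℂ) g * (starRingEnd ℂ) ((χ : G → ℂ) z)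
          = ∑ᶠ χ : Cfsg.IrrCharacter G, (χ : G → ℂ) g * (starRingEnd ℂ) ((χ : G → ℂ) g) := by
        apply finsum_congr
        intro χ
        by_cases hχ1 : ∀ x ∈ N, (χ : G → ℂ) x = (χ : G → ℂ) 1
        · rw [hA χ hχ1 z hzM hzN g hgM hgN]
        · push_neg at hχ1
          rw [hB χ hχ1, zero_mul, zero_mul]
      rw [h3, h2] at h1
      have hpos : 0 < Nat.card (Subgroup.centralizer ({g} : Set G)) := Nat.card_pos
      have : (Nat.card (Subgroup.centralizer ({g} : Set G)) : ℂ) ≠ 0 := by
        exact_mod_cast hpos.ne'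
      exact this h1


end Cfsg.Agent.S4802
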