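import Mathlib
import Cfsg.Agent.Helper2.GalAM2
import Cfsg.Agent.Lead.CharCore
import Cfsg.Statements.S4989

set_option autoImplicit false
open Cfsg

namespace Cfsg.Agent.S4989

/-- Let H be a subgroup of the finite group G and χ an irreducible complex character of G. Then the inner product of the restriction of χ to H with itself, (1/#H)·Σ_{h ∈ H} |χ(h)|², is at most 1 + #(Z ∖ H)/#H, where Z is the set of zeros of χ in G. -/
theorem result {G : Type*} [Group G] [Finite G] (H : Subgroup G) (χ : Cfsg.IrrCharacter G) : (Nat.card ↥H : ℝ)⁻¹ * ∑ᶠ h : ↥H, ‖(χ : G → ℂ) h‖ ^ 2 ≤ 1 + (Set.ncard ({x : G | (χ : G → ℂ) x = 0} \ (H : Set G)) : ℝ) / (Nat.card ↥H : ℝ) := by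
  classical
  haveI : Fintype G := Fintype.ofFinite G
  have hirr : Cfsg.IsIrrCharacter G (χ : G → ℂ) := χ.2
  have hchar := Cfsg.Agent.Lead.isCharacter_of_isIrrCharacter hirr
  have h1 := Cfsg.Agent.Helper2.GalAM.nonzero_card_le_sum_compl hchar H
  have h2 := Cfsg.Agent.Helper2.GalAM.sum_norm_sq_irr hirr
  have h3 : ∑ g : G, ‖(χ : G → ℂ) g‖ ^ 2
      = ∑ g ∈ Finset.univ.filter (fun g : G => g ∈ H), ‖(χ : G → ℂ) g‖ ^ 2
        + ∑ g ∈ Finset.univ.filter (fun g : G => g ∉ H), ‖(χ : G → ℂ) g‖ ^ 2 :=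
    (Finset.sum_filter_add_sum_filter_not Finset.univ (fun g : G => g ∈ H) _).symm
  have hfs : ∑ᶠ h : ↥H, ‖(χ : G → ℂ) h‖ ^ 2
      = ∑ g ∈ Finset.univ.filter (fun g : G => g ∈ H), ‖(χ : G → ℂ) g‖ ^ 2 := by
    rw [finsum_eq_sum_of_fintype]
    exact (Finset.sum_subtype (Finset.univ.filter (fun g : G => g ∈ H)) (by simp)
      (fun g => ‖(χ : G → ℂ) g‖ ^ 2)).symm
  have hZ : Set.ncard ({x : G | (χ : G → ℂ) x = 0} \ (H : Set G))
      = ((Finset.univ.filter (fun g : G => g ∉ H)).filter (fun g => ¬ (χ : G → ℂ) g ≠ 0)).card := by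
    rw [← Set.ncard_coe_finset]
    congr 1
    ext g
    simp [and_comm]
  have hHc : Nat.card ↥H = (Finset.univ.filter (fun g : G => g ∈ H)).card := by
    rw [Nat.card_eq_fintype_card, Fintype.card_subtype]
  have hsplit1 : (Finset.univ.filter (fun g : G => g ∈ H)).card
      + (Finset.univ.filter (fun g : G => g ∉ H)).card = Fintype.card G := by
    rw [Finset.card_filter_add_card_filter_not, Finset.card_univ]
  have hsplit2 : ((Finset.univ.filter (fun g : G => g ∉ H)).filter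
        (fun g => (χ : G → ℂ) g ≠ 0)).card
      + ((Finset.univ.filter (fun g : G => g ∉ H)).filter
        (fun g => ¬ (χ : G → ℂ) g ≠ 0)).card
      = (Finset.univ.filter (fun g : G => g ∉ H)).card :=
    Finset.card_filter_add_card_filter_not _
  have hHpos : 0 < Nat.card ↥H := Nat.card_pos
  have hHposR : (0 : ℝ) < (Nat.card ↥H : ℝ) := by exact_mod_cast hHpos
  rw [hfs, hZ, inv_mul_le_iff₀ hHposR, mul_add, mul_one, mul_div_cancel₀ _ hHposR.ne', hHc]
  have e1 : ((Finset.univ.filter (fun g : G => g ∈ H)).card : ℝ)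
      + ((Finset.univ.filter (fun g : G => g ∉ H)).card : ℝ) = (Fintype.card G : ℝ) := by
    exact_mod_cast hsplit1
  have e2 : (((Finset.univ.filter (fun g : G => g ∉ H)).filter
        (fun g => (χ : G → ℂ) g ≠ 0)).card : ℝ)
      + (((Finset.univ.filter (fun g : G => g ∉ H)).filter
        (fun g => ¬ (χ : G → ℂ) g ≠ 0)).card : ℝ)
      = ((Finset.univ.filter (fun g : G => g ∉ H)).card : ℝ) := by
    exact_mod_cast hsplit2
  linarith


end Cfsg.Agent.S4989
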