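import Mathlib
import Cfsg.Agent.Lead.CharCore3
import Cfsg.Statements.S5011

set_option autoImplicit false
open Cfsg

namespace Cfsg.Agent.S5011

/-- Let G be a finite non-abelian simple group and ρ an irreducible complex representation of G on a space of dimension greater than one (irreducible in the sense that the only subspaces invariant under every ρ(x) are 0 and the whole space). Then for every non-identity element g of G, the centralizer of g does not act irreducibly: there is a non-zero proper subspace invariant under ρ(c) for every c commuting with g. -/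
theorem result {G : Type*} [Group G] [Finite G] [IsSimpleGroup G]
    (hG : ¬ IsMulCommutative G) {V : Type*} [AddCommGroup V] [Module ℂ V] [FiniteDimensional ℂ V]
    (ρ : Representation ℂ G V)
    (hirr : ∀ W : Submodule ℂ V, (∀ x : G, ∀ v ∈ W, ρ x v ∈ W) → W = ⊥ ∨ W = ⊤)
    (hdim : 1 < Module.finrank ℂ V) (g : G) (hg : g ≠ 1) :
    ∃ W : Submodule ℂ V, W ≠ ⊥ ∧ W ≠ ⊤ ∧ ∀ c ∈ Subgroup.centralizer ({g} : Set G), ∀ v ∈ W, ρ c v ∈ W := by
  classical
  by_contra hcon
  push_neg at hcon
  have hpos : 0 < Module.finrank ℂ V := by omega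
  haveI : Nontrivial V := Module.nontrivial_of_finrank_pos hpos
  let C : Subgroup G := Subgroup.centralizer ({g} : Set G)
  let ρC : Representation ℂ C V := MonoidHom.comp ρ C.subtype
  have hiC : ρC.IsIrreducible := by
    rw [Cfsg.Agent.Lead.isIrreducible_iff]
    refine ⟨inferInstance, fun W hW => ?_⟩
    by_contra hne
    push_neg at hne
    obtain ⟨c, hc, v, hv, hnot⟩ := hcon W hne.1 hne.2
    exact hnot (hW ⟨c, hc⟩ v hv)
  have hcomm : ∀ c : C, ρ g ∘ₗ ρC c = ρC c ∘ₗ ρ g := by
    intro c
    show ρ g * ρ (c : G) = ρ (c : G) * ρ g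
    rw [← map_mul, ← map_mul]
    congr 1
    exact Subgroup.mem_centralizer_iff.mp c.2 g (Set.mem_singleton g)
  obtain ⟨s, hs⟩ := Cfsg.Agent.Lead.schur_scalar ρC hiC (ρ g) hcomm
  have hs' : ρ g = s • (1 : Module.End ℂ V) := hs
  have hker : ∀ x : G, g * x * g⁻¹ * x⁻¹ ∈ MonoidHom.ker ρ := by
    intro x
    have h1 : ρ (g * x) = ρ (x * g) := by
      rw [map_mul, map_mul, hs', smul_mul_assoc, mul_smul_comm, one_mul, mul_one]
    have h2 : g * x * g⁻¹ * x⁻¹ = (g * x) * (g⁻¹ * x⁻¹) := by group
    have h3 : x * g * (g⁻¹ * x⁻¹) = 1 := by group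
    rw [MonoidHom.mem_ker, h2, map_mul, h1, ← map_mul, h3, map_one]
  rcases (MonoidHom.normal_ker ρ).eq_bot_or_eq_top with hbot | htop
  · have hgc : g ∈ Subgroup.center G := by
      rw [Subgroup.mem_center_iff]
      intro x
      have h1 := hker x
      rw [hbot, Subgroup.mem_bot] at h1
      have h2 : g * x = (g * x * g⁻¹ * x⁻¹) * (x * g) := by group
      rw [h2, h1, one_mul]
    rcases (inferInstance : (Subgroup.center G).Normal).eq_bot_or_eq_top with hb | ht
    · rw [hb, Subgroup.mem_bot] at hgc
      exact hg hgc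
    · apply hG
      refine ⟨⟨fun a b => ?_⟩⟩
      have ha : a ∈ Subgroup.center G := by
        rw [ht]
        trivial
      exact (Subgroup.mem_center_iff.mp ha b).symm
  · obtain ⟨v, hv⟩ := exists_ne (0 : V)
    have hW : ∀ x : G, ∀ w ∈ Submodule.span ℂ {v}, ρ x w ∈ Submodule.span ℂ {v} := by
      intro x w hw
      have hx : ρ x = 1 := by
        have h1 : x ∈ MonoidHom.ker ρ := by
          rw [htop]
          trivial
        exact MonoidHom.mem_ker.mp h1
      rw [hx]
      exact hw
    rcases hirr (Submodule.span ℂ {v}) hW with h0 | h1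
    · exact hv ((Submodule.span_singleton_eq_bot).mp h0)
    · have h2 := finrank_span_singleton (K := ℂ) hv
      rw [h1, finrank_top] at h2
      omega


end Cfsg.Agent.S5011
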