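import Cfsg.Statements.S5290
import Mathlib
import Cfsg.Agent.Helper9.FusionInner

set_option autoImplicit false
open Cfsg

namespace Cfsg.Agent.S5290

/-- Let F be a saturated fusion system over a finite p-group S and Q a subgroup of S. Then Q is normal in F (F = N_F(Q)) if and only if the inner fusion system of Q, consisting of the conjugations by elements of Q on subgroups of Q, is a weakly normal subsystem of F (both saturated, Q strongly closed, invariant under F-conjugation, with the Frattini property). -/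
theorem result {Ω : Type*} [Group Ω] {S : Subgroup Ω} [Finite S] (p : ℕ) [Fact p.Prime] (hS : IsPGroup p S)
    (F : Cfsg.FusionSystem S) (hF : F.IsSaturated p)
    (Q : Subgroup Ω) (hQ : Q ≤ S) :
    F.IsNormal Q ↔ (Cfsg.innerFusionSystem Q).IsWeaklyNormalIn F p := by
  have hfinQ : Finite Q := Cfsg.Agent.Helper8.finite_of_le_finite hQ
  constructor
  · intro hN
    refine ⟨Cfsg.Agent.Helper9.inner_saturated p (hS.to_le hQ), hF, ?_,
      Cfsg.Agent.Helper8.stronglyClosed_of_normal F hN, ?_, ?_⟩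
    · intro P φ hφ
      obtain ⟨hP, g, hg, h⟩ := hφ
      have h1 : φ = Cfsg.conjHom P g := by
        ext x
        exact h x
      rw [h1]
      exact F.conj_mem (hP.trans hQ) (hQ hg)
    · intro P hPT φ hφ α hα
      obtain ⟨hP, g, hg, h⟩ := hφ
      refine ⟨Cfsg.conjHom _ ((α ⟨g, hg⟩ : Q) : Ω),
        ⟨?_, ((α ⟨g, hg⟩ : Q) : Ω), (α ⟨g, hg⟩).2, fun y => rfl⟩, ?_⟩
      · rintro _ ⟨y, _, rfl⟩
        exact (α y).2
      · intro x hφx hαx
        show ((α ⟨g, hg⟩ : Q) : Ω) * ((α ⟨x, hPT x.2⟩ : Q) : Ω) * ((α ⟨g, hg⟩ : Q) : Ω)⁻¹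
          = ((α ⟨φ x, hφx⟩ : Q) : Ω)
        have h2 : (⟨φ x, hφx⟩ : Q) = ⟨g, hg⟩ * ⟨x, hPT x.2⟩ * (⟨g, hg⟩ : Q)⁻¹ :=
          Subtype.ext (h x)
        rw [h2, map_mul, map_mul, map_inv]
        rfl
    · intro P hPT φ hφ
      obtain ⟨α, hα, hαφ⟩ := Cfsg.Agent.Helper8.autGroup_controls_of_normal F hN P hPT φ hφ
      refine ⟨α, hα, P.subtype, Cfsg.Agent.Helper8.subtype_mem _ hPT, ?_⟩
      intro x hx
      rw [← hαφ x]
      rfl
  · rintro ⟨-, -, hsub, hsc, hinv, hfr⟩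
    apply Cfsg.Agent.Helper8.normal_of_autGroup_controls p hS F hF Q hQ
    intro P hPR φ hφ
    obtain ⟨α, hα, φ₀, ⟨-, g, hg, hφ₀⟩, h⟩ := hfr P hPR φ hφ
    have hcg : MulAut.conj (⟨g, hg⟩ : Q) ∈ F.autGroup Q := by
      rw [Cfsg.Agent.Helper8.mem_autGroup_iff F hQ]
      have h1 : Q.subtype.comp (MulAut.conj (⟨g, hg⟩ : Q)).toMonoidHom = Cfsg.conjHom Q g := by
        ext x
        rfl
      show Q.subtype.comp (MulAut.conj (⟨g, hg⟩ : Q)).toMonoidHom ∈ F.Hom Q
      rw [h1]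
      exact F.conj_mem hQ (hQ hg)
    refine ⟨α * MulAut.conj (⟨g, hg⟩ : Q), Subgroup.mul_mem _ hα hcg, ?_⟩
    intro x
    have hx : φ₀ x ∈ Q := by
      rw [hφ₀ x]
      exact Q.mul_mem (Q.mul_mem hg (hPR x.2)) (Q.inv_mem hg)
    rw [h x hx]
    show ((α (MulAut.conj (⟨g, hg⟩ : Q) (Subgroup.inclusion hPR x)) : Q) : Ω) = _
    congr 2
    apply Subtype.ext
    exact (hφ₀ x).symm


end Cfsg.Agent.S5290
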