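import Cfsg.Statements.S5291
import Mathlib
import Cfsg.Agent.Helper8.FusionChain
open Cfsg.Agent.Helper8

set_option autoImplicit false
open Cfsg

namespace Cfsg.Agent.S5291

/-- Let F be a saturated fusion system over a finite p-group S and E a weakly normal subsystem of F over a subgroup T. Suppose a subgroup R of T is normal in E (E = N_E(R)), and let R* be the subgroup of T generated by the images of R under all maps of F with source R. Then R* is normal in F (F = N_F(R*)). -/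
theorem result {Ω : Type*} [Group Ω] {S : Subgroup Ω} [Finite S] (p : ℕ) [Fact p.Prime] (hS : IsPGroup p S)
    (F : Cfsg.FusionSystem S) (hF : F.IsSaturated p)
    {T : Subgroup Ω} (E : Cfsg.FusionSystem T) (hE : E.IsWeaklyNormalIn F p)
    (R : Subgroup Ω) (hR : E.IsNormal R) :
    F.IsNormal (Subgroup.closure {x : Ω | ∃ φ ∈ F.Hom R, ∃ r : R, x = φ r}) := by
  obtain ⟨hEs, -, hsub, hTsc, hinv, hfrat⟩ := hE
  have hTS : T ≤ S := hTsc.1
  have hfinT : Finite T := finite_of_le_finite hTS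
  have hTp : IsPGroup p T := hS.to_le hTS
  have hRT : R ≤ T := hR.1
  have hRsc : E.StronglyClosed R := stronglyClosed_of_normal E hR
  have hA : ∀ α ∈ F.autGroup T,
      E.IsNormal ((R.subgroupOf T).map (T.subtype.comp α.toMonoidHom)) := by
    intro α hα
    have hαR_le : (R.subgroupOf T).map (T.subtype.comp α.toMonoidHom) ≤ T := by
      rintro _ ⟨y, -, rfl⟩
      exact (α y).2
    apply normal_of_autGroup_controls p hTp E hEs _ hαR_le
    intro P hPR φ hφ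
    have hPT : P ≤ T := hPR.trans hαR_le
    have hαinv : α⁻¹ ∈ F.autGroup T := Subgroup.inv_mem _ hα
    obtain ⟨χ, hχ, hχx⟩ := hinv P hPT φ hφ α⁻¹ hαinv
    have hP₁R : (P.subgroupOf T).map (T.subtype.comp (α⁻¹).toMonoidHom) ≤ R := by
      rintro _ ⟨y, hy, rfl⟩
      obtain ⟨r, hr, hry⟩ := hPR hy
      have e : y = α r := Subtype.ext hry.symm
      rw [e]
      show ((α⁻¹ (α r) : T) : Ω) ∈ R
      rw [MulAut.inv_apply_self]
      exact hr
    obtain ⟨γ, hγ, hγx⟩ := autGroup_controls_of_normal E hR _ hP₁R χ hχ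
    have hγE : R.subtype.comp γ.toMonoidHom ∈ E.Hom R := (mem_autGroup_iff E hRT γ).mp hγ
    obtain ⟨χ', hχ', hχ'x⟩ := hinv R hRT _ hγE α hα
    have key : ∀ (y : ↥((R.subgroupOf T).map (T.subtype.comp α.toMonoidHom))) (r : R),
        (y : Ω) = ((α ⟨r, hRT r.2⟩ : T) : Ω) →
        χ' y = ((α ⟨(γ r : R), hRT (γ r).2⟩ : T) : Ω) := by
      rintro ⟨y, hy⟩ r hyr
      subst hyr
      exact hχ'x r (hRT (γ r).2) hy
    have hr : χ'.range = (R.subgroupOf T).map (T.subtype.comp α.toMonoidHom) := by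
      ext y
      constructor
      · rintro ⟨y', rfl⟩
        obtain ⟨r, hr, hry⟩ := y'.2
        rw [key y' ⟨r, hr⟩ hry.symm]
        exact ⟨⟨(γ ⟨r, hr⟩ : R), hRT (γ ⟨r, hr⟩).2⟩, (γ ⟨r, hr⟩).2, rfl⟩
      · rintro ⟨r, hr, rfl⟩
        refine ⟨⟨((α ⟨((γ.symm ⟨r, hr⟩ : R) : Ω), hRT (γ.symm ⟨r, hr⟩).2⟩ : T) : Ω),
          ⟨⟨_, hRT (γ.symm ⟨r, hr⟩).2⟩, (γ.symm ⟨r, hr⟩).2, rfl⟩⟩, ?_⟩
        rw [key _ (γ.symm ⟨r, hr⟩) rfl]
        have e : (⟨((γ (γ.symm ⟨r, hr⟩) : R) : Ω), hRT (γ (γ.symm ⟨r, hr⟩)).2⟩ : T) = r :=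
          Subtype.ext (by rw [MulEquiv.apply_symm_apply])
        rw [e]
        rfl
    refine ⟨equivOfRange χ' (E.injective_of_mem hχ') hr,
      (mem_autGroup_iff E hαR_le _).mpr (isIso_equivOfRange E hχ' hr), fun x => ?_⟩
    show χ' (Subgroup.inclusion hPR x) = φ x
    have hφxT : φ x ∈ T := (E.le_of_mem hφ).2 x
    have hαx : ((α⁻¹ ⟨(x : Ω), hPT x.2⟩ : T) : Ω) ∈
        (P.subgroupOf T).map (T.subtype.comp (α⁻¹).toMonoidHom) := ⟨⟨x, hPT x.2⟩, x.2, rfl⟩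
    have e1 := hχx x hφxT hαx
    have e2 := hγx ⟨_, hαx⟩
    have e3 : (x : Ω) = ((α ⟨((Subgroup.inclusion hP₁R ⟨_, hαx⟩ : R) : Ω),
        hRT (Subgroup.inclusion hP₁R ⟨_, hαx⟩).2⟩ : T) : Ω) := by
      show (x : Ω) = ((α (α⁻¹ ⟨(x : Ω), hPT x.2⟩) : T) : Ω)
      rw [MulAut.apply_inv_self]
    rw [key (Subgroup.inclusion hPR x) (Subgroup.inclusion hP₁R ⟨_, hαx⟩) e3]
    have e5 : (⟨((γ (Subgroup.inclusion hP₁R ⟨_, hαx⟩) : R) : Ω),
        hRT (γ (Subgroup.inclusion hP₁R ⟨_, hαx⟩)).2⟩ : T) = α⁻¹ ⟨φ x, hφxT⟩ :=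
      Subtype.ext (e2.trans e1)
    rw [e5, MulAut.apply_inv_self]
  obtain ⟨Rs, hRsdef⟩ : ∃ Rs, Rs = Subgroup.closure {x : Ω | ∃ φ ∈ F.Hom R, ∃ r : R, x = φ r} :=
    ⟨_, rfl⟩
  rw [← hRsdef]
  have hgen : ∀ φ ∈ F.Hom R, ∀ r : R, φ r ∈ Rs := by
    intro φ hφ r
    rw [hRsdef]
    exact Subgroup.subset_closure ⟨φ, hφ, r, rfl⟩
  have hle' : ∀ X : Subgroup Ω, (∀ φ ∈ F.Hom R, ∀ r : R, φ r ∈ X) → Rs ≤ X := by
    intro X hX
    rw [hRsdef, Subgroup.closure_le]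
    rintro _ ⟨φ, hφ, r, rfl⟩
    exact hX φ hφ r
  have hRsT : Rs ≤ T := hle' T (fun φ hφ r => hTsc.2 R hRT φ hφ r)
  have hαR_le_Rs : ∀ α ∈ F.autGroup T,
      (R.subgroupOf T).map (T.subtype.comp α.toMonoidHom) ≤ Rs := by
    intro α hα
    rintro _ ⟨r, hr, rfl⟩
    have hαF : T.subtype.comp α.toMonoidHom ∈ F.Hom T := (mem_autGroup_iff F hTS α).mp hα
    exact hgen _ (restrict_mem F hαF hRT) ⟨(r : Ω), hr⟩
  have hRsE : E.IsNormal Rs := by
    have hmem := sSup_mem_of_sup_closed (S := T) {N : Subgroup Ω | E.IsNormal N ∧ N ≤ Rs}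
      ⟨⊥, isNormal_bot E, bot_le⟩ (fun Q hQ => hQ.1.1)
      (fun A hA B hB => ⟨isNormal_sup E hA.1 hB.1, sup_le hA.2 hB.2⟩)
    have hle : Rs ≤ sSup {N : Subgroup Ω | E.IsNormal N ∧ N ≤ Rs} := by
      apply hle'
      intro φ hφ r
      obtain ⟨α, hα, φ₀, hφ₀, h⟩ := hfrat R hRT φ hφ
      have hφ₀r : φ₀ r ∈ R := hRsc.2 R le_rfl φ₀ hφ₀ r
      rw [h r (hRT hφ₀r)]
      have hmemN : (R.subgroupOf T).map (T.subtype.comp α.toMonoidHom) ∈
          {N : Subgroup Ω | E.IsNormal N ∧ N ≤ Rs} := ⟨hA α hα, hαR_le_Rs α hα⟩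
      exact (le_sSup hmemN) ⟨⟨φ₀ r, hRT hφ₀r⟩, hφ₀r, rfl⟩
    have heq : sSup {N : Subgroup Ω | E.IsNormal N ∧ N ≤ Rs} = Rs :=
      le_antisymm (sSup_le (fun N hN => hN.2)) hle
    have h1 := hmem.1
    rw [heq] at h1
    exact h1
  have hinvRs : ∀ α ∈ F.autGroup T, ∀ x : T, (x : Ω) ∈ Rs → ((α x : T) : Ω) ∈ Rs := by
    intro α hα
    have hαF : T.subtype.comp α.toMonoidHom ∈ F.Hom T := (mem_autGroup_iff F hTS α).mp hα
    have h1 : Rs ≤ ((Rs.subgroupOf T).comap α.toMonoidHom).map T.subtype := by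
      apply hle'
      intro φ hφ r
      have hφrT : φ r ∈ T := hTsc.2 R hRT φ hφ r
      refine ⟨⟨φ r, hφrT⟩, ?_, rfl⟩
      show ((α ⟨φ r, hφrT⟩ : T) : Ω) ∈ Rs
      exact hgen _ (F.comp_mem hφ hαF (fun x => hTsc.2 R hRT φ hφ x)) r
    intro x hx
    obtain ⟨y, hy, hyx⟩ := h1 hx
    have e : y = x := Subtype.ext hyx
    rw [← e]
    exact hy
  have hfinRs : Finite Rs := finite_of_le_finite (hRsT.trans hTS)
  haveI : Group.IsNilpotent Rs := (hS.to_le (hRsT.trans hTS)).isNilpotent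
  obtain ⟨n, hn⟩ := Group.IsNilpotent.nilpotent Rs
  apply normal_of_chain p hS F hF Rs n (fun i => (Subgroup.upperCentralSeries Rs i).map Rs.subtype)
  · show (Subgroup.upperCentralSeries Rs 0).map Rs.subtype = ⊥
    simp
  · show (Subgroup.upperCentralSeries Rs n).map Rs.subtype = Rs
    rw [hn, ← MonoidHom.range_eq_map, Subgroup.range_subtype]
  · intro i
    refine ⟨?_, ucs_comm_le Rs i⟩
    have hXle : (Subgroup.upperCentralSeries Rs (i.succ : Fin (n + 1))).map Rs.subtype ≤ Rs :=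
      Subgroup.map_subtype_le _
    have hXE : E.IsNormal
        ((Subgroup.upperCentralSeries Rs (i.succ : Fin (n + 1))).map Rs.subtype) := by
      apply Cfsg.Agent.S5085.result E Rs _ hRsE hXle
      have h1 : ((Subgroup.upperCentralSeries Rs (i.succ : Fin (n + 1))).map
          Rs.subtype).subgroupOf Rs = Subgroup.upperCentralSeries Rs (i.succ : Fin (n + 1)) :=
        Subgroup.comap_map_eq_self_of_injective Rs.subtype_injective _
      rw [h1]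
      infer_instance
    have hXsc := stronglyClosed_of_normal E hXE
    refine ⟨hXle.trans (hRsT.trans hTS), ?_⟩
    intro P hP φ hφ x
    have hPT : P ≤ T := hP.trans (hXle.trans hRsT)
    obtain ⟨α, hα, φ₀, hφ₀, h⟩ := hfrat P hPT φ hφ
    have hφ₀x := hXsc.2 P hP φ₀ hφ₀ x
    have hφ₀T : φ₀ x ∈ T := (E.le_of_mem hφ₀).2 x
    rw [h x hφ₀T]
    have hαF : T.subtype.comp α.toMonoidHom ∈ F.Hom T := (mem_autGroup_iff F hTS α).mp hα
    have hmapRs : (Rs.subgroupOf T).map (T.subtype.comp α.toMonoidHom) = Rs := by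
      apply le_antisymm
      · rintro _ ⟨y, hy, rfl⟩
        exact hinvRs α hα y hy
      · intro y hy
        refine ⟨α⁻¹ ⟨y, hRsT hy⟩, hinvRs α⁻¹ (Subgroup.inv_mem _ hα) ⟨y, hRsT hy⟩ hy, ?_⟩
        show ((α (α⁻¹ ⟨y, hRsT hy⟩) : T) : Ω) = y
        rw [MulAut.apply_inv_self]
    obtain ⟨z, hz, hzx⟩ := hφ₀x
    have hchar : (Subgroup.upperCentralSeries Rs (i.succ : Fin (n + 1))).map
        (autOfMapEq hRsT _ (F.injective_of_mem hαF) hmapRs).toMonoidHom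
        = Subgroup.upperCentralSeries Rs (i.succ : Fin (n + 1)) :=
      Subgroup.characteristic_iff_map_eq.mp inferInstance _
    refine ⟨autOfMapEq hRsT _ (F.injective_of_mem hαF) hmapRs z, ?_, ?_⟩
    · rw [← hchar]
      exact ⟨z, hz, rfl⟩
    · have e : Subgroup.inclusion hRsT z = ⟨φ₀ x, hφ₀T⟩ := Subtype.ext hzx
      show ((α (Subgroup.inclusion hRsT z) : T) : Ω) = ((α ⟨φ₀ x, hφ₀T⟩ : T) : Ω)
      rw [e]


end Cfsg.Agent.S5291
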