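import Cfsg.Statements.S5294
import Mathlib
import Cfsg.Agent.Helper9.FixedTrace
import Cfsg.Agent.Helper8.FusionChain
open Cfsg.Agent.Helper8
open scoped IsMulCommutative

set_option autoImplicit false
universe u
open Cfsg

namespace Cfsg.Agent.S5294

/-- Let F be a saturated fusion system over a finite p-group S whose centre Z(S) lies in the largest subgroup O_p(F) normal in F. Then the centre Z(F) of F is a direct factor of Z(S): there is a subgroup K of Z(S) with Z(F) ∩ K = 1 and Z(F)K = Z(S). -/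
theorem result {Ω : Type u} [Group Ω] {S : Subgroup Ω} [Finite S] (p : ℕ) [Fact p.Prime] (hS : IsPGroup p S)
    (F : Cfsg.FusionSystem S) (hF : F.IsSaturated p) (hZ : (S ⊓ Subgroup.centralizer (S : Set Ω)) ≤ F.core) :
    ∃ K : Subgroup Ω, K ≤ (S ⊓ Subgroup.centralizer (S : Set Ω)) ∧ F.center ⊓ K = ⊥ ∧ F.center ⊔ K = (S ⊓ Subgroup.centralizer (S : Set Ω)) := by
  classical
  have hQn : F.IsNormal F.core := isNormal_core F
  obtain ⟨Q, hQdef⟩ : ∃ Q, Q = F.core := ⟨_, rfl⟩
  rw [← hQdef] at hZ hQn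
  have hQS : Q ≤ S := hQn.1
  have hfinQ : Finite Q := finite_of_le_finite hQS
  have hfinA : Finite (MulAut Q) := MulEquiv.finite_left
  have hQsc := stronglyClosed_of_normal F hQn
  have hSN : S ≤ Subgroup.normalizer (Q : Set Ω) := stronglyClosed_le_normalizer F hQsc
  have hQfn : F.IsFullyNormalized Q := by
    refine ⟨hQS, fun Q' hQ' => ?_⟩
    obtain ⟨φ, hφ, hr⟩ := hQ'
    have hle : Q' ≤ Q := by
      rw [← hr]
      rintro _ ⟨x, rfl⟩
      exact hQsc.2 Q le_rfl φ hφ x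
    have hcard : Nat.card Q = Nat.card Q' := isConj_card_eq F ⟨φ, hφ, hr⟩
    have e : Q' = Q := Subgroup.eq_of_le_of_card_ge hle (le_of_eq hcard)
    rw [e]
  obtain ⟨-, R, hR⟩ := (fullyNormalized_props p hS F hF hQfn).2
  have hTidx : (((autInducedBy S Q).subgroupOf (F.autGroup Q)).index).Coprime p := by
    have h1 := R.not_dvd_index
    rw [hR] at h1
    exact ((Nat.Prime.coprime_iff_not_dvd Fact.out).mpr h1).symm
  obtain ⟨cH, hcH⟩ : ∃ cH : MulAut Q →* MulAut (Subgroup.center Q),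
      ∀ (α : MulAut Q) (v : Subgroup.center Q), ((cH α v : Subgroup.center Q) : Q) = α v :=
    ⟨{ toFun := fun α => Subgroup.centerCongr α
       map_one' := by ext v; rfl
       map_mul' := by intro a b; ext v; rfl }, fun α v => rfl⟩
  have hVp : IsPGroup p (Subgroup.center Q) := (hS.to_le hQS).to_subgroup _
  obtain ⟨K, hK1, hK2, hK3⟩ := Cfsg.Agent.Helper9.fixed_direct_factor
    (V := Subgroup.center Q) (G := F.autGroup Q) (cH.comp (F.autGroup Q).subtype) ((autInducedBy S Q).subgroupOf (F.autGroup Q)) p hVp hTidx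
  have hcen := isCentral_center F
  have hFa : ∀ x ∈ F.center, x ∈ S ⊓ Subgroup.centralizer (S : Set Ω) := by
    intro x hx
    refine ⟨hcen.1 hx, Subgroup.mem_centralizer_iff.mpr ?_⟩
    intro g hg
    have hzS : Subgroup.zpowers x ≤ S := by
      rw [Subgroup.zpowers_le]
      exact hcen.1 hx
    have h1 := conj_trivial_of_central F hcen x hx (g * x * g⁻¹)
      ⟨conjHom (Subgroup.zpowers x) g, F.conj_mem hzS hg, rfl⟩
    calc g * x = (g * x * g⁻¹) * g := by group
      _ = x * g := by rw [h1]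
  have hFb : ∀ x ∈ F.center, ∀ α ∈ F.autGroup Q, ∀ hx : x ∈ Q, α ⟨x, hx⟩ = ⟨x, hx⟩ := by
    intro x hx α hα hxQ
    have hαF : Q.subtype.comp α.toMonoidHom ∈ F.Hom Q := (mem_autGroup_iff F hQS α).mp hα
    have hz : Subgroup.zpowers x ≤ Q := by
      rw [Subgroup.zpowers_le]
      exact hxQ
    have h1 := conj_trivial_of_central F hcen x hx _ ⟨_, restrict_mem F hαF hz, rfl⟩
    exact Subtype.ext h1
  have hFc : ∀ (x : Ω) (hx : x ∈ Q), (∀ α ∈ F.autGroup Q, α ⟨x, hx⟩ = ⟨x, hx⟩) →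
      x ∈ F.center := by
    intro x hxQ hfix
    have hzS : Subgroup.zpowers x ≤ S := by
      rw [Subgroup.zpowers_le]
      exact hQS hxQ
    have hzQ : Subgroup.zpowers x ≤ Q := by
      rw [Subgroup.zpowers_le]
      exact hxQ
    have hc : F.IsCentral (Subgroup.zpowers x) := by
      apply central_of_conj_trivial p hS F hF _ hzS
      rintro y hy w ⟨φ, hφ, rfl⟩
      obtain ⟨ψ, hψ, hext, hmap⟩ := hQn.2 _ φ hφ
      have hα : autOfMapEq (le_sup_right : Q ≤ Subgroup.zpowers y ⊔ Q) ψ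
          (F.injective_of_mem hψ) hmap ∈ F.autGroup Q := by
        rw [mem_autGroup_iff F hQS]
        exact restrict_mem' F hψ le_sup_right (fun q => rfl)
      have hyQ : y ∈ Q := hzQ hy
      have hfixy : autOfMapEq (le_sup_right : Q ≤ Subgroup.zpowers y ⊔ Q) ψ
          (F.injective_of_mem hψ) hmap ⟨y, hyQ⟩ = ⟨y, hyQ⟩ := by
        obtain ⟨j, hj⟩ := Subgroup.mem_zpowers_iff.mp hy
        have e : (⟨y, hyQ⟩ : Q) = (⟨x, hxQ⟩ : Q) ^ j := Subtype.ext hj.symm
        rw [e, map_zpow, hfix _ hα]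
      have h1 := congrArg Subtype.val hfixy
      rw [← hext ⟨y, Subgroup.mem_zpowers y⟩]
      exact h1
    have hle : Subgroup.zpowers x ≤ F.center := le_sSup hc
    exact hle (Subgroup.mem_zpowers x)
  have hFixT_to : ∀ v : Subgroup.center Q,
      (∀ t ∈ (autInducedBy S Q).subgroupOf (F.autGroup Q),
        (cH.comp (F.autGroup Q).subtype) t v = v) →
      ((v : Q) : Ω) ∈ S ⊓ Subgroup.centralizer (S : Set Ω) := by
    intro v hv
    refine ⟨hQS (v : Q).2, Subgroup.mem_centralizer_iff.mpr ?_⟩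
    intro g hg
    have hgN := hSN hg
    have hmem : conjAut Q g hgN ∈ autInducedBy S Q := conjAut_mem_autInducedBy Q hg hgN
    have hmemA : conjAut Q g hgN ∈ F.autGroup Q := autInducedBy_le_autGroup F hQS hmem
    have h1 := hv ⟨conjAut Q g hgN, hmemA⟩ hmem
    have h2 : ((conjAut Q g hgN (v : Q) : Q) : Ω) = ((v : Q) : Ω) := by
      have h3 := congrArg (fun w : Subgroup.center Q => ((w : Q) : Ω)) h1
      rw [← hcH]
      exact h3
    rw [conjAut_apply] at h2
    calc g * ((v : Q) : Ω) = (g * ((v : Q) : Ω) * g⁻¹) * g := by group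
      _ = ((v : Q) : Ω) * g := by rw [h2]
  have hZ_to : ∀ z ∈ S ⊓ Subgroup.centralizer (S : Set Ω), ∃ v : Subgroup.center Q,
      ((v : Q) : Ω) = z ∧ ∀ t ∈ (autInducedBy S Q).subgroupOf (F.autGroup Q),
        (cH.comp (F.autGroup Q).subtype) t v = v := by
    intro z hz
    have hzQ : z ∈ Q := hZ hz
    have hzc : (⟨z, hzQ⟩ : Q) ∈ Subgroup.center Q := by
      rw [Subgroup.mem_center_iff]
      intro q
      apply Subtype.ext
      exact Subgroup.mem_centralizer_iff.mp hz.2 q (hQS q.2)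
    refine ⟨⟨⟨z, hzQ⟩, hzc⟩, rfl, ?_⟩
    intro t ht
    obtain ⟨g, hg, hgt⟩ := (mem_autInducedBy_iff S Q _).mp ht
    apply Subtype.ext
    show ((cH (t : MulAut Q) ⟨⟨z, hzQ⟩, hzc⟩ : Subgroup.center Q) : Q) = ⟨z, hzQ⟩
    rw [hcH]
    apply Subtype.ext
    refine (hgt ⟨z, hzQ⟩).trans ?_
    have h1 := Subgroup.mem_centralizer_iff.mp hz.2 g hg
    show g * z * g⁻¹ = z
    rw [h1]
    group
  refine ⟨(K.map (Subgroup.center Q).subtype).map Q.subtype, ?_, ?_, ?_⟩
  · rintro _ ⟨_, ⟨k, hk, rfl⟩, rfl⟩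
    exact hFixT_to k (hK1 k hk)
  · rw [eq_bot_iff]
    rintro x ⟨hxc, ⟨_, ⟨k, hk, rfl⟩, rfl⟩⟩
    rw [Subgroup.mem_bot]
    have hk1 : k = 1 := by
      apply hK2 k hk
      intro g
      apply Subtype.ext
      show ((cH (g : MulAut Q) k : Subgroup.center Q) : Q) = (k : Q)
      rw [hcH]
      exact hFb _ hxc g g.2 (k : Q).2
    rw [hk1]
    rfl
  · apply le_antisymm
    · apply sup_le
      · exact fun x hx => hFa x hx
      · rintro _ ⟨_, ⟨k, hk, rfl⟩, rfl⟩
        exact hFixT_to k (hK1 k hk)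
    · intro z hz
      obtain ⟨v, rfl, hv⟩ := hZ_to z hz
      obtain ⟨u, k, hu, hk, rfl⟩ := hK3 v hv
      have huc : (((u : Subgroup.center Q) : Q) : Ω) ∈ F.center := by
        apply hFc _ (u : Q).2
        intro α hα
        have h1 := hu ⟨α, hα⟩
        have h2 := congrArg (fun w : Subgroup.center Q => (w : Q)) h1
        rw [← hcH]
        exact h2
      exact Subgroup.mul_mem_sup huc ⟨_, ⟨k, hk, rfl⟩, rfl⟩


end Cfsg.Agent.S5294
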