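import Cfsg.Statements.S5301
import Mathlib
import Cfsg.Agent.Helper8.FusionNormal

set_option autoImplicit false
universe u
open Cfsg

namespace Cfsg.Agent.S5301

/-- Let F be a saturated fusion system over a finite p-group S. If for every subgroup P of S that is fully normalized, centric and radical in F the automorphism group that F induces on P has a normal Sylow p-subgroup, then S is normal in F. -/
theorem result {Ω : Type u} [Group Ω] {S : Subgroup Ω} [Finite S] (p : ℕ) [Fact p.Prime] (hS : IsPGroup p S)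
    (F : Cfsg.FusionSystem S) (hF : F.IsSaturated p)
    (hcl : ∀ P : Subgroup Ω, F.IsFullyNormalized P → F.IsCentric P → F.IsRadical p P →
      ∃ R : Sylow p ↥(F.autGroup P), (R : Subgroup ↥(F.autGroup P)).Normal) :
    F.IsNormal S := by
  classical
  apply Cfsg.Agent.Helper8.normal_of_autGroup_invariant p hS F hF S
  rintro P (rfl | hess)
  · refine ⟨le_rfl, fun α _ => ?_⟩
    rw [Subgroup.subgroupOf_self]
    exact Subgroup.map_top_of_surjective _ α.surjective
  · exfalso
    obtain ⟨hcen, hfn, hN, E', hE'⟩ := hess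
    have hPS : P ≤ S := hcen.1
    have hfinP : Finite P := Cfsg.Agent.Helper8.finite_of_le_finite hPS
    have hfinA : Finite (MulAut P) := MulEquiv.finite_left
    have h0 : Cfsg.pCore p (↥(F.autGroup P) ⧸ (Cfsg.Inn ↥P).subgroupOf (F.autGroup P)) = ⊥ :=
      Cfsg.Agent.Helper8.pCore_eq_bot_of_stronglyPEmbedded p E' hE'
    -- Inn P ≤ Aut_F(P)
    have hInnA : Cfsg.Inn ↥P ≤ F.autGroup P := by
      rintro _ ⟨g, rfl⟩
      apply Subgroup.subset_closure
      show P.subtype.comp (MulAut.conj g).toMonoidHom ∈ F.Hom P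
      have : P.subtype.comp (MulAut.conj g).toMonoidHom = Cfsg.conjHom P (g : Ω) := by
        ext x
        rfl
      rw [this]
      exact F.conj_mem hPS (hPS g.2)
    -- Inn P is a p-group
    have hPp : IsPGroup p ↥P := hS.to_le hPS
    have hInnp : IsPGroup p (Cfsg.Inn ↥P) :=
      IsPGroup.of_surjective hPp (MulAut.conj : ↥P →* MulAut ↥P).rangeRestrict
        (MonoidHom.rangeRestrict_surjective _)
    have hIp : IsPGroup p ((Cfsg.Inn ↥P).subgroupOf (F.autGroup P)) :=
      hInnp.comap_of_injective (F.autGroup P).subtype (F.autGroup P).subtype_injective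
    have hKn : (Cfsg.pCore p ↥(F.autGroup P)).Normal := Cfsg.Agent.Helper8.pCore_normal p _
    have hKp : IsPGroup p (Cfsg.pCore p ↥(F.autGroup P)) := Cfsg.Agent.Helper8.pCore_isPGroup p _
    -- pCore ≤ I
    have hKI : Cfsg.pCore p ↥(F.autGroup P) ≤ (Cfsg.Inn ↥P).subgroupOf (F.autGroup P) := by
      have h1 : (Cfsg.pCore p ↥(F.autGroup P)).map (QuotientGroup.mk' ((Cfsg.Inn ↥P).subgroupOf (F.autGroup P))) ≤
          Cfsg.pCore p (↥(F.autGroup P) ⧸ (Cfsg.Inn ↥P).subgroupOf (F.autGroup P)) :=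
        Cfsg.Agent.Helper8.le_pCore (hKn.map _ (QuotientGroup.mk'_surjective _)) (hKp.map _)
      rw [h0, le_bot_iff, Subgroup.map_eq_bot_iff, QuotientGroup.ker_mk'] at h1
      exact h1
    have hIK : (Cfsg.Inn ↥P).subgroupOf (F.autGroup P) ≤ Cfsg.pCore p ↥(F.autGroup P) :=
      Cfsg.Agent.Helper8.le_pCore hN hIp
    have hKeq : Cfsg.pCore p ↥(F.autGroup P) = (Cfsg.Inn ↥P).subgroupOf (F.autGroup P) := le_antisymm hKI hIK
    have hrad : F.IsRadical p P := by
      refine ⟨hPS, ?_⟩
      rw [hKeq]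
      exact Subgroup.map_subgroupOf_eq_of_le hInnA
    obtain ⟨R, hRn⟩ := hcl P hfn hcen hrad
    have hRK : (R : Subgroup ↥(F.autGroup P)) ≤ Cfsg.pCore p ↥(F.autGroup P) :=
      Cfsg.Agent.Helper8.le_pCore hRn R.isPGroup'
    rw [hKeq] at hRK
    have hdvd : p ∣ ((Cfsg.Inn ↥P).subgroupOf (F.autGroup P)).index := by
      have := hE'.1
      rwa [← Subgroup.index_eq_card] at this
    have h2 := dvd_trans hdvd (Subgroup.index_dvd_of_le hRK)
    exact R.not_dvd_index h2


end Cfsg.Agent.S5301
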