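import Cfsg.Statements.S5330
import Mathlib
import Cfsg.Agent.Helper9.FusionAbelian2

set_option autoImplicit false
open Cfsg

namespace Cfsg.Agent.S5330

/-- Let F be a saturated fusion system over a finite abelian p-group S. Then S is the internal direct product of the centre of the system and the focal subgroup: Z(F) ∩ foc(F) = 1 and Z(F)·foc(F) = S. -/
theorem result {Ω : Type*} [Group Ω] {S : Subgroup Ω} [Finite S] (p : ℕ) [Fact p.Prime] (hS : IsPGroup p S) (F : Cfsg.FusionSystem S) (hF : F.IsSaturated p) (hab : ∀ x ∈ S, ∀ y ∈ S, x * y = y * x) : F.center ⊓ F.focalSubgroup = ⊥ ∧ F.center ⊔ F.focalSubgroup = S := by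
  classical
  have hN := Cfsg.Agent.Helper9.abelian_normal_top p hS F hF hab
  have hfr := Cfsg.Agent.Helper9.frattini_of_normal_top F hN
  have hcop := Cfsg.Agent.Helper9.abelian_autGroup_coprime p hS F hF hab
  let Cs : Subgroup ↥S :=
    { carrier := {x | ∀ α ∈ F.autGroup S, α x = x}
      one_mem' := fun α _ => map_one α
      mul_mem' := fun {a b} ha hb α hα => by rw [map_mul, ha α hα, hb α hα]
      inv_mem' := fun {a} ha α hα => by rw [map_inv, ha α hα] }
  let Ds : Subgroup ↥S := Subgroup.closure {y : ↥S | ∃ x : ↥S, ∃ α ∈ F.autGroup S, y = x⁻¹ * α x}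
  have hdec := Cfsg.Agent.Helper9.coprime_abelian_decomp (V := ↥S)
    (fun x y => Subtype.ext (hab x x.2 y y.2)) (F.autGroup S) hcop Cs Ds (fun x => Iff.rfl) rfl
  have hcenter : F.center = Cs.map S.subtype := by
    apply le_antisymm
    · intro x hx
      have hcen := Cfsg.Agent.Helper8.isCentral_center F
      have hxS : x ∈ S := hcen.1 hx
      refine ⟨⟨x, hxS⟩, ?_, rfl⟩
      intro α hα
      have hα' := (Cfsg.Agent.Helper8.mem_autGroup_iff F le_rfl α).mp hα
      have hz : Subgroup.zpowers x ≤ S := by rw [Subgroup.zpowers_le]; exact hxS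
      have hconj : F.IsConjElt x ((α ⟨x, hxS⟩ : S) : Ω) :=
        ⟨_, Cfsg.Agent.Helper8.restrict_mem F hα' hz, rfl⟩
      have := Cfsg.Agent.Helper8.conj_trivial_of_central F hcen x hx _ hconj
      exact Subtype.ext this
    · apply le_sSup
      show F.IsCentral (Cs.map S.subtype)
      apply Cfsg.Agent.Helper8.central_of_conj_trivial p hS F hF
      · rintro _ ⟨y, _, rfl⟩
        exact y.2
      · rintro _ ⟨x', hx', rfl⟩ y ⟨φ, hφ, rfl⟩
        have hz : Subgroup.zpowers (x' : Ω) ≤ S := by rw [Subgroup.zpowers_le]; exact x'.2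
        obtain ⟨α, hα, hαφ⟩ := hfr _ hz φ hφ
        have h1 := hαφ ⟨(x' : Ω), Subgroup.mem_zpowers _⟩
        have h2 := hx' α hα
        exact h1.trans (congrArg Subtype.val h2)
  have hfocal : F.focalSubgroup = Ds.map S.subtype := by
    unfold Cfsg.FusionSystem.focalSubgroup
    apply le_antisymm
    · rw [Subgroup.closure_le]
      rintro y ⟨P, φ, x, hφ, rfl⟩
      have hP := (F.le_of_mem hφ).1
      obtain ⟨α, hα, hαφ⟩ := hfr P hP φ hφ
      rw [hαφ x]
      exact ⟨(⟨x, hP x.2⟩ : S)⁻¹ * α ⟨x, hP x.2⟩, Subgroup.subset_closure ⟨_, α, hα, rfl⟩, rfl⟩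
    · rw [Subgroup.map_le_iff_le_comap, Subgroup.closure_le]
      rintro y ⟨x, α, hα, rfl⟩
      have hα' := (Cfsg.Agent.Helper8.mem_autGroup_iff F le_rfl α).mp hα
      show ((x⁻¹ * α x : S) : Ω) ∈ Subgroup.closure _
      exact Subgroup.subset_closure ⟨S, S.subtype.comp α.toMonoidHom, x, hα', rfl⟩
  rw [hcenter, hfocal]
  constructor
  · rw [← Subgroup.map_inf _ _ _ S.subtype_injective, hdec.1, Subgroup.map_bot]
  · rw [← Subgroup.map_sup, hdec.2, ← MonoidHom.range_eq_map, Subgroup.range_subtype]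


end Cfsg.Agent.S5330
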