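import Cfsg.Statements.S5331
import Mathlib
import Cfsg.Agent.Helper9.DistinctInvariants
import Cfsg.Agent.Helper9.FusionAbelian2
open Cfsg.Agent.Helper8 Cfsg.Agent.Helper9

set_option autoImplicit false
open Cfsg

namespace Cfsg.Agent.S5331

/-- Let S be a finite abelian 2-group that is a direct product of cyclic groups of pairwise distinct orders 2^{a_1} < 2^{a_2} < ⋯ < 2^{a_n} (all a_i ≥ 1). Then every saturated fusion system over S is the inner one: its maps are exactly the conjugations by elements of S. -/
theorem result {Ω : Type*} [Group Ω] {S : Subgroup Ω} [Finite S] (n : ℕ) (a : Fin n → ℕ) (ha : StrictMono a) (ha1 : ∀ i, 1 ≤ a i) (e : ↥S ≃* Multiplicative ((i : Fin n) → ZMod (2 ^ a i))) (F : Cfsg.FusionSystem S) (hF : F.IsSaturated 2) (P : Subgroup Ω) : F.Hom P = (Cfsg.innerFusionSystem S).Hom P := by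
  have : Fact (Nat.Prime 2) := ⟨Nat.prime_two⟩
  have hab : ∀ x ∈ S, ∀ y ∈ S, x * y = y * x := by
    intro x hx y hy
    have h1 : (⟨x, hx⟩ : S) * ⟨y, hy⟩ = ⟨y, hy⟩ * ⟨x, hx⟩ := by
      apply e.injective
      rw [map_mul, map_mul, mul_comm]
    exact congrArg (fun c : S => (c : Ω)) h1
  have hcard : Nat.card S = 2 ^ (∑ i, a i) := by
    rw [Nat.card_congr e.toEquiv]
    show Nat.card ((i : Fin n) → ZMod (2 ^ a i)) = _
    rw [Nat.card_pi]
    simp only [Nat.card_zmod]
    exact Finset.prod_pow_eq_pow_sum _ _ _
  have hS : IsPGroup 2 S := IsPGroup.of_card hcard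
  have hN := abelian_normal_top 2 hS F hF hab
  have hcop := abelian_autGroup_coprime 2 hS F hF hab
  have hbot : ∀ α ∈ F.autGroup S, α = 1 := by
    intro α hα
    by_cases hK : ∑ i, a i = 0
    · rw [hK, pow_zero] at hcard
      have : Subsingleton S := (Nat.card_eq_one_iff_unique.mp hcard).1
      ext x
      exact congrArg _ (Subsingleton.elim _ _)
    · have hodd : Odd (Nat.card (F.autGroup S)) := by
        rw [hcard, Nat.coprime_pow_right_iff (Nat.pos_of_ne_zero hK)] at hcop
        exact Nat.coprime_two_right.mp hcop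
      have hpow : α ^ Nat.card (F.autGroup S) = 1 := by
        have h2 : (((⟨α, hα⟩ : F.autGroup S) ^ Nat.card (F.autGroup S) : F.autGroup S) :
            MulAut S) = 1 := by
          rw [pow_card_eq_one']
          rfl
        rw [Subgroup.coe_pow] at h2
        exact h2
      apply eq_one_of_transportEnd_eq_one e
      apply distinct_invariants_end_eq_one a ha ha1 _ _ hodd
      rw [← transportEnd_pow, hpow, transportEnd_one]
  apply Set.Subset.antisymm
  · intro φ hφ
    have hP : P ≤ S := hom_le F hφ
    obtain ⟨α, hα, hx⟩ := frattini_of_normal_top F hN P hP φ hφ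
    have h1 := hbot α hα
    subst h1
    have h2 : φ = P.subtype := by
      ext x
      rw [hx x]
      rfl
    rw [h2]
    exact subtype_mem _ hP
  · exact inner_le F P


end Cfsg.Agent.S5331
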