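import Cfsg.Statements.S5521
import Mathlib
import Cfsg.Agent.Helper1.Golay8

set_option autoImplicit false
open Cfsg

namespace Cfsg.Agent.S5521

/-- The Mathieu group M₂₄ in its natural action on the 24 coordinate positions of the binary Golay code has minimal base size exactly 7: every set of at most 6 positions is fixed pointwise by some non-identity element of M₂₄, while some set of 7 positions is fixed pointwise only by the identity. -/
theorem result :
    (∀ B : Finset Cfsg.GolayPt, B.card ≤ 6 → ∃ g ∈ Cfsg.M24, g ≠ 1 ∧ ∀ b ∈ B, g b = b) ∧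
    (∃ B : Finset Cfsg.GolayPt, B.card = 7 ∧ ∀ g ∈ Cfsg.M24, (∀ b ∈ B, g b = b) → g = 1) := by
  classical
  constructor
  · intro B hB
    obtain ⟨B', hBB', hB'⟩ := Finset.exists_superset_card_eq hB
      (by decide : 6 ≤ Fintype.card Cfsg.GolayPt)
    let e : Fin 6 ≃ B' := (Finset.equivFinOfCardEq hB').symm
    let x : Fin 6 ↪ Cfsg.GolayPt := e.toEmbedding.trans (Function.Embedding.subtype _)
    have hx : ∀ b ∈ B', ∃ i, x i = b := fun b hb => ⟨e.symm ⟨b, hb⟩, by simp [x]⟩
    have h1 := Subgroup.card_mul_index (MulAction.stabilizer ↥Cfsg.M24 x)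
    rw [MulAction.index_stabilizer, Cfsg.Agent.Helper1.Golay.card_M24] at h1
    have h2 : Nat.card (MulAction.orbit ↥Cfsg.M24 x) ≤ 96909120 := by
      have h3 : Nat.card (MulAction.orbit ↥Cfsg.M24 x) ≤ Nat.card (Fin 6 ↪ Cfsg.GolayPt) :=
        Nat.card_le_card_of_injective _ Subtype.val_injective
      have h4 : Nat.card (Fin 6 ↪ Cfsg.GolayPt) = 96909120 := by
        rw [Nat.card_eq_fintype_card, Fintype.card_embedding_eq]
        decide
      omega
    have hne : MulAction.stabilizer ↥Cfsg.M24 x ≠ ⊥ := by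
      intro hbot
      rw [hbot, Subgroup.card_bot, one_mul, ← Nat.card_coe_set_eq] at h1
      have h5 : Nat.card (MulAction.orbit ↥Cfsg.M24 x) = 244823040 := h1
      omega
    obtain ⟨⟨g, hgs⟩, hg1⟩ := (Subgroup.ne_bot_iff_exists_ne_one).mp hne
    refine ⟨g.1, g.2, ?_, ?_⟩
    · intro h
      apply hg1
      ext1
      ext1
      exact h
    · intro b hb
      obtain ⟨i, rfl⟩ := hx b (hBB' hb)
      have h6 := DFunLike.congr_fun (MulAction.mem_stabilizer_iff.mp hgs) i
      exact h6
  · refine ⟨Finset.image Cfsg.Agent.Helper1.Golay.bp (Finset.range 7), by decide +kernel, ?_⟩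
    intro g hg hfix
    apply Cfsg.Agent.Helper1.Golay.rigid hg
    intro i hi
    exact hfix _ (Finset.mem_image.mpr ⟨i, Finset.mem_range.mpr hi, rfl⟩)


end Cfsg.Agent.S5521
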