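import Cfsg.Statements.S5562
import Cfsg.Agent.Helper9.Dihedral

set_option autoImplicit false
open Cfsg

namespace Cfsg.Agent.S5562

/-- Let G be a finite group, d an involution of G whose conjugates pairwise have products of odd order, and x any involution of G. Then the conjugacy class of d is the disjoint union, over the conjugates a of d commuting with x, of the sets of conjugates of d commuting with ax: every conjugate of d commutes with ax for exactly one conjugate a of d that commutes with x. -/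
theorem result {G : Type*} [Group G] [Finite G] (d : G) (hd : orderOf d = 2)
    (hodd : ∀ a ∈ conjugatesOf d, ∀ b ∈ conjugatesOf d, Odd (orderOf (a * b)))
    (x : G) (hx : orderOf x = 2) :
    ∀ e ∈ conjugatesOf d,
      ∃! a : G, a ∈ conjugatesOf d ∧ Commute a x ∧ Commute e (a * x) := by
  intro e he
  have hxx : x * x = 1 := Cfsg.Agent.Helper9.sq_of_orderOf_two hx
  have hxinv : x⁻¹ = x := Cfsg.Agent.Helper9.inv_of_sq hxx
  have hD : ∀ y ∈ conjugatesOf d, ∀ c : G, c * y * c⁻¹ ∈ conjugatesOf d := by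
    intro y hy c
    have hy' : IsConj d y := hy
    exact hy'.trans (isConj_iff.mpr ⟨c, rfl⟩)
  have hsq : ∀ y ∈ conjugatesOf d, y * y = 1 := by
    intro y hy
    have hy' : IsConj d y := hy
    obtain ⟨c, rfl⟩ := isConj_iff.mp hy'
    have e1 : c * d * c⁻¹ * (c * d * c⁻¹) = c * (d * d) * c⁻¹ := by group
    rw [e1, Cfsg.Agent.Helper9.sq_of_orderOf_two hd]
    group
  have hee : e * e = 1 := hsq e he
  obtain ⟨e', he'def⟩ : ∃ e', e' = x * e * x := ⟨_, rfl⟩
  have he' : e' ∈ conjugatesOf d := by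
    have := hD e he x
    rwa [hxinv, ← he'def] at this
  have he'e' : e' * e' = 1 := hsq e' he'
  obtain ⟨j, hj⟩ := hodd e he e' he'
  have F8 : ∀ m : ℕ, e * (e * e') ^ m ∈ conjugatesOf d := by
    intro m
    rcases Cfsg.Agent.Helper9.dih_mul_pow_conj hee he'e' m with ⟨c, hc⟩ | ⟨c, hc⟩
    · rw [← hc]; exact hD e he c
    · rw [← hc]; exact hD e' he' c
  have F3 : ∀ k : ℕ, e * (e * e') ^ k * e = ((e * e') ^ k)⁻¹ := Cfsg.Agent.Helper9.dih_conj_a hee he'e'
  have F5 : (e * e') ^ (2 * j + 1) = 1 := by rw [← hj]; exact pow_orderOf_eq_one _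
  have F1 : e * (e * e') = e' := by rw [← mul_assoc, hee, one_mul]
  have F2 : e' * e = (e * e')⁻¹ := by
    rw [mul_inv_rev, Cfsg.Agent.Helper9.inv_of_sq hee, Cfsg.Agent.Helper9.inv_of_sq he'e']
  have F4 : ∀ k : ℕ, x * (e * e') ^ k * x = ((e * e') ^ k)⁻¹ := by
    intro k
    have h1 : MulAut.conj x (e * e') = (e * e')⁻¹ := by
      rw [MulAut.conj_apply, hxinv, ← F2, he'def]
      simp only [mul_assoc]
      rw [hxx, mul_one]
    have h2 := map_pow (MulAut.conj x) (e * e') k
    rw [h1, MulAut.conj_apply, hxinv, inv_pow] at h2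
    exact h2
  have hxex : x * e * x = e' := he'def.symm
  clear he'def
  generalize hrdef : e * e' = r at F1 F2 F3 F4 F5 F8 hj
  have F6 : ∀ k : ℕ, x * (e * r ^ k) * x = e' * (r ^ k)⁻¹ := by
    intro k
    calc x * (e * r ^ k) * x = (x * e * x) * (x * r ^ k * x) := by
          simp only [mul_assoc]
          rw [← mul_assoc x x, hxx, one_mul]
      _ = e' * (r ^ k)⁻¹ := by rw [hxex, F4]
  have F7 : (r ^ (j + 1))⁻¹ = r ^ j := by
    apply inv_eq_of_mul_eq_one_left
    rw [← pow_add]
    have : j + (j + 1) = 2 * j + 1 := by omega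
    rw [this, F5]
  have F9 : e * r ^ (j + 1) * (e * r ^ (j + 1)) = 1 := by
    calc e * r ^ (j + 1) * (e * r ^ (j + 1)) = (e * r ^ (j + 1) * e) * r ^ (j + 1) := by
          simp only [mul_assoc]
      _ = 1 := by rw [F3, inv_mul_cancel]
  have hpow : ∀ (y : G) (n : ℕ), y ^ (2 * n + 1) * y = (y * y) ^ (n + 1) := by
    intro y n
    rw [← pow_succ, ← pow_two, ← pow_mul]
    congr 1
  refine ⟨e * r ^ (j + 1), ⟨F8 (j + 1), ?_, ?_⟩, ?_⟩
  · have h1 : x * (e * r ^ (j + 1)) * x = e * r ^ (j + 1) := by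
      rw [F6, F7, ← F1, mul_assoc, ← pow_succ']
    show e * r ^ (j + 1) * x = x * (e * r ^ (j + 1))
    calc e * r ^ (j + 1) * x = x * (e * r ^ (j + 1)) * x * x := by rw [h1]
      _ = x * (e * r ^ (j + 1)) := by rw [mul_assoc _ x x, hxx, mul_one]
  · have h2 : e * r ^ (j + 1) * e' * (e * r ^ (j + 1)) = e := by
      calc e * r ^ (j + 1) * e' * (e * r ^ (j + 1))
          = e * (r ^ (j + 1) * (e' * e) * r ^ (j + 1)) := by simp only [mul_assoc]
        _ = e * (r ^ (j + 1) * (r⁻¹ * r ^ (j + 1))) := by rw [F2, mul_assoc]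
        _ = e * (r ^ (j + 1) * r ^ j) := by rw [pow_succ' r j, inv_mul_cancel_left]
        _ = e := by
          rw [← pow_add]
          have : j + 1 + j = 2 * j + 1 := by omega
          rw [this, F5, mul_one]
    show e * (e * r ^ (j + 1) * x) = e * r ^ (j + 1) * x * e
    have h3 : e * r ^ (j + 1) * x * e * x * (e * r ^ (j + 1)) = e := by
      rw [← hxex] at h2
      calc e * r ^ (j + 1) * x * e * x * (e * r ^ (j + 1))
          = e * r ^ (j + 1) * (x * e * x) * (e * r ^ (j + 1)) := by simp only [mul_assoc]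
        _ = e := h2
    calc e * (e * r ^ (j + 1) * x)
        = (e * r ^ (j + 1) * x * e * x * (e * r ^ (j + 1))) * (e * r ^ (j + 1) * x) := by
          rw [h3]
      _ = e * r ^ (j + 1) * x * e * (x * ((e * r ^ (j + 1)) * (e * r ^ (j + 1))) * x) := by
          simp only [mul_assoc]
      _ = e * r ^ (j + 1) * x * e := by rw [F9, mul_one, hxx, mul_one]
  · rintro a' ⟨ha', hca, hce⟩
    have haa : a' * a' = 1 := hsq a' ha'
    have hca' : a' * x = x * a' := hca
    have hce' : e * (a' * x) = a' * x * e := hce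
    have h1 : a' * e * a' = e' := by
      have h2 : e * a' = a' * x * e * x := by
        calc e * a' = e * (a' * x) * x := by rw [mul_assoc e (a' * x) x, mul_assoc a' x x, hxx, mul_one]
          _ = a' * x * e * x := by rw [hce']
      calc a' * e * a' = a' * (e * a') := by rw [mul_assoc]
        _ = a' * (a' * x * e * x) := by rw [h2]
        _ = (a' * a') * (x * e * x) := by simp only [mul_assoc]
        _ = e' := by rw [haa, one_mul, hxex]
    obtain ⟨t, ht⟩ := hodd a' ha' e he
    have hs : (a' * e) ^ (2 * t + 1) = 1 := by rw [← ht]; exact pow_orderOf_eq_one _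
    have hss : (a' * e) * (a' * e) = r⁻¹ := by
      rw [← F2, ← h1]
      simp only [mul_assoc]
    have hs2 : a' * e = (r ^ (t + 1))⁻¹ := by
      calc a' * e = (a' * e) ^ (2 * t + 1) * (a' * e) := by rw [hs, one_mul]
        _ = ((a' * e) * (a' * e)) ^ (t + 1) := hpow _ _
        _ = (r ^ (t + 1))⁻¹ := by rw [hss, inv_pow]
    have ha'eq : a' = e * r ^ (t + 1) := by
      calc a' = a' * e * e := by rw [mul_assoc, hee, mul_one]
        _ = e * r ^ (t + 1) * e * e := by rw [hs2, F3]
        _ = e * r ^ (t + 1) := by rw [mul_assoc _ e e, hee, mul_one]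
    have h4 : x * a' * x = a' := by
      rw [hca'.symm, mul_assoc, hxx, mul_one]
    rw [ha'eq, F6] at h4
    have h5 : r * (r ^ (t + 1))⁻¹ = r ^ (t + 1) := by
      have h6 : e * (r * (r ^ (t + 1))⁻¹) = e * r ^ (t + 1) := by
        rw [← mul_assoc, F1]
        exact h4
      exact mul_left_cancel h6
    have h7 : r ^ (t + 1) * r ^ (t + 1) = r := by
      calc r ^ (t + 1) * r ^ (t + 1) = r * (r ^ (t + 1))⁻¹ * r ^ (t + 1) := by rw [h5]
        _ = r := by rw [inv_mul_cancel_right]
    have h8 : (r ^ (t + 1)) ^ (2 * j + 1) = 1 := by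
      rw [← pow_mul, mul_comm, pow_mul, F5, one_pow]
    have h9 : r ^ (t + 1) = r ^ (j + 1) := by
      calc r ^ (t + 1) = (r ^ (t + 1)) ^ (2 * j + 1) * r ^ (t + 1) := by
            rw [h8, one_mul]
        _ = (r ^ (t + 1) * r ^ (t + 1)) ^ (j + 1) := hpow _ _
        _ = r ^ (j + 1) := by rw [h7]
    rw [ha'eq, h9]

end Cfsg.Agent.S5562
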