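import Cfsg.Statements.S5596
import Mathlib
import Cfsg.Agent.Helper9.LargeES9c
open Cfsg.Agent.Helper9

set_option autoImplicit false
open Cfsg

namespace Cfsg.Agent.S5596

/-- Setting: `z` is an involution of the finite group `G`; for each element `x`, `Q x` is the largest normal 2-subgroup of the centralizer of `x`; `Q z` is extraspecial and contains its own centralizer in `G`. A subgroup `U` is singular when it is elementary abelian, every non-identity element of `U` is conjugate to `z`, and any two non-identity elements `u`, `v` of `U` are orthogonal (`v ∈ Q u`). Write `QU` for the intersection of the `Q u` and `LU` for the join of the `Q u` over the non-identity `u` in `U`. If `U` is singular of order `2 ^ n` with `n ≥ 2`, then `U ≤ QU ≤ LU`, `LU` normalizes `U`, and `LU` induces on `U` its full automorphism group (the general linear group of dimension `n` over the field with two elements): every automorphism of `U` is conjugation by some element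 of `LU`. -/
theorem result {G : Type*} [Group G] [Finite G]
    (Q : G → Subgroup G)
    (hQ : ∀ x : G, Q x = (Cfsg.pCore 2 ↥(Subgroup.centralizer ({x} : Set G))).map (Subgroup.centralizer ({x} : Set G)).subtype)
    (z : G) (hz : orderOf z = 2) (hE : Cfsg.IsExtraspecial 2 ↥(Q z))
    (hC : Subgroup.centralizer ((Q z : Subgroup G) : Set G) ≤ Q z)
    (U : Subgroup G) (hU2 : ∀ u ∈ U, u * u = 1)
    (hS : ∀ u ∈ U, u ≠ 1 → ∃ g : G, g * z * g⁻¹ = u)
    (hO : ∀ u ∈ U, ∀ v ∈ U, u ≠ 1 → v ≠ 1 → v ∈ Q u)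
    (QU LU : Subgroup G) (hQU : QU = ⨅ u ∈ ((U : Set G) \ {1}), Q u) (hLU : LU = ⨆ u ∈ ((U : Set G) \ {1}), Q u)
    (n : ℕ) (hn : 2 ≤ n) (hcard : Nat.card ↥U = 2 ^ n) :
    U ≤ QU ∧ QU ≤ LU ∧ LU ≤ Subgroup.normalizer (U : Set G) ∧
      ∀ φ : ↥U ≃* ↥U, ∃ g ∈ LU, ∀ u : ↥U, g * (u : G) * g⁻¹ = ((φ u : ↥U) : G) := by
  classical
  have hprops : ∀ u ∈ U, u ≠ 1 → (u ∈ Q u ∧ (∀ e ∈ Q u, u * e = e * u) ∧
      (∀ a ∈ Q u, ∀ b ∈ Q u, a * b * a⁻¹ * b⁻¹ = 1 ∨ a * b * a⁻¹ * b⁻¹ = u) ∧
      (∀ a ∈ Q u, (∀ b ∈ Q u, a * b = b * a) → a = 1 ∨ a = u)) := by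
    intro u hu hu1
    obtain ⟨g, hg⟩ := hS u hu hu1
    have h := les_props9 Q hQ z hz hE g
    rw [hg] at h
    exact h
  have hUQ : ∀ u ∈ U, u ≠ 1 → ∀ w ∈ U, w ∈ Q u := by
    intro u hu hu1 w hw
    by_cases hw1 : w = 1
    · rw [hw1]
      exact (Q u).one_mem
    · exact hO u hu w hw hu1 hw1
  have hQUle : ∀ u ∈ U, u ≠ 1 → QU ≤ Q u := by
    intro u hu hu1
    rw [hQU]
    exact iInf₂_le u ⟨hu, hu1⟩
  have hgen : ∀ u ∈ U, u ≠ 1 → ∀ g ∈ Q u, (∀ w ∈ U, g * w * g⁻¹ ∈ U) ∧
      ∀ x ∈ QU, g * x * g⁻¹ * x⁻¹ ∈ U := by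
    intro u hu hu1 g hg
    obtain ⟨-, -, P1, -⟩ := hprops u hu hu1
    refine ⟨fun w hw => ?_, fun x hx => ?_⟩
    · have e1 : g * w * g⁻¹ = (g * w * g⁻¹ * w⁻¹) * w := by group
      rw [e1]
      rcases P1 g hg w (hUQ u hu hu1 w hw) with h | h
      · rw [h, one_mul]
        exact hw
      · rw [h]
        exact U.mul_mem hu hw
    · rcases P1 g hg x (hQUle u hu hu1 hx) with h | h
      · rw [h]
        exact U.one_mem
      · rw [h]
        exact hu
  obtain ⟨S, hSmem⟩ : ∃ S : Subgroup G, ∀ g, g ∈ S ↔ ((∀ w ∈ U, g * w * g⁻¹ ∈ U) ∧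
      (∀ w ∈ U, g⁻¹ * w * g ∈ U) ∧ ∀ x ∈ QU, g * x * g⁻¹ * x⁻¹ ∈ U) := by
    refine ⟨{ carrier := {g | (∀ w ∈ U, g * w * g⁻¹ ∈ U) ∧ (∀ w ∈ U, g⁻¹ * w * g ∈ U) ∧
                ∀ x ∈ QU, g * x * g⁻¹ * x⁻¹ ∈ U}
              one_mem' := by
                refine ⟨fun w hw => ?_, fun w hw => ?_, fun x hx => ?_⟩
                · rw [one_mul, inv_one, mul_one]
                  exact hw
                · rw [inv_one, one_mul, mul_one]
                  exact hw
                · rw [one_mul, inv_one, mul_one, mul_inv_cancel]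
                  exact U.one_mem
              mul_mem' := by
                rintro a b ⟨ha1, ha2, ha3⟩ ⟨hb1, hb2, hb3⟩
                refine ⟨fun w hw => ?_, fun w hw => ?_, fun x hx => ?_⟩
                · rw [show a * b * w * (a * b)⁻¹ = a * (b * w * b⁻¹) * a⁻¹ by group]
                  exact ha1 _ (hb1 w hw)
                · rw [show (a * b)⁻¹ * w * (a * b) = b⁻¹ * (a⁻¹ * w * a) * b by group]
                  exact hb2 _ (ha2 w hw)
                · rw [show a * b * x * (a * b)⁻¹ * x⁻¹ =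
                    a * (b * x * b⁻¹ * x⁻¹) * a⁻¹ * (a * x * a⁻¹ * x⁻¹) by group]
                  exact U.mul_mem (ha1 _ (hb3 x hx)) (ha3 x hx)
              inv_mem' := by
                rintro a ⟨ha1, ha2, ha3⟩
                refine ⟨fun w hw => ?_, fun w hw => ?_, fun x hx => ?_⟩
                · rw [inv_inv]
                  exact ha2 w hw
                · rw [inv_inv]
                  exact ha1 w hw
                · rw [show a⁻¹ * x * a⁻¹⁻¹ * x⁻¹ = a⁻¹ * (a * x * a⁻¹ * x⁻¹)⁻¹ * a by group]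
                  exact ha2 _ (U.inv_mem (ha3 x hx)) }, fun g => Iff.rfl⟩
  have hLS : LU ≤ S := by
    rw [hLU]
    apply iSup₂_le
    intro u hu g hg
    rw [hSmem]
    have h1 := hgen u hu.1 (fun h => hu.2 (Set.mem_singleton_iff.mpr h)) g hg
    have h2 := hgen u hu.1 (fun h => hu.2 (Set.mem_singleton_iff.mpr h)) g⁻¹ ((Q u).inv_mem hg)
    refine ⟨h1.1, fun w hw => ?_, h1.2⟩
    have h3 := h2.1 w hw
    rw [inv_inv] at h3
    exact h3
  have hcommU : ∀ a ∈ U, ∀ b ∈ U, a * b = b * a := by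
    intro a ha b hb
    have h := hU2 (a * b) (U.mul_mem ha hb)
    calc a * b = (a * b)⁻¹ := (inv_eq_of_mul_eq_one_right h).symm
      _ = b⁻¹ * a⁻¹ := mul_inv_rev a b
      _ = b * a := by
        rw [inv_eq_of_mul_eq_one_right (hU2 b hb), inv_eq_of_mul_eq_one_right (hU2 a ha)]
  have hex : ∃ u₀ ∈ U, u₀ ≠ 1 := by
    by_contra hcon
    push Not at hcon
    have hbot : U = ⊥ := (Subgroup.eq_bot_iff_forall U).mpr hcon
    have h4 : 4 ≤ 2 ^ n := by
      calc 4 = 2 ^ 2 := by norm_num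
        _ ≤ 2 ^ n := Nat.pow_le_pow_right (by norm_num) hn
    rw [← hcard, hbot, Subgroup.card_bot] at h4
    exact absurd h4 (by norm_num)
  obtain ⟨u₀, hu₀, hu₀1⟩ := hex
  have hQLU : ∀ u ∈ U, u ≠ 1 → Q u ≤ LU := by
    intro u hu hu1
    rw [hLU]
    exact le_iSup₂ (f := fun u (_ : u ∈ ((U : Set G) \ {1})) => Q u) u
      ⟨hu, fun h => hu1 (Set.mem_singleton_iff.mp h)⟩
  refine ⟨?_, ?_, ?_, ?_⟩
  · rw [hQU]
    apply le_iInf₂
    intro u hu w hw
    exact hUQ u hu.1 (fun h => hu.2 (Set.mem_singleton_iff.mpr h)) w hw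
  · exact (hQUle u₀ hu₀ hu₀1).trans (hQLU u₀ hu₀ hu₀1)
  · intro g hg
    have h := (hSmem g).mp (hLS hg)
    rw [Subgroup.mem_set_normalizer_iff]
    intro w
    constructor
    · intro hw
      exact h.1 w hw
    · intro hw
      have h3 := h.2.1 _ hw
      rw [show g⁻¹ * (g * w * g⁻¹) * g = w by group] at h3
      exact h3
  · intro φ
    obtain ⟨I, hImem⟩ : ∃ I : Subgroup (MulAut ↥U), ∀ φ : MulAut ↥U, φ ∈ I ↔
        ∃ g ∈ LU, ∀ w : ↥U, g * (w : G) * g⁻¹ = ((φ w : ↥U) : G) := by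
      refine ⟨{ carrier := {φ | ∃ g ∈ LU, ∀ w : ↥U, g * (w : G) * g⁻¹ = ((φ w : ↥U) : G)}
                one_mem' := ⟨1, LU.one_mem, fun w => by
                  rw [one_mul, inv_one, mul_one]
                  rfl⟩
                mul_mem' := by
                  rintro a b ⟨ga, hga, ha⟩ ⟨gb, hgb, hb⟩
                  refine ⟨ga * gb, LU.mul_mem hga hgb, fun w => ?_⟩
                  rw [show ga * gb * (w : G) * (ga * gb)⁻¹ =
                    ga * (gb * (w : G) * gb⁻¹) * ga⁻¹ by group, hb w, ha (b w)]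
                  rfl
                inv_mem' := by
                  rintro a ⟨ga, hga, ha⟩
                  refine ⟨ga⁻¹, LU.inv_mem hga, fun w => ?_⟩
                  have h := ha (a⁻¹ w)
                  rw [MulAut.apply_inv_self] at h
                  rw [← h]
                  group }, fun φ => Iff.rfl⟩
    have hcommV : ∀ a b : ↥U, a * b = b * a := fun a b => Subtype.ext (hcommU a a.2 b b.2)
    have h2V : ∀ v : ↥U, v * v = 1 := fun v => Subtype.ext (hU2 v v.2)
    have hIhyp : ∀ (u w₀ : ↥U) (K : Subgroup ↥U), u ≠ 1 → u ∈ K → w₀ ∉ K →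
        ∃ τ ∈ I, (∀ k ∈ K, τ k = k) ∧ τ w₀ = w₀ * u := by
      intro u w₀ K hu1 huK hw₀K
      have hu1' : (u : G) ≠ 1 := fun h => hu1 (Subtype.ext h)
      obtain ⟨huQ, hcE, P1, P2⟩ := hprops u u.2 hu1'
      have hAE : K.map U.subtype ≤ Q (u : G) := by
        rintro _ ⟨k, -, rfl⟩
        exact hUQ u u.2 hu1' k k.2
      have hcA : (u : G) ∈ K.map U.subtype := ⟨u, huK, rfl⟩
      have hxA : (w₀ : G) ∉ K.map U.subtype := by
        rintro ⟨k, hk, hkw⟩
        have hkw' : k = w₀ := Subtype.ext hkw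
        rw [hkw'] at hk
        exact hw₀K hk
      obtain ⟨q, hqE, hqA, hqx⟩ := les_dc9 (Q (u : G)) (K.map U.subtype) hAE u hcA hu1'
        (hU2 u u.2) hcE P1 P2 w₀ (hUQ u u.2 hu1' w₀ w₀.2) hxA
      have hq1 := hgen u u.2 hu1' q hqE
      have hq2 := hgen u u.2 hu1' q⁻¹ ((Q (u : G)).inv_mem hqE)
      have hq2' : ∀ w ∈ U, q⁻¹ * w * q ∈ U := by
        intro w hw
        have h := hq2.1 w hw
        rw [inv_inv] at h
        exact h
      obtain ⟨τ, hτ⟩ : ∃ τ : MulAut ↥U, ∀ w : ↥U, ((τ w : ↥U) : G) = q * (w : G) * q⁻¹ := by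
        refine ⟨{ toFun := fun w => ⟨q * (w : G) * q⁻¹, hq1.1 w w.2⟩
                  invFun := fun w => ⟨q⁻¹ * (w : G) * q, hq2' w w.2⟩
                  left_inv := fun w => Subtype.ext (by
                    show q⁻¹ * (q * (w : G) * q⁻¹) * q = w
                    group)
                  right_inv := fun w => Subtype.ext (by
                    show q * (q⁻¹ * (w : G) * q) * q⁻¹ = w
                    group)
                  map_mul' := fun a b => Subtype.ext (by
                    show q * ((a : G) * (b : G)) * q⁻¹ = q * a * q⁻¹ * (q * b * q⁻¹)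
                    group) }, fun w => rfl⟩
      refine ⟨τ, (hImem τ).mpr ⟨q, hQLU u u.2 hu1' hqE, fun w => (hτ w).symm⟩,
        fun k hk => ?_, ?_⟩
      · apply Subtype.ext
        rw [hτ]
        have h := hqA k ⟨k, hk, rfl⟩
        rw [← h, mul_inv_cancel_right]
      · apply Subtype.ext
        rw [hτ]
        have h1 := mul_inv_eq_iff_eq_mul.mp hqx
        rw [h1]
        exact hcommU u u.2 w₀ w₀.2
    exact (hImem φ).mp (gen_transv9 hcommV h2V I hIhyp φ)


end Cfsg.Agent.S5596
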