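import Cfsg.Statements.S5597
import Mathlib
import Cfsg.Agent.Helper9.LargeES9b
open Cfsg.Agent.Helper9

set_option autoImplicit false
open Cfsg

namespace Cfsg.Agent.S5597

/-- Setting: `z` is an involution of the finite group `G`; for each element `x`, `Q x` is the largest normal 2-subgroup of the centralizer of `x`; `Q z` is extraspecial and contains its own centralizer in `G`. A subgroup `U` is singular when it is elementary abelian, every non-identity element of `U` is conjugate to `z`, and any two non-identity elements `u`, `v` of `U` are orthogonal (`v ∈ Q u`). Write `QU` for the intersection of the `Q u` and `LU` for the join of the `Q u` over the non-identity `u` in `U`. If `U` is a non-trivial singular subgroup, then `LU` acts trivially on `QU / U` (every commutator of an element of `LU` with an element of `QU` lies in `U`), and for every `x` in `QU` outside `U` the centralizer of `U` in `LU` permutes the coset `x U` transitively: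 each `x u` with `u ∈ U` is a conjugate of `x` by an element of `LU` centralizing `U`. -/
theorem result {G : Type*} [Group G] [Finite G]
    (Q : G → Subgroup G)
    (hQ : ∀ x : G, Q x = (Cfsg.pCore 2 ↥(Subgroup.centralizer ({x} : Set G))).map (Subgroup.centralizer ({x} : Set G)).subtype)
    (z : G) (hz : orderOf z = 2) (hE : Cfsg.IsExtraspecial 2 ↥(Q z))
    (hC : Subgroup.centralizer ((Q z : Subgroup G) : Set G) ≤ Q z)
    (U : Subgroup G) (hU2 : ∀ u ∈ U, u * u = 1)
    (hS : ∀ u ∈ U, u ≠ 1 → ∃ g : G, g * z * g⁻¹ = u)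
    (hO : ∀ u ∈ U, ∀ v ∈ U, u ≠ 1 → v ≠ 1 → v ∈ Q u)
    (QU LU : Subgroup G) (hQU : QU = ⨅ u ∈ ((U : Set G) \ {1}), Q u) (hLU : LU = ⨆ u ∈ ((U : Set G) \ {1}), Q u)
    (hU : U ≠ ⊥) :
    (∀ g ∈ LU, ∀ x ∈ QU, g * x * g⁻¹ * x⁻¹ ∈ U) ∧
      ∀ x ∈ QU, x ∉ U → ∀ u ∈ U, ∃ g ∈ LU ⊓ Subgroup.centralizer (U : Set G), g * x * g⁻¹ = x * u := by
  classical
  have hprops : ∀ u ∈ U, u ≠ 1 → (u ∈ Q u ∧ (∀ e ∈ Q u, u * e = e * u) ∧
      (∀ a ∈ Q u, ∀ b ∈ Q u, a * b * a⁻¹ * b⁻¹ = 1 ∨ a * b * a⁻¹ * b⁻¹ = u) ∧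
      (∀ a ∈ Q u, (∀ b ∈ Q u, a * b = b * a) → a = 1 ∨ a = u)) := by
    intro u hu hu1
    obtain ⟨g, hg⟩ := hS u hu hu1
    have h := les_props9 Q hQ z hz hE g
    rw [hg] at h
    exact h
  have hUQ : ∀ u ∈ U, u ≠ 1 → ∀ w ∈ U, w ∈ Q u := by
    intro u hu hu1 w hw
    by_cases hw1 : w = 1
    · rw [hw1]
      exact (Q u).one_mem
    · exact hO u hu w hw hu1 hw1
  have hQUle : ∀ u ∈ U, u ≠ 1 → QU ≤ Q u := by
    intro u hu hu1
    rw [hQU]
    exact iInf₂_le u ⟨hu, hu1⟩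
  have hgen : ∀ u ∈ U, u ≠ 1 → ∀ g ∈ Q u, (∀ w ∈ U, g * w * g⁻¹ ∈ U) ∧
      ∀ x ∈ QU, g * x * g⁻¹ * x⁻¹ ∈ U := by
    intro u hu hu1 g hg
    obtain ⟨-, -, P1, -⟩ := hprops u hu hu1
    refine ⟨fun w hw => ?_, fun x hx => ?_⟩
    · have e1 : g * w * g⁻¹ = (g * w * g⁻¹ * w⁻¹) * w := by group
      rw [e1]
      rcases P1 g hg w (hUQ u hu hu1 w hw) with h | h
      · rw [h, one_mul]
        exact hw
      · rw [h]
        exact U.mul_mem hu hw
    · rcases P1 g hg x (hQUle u hu hu1 hx) with h | h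
      · rw [h]
        exact U.one_mem
      · rw [h]
        exact hu
  obtain ⟨S, hSmem⟩ : ∃ S : Subgroup G, ∀ g, g ∈ S ↔ ((∀ w ∈ U, g * w * g⁻¹ ∈ U) ∧
      (∀ w ∈ U, g⁻¹ * w * g ∈ U) ∧ ∀ x ∈ QU, g * x * g⁻¹ * x⁻¹ ∈ U) := by
    refine ⟨{ carrier := {g | (∀ w ∈ U, g * w * g⁻¹ ∈ U) ∧ (∀ w ∈ U, g⁻¹ * w * g ∈ U) ∧
                ∀ x ∈ QU, g * x * g⁻¹ * x⁻¹ ∈ U}
              one_mem' := by
                refine ⟨fun w hw => ?_, fun w hw => ?_, fun x hx => ?_⟩
                · rw [one_mul, inv_one, mul_one]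
                  exact hw
                · rw [inv_one, one_mul, mul_one]
                  exact hw
                · rw [one_mul, inv_one, mul_one, mul_inv_cancel]
                  exact U.one_mem
              mul_mem' := by
                rintro a b ⟨ha1, ha2, ha3⟩ ⟨hb1, hb2, hb3⟩
                refine ⟨fun w hw => ?_, fun w hw => ?_, fun x hx => ?_⟩
                · rw [show a * b * w * (a * b)⁻¹ = a * (b * w * b⁻¹) * a⁻¹ by group]
                  exact ha1 _ (hb1 w hw)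
                · rw [show (a * b)⁻¹ * w * (a * b) = b⁻¹ * (a⁻¹ * w * a) * b by group]
                  exact hb2 _ (ha2 w hw)
                · rw [show a * b * x * (a * b)⁻¹ * x⁻¹ =
                    a * (b * x * b⁻¹ * x⁻¹) * a⁻¹ * (a * x * a⁻¹ * x⁻¹) by group]
                  exact U.mul_mem (ha1 _ (hb3 x hx)) (ha3 x hx)
              inv_mem' := by
                rintro a ⟨ha1, ha2, ha3⟩
                refine ⟨fun w hw => ?_, fun w hw => ?_, fun x hx => ?_⟩
                · rw [inv_inv]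
                  exact ha2 w hw
                · rw [inv_inv]
                  exact ha1 w hw
                · rw [show a⁻¹ * x * a⁻¹⁻¹ * x⁻¹ = a⁻¹ * (a * x * a⁻¹ * x⁻¹)⁻¹ * a by group]
                  exact ha2 _ (U.inv_mem (ha3 x hx)) }, fun g => Iff.rfl⟩
  have hLS : LU ≤ S := by
    rw [hLU]
    apply iSup₂_le
    intro u hu g hg
    rw [hSmem]
    have h1 := hgen u hu.1 (fun h => hu.2 (Set.mem_singleton_iff.mpr h)) g hg
    have h2 := hgen u hu.1 (fun h => hu.2 (Set.mem_singleton_iff.mpr h)) g⁻¹ ((Q u).inv_mem hg)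
    refine ⟨h1.1, fun w hw => ?_, h1.2⟩
    have h3 := h2.1 w hw
    rw [inv_inv] at h3
    exact h3
  refine ⟨fun g hg x hx => ((hSmem g).mp (hLS hg)).2.2 x hx, ?_⟩
  intro x hx hxU u hu
  by_cases hu1 : u = 1
  · refine ⟨1, Subgroup.one_mem _, ?_⟩
    rw [hu1, one_mul, inv_one, mul_one]
  · obtain ⟨huQ, hcE, P1, P2⟩ := hprops u hu hu1
    obtain ⟨q, hqE, hqA, hqx⟩ := les_dc9 (Q u) U (fun w hw => hUQ u hu hu1 w hw) u hu hu1
      (hU2 u hu) hcE P1 P2 x (hQUle u hu hu1 hx) hxU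
    refine ⟨q, Subgroup.mem_inf.mpr ⟨?_, ?_⟩, ?_⟩
    · rw [hLU]
      exact (le_iSup₂ (f := fun u (_ : u ∈ ((U : Set G) \ {1})) => Q u) u
        ⟨hu, fun h => hu1 (Set.mem_singleton_iff.mp h)⟩) hqE
    · rw [Subgroup.mem_centralizer_iff]
      intro h hh
      exact hqA h hh
    · have h1 := mul_inv_eq_iff_eq_mul.mp hqx
      rw [h1]
      exact hcE x (hQUle u hu hu1 hx)


end Cfsg.Agent.S5597
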