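import Cfsg.Statements.S5598
import Mathlib
import Cfsg.Agent.Helper9.LargeES9
open Cfsg.Agent.Helper9

set_option autoImplicit false
open Cfsg

namespace Cfsg.Agent.S5598

/-- Setting: `z` is an involution of the finite group `G`; for each element `x`, `Q x` is the largest normal 2-subgroup of the centralizer of `x`; `Q z` is extraspecial and contains its own centralizer in `G`. A subgroup `U` is singular when it is elementary abelian, every non-identity element of `U` is conjugate to `z`, and any two non-identity elements `u`, `v` of `U` are orthogonal (`v ∈ Q u`). Write `QU` for the intersection of the `Q u` and `LU` for the join of the `Q u` over the non-identity `u` in `U`. If the singular subgroup `U` is generated by a set `T` of non-identity elements, then `QU` is already the intersection of the `Q t` over `t ∈ T`. -/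
theorem result {G : Type*} [Group G] [Finite G]
    (Q : G → Subgroup G)
    (hQ : ∀ x : G, Q x = (Cfsg.pCore 2 ↥(Subgroup.centralizer ({x} : Set G))).map (Subgroup.centralizer ({x} : Set G)).subtype)
    (z : G) (hz : orderOf z = 2) (hE : Cfsg.IsExtraspecial 2 ↥(Q z))
    (hC : Subgroup.centralizer ((Q z : Subgroup G) : Set G) ≤ Q z)
    (U : Subgroup G) (hU2 : ∀ u ∈ U, u * u = 1)
    (hS : ∀ u ∈ U, u ≠ 1 → ∃ g : G, g * z * g⁻¹ = u)
    (hO : ∀ u ∈ U, ∀ v ∈ U, u ≠ 1 → v ≠ 1 → v ∈ Q u)
    (QU LU : Subgroup G) (hQU : QU = ⨅ u ∈ ((U : Set G) \ {1}), Q u) (hLU : LU = ⨆ u ∈ ((U : Set G) \ {1}), Q u)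
    (T : Set G) (hT : Subgroup.closure T = U) (hT1 : (1 : G) ∉ T) :
    QU = ⨅ t ∈ T, Q t := by
  classical
  have hM := les_inf9 Q hQ z hz hE U hU2 hS hO
  rw [hQU]
  apply le_antisymm
  · apply le_iInf₂
    intro t ht
    have htU : t ∈ U := by
      rw [← hT]
      exact Subgroup.subset_closure ht
    exact iInf₂_le t ⟨htU, fun h => hT1 (by rw [Set.mem_singleton_iff] at h; rw [← h]; exact ht)⟩
  · apply le_iInf₂
    intro u hu
    obtain ⟨huU, hu1⟩ := hu
    have hmain : ∀ x ∈ Subgroup.closure T, x = 1 ∨ (⨅ t ∈ T, Q t) ≤ Q x := by
      intro x hx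
      induction hx using Subgroup.closure_induction with
      | mem x hx => exact Or.inr (iInf₂_le x hx)
      | one => exact Or.inl rfl
      | mul x y hx hy ihx ihy =>
        rw [hT] at hx hy
        by_cases hx1 : x = 1
        · rw [hx1, one_mul]
          exact ihy
        by_cases hy1 : y = 1
        · rw [hy1, mul_one]
          exact ihx
        by_cases hxy : x * y = 1
        · exact Or.inl hxy
        right
        have hne : x ≠ y := by
          intro h
          apply hxy
          rw [h]
          exact hU2 y hy
        have hIx := ihx.resolve_left hx1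
        have hIy := ihy.resolve_left hy1
        exact (le_inf hIx hIy).trans (hM x hx y hy hx1 hy1 hne)
      | inv x hx ih =>
        rw [hT] at hx
        rw [inv_eq_of_mul_eq_one_right (hU2 x hx)]
        exact ih
    rcases hmain u (by rw [hT]; exact huU) with h | h
    · exact absurd (Set.mem_singleton_iff.mpr h) hu1
    · exact h


end Cfsg.Agent.S5598
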