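import Cfsg.Statements.S5729
import Mathlib

set_option autoImplicit false
open Cfsg

namespace Cfsg.Agent.S5729

/-- Let a finite group G act faithfully and transitively on a set with n ≥ 3 points. Then either G is a Frobenius permutation group (Frobenius as a permutation group: transitive, some non-identity element fixes a point, and no non-identity element fixes two points) of order n(n − 1) and exactly |G|/n of its elements are derangements (fix no point), or the number of derangements is greater than |G|/n. -/
theorem result {G Ω : Type*} [Group G] [Finite G] [MulAction G Ω] [FaithfulSMul G Ω] [Fintype Ω] (htr : MulAction.IsPretransitive G Ω) (hn : 3 ≤ Fintype.card Ω) :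
    ((MulAction.IsPretransitive G Ω ∧ (∃ g : G, g ≠ 1 ∧ ∃ ω : Ω, g • ω = ω) ∧ ∀ g : G, g ≠ 1 → Nat.card (MulAction.fixedBy Ω g) ≤ 1) ∧ Nat.card G = Fintype.card Ω * (Fintype.card Ω - 1) ∧ Fintype.card Ω * Nat.card {g : G // ∀ ω : Ω, g • ω ≠ ω} = Nat.card G) ∨
    Nat.card G < Fintype.card Ω * Nat.card {g : G // ∀ ω : Ω, g • ω ≠ ω} := by
  classical
  have : Fintype G := Fintype.ofFinite G
  set n : ℕ := Fintype.card Ω with hndef
  have hne : Nonempty Ω := Fintype.card_pos_iff.mp (by omega)
  -- fixed point counts
  set fx : G → ℤ := fun g => (Fintype.card (MulAction.fixedBy Ω g) : ℤ) with hfx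
  have hfx0 : ∀ g, 0 ≤ fx g := fun g => by positivity
  have hfxn : ∀ g, fx g ≤ n := fun g => by
    have : Fintype.card (MulAction.fixedBy Ω g) ≤ Fintype.card Ω := Fintype.card_subtype_le _
    simp only [hfx]
    exact_mod_cast this
  -- Burnside on Ω
  have hB1 : ∑ g : G, fx g = (Fintype.card G : ℤ) := by
    have h := MulAction.sum_card_fixedBy_eq_card_orbits_mul_card_group G Ω
    have hq : Fintype.card (Quotient (MulAction.orbitRel G Ω)) = 1 := by
      rw [Fintype.card_eq_one_iff]
      obtain ⟨ω⟩ := hne
      refine ⟨Quotient.mk'' ω, fun q => ?_⟩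
      induction q using Quotient.inductionOn' with
      | h a =>
        apply Quotient.sound'
        exact MulAction.exists_smul_eq G ω a
    rw [hq, one_mul] at h
    have : ((∑ g : G, Fintype.card (MulAction.fixedBy Ω g) : ℕ) : ℤ) = (Fintype.card G : ℤ) := by
      exact_mod_cast h
    rw [← this]
    push_cast
    rfl
  -- Burnside on Ω × Ω
  have hcard2 : ∀ g : G, Fintype.card (MulAction.fixedBy (Ω × Ω) g) = Fintype.card (MulAction.fixedBy Ω g) * Fintype.card (MulAction.fixedBy Ω g) := by
    intro g
    rw [← Fintype.card_prod]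
    refine Fintype.card_congr ⟨fun x => (⟨x.1.1, ?_⟩, ⟨x.1.2, ?_⟩), fun y => ⟨(y.1.1, y.2.1), ?_⟩, ?_, ?_⟩
    · have := x.2
      rw [MulAction.mem_fixedBy] at this ⊢
      exact congrArg Prod.fst this
    · have := x.2
      rw [MulAction.mem_fixedBy] at this ⊢
      exact congrArg Prod.snd this
    · rw [MulAction.mem_fixedBy]
      have h1 := y.1.2
      have h2 := y.2.2
      rw [MulAction.mem_fixedBy] at h1 h2
      exact Prod.ext h1 h2
    · intro x; rfl
    · intro y; rfl
  have hB2 : 2 * (Fintype.card G : ℤ) ≤ ∑ g : G, fx g * fx g := by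
    have h := MulAction.sum_card_fixedBy_eq_card_orbits_mul_card_group G (Ω × Ω)
    have hq : 2 ≤ Fintype.card (Quotient (MulAction.orbitRel G (Ω × Ω))) := by
      have h2 : 1 < Fintype.card Ω := by omega
      obtain ⟨a, b, hab⟩ := Fintype.one_lt_card_iff.mp h2
      apply Fintype.one_lt_card_iff.mpr
      refine ⟨Quotient.mk'' (a, a), Quotient.mk'' (a, b), ?_⟩
      intro heq
      have := Quotient.exact' heq
      obtain ⟨g, hg⟩ := this
      have h1 : g • a = a := congrArg Prod.fst hg
      have h2 : g • b = a := congrArg Prod.snd hg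
      exact hab (MulAction.injective g (h1.trans h2.symm))
    have : ((∑ g : G, Fintype.card (MulAction.fixedBy (Ω × Ω) g) : ℕ) : ℤ) = (Fintype.card (Quotient (MulAction.orbitRel G (Ω × Ω))) : ℤ) * (Fintype.card G : ℤ) := by
      exact_mod_cast h
    have h3 : ∑ g : G, fx g * fx g = ((∑ g : G, Fintype.card (MulAction.fixedBy (Ω × Ω) g) : ℕ) : ℤ) := by
      push_cast
      apply Finset.sum_congr rfl
      intro g _
      rw [hcard2 g]
      push_cast
      rfl
    rw [h3, this]
    have hq' : (2 : ℤ) ≤ (Fintype.card (Quotient (MulAction.orbitRel G (Ω × Ω))) : ℤ) := by exact_mod_cast hq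
    have hG0 : (0 : ℤ) ≤ (Fintype.card G : ℤ) := by positivity
    nlinarith
  -- derangements
  set D : Finset G := Finset.univ.filter (fun g : G => ∀ ω : Ω, g • ω ≠ ω) with hD
  have hDcard : Nat.card {g : G // ∀ ω : Ω, g • ω ≠ ω} = D.card := by
    rw [Nat.card_eq_fintype_card, Fintype.card_subtype]
  have hfxD : ∀ g, g ∈ D ↔ fx g = 0 := by
    intro g
    simp only [hD, Finset.mem_filter, Finset.mem_univ, true_and, hfx]
    rw [Int.natCast_eq_zero, Fintype.card_eq_zero_iff]
    constructor
    · intro h
      exact ⟨fun x => h x.1 x.2⟩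
    · intro h ω hω
      exact h.false ⟨ω, hω⟩
  have hGcard : Nat.card G = Fintype.card G := Nat.card_eq_fintype_card
  -- key pointwise inequality
  have hpt : ∀ g : G, (fx g - 1) * (fx g - n) ≤ if g ∈ D then (n : ℤ) else 0 := by
    intro g
    by_cases hg : g ∈ D
    · rw [if_pos hg, (hfxD g).mp hg]; simp
    · rw [if_neg hg]
      have h1 : fx g ≠ 0 := fun h => hg ((hfxD g).mpr h)
      have h2 : 1 ≤ fx g := by have := hfx0 g; omega
      have h3 := hfxn g
      nlinarith
  have hsum : ∑ g : G, (fx g - 1) * (fx g - n) = ∑ g : G, fx g * fx g - (n + 1) * ∑ g : G, fx g + n * (Fintype.card G : ℤ) := by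
    have : ∀ g : G, (fx g - 1) * (fx g - n) = fx g * fx g - (n + 1) * fx g + n := fun g => by ring
    simp only [this]
    rw [Finset.sum_add_distrib, Finset.sum_sub_distrib, ← Finset.mul_sum]
    simp [mul_comm]
  have hsumD : ∑ g : G, (if g ∈ D then (n : ℤ) else 0) = n * D.card := by
    rw [Finset.sum_ite_mem, Finset.univ_inter, Finset.sum_const, nsmul_eq_mul, mul_comm]
  have hmain : (Fintype.card G : ℤ) ≤ n * D.card := by
    have h1 := Finset.sum_le_sum (fun g (_ : g ∈ (Finset.univ : Finset G)) => hpt g)
    rw [hsum, hsumD, hB1] at h1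
    nlinarith
  by_cases hlt : (Fintype.card G : ℤ) < n * D.card
  · right
    rw [hGcard, hDcard]
    exact_mod_cast hlt
  · left
    have heq : (Fintype.card G : ℤ) = n * D.card := le_antisymm hmain (not_lt.mp hlt)
    -- each term is an equality
    have hzero : ∀ g : G, (if g ∈ D then (n : ℤ) else 0) - (fx g - 1) * (fx g - n) = 0 := by
      have hs : ∑ g : G, ((if g ∈ D then (n : ℤ) else 0) - (fx g - 1) * (fx g - n)) = 0 := by
        apply le_antisymm
        · rw [Finset.sum_sub_distrib, hsum, hsumD, hB1]
          nlinarith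
        · exact Finset.sum_nonneg (fun g _ => sub_nonneg.mpr (hpt g))
      have := (Finset.sum_eq_zero_iff_of_nonneg (fun g _ => sub_nonneg.mpr (hpt g))).mp hs
      intro g
      exact this g (Finset.mem_univ g)
    have hone : ∀ g : G, g ≠ 1 → g ∉ D → fx g = 1 := by
      intro g hg1 hgD
      have h := hzero g
      rw [if_neg hgD] at h
      have h' : (fx g - 1) * (fx g - n) = 0 := by linarith
      rcases mul_eq_zero.mp h' with h1 | h1
      · linarith
      · exfalso
        apply hg1
        have hcard : Fintype.card (MulAction.fixedBy Ω g) = Fintype.card Ω := by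
          have : fx g = n := by linarith
          simp only [hfx] at this
          exact_mod_cast this
        have hall : ∀ ω : Ω, g • ω = ω := by
          intro ω
          have hsurj : Function.Surjective (fun x : MulAction.fixedBy Ω g => (x : Ω)) := by
            have hinj : Function.Injective (fun x : MulAction.fixedBy Ω g => (x : Ω)) := Subtype.val_injective
            exact ((Fintype.bijective_iff_injective_and_card _).mpr ⟨hinj, hcard⟩).2
          obtain ⟨x, hx⟩ := hsurj ω
          have := x.2
          rw [MulAction.mem_fixedBy] at this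
          simpa [← hx] using this
        apply FaithfulSMul.eq_of_smul_eq_smul (α := Ω)
        intro ω
        rw [hall ω, one_smul]
    have hfx1 : fx 1 = n := by
      simp only [hfx]
      have : Fintype.card (MulAction.fixedBy Ω (1 : G)) = Fintype.card Ω := by
        apply Fintype.card_of_subtype (Finset.univ)
        intro x
        simp [MulAction.mem_fixedBy]
      exact_mod_cast this
    have h1D : (1 : G) ∉ D := by
      rw [hfxD, hfx1]
      have : (3 : ℤ) ≤ n := by exact_mod_cast hn
      omega
    -- Σ (fx g - 1) = 0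
    have hptw : ∀ g : G, fx g - 1 = (if g = 1 then (n : ℤ) - 1 else 0) - (if g ∈ D then (1 : ℤ) else 0) := by
      intro g
      by_cases hg1 : g = 1
      · subst hg1
        rw [if_pos rfl, if_neg h1D, hfx1]; ring
      · rw [if_neg hg1]
        by_cases hgD : g ∈ D
        · rw [if_pos hgD, (hfxD g).mp hgD]; first | done | ring
        · rw [if_neg hgD, hone g hg1 hgD]; first | done | ring
    have hDn : (D.card : ℤ) = n - 1 := by
      have hs : ∑ g : G, (fx g - 1) = 0 := by
        rw [Finset.sum_sub_distrib, hB1]
        first | done | simp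
      simp only [hptw] at hs
      rw [Finset.sum_sub_distrib, Finset.sum_ite_eq' Finset.univ (1 : G)] at hs
      rw [Finset.sum_ite_mem, Finset.univ_inter] at hs
      simp at hs
      linarith
    have hn3 : (3 : ℤ) ≤ n := by exact_mod_cast hn
    have hGn : (Fintype.card G : ℤ) = n * (n - 1) := by rw [heq, hDn]
    refine ⟨⟨htr, ?_, ?_⟩, ?_, ?_⟩
    · by_contra hcon
      push Not at hcon
      have hall : ∀ g : G, g ≠ 1 → g ∈ D := by
        intro g hg
        simp only [hD, Finset.mem_filter, Finset.mem_univ, true_and]
        exact hcon g hg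
      have hDeq : D = Finset.univ.erase (1 : G) := by
        ext g
        simp only [Finset.mem_erase, Finset.mem_univ, and_true]
        constructor
        · intro hg h1; exact h1D (h1 ▸ hg)
        · exact hall g
      have : D.card = Fintype.card G - 1 := by
        rw [hDeq, Finset.card_erase_of_mem (Finset.mem_univ _), Finset.card_univ]
      have hGpos : 1 ≤ Fintype.card G := Fintype.card_pos
      have h2 : (D.card : ℤ) = (Fintype.card G : ℤ) - 1 := by
        rw [this]; push_cast [Nat.cast_sub hGpos]; ring
      rw [hDn, hGn] at h2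
      nlinarith
    · intro g hg
      rw [Nat.card_eq_fintype_card]
      by_cases hgD : g ∈ D
      · have := (hfxD g).mp hgD
        simp only [hfx] at this
        have h0 : Fintype.card (MulAction.fixedBy Ω g) = 0 := by exact_mod_cast this
        omega
      · have := hone g hg hgD
        simp only [hfx] at this
        have h0 : Fintype.card (MulAction.fixedBy Ω g) = 1 := by exact_mod_cast this
        omega
    · rw [hGcard]
      have h1 : 1 ≤ n := by omega
      have : ((Fintype.card G : ℕ) : ℤ) = ((n * (n - 1) : ℕ) : ℤ) := by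
        rw [hGn]; push_cast [Nat.cast_sub h1]; ring
      exact_mod_cast this
    · rw [hGcard, hDcard]
      exact_mod_cast heq.symm


end Cfsg.Agent.S5729
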