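import Cfsg.Statements.S5738
-- import your own Cfsg.Agent.* helpers here

set_option autoImplicit false
open Cfsg

namespace Cfsg.Agent.S5738

/-- Let F ⊆ K be finite fields with |F| = q and [K : F] = n ≥ 2, so |K| = q^n. Regard K as an n-dimensional F-vector space; the multiplications by non-zero elements of K form a cyclic subgroup of GL_F(K) of order q^n − 1 acting regularly on the non-zero vectors (a Singer group). Its normaliser in GL_F(K) has order n·(q^n − 1). -/
theorem result {F K : Type*} [Field F] [Fintype F] [Field K] [Fintype K] [Algebra F K] (n : ℕ) (hn : 2 ≤ n) (hdim : Module.finrank F K = n) :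
    Nat.card (Subgroup.normalizer (((Units.map ((Algebra.lmul F K : K →ₐ[F] Module.End F K) : K →* Module.End F K)).range : Subgroup (Module.End F K)ˣ) : Set (Module.End F K)ˣ)) = n * (Fintype.card K - 1) := by
  classical
  set L : Kˣ →* (Module.End F K)ˣ :=
    Units.map ((Algebra.lmul F K : K →ₐ[F] Module.End F K) : K →* Module.End F K) with hL
  have hLapp : ∀ (u : Kˣ) (x : K), ((L u : (Module.End F K)ˣ) : Module.End F K) x = u * x :=
    fun u x => rfl
  let f : Kˣ × (K ≃ₐ[F] K) → (Module.End F K)ˣ :=
    fun q => L q.1 * LinearMap.GeneralLinearGroup.ofLinearEquiv q.2.toLinearEquiv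
  have hfapp : ∀ (q : Kˣ × (K ≃ₐ[F] K)) (x : K),
      ((f q : (Module.End F K)ˣ) : Module.End F K) x = q.1 * q.2 x := fun q x => rfl
  have hinj : Function.Injective f := by
    rintro ⟨u, τ⟩ ⟨u', τ'⟩ h
    have h1 : ∀ x, (u : K) * τ x = u' * τ' x := fun x => by
      have h2 := congrArg (fun g : (Module.End F K)ˣ => (g : Module.End F K) x) h
      simpa [hfapp] using h2
    have hu : (u : K) = u' := by simpa using h1 1
    have hu' : u = u' := Units.ext hu
    subst hu'
    have hτ : τ = τ' := by
      ext x
      exact mul_left_cancel₀ u.ne_zero (h1 x)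
    rw [hτ]
  have hfinM : Finite (L.range : Set (Module.End F K)ˣ) := by
    have : (L.range : Set (Module.End F K)ˣ) = Set.range L := rfl
    rw [this]
    infer_instance
  have hrange : Set.range f = (Subgroup.normalizer (L.range : Set (Module.End F K)ˣ) : Set (Module.End F K)ˣ) := by
    ext g
    constructor
    · rintro ⟨⟨u, τ⟩, rfl⟩
      apply Subgroup.mem_normalizer_fintype
      rintro _ ⟨k, rfl⟩
      refine ⟨Units.map (τ : K →* K) k, ?_⟩
      rw [eq_mul_inv_iff_mul_eq]
      apply Units.ext
      apply LinearMap.ext
      intro x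
      change ((Units.map (τ : K →* K) k : Kˣ) : K) * ((u : K) * τ x) = (u : K) * τ ((k : K) * x)
      simp only [Units.coe_map, MonoidHom.coe_coe, map_mul]
      ring
    · intro hg
      have hg' : ∀ h, h ∈ (L.range : Set (Module.End F K)ˣ) ↔ g * h * g⁻¹ ∈ (L.range : Set (Module.End F K)ˣ) := hg
      have hc : (g : Module.End F K) 1 ≠ 0 := by
        intro h0
        have h1 : ((g⁻¹ : (Module.End F K)ˣ) : Module.End F K) * (g : Module.End F K) = 1 := Units.inv_mul g
        have h2 : ((g⁻¹ : (Module.End F K)ˣ) : Module.End F K) ((g : Module.End F K) 1) = 1 := by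
          have h3 := congrArg (fun e : Module.End F K => e 1) h1
          exact h3
        rw [h0, map_zero] at h2
        exact zero_ne_one h2
      have hmul : ∀ k x : K, (g : Module.End F K) (k * x) * (g : Module.End F K) 1
          = (g : Module.End F K) k * (g : Module.End F K) x := by
        intro k x
        by_cases hk : k = 0
        · subst hk; simp
        · obtain ⟨k', hk'⟩ := (hg' (L (Units.mk0 k hk))).mp ⟨_, rfl⟩
          have h1 : L k' * g = g * L (Units.mk0 k hk) := by
            rw [hk']; group
          have h2 : ∀ y : K, (k' : K) * (g : Module.End F K) y = (g : Module.End F K) (k * y) := by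
            intro y
            have h3 := congrArg (fun e : (Module.End F K)ˣ => (e : Module.End F K) y) h1
            exact h3
          have h4 := h2 1
          rw [mul_one] at h4
          rw [← h2 x, ← h4]
          ring
      let l : K ≃ₗ[F] K := LinearMap.GeneralLinearGroup.toLinearEquiv ((L (Units.mk0 _ hc))⁻¹ * g)
      have hl : ∀ x : K, l x = ((g : Module.End F K) 1)⁻¹ * (g : Module.End F K) x := fun x => rfl
      have hl1 : l 1 = 1 := by
        rw [hl]; exact inv_mul_cancel₀ hc
      have hlmul : ∀ x y : K, l (x * y) = l x * l y := by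
        intro x y
        rw [hl, hl, hl]
        have := hmul x y
        field_simp
        linear_combination this
      refine ⟨(Units.mk0 _ hc, AlgEquiv.ofLinearEquiv l hl1 hlmul), ?_⟩
      apply Units.ext
      apply LinearMap.ext
      intro x
      rw [hfapp]
      show (g : Module.End F K) 1 * l x = _
      rw [hl]
      field_simp
  have hcard : Nat.card (Subgroup.normalizer (L.range : Set (Module.End F K)ˣ)) = Nat.card (Set.range f) := by
    rw [hrange]
    rfl
  rw [hcard, Nat.card_range_of_injective hinj, Nat.card_prod, IsGalois.card_aut_eq_finrank, hdim,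
    Nat.card_eq_fintype_card, Fintype.card_units, mul_comm]

end Cfsg.Agent.S5738
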