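import Cfsg.Statements.S5739
-- import your own Cfsg.Agent.* helpers here

set_option autoImplicit false
open Cfsg

namespace Cfsg.Agent.S5739

/-- Let F ⊆ K be finite fields with |F| = q and [K : F] = n ≥ 2, and let M ≤ GL_F(K) be the Singer group of multiplications by non-zero elements of K. If g ∈ GL_F(K) does not normalise M, then the order of M ∩ gMg⁻¹ divides q^r − 1 for some proper divisor r of n. In particular, when n is prime, that order divides q − 1. -/
theorem result {F K : Type*} [Field F] [Fintype F] [Field K] [Fintype K] [Algebra F K] (n : ℕ) (hn : 2 ≤ n) (hdim : Module.finrank F K = n)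
    (g : (Module.End F K)ˣ) (hg : ((Units.map ((Algebra.lmul F K : K →ₐ[F] Module.End F K) : K →* Module.End F K)).range).map (MulAut.conj g).toMonoidHom ≠ (Units.map ((Algebra.lmul F K : K →ₐ[F] Module.End F K) : K →* Module.End F K)).range) :
    ∃ r : ℕ, 1 ≤ r ∧ r ∣ n ∧ r < n ∧ Nat.card ↥(((Units.map ((Algebra.lmul F K : K →ₐ[F] Module.End F K) : K →* Module.End F K)).range).map (MulAut.conj g).toMonoidHom ⊓ (Units.map ((Algebra.lmul F K : K →ₐ[F] Module.End F K) : K →* Module.End F K)).range) ∣ Fintype.card F ^ r - 1 := by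
  classical
  set L : Kˣ →* (Module.End F K)ˣ :=
    Units.map ((Algebra.lmul F K : K →ₐ[F] Module.End F K) : K →* Module.End F K) with hL
  have hLval : ∀ u : Kˣ, ((L u : (Module.End F K)ˣ) : Module.End F K) = Algebra.lmul F K (u : K) :=
    fun u => rfl
  have hlinj : Function.Injective (Algebra.lmul F K : K → Module.End F K) := by
    intro a b h
    have h2 := congrArg (fun e : Module.End F K => e 1) h
    simpa using h2
  have hLinj : Function.Injective L := by
    intro a b h
    apply Units.ext
    apply hlinj
    rw [← hLval, ← hLval, h]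
  let B : Subalgebra F K :=
    { carrier := {k | ∃ k' : K, Algebra.lmul F K k =
        (g : Module.End F K) * Algebra.lmul F K k' * ((g⁻¹ : (Module.End F K)ˣ) : Module.End F K)}
      mul_mem' := by
        rintro a b ⟨a', ha⟩ ⟨b', hb⟩
        refine ⟨a' * b', ?_⟩
        rw [map_mul, map_mul, ha, hb]
        simp [mul_assoc]
      one_mem' := ⟨1, by rw [map_one, mul_one, Units.mul_inv]⟩
      add_mem' := by
        rintro a b ⟨a', ha⟩ ⟨b', hb⟩
        refine ⟨a' + b', ?_⟩
        rw [map_add, map_add, ha, hb]
        simp [mul_add, add_mul]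
      zero_mem' := ⟨0, by simp⟩
      algebraMap_mem' := by
        intro c
        refine ⟨algebraMap F K c, ?_⟩
        rw [AlgHom.commutes, ← Algebra.commutes, mul_assoc, Units.mul_inv, mul_one] }
  have hBmem : ∀ k : K, k ∈ B ↔ ∃ k' : K, Algebra.lmul F K k =
      (g : Module.End F K) * Algebra.lmul F K k' * ((g⁻¹ : (Module.End F K)ˣ) : Module.End F K) :=
    fun k => Iff.rfl
  let Bf : IntermediateField F K := subalgebraEquivIntermediateField B
  have hBf : ∀ k : K, k ∈ Bf ↔ k ∈ B := fun k => Iff.rfl
  have hconj : ∀ u : Kˣ, (u : K) ∈ Bf → L u ∈ (L.range).map (MulAut.conj g).toMonoidHom := by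
    intro u hu
    obtain ⟨k', hk'⟩ := (hBmem _).mp ((hBf _).mp hu)
    have hk'0 : k' ≠ 0 := by
      rintro rfl
      rw [map_zero, mul_zero, zero_mul] at hk'
      exact u.ne_zero (hlinj (hk'.trans (map_zero _).symm))
    refine ⟨L (Units.mk0 k' hk'0), ⟨_, rfl⟩, ?_⟩
    apply Units.ext
    simp only [MulEquiv.coe_toMonoidHom, MulAut.conj_apply, Units.val_mul, hLval, Units.val_mk0]
    exact hk'.symm
  have hdvd : Module.finrank F Bf ∣ n := ⟨Module.finrank Bf K, by rw [← hdim, Module.finrank_mul_finrank]⟩
  refine ⟨Module.finrank F Bf, Module.finrank_pos, hdvd, ?_, ?_⟩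
  · by_contra hcon
    have hle : Module.finrank F Bf ≤ n := Nat.le_of_dvd (by omega) hdvd
    have heq : Module.finrank F Bf = Module.finrank F K := by omega
    have htop : Bf = ⊤ := IntermediateField.eq_of_le_of_finrank_eq le_top
      (by rw [heq, IntermediateField.finrank_top'])
    apply hg
    symm
    have hfinR : Finite L.range := Finite.of_surjective L.rangeRestrict L.rangeRestrict_surjective
    have hfinM : Finite ((L.range).map (MulAut.conj g).toMonoidHom) :=
      Finite.of_surjective ((MulAut.conj g).toMonoidHom.subgroupMap L.range)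
        ((MulAut.conj g).toMonoidHom.subgroupMap_surjective L.range)
    apply Subgroup.eq_of_le_of_card_ge
    · rintro _ ⟨u, rfl⟩
      exact hconj u (by rw [htop]; trivial)
    · exact (Subgroup.card_map_of_injective (MulAut.conj g).injective).le
  · let φ : Bfˣ →* (Module.End F K)ˣ := L.comp (Units.map (Bf.val : Bf →* K))
    have hφinj : Function.Injective φ := by
      intro a b h
      have h1 := hLinj h
      apply Units.ext
      apply Subtype.ext
      have h2 := congrArg (fun u : Kˣ => (u : K)) h1
      exact h2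
    have hrange : φ.range = (L.range).map (MulAut.conj g).toMonoidHom ⊓ L.range := by
      apply le_antisymm
      · rintro _ ⟨b, rfl⟩
        exact ⟨hconj _ (b : Bf).2, ⟨_, rfl⟩⟩
      · rintro x ⟨⟨_, ⟨u', rfl⟩, hx1⟩, ⟨u, rfl⟩⟩
        have hu : (u : K) ∈ Bf := by
          rw [hBf, hBmem]
          refine ⟨(u' : K), ?_⟩
          rw [← hLval, ← hLval, ← hx1]
          simp [MulAut.conj_apply]
        have hu0 : (⟨(u : K), hu⟩ : Bf) ≠ 0 := by
          intro h0
          exact u.ne_zero (congrArg Subtype.val h0)
        refine ⟨Units.mk0 ⟨(u : K), hu⟩ hu0, ?_⟩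
        show L _ = L u
        congr 1
        apply Units.ext
        rfl
    rw [← hrange]
    have hcard : Nat.card φ.range = Nat.card Bfˣ :=
      Nat.card_congr (MonoidHom.ofInjective hφinj).symm.toEquiv
    rw [hcard, Nat.card_units, Module.natCard_eq_pow_finrank (K := F), Nat.card_eq_fintype_card]

end Cfsg.Agent.S5739
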