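import Cfsg.Statements.S5754
import Mathlib
-- import your own Cfsg.Agent.* helpers here

set_option autoImplicit false
open Cfsg

namespace Cfsg.Agent.S5754

theorem q_add {F V : Type*} [Field F] [AddCommGroup V] [Module F V]
    (Q : QuadraticForm F V) (a b : V) :
    Q (a + b) = Q a + Q b + QuadraticMap.polar Q a b := by
  unfold QuadraticMap.polar; ring

theorem polar_zz {F V : Type*} [Field F] [AddCommGroup V] [Module F V]
    (Q : QuadraticForm F V) (z : V) : QuadraticMap.polar Q z z = 2 * Q z := by
  have h : z + z = (2 : F) • z := (two_smul F z).symm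
  unfold QuadraticMap.polar
  rw [h, QuadraticMap.map_smul, smul_eq_mul]; ring

theorem polar_eq {F V : Type*} [Field F] [AddCommGroup V] [Module F V]
    (Q : QuadraticForm F V) (a b : V) :
    QuadraticMap.polar Q a b = Q a + Q b - Q (a - b) := by
  have h1 := q_add Q (a - b) b
  rw [sub_add_cancel, QuadraticMap.polar_sub_left] at h1
  have hbb := polar_zz Q b
  linear_combination (-1 : F) * h1 + hbb

theorem refl_exists {F V : Type*} [Field F] [AddCommGroup V] [Module F V]
    (Q : QuadraticForm F V) (z : V) (hz : Q z ≠ 0) :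
    ∃ r : Q.IsometryEquiv Q, ∀ y, r y = y - ((Q z)⁻¹ * QuadraticMap.polar Q z y) • z := by
  have hf : ((Q z)⁻¹ • (QuadraticMap.polarBilin Q z) : Module.Dual F V) z = 2 := by
    rw [LinearMap.smul_apply, QuadraticMap.polarBilin_apply_apply, polar_zz, smul_eq_mul]
    field_simp
  have happ : ∀ y, Module.reflection hf y = y - ((Q z)⁻¹ * QuadraticMap.polar Q z y) • z := by
    intro y
    rw [Module.reflection_apply, LinearMap.smul_apply, QuadraticMap.polarBilin_apply_apply,
      smul_eq_mul]
  refine ⟨{ toLinearEquiv := Module.reflection hf, map_app' := ?_ }, ?_⟩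
  · intro y
    show Q (Module.reflection hf y) = Q y
    rw [happ]
    have hc : QuadraticMap.polar Q z y = QuadraticMap.polar Q y z := QuadraticMap.polar_comm _ _ _
    have e : y - ((Q z)⁻¹ * QuadraticMap.polar Q z y) • z
        = y + (-((Q z)⁻¹ * QuadraticMap.polar Q z y)) • z := by
      rw [neg_smul, sub_eq_add_neg]
    rw [e, q_add, QuadraticMap.map_smul, QuadraticMap.polar_smul_right, hc]
    simp only [smul_eq_mul]
    field_simp
    ring
  · intro y
    exact happ y

theorem match_aux {F V ι : Type*} [Field F] [AddCommGroup V] [Module F V] [DecidableEq ι]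
    (Q : QuadraticForm F V) (hQ : Q.Anisotropic) (w w' : ι → V)
    (h1 : ∀ i, Q (w i) = Q (w' i)) (h2 : ∀ i j, Q (w i - w j) = Q (w' i - w' j))
    (s : Finset ι) : ∃ φ : Q.IsometryEquiv Q, ∀ i ∈ s, φ (w i) = w' i := by
  induction s using Finset.induction_on with
  | empty => exact ⟨QuadraticMap.IsometryEquiv.refl Q, by simp⟩
  | insert a s ha ih =>
    obtain ⟨φ, hφ⟩ := ih
    by_cases hxy : φ (w a) = w' a
    · refine ⟨φ, fun i hi => ?_⟩
      rcases Finset.mem_insert.mp hi with rfl | hi
      · exact hxy
      · exact hφ i hi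
    · have hz : Q (φ (w a) - w' a) ≠ 0 := fun h0 => hxy (sub_eq_zero.mp (hQ _ h0))
      obtain ⟨r, hr⟩ := refl_exists Q _ hz
      have hxq : Q (φ (w a)) = Q (w' a) := by rw [φ.map_app, h1]
      have ht : ∀ v, (φ.trans r) v = r (φ v) := fun v => rfl
      refine ⟨φ.trans r, fun i hi => ?_⟩
      rw [ht]
      rcases Finset.mem_insert.mp hi with rfl | hi
      · rw [hr]
        have hp : QuadraticMap.polar Q (φ (w i) - w' i) (φ (w i)) = Q (φ (w i) - w' i) := by
          rw [QuadraticMap.polar_sub_left, polar_zz, polar_eq Q (w' i) (φ (w i)),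
            QuadraticMap.map_sub Q (w' i) (φ (w i)), hxq]
          ring
        rw [hp, inv_mul_cancel₀ hz, one_smul, sub_sub_cancel]
      · rw [hφ i hi, hr]
        have hq : Q (φ (w a) - φ (w i)) = Q (w' a - w' i) := by
          rw [← map_sub, φ.map_app, h2]
        rw [hφ i hi] at hq
        have hp : QuadraticMap.polar Q (φ (w a) - w' a) (w' i) = 0 := by
          rw [QuadraticMap.polar_sub_left, polar_eq Q (φ (w a)) (w' i), polar_eq Q (w' a) (w' i),
            hq, hxq]
          ring
        rw [hp, mul_zero, zero_smul, sub_zero]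

/-- Let V be a finite-dimensional vector space over a finite field F carrying an anisotropic quadratic form Q (Q(v) = 0 only for v = 0). Then the group of all maps v ↦ φ(v) + c, with φ an isometry of Q and c ∈ V, acts on V as a binary permutation group: given n ≥ 2 and two n-tuples u, u' of vectors such that every pair of corresponding entries of u is carried to that of u' by such a map, one such map carries u to u'. -/
theorem result {F V : Type*} [Field F] [Finite F] [AddCommGroup V] [Module F V] [Module.Finite F V]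
    (Q : QuadraticForm F V) (hQ : Q.Anisotropic) (n : ℕ) (hn : 2 ≤ n) (u u' : Fin n → V)
    (h2 : ∀ i j : Fin n, i ≠ j → ∃ (φ : Q.IsometryEquiv Q) (c : V), φ (u i) + c = u' i ∧ φ (u j) + c = u' j) :
    ∃ (φ : Q.IsometryEquiv Q) (c : V), ∀ i, φ (u i) + c = u' i := by
  classical
  have hn0 : 0 < n := by omega
  obtain ⟨i0, hi0⟩ : ∃ i0 : Fin n, i0 = ⟨0, hn0⟩ := ⟨_, rfl⟩
  have hd : ∀ i j : Fin n, Q (u i - u j) = Q (u' i - u' j) := by
    intro i j
    by_cases hij : i = j
    · subst hij; simp
    · obtain ⟨φ, c, e1, e2⟩ := h2 i j hij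
      rw [← e1, ← e2]
      have e3 : φ (u i) + c - (φ (u j) + c) = φ (u i - u j) := by rw [map_sub]; abel
      rw [e3, φ.map_app]
  obtain ⟨φ, hφ⟩ := match_aux Q hQ (fun i => u i - u i0) (fun i => u' i - u' i0)
    (fun i => hd i i0) (fun i j => by
      have e1 : u i - u i0 - (u j - u i0) = u i - u j := by abel
      have e2 : u' i - u' i0 - (u' j - u' i0) = u' i - u' j := by abel
      show Q (u i - u i0 - (u j - u i0)) = Q (u' i - u' i0 - (u' j - u' i0))
      rw [e1, e2]; exact hd i j) Finset.univ
  refine ⟨φ, u' i0 - φ (u i0), fun i => ?_⟩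
  have h3 : φ (u i - u i0) = u' i - u' i0 := hφ i (Finset.mem_univ i)
  rw [map_sub] at h3
  have h4 : φ (u i) = u' i - u' i0 + φ (u i0) := eq_add_of_sub_eq h3
  rw [h4]; abel

end Cfsg.Agent.S5754
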