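import Cfsg.Statements.S5902
import Cfsg.Agent.S5901

set_option autoImplicit false
open Cfsg

namespace Cfsg.Agent.S5902

/-- Let G be a finite group, X a subgroup whose own subgroup lattice is complemented, and suppose X lies in exactly one maximal subgroup M of G. Then every subgroup H of G not contained in the normal core of M has a complement in the subgroup lattice of G (some C with H ⊔ C = G and H ⊓ C = 1); in particular the subgroup lattice of G modulo the normal core of M is complemented. -/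
theorem result {G : Type*} [Group G] [Finite G] (X M : Subgroup G)
    (hK : ComplementedLattice (Subgroup X))
    (hM : IsCoatom M) (hXM : X ≤ M) (huniq : ∀ M' : Subgroup G, IsCoatom M' → X ≤ M' → M' = M) :
    (∀ H : Subgroup G, ¬ H ≤ M.normalCore → ∃ C : Subgroup G, H ⊔ C = ⊤ ∧ H ⊓ C = ⊥) ∧
    ComplementedLattice (Subgroup (G ⧸ M.normalCore)) := by
  have hX : X ≠ ⊤ := fun h => hM.1 (top_le_iff.mp (h ▸ hXM))
  have hint : ∀ Y : Subgroup G, (⊥ : Subgroup G) ≤ Y → Y ≤ X →
      ∃ C : Subgroup G, (⊥ : Subgroup G) ≤ C ∧ C ≤ X ∧ Y ⊔ C = X ∧ Y ⊓ C = ⊥ := by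
    intro Y _ hYX
    obtain ⟨C', hC'⟩ := hK.exists_isCompl (Y.subgroupOf X)
    refine ⟨C'.map X.subtype, bot_le, Subgroup.map_subtype_le C', ?_, ?_⟩
    · have h1 : Y = (Y.subgroupOf X).map X.subtype := (Subgroup.map_subgroupOf_eq_of_le hYX).symm
      rw [h1, ← Subgroup.map_sup, hC'.sup_eq_top, ← MonoidHom.range_eq_map, Subgroup.range_subtype]
    · have h1 : Y = (Y.subgroupOf X).map X.subtype := (Subgroup.map_subgroupOf_eq_of_le hYX).symm
      rw [h1, ← Subgroup.map_inf _ _ _ (Subgroup.subtype_injective X), hC'.inf_eq_bot, Subgroup.map_bot]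
  have key : ∀ H : Subgroup G, ¬ H ≤ M.normalCore → ∃ C : Subgroup G, H ⊔ C = ⊤ ∧ H ⊓ C = ⊥ := by
    intro H hH
    obtain ⟨a, haH, haN⟩ := Set.not_subset.mp hH
    have : ¬ ∀ b : G, b * a * b⁻¹ ∈ M := haN
    obtain ⟨b, hb⟩ := not_forall.mp this
    let φ : Subgroup G ≃o Subgroup G := (MulAut.conj b).mapSubgroup
    have hH' : ¬ φ H ≤ M := by
      intro hle
      apply hb
      apply hle
      exact ⟨a, haH, rfl⟩
    obtain ⟨C', h1, h2⟩ := Cfsg.Agent.S5901.result ⊥ X M bot_le hX hint hM hXM huniq (φ H) hH' (by simp)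
    refine ⟨φ.symm C', ?_, ?_⟩
    · apply φ.injective
      rw [map_sup, OrderIso.apply_symm_apply, h1, map_top]
    · apply φ.injective
      rw [map_inf, OrderIso.apply_symm_apply, h2, map_bot]
  refine ⟨key, ⟨fun Kb => ?_⟩⟩
  by_cases hKb : Kb = ⊥
  · exact ⟨⊤, hKb ▸ isCompl_bot_top⟩
  · have hsurj : Function.Surjective (QuotientGroup.mk' M.normalCore) := QuotientGroup.mk'_surjective _
    have hK1 : ¬ Kb.comap (QuotientGroup.mk' M.normalCore) ≤ M.normalCore := by
      intro hle
      apply hKb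
      rw [eq_bot_iff, ← Subgroup.map_comap_eq_self_of_surjective hsurj Kb]
      exact (Subgroup.map_mono hle).trans (QuotientGroup.map_mk'_self M.normalCore).le
    obtain ⟨C, h1, h2⟩ := key _ hK1
    refine ⟨C.map (QuotientGroup.mk' M.normalCore), IsCompl.of_eq ?_ ?_⟩
    · rw [eq_bot_iff]
      rintro x ⟨hxK, c, hcC, rfl⟩
      have hcK : c ∈ Kb.comap (QuotientGroup.mk' M.normalCore) := hxK
      have : c ∈ Kb.comap (QuotientGroup.mk' M.normalCore) ⊓ C := ⟨hcK, hcC⟩
      rw [h2] at this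
      rw [Subgroup.mem_bot] at this
      subst this
      simp
    · rw [← Subgroup.map_comap_eq_self_of_surjective hsurj Kb, ← Subgroup.map_sup, h1,
        Subgroup.map_top_of_surjective _ hsurj]

end Cfsg.Agent.S5902
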