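import Cfsg.Statements.S5903
import Cfsg.Agent.S5901

set_option autoImplicit false
open Cfsg

namespace Cfsg.Agent.S5903

/-- Let G be a finite simple group, X a subgroup lying in exactly one maximal subgroup M of G, and N a subgroup of prime order with N ≤ X that is central in M. If the subgroup lattice of X/N is complemented, then the subgroup lattice of G is complemented. -/
theorem result {G : Type*} [Group G] [Finite G] [IsSimpleGroup G] (X M N : Subgroup G)
    (hM : IsCoatom M) (hXM : X ≤ M) (huniq : ∀ M' : Subgroup G, IsCoatom M' → X ≤ M' → M' = M)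
    (hNX : N ≤ X) (hN : (Nat.card N).Prime) (hcen : ∀ n ∈ N, ∀ m ∈ M, m * n = n * m)
    [(N.subgroupOf X).Normal] (hK : ComplementedLattice (Subgroup (X ⧸ N.subgroupOf X))) :
    ComplementedLattice (Subgroup G) := by
  have hX : X ≠ ⊤ := fun h => hM.1 (top_le_iff.mp (h ▸ hXM))
  have hsurj : Function.Surjective (QuotientGroup.mk' (N.subgroupOf X)) := QuotientGroup.mk'_surjective _
  have hint : ∀ Y : Subgroup G, N ≤ Y → Y ≤ X →
      ∃ C : Subgroup G, N ≤ C ∧ C ≤ X ∧ Y ⊔ C = X ∧ Y ⊓ C = N := by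
    intro Y hNY hYX
    obtain ⟨Cb, hCb⟩ := hK.exists_isCompl ((Y.subgroupOf X).map (QuotientGroup.mk' (N.subgroupOf X)))
    have hkerπ : (QuotientGroup.mk' (N.subgroupOf X)).ker = N.subgroupOf X := QuotientGroup.ker_mk' _
    have hker : (QuotientGroup.mk' (N.subgroupOf X)).ker ≤ Y.subgroupOf X := by
      rw [hkerπ]
      exact Subgroup.subgroupOf_mono X hNY
    have hY1 : Y = (Y.subgroupOf X).map X.subtype := (Subgroup.map_subgroupOf_eq_of_le hYX).symm
    have hN1 : N = (N.subgroupOf X).map X.subtype := (Subgroup.map_subgroupOf_eq_of_le hNX).symm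
    have hcm : ((Y.subgroupOf X).map (QuotientGroup.mk' (N.subgroupOf X))).comap
        (QuotientGroup.mk' (N.subgroupOf X)) = Y.subgroupOf X := Subgroup.comap_map_eq_self hker
    refine ⟨(Cb.comap (QuotientGroup.mk' (N.subgroupOf X))).map X.subtype, ?_, Subgroup.map_subtype_le _, ?_, ?_⟩
    · conv_lhs => rw [hN1]
      apply Subgroup.map_mono
      exact hkerπ.ge.trans (MonoidHom.ker_le_comap _ _)
    · conv_lhs => rw [hY1]
      rw [← Subgroup.map_sup, ← hcm, Subgroup.comap_sup_eq _ _ _ hsurj, hCb.sup_eq_top, Subgroup.comap_top,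
        ← MonoidHom.range_eq_map, Subgroup.range_subtype]
    · conv_lhs => rw [hY1]
      rw [← Subgroup.map_inf _ _ _ (Subgroup.subtype_injective X), ← hcm, ← Subgroup.comap_inf,
        hCb.inf_eq_bot, MonoidHom.comap_bot, hkerπ]
      exact hN1.symm
  have hNbot : N ≠ ⊥ := by
    intro h
    rw [h] at hN
    simp at hN
    exact Nat.not_prime_one hN
  have hfact : Fact (Nat.card N).Prime := ⟨hN⟩
  refine ⟨fun H => ?_⟩
  by_cases hHbot : H = ⊥
  · exact ⟨⊤, hHbot ▸ isCompl_bot_top⟩
  by_cases hHtop : H = ⊤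
  · exact ⟨⊥, hHtop ▸ isCompl_top_bot⟩
  have hex : ∃ b : G, ¬ (MulAut.conj b).mapSubgroup H ≤ M ∧ (MulAut.conj b).mapSubgroup H ⊓ N = ⊥ := by
    by_contra hcon
    have hcon' : ∀ b : G, (MulAut.conj b).mapSubgroup H ≤ M ∨ N ≤ (MulAut.conj b).mapSubgroup H := by
      intro b
      by_cases h1 : (MulAut.conj b).mapSubgroup H ≤ M
      · exact Or.inl h1
      · right
        have h2 : ¬ ((MulAut.conj b).mapSubgroup H ⊓ N = ⊥) := fun h2 => hcon ⟨b, h1, h2⟩
        rcases (((MulAut.conj b).mapSubgroup H ⊓ N).subgroupOf N).eq_bot_or_eq_top_of_prime_card with h3 | h3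
        · exfalso
          apply h2
          rw [Subgroup.subgroupOf_eq_bot] at h3
          have := h3.eq_bot
          rwa [inf_assoc, inf_idem] at this
        · rw [Subgroup.subgroupOf_eq_top] at h3
          exact h3.trans inf_le_left
    have hfw : ∀ b : G, ∀ n ∈ N, ∀ h ∈ H, (b * n * b⁻¹) * h * (b * n * b⁻¹)⁻¹ ∈ H := by
      intro b n hn h hh
      rcases hcon' b⁻¹ with h1 | h1
      · have hm : b⁻¹ * h * b ∈ M := by
          apply h1
          refine ⟨h, hh, ?_⟩
          simp
        have hc := hcen n hn _ hm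
        have : (b * n * b⁻¹) * h * (b * n * b⁻¹)⁻¹ = h := by
          have e1 : n * (b⁻¹ * h * b) * n⁻¹ = b⁻¹ * h * b := by
            rw [← hc]; group
          calc (b * n * b⁻¹) * h * (b * n * b⁻¹)⁻¹ = b * (n * (b⁻¹ * h * b) * n⁻¹) * b⁻¹ := by group
            _ = h := by rw [e1]; group
        rw [this]
        exact hh
      · obtain ⟨h', hh', he⟩ := h1 hn
        have he' : b * n * b⁻¹ = h' := by
          have : b⁻¹ * h' * b⁻¹⁻¹ = n := he
          rw [← this]; group
        rw [he']
        exact H.mul_mem (H.mul_mem hh' hh) (H.inv_mem hh')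
    have hNcore : N ≤ (Subgroup.normalizer (H : Set G)).normalCore := by
      intro n hn b
      rw [Subgroup.mem_normalizer_iff]
      intro h
      refine ⟨fun hh => hfw b n hn h hh, fun hh => ?_⟩
      have := hfw b n⁻¹ (N.inv_mem hn) _ hh
      have e : b * n⁻¹ * b⁻¹ * (b * n * b⁻¹ * h * (b * n * b⁻¹)⁻¹) * (b * n⁻¹ * b⁻¹)⁻¹ = h := by group
      rwa [e] at this
    have hcore : (Subgroup.normalizer (H : Set G)).normalCore = ⊤ := by
      rcases (Subgroup.normalCore_normal (Subgroup.normalizer (H : Set G))).eq_bot_or_eq_top with h | h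
      · exact absurd (le_bot_iff.mp (h ▸ hNcore)) hNbot
      · exact h
    have hnorm : H.Normal := by
      rw [← Subgroup.normalizer_eq_top_iff, eq_top_iff, ← hcore]
      exact Subgroup.normalCore_le _
    rcases hnorm.eq_bot_or_eq_top with h | h
    · exact hHbot h
    · exact hHtop h
  obtain ⟨b, hb1, hb2⟩ := hex
  obtain ⟨C', h1, h2⟩ := Cfsg.Agent.S5901.result N X M hNX hX hint hM hXM huniq _ hb1 hb2
  refine ⟨(MulAut.conj b).mapSubgroup.symm C', IsCompl.of_eq ?_ ?_⟩
  · apply (MulAut.conj b).mapSubgroup.injective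
    rw [map_inf, OrderIso.apply_symm_apply, h2, map_bot]
  · apply (MulAut.conj b).mapSubgroup.injective
    rw [map_sup, OrderIso.apply_symm_apply, h1, map_top]

end Cfsg.Agent.S5903
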