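import Cfsg.Statements.S5904
-- import your own Cfsg.Agent.* helpers here

set_option autoImplicit false
open scoped Pointwise
open Cfsg

namespace Cfsg.Agent.S5904

/-- Let Ω be a finite set with more than two elements and O ⊆ Ω a subset with exactly as many elements as its complement. Then the setwise stabilizer of O in the symmetric group on Ω is not a maximal subgroup (it is properly contained in the stabilizer of the partition {O, Ω ∖ O}, which is proper). -/
theorem result {Ω : Type*} [Fintype Ω] [DecidableEq Ω] (hΩ : 2 < Fintype.card Ω)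
    (O : Set Ω) (hO : Nat.card O = Nat.card ↥Oᶜ) :
    ¬ IsCoatom (MulAction.stabilizer (Equiv.Perm Ω) O) := by
  classical
  intro hco
  have hsum : Nat.card O + Nat.card ↥Oᶜ = Fintype.card Ω := by
    rw [← Nat.card_eq_fintype_card, Nat.card_coe_set_eq, Nat.card_coe_set_eq]
    exact Set.ncard_add_ncard_compl O
  obtain ⟨a, c, ha, hc, hac⟩ : ∃ a c, a ∈ O ∧ c ∈ O ∧ a ≠ c := by
    have h1 : 1 < O.ncard := by rw [← Nat.card_coe_set_eq]; omega
    exact (Set.one_lt_ncard_iff (Set.toFinite O)).mp h1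
  obtain ⟨b, hb⟩ : ∃ b, b ∈ Oᶜ := by
    have h0 : 0 < (Oᶜ).ncard := by rw [← Nat.card_coe_set_eq]; omega
    exact (Set.ncard_pos (Set.toFinite _)).mp h0
  obtain ⟨e⟩ : Nonempty (O ≃ ↥Oᶜ) := Finite.card_eq.mp hO
  let σ : Equiv.Perm Ω := (Equiv.Set.sumCompl O).symm.trans
    ((Equiv.sumCongr e e.symm).trans ((Equiv.sumComm _ _).trans (Equiv.Set.sumCompl O)))
  have hσ1 : ∀ x ∈ O, σ x ∈ Oᶜ := by
    intro x hx
    have : σ x = (e ⟨x, hx⟩ : Ω) := by
      simp [σ, Equiv.Set.sumCompl_symm_apply_of_mem hx]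
    rw [this]
    exact (e ⟨x, hx⟩).2
  have hσ2 : ∀ x ∈ Oᶜ, σ x ∈ O := by
    intro x hx
    have : σ x = (e.symm ⟨x, hx⟩ : Ω) := by
      simp [σ, Equiv.Set.sumCompl_symm_apply_of_notMem hx]
    rw [this]
    exact (e.symm ⟨x, hx⟩).2
  have hσO : σ • O = Oᶜ := by
    apply Set.Subset.antisymm
    · rintro _ ⟨x, hx, rfl⟩
      exact hσ1 x hx
    · intro y hy
      refine ⟨σ⁻¹ y, ?_, by simp⟩
      by_contra hn
      have h2 := hσ2 (σ⁻¹ y) hn
      simp at h2
      exact hy h2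
  have hKmem : ∀ g : Equiv.Perm Ω, g ∈ MulAction.stabilizer (Equiv.Perm Ω) ({O, Oᶜ} : Set (Set Ω)) ↔
      (g • O = O ∨ g • O = Oᶜ) := by
    intro g
    rw [MulAction.mem_stabilizer_iff]
    have h1 : g • ({O, Oᶜ} : Set (Set Ω)) = {g • O, (g • O)ᶜ} := by
      rw [Set.smul_set_insert, Set.smul_set_singleton, Set.smul_set_compl]
    rw [h1]
    constructor
    · intro h
      have h2 : g • O ∈ ({O, Oᶜ} : Set (Set Ω)) := by rw [← h]; simp
      simpa using h2
    · rintro (h | h)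
      · rw [h]
      · rw [h, compl_compl, Set.pair_comm]
  have hle : MulAction.stabilizer (Equiv.Perm Ω) O ≤
      MulAction.stabilizer (Equiv.Perm Ω) ({O, Oᶜ} : Set (Set Ω)) :=
    fun g hg => (hKmem g).mpr (Or.inl hg)
  have hOne : O ≠ Oᶜ := by
    intro h
    have h2 : a ∈ Oᶜ := h ▸ ha
    exact h2 ha
  have hσK : σ ∈ MulAction.stabilizer (Equiv.Perm Ω) ({O, Oᶜ} : Set (Set Ω)) :=
    (hKmem σ).mpr (Or.inr hσO)
  have hσH : σ ∉ MulAction.stabilizer (Equiv.Perm Ω) O := by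
    intro h
    rw [MulAction.mem_stabilizer_iff, hσO] at h
    exact hOne h.symm
  have hlt : MulAction.stabilizer (Equiv.Perm Ω) O <
      MulAction.stabilizer (Equiv.Perm Ω) ({O, Oᶜ} : Set (Set Ω)) :=
    lt_of_le_of_ne hle (fun h => hσH (h ▸ hσK))
  have hKtop := hco.2 _ hlt
  have hτ : Equiv.swap a b ∈ MulAction.stabilizer (Equiv.Perm Ω) ({O, Oᶜ} : Set (Set Ω)) := by
    rw [hKtop]; trivial
  rcases (hKmem _).mp hτ with h | h
  · have h2 : b ∈ Equiv.swap a b • O := ⟨a, ha, by simp⟩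
    rw [h] at h2
    exact hb h2
  · have hcb : c ≠ b := fun h => hb (h ▸ hc)
    have h2 : c ∈ Equiv.swap a b • O := ⟨c, hc, by simp [Equiv.swap_apply_of_ne_of_ne hac.symm hcb]⟩
    rw [h] at h2
    exact h2 hc

end Cfsg.Agent.S5904
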