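import Cfsg.Statements.S5905
import Mathlib

set_option autoImplicit false
open Cfsg

namespace Cfsg.Agent.S5905

/-- Let Ω be a finite set and f : Ω → Fin b a map onto b ≥ 2 labels whose fibres all have the same size a ≥ 2 (a partition of Ω into b blocks of size a, so |Ω| = ab). Then the stabilizer of this partition in the symmetric group on Ω — the permutations g such that x and y lie in the same block exactly when g x and g y do, a group isomorphic to the imprimitive wreath product S_a ≀ S_b — is a maximal subgroup of the symmetric group. -/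
theorem result {Ω : Type*} [Fintype Ω] [DecidableEq Ω] (a b : ℕ) (ha : 2 ≤ a) (hb : 2 ≤ b)
    (f : Ω → Fin b) (hf : ∀ i : Fin b, Nat.card {x : Ω // f x = i} = a) :
    IsCoatom (Subgroup.closure {g : Equiv.Perm Ω | ∀ x y : Ω, f x = f y ↔ f (g x) = f (g y)}) := by
  classical
  -- the partition-preserving permutations form a subgroup
  let H : Subgroup (Equiv.Perm Ω) :=
    { carrier := {g : Equiv.Perm Ω | ∀ x y : Ω, f x = f y ↔ f (g x) = f (g y)}
      one_mem' := fun x y => Iff.rfl
      mul_mem' := fun {g h} hg hh x y => (hh x y).trans (hg (h x) (h y))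
      inv_mem' := fun {g} hg x y => by
        have := hg (g⁻¹ x) (g⁻¹ y)
        simp only [Equiv.Perm.coe_inv, Equiv.apply_symm_apply] at this
        exact this.symm }
  have hcl : Subgroup.closure {g : Equiv.Perm Ω | ∀ x y : Ω, f x = f y ↔ f (g x) = f (g y)} = H :=
    Subgroup.closure_eq H
  rw [hcl]
  have hmemH : ∀ g : Equiv.Perm Ω, g ∈ H ↔ ∀ x y : Ω, f x = f y ↔ f (g x) = f (g y) := fun g => Iff.rfl
  -- within-block swaps are in H
  have hswapH : ∀ x y : Ω, f x = f y → Equiv.swap x y ∈ H := by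
    intro x y hxy
    have key : ∀ u : Ω, f (Equiv.swap x y u) = f u := by
      intro u
      by_cases hux : u = x
      · subst hux; rw [Equiv.swap_apply_left]; exact hxy.symm
      · by_cases huy : u = y
        · subst huy; rw [Equiv.swap_apply_right]; exact hxy
        · rw [Equiv.swap_apply_of_ne_of_ne hux huy]
    rw [hmemH]
    intro u v
    rw [key u, key v]
  -- coordinates
  let e : ∀ i : Fin b, {x : Ω // f x = i} ≃ Fin a := fun i => Finite.equivFinOfCardEq (hf i)
  let φ : Ω ≃ Fin b × Fin a :=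
    (Equiv.sigmaFiberEquiv f).symm.trans ((Equiv.sigmaCongrRight e).trans (Equiv.sigmaEquivProd (Fin b) (Fin a)))
  have hφ : ∀ x : Ω, (φ x).1 = f x := fun x => rfl
  -- block permutations
  have hblock : ∀ σ : Equiv.Perm (Fin b), ∃ h ∈ H, ∀ x : Ω, f (h x) = σ (f x) := by
    intro σ
    have hkey : ∀ x : Ω, f ((φ.trans ((Equiv.prodCongr σ (Equiv.refl (Fin a))).trans φ.symm)) x) = σ (f x) := by
      intro x
      show (φ ((φ.trans ((Equiv.prodCongr σ (Equiv.refl (Fin a))).trans φ.symm)) x)).1 = σ (φ x).1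
      simp
    refine ⟨φ.trans ((Equiv.prodCongr σ (Equiv.refl (Fin a))).trans φ.symm), ?_, hkey⟩
    rw [hmemH]
    intro x y
    rw [hkey x, hkey y]
    exact σ.injective.eq_iff.symm
  refine ⟨?_, ?_⟩
  · -- H ≠ ⊤
    intro htop
    have h0 : (0 : ℕ) < b := by omega
    have h1 : (1 : ℕ) < b := by omega
    have hc0 : 1 < Nat.card {x : Ω // f x = ⟨0, h0⟩} := by rw [hf]; omega
    have hc1 : 0 < Nat.card {x : Ω // f x = ⟨1, h1⟩} := by rw [hf]; omega
    rw [Nat.card_eq_fintype_card] at hc0 hc1
    obtain ⟨⟨x, hx⟩, ⟨y, hy⟩, hxy⟩ := Fintype.one_lt_card_iff.mp hc0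
    obtain ⟨⟨z, hz⟩⟩ := Fintype.card_pos_iff.mp hc1
    have hxy' : x ≠ y := fun h => hxy (Subtype.ext h)
    have hne : f x ≠ f z := by
      rw [hx, hz]; intro h; simp [Fin.ext_iff] at h
    have hxz : x ≠ z := fun h => hne (h ▸ rfl)
    have hmem : Equiv.swap y z ∈ H := by rw [htop]; trivial
    have := (hmem x y).mp (hx.trans hy.symm)
    rw [Equiv.swap_apply_of_ne_of_ne hxy' hxz, Equiv.swap_apply_left] at this
    exact hne this
  · intro K hK
    obtain ⟨g, hgK, hgH⟩ := SetLike.exists_of_lt hK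
    have hHK : H ≤ K := le_of_lt hK
    -- a cross-block swap in K
    have hcross : ∃ u v : Ω, f u ≠ f v ∧ Equiv.swap u v ∈ K := by
      rw [hmemH] at hgH
      push Not at hgH
      obtain ⟨x, y, hxy⟩ := hgH
      rcases hxy with ⟨h1, h2⟩ | ⟨h1, h2⟩
      · refine ⟨g x, g y, h2, ?_⟩
        rw [Equiv.swap_apply_apply]
        exact K.mul_mem (K.mul_mem hgK (hHK (hswapH x y h1))) (K.inv_mem hgK)
      · refine ⟨x, y, h1, ?_⟩
        have h3 : Equiv.swap x y = g⁻¹ * Equiv.swap (g x) (g y) * g⁻¹⁻¹ := by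
          rw [← Equiv.swap_apply_apply]; simp
        rw [h3]
        exact K.mul_mem (K.mul_mem (K.inv_mem hgK) (hHK (hswapH _ _ h2))) (K.inv_mem (K.inv_mem hgK))
    obtain ⟨u, v, huv, hsw⟩ := hcross
    -- spread within the two blocks
    have hspread : ∀ s t : Ω, f s = f u → f t = f v → Equiv.swap s t ∈ K := by
      intro s t hs ht
      have hc : Equiv.swap u s * Equiv.swap v t ∈ K :=
        K.mul_mem (hHK (hswapH u s hs.symm)) (hHK (hswapH v t ht.symm))
      have hut : u ≠ t := fun h => huv (by rw [h, ht])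
      have hst : s ≠ t := fun h => huv (by rw [← hs, h, ht])
      have h1 : (Equiv.swap u s * Equiv.swap v t) u = s := by
        rw [Equiv.Perm.mul_apply, Equiv.swap_apply_of_ne_of_ne (fun h => huv (by rw [h])) hut, Equiv.swap_apply_left]
      have h2 : (Equiv.swap u s * Equiv.swap v t) v = t := by
        rw [Equiv.Perm.mul_apply, Equiv.swap_apply_left, Equiv.swap_apply_of_ne_of_ne hut.symm hst.symm]
      have h3 := Equiv.swap_apply_apply (Equiv.swap u s * Equiv.swap v t) u v
      rw [h1, h2] at h3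
      rw [h3]
      exact K.mul_mem (K.mul_mem hc hsw) (K.inv_mem hc)
    -- all cross-block swaps
    have hall : ∀ s t : Ω, f s ≠ f t → Equiv.swap s t ∈ K := by
      intro s t hst
      -- σ with σ (f u) = f s, σ (f v) = f t
      set σ₁ : Equiv.Perm (Fin b) := Equiv.swap (f u) (f s) with hσ₁
      set σ : Equiv.Perm (Fin b) := Equiv.swap (σ₁ (f v)) (f t) * σ₁ with hσ
      have hσu : σ (f u) = f s := by
        rw [hσ, Equiv.Perm.mul_apply]
        have h1 : σ₁ (f u) = f s := by rw [hσ₁, Equiv.swap_apply_left]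
        rw [h1]
        apply Equiv.swap_apply_of_ne_of_ne
        · intro h
          rw [← h1] at h
          exact huv (σ₁.injective h)
        · exact hst
      have hσv : σ (f v) = f t := by
        rw [hσ, Equiv.Perm.mul_apply, Equiv.swap_apply_left]
      obtain ⟨h, hhH, hh⟩ := hblock σ
      have hs' : f (h⁻¹ s) = f u := by
        apply σ.injective
        rw [← hh, Equiv.Perm.coe_inv, Equiv.apply_symm_apply, hσu]
      have ht' : f (h⁻¹ t) = f v := by
        apply σ.injective
        rw [← hh, Equiv.Perm.coe_inv, Equiv.apply_symm_apply, hσv]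
      have h3 := Equiv.swap_apply_apply h (h⁻¹ s) (h⁻¹ t)
      rw [Equiv.Perm.coe_inv, Equiv.apply_symm_apply, Equiv.apply_symm_apply] at h3
      rw [h3]
      exact K.mul_mem (K.mul_mem (hHK hhH) (hspread _ _ hs' ht')) (K.inv_mem (hHK hhH))
    rw [eq_top_iff, ← Equiv.Perm.closure_isSwap, Subgroup.closure_le]
    rintro τ ⟨s, t, hst, rfl⟩
    by_cases hf' : f s = f t
    · exact hHK (hswapH s t hf')
    · exact hall s t hf'


end Cfsg.Agent.S5905
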