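import Cfsg.Statements.S5913
-- import your own Cfsg.Agent.* helpers here

set_option autoImplicit false
open Cfsg

namespace Cfsg.Agent.S5913

/-- Let S be a non-abelian simple group and n a natural number. Every normal subgroup N of the direct power S^n (functions Fin n → S) is a subproduct: there is a set T of coordinates such that N consists exactly of the elements whose coordinates outside T are trivial. In particular the minimal normal subgroups of S^n are its n factors. -/
theorem result {S : Type*} [Group S] [IsSimpleGroup S] (hS : ¬ IsMulCommutative S) (n : ℕ)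
    (N : Subgroup (Fin n → S)) [N.Normal] :
    ∃ T : Finset (Fin n), ∀ x : Fin n → S, x ∈ N ↔ ∀ i, i ∉ T → x i = 1 := by
  classical
  have hcenter : Subgroup.center S = ⊥ := by
    rcases (Subgroup.center S).normal_of_characteristic.eq_bot_or_eq_top with h | h
    · exact h
    · exfalso
      apply hS
      refine ⟨⟨fun a b => ?_⟩⟩
      have ha : a ∈ Subgroup.center S := by rw [h]; trivial
      exact ((Subgroup.mem_center_iff.mp ha) b).symm
  have key : ∀ i : Fin n, (∃ y ∈ N, y i ≠ 1) → ∀ s : S, Pi.mulSingle i s ∈ N := by
    rintro i ⟨y, hyN, hyi⟩ s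
    have hK : (N.comap (MonoidHom.mulSingle (fun _ : Fin n => S) i)).Normal := Subgroup.Normal.comap inferInstance _
    have hyc : y i ∉ Subgroup.center S := by
      rw [hcenter, Subgroup.mem_bot]
      exact hyi
    rw [Subgroup.mem_center_iff] at hyc
    push Not at hyc
    obtain ⟨t, ht⟩ := hyc
    have hcomm : Pi.mulSingle i (y i * t * (y i)⁻¹ * t⁻¹) = y * Pi.mulSingle i t * y⁻¹ * (Pi.mulSingle i t)⁻¹ := by
      ext j
      by_cases hj : j = i
      · subst hj
        simp
      · simp [Pi.mulSingle_eq_of_ne hj]
    have hmem : Pi.mulSingle i (y i * t * (y i)⁻¹ * t⁻¹) ∈ N := by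
      rw [hcomm]
      have h1 : Pi.mulSingle i t * y⁻¹ * (Pi.mulSingle i t)⁻¹ ∈ N :=
        (inferInstance : N.Normal).conj_mem _ (N.inv_mem hyN) _
      have h2 := N.mul_mem hyN h1
      simpa [mul_assoc] using h2
    have hne : y i * t * (y i)⁻¹ * t⁻¹ ≠ 1 := by
      intro h
      apply ht
      have : y i * t = t * y i := by
        have h' := congrArg (fun z => z * t * y i) h
        simpa [mul_assoc] using h'
      exact this.symm
    rcases hK.eq_bot_or_eq_top with h | h
    · exfalso
      apply hne
      have : y i * t * (y i)⁻¹ * t⁻¹ ∈ N.comap (MonoidHom.mulSingle (fun _ : Fin n => S) i) := hmem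
      rwa [h, Subgroup.mem_bot] at this
    · have : s ∈ N.comap (MonoidHom.mulSingle (fun _ : Fin n => S) i) := by rw [h]; trivial
      exact this
  refine ⟨Finset.univ.filter (fun i => ∃ y ∈ N, y i ≠ 1), fun x => ⟨fun hx i hi => ?_, fun hx => ?_⟩⟩
  · by_contra hxi
    apply hi
    simp only [Finset.mem_filter, Finset.mem_univ, true_and]
    exact ⟨x, hx, hxi⟩
  · apply Subgroup.pi_mem_of_mulSingle_mem
    intro i
    by_cases hi : ∃ y ∈ N, y i ≠ 1
    · exact key i hi (x i)
    · have : x i = 1 := hx i (by simpa using hi)
      rw [this, Pi.mulSingle_one]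
      exact N.one_mem

end Cfsg.Agent.S5913
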