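import Cfsg.Statements.S5914
import Mathlib
import Cfsg.Agent.Helper9.CharSimple
open Cfsg.Agent.Helper9

set_option autoImplicit false
open Cfsg

namespace Cfsg.Agent.S5914

/-- A non-trivial finite group G is characteristically simple (its only characteristic subgroups are 1 and G) if and only if G is isomorphic to a direct power S^n (n ≥ 1) of some simple group S (possibly cyclic of prime order). -/
theorem result {G : Type*} [Group G] [Finite G] [Nontrivial G] :
    (∀ H : Subgroup G, H.Characteristic → H = ⊥ ∨ H = ⊤) ↔
    ∃ (S : Type) (_ : Group S) (_ : IsSimpleGroup S) (n : ℕ), 1 ≤ n ∧ Nonempty (G ≃* (Fin n → S)) := by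
  constructor
  · intro h
    exact char_simple_exists_pi9 h
  · rintro ⟨S, _, _, n, hn, ⟨e⟩⟩ H hH
    have hH' : (H.map e.toMonoidHom).Characteristic := by
      rw [Subgroup.characteristic_iff_map_le]
      intro ϕ
      rw [Subgroup.map_map]
      have h1 : ϕ.toMonoidHom.comp e.toMonoidHom =
          e.toMonoidHom.comp (e.trans (ϕ.trans e.symm)).toMonoidHom := by
        ext x
        simp
      rw [h1, ← Subgroup.map_map]
      apply Subgroup.map_mono
      exact (Subgroup.characteristic_iff_map_le.mp hH) _
    rcases char_simple_pi9 _ hH' with h | h
    · left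
      exact (Subgroup.map_eq_bot_iff_of_injective H e.injective).mp h
    · right
      rw [eq_top_iff]
      intro x _
      have h2 : e x ∈ H.map e.toMonoidHom := by
        rw [h]
        trivial
      obtain ⟨y, hy, hxy⟩ := h2
      have h3 := e.injective hxy
      rw [← h3]
      exact hy


end Cfsg.Agent.S5914
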