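import Cfsg.Statements.S5946
-- import your own Cfsg.Agent.* helpers here

set_option autoImplicit false
open Cfsg

namespace Cfsg.Agent.S5946

/-- Let F ⊆ K be finite fields with [K : F] = n ≥ 2 and regard K as an n-dimensional F-vector space. The Singer group M ≤ GL_F(K) of multiplications by the non-zero elements of K is self-centralizing: every F-linear automorphism of K commuting with all of M lies in M. -/
theorem result {F K : Type*} [Field F] [Fintype F] [Field K] [Fintype K] [Algebra F K] (n : ℕ) (hn : 2 ≤ n) (hdim : Module.finrank F K = n) :
    Subgroup.centralizer (((Units.map ((Algebra.lmul F K : K →ₐ[F] Module.End F K) : K →* Module.End F K)).range : Subgroup (Module.End F K)ˣ) : Set (Module.End F K)ˣ) = (Units.map ((Algebra.lmul F K : K →ₐ[F] Module.End F K) : K →* Module.End F K)).range := by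
  apply le_antisymm
  · intro g hg
    rw [Subgroup.mem_centralizer_iff] at hg
    have hkey : ∀ k : K, (g : Module.End F K) k = k * (g : Module.End F K) 1 := by
      intro k
      by_cases hk : k = 0
      · subst hk; simp
      · have hmem : Units.map ((Algebra.lmul F K : K →ₐ[F] Module.End F K) : K →* Module.End F K) (Units.mk0 k hk) ∈
            ((Units.map ((Algebra.lmul F K : K →ₐ[F] Module.End F K) : K →* Module.End F K)).range : Set (Module.End F K)ˣ) :=
          ⟨_, rfl⟩
        have h1 := hg _ hmem
        have h2 := congrArg (fun u : (Module.End F K)ˣ => (u : Module.End F K) 1) h1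
        simp at h2
        exact h2.symm
    have hc : (g : Module.End F K) 1 ≠ 0 := by
      intro h0
      have h1 : ((g⁻¹ : (Module.End F K)ˣ) : Module.End F K) * (g : Module.End F K) = 1 := Units.inv_mul g
      have h2 : ((g⁻¹ : (Module.End F K)ˣ) : Module.End F K) ((g : Module.End F K) 1) = 1 := by
        have h3 := congrArg (fun e : Module.End F K => e 1) h1
        exact h3
      rw [h0, map_zero] at h2
      exact zero_ne_one h2
    refine ⟨Units.mk0 _ hc, ?_⟩
    apply Units.ext
    apply LinearMap.ext
    intro k
    rw [hkey k]
    simp [mul_comm]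
  · rintro _ ⟨u, rfl⟩
    rw [Subgroup.mem_centralizer_iff]
    rintro _ ⟨v, rfl⟩
    rw [← map_mul, ← map_mul, mul_comm]

end Cfsg.Agent.S5946
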